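import Cfsg.Statements.S4167
import Cfsg.Agent.H1.CS
import Cfsg.Agent.S0111

set_option autoImplicit false
open Cfsg

namespace Cfsg.Agent.S4167

open scoped Pointwise
open H1
open Subgroup in
theorem aux.{u} (G : Type u) [Group G] [Finite G] : (∀ x : G, ¬ 4 ∣ (Subgroup.centralizer ({x} : Set G)).index) →
    Group.IsSolvable G := by
  refine solvable_of_simple (P := fun G _ _ => ∀ x : G, ¬ 4 ∣ (Subgroup.centralizer ({x} : Set G)).index)
    (fun G _ _ N _ h x hd => h x (hd.trans (ci_normal_dvd N x)))
    (fun G _ _ N _ h x hd => ?_) (fun G _ _ _ h => ?_) G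
  · obtain ⟨g, rfl⟩ := QuotientGroup.mk_surjective x
    exact h g (hd.trans (index_centralizer_mk_dvd N g))
  by_contra hG
  haveI : Fact (Nat.Prime 2) := ⟨Nat.prime_two⟩
  obtain ⟨P⟩ : Nonempty (Sylow 2 G) := inferInstance
  have hP : (P : Subgroup G) ≠ ⊥ := fun e =>
    ((isSylowIn_top P).eq_bot_iff.1 e) (by rw [card_top]; exact even_of_not_solvable hG)
  have hZ := inf_centralizer_ne_bot_of_isPGroup P.isPGroup' P.isPGroup' le_normalizer hP
  have h2 : 2 ∣ Nat.card ((P : Subgroup G) ⊓ centralizer ((P : Subgroup G) : Set G) : Subgroup G) := by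
    obtain ⟨k, hk⟩ := IsPGroup.iff_card.1 (P.isPGroup'.to_inf_left (K := centralizer ((P : Subgroup G) : Set G)))
    rw [hk]
    rcases k with _ | k
    · exact absurd (Subgroup.card_eq_one.1 (by simpa using hk)) hZ
    · exact dvd_pow_self 2 (by omega)
  obtain ⟨z, ⟨hzP, hzC⟩, hz⟩ := exists_mem_orderOf_eq_prime Nat.prime_two h2
  -- every element centralizes a conjugate of `z`
  have key : centralizer {z} = ⊤ := by
    apply eq_top_of_cover
    intro x
    obtain ⟨S, hS⟩ := exists_isSylowIn (p := 2) (centralizer {x})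
    obtain ⟨g, -, hg⟩ := (isSylowIn_top P).exists_conj_le hS.isPGroup le_top
    have hi : ¬ 4 ∣ (MulAut.conj g • S : Subgroup G).relIndex P := by
      intro hd
      have e1 : (MulAut.conj g • S : Subgroup G).relIndex P * (P : Subgroup G).index =
          S.relIndex (centralizer {x}) * (centralizer {x}).index := by
        rw [relIndex_mul_index hg, relIndex_mul_index hS.le, index_conj_smul]
      have : 4 ∣ S.relIndex (centralizer {x}) * (centralizer {x}).index := e1 ▸ hd.mul_right _
      have hc : Nat.Coprime 4 (S.relIndex (centralizer {x})) := by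
        have := (Nat.Prime.coprime_iff_not_dvd Nat.prime_two).2 hS.not_dvd
        exact Nat.Coprime.pow_left 2 this
      exact h x (hc.dvd_of_dvd_mul_left this)
    have hz' : ∃ c : G, c * z * c⁻¹ ∈ (MulAut.conj g • S : Subgroup G) := by
      by_cases hzS : z ∈ (MulAut.conj g • S : Subgroup G)
      · exact ⟨1, by simpa using hzS⟩
      obtain ⟨k, hk⟩ : ∃ k, (MulAut.conj g • S : Subgroup G).relIndex P = 2 ^ k := by
        obtain ⟨n, hn⟩ := IsPGroup.iff_card.1 P.isPGroup'
        obtain ⟨k, -, hk⟩ := (Nat.dvd_prime_pow Nat.prime_two).1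
          (hn ▸ (relIndex_dvd_card (MulAut.conj g • S) (P : Subgroup G)))
        exact ⟨k, hk⟩
      have hk1 : k = 1 := by
        rcases k with _ | _ | k
        · exact absurd (relIndex_eq_one.1 (by simpa using hk) hzP) hzS
        · rfl
        · exact absurd (by rw [hk]; exact ⟨2 ^ k, by ring⟩) hi
      rcases Cfsg.Agent.S0111.result P _ hg (by rw [hk, hk1]; rfl) z hz hzP hzS with ⟨M, hM, hM2, -⟩ | hc
      · rcases hM.eq_bot_or_eq_top with e | e
        · rw [e, index_bot] at hM2
          exact absurd (isSolvable_of_isPGroup (IsPGroup.of_card (p := 2) (n := 1) (by simpa using hM2))) hG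
        · rw [e, index_top] at hM2; omega
      · exact hc
    obtain ⟨c, hc⟩ := hz'
    have h1 := mem_centralizer_singleton_iff.1 (hS.le (mem_conj_smul.1 hc))
    refine ⟨c⁻¹ * g, mem_centralizer_singleton_iff.2 ?_⟩
    calc c⁻¹ * g * x * (c⁻¹ * g)⁻¹ * z = c⁻¹ * g * (x * (g⁻¹ * (c * z * c⁻¹) * g)) * (c⁻¹ * g)⁻¹ := by group
      _ = _ := by rw [← h1]; group
  have : z ∈ center G := ci_eq_one_iff.1 (by rw [key, index_top])
  rw [center_eq_bot_of_simple hG, Subgroup.mem_bot] at this
  exact two_ne hz this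

/-- Let G be a finite group in which no conjugacy class has size divisible by 4. Then G is solvable. -/
theorem result {G : Type*} [Group G] [Finite G]
    (h : ∀ x : G, ¬ 4 ∣ (Subgroup.centralizer ({x} : Set G)).index) : Group.IsSolvable G := by
  exact aux G h

end Cfsg.Agent.S4167
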