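import Cfsg.Statements.S0948
import Cfsg.Agent.H4.Klein

set_option autoImplicit false
open Cfsg

namespace Cfsg.Agent.S0948

open H4 H1 MonoidAlgebra
open scoped Pointwise


/-- Let the finite group G have a Sylow 2-subgroup P that is a Klein four-group, suppose all involutions of G are conjugate, and fix a maximal ideal M of the algebraic integers containing 2. Then the principal block consists of exactly four irreducible characters, the principal character and ζ₂, ζ₃, ζ₄, and there is a sign ε such that for every involution z: ζ₂ z = 1, ζ₃ z = ε, ζ₄ z = -1; moreover ζ₂ 1 ≡ 1, ζ₃ 1 ≡ ε, ζ₄ 1 ≡ -1 (mod 4), and 1 + ζ₂ y + ε ζ₃ y - ζ₄ y = 0 for every y of odd order. -/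
theorem result {G : Type*} [Group G] [Finite G] (M : Ideal Cfsg.AlgInt) (hM : Cfsg.IsPModular 2 M) (P : Sylow 2 G) (hP : IsKleinFour (P : Subgroup G)) (hone : ∀ s t : G, orderOf s = 2 → orderOf t = 2 → IsConj s t) : ∃ ζ₂ ζ₃ ζ₄ : Cfsg.IrrCharacter G, ∃ ε : ℤ, (ε = 1 ∨ ε = -1) ∧ (ζ₂ : G → ℂ) ≠ (fun _ => 1) ∧ (ζ₃ : G → ℂ) ≠ (fun _ => 1) ∧ ζ₂ ≠ ζ₃ ∧ ζ₂ ≠ ζ₄ ∧ ζ₃ ≠ ζ₄ ∧ Cfsg.principalBlock M G = {χ : Cfsg.IrrCharacter G | (χ : G → ℂ) = (fun _ => 1) ∨ χ = ζ₂ ∨ χ = ζ₃ ∨ χ = ζ₄} ∧ (∀ z : G, orderOf z = 2 → (ζ₂ : G → ℂ) z = 1 ∧ (ζ₃ : G → ℂ) z = (ε : ℂ) ∧ (ζ₄ : G → ℂ) z = -1) ∧ (4 : ℤ) ∣ (Cfsg.charDegree (ζ₂ : G → ℂ) : ℤ) - 1 ∧ (4 : ℤ) ∣ (Cfsg.charDegree (ζ₃ : G → ℂ) : ℤ) - ε ∧ (4 : ℤ) ∣ (Cfsg.charDegree (ζ₄ : G → ℂ) : ℤ) + 1 ∧ ∀ y : G, Odd (orderOf y) → 1 + (ζ₂ : G → ℂ) y + (ε : ℂ) * (ζ₃ : G → ℂ) y - (ζ₄ : G → ℂ) y = 0 := by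
  classical
  obtain ⟨ε, h1, h2, h3⟩ := k4_principal hM hP hone
  obtain ⟨t, -, ht⟩ := exists_ne_one_two hP
  have h0 := triv_mem_principal (G := G) hM
  have h4 : ε (triv G) = 1 := Int.cast_injective (α := ℂ) (by simpa using ((h2 _ h0).2.1 t ht.symm.dvd).symm)
  have h5 := h3 1
  rw [← Finset.add_sum_erase _ _ (mem_fs.2 h0), h4, if_neg (by simp)] at h5
  simp only [irr_one_eq] at h5
  rw [charDegree_of_eq (χ := (triv G).1) (n := 1) (by simp)] at h5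
  replace h5 : 1 + ∑ χ ∈ (fs (principalBlock M G)).erase (triv G), (charDegree χ.1 : ℤ) * ε χ = 0 := by exact_mod_cast h5
  have h6 : ((fs (principalBlock M G)).erase (triv G)).card = 3 := by rw [Finset.card_erase_of_mem (mem_fs.2 h0), card_fs, h1]
  obtain ⟨c, hc, h7⟩ : ∃ c ∈ (fs (principalBlock M G)).erase (triv G), ε c = -1 := by
    by_contra! h
    have := Finset.sum_nonneg (s := (fs (principalBlock M G)).erase (triv G)) (f := fun χ => (charDegree χ.1 : ℤ) * ε χ)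
      fun χ hχ => by simp [(h2 χ (mem_fs.1 (Finset.mem_of_mem_erase hχ))).1.resolve_right (h χ hχ)]
    omega
  obtain ⟨a, ha, h8⟩ : ∃ a ∈ (fs (principalBlock M G)).erase (triv G), ε a = 1 := by
    by_contra! h
    have := Finset.sum_le_card_nsmul ((fs (principalBlock M G)).erase (triv G)) (fun χ => (charDegree χ.1 : ℤ) * ε χ) (-1)
      fun χ hχ => by
        simpa [(h2 χ (mem_fs.1 (Finset.mem_of_mem_erase hχ))).1.resolve_left (h χ hχ), Nat.one_le_iff_ne_zero] using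
          charDegree_ne_zero χ.2
    rw [h6] at this
    simp at this; omega
  have hac : a ≠ c := fun e => by rw [e, h7] at h8; omega
  have hc' := Finset.mem_erase.2 ⟨hac.symm, hc⟩
  obtain ⟨b, hb⟩ := Finset.card_eq_one.1 (show (((fs (principalBlock M G)).erase (triv G)).erase a |>.erase c).card = 1 by
    rw [Finset.card_erase_of_mem hc', Finset.card_erase_of_mem ha, h6])
  have hb' := hb.ge (Finset.mem_singleton_self b)
  simp only [Finset.mem_erase, mem_fs] at ha hc hb'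
  have hB : principalBlock M G = {χ | χ.1 = (fun _ => 1) ∨ χ = a ∨ χ = b ∨ χ = c} := by
    ext χ
    refine ⟨fun h => by_contra fun h' => ?_, ?_⟩
    · simp only [Set.mem_setOf_eq, not_or] at h'
      exact h'.2.2.1 (Finset.mem_singleton.1 (hb.le (by simpa [h, h'] using fun e : χ = triv G => h'.1 (e ▸ rfl))))
    · rintro (h | rfl | rfl | rfl)
      exacts [(show χ = triv G from Subtype.ext h) ▸ h0, ha.2, hb'.2.2.2, hc.2]
  have k1 : a.1 ≠ fun _ => 1 := fun e => ha.1 (Subtype.ext e)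
  have k2 : b.1 ≠ fun _ => 1 := fun e => hb'.2.2.1 (Subtype.ext e)
  refine ⟨a, b, c, ε b, (h2 b hb'.2.2.2).1, k1, k2, hb'.2.1.symm, hac, hb'.1, hB, fun z hz => ⟨?_, ?_, ?_⟩,
    h8 ▸ (h2 a ha.2).2.2, (h2 b hb'.2.2.2).2.2, by simpa [h7] using (h2 c hc.2).2.2, fun y hy => ?_⟩
  · simpa [h8] using (h2 a ha.2).2.1 z hz.symm.dvd
  · exact (h2 b hb'.2.2.2).2.1 z hz.symm.dvd
  · simpa [h7] using (h2 c hc.2).2.1 z hz.symm.dvd
  · have := h3 y
    rw [sum_four hB ⟨k1, k2, fun e => hc.1 (Subtype.ext e), hb'.2.1.symm, hac, hb'.1⟩, if_neg hy.not_two_dvd_nat, h4, h7, h8] at this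
    simp at this
    linear_combination this

end Cfsg.Agent.S0948
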