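import Cfsg.Statements.S2568
import Cfsg.Agent.H5.Spec
import Cfsg.Agent.H5.SS

set_option autoImplicit false
open Cfsg

namespace Cfsg.Agent.S2568

open H5 Matrix Polynomial UniqueFactorizationMonoid

theorem card_ms (S : Type*) [Finite S] (m : ℕ) :
    Nat.card {M : Multiset S // M ≠ 0 ∧ M.card ≤ m} = (m + Nat.card S).choose (Nat.card S) - 1 := by
  have e : {M : Multiset S // M.card ≤ m} ≃ Σ c : Fin (m + 1), Sym S c :=
    { toFun := fun M => ⟨⟨M.1.card, Nat.lt_succ_of_le M.2⟩, M.1, rfl⟩
      invFun := fun s => ⟨s.2.1, s.2.2.le.trans (Nat.le_of_lt_succ s.1.2)⟩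
      left_inv := fun _ => rfl
      right_inv := by rintro ⟨⟨c, h⟩, M, e⟩; cases e; rfl }
  have : Finite {M : Multiset S // M.card ≤ m} := Finite.of_equiv _ e.symm
  have h := Nat.card_congr e
  simp only [Nat.card_sigma, Sym.natCard_sym_eq_multichoose] at h
  rw [Fin.sum_univ_eq_sum_range (fun c => (Nat.card S).multichoose c), Nat.sum_range_multichoose] at h
  classical
  have := Fintype.ofFinite {M : Multiset S // M.card ≤ m}
  rw [← h, ← Nat.card_congr (Equiv.subtypeSubtypeEquivSubtypeInter (fun M : Multiset S => M.card ≤ m) (· ≠ 0) |>.trans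
    (Equiv.subtypeEquivRight fun _ => and_comm)), Nat.card_congr (Equiv.subtypeEquivRight
      (q := fun M : {M : Multiset S // M.card ≤ m} => M ≠ ⟨0, by simp⟩) (by simp [Subtype.ext_iff]))]
  simp

/-- Number of conjugacy classes of elements of a given prime order r, coprime to the characteristic, in GL_n(q): if i is the multiplicative order of q modulo r and t = (r − 1)/i, the classes correspond to the non-zero t-tuples of natural numbers (a_1, …, a_t) with i(a_1 + ⋯ + a_t) ≤ n (a_j is the multiplicity of the j-th Frobenius orbit of nontrivial r-th roots of unity among the eigenvalues), so there are exactly C(⌊n/i⌋ + t, t) − 1 of them. -/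
theorem result {F : Type*} [Field F] [Fintype F] {p q : ℕ} [Fact p.Prime] [CharP F p] (hF : Fintype.card F = q) (n r i t : ℕ) (hr : r.Prime) (hrp : r ≠ p) (hi : i = orderOf (q : ZMod r)) (ht : t * i = r - 1) : Nat.card {C : ConjClasses (GL (Fin n) F) // ∃ g : GL (Fin n) F, ConjClasses.mk g = C ∧ orderOf g = r} = Nat.choose (n / i + t) t - 1 := by
  classical
  subst hF
  have := Fact.mk hr
  have r0 := cast_ne (F := F) p hr hrp
  have i0 : 0 < i := hi ▸ ord_pos hr r0
  obtain ⟨f, pp, hf⟩ := FiniteField.card F p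
  have c := (Nat.coprime_primes pp hr).2 hrp.symm
  have o : orderOf (ZMod.unitOfCoprime _ (c.pow_left f)) = i := by rw [← orderOf_units, ZMod.coe_unitOfCoprime, ← hf, hi]
  set S := (normalizedFactors (cyclotomic r F)).toFinset
  have mS : ∀ P, P ∈ S ↔ Irreducible P ∧ P.Monic ∧ P ∣ cyclotomic r F := fun P => by
    rw [Multiset.mem_toFinset, Polynomial.mem_normalizedFactors_iff (cyclotomic_ne_zero r F)]
  have dS : ∀ P ∈ S, P.natDegree = i := fun P h => o ▸ natDegree_of_mem_normalizedFactors_cyclotomic hf c (Multiset.mem_toFinset.1 h)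
  have cS : Nat.card S = t := by
    rw [Nat.card_eq_finsetCard, normalizedFactors_cyclotomic_card hf c, o, Nat.totient_prime hr, ← ht, Nat.mul_div_cancel _ i0]
  have X1 : X - C 1 ∉ S := fun h => r0 (by simpa using dvd_iff_isRoot.1 ((mS _).1 h).2.2)
  let N : Multiset S → Multiset F[X] := fun M => .replicate (n - i * M.card) (X - C 1) + M.map Subtype.val
  have hN : ∀ M, ∀ P ∈ N M, Irreducible P ∧ P.Monic ∧ P ∣ X ^ r - 1 := fun M P h => by
    rw [← cyclotomic_prime_mul_X_sub_one]
    rcases Multiset.mem_add.1 h with h | h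
    · rw [Multiset.eq_of_mem_replicate h]; exact ⟨irreducible_X_sub_C 1, monic_X_sub_C 1, Dvd.intro_left _ rfl⟩
    · obtain ⟨⟨P, h'⟩, -, rfl⟩ := Multiset.mem_map.1 h
      exact ((mS P).1 h').imp_right (.imp_right (·.mul_right _))
  have inj : ∀ M M', (N M).prod = (N M').prod → M = M' := fun M M' e => by
    have k : ∀ M, normalizedFactors (N M).prod = N M := fun M => by
      rw [normalizedFactors_prod_eq _ fun a h => (hN M a h).1, Multiset.map_congr rfl fun a h => (hN M a h).2.1.normalize_eq_self, Multiset.map_id']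
    have := (k M).symm.trans ((congrArg _ e).trans (k M'))
    ext s
    have := congrArg (Multiset.count s.1) this
    simpa [N, Multiset.count_replicate, show X - 1 ≠ s.1 from fun e => X1 (C_1 (R := F) ▸ e ▸ s.2),
      Multiset.count_map_eq_count' _ _ Subtype.val_injective] using this
  have dg : ∀ M : Multiset S, (M.map Subtype.val).prod.natDegree = i * M.card := fun M => by
    rw [natDegree_multiset_prod_of_monic _ (by simp [mS]; tauto), Multiset.map_map, Multiset.map_congr (f := natDegree ∘ Subtype.val) (g := fun _ => i) rfl fun s _ => dS _ s.2]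
    simp [mul_comm]
  rw [← cS, ← card_ms]
  refine card_classes (fun g M => g ^ r = 1 ∧ g.1.charpoly = (N M.1).prod) (fun g => ⟨fun h => ?_, fun ⟨M, h1, h2⟩ => ?_⟩) (fun M => ?_)
    fun g g' M M' h h' => ⟨fun e => Subtype.ext (inj _ _ (by rw [← h.2, ← h'.2, IsConj.charpoly (isConj_GL.1 e)])), fun e => ?_⟩
  · have h1 : g.1 ^ r = 1 := by rw [← h, ← Units.val_pow_eq_pow_val, pow_orderOf_eq_one]; rfl
    set T := normalizedFactors g.1.charpoly
    obtain ⟨M, hM⟩ : ∃ M : Multiset S, M.map Subtype.val = T.filter (· ∈ S) := CanLift.prf _ fun x hx => (Multiset.mem_filter.1 hx).2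
    have e1 : T.filter (· ∉ S) = .replicate (T.filter (· ∉ S)).card (X - C 1) := Multiset.eq_replicate_card.2 fun P hP => by
      obtain ⟨k1, k2⟩ := Multiset.mem_filter.1 hP
      obtain ⟨k3, k4, k5⟩ := (Polynomial.mem_normalizedFactors_iff g.1.charpoly_monic.ne_zero).1 k1
      have := dvd_of_charpoly k3 k5 (f := cyclotomic r F * (X - C 1)) (by simp [cyclotomic_prime_mul_X_sub_one, h1])
      exact eq_of_monic_of_associated k4 (monic_X_sub_C 1) (k3.associated_of_dvd (irreducible_X_sub_C 1)
        ((k3.prime.dvd_or_dvd this).resolve_left fun d => k2 ((mS P).2 ⟨k3, k4, d⟩)))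
    have e2 : g.1.charpoly = (X - C 1) ^ (T.filter (· ∉ S)).card * (M.map Subtype.val).prod := by
      rw [← Multiset.prod_replicate, ← e1, hM, ← Multiset.prod_add, add_comm, Multiset.filter_add_not,
        prod_normalizedFactors_eq g.1.charpoly_monic.ne_zero, g.1.charpoly_monic.normalize_eq_self]
    have e3 := congrArg natDegree e2
    rw [((monic_X_sub_C 1).pow _).natDegree_mul (monic_multiset_prod_of_monic _ _ (by simp [mS]; tauto)), dg] at e3
    simp only [charpoly_natDegree_eq_dim, Fintype.card_fin, natDegree_pow, natDegree_X_sub_C, mul_one] at e3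
    refine ⟨⟨M, ?_, (Nat.le_div_iff_mul_le i0).2 (by rw [mul_comm]; omega)⟩, h ▸ pow_orderOf_eq_one g, by
      simp only [N, Multiset.prod_add, Multiset.prod_replicate]; rw [e2]; congr 2; omega⟩
    rintro rfl
    obtain ⟨P, hP, d1, d2⟩ := exists_irr (sqf r0 one_ne_zero (h1.trans (one_smul _ _).symm)) (f := X - C 1) (by
      simpa [sub_eq_zero] using fun e => hr.ne_one (h ▸ orderOf_eq_one_iff.2 e))
    exact d2 (hP.prime.dvd_of_dvd_pow (by simpa [← e2] using d1.trans (minpoly_dvd_charpoly _) |>.trans e2.dvd))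
  · refine orderOf_eq_prime h1 ?_
    rintro rfl
    exact M.2.1 (inj _ _ (by rw [← h2]; simp [N, charpoly_one]))
  · have le : i * M.1.card ≤ n := by rw [mul_comm]; exact (Nat.le_div_iff_mul_le i0).1 M.2.2
    have mo : (N M.1).prod.Monic := by simpa using monic_multiset_prod_of_monic (N M.1) id fun P h => (hN _ P h).2.1
    obtain ⟨A, hA, -⟩ := exists_companion mo (n := n) (by
      simp only [N, Multiset.prod_add, Multiset.prod_replicate]
      rw [((monic_X_sub_C 1).pow _).natDegree_mul (monic_multiset_prod_of_monic _ _ (by simp [mS]; tauto)), dg, natDegree_pow, natDegree_X_sub_C]; omega)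
    have k : ∀ P, Irreducible P → P ∣ (N M.1).prod → P ∣ X ^ r - 1 := fun P h d => by
      obtain ⟨Q, h1, h2⟩ := h.prime.exists_mem_multiset_dvd d
      exact h2.trans (hN _ Q h1).2.2
    obtain ⟨g, h1, h2⟩ := exists_ss_part p (Units.coeHom _) (GeneralLinearGroup.mkOfDetNeZero A fun e => by
      have := k X irreducible_X (X_dvd_iff.2 (by simpa [det_eq_sign_charpoly_coeff, hA] using e))
      simp [X_dvd_iff, hr.ne_zero.symm, coeff_X_pow] at this)
    refine ⟨g, Units.ext ?_, h2.trans hA⟩
    by_contra e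
    obtain ⟨P, hP, d1, d2⟩ := exists_irr (A := g.1) (sqf (m := orderOf g) (z := 1) (by
      rw [Ne, CharP.cast_eq_zero_iff F p]; exact pp.coprime_iff_not_dvd.1 h1.symm) one_ne_zero
      (by rw [← Units.val_pow_eq_pow_val, pow_orderOf_eq_one]; simp)) (f := X ^ r - 1) (by simpa [sub_eq_zero] using e)
    exact d2 (k P hP (d1.trans ((minpoly_dvd_charpoly _).trans (h2.trans hA).dvd)))
  · exact isConj_GL.2 (isConj_of_charpoly (semisimple_of_pow r0 (congrArg Units.val h.1)) (semisimple_of_pow r0 (congrArg Units.val h'.1))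
      (by rw [h.2, h'.2, e]))


end Cfsg.Agent.S2568
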