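import Cfsg.Statements.S2637
import Cfsg.Agent.H5.Adj
import Cfsg.Agent.H5.Tr
import Cfsg.Agent.H5.Inv3

set_option autoImplicit false
open Cfsg

namespace Cfsg.Agent.S2637

open H5 H5.Form Matrix Polynomial Module

theorem isConj_of_irr {F ι : Type*} [Field F] [Finite F] [Fintype ι] [DecidableEq ι] {A B : Matrix ι ι F} {P : F[X]} (hP : Irreducible P)
    (hA : aeval A P = 0) (hB : aeval B P = 0) : IsConj A B := isConj_of_rank fun f => by
  rcases hP.isCoprime_or_dvd f with ⟨u, v, h⟩ | ⟨g, rfl⟩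
  · have k : ∀ C : Matrix ι ι F, aeval C P = 0 → (aeval C f).rank = Fintype.card ι := fun C hC => rank_of_isUnit _ (by
      have := congrArg (aeval C) h
      rw [map_add, map_mul, hC, mul_zero, zero_add, map_mul, map_one] at this
      exact .of_mul_eq_one_right _ this)
    rw [k A hA, k B hB]
  · rw [map_mul, map_mul, hA, hB, zero_mul, zero_mul]

theorem cent_card {F K : Type*} [Field F] [Field K] [Algebra F K] [Fintype F] [Fintype K] {q : ℕ} (hF : Fintype.card F = q)
    {hK : Fintype.card K = q ^ 2} {W : Type*} [AddCommGroup W] [Module K W] [Module F W] [IsScalarTower F K W] (Φ : Form (unitK hK) W)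
    {θ : K} (hθ : conj hK θ = -θ) (θ0 : θ ≠ 0) {ω : K} (hω : conj hK ω ≠ ω) (b : (Φ.trS hF hθ).isom) (hb : ∀ x, b.1 x = ω • x) :
    Nat.card (Subgroup.centralizer {b}) = Nat.card Φ.isom := by
  have m : ∀ g ∈ Φ.isom, resSc F g ∈ (Φ.trS hF hθ).isom := fun g h => (mem_isom_symp _).2 fun x y => congrArg (trL hF hK θ) (h.1 x y)
  refine (Nat.card_congr (Equiv.ofBijective (fun g : Φ.isom => (⟨⟨_, m g.1 g.2⟩, Subgroup.mem_centralizer_singleton_iff.2
    (Subtype.ext (LinearEquiv.ext fun x => ?_))⟩ : Subgroup.centralizer {b})) ⟨fun g h e => Subtype.ext (LinearEquiv.ext fun x =>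
      congrArg (fun g : Subgroup.centralizer {b} => g.1.1 x) e), fun g => ?_⟩)).symm
  · change g.1 (b.1 x) = b.1 (g.1 x)
    rw [hb, hb, map_smul]
  have c : ∀ x, g.1.1 (ω • x) = ω • g.1.1 x := fun x => by
    rw [← hb, ← hb]; exact congrArg (fun g : (Φ.trS hF hθ).isom => g.1 x) (Subgroup.mem_centralizer_singleton_iff.1 g.2)
  have l : ∀ (a : K) x, g.1.1 (a • x) = a • g.1.1 x := fun a x => by
    have d := sub_ne_zero.2 hω
    have e1 := algebraMap_retr hF hK (x := (conj hK a - a) / (conj hK ω - ω)) (by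
      rw [map_div₀, map_sub, map_sub, conj_conj, conj_conj, ← neg_div_neg_eq, neg_sub, neg_sub])
    have e2 := algebraMap_retr hF hK (x := (a * conj hK ω - conj hK a * ω) / (conj hK ω - ω)) (by
      rw [map_div₀, map_sub, map_sub, map_mul, map_mul, conj_conj, conj_conj, ← neg_div_neg_eq, neg_sub, neg_sub])
    generalize retr F K _ = s at e1
    generalize retr F K _ = t at e2
    have : a = algebraMap F K t + algebraMap F K s * ω := by rw [e1, e2]; field_simp; ring
    rw [this, add_smul, add_smul, mul_smul, mul_smul, algebraMap_smul, algebraMap_smul, algebraMap_smul, algebraMap_smul, map_add,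
      map_smul, map_smul, c]
  refine ⟨⟨{ g.1.1 with map_smul' := l }, (mem_isom_unit _).2 fun x y => ?_⟩, rfl⟩
  change Φ.B (g.1.1 x) (g.1.1 y) = _
  by_contra n
  obtain ⟨a, ha⟩ := trL_ne hF (hK := hK) θ0
  have := (mem_isom_symp _).1 g.1.2 ((a / (Φ.B (g.1.1 x) (g.1.1 y) - Φ.B x y)) • x) y
  rw [l] at this
  refine ha ?_
  rw [← div_mul_cancel₀ a (sub_ne_zero.2 n), mul_sub, map_sub, ← B_smul_left, ← B_smul_left]
  exact sub_eq_zero.2 this

/-- Centraliser of a fixed-point-free element of order three in Sp_2m(q) when q ≡ 2 (mod 3): if x ∈ Sp_2m(F) (|F| = q, m ≥ 1) satisfies x³ = 1 and x − 1 is invertible, then its centraliser in Sp_2m(F) has the order of the unitary group GU_m(q), namely q^(m(m−1)/2) Π_(i=1)^m (q^i − (−1)^i) (x lies in the centre of a subgroup GU_m(q) of Sp_2m(q)). -/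
theorem result {F : Type*} [Field F] [Fintype F] {q : ℕ} (hF : Fintype.card F = q) (hq : q % 3 = 2) {m : ℕ} (hm : 1 ≤ m) (x : Matrix.symplecticGroup (Fin m) F) (hx3 : x ^ 3 = 1) (hfpf : IsUnit ((x : Matrix (Fin m ⊕ Fin m) (Fin m ⊕ Fin m) F) - 1)) : (Nat.card ↥(Subgroup.centralizer ({x} : Set ↥(Matrix.symplecticGroup (Fin m) F))) : ℤ) = (q : ℤ) ^ (m * (m - 1) / 2) * ∏ i : Fin m, ((q : ℤ) ^ ((i : ℕ) + 1) - (-1) ^ ((i : ℕ) + 1)) := by
  obtain ⟨K, _, _, _, hK⟩ := exists_quad_ext F
  rw [hF] at hK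
  obtain ⟨u, u1, ou⟩ := exists_norm_one_gen hK
  obtain ⟨k, hk⟩ : 3 ∣ q + 1 := by omega
  have o : orderOf (u ^ k) = 3 := by rw [orderOf_pow_of_dvd (by omega) (by rw [ou, hk]; simp), ou, hk, Nat.mul_div_cancel _ (by omega)]
  generalize hω : ((u ^ k : Kˣ) : K) = ω
  have w1 : ω * conj hK ω = 1 := by rw [← hω, Units.val_pow_eq_pow_val, map_pow, ← mul_pow, u1, one_pow]
  have w3 : ω ^ 3 = 1 := by rw [← hω, ← Units.val_pow_eq_pow_val, ← o, pow_orderOf_eq_one]; rfl
  have w0 : ω ≠ 1 := fun h => by rw [show u ^ k = 1 from Units.ext (hω.trans h)] at o; simp at o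
  have w2 : ω ^ 2 + ω + 1 = 0 := (mul_eq_zero.1 (show (ω - 1) * _ = 0 by linear_combination w3)).resolve_left (sub_ne_zero.2 w0)
  have w4 : ω * ω ≠ 1 := fun h => w0 (by linear_combination w3 - ω * h)
  have wc : conj hK ω ≠ ω := fun h => w4 (by rwa [h] at w1)
  have hθ : conj hK (conj hK ω - ω) = -(conj hK ω - ω) := by rw [map_sub, conj_conj, neg_sub]
  let Φ := hermF m hK
  have nd : (Φ.trS hF hθ).Nondeg := (hermF_nondeg m hK).tr (trL_ne hF (hK := hK) (sub_ne_zero.2 wc)) fun _ _ => rfl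
  let b : (Φ.trS hF hθ).isom := ⟨resSc F (LinearEquiv.smulOfNeZero K _ ω (left_ne_zero_of_mul_eq_one w1)), (mem_isom_symp _).2 fun x y =>
    congrArg (trL hF hK _) (show Φ.B (ω • x) (ω • y) = _ by
      rw [B_smul_left, B_smul_right, ← mul_assoc]; erw [w1]; rw [one_mul])⟩
  have hb : ∀ x, b.1 x = ω • x := fun _ => rfl
  have T : (Fin m ⊕ Fin m → F) ≃ₗ[F] (Fin m → K) := .ofFinrankEq _ _ (by rw [finrank_res (V := Fin m → K) hF hK]; simp [two_mul])
  have x2 : x.1 ^ 2 + x.1 + 1 = 0 := hfpf.mul_left_cancel (by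
    have : x.1 ^ 3 = 1 := congrArg Subtype.val hx3
    rw [mul_zero, ← sub_eq_zero.2 this]; noncomm_ring)
  have irr : Irreducible (X ^ 2 + X + 1 : F[X]) := by
    have d : (X ^ 2 + X + 1 : F[X]).natDegree = 2 := by compute_degree!
    refine (irreducible_iff_roots_eq_zero_of_degree_le_three d.ge (by omega)).2 (Multiset.eq_zero_of_forall_notMem fun z hz => ?_)
    have hz : z ^ 2 + z + 1 = 0 := by simpa using (mem_roots'.1 hz).2
    have z3 : z ^ 3 = 1 := by linear_combination (z - 1) * hz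
    have e := FiniteField.pow_card z
    rw [hF, show q = 3 * (q / 3) + 2 by omega, pow_add, pow_mul, z3, one_pow, one_mul] at e
    have z1 : z = 1 := by linear_combination z3 - (z + 1) * e
    have h3 : ((3 : ℕ) : F) = 0 := by rw [z1] at hz; push_cast; linear_combination hz
    have := FiniteField.cast_card_eq_zero F
    rw [hF, show q = 3 * (q / 3) + 2 by omega] at this
    push_cast at this h3
    exact one_ne_zero (α := F) (by linear_combination h3 * (1 + (q / 3 : ℕ)) - this)
  obtain ⟨c, hc⟩ := isConj_of_irr (A := x.1) (B := LinearMap.toMatrix' (T.symm.conj b.1)) irr (by simpa using x2)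
    (matrix_ext_mulVec fun v => by
      rw [map_add, map_add, map_pow, aeval_X, map_one]
      simp only [add_mulVec, sq, ← mulVec_mulVec, LinearMap.toMatrix'_mulVec, one_mulVec, zero_mulVec]
      apply T.injective
      simp only [LinearEquiv.conj_apply_apply, LinearEquiv.symm_symm, map_add, LinearEquiv.apply_symm_apply, map_zero, LinearEquiv.coe_coe, hb]
      rw [smul_smul, ← add_smul, ← sq, eq_neg_of_add_eq_zero_left w2, neg_one_smul, neg_add_cancel])
  obtain ⟨e, he, h⟩ := eqv_fpf (sympF_nondeg (F := F) m) (spEquiv m x).2 b.2 nd ((glEquiv c).trans T) (fun v => by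
    simp only [LinearEquiv.trans_apply, glEquiv_apply, spEquiv_apply]
    rw [mulVec_mulVec, hc.eq, ← mulVec_mulVec, LinearMap.toMatrix'_mulVec]
    simp) fun v hv => by
      simp only [spEquiv_apply, mulVec_mulVec] at hv
      refine mulVec_injective_iff_isUnit.2 hfpf ?_
      have : x.1 *ᵥ v = v := by
        conv_rhs => rw [← one_mulVec v, ← show x.1 ^ 3 = 1 from congrArg Subtype.val hx3, pow_succ', sq, ← mulVec_mulVec, hv]
      rw [sub_mulVec, this]; simp
  rw [card_centralizer_congr ((spEquiv m).trans he.isomCongr), show ((spEquiv m).trans he.isomCongr) x = b from Subtype.ext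
    (LinearEquiv.ext fun y => (h (e.symm y)).trans (by simp)), cent_card hF Φ hθ (sub_ne_zero.2 wc) wc b hb,
    card_isom_unit (hermF_nondeg m hK) (n := m) (by simp), guOrd, Finset.prod_range]
  push_cast
  congr 1
  exact Finset.prod_congr rfl fun i _ => by rw [uf_cast (by omega)]; ring


end Cfsg.Agent.S2637
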