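import Cfsg.Statements.S2337
import Cfsg.Agent.H6.Suz4

set_option autoImplicit false
open Cfsg

namespace Cfsg.Agent.S2337

open Module H6.Suz

theorem indep {U W ι : Type*} [Group U] [AddCommGroup W] [Module ℂ W] [Module.Finite ℂ W] [Nontrivial W]
    [Fintype ι] (σ : Representation ℂ U W) (s : ι → U)
    (h : ∀ i j, j ≠ i → LinearMap.trace ℂ W (σ ((s i)⁻¹ * s j)) = 0) :
    Fintype.card ι ≤ finrank ℂ W * finrank ℂ W := by
  rw [← finrank_linearMap ℂ ℂ W W]
  refine LinearIndependent.fintype_card_le_finrank (b := fun i => σ (s i))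
    (Fintype.linearIndependent_iff.2 fun c hc i => ?_)
  have := congrArg (fun f => LinearMap.trace ℂ W (σ (s i)⁻¹ * f)) hc
  simp only [Finset.mul_sum, mul_smul_comm, ← map_mul, map_sum, map_smul, mul_zero, map_zero] at this
  rw [Finset.sum_eq_single i (fun j _ hj => by rw [h i j hj, smul_zero]) (by simp)] at this
  simpa [finrank_pos.ne'] using this

theorem exists_psi {F : Type*} [Field F] [Fintype F] (P : Par F) :
    ∃ ψ : AddChar F ℂ, ψ.IsPrimitive ∧ ∀ x, ψ (P.θ x) = ψ x := by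
  have := P.charP
  letI := ZMod.algebra F 2
  refine ⟨(AddChar.zmodChar 2 (ζ := (-1 : ℂ)) (by norm_num)).compAddMonoidHom
    (Algebra.trace (ZMod 2) F).toAddMonoidHom, .of_ne_one (AddChar.ne_one_iff.2 ?_), fun x => ?_⟩
  · obtain ⟨a, ha⟩ := Algebra.trace_surjective (ZMod 2) F 1
    exact ⟨a, by simp [ha, AddChar.zmodChar_apply, ZMod.val_one]; norm_num⟩
  · exact congrArg (AddChar.zmodChar 2 neg_one_sq) (Algebra.trace_eq_of_algEquiv (A := ZMod 2)
      (AlgEquiv.ofRingEquiv (f := P.θ) fun x => DFunLike.congr_fun (Subsingleton.elim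
        (P.θ.toRingHom.comp (algebraMap (ZMod 2) F)) _) x) x)

/-- For the Suzuki group Sz(q), q = 2^(2m+1) with m ≥ 1 (realised inside Sp₄ over the field with q elements), every irreducible complex representation of degree at least 2 has degree at least 2^m·(q − 1). -/
theorem result {F : Type*} [Field F] [Fintype F] (m : ℕ) (hm : 1 ≤ m) (hF : Fintype.card F = 2 ^ (2 * m + 1)) :
    (∀ (k : ℕ) (ρ : Representation ℂ (Cfsg.Lie.Sz F (2 ^ (m + 1))) (Fin k → ℂ)), ρ.IsIrreducible → 2 ≤ k → 2 ^ m * (2 ^ (2 * m + 1) - 1) ≤ k) := by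
  classical
  intro k ρ hρ hk
  let P := Par.mk m hm hF
  let X := P.lie
  obtain ⟨ψ, hψ, hθ⟩ := exists_psi P
  have h2 := P.two
  let W : F → Submodule ℂ (Fin k → ℂ) := fun μ =>
    { carrier := {v | ∀ b, ρ (X.T 0 b) v = ψ (μ * b) • v}
      add_mem' := fun hv hw b => by rw [map_add, hv, hw, smul_add]
      zero_mem' := fun b => by simp
      smul_mem' := fun c v hv b => by rw [map_smul, hv, smul_comm] }
  have hq : (Fintype.card F : ℂ) ≠ 0 := by simp
  let E : F → Module.End ℂ (Fin k → ℂ) := fun μ => (Fintype.card F : ℂ)⁻¹ • ∑ b, ψ (μ * b) • ρ (X.T 0 b)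
  have hE : ∀ μ, LinearMap.IsProj (W μ) (E μ) := fun μ => ⟨fun v c => by
    simp only [E, LinearMap.smul_apply, LinearMap.sum_apply, map_smul, map_sum, Finset.smul_sum]
    refine Fintype.sum_equiv (Equiv.addLeft c) _ _ fun b => ?_
    rw [smul_comm (ψ _), smul_smul (ψ _), ← AddChar.map_add_eq_mul, ← Module.End.mul_apply, ← map_mul, X.T_mul]
    congr 4 <;> simp <;> grind, fun v hv => by
    simp only [E, LinearMap.smul_apply, LinearMap.sum_apply, hv _, smul_smul, ← AddChar.map_add_eq_mul,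
      show ∀ x : F, x + x = 0 by grind]
    simp [← Nat.cast_smul_eq_nsmul ℂ, smul_smul]⟩
  have hs : ∑ μ, finrank ℂ (W μ) = k := by
    have : ∑ μ, E μ = 1 := by
      simp only [E, ← Finset.smul_sum]
      rw [Finset.sum_comm]
      simp [← Finset.sum_smul, AddChar.sum_mulShift _ hψ, smul_smul]
    have h := congrArg (LinearMap.trace ℂ _) this
    simp only [map_sum, (hE _).trace, LinearMap.trace_one, finrank_fin_fun] at h
    exact_mod_cast h
  obtain ⟨μ₀, h0, h1⟩ : ∃ μ ≠ 0, W μ ≠ ⊥ := by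
    by_contra! h
    rw [Finset.sum_eq_single 0 (fun μ _ hμ => by simp [h μ hμ]) (by simp)] at hs
    have h3 : W 0 = ⊤ := Submodule.eq_top_of_finrank_eq (by simpa)
    have h4 : ρ.ker = ⊤ := (X.simple.eq_bot_or_eq_top_of_normal _ inferInstance).resolve_left fun e => by
      have : X.T 0 1 ∈ ρ.ker := LinearMap.ext fun v => by simpa using (h3 ▸ Submodule.mem_top : v ∈ W 0) 1
      simp [e, X.T_eq_one] at this
    have h5 : (Pi.single ⟨0, by omega⟩ 1 : Fin k → ℂ) ≠ 0 := by simp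
    rcases eq_bot_or_eq_top (⟨ℂ ∙ Pi.single ⟨0, by omega⟩ 1, fun g v hv => by
      rwa [show ρ g = 1 from (h4 ▸ Subgroup.mem_top g : g ∈ ρ.ker)]⟩ : Subrepresentation ρ) with e | e
    · exact h5 (Submodule.span_singleton_eq_bot.1 (congrArg Subrepresentation.toSubmodule e))
    · have := finrank_span_singleton (K := ℂ) h5
      rw [show (ℂ ∙ _) = ⊤ from congrArg Subrepresentation.toSubmodule e] at this
      simp at this
      omega
  have key : ∀ μ ≠ 0, 2 ^ m ≤ finrank ℂ (W μ) := fun μ hμ => by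
    have : Nontrivial (W μ) := by
      obtain ⟨v, hv, hv0⟩ := (Submodule.ne_bot_iff _).1 h1
      obtain ⟨l, hl⟩ := P.exists_mul_θ (μ / μ₀)
      let l' := Units.mk0 l (by rintro rfl; simp [eq_comm, hμ, h0] at hl)
      refine Submodule.nontrivial_iff_ne_bot.2 ((Submodule.ne_bot_iff _).2 ⟨ρ (X.D l')⁻¹ v, fun b => ?_,
        fun e => hv0 (by simpa using congrArg (ρ (X.D l')) e)⟩)
      have := hv (l * P.θ l * b)
      rw [← mul_zero l, ← show _ = X.T (l * 0) (l * P.θ l * b) from X.D_T l' 0 b, hl, ← mul_assoc,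
        mul_div_cancel₀ _ h0] at this
      rw [← map_smul, ← this]
      simp
    let σ := Representation.subrepresentation (ρ.comp X.U.subtype) (W μ) fun u v hv b => by
      change ρ _ (ρ u v) = _ • ρ u v
      rw [← map_smul, ← hv, ← Module.End.mul_apply, ← map_mul, ← SzS.comm_of_mem_Z (X.T_mem_Z b) u.2,
        map_mul, Module.End.mul_apply]
    have h3 := indep σ (fun i : F ⧸ AddSubgroup.zmultiples (μ / P.θ μ) => ⟨_, X.T_mem i.out 0⟩) fun i j hij => by
      obtain ⟨a, b, e, ha⟩ : ∃ a b, (⟨_, X.T_mem i.out 0⟩ : X.U)⁻¹ * ⟨_, X.T_mem j.out 0⟩ = ⟨_, X.T_mem a b⟩ ∧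
          a ∉ AddSubgroup.zmultiples (μ / P.θ μ) := ⟨_, _, Subtype.ext (by
            rw [Subgroup.coe_mul, Subgroup.coe_inv, X.T_inv, X.T_mul]), fun h => hij (by
              rw [← i.out_eq, ← j.out_eq, eq_comm]
              exact QuotientAddGroup.eq.2 (by rwa [show -i.out = i.out by grind]))⟩
      obtain ⟨c, hc⟩ := AddChar.ne_one_iff.1 (hψ (a := μ * a + P.θ μ * a ^ 2) fun e => ha (by
        by_cases h : a = 0
        · simp [h]
        · have : P.θ μ ≠ 0 := by simpa
          rw [show a = μ / P.θ μ by field_simp; grind]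
          exact AddSubgroup.mem_zmultiples _))
      obtain ⟨c, rfl⟩ := P.θ.surjective c
      have h4 := LinearMap.trace_mul_cycle ℂ (σ ⟨_, X.T_mem c 0⟩) (σ ⟨_, X.T_mem a b⟩) (σ (⟨_, X.T_mem c 0⟩)⁻¹)
      rw [← map_mul, ← map_mul, ← map_mul, ← map_mul, inv_mul_cancel, one_mul,
        show (⟨_, X.T_mem c 0⟩ * ⟨_, X.T_mem a b⟩ * (⟨_, X.T_mem c 0⟩)⁻¹ : X.U) = ⟨_, X.T_mem a b⟩ *
          ⟨_, X.T_mem 0 (P.θ c * a + P.θ a * c)⟩ from Subtype.ext (by
            simp only [Subgroup.coe_mul, Subgroup.coe_inv, X.T_conj]; simp [X.T_mul, add_assoc]),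
        map_mul, show σ ⟨_, X.T_mem 0 (P.θ c * a + P.θ a * c)⟩ = ψ (μ * (P.θ c * a + P.θ a * c)) • 1 from
          LinearMap.ext fun v => Subtype.ext (v.2 _), mul_smul_comm, mul_one, map_smul, smul_eq_mul,
        mul_add, AddChar.map_add_eq_mul, ← hθ (μ * (P.θ a * c)), ← AddChar.map_add_eq_mul] at h4
      rw [e]
      refine eq_zero_of_mul_eq_self_left (fun e => hc ?_) h4
      rw [AddChar.mulShift_apply, ← e]
      congr 1
      simp only [map_mul, P.θθ]
      ring
    have h4 := AddSubgroup.card_eq_card_quotient_mul_card_addSubgroup (AddSubgroup.zmultiples (μ / P.θ μ))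
    rw [Nat.card_zmultiples, Nat.card_eq_fintype_card, Nat.card_eq_fintype_card, hF] at h4
    have h5 : addOrderOf (μ / P.θ μ) ≤ 2 :=
      addOrderOf_le_of_nsmul_eq_zero two_pos (by rw [two_nsmul]; grind)
    refine Nat.mul_self_le_mul_self_iff.1 (Nat.le_of_mul_le_mul_right ?_ two_pos)
    rw [← pow_add, ← pow_succ, ← two_mul, h4]
    exact Nat.mul_le_mul h3 h5
  rw [← hs, ← hF, mul_comm, ← Finset.card_univ, ← Finset.card_erase_of_mem (Finset.mem_univ 0),
    ← smul_eq_mul]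
  exact (Finset.card_nsmul_le_sum _ _ _ fun μ hμ => key μ (Finset.ne_of_mem_erase hμ)).trans
    (Finset.sum_le_sum_of_subset (Finset.subset_univ _))

end Cfsg.Agent.S2337
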