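import Cfsg.Statements.S0054
import Cfsg.Agent.H1.Fitting

set_option autoImplicit false
open Cfsg

namespace Cfsg.Agent.S0054

open scoped Pointwise

/-- A regular normal subgroup of a finite 2-transitive group is elementary abelian: it is commutative and all its elements have order dividing one prime. -/
theorem result {G : Type*} [Group G] [Finite G]
    {X : Type*} [Nonempty X] [MulAction G X] (h2 : MulAction.IsMultiplyPretransitive G X 2)
    (N : Subgroup G) [N.Normal] (htrans : MulAction.IsPretransitive N X) (hreg : ∀ x : X, MulAction.stabilizer N x = ⊥) :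
    IsMulCommutative N ∧ ∃ p : ℕ, p.Prime ∧ ∀ n ∈ N, n ^ p = 1 := by
  obtain ⟨x⟩ := ‹Nonempty X›
  have hfix : ∀ n ∈ N, n • x = x → n = 1 := by
    intro n hn h
    have : (⟨n, hn⟩ : N) ∈ MulAction.stabilizer N x := h
    rw [hreg x, Subgroup.mem_bot] at this
    exact congrArg Subtype.val this
  have hconj : ∀ n ∈ N, ∀ m ∈ N, n ≠ 1 → m ≠ 1 → ∃ g : G, g * n * g⁻¹ = m := by
    intro n hn m hm hn1 hm1
    obtain ⟨g, h1, h2⟩ := MulAction.is_two_pretransitive_iff.1 h2
      (show x ≠ n • x from fun h => hn1 (hfix n hn h.symm))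
      (show x ≠ m • x from fun h => hm1 (hfix m hm h.symm))
    refine ⟨g, ?_⟩
    have h3 : g⁻¹ • x = x := by rw [inv_smul_eq_iff, h1]
    have := hfix (m⁻¹ * (g * n * g⁻¹)) (N.mul_mem (N.inv_mem hm) (‹N.Normal›.conj_mem n hn g))
      (by rw [mul_smul, mul_smul, mul_smul, h3, h2, inv_smul_smul])
    rw [inv_mul_eq_one] at this
    exact this.symm
  by_cases h0 : N = ⊥
  · subst h0
    exact ⟨inferInstance, 2, Nat.prime_two, fun n hn => by rw [Subgroup.mem_bot.1 hn, one_pow]⟩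
  obtain ⟨a, ha, hp⟩ := H1.exists_prime_orderOf_mem h0
  have ha1 : a ≠ 1 := by rintro rfl; simp [Nat.not_prime_one] at hp
  have hpow : ∀ n ∈ N, n ^ orderOf a = 1 := by
    intro n hn
    by_cases hn1 : n = 1
    · rw [hn1, one_pow]
    obtain ⟨g, rfl⟩ := hconj a ha n hn ha1 hn1
    rw [conj_pow, pow_orderOf_eq_one, mul_one, mul_inv_cancel]
  refine ⟨?_, _, hp, hpow⟩
  haveI := Fact.mk hp
  have hP := H1.isPGroup_of_pow_eq_one hpow
  obtain ⟨⟨z, hz, hzc⟩, hz1⟩ := Subgroup.ne_bot_iff_exists_ne_one.1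
    (H1.inf_centralizer_ne_bot_of_isPGroup hP hP Subgroup.le_normalizer h0)
  have hz1 : z ≠ 1 := fun h => hz1 (Subtype.ext h)
  refine H1.isMulCommutative_of_comm fun n hn m hm => ?_
  by_cases hn1 : n = 1
  · simp [hn1]
  obtain ⟨g, rfl⟩ := hconj z hz n hn hz1 hn1
  have := hzc (g⁻¹ * m * g) (‹N.Normal›.conj_mem' m hm g)
  calc g * z * g⁻¹ * m = g * (z * (g⁻¹ * m * g)) * g⁻¹ := by group
    _ = g * (g⁻¹ * m * g * z) * g⁻¹ := by rw [this]
    _ = m * (g * z * g⁻¹) := by group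

end Cfsg.Agent.S0054
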