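import Cfsg.Statements.S0158
import Cfsg.Agent.H3.Perm

set_option autoImplicit false
open Cfsg

namespace Cfsg.Agent.S0158

open scoped ComplexConjugate in
theorem aux {G : Type*} [Group G] [Fintype G] {χ : G → ℂ} (hχ : Cfsg.IsIrrCharacter G χ) :
    ∃ a b : ℕ, (Nat.card G : ℂ)⁻¹ * ∑ s : G, χ (s * s) = a - b ∧
      (a + b : ℂ) = Cfsg.classInner χ (fun g => conj (χ g)) := by
  obtain ⟨a, ha⟩ := H3.inner_char_nat (H3.sym_sq_char (H3.irr_char hχ)) H3.char_one
  obtain ⟨b, hb⟩ := H3.inner_char_nat (H3.alt_sq_char (H3.irr_char hχ)) H3.char_one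
  refine ⟨a, b, ?_, ?_⟩
  · rw [← ha, ← hb]
    simp only [Cfsg.classInner, map_one, mul_one, ← mul_sub, ← Finset.sum_sub_distrib]
    congr 1
    exact Finset.sum_congr rfl fun g _ => by ring
  · rw [← ha, ← hb]
    simp only [Cfsg.classInner, map_one, mul_one, ← mul_add, ← Finset.sum_add_distrib,
      Complex.conj_conj]
    congr 1
    exact Finset.sum_congr rfl fun g _ => by ring

/-- The Frobenius–Schur indicator of an irreducible complex representation of a finite group — the average over s of the character at s * s — is 0, 1 or −1, and it vanishes exactly when some character value is not real. -/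
theorem result {G : Type*} [Group G] [Fintype G] {V : Type*} [AddCommGroup V] [Module ℂ V] [FiniteDimensional ℂ V] (ρ : Representation ℂ G V) [ρ.IsIrreducible] : ((Nat.card G : ℂ)⁻¹ * ∑ s : G, ρ.character (s * s) = 0 ∨ (Nat.card G : ℂ)⁻¹ * ∑ s : G, ρ.character (s * s) = 1 ∨ (Nat.card G : ℂ)⁻¹ * ∑ s : G, ρ.character (s * s) = -1) ∧ ((Nat.card G : ℂ)⁻¹ * ∑ s : G, ρ.character (s * s) = 0 ↔ ∃ s : G, (ρ.character s).im ≠ 0) := by
  have hχ := H3.isIrr_character ρ
  obtain ⟨a, b, h1, h2⟩ := aux hχ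
  rw [h1]
  rw [H3.irr_inner hχ (H3.irr_conj hχ)] at h2
  split_ifs at h2 with h
  · have h3 : a + b = 1 := by exact_mod_cast h2
    have h4 : ¬ ∃ s : G, (ρ.character s).im ≠ 0 := by
      rintro ⟨s, hs⟩
      exact hs (Complex.conj_eq_iff_im.mp (congrFun h s).symm)
    rcases Nat.add_eq_one_iff.mp h3 with ⟨rfl, rfl⟩ | ⟨rfl, rfl⟩ <;> simp [h4]
    all_goals simpa using h4
  · have h3 : a + b = 0 := by exact_mod_cast h2
    obtain ⟨rfl, rfl⟩ := Nat.add_eq_zero_iff.mp h3
    simp only [Nat.cast_zero, sub_self, true_or, true_and, true_iff]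
    by_contra hc
    push Not at hc
    exact h (funext fun g => (Complex.conj_eq_iff_im.mpr (hc g)).symm)

end Cfsg.Agent.S0158
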