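import Cfsg.Statements.S0206
import Cfsg.Agent.H1.Invol

set_option autoImplicit false
open Cfsg

namespace Cfsg.Agent.S0206

open H1

/-- Two distinct involutions x, y of a finite group generate a subgroup isomorphic to the dihedral group of order 2·|xy|. -/
theorem result {G : Type*} [Group G] [Finite G] (x y : G) (hx : orderOf x = 2) (hy : orderOf y = 2) (hxy : x ≠ y) : Nonempty (↥(Subgroup.closure ({x, y} : Set G)) ≃* DihedralGroup (orderOf (x * y))) := by
  have h := H5.dih_equiv_closure (orderOf_pos (x * y)).ne' (x * y) x rfl (two_sq hx)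
    (pair_inverts (two_sq hx) (two_sq hy) (Subgroup.mem_zpowers _)) (pair_notMem hx hy hxy)
  have e : Subgroup.closure ({x * y, x} : Set G) = Subgroup.closure {x, y} := by
    refine le_antisymm ((Subgroup.closure_le _).2 ?_) ((Subgroup.closure_le _).2 ?_)
    · rintro _ (rfl | rfl)
      exacts [zpowers_le_closure_pair (Subgroup.mem_zpowers _), Subgroup.subset_closure (by simp)]
    · have h1 : x * y ∈ Subgroup.closure ({x * y, x} : Set G) := Subgroup.subset_closure (Or.inl rfl)
      have h2 : x ∈ Subgroup.closure ({x * y, x} : Set G) := Subgroup.subset_closure (Or.inr rfl)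
      rintro _ (rfl | rfl)
      exacts [h2, (Subgroup.mul_mem_cancel_left _ h2).1 h1]
  rwa [e] at h

end Cfsg.Agent.S0206
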