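import Cfsg.Statements.S0255
import Cfsg.Agent.H5.SL2Cl

set_option autoImplicit false
open Cfsg

namespace Cfsg.Agent.S0255

open H5

/-- PSL_2(7) is isomorphic to PSL_3(2). -/
theorem result {F K : Type*} [Field F] [Fintype F] [Field K] [Fintype K] (hF : Fintype.card F = 7) (hK : Fintype.card K = 2) : Nonempty (Matrix.ProjectiveSpecialLinearGroup (Fin 2) F ≃* Matrix.ProjectiveSpecialLinearGroup (Fin 3) K) := by
  have : CharP F 7 := char_of_card (n := 1) (by norm_num) hF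
  have : CharP K 2 := char_of_card (n := 1) (by norm_num) hK
  have h7 : (7 : F) = 0 := CharP.cast_eq_zero F 7
  have : Fact (Nat.Prime 7) := ⟨by norm_num⟩
  have hS := Matrix.ProjectiveSpecialLinearGroup.rank_two_simple (F := F) (by simp [hF])
  have hG : Nat.card (PSL2 F) = 168 := card_PSL2.trans (card_PS_of hF (by norm_num))
  have hG' : Nat.card (Matrix.ProjectiveSpecialLinearGroup (Fin 3) K) = 168 := by
    have := card_PSL_mul (ι := Fin 3) (F := K)
    rw [hK, Fintype.card_fin, Fin.prod_univ_three] at this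
    simpa using this
  obtain ⟨x, hx⟩ := exists_psl (g := pg (0 : F) (-1) 1 0 (by simp)) (pg_mem_PS.2 (by simp))
  obtain ⟨y, hy⟩ := exists_psl (g := pg (0 : F) 1 (-1) 1 (by simp)) (pg_mem_PS.2 (by simp))
  have a1 : x ^ 2 = 1 := psl_inj (by rw [map_pow, map_one, hx, pow_two_eq_one_iff, kap_pg]; simp)
  have a2 : y ^ 3 = 1 := psl_inj (by rw [map_pow, map_one, hy, pow_three_eq_one_iff, kap_pg]; simp)
  have a3 : orderOf (x * y) = 7 := by
    rw [← orderOf_psl, map_mul, hx, hy, pg_mul, ← orderOf_aff_one 7 (b := (-1 : F)) (by simp)]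
    exact congrArg _ (pg_congr (by simp) (by simp) (by simp) (by simp))
  have a4 : kap (psl (x * y * x * y⁻¹)) = 2 := by
    simp only [map_mul, map_inv, hx, hy, pg_inv, pg_mul, kap_pg]; grind
  have a5 : (x * y * x * y⁻¹) ^ 4 = 1 := psl_inj (by rw [map_pow, map_one, pow_four_eq_one_iff, a4]; simp)
  have a6 : orderOf (x * y * x * y⁻¹) = 4 := orderOf_eq_prime_pow (p := 2) (n := 1) (fun e => by
    have := congrArg psl e
    rw [map_pow, map_one, pow_one, pow_two_eq_one_iff] at this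
    rcases this with h | h
    · rw [h, kap_one] at a4; grind
    · grind) a5
  have a7 : orderOf y = 3 := orderOf_eq_prime a2 (by rintro rfl; rw [map_one, eq_comm, pg_eq_one_iff] at hy; simp at hy)
  have hgen : Subgroup.closure {x, y} = ⊤ := by
    have m1 : x ∈ Subgroup.closure {x, y} := Subgroup.subset_closure (by simp)
    have m2 : y ∈ Subgroup.closure {x, y} := Subgroup.subset_closure (by simp)
    have b1 := a7 ▸ Subgroup.orderOf_dvd_natCard _ m2
    have b2 := a3 ▸ Subgroup.orderOf_dvd_natCard _ (mul_mem m1 m2)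
    have b3 := a6 ▸ Subgroup.orderOf_dvd_natCard _ (mul_mem (mul_mem (mul_mem m1 m2) m1) (inv_mem m2))
    have b4 := (Subgroup.closure {x, y}).card_mul_index
    rw [hG] at b4
    by_contra h
    have b5 := Subgroup.card_dvd_of_injective _ (toPermHom_quotient_injective h)
    rw [hG, Nat.card_perm, ← Subgroup.index] at b5
    obtain ⟨k, hk⟩ : 84 ∣ Nat.card (Subgroup.closure {x, y}) := by omega
    have b6 : (Subgroup.closure {x, y}).index ∣ 2 := ⟨k, by rw [hk] at b4; linarith⟩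
    rcases (Nat.dvd_prime Nat.prime_two).1 b6 with h | h <;> rw [h] at b5 <;> simp at b5
  let X : Matrix.SpecialLinearGroup (Fin 3) (ZMod 2) := ⟨!![1, 1, 0; 0, 1, 0; 0, 0, 1], by decide⟩
  let Y : Matrix.SpecialLinearGroup (Fin 3) (ZMod 2) := ⟨!![0, 1, 0; 0, 0, 1; 1, 0, 0], by decide⟩
  let ψ : Matrix.SpecialLinearGroup (Fin 3) (ZMod 2) →* Matrix.ProjectiveSpecialLinearGroup (Fin 3) K :=
    (QuotientGroup.mk' _).comp (Matrix.SpecialLinearGroup.map (ZMod.castHom (dvd_refl 2) K))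
  have c1 : X ^ 2 = 1 ∧ Y ^ 3 = 1 ∧ (X * Y) ^ 7 = 1 ∧ (X * Y * X * Y ^ 2) ^ 4 = 1 := by decide +kernel
  have c2 : Y⁻¹ = Y ^ 2 := inv_eq_of_mul_eq_one_right (by rw [← pow_succ', c1.2.1])
  obtain ⟨h1, h2⟩ := card_le_168 (x := (x, ψ X)) (y := (y, ψ Y)) (Prod.ext a1 (by rw [Prod.pow_snd, ← map_pow, c1.1]; simp))
    (Prod.ext a2 (by rw [Prod.pow_snd, ← map_pow, c1.2.1]; simp))
    (Prod.ext (orderOf_dvd_iff_pow_eq_one.1 a3.dvd) (by rw [Prod.pow_snd, Prod.snd_mul, ← map_mul, ← map_pow, c1.2.2.1]; simp))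
    (Prod.ext a5 (by
      change (ψ X * ψ Y * ψ X * (ψ Y)⁻¹) ^ 4 = 1
      rw [← map_inv, ← map_mul, ← map_mul, ← map_mul, ← map_pow, c2, c1.2.2.2, map_one]))
  obtain ⟨φ, hφ⟩ := KB.exists_hom_of_graph _ (hG ▸ h2) (by rw [MonoidHom.map_closure, ← hgen]; simp [Set.image_pair])
  have h3 : φ x = ψ X := hφ _ (Subgroup.subset_closure (Or.inl rfl))
  have h4 : Function.Injective φ := by
    rw [← MonoidHom.ker_eq_bot_iff]
    refine (φ.normal_ker.eq_bot_or_eq_top).resolve_right fun h => ?_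
    have h5 : ψ X = 1 := h3 ▸ (h ▸ Subgroup.mem_top x : x ∈ φ.ker)
    obtain ⟨r, -, hr⟩ := Matrix.SpecialLinearGroup.mem_center_iff.1 ((QuotientGroup.eq_one_iff _).1 h5)
    have h6 : Matrix.scalar (Fin 3) r 0 1 = ZMod.castHom (dvd_refl 2) K 1 := congrFun (congrFun hr 0) 1
    simp at h6
  have : Finite (Matrix.ProjectiveSpecialLinearGroup (Fin 3) K) := Nat.finite_of_card_ne_zero (by omega)
  exact ⟨MulEquiv.ofBijective φ (h4.bijective_of_nat_card_le (by omega))⟩


end Cfsg.Agent.S0255
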