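import Cfsg.Statements.S0435
import Cfsg.Agent.H3.M5
import Cfsg.Agent.S0420
import Cfsg.Agent.S1603
import Cfsg.Agent.H5.SL

set_option autoImplicit false
open Cfsg

namespace Cfsg.Agent.S0435

open H3

/-- Involution centralisers in a simple group of order 7920 have order 48. -/
theorem result {G : Type*} [Group G] [Finite G] (hG : Cfsg.IsM11 G) (x : G) (hx : orderOf x = 2) : Nat.card (Subgroup.centralizer ({x} : Set G)) = 48 := by
  have hp : (some 0 : Cfsg.GolayPt) ∈ H7.fs 340831 := by decide +kernel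
  obtain ⟨e⟩ := Cfsg.Agent.S0420.result hG _ H7.dod0_mem _ hp
  obtain ⟨f⟩ := Cfsg.Agent.S1603.result _ H7.dod0_mem _ hp (e x) ((e.orderOf_eq x).trans hx)
  rw [card_C1_equiv e, Nat.card_congr f.toEquiv, H5.card_GL]
  decide +kernel

end Cfsg.Agent.S0435
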