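import Cfsg.Statements.S0447
import Cfsg.Agent.H1.Spin
import Cfsg.Agent.H1.Gaschutz
import Cfsg.Agent.H9.Quad
import Cfsg.Agent.H9.Sec

set_option autoImplicit false
open Cfsg

namespace Cfsg.Agent.S0447

open H1
open Subgroup Equiv

theorem cyc {n : ℕ} (hn : n ≤ 7) {σ : alternatingGroup (Fin n)} (h : orderOf σ = 2) : σ.1.cycleType = {2, 2} := by
  rw [← orderOf_coe] at h
  obtain ⟨k, hk⟩ := Perm.cycleType_prime_order (σ := σ.1) (h ▸ Nat.prime_two)
  have h1 := Perm.sum_cycleType_le σ.1
  have h2 := Perm.sign_of_cycleType σ.1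
  rw [Perm.mem_alternatingGroup.1 σ.2] at h2
  rw [h] at hk
  simp only [hk, Multiset.sum_replicate, Multiset.card_replicate, Fintype.card_fin, smul_eq_mul] at h1 h2
  obtain rfl | rfl | rfl : k = 0 ∨ k = 1 ∨ k = 2 := by omega
  · exact absurd h2 (by decide)
  · exact hk
  · exact absurd h2 (by decide)

theorem cj {n : ℕ} (hn : n ≤ 7) {σ τ : alternatingGroup (Fin n)} (h : orderOf σ = 2) (h' : orderOf τ = 2) :
    IsConj σ τ := by
  obtain ⟨g, hg⟩ := isConj_iff.1 (Perm.isConj_iff_cycleType_eq.2 ((cyc hn h).trans (cyc hn h').symm))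
  rcases Int.units_eq_one_or (Perm.sign g) with e | e
  · exact isConj_iff.2 ⟨⟨g, e⟩, Subtype.ext hg⟩
  obtain ⟨a, ha⟩ : ∃ a, σ.1 a ≠ a := by
    by_contra! c
    rw [show σ = 1 from Subtype.ext (Equiv.ext c), orderOf_one] at h
    omega
  have s : σ.1 (σ.1 a) = a := by
    have := pow_orderOf_eq_one σ
    rw [h, pow_two] at this
    exact congrArg (fun x : alternatingGroup (Fin n) => x.1 a) this
  refine isConj_iff.2 ⟨⟨g * swap a (σ.1 a), by simp [e, ha.symm]⟩, Subtype.ext ?_⟩
  have c : σ.1 * swap a (σ.1 a) = swap a (σ.1 a) * σ.1 := by rw [mul_swap_eq_swap_mul, s, swap_comm]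
  change g * swap a (σ.1 a) * σ.1 * (g * swap a (σ.1 a))⁻¹ = _
  rw [← hg, mul_assoc g, ← c]; group

theorem split {H K : Type*} [Group H] [Finite H] [Group K] (φ : H →* K) (hφ : Function.Surjective φ)
    (hk : φ.ker = center H) (hZ : Nat.card (center H) = 2) (hs : ∀ y, φ y ^ 2 = 1 → y ^ 2 = 1) (s t : K) (j m : ℕ)
    (s2 : s ^ 2 = 1) (t2 : t ^ 2 = 1) (o : orderOf (s * t) = j * 2) (ns : s ∉ zpowers (s * t))
    (hm : Nat.card K = j * 4 * m) (j0 : 0 < j) (mo : Odd m) : ∃ L : Subgroup H, (center H).IsComplement' L := by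
  obtain ⟨s, rfl⟩ := hφ s
  obtain ⟨t, rfl⟩ := hφ t
  rw [← map_mul] at o ns
  have s3 := hs s s2
  have t3 := hs t t2
  have r1 : (s * t) ^ (j * 2) = 1 := by
    rw [pow_mul]; apply hs; rw [map_pow, ← pow_mul, ← o, pow_orderOf_eq_one]
  have o2 : orderOf (s * t) = j * 2 := Nat.dvd_antisymm (orderOf_dvd_of_pow_eq_one r1) (o ▸ orderOf_map_dvd φ _)
  have ns2 : s ∉ zpowers (s * t) := fun c => ns (by rw [← MonoidHom.map_zpowers]; exact mem_map_of_mem φ c)
  have os : Nat.card (zpowers s) = 2 := by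
    rw [Nat.card_zpowers]; exact orderOf_eq_prime s3 fun c => ns2 (c ▸ one_mem _)
  have nm : zpowers s ≤ normalizer (zpowers (s * t) : Set H) := zpowers_le.2 (H9.mem_normalizer_of_cj_le (by
    rw [H9.cj_zpowers, zpowers_le]
    have : s * (s * t) * s⁻¹ = (s * t)⁻¹ := by
      rw [pow_two] at s3 t3
      rw [← mul_assoc, s3, one_mul, mul_inv_rev, inv_eq_of_mul_eq_one_right t3]
    exact this ▸ inv_mem (mem_zpowers _)))
  have el : ∀ x ∈ zpowers s, x = 1 ∨ x = s := fun x hx => by
    obtain ⟨k, rfl⟩ := hx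
    simp only [zpow_eq_zpow_emod' k s3]
    rcases Int.emod_two_eq_zero_or_one k with e | e <;> simp [e]
  have i : zpowers s ⊓ zpowers (s * t) = ⊥ := eq_bot_iff.2 fun x hx =>
    (el x hx.1).resolve_right fun c => ns2 (c ▸ hx.2)
  have c1 := H9.card_sup_mul_card_inf nm
  rw [i, card_bot, mul_one, os, Nat.card_zpowers, o2] at c1
  have i2 : (zpowers s ⊔ zpowers (s * t)) ⊓ center H = ⊥ := eq_bot_iff.2 fun x hx => by
    obtain ⟨a, ha, b, hb, rfl⟩ := (H1.mem_sup_of_le_normalizer_right nm).1 hx.1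
    have e : φ (a * b) = 1 := hk.ge hx.2
    rcases el a ha with rfl | rfl
    · obtain ⟨k, rfl⟩ := hb
      rw [one_mul, map_zpow, ← orderOf_dvd_iff_zpow_eq_one, o, ← o2, orderOf_dvd_iff_zpow_eq_one] at e
      rwa [one_mul]
    · rw [map_mul, mul_eq_one_iff_eq_inv] at e
      exact absurd (by rw [e, inv_mem_iff, ← MonoidHom.map_zpowers]; exact mem_map_of_mem φ hb) ns
  have c2 := H9.card_sup_mul_card_inf (H9.top_le_normalizer (center H) |>.trans' (le_top (a := zpowers s ⊔ zpowers (s * t))))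
  rw [i2, card_bot, mul_one, c1, hZ, sup_comm] at c2
  refine gaschutz_exists inferInstance ?_ i2 rfl
  have c3 := (center H ⊔ (zpowers s ⊔ zpowers (s * t))).card_mul_index
  have c4 := φ.ker.card_mul_index
  rw [index_ker, MonoidHom.range_eq_top.2 hφ, card_top, hk, hZ, hm, ← c3, c2] at c4
  generalize (center H ⊔ (zpowers s ⊔ zpowers (s * t))).index = x at c4
  rw [hZ, ← Nat.eq_of_mul_eq_mul_left (n := j * 8) (m := m) (k := x) (by omega) (by linarith)]
  exact Nat.coprime_two_left.2 mo

theorem ord {K : Type*} [Group K] {x : K} {k : ℕ} (h : x ^ 2 ^ (k + 1) = 1) (h' : x ^ 2 ^ k ≠ 1) :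
    orderOf x = 2 ^ k * 2 := orderOf_eq_prime_pow h' h

theorem nm {K : Type*} [Group K] [DecidableEq K] {x y : K} (h : x ^ 4 = 1) (h' : ∀ k : Fin 4, x ^ k.1 ≠ y) :
    y ∉ zpowers x := by
  rintro ⟨k, rfl⟩
  refine h' ⟨(k % 4).toNat, by omega⟩ ?_
  simp only [zpow_eq_zpow_emod' k h]
  rw [← zpow_natCast, Int.toNat_of_nonneg (by omega)]; rfl

/-- Involutions in double covers of alternating groups: for n ≤ 7, a finite non-split double cover of the alternating group of degree n has exactly one element of order 2 (the central one); for degree 8 there is a non-split double cover with two distinct involutions. -/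
theorem result : (∀ (n : ℕ) (H : Type) (_ : Group H) (_ : Finite H), n ≤ 7 → Cfsg.IsNonsplitDoubleCover H (alternatingGroup (Fin n)) → ∀ x y : H, orderOf x = 2 → orderOf y = 2 → x = y) ∧ ∃ (H : Type) (_ : Group H) (_ : Finite H), Cfsg.IsNonsplitDoubleCover H (alternatingGroup (Fin 8)) ∧ ∃ x y : H, x ≠ y ∧ orderOf x = 2 ∧ orderOf y = 2 := by
  constructor
  · rintro n H _ _ hn ⟨h1, ⟨e⟩, h3⟩ x y hx hy
    let φ : H →* alternatingGroup (Fin n) := e.toMonoidHom.comp (QuotientGroup.mk' _)
    have hφ : Function.Surjective φ := e.surjective.comp (QuotientGroup.mk'_surjective _)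
    have hk : φ.ker = center H := by
      rw [← MonoidHom.comap_ker, (MonoidHom.ker_eq_bot_iff _).2 e.injective, MonoidHom.comap_bot, QuotientGroup.ker_mk']
    clear_value φ
    have key : ∀ x : H, orderOf x = 2 → x ∈ center H := fun x hx => by
      by_contra c
      have x2 : x ^ 2 = 1 := hx ▸ pow_orderOf_eq_one x
      have ox : orderOf (φ x) = 2 := orderOf_eq_prime (by rw [← map_pow, x2, map_one]) fun d => c (hk.le d)
      have z2 : ∀ z ∈ center H, z ^ 2 = 1 := fun z hz => congrArg Subtype.val (h1 ▸ pow_card_eq_one' (x := (⟨z, hz⟩ : center H)))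
      have hs : ∀ y, φ y ^ 2 = 1 → y ^ 2 = 1 := fun y hy => by
        by_cases d : φ y = 1
        · exact z2 y (hk.le d)
        obtain ⟨g, hg⟩ := isConj_iff.1 (cj hn ox (orderOf_eq_prime hy d))
        obtain ⟨g, rfl⟩ := hφ g
        have m : (g * x * g⁻¹)⁻¹ * y ∈ center H := hk.le (by
          rw [MonoidHom.mem_ker, map_mul, map_inv, map_mul, map_mul, map_inv, hg, inv_mul_cancel])
        rw [← mul_inv_cancel_left (g * x * g⁻¹) y, Commute.mul_pow (mem_center_iff.1 m _), z2 _ m, conj_pow, x2]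
        simp
      have n4 : 4 ≤ n := by
        have := Perm.sum_cycleType_le (φ x).1
        simpa [cyc hn ox] using this
      interval_cases n
      · obtain ⟨L, hL⟩ := split φ hφ hk h1 hs ⟨swap 0 1 * swap 2 3, Perm.mem_alternatingGroup.2 (by decide)⟩ ⟨swap 0 2 * swap 1 3, Perm.mem_alternatingGroup.2 (by decide)⟩ (2 ^ 0) 3
          (by decide) (by decide) (ord (by decide) (by decide)) (nm (by decide) (by decide))
          (by rw [nat_card_alternatingGroup]; simp [Nat.factorial]) (by decide) (by decide)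
        exact h3 L hL
      · obtain ⟨L, hL⟩ := split φ hφ hk h1 hs ⟨swap 0 1 * swap 2 3, Perm.mem_alternatingGroup.2 (by decide)⟩ ⟨swap 0 2 * swap 1 3, Perm.mem_alternatingGroup.2 (by decide)⟩ (2 ^ 0) 15
          (by decide) (by decide) (ord (by decide) (by decide)) (nm (by decide) (by decide))
          (by rw [nat_card_alternatingGroup]; simp [Nat.factorial]) (by decide) (by decide)
        exact h3 L hL
      · obtain ⟨L, hL⟩ := split φ hφ hk h1 hs ⟨swap 0 2 * swap 4 5, Perm.mem_alternatingGroup.2 (by decide)⟩ ⟨swap 0 1 * swap 2 3, Perm.mem_alternatingGroup.2 (by decide)⟩ (2 ^ 1) 45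
          (by decide) (by decide) (ord (by decide) (by decide)) (nm (by decide) (by decide))
          (by rw [nat_card_alternatingGroup]; simp [Nat.factorial]) (by decide) (by decide)
        exact h3 L hL
      · obtain ⟨L, hL⟩ := split φ hφ hk h1 hs ⟨swap 0 2 * swap 4 5, Perm.mem_alternatingGroup.2 (by decide)⟩ ⟨swap 0 1 * swap 2 3, Perm.mem_alternatingGroup.2 (by decide)⟩ (2 ^ 1) 315
          (by decide) (by decide) (ord (by decide) (by decide)) (nm (by decide) (by decide))
          (by rw [nat_card_alternatingGroup]; simp [Nat.factorial]) (by decide) (by decide)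
        exact h3 L hL
    obtain ⟨w, -, hw⟩ := (Nat.card_eq_two_iff' (1 : center H)).1 h1
    have ne : ∀ x : H, orderOf x = 2 → x ≠ 1 := fun x hx c => by rw [c, orderOf_one] at hx; omega
    exact congrArg Subtype.val ((hw ⟨x, key x hx⟩ fun c => ne x hx (congrArg Subtype.val c)).trans
      (hw ⟨y, key y hy⟩ fun c => ne y hy (congrArg Subtype.val c)).symm)
  obtain ⟨G, _, _, π, z, h1, h2, h3, h4, h5, h6⟩ := Spin.exists_cover 8
  obtain ⟨y, y1, y2⟩ := h6 rfl
  have c : center G = zpowers z := le_antisymm (fun x hx => h2.le (by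
    have : π x ∈ center (alternatingGroup (Fin 8)) := mem_center_iff.2 fun g => by
      obtain ⟨g, rfl⟩ := h1 g
      rw [← map_mul, mem_center_iff.1 hx, map_mul]
    rwa [alternatingGroup.center_eq_bot (by simp)] at this)) (zpowers_le.2 h3)
  have c2 : Nat.card (center G) = 2 := by rw [c, Nat.card_zpowers, h4]
  refine ⟨G, inferInstance, inferInstance, ⟨c2, ⟨(QuotientGroup.quotientMulEquivOfEq (c.trans h2.symm)).trans
    (QuotientGroup.quotientKerEquivOfSurjective π h1)⟩, fun L hL => ?_⟩, y, z, y1, y2, h4⟩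
  have i := hL.index_eq_card.trans c2
  haveI := normal_of_index_eq_two i
  have : z ∈ L := by
    refine (show commutator G ≤ L from commutator_le.2 fun a _ b _ => ?_) (h5 (by decide))
    rw [commutatorElement_def, mul_assoc, mul_mem_iff_of_index_two i, mul_mem_iff_of_index_two i,
      mul_mem_iff_of_index_two i, inv_mem_iff, inv_mem_iff]
  have : z = 1 := hL.disjoint.le_bot ⟨h3, this⟩
  rw [this, orderOf_one] at h4
  omega

end Cfsg.Agent.S0447
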