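import Cfsg.Statements.S0472
import Cfsg.Agent.H7.Inv23
import Cfsg.Agent.H7.FM7

set_option autoImplicit false
open Cfsg

namespace Cfsg.Agent.S0472

open H7 H7.T

/-- The Fischer group of order 4089470473293004800 exists as a 3-transposition group: a simple group of that order generated by a conjugacy class of 31671 3-transpositions, the centraliser of each being a non-split double cover of a simple group of order 64561751654400. -/
theorem result : ∃ (G : Type) (_ : Group G) (_ : Finite G), Cfsg.IsFi23 G ∧ ∃ D : Set G, Cfsg.IsThreeTranspositionClass D ∧ Nat.card D = 31671 ∧ ∀ d ∈ D, ∃ (K : Type) (_ : Group K), Cfsg.IsFi22 K ∧ Cfsg.IsNonsplitDoubleCover (Subgroup.centralizer ({d} : Set G)) K := by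
  exact ⟨_, _, F23.fin, ⟨simple23 F23, F23.card⟩, F23.D, F23.isCls (trD23 F23) (by decide), F23.ncard_D, fun d hd =>
    ⟨_, _, ⟨simple22 F22, F22.card⟩, (loc23 F23 F22 d hd).nsdc F22 (F23.t3.order hd) (qs23 F23 hd)⟩⟩

end Cfsg.Agent.S0472
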