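import Cfsg.Statements.S0473
import Cfsg.Agent.H7.T.HeF_0

set_option autoImplicit false
open Cfsg

namespace Cfsg.Agent.S0473

open H7 H7.T
theorem emb {G H : Type} [Group G] [Group H] [Finite H] (f : H →* G) (hf : Function.Injective f) (s : IsSimpleGroup H) (k : ¬ (Nat.card H).Prime) :
    ∃ K : Subgroup (commutator G), IsSimpleGroup K ∧ Nat.card K = Nat.card H :=
  have e := (f.ofInjective hf).symm
  have : Finite f.range := .of_equiv _ e.symm.toEquiv
  have e' := (Subgroup.subgroupOfEquivOfLe (le_comm_of_simple e.isSimpleGroup (Nat.card_congr e.toEquiv ▸ k))).trans e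
  ⟨_, e'.isSimpleGroup, Nat.card_congr e'.toEquiv⟩

/-- The largest Fischer 3-transposition group: a group of order 2 · 1255205709190661721292800 generated by a conjugacy class of 306936 3-transpositions, in which a transposition centraliser has order 2 · 4089470473293004800 and contains a simple subgroup of order 4089470473293004800; its subgroup of index 2 is simple and contains simple subgroups of orders 4089470473293004800 and 4030387200. -/
theorem result : ∃ (G : Type) (_ : Group G) (_ : Finite G), Nat.card G = 2 * 1255205709190661721292800 ∧ ∃ D : Set G, Cfsg.IsThreeTranspositionClass D ∧ Nat.card D = 306936 ∧ (∀ d ∈ D, Nat.card (Subgroup.centralizer ({d} : Set G)) = 2 * 4089470473293004800 ∧ ∃ K : Subgroup G, K ≤ Subgroup.centralizer ({d} : Set G) ∧ Cfsg.IsFi23 K) ∧ ∃ H : Subgroup G, H.index = 2 ∧ Cfsg.IsFi24' H ∧ (∃ K : Subgroup H, Cfsg.IsFi23 K) ∧ (∃ K : Subgroup H, Cfsg.IsHe K) := by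
  obtain ⟨⟨e⟩, h⟩ := comm24 F24
  obtain ⟨s, hs⟩ := F24.sgn_of (F24.t1 (trD24 _)) h
  have := simple23 F23
  have := F23.fin
  have k : ∀ d ∈ F24.D, Nat.card (Subgroup.centralizer {d}) = 2 * 4089470473293004800 ∧ ∃ f : _ →* _, Function.Injective f ∧
      f.range ≤ Subgroup.centralizer {d} := fun d hd => by
    obtain ⟨e⟩ := F24.cent_split hd (loc24 F24 F23 d hd) s (hs d hd)
    refine ⟨by rw [Nat.card_congr e.toEquiv, Nat.card_prod, F23.card]; simp; rfl, (Subgroup.subtype _).comp (e.symm.toMonoidHom.comp (MonoidHom.inr _ _)),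
      Subtype.val_injective.comp (e.symm.injective.comp fun _ _ => congrArg Prod.snd), ?_⟩
    rintro _ ⟨x, rfl⟩; exact Subtype.property _
  have := simple_Fi24'
  have := top_He.1
  obtain ⟨f, hf⟩ := he24 F24
  obtain ⟨g, hg, -⟩ := (k _ (F24.gs_mem (a := 0) (by decide))).2
  refine ⟨_, _, F24.fin, F24.card, F24.D, F24.isCls (trD24 _) (by decide), F24.ncard_D, fun d hd => ⟨(k d hd).1, ?_⟩, _, h,
    ⟨e.isSimpleGroup, (Nat.card_congr e.toEquiv).trans card_Fi24'⟩,
    (emb g hg (simple23 F23) (by rw [F23.card]; exact Nat.not_prime_mul (a := 2) (b := 2044735236646502400) (by decide) (by decide))).imp fun _ h => ⟨h.1, h.2.trans F23.card⟩,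
    (emb f hf simple_He (by rw [top_He.2.1]; norm_num)).imp fun _ h => ⟨h.1, h.2.trans top_He.2.1⟩⟩
  obtain ⟨f, hf, l⟩ := (k d hd).2
  exact ⟨_, l, (f.ofInjective hf).symm.isSimpleGroup, (Nat.card_congr (f.ofInjective hf).symm.toEquiv).trans F23.card⟩

end Cfsg.Agent.S0473
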