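import Cfsg.Statements.S0496
import Cfsg.Agent.H3.Ord4

set_option autoImplicit false
open Cfsg

namespace Cfsg.Agent.S0496

/-- A non-abelian finite simple group of order at most 1092 has order 60, 168, 360, 504, 660 or 1092. -/
theorem result {G : Type*} [Group G] [Finite G] [IsSimpleGroup G]
    (hG : ¬ IsMulCommutative G) (h : Nat.card G ≤ 1092) :
    Nat.card G = 60 ∨ Nat.card G = 168 ∨ Nat.card G = 360 ∨ Nat.card G = 504 ∨ Nat.card G = 660 ∨
      Nat.card G = 1092 := by
  have k : ((List.range 1093).all fun n => H3.omaster [(180, 5, 2, 0, 3), (240, 5, 2, 0, 3), (420, 7, 2, 0, 3), (480, 3, 2, 0, 5), (540, 5, 2, 0, 3), (560, 7, 2, 0, 5), (672, 7, 2, 0, 3), (720, 5, 2, 0, 3), (756, 7, 2, 0, 3), (840, 7, 2, 0, 3), (960, 3, 2, 6, 5), (1008, 7, 2, 0, 3), (1080, 5, 2, 0, 3)] n || n == 60 || n == 168 || n == 360 || n == 504 || n == 660 || n == 1092) = true := by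
    decide +kernel
  have := List.all_eq_true.1 k _ (List.mem_range.2 (Nat.lt_succ_of_le h))
  simp only [H3.not_omaster hG, Bool.false_or, Bool.or_eq_true, beq_iff_eq] at this
  omega

end Cfsg.Agent.S0496
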