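import Cfsg.Statements.S0550
import Cfsg.Agent.H1.Primitive

set_option autoImplicit false
open Cfsg

namespace Cfsg.Agent.S0550

/-- Let U be a maximal subgroup with trivial normal core in a finite group G, and A ≠ B two minimal normal subgroups. Then A is the centralizer of B and B that of A, U complements each of them, A and B are non-abelian, and A, B and (A ⊔ B) ∩ U are pairwise isomorphic. -/
theorem result {G : Type*} [Group G] [Finite G] (U : Subgroup G) (hU : IsCoatom U) (hcore : U.normalCore = ⊥) (A B : Subgroup G) [A.Normal] [B.Normal] (hA : A ≠ ⊥) (hB : B ≠ ⊥) (hAmin : ∀ K : Subgroup G, K.Normal → K ≤ A → K = ⊥ ∨ K = A) (hBmin : ∀ K : Subgroup G, K.Normal → K ≤ B → K = ⊥ ∨ K = B) (hAB : A ≠ B) : Subgroup.centralizer (B : Set G) = A ∧ Subgroup.centralizer (A : Set G) = B ∧ Subgroup.IsComplement' A U ∧ Subgroup.IsComplement' B U ∧ ¬ IsMulCommutative A ∧ Nonempty (A ≃* B) ∧ Nonempty (A ≃* ↥((A ⊔ B) ⊓ U)) := by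
  have h0 : A ⊓ B = ⊥ := (hAmin _ inferInstance inf_le_left).resolve_right fun e =>
    hAB ((hBmin A inferInstance (e.ge.trans inf_le_right)).resolve_left hA)
  have h1 : A ≤ Subgroup.centralizer (B : Set G) := H1.le_centralizer_of_normalizes_of_disjoint
    Subgroup.le_normalizer_of_normal Subgroup.le_normalizer_of_normal h0
  have h2 := (H1.centralizer_minimal_of_corefree hU hcore hB A inferInstance h1).resolve_left hA
  have h3 := (H1.centralizer_minimal_of_corefree hU hcore hA B inferInstance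
    (Subgroup.le_centralizer_iff.1 h1)).resolve_left hB
  have h4 := H1.centralizer_inf_eq_bot_of_corefree hU hcore hB
  have h5 := H1.centralizer_inf_eq_bot_of_corefree hU hcore hA
  rw [← h2] at h4
  rw [← h3] at h5
  have key : ∀ A B : Subgroup G, B.Normal → A ⊓ B = ⊥ → B ⊓ U = ⊥ → B ≠ ⊥ →
      Nonempty (A ≃* ↥((A ⊔ B) ⊓ U)) := fun A B _ h1 h2 h3 => by
    refine H1.equiv_of_complements (N := B) h1 (eq_bot_iff.2 (le_trans (le_inf inf_le_right
      (inf_le_left.trans inf_le_right)) h2.le)) ?_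
    have := H1.dedekind_right (A := U) (le_sup_right : B ≤ A ⊔ B) (Or.inl Subgroup.le_normalizer_of_normal)
    rwa [H1.sup_eq_top_of_corefree hU hcore h3, top_inf_eq, inf_comm] at this
  obtain ⟨e1⟩ := key A B inferInstance h0 h5 hB
  obtain ⟨e2⟩ := key B A inferInstance (by rwa [inf_comm]) h4 hA
  rw [sup_comm] at e2
  refine ⟨h2.symm, h3.symm, H1.isComplement'_of_inf_sup h4 ?_, H1.isComplement'_of_inf_sup h5 ?_,
    fun h => hA ?_, ⟨e1.trans e2.symm⟩, ⟨e1⟩⟩
  · rw [sup_comm, H1.sup_eq_top_of_corefree hU hcore hA]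
  · rw [sup_comm, H1.sup_eq_top_of_corefree hU hcore hB]
  · rw [← h0, left_eq_inf]
    exact (Subgroup.le_centralizer A).trans h3.ge

end Cfsg.Agent.S0550
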