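import Cfsg.Statements.S0672
import Cfsg.Agent.PM.Mod

set_option autoImplicit false
open Cfsg

namespace Cfsg.Agent.S0672

open MulAction PM
open scoped Pointwise

/-- Let a finite group act faithfully and doubly transitively with point stabilisers of even order, and let `K` have characteristic `p` dividing the degree. If the heart of the permutation module admits no non-zero equivariant map to the permutation module on unordered pairs (phrased: every intertwining map from the sum-zero functions vanishing on the constants is zero), the action is triply transitive. -/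
theorem result {G : Type*} [Group G] [Finite G] {K : Type*} [Field K] {p : ℕ} [Fact p.Prime] [CharP K p] {Ω : Type*} [Fintype Ω] [DecidableEq Ω] [MulAction G Ω] [FaithfulSMul G Ω] (h2 : MulAction.IsMultiplyPretransitive G Ω 2) (hp : p ∣ Fintype.card Ω) (heven : ∀ a : Ω, Even (Nat.card (MulAction.stabilizer G a))) (h : ∀ f : Representation.IntertwiningMap (Cfsg.permSumZero K G Ω).toRepresentation (Cfsg.permRep K G (Set.powersetCard Ω 2)), (∀ v : (Cfsg.permSumZero K G Ω).toSubmodule, (v : Ω → K) ∈ (Cfsg.permConstants K G Ω).toSubmodule → f v = 0) → f = 0) : MulAction.IsMultiplyPretransitive G Ω 3 := by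
  classical
  refine mt_succ h2 fun s hs c d hc hd => ?_
  obtain ⟨a, b, hab, rfl⟩ := Finset.card_eq_two.1 hs
  have key : ∀ c d : Ω, c ∉ ({a, b} : Finset Ω) → d ∉ ({a, b} : Finset Ω) →
      ∃ g : G, g • ({a, b} : Finset Ω) = {a, b} ∧ g • c = d := by
    intro c d hc hd
    by_contra hn
    let e0 : Set.powersetCard Ω 2 := ⟨{a, b}, hs⟩
    let R : Set.powersetCard Ω 2 → Ω → Prop := fun y x => ∃ g : G, g • e0 = y ∧ g • c = x
    have hR : ∀ (g : G) y x, R (g • y) (g • x) ↔ R y x := fun g y x =>
      ⟨fun ⟨u, h1, h2⟩ => ⟨g⁻¹ * u, by simp [mul_smul, h1], by simp [mul_smul, h2]⟩,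
        fun ⟨u, h1, h2⟩ => ⟨g * u, by simp [mul_smul, h1], by simp [mul_smul, h2]⟩⟩
    let m : K := ∑ x, if R e0 x then 1 else 0
    obtain ⟨u, v, h3, h4⟩ : ∃ u v : K, u * m = v * 2 ∧ (u ≠ 0 ∨ v ≠ 0) := by
      by_cases h5 : (2 : K) = 0
      · exact ⟨0, 1, by simp [h5], Or.inr one_ne_zero⟩
      · exact ⟨2, m, mul_comm _ _, Or.inl h5⟩
    let k : Set.powersetCard Ω 2 → Ω → K := fun y x =>
      u * (if R y x then 1 else 0) - v * if x ∈ (y : Finset Ω) then 1 else 0
    have hk : ∀ (g : G) y x, k (g • y) (g • x) = k y x := fun g y x => by simp [k, hR]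
    have htr : ∀ y, ∃ g : G, g • e0 = y := fun y => by
      obtain ⟨x, z, hxz, e⟩ := Finset.card_eq_two.1 y.2
      obtain ⟨g, rfl, rfl⟩ := two_iff.1 h2 a b x z hab hxz
      exact ⟨g, Subtype.ext (by simp [e0, e, Finset.smul_finset_insert])⟩
    have hsum : ∀ y, ∑ x, k y x = 0 := fun y => by
      obtain ⟨g, rfl⟩ := htr y
      rw [← Fintype.sum_equiv (MulAction.toPerm g) (fun x => k e0 x) _ fun x => (hk g e0 x).symm]
      simp only [k, Finset.sum_sub_distrib, ← Finset.mul_sum]
      rw [sub_eq_zero]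
      change u * m = _
      rw [h3]
      rw [Finset.sum_boole, Finset.filter_univ_mem, show (e0 : Finset Ω).card = 2 from hs]; simp
    have h5 := h (LinearMap.intertwiningMap_of_isIntertwiningMap _ _
      ((km k).comp (Submodule.subtype _)) fun g v => km_rep hk g v) fun v hv => by
        obtain ⟨c, hc⟩ := mem_const.1 hv
        ext y
        change km k v y = 0
        simp [km_apply, hc, ← Finset.sum_mul, hsum]
    have h6 : ∀ x y, k e0 x = k e0 y := fun x y => by
      have := congrArg (fun f : Representation.IntertwiningMap (Cfsg.permSumZero K G Ω).toRepresentation (Cfsg.permRep K G (Set.powersetCard Ω 2)) => f ⟨_, single_sub_mem x y⟩ e0) h5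
      change km k (Pi.single x 1 - Pi.single y 1) e0 = 0 at this
      rwa [map_sub, Pi.sub_apply, km_single, km_single, sub_eq_zero] at this
    have r1 : R e0 c := ⟨1, by simp, by simp⟩
    have r2 : ¬ R e0 d := fun ⟨g, h1, h2⟩ => hn ⟨g, congrArg Subtype.val h1, h2⟩
    have r3 : ¬ R e0 a := fun ⟨g, h1, h2⟩ => hc (by
      have : g • c ∈ g • ({a, b} : Finset Ω) := by
        rw [show g • ({a, b} : Finset Ω) = {a, b} from congrArg Subtype.val h1, h2]; simp
      simpa using this)
    have e1 := h6 c d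
    have e2 := h6 a d
    simp only [k, r1, r2, r3, e0, hc, hd, if_true, if_false, Finset.mem_insert, true_or] at e1 e2
    rcases h4 with h4 | h4
    · exact h4 (by simpa using e1)
    · exact h4 (by simpa using e2)
  have hp2 : ∀ g : G, g • ({a, b} : Finset Ω) = {a, b} → (g • a = a ∧ g • b = b) ∨ (g • a = b ∧ g • b = a) := by
    intro g e
    rw [Finset.smul_finset_insert, Finset.smul_finset_singleton] at e
    have := congrArg (fun s : Finset Ω => (s : Set Ω)) e
    simpa [Set.pair_eq_pair_iff] using this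
  obtain ⟨t, z, h3, h4, h5⟩ : ∃ (t : G) (z : Ω), t • a = b ∧ t • b = a ∧ t • z = z := by
    obtain ⟨t, ht⟩ := exists_prime_orderOf_dvd_card' (G := stabilizer G a) 2 (heven a).two_dvd
    have t1 : (t : G) ≠ 1 := by intro e; rw [show t = 1 from Subtype.ext e] at ht; simp at ht
    obtain ⟨x, hx⟩ := exists_move (α := Ω) t1
    have tt : (t : G) • (t : G) • x = x := by
      rw [← mul_smul, ← sq, ← Subgroup.coe_pow, ← ht, pow_orderOf_eq_one]; simp
    obtain ⟨g, e1, e2⟩ := two_iff.1 h2 x ((t : G) • x) a b hx.symm hab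
    exact ⟨g * t * g⁻¹, g • a, by simp [mul_smul, ← e1, e2], by simp [mul_smul, ← e2, tt, e1],
      by simp [mul_smul, show (t : G) • a = a from t.2]⟩
  have hz : z ∉ ({a, b} : Finset Ω) := by
    simp only [Finset.mem_insert, Finset.mem_singleton, not_or]
    exact ⟨fun e => hab (by rw [← h3, ← e, h5]), fun e => hab (by rw [← h4, ← e, h5])⟩
  have key2 : ∀ d, d ∉ ({a, b} : Finset Ω) → ∃ g : G, g • a = a ∧ g • b = b ∧ g • z = d := fun d hd => by
    obtain ⟨g, e1, e2⟩ := key z d hz hd
    rcases hp2 g e1 with h | h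
    · exact ⟨g, h.1, h.2, e2⟩
    · exact ⟨g * t, by rw [mul_smul, h3, h.2], by rw [mul_smul, h4, h.1], by rw [mul_smul, h5, e2]⟩
  obtain ⟨g, e1, e2, e3⟩ := key2 c hc
  obtain ⟨u, e4, e5, e6⟩ := key2 d hd
  refine ⟨u * g⁻¹, fun x hx => ?_, by rw [mul_smul, ← e3, inv_smul_smul, e6]⟩
  simp only [Finset.mem_insert, Finset.mem_singleton] at hx
  rcases hx with rfl | rfl
  · rw [mul_smul, inv_smul_eq_iff.2 e1.symm, e4]
  · rw [mul_smul, inv_smul_eq_iff.2 e2.symm, e5]

end Cfsg.Agent.S0672
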