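import Cfsg.Statements.S0677
import Cfsg.Agent.PM.Pr2

set_option autoImplicit false
open Cfsg

namespace Cfsg.Agent.S0677

open MulAction PM
open scoped Pointwise

/-- In a transitive permutation group of prime degree `p` whose Sylow `p`-normaliser has even order, the point stabilisers are the only subgroups of index `p`. -/
theorem result {α : Type*} [Fintype α] [DecidableEq α] {p : ℕ} [Fact p.Prime] (hα : Fintype.card α = p) (G : Subgroup (Equiv.Perm α)) [MulAction.IsPretransitive G α] (P : Sylow p G) (heven : Even (Nat.card (Subgroup.normalizer ((P : Subgroup G) : Set G)))) (H : Subgroup G) (hH : H.index = p) : ∃ a : α, H = MulAction.stabilizer G a := by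
  classical
  have h := Nat.card_eq_fintype_card.trans hα
  have hp : p.Prime := Fact.out
  haveI : Nontrivial α := Finite.one_lt_card_iff_nontrivial.1 (h ▸ hp.one_lt)
  suffices hs : ∃ a : α, H ≤ stabilizer G a by
    obtain ⟨a, ha⟩ := hs
    refine ⟨a, Subgroup.eq_of_le_of_card_ge ha (le_of_eq ?_)⟩
    have h1 := H.card_mul_index
    rw [hH, ← card_mul_stab (G := G) a, h, mul_comm] at h1
    exact (Nat.eq_of_mul_eq_mul_left hp.pos h1).symm
  have hnd : ¬ p ∣ Nat.card H := fun h1 => by
    have h2 : p ^ 2 ∣ Nat.card G := by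
      rw [← H.card_mul_index, hH, sq]; exact Nat.mul_dvd_mul_right h1 p
    have h3 := (card_norm h P).1
    rw [P.card_eq_multiplicity] at h3
    have h4 := (hp.pow_dvd_iff_le_factorization Nat.card_pos.ne').1 h2
    have := Nat.pow_right_injective hp.two_le (h3.trans (pow_one p).symm)
    omega
  by_cases hG : Group.IsSolvable G
  · obtain ⟨c, e, h1, h2, he⟩ := sylow_coord h P
    haveI := IsPreprimitive.of_prime_card (G := G) (X := α) (h ▸ hp)
    have G1 : (⊤ : Subgroup G) ≠ ⊥ := fun e => by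
      have : c = 1 := e.le (Subgroup.mem_top c)
      rw [this, orderOf_one] at h1; exact hp.one_lt.ne h1
    obtain ⟨M, q, -, m1, m2, -, m3, -⟩ := H1.exists_minimal_normal_elementary (⊤ : Subgroup G) inferInstance G1
    have mt : IsPretransitive M α := tr_iff.2 (normal_tr' M m2)
    have mc : Nat.card M = p := (card_reg mt (e 0) (sub_stab_bot.2 fun m hm e => eq_one_of_comm mt
      (fun n hn => congrArg Subtype.val (m3.is_comm.comm (⟨n, hn⟩ : M) ⟨m, hm⟩)) e)).trans h
    have h3 : M = Subgroup.zpowers c := by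
      refine Subgroup.eq_of_le_of_card_ge (h2 ▸ (IsPGroup.of_card (mc.trans (pow_one p).symm)).le_sylow_of_normal P) ?_
      rw [mc, Nat.card_zpowers, h1]
    have aff : ∀ g : G, ∃ a b, ∀ x, g • e x = e (a * x + b) := fun g =>
      affine_of_norm he (h3 ▸ m1.conj_mem c (h3 ▸ Subgroup.mem_zpowers c) g)
    have tr1 : ∀ g ∈ H, ∀ b, (∀ x, g • e x = e (x + b)) → g = 1 := fun g hg b hb => by
      have h4 := mem_of_transl he hb
      have h5 : orderOf g ∣ p := h1 ▸ orderOf_dvd_of_mem_zpowers h4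
      rcases (Nat.dvd_prime hp).1 h5 with h6 | h6
      · exact orderOf_eq_one_iff.1 h6
      · exact absurd (h6 ▸ Subgroup.orderOf_dvd_natCard H hg) hnd
    by_cases h0 : H = ⊥
    · exact ⟨e 0, h0 ▸ bot_le⟩
    obtain ⟨⟨g, hg⟩, g1⟩ := (Subgroup.ne_bot_iff_exists_ne_one).1 h0
    obtain ⟨a, b, hab⟩ := aff g
    have a1 : 1 - a ≠ 0 := fun e => g1 (Subtype.ext (tr1 g hg b fun x => by
      rw [hab, show a = 1 by linear_combination -e, one_mul]))
    refine ⟨e (b / (1 - a)), fun u hu => ?_⟩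
    obtain ⟨a', b', hab'⟩ := aff u
    have hc : (u * g)⁻¹ * (g * u) = 1 := by
      obtain ⟨a2, b2, h5⟩ := aff ((u * g)⁻¹ * (g * u))
      have h6 : ∀ x, a' * (a * (a2 * x + b2) + b) + b' = a * (a' * x + b') + b := fun x => e.injective (by
        rw [← hab', ← hab, ← h5, ← hab, ← hab', ← mul_smul, ← mul_smul, ← mul_smul]; congr 1; group)
      have n : ∀ (w : G) (s t : ZMod p), (∀ x, w • e x = e (s * x + t)) → s ≠ 0 := fun w s t hw e0 => by
        have := e.injective (MulAction.injective w (show w • e 0 = w • e 1 by rw [hw, hw, e0]; simp))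
        exact zero_ne_one this
      have : a2 = 1 := mul_left_cancel₀ (mul_ne_zero (n _ _ _ hab) (n _ _ _ hab')) (by
        linear_combination h6 1 - h6 0)
      exact tr1 _ (mul_mem (inv_mem (mul_mem hu hg)) (mul_mem hg hu)) b2 fun x => by rw [h5, this, one_mul]
    rw [inv_mul_eq_one] at hc
    have h7 := e.injective (show e (a' * (a * 0 + b) + b') = e (a * (a' * 0 + b') + b) by
      rw [← hab', ← hab, ← hab, ← hab', ← mul_smul, ← mul_smul, hc])
    rw [mem_stabilizer_iff, hab']
    congr 1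
    field_simp
    linear_combination h7
  have p2 := ne_two_of h hG
  have h2 := burnside h hG
  obtain ⟨c, t, e, he, ht⟩ := inv_coord h p2 P heven
  have t0 : (2 : ZMod p) ≠ 0 := fun e => p2 ((Nat.prime_dvd_prime_iff_eq hp Nat.prime_two).1
    ((ZMod.natCast_eq_zero_iff 2 p).1 (by exact_mod_cast e)))
  let Δ : Finset α := (orbit H (e 0)).toFinite.toFinset
  have hΔ : ∀ g ∈ H, ∀ x, x ∈ Δ → g • x ∈ Δ := fun g hg x hx => by
    rw [Set.Finite.mem_toFinset] at hx ⊢
    exact mem_orbit_of_mem_orbit (⟨g, hg⟩ : H) hx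
  have hHs : H ≤ stabilizer G Δ := fun g hg => Finset.eq_of_subset_of_card_le (by
    intro y hy
    obtain ⟨x, hx, rfl⟩ := Finset.mem_smul_finset.1 hy
    exact hΔ g hg x hx) (Finset.card_smul_finset g Δ).ge
  have Δ0 : e 0 ∈ Δ := (Set.Finite.mem_toFinset _).2 (mem_orbit_self _)
  obtain ⟨z, hz⟩ : ∃ z, z ∉ Δ := by
    by_contra hc
    push Not at hc
    apply hnd
    rw [← card_orbit_mul (G := H) (e 0), Set.eq_univ_of_forall fun x => (Set.Finite.mem_toFinset _).1 (hc x)]
    simp [hα]
  have cn : c ∉ stabilizer G Δ := fun hc => by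
    obtain ⟨n, hn, rfl⟩ := tr_iff.1 (tr_coord he) (e 0) z
    exact hz ((show n • Δ = Δ from Subgroup.zpowers_le.2 hc hn) ▸ Finset.smul_mem_smul_finset Δ0)
  have hst : stabilizer G Δ = H := by
    have h3 := Subgroup.relIndex_mul_index hHs
    rw [hH] at h3
    rcases (Nat.dvd_prime hp).1 ⟨_, h3.symm⟩ with h4 | h4
    · exact le_antisymm (Subgroup.relIndex_eq_one.1 h4) hHs
    · rw [h4] at h3
      have := Subgroup.index_eq_one.1 (Nat.eq_of_mul_eq_mul_left hp.pos (h3.trans (mul_one p).symm))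
      exact absurd (this ▸ Subgroup.mem_top c) cn
  have oc : orderOf c = p := orderOf_eq_prime (eq_of_smul_eq_smul (α := α) fun x => by
      obtain ⟨x, rfl⟩ := e.surjective x
      rw [pow_coord he]; simp) fun e => cn (e ▸ one_mem _)
  obtain ⟨E, hE⟩ := coord_of (α := orbit G Δ) oc (by rw [Nat.card_coe_set_eq, ← index_stabilizer, hst, hH])
    (a := ⟨Δ, mem_orbit_self Δ⟩) fun e => cn (show c • Δ = Δ from congrArg Subtype.val e)
  -- normalise the base block
  obtain ⟨B, hB, tB⟩ : ∃ B ∈ orbit G Δ, t • B = B := by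
    have tt : t ^ 2 = 1 := eq_of_smul_eq_smul (α := α) fun x => by
      obtain ⟨x, rfl⟩ := e.surjective x
      rw [sq, mul_smul, ht, ht]; simp
    obtain ⟨B, hB, e⟩ := exists_fix (P := Subgroup.zpowers t) Nat.prime_two
      (by
        rintro ⟨_, n, rfl⟩
        refine ⟨1, Subtype.ext ?_⟩
        change (t ^ n) ^ 2 = 1
        rw [← zpow_natCast, ← zpow_mul, mul_comm, zpow_mul, zpow_natCast, tt, one_zpow])
      (orbit G Δ).toFinite.toFinset (fun g _ x hx => by
        rw [Set.Finite.mem_toFinset] at hx ⊢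
        exact mem_orbit_of_mem_orbit g hx) (by
        rw [← Set.ncard_eq_toFinset_card, ← index_stabilizer, hst, hH]
        exact fun h => p2 ((Nat.prime_dvd_prime_iff_eq Nat.prime_two hp).1 h).symm)
    exact ⟨B, (Set.Finite.mem_toFinset _).1 hB, e t (Subgroup.mem_zpowers t)⟩
  let f : ZMod p → ZMod p := fun x => if e x ∈ B then 1 else 0
  have fneg : ∀ x, f (-x) = f x := fun x => by
    simp only [f, ← ht]
    conv_lhs => rw [← tB]
    simp
  let i0 := E.symm ⟨B, hB⟩
  have hEm : ∀ j x, e x ∈ (E (i0 + j) : Finset α) ↔ e (x - j) ∈ B := fun j x => by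
    have := pow_coord hE j.val i0
    rw [ZMod.natCast_zmod_val] at this
    rw [← this, Equiv.apply_symm_apply]
    change e x ∈ c ^ j.val • B ↔ _
    conv_lhs => rw [← sub_add_cancel x j, ← ZMod.natCast_zmod_val j, ← pow_coord he]
    simp
  let cnt : α → α → ZMod p := fun x y => ∑ X : orbit G Δ, (if x ∈ (X : Finset α) then 1 else 0) * (if y ∈ (X : Finset α) then 1 else 0)
  have c1 : ∀ (g : G) x y, cnt (g • x) (g • y) = cnt x y := fun g x y =>
    (Fintype.sum_equiv (MulAction.toPerm g) _ _ fun X => by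
      change _ = (if g • x ∈ g • (X : Finset α) then 1 else 0) * (if g • y ∈ g • (X : Finset α) then 1 else 0)
      simp).symm
  have c2 : ∀ x y, cnt (e x) (e y) = ∑ j, f (x - j) * f (j - y) := fun x y =>
    (Fintype.sum_equiv ((Equiv.addLeft i0).trans E) _ _ fun j => by
      rw [← fneg (j - y), neg_sub]
      simp only [f, Equiv.trans_apply, Equiv.coe_addLeft, hEm]).symm
  let lam := cnt (e 1) (e 0)
  let k := ∑ j, f j
  have c3 : ∀ x, ∑ j, f (x - j) * f j = if x = 0 then k else lam := fun x => by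
    split_ifs with hx
    · refine Finset.sum_congr rfl fun j _ => ?_
      rw [hx, zero_sub, fneg]
      simp only [f]; split_ifs <;> simp
    · obtain ⟨g, e1, e2⟩ := two_iff.1 h2 (e 1) (e 0) (e x) (e 0) (e.injective.ne one_ne_zero) (e.injective.ne hx)
      have := c1 g (e 1) (e 0)
      rw [e1, e2, c2] at this
      simpa using this
  have sx : ∀ x, ∑ j, f (x - j) = k := fun x => Fintype.sum_equiv (Equiv.subLeft x) _ _ fun j => rfl
  have c4 : k * k = k - lam := by
    have := Finset.sum_congr (s₁ := Finset.univ) rfl fun x _ => c3 x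
    rw [Finset.sum_comm] at this
    simp only [← Finset.sum_mul] at this
    have h5 : ∀ j, ∑ x, f (x - j) = k := fun j => Fintype.sum_equiv (Equiv.subRight j) _ _ fun j => rfl
    simp only [h5, ← Finset.mul_sum] at this
    rw [this, Finset.sum_congr rfl (g := fun x => lam + if x = 0 then k - lam else 0) fun x _ => by
      split_ifs <;> simp]
    simp [Finset.sum_add_distrib]
  obtain ⟨g, rfl⟩ := hB
  have k0 : k ≠ 0 := by
    have : k = Δ.card := by
      simp only [k, f]
      rw [Equiv.sum_comp e (fun x => if x ∈ g • Δ then (1 : ZMod p) else 0)]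
      simp
    rw [this, Ne, ZMod.natCast_eq_zero_iff]
    exact Nat.not_dvd_of_pos_of_lt (Finset.card_pos.2 ⟨_, Δ0⟩) (hα ▸ Finset.card_lt_univ_of_notMem hz)
  let T : (ZMod p → ZMod p) →ₗ[ZMod p] (ZMod p → ZMod p) := km (fun x j => f (x - j)) + k • LinearMap.id
  have Ta : ∀ v x, T v x = ∑ j, f (x - j) * v j + k * v x := fun v x => rfl
  obtain ⟨r, -, hr⟩ := inv_sub (LinearMap.ker T) fun v hv => funext fun x => by
    refine Eq.trans ?_ (congrFun (LinearMap.mem_ker.1 hv) (x - 1))
    rw [Ta, Ta]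
    congr 1
    exact Fintype.sum_equiv (Equiv.subRight 1) _ _ fun j => by simp
  have r0 : r = 0 := by
    by_contra h5
    have : (fun _ => 1) ∈ LinearMap.ker T := hr ▸ ⟨1, Polynomial.mem_degreeLT.2 (by
      simpa using Nat.pos_of_ne_zero h5), funext fun j => by simp [ev_apply]⟩
    have := congrFun (LinearMap.mem_ker.1 this) 0
    rw [Ta] at this
    simp only [mul_one, sx, Pi.zero_apply] at this
    exact mul_ne_zero t0 k0 (by linear_combination this)
  have h6 : (fun x => f x - (if x = 0 then k else 0) - lam / (2 * k)) ∈ LinearMap.ker T := funext fun x => by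
    rw [Ta]
    simp only [mul_sub, Finset.sum_sub_distrib, c3, ← Finset.sum_mul, sx, mul_ite, mul_zero,
      Finset.sum_ite_eq', Finset.mem_univ, if_true, sub_zero, Pi.zero_apply]
    split_ifs
    · field_simp; linear_combination (-2) * c4
    · field_simp; ring
  rw [hr, r0] at h6
  have h7 := degLT_zero (K := ZMod p) ⊥
  obtain ⟨Q, hQ, h8⟩ := h6
  rw [(Submodule.mem_bot _).1 (h7 hQ), map_zero] at h8
  have h9 : ∀ x y, x ≠ 0 → y ≠ 0 → (e x ∈ g • Δ ↔ e y ∈ g • Δ) := fun x y hx hy => by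
    have e1 := congrFun h8 x
    have e2 := congrFun h8 y
    simp only [hx, hy, if_false, f] at e1 e2
    have := e1.symm.trans e2
    rw [sub_left_inj, sub_left_inj] at this
    by_cases a1 : e x ∈ g • Δ <;> by_cases a2 : e y ∈ g • Δ <;>
      simp only [a1, a2, if_true, if_false, one_ne_zero, zero_ne_one] at this ⊢
  refine ⟨g⁻¹ • e 0, fun u hu => ?_⟩
  by_contra h10
  have h11 : ∀ x, x ≠ g⁻¹ • e 0 → (x ∈ Δ ↔ u • g⁻¹ • e 0 ∈ Δ) := fun x hx => by
    have := h9 (e.symm (g • x)) (e.symm (g • u • g⁻¹ • e 0))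
      (fun e' => hx (by rw [← e']; simp)) (fun e' => h10 (by
        rw [mem_stabilizer_iff]; conv_rhs => rw [← e']
        simp))
    simpa using this
  have h12 : u • g⁻¹ • e 0 ∈ Δ ↔ g⁻¹ • e 0 ∈ Δ :=
    ⟨fun h => by simpa using hΔ u⁻¹ (inv_mem hu) _ h, hΔ u hu _⟩
  have h13 : ∀ x, x ∈ Δ ↔ g⁻¹ • e 0 ∈ Δ := fun x => by
    by_cases hx : x = g⁻¹ • e 0
    · rw [hx]
    · rw [h11 x hx, h12]
  exact hz ((h13 z).2 ((h13 _).1 Δ0))

end Cfsg.Agent.S0677
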