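import Cfsg.Statements.S0678
import Cfsg.Agent.PM.Pr3

set_option autoImplicit false
open Cfsg

namespace Cfsg.Agent.S0678

open MulAction PM
theorem c168 {α : Type*} [Fintype α] [DecidableEq α] (hα : Fintype.card α = 7) (G : Subgroup (Equiv.Perm α)) [MulAction.IsPretransitive G α] (hG : ¬ Group.IsSolvable G) (hA : ¬ alternatingGroup α ≤ G) : Nat.card G = 168 := by
  haveI : Fact (Nat.Prime 7) := ⟨by norm_num⟩
  have h := Nat.card_eq_fintype_card.trans hα
  obtain ⟨P⟩ : Nonempty (Sylow 7 G) := inferInstance
  obtain ⟨-, d, h1, h2⟩ := card_norm h P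
  have h3 := card_sylow_modEq_one 7 G
  rw [P.card_eq_index_normalizer] at h3
  have h4 := (Subgroup.normalizer ((P : Subgroup G) : Set G)).card_mul_index
  change (Subgroup.normalizer ((P : Subgroup G) : Set G)).index % 7 = 1 % 7 at h3
  have h5 := burnside h hG
  have h6 := dvd_of_mt h5 (by omega)
  have hp := isPreprimitive_of_is_two_pretransitive h5
  have h7 : ¬ 16 ∣ Nat.card G := fun e => hA (alt_le_of_dvd (p := 2) G hp (by omega) (Or.inl rfl) (by
    rw [hα, Nat.factorization_def _ Nat.prime_two]; convert e; simp [Nat.factorial]; decide +kernel))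
  have h8 : ¬ 9 ∣ Nat.card G := fun e => hA (alt_le_of_dvd (p := 3) G hp (by omega) (Or.inr rfl) (by
    rw [hα, Nat.factorization_def _ Nat.prime_three]; convert e; simp [Nat.factorial]; decide +kernel))
  have h9 : Nat.card G ∣ 5040 := by
    have := G.card_subgroup_dvd_card
    rwa [Nat.card_perm, h] at this
  have h10 : Nat.card G ≠ 210 := fun e => hG (solv_of_sqfree (by rw [e]; decide +kernel))
  have h11 : Nat.card G ≠ 42 := fun e => hG (solv_of_sqfree (by rw [e]; decide +kernel))
  have h12 : d ≠ 1 := fun e => by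
    have := card_of_norm h P (by rw [h2, e])
    rw [this, h] at h6; revert h6; decide
  rw [h] at h6
  obtain ⟨m, hm⟩ := h6
  rw [h2, hm] at h4
  rw [hm] at h7 h8 h9 h10 h11 ⊢
  simp only [Nat.descFactorial] at *
  have hm2 : m ∣ 120 := Nat.dvd_of_mul_dvd_mul_left (k := 42) (by norm_num) (by simpa using h9)
  have := Nat.le_of_dvd (by norm_num) h1
  have := Nat.le_of_dvd (by norm_num) hm2
  interval_cases d <;> interval_cases m <;> omega

/-- A non-solvable transitive permutation group on 7 points that does not contain the alternating group is a simple group of order 168. -/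
theorem result {α : Type*} [Fintype α] [DecidableEq α] (hα : Fintype.card α = 7) (G : Subgroup (Equiv.Perm α)) [MulAction.IsPretransitive G α] (hG : ¬ Group.IsSolvable G) (hA : ¬ alternatingGroup α ≤ G) : Nat.card G = 168 ∧ IsSimpleGroup G := by
  haveI : Fact (Nat.Prime 7) := ⟨by norm_num⟩
  have h := Nat.card_eq_fintype_card.trans hα
  have h1 := c168 hα G hG hA
  haveI : Nontrivial G := Finite.one_lt_card_iff_nontrivial.1 (by omega)
  refine ⟨h1, ⟨fun N hN => (em (N = ⊥)).imp_right fun h0 => ?_⟩⟩
  haveI := tr_map (dvd_of_normal h N h0).1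
  have := c168 hα (N.map G.subtype) (fun hs => hG (solv_of_normal h N h0
    (Group.isSolvable_of_surjective (f := (N.equivMapOfInjective G.subtype G.subtype_injective).symm.toMonoidHom) (MulEquiv.surjective _))))
    fun e => hA (e.trans (Subgroup.map_subtype_le _))
  rw [Subgroup.card_map_of_injective G.subtype_injective, ← h1] at this
  exact Subgroup.eq_top_of_card_eq _ this

end Cfsg.Agent.S0678
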