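import Cfsg.Statements.S0680
import Cfsg.Agent.PM.Fr

set_option autoImplicit false
open Cfsg

namespace Cfsg.Agent.S0680

open MulAction PM

/-- A finite sharply doubly transitive permutation group has degree a prime power `p ^ j`; a Sylow `p`-subgroup is normal, elementary abelian and regular, and consists of the identity together with the elements without fixed points. (Frobenius' Theorem is not needed.) -/
theorem result {α : Type*} [Fintype α] [DecidableEq α] (G : Subgroup (Equiv.Perm α)) [MulAction.IsMultiplyPretransitive G α 2] (hsharp : ∀ x : Fin 2 ↪ α, MulAction.stabilizer G x = ⊥) (h2 : 2 ≤ Fintype.card α) : ∃ p j : ℕ, p.Prime ∧ 1 ≤ j ∧ Fintype.card α = p ^ j ∧ ∀ (hp : Fact p.Prime) (P : Sylow p G), (P : Subgroup G).Normal ∧ IsMulCommutative (P : Subgroup G) ∧ (∀ x ∈ (P : Subgroup G), x ^ p = 1) ∧ MulAction.IsPretransitive (P : Subgroup G) α ∧ (∀ a : α, MulAction.stabilizer (P : Subgroup G) a = ⊥) ∧ ∀ g : G, g ∈ (P : Subgroup G) ↔ g = 1 ∨ ∀ a : α, g • a ≠ a := by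
  classical
  haveI : Nontrivial α := Fintype.one_lt_card_iff_nontrivial.1 h2
  obtain ⟨K, p, j, h1, h3, h4, h5, h6, h7, h8, h9, h10, h11⟩ := sharp2 (G := G) (α := α) ‹_› (sharp2_iff.1 hsharp)
  refine ⟨p, j, h7, h9, Nat.card_eq_fintype_card.symm.trans h10, fun hp P => ?_⟩
  have hK : IsPGroup p K := IsPGroup.iff_card.2 ⟨j, h11⟩
  have h12 : K ≤ P := hK.le_sylow_of_normal P
  have h13 : (P : Subgroup G) = K := by
    refine le_antisymm (fun g hg => (h3 g).2 ?_) h12
    by_cases g1 : g = 1
    · exact Or.inl g1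
    refine Or.inr fun a ha => ?_
    have hm := card_modEq_fix h7 (P.2.to_le ((Subgroup.zpowers_le).2 hg)) (Finset.univ : Finset α) (by simp)
    have : (Finset.univ.filter fun x : α => ∀ u ∈ Subgroup.zpowers g, u • x = x) = {a} := by
      ext x
      simp only [Finset.mem_filter, Finset.mem_univ, true_and, Finset.mem_singleton]
      refine ⟨fun h => by_contra fun e => g1 (sharp2_iff.1 hsharp x a e g (h g (Subgroup.mem_zpowers g)) ha), ?_⟩
      rintro rfl u hu
      exact (Subgroup.zpowers_le.2 (show g ∈ stabilizer G x from ha)) hu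
    rw [this, Finset.card_univ, ← Nat.card_eq_fintype_card, h10] at hm
    have := (Nat.modEq_zero_iff_dvd.2 (dvd_pow_self p (by omega : j ≠ 0))).symm.trans hm
    exact h7.one_lt.ne' (Nat.dvd_one.1 (Nat.modEq_zero_iff_dvd.1 this.symm))
  rw [h13]
  exact ⟨h1, h6, h8, h4, h5, h3⟩

end Cfsg.Agent.S0680
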