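import Cfsg.Statements.S0683
import Cfsg.Agent.PM.Fr

set_option autoImplicit false
open Cfsg

namespace Cfsg.Agent.S0683

open MulAction PM

/-- A finite sharply doubly transitive permutation group is the affine group of a near-field: the permuted set carries a near-field structure for which the group consists exactly of the maps `x ↦ x * a + b` with `a ≠ 0`. -/
theorem result {α : Type*} [Fintype α] [DecidableEq α] (H : Subgroup (Equiv.Perm α)) [MulAction.IsMultiplyPretransitive H α 2] (hsharp : ∀ x : Fin 2 ↪ α, MulAction.stabilizer H x = ⊥) (h2 : 2 ≤ Fintype.card α) : ∃ _ : Cfsg.NearField α, ∀ σ : Equiv.Perm α, σ ∈ H ↔ ∃ a b : α, a ≠ 0 ∧ ∀ x : α, σ x = x * a + b := by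
  classical
  haveI : Nontrivial α := Fintype.one_lt_card_iff_nontrivial.1 h2
  have hs := sharp2_iff.1 hsharp
  obtain ⟨K, p, j, h1, -, h4, h5, h6, -⟩ := sharp2 (G := H) (α := α) ‹_› hs
  obtain ⟨o, i, hoi⟩ := exists_pair_ne α
  choose n hnK hn using fun y => tr_iff.1 h4 o y
  have nu : ∀ k ∈ K, n (k • o) = k := fun k hk => reg_eq (h5 o) (hnK _) hk (hn _)
  have n0 : n o = 1 := by simpa using nu 1 (one_mem _)
  have nc : ∀ x y, n x * n y = n y * n x := fun x y =>
    congrArg Subtype.val (h6.is_comm.comm (⟨_, hnK x⟩ : K) ⟨_, hnK y⟩)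
  have hu : ∀ g g' : H, g • o = g' • o → g • i = g' • i → g = g' := fun g g' e1 e2 =>
    (inv_mul_eq_one.1 (hs o i hoi (g'⁻¹ * g) (by rw [mul_smul, e1, inv_smul_smul])
      (by rw [mul_smul, e2, inv_smul_smul]))).symm
  choose m hm0 hm1 using fun (a : α) (ha : a ≠ o) => two_iff.1 ‹IsMultiplyPretransitive H α 2› o i o a hoi ha.symm
  have mu : ∀ (g : H) (hg : g • o = o) (h : g • i ≠ o), m (g • i) h = g := fun g hg h =>
    hu _ _ ((hm0 _ _).trans hg.symm) (hm1 _ _)
  have mne : ∀ (g : H) (hg : g • o = o) (x : α), x ≠ o → g • x ≠ o := fun g hg x hx e =>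
    hx (MulAction.injective g (e.trans hg.symm))
  let mul : α → α → α := fun x a => if h : a = o then o else m a h • x
  have mul1 : ∀ x a (h : a ≠ o), mul x a = m a h • x := fun x a h => dif_neg h
  have mul0 : ∀ x, mul x o = o := fun x => dif_pos rfl
  have mulg : ∀ (g : H) (hg : g • o = o) x, mul x (g • i) = g • x := fun g hg x => by
    rw [mul1 _ _ (mne g hg i hoi.symm), mu g hg]
  letI : Add α := ⟨fun x y => n y • x⟩
  letI : Zero α := ⟨o⟩
  letI : Neg α := ⟨fun x => (n x)⁻¹ • o⟩
  letI A : AddGroup α := AddGroup.ofLeftAxioms (fun x y z => by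
      change n z • n y • x = n (n z • y) • x
      conv_rhs => rw [← hn y, ← mul_smul, nu _ (mul_mem (hnK _) (hnK _)), mul_smul])
    (fun x => hn x) (fun x => smul_inv_smul (n x) o)
  letI M : Monoid α :=
    { mul := mul
      one := i
      mul_assoc := fun x a b => by
        change mul (mul x a) b = mul x (mul a b)
        by_cases hb : b = o
        · rw [hb, mul0, mul0, mul0]
        by_cases ha : a = o
        · rw [ha, mul0, mul1 _ _ hb, hm0, mul0]
        rw [mul1 _ _ hb, mul1 _ _ ha, mul1 _ _ hb, ← mul_smul, ← mulg _ (by rw [mul_smul, hm0, hm0]),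
          mul_smul, hm1]
      one_mul := fun a => by
        change mul i a = a
        by_cases ha : a = o
        · rw [ha, mul0]
        · rw [mul1 _ _ ha, hm1]
      mul_one := fun a => by
        change mul a i = a
        simpa using mulg 1 (one_smul _ _) a }
  refine ⟨{ A, M with
      right_distrib := fun x y a => ?_
      mul_zero := mul0
      zero_ne_one := hoi
      exists_inv := fun a ha => ⟨(m a ha)⁻¹ • i, ?_, ?_⟩ }, fun σ => ⟨fun hσ => ?_, ?_⟩⟩
  · change mul (n y • x) a = n (mul y a) • mul x a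
    by_cases ha : a = o
    · rw [ha, mul0, mul0, mul0, hn]
    have : n (m a ha • y) = m a ha * n y * (m a ha)⁻¹ := by
      rw [← nu _ (h1.conj_mem _ (hnK y) (m a ha)), mul_smul, mul_smul, inv_smul_eq_iff.2 (hm0 a ha).symm, hn]
    rw [mul1 _ _ ha, mul1 _ _ ha, mul1 _ _ ha, this]
    simp [mul_smul]
  · change mul a _ = i
    rw [mulg _ (inv_smul_eq_iff.2 (hm0 a ha).symm), inv_smul_eq_iff, hm1]
  · change mul _ a = i
    rw [mul1 _ _ ha, smul_inv_smul]
  · let g : H := ⟨σ, hσ⟩
    have h7 : ((n (g • o))⁻¹ * g) • o = o := by rw [mul_smul, inv_smul_eq_iff, hn]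
    refine ⟨((n (g • o))⁻¹ * g) • i, g • o, mne _ h7 i hoi.symm, fun x => ?_⟩
    change g • x = n (g • o) • mul x _
    rw [mulg _ h7, mul_smul, smul_inv_smul]
  · rintro ⟨a, b, ha, e⟩
    have : σ = (n b * m a ha : H) := Equiv.ext fun x => (e x).trans (by
      change n b • mul x a = (n b * m a ha) • x
      rw [mul1 _ _ ha, mul_smul])
    rw [this]; exact SetLike.coe_mem _

end Cfsg.Agent.S0683
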