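import Cfsg.Statements.S0695
import Cfsg.Agent.PM.C

set_option autoImplicit false
open Cfsg

namespace Cfsg.Agent.S0695

open MulAction PM

/-- A regular normal subgroup of a doubly primitive group of finite degree at least 2 is an elementary abelian 2-group (and the degree is a power of 2), unless the degree is 3. -/
theorem result {G : Type*} [Group G] {X : Type*} [Fintype X] [MulAction G X] (hX : 2 ≤ Fintype.card X) (h2 : MulAction.IsMultiplyPreprimitive G X 2) (N : Subgroup G) [N.Normal] (htrans : MulAction.IsPretransitive N X) (hreg : ∀ x : X, MulAction.stabilizer N x = ⊥) : Fintype.card X = 3 ∨ (IsMulCommutative N ∧ (∀ n ∈ N, n ^ 2 = 1) ∧ ∃ m : ℕ, Fintype.card X = 2 ^ m) := by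
  classical
  haveI : Nonempty X := Fintype.card_pos_iff.1 (by omega)
  obtain ⟨a⟩ := ‹Nonempty X›
  have hc := card_reg htrans a (hreg a)
  haveI : Finite N := Nat.finite_of_card_ne_zero (by rw [hc, Nat.card_eq_fintype_card]; omega)
  have hsq : (∀ n ∈ N, n ^ 2 = 1) → IsMulCommutative N ∧ (∀ n ∈ N, n ^ 2 = 1) ∧ ∃ m : ℕ, Fintype.card X = 2 ^ m := fun h => by
    refine ⟨comm_of_sq h, h, ?_⟩
    rw [← Nat.card_eq_fintype_card, ← hc]
    exact card_of_pow Nat.prime_two fun n => Subtype.ext (h n n.2)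
  rcases (poff_of_mp h2 (s := {a}) rfl).rel (fun y z => z = y ∨ ∃ n ∈ N, n • a = y ∧ n • z = a)
    (fun x _ => Or.inl rfl) (by
      rintro x y - - (rfl | ⟨n, hn, e1, e2⟩)
      · exact Or.inl rfl
      · exact Or.inr ⟨n⁻¹, inv_mem hn, by rw [inv_smul_eq_iff, e2], by rw [inv_smul_eq_iff, e1]⟩) (by
      rintro x y z - - - (rfl | ⟨n, hn, e1, e2⟩) (rfl | ⟨m, hm, e3, e4⟩)
      · exact Or.inl rfl
      · exact Or.inr ⟨m, hm, e3, e4⟩
      · exact Or.inr ⟨n, hn, e1, e2⟩
      · left
        have : m = n⁻¹ := reg_eq (hreg a) hm (inv_mem hn) (by rw [e3, eq_inv_smul_iff, e2])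
        rw [this, inv_smul_eq_iff] at e4
        rw [e4, e1]) (by
      rintro g hg x y - - (rfl | ⟨n, hn, e1, e2⟩)
      · exact Or.inl rfl
      · have h1 : g • a = a := hg a (by simp)
        have h2 : g⁻¹ • a = a := by rw [inv_smul_eq_iff, h1]
        exact Or.inr ⟨g * n * g⁻¹, ‹N.Normal›.conj_mem n hn g, by simp [mul_smul, h2, e1],
          by simp [mul_smul, e2, h1]⟩) with h | h
  · refine Or.inr (hsq fun n hn => ?_)
    by_cases h1 : n = 1
    · simp [h1]
    have h3 : n • a ≠ a := fun e => h1 (sub_stab_bot.1 (hreg a) n hn e)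
    have := h (n • a) (n⁻¹ • a) (by simpa using h3) (by
      simp only [Finset.coe_singleton, Set.mem_singleton_iff, inv_smul_eq_iff]; exact h3.symm)
      (Or.inr ⟨n, hn, rfl, by simp⟩)
    rw [sq, mul_eq_one_iff_eq_inv]
    exact reg_eq (hreg a) hn (inv_mem hn) this
  · obtain ⟨b, hb⟩ := Fintype.exists_ne_of_one_lt_card (α := X) (by omega) a
    obtain ⟨n, hn, e⟩ := tr_iff.1 htrans a b
    have hle : Fintype.card X ≤ 3 := by
      have : (Finset.univ : Finset X) ⊆ {a, b, n⁻¹ • a} := by
        intro z _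
        by_cases hz : z = a
        · simp [hz]
        rcases h b z (by simpa using hb) (by simpa using hz) with rfl | ⟨m, hm, e1, e2⟩
        · simp
        · rw [reg_eq (hreg a) hm hn (e1.trans e.symm), ← eq_inv_smul_iff] at e2
          simp [e2]
      exact (Finset.card_le_card this).trans Finset.card_le_three
    by_cases h3 : Fintype.card X = 3
    · exact Or.inl h3
    refine Or.inr (hsq fun m hm => ?_)
    have : Nat.card N = 2 := by rw [hc, Nat.card_eq_fintype_card]; omega
    have h4 := pow_card_eq_one' (x := (⟨m, hm⟩ : N))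
    rw [this] at h4
    exact congrArg Subtype.val h4

end Cfsg.Agent.S0695
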