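import Cfsg.Statements.S0696
import Cfsg.Agent.PM.C
import Cfsg.Agent.S0695

set_option autoImplicit false
open Cfsg

namespace Cfsg.Agent.S0696

open MulAction PM

/-- A triply primitive group of degree at least 3 having a regular normal subgroup has degree 3 or 4. -/
theorem result {G : Type*} [Group G] {X : Type*} [Fintype X] [MulAction G X] (hX : 3 ≤ Fintype.card X) (h3 : MulAction.IsMultiplyPreprimitive G X 3) (N : Subgroup G) [N.Normal] (htrans : MulAction.IsPretransitive N X) (hreg : ∀ x : X, MulAction.stabilizer N x = ⊥) : Fintype.card X = 3 ∨ Fintype.card X = 4 := by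
  classical
  have h2 : IsMultiplyPreprimitive G X 2 := isMultiplyPreprimitive_of_le G X h3 (by norm_num)
    (by rw [ENat.card_eq_coe_fintype_card]; exact_mod_cast hX)
  rcases Cfsg.Agent.S0695.result (by omega) h2 N htrans hreg with h | ⟨-, hsq, m, hm⟩
  · exact Or.inl h
  right
  haveI : Nontrivial X := Fintype.one_lt_card_iff_nontrivial.1 (by omega)
  obtain ⟨a, b, hab⟩ := exists_pair_ne X
  obtain ⟨n, hn, e⟩ := tr_iff.1 htrans a b
  have hnn : ∀ x : X, n • n • x = x := fun x => by rw [← mul_smul, ← sq, hsq n hn, one_smul]
  have n1 : n ≠ 1 := by rintro rfl; exact hab (by simpa using e)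
  obtain ⟨c, hc⟩ : ∃ c, c ∉ ({a, b} : Finset X) := by
    by_contra hc
    push Not at hc
    have := (Finset.card_le_card (show Finset.univ ⊆ ({a, b} : Finset X) from fun x _ => hc x)).trans
      Finset.card_le_two
    rw [Finset.card_univ] at this; omega
  have hc' : n • c ∉ ({a, b} : Finset X) := by
    simp only [Finset.mem_insert, Finset.mem_singleton, not_or] at hc ⊢
    exact ⟨fun h => hc.2 (by rw [← hnn c, h, e]), fun h => hc.1 (by rw [← hnn c, h, ← e, hnn])⟩
  rcases (poff_of_mp h3 (s := {a, b}) (Finset.card_pair hab)).rel (fun y z => z = y ∨ z = n • y)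
    (fun x _ => Or.inl rfl) (by
      rintro x y - - (rfl | rfl)
      · exact Or.inl rfl
      · exact Or.inr (hnn x).symm) (by
      rintro x y z - - - (rfl | rfl) (rfl | rfl)
      · exact Or.inl rfl
      · exact Or.inr rfl
      · exact Or.inr rfl
      · exact Or.inl (hnn x)) (by
      rintro g hg x y - - (rfl | rfl)
      · exact Or.inl rfl
      · have h1 : g • a = a := hg a (by simp)
        have h1' : g • b = b := hg b (by simp)
        have h2 : g⁻¹ • a = a := by rw [inv_smul_eq_iff, h1]
        have : g * n * g⁻¹ = n := reg_eq (hreg a) (‹N.Normal›.conj_mem n hn g) hn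
          (by simp [mul_smul, h2, e, h1'])
        right
        conv_rhs => rw [← this]
        simp [mul_smul]) with h | h
  · exact absurd (sub_stab_bot.1 (hreg c) n hn (h c (n • c) hc hc' (Or.inr rfl)).symm) n1
  · have hle : Fintype.card X ≤ 4 := by
      have : (Finset.univ : Finset X) ⊆ {a, b, c, n • c} := by
        intro z _
        by_cases hz : z ∈ ({a, b} : Finset X)
        · simp only [Finset.mem_insert, Finset.mem_singleton] at hz ⊢; tauto
        rcases h c z hc hz with rfl | rfl <;> simp
      exact (Finset.card_le_card this).trans Finset.card_le_four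
    rw [hm] at hle hX ⊢
    have : m < 3 := by
      by_contra h5
      have := Nat.pow_le_pow_right (n := 2) (by norm_num) (not_lt.1 h5)
      omega
    interval_cases m <;> omega

end Cfsg.Agent.S0696
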