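import Cfsg.Statements.S0699
import Cfsg.Agent.PM.Gen2

set_option autoImplicit false
open Cfsg

namespace Cfsg.Agent.S0699

open MulAction PM

/-- Wagner's Theorem: a non-trivial normal subgroup of a triply transitive permutation group of odd degree at least 5 is triply transitive. -/
theorem result {α : Type*} [Fintype α] [DecidableEq α] (G : Subgroup (Equiv.Perm α)) (hodd : Odd (Fintype.card α)) (h5 : 5 ≤ Fintype.card α) (hG : MulAction.IsMultiplyPretransitive G α 3) (N : Subgroup G) [N.Normal] (hN : N ≠ ⊥) : MulAction.IsMultiplyPretransitive N α 3 := by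
  classical
  have h2 : IsMultiplyPretransitive N α 2 := by
    rcases jordan_normal 1 (by rw [Nat.card_eq_fintype_card]; omega) hG N hN with h | ⟨-, h1, h2⟩
    · exact h
    exfalso
    haveI := isPreprimitive_of_is_two_pretransitive (isMultiplyPretransitive_of_le (G := G) (α := α) (n := 3) (m := 2) (by omega) (by rw [Nat.card_eq_fintype_card]; omega))
    have ht : IsPretransitive N α := tr_iff.2 (normal_tr' N hN)
    haveI := nonempty_of_ne_bot (α := α) hN
    obtain ⟨m, hm⟩ := card_of_pow (N := N) Nat.prime_two fun n => Subtype.ext (h2 n n.2)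
    have := card_mul_stab (G := N) (Classical.arbitrary α)
    obtain ⟨i, -, hi⟩ := (Nat.dvd_prime_pow Nat.prime_two).1 (hm ▸ ⟨_, this.symm⟩ : Nat.card α ∣ 2 ^ m)
    rw [Nat.card_eq_fintype_card] at hi
    rcases i with _ | i
    · omega
    · exact hodd.not_two_dvd_nat (hi ▸ dvd_pow_self 2 (by omega))
  haveI : Nontrivial α := Fintype.one_lt_card_iff_nontrivial.1 (by omega)
  obtain ⟨x, y, hxy⟩ := exists_pair_ne α
  obtain ⟨t0, ht1, ht2⟩ := two_iff.1 h2 x y y x hxy hxy.symm
  obtain ⟨t, -, z, h3, h4, h5⟩ := exists_swap_fix hodd hxy ht1 ht2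
  have hxz : x ≠ z := fun e => hxy (by rw [← h3, e, h5])
  have hyz : y ≠ z := fun e => hxy (by rw [← h4, e, h5])
  have hgen : Gen N α 2 := gen_of_swap fun s hs a ha b hb hab => by
    obtain ⟨c, hc⟩ := Finset.card_eq_one.1 (show ((s.erase a).erase b).card = 1 by
      rw [Finset.card_erase_of_mem (by simp [hb, hab.symm]), Finset.card_erase_of_mem ha, hs])
    have hc' : c ∈ (s.erase a).erase b := hc ▸ Finset.mem_singleton_self c
    simp only [Finset.mem_erase] at hc'
    obtain ⟨g, e1, e2, e3⟩ := three_iff.1 hG x y z a b c hxy hxz hyz hab hc'.2.1.symm hc'.1.symm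
    refine ⟨⟨g * t * g⁻¹, ‹N.Normal›.conj_mem _ t.2 g⟩, fun w hw => ?_⟩
    change (g * t * g⁻¹) • w = _
    have h3' : (t : G) • x = y := h3
    have h4' : (t : G) • y = x := h4
    have h5' : (t : G) • z = z := h5
    by_cases h6 : w = a
    · rw [h6, Equiv.swap_apply_left, ← e1, ← e2]; simp [mul_smul, h3']
    by_cases h7 : w = b
    · rw [h7, Equiv.swap_apply_right, ← e1, ← e2]; simp [mul_smul, h4']
    have : w ∈ ({c} : Finset α) := hc ▸ by simp [hw, h6, h7]
    rw [Equiv.swap_apply_of_ne_of_ne h6 h7, Finset.mem_singleton.1 this, ← e3]; simp [mul_smul, h5']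
  refine mt_succ h2 fun s hs c d hc hd => ?_
  by_contra hn
  -- all orbits have odd length
  obtain ⟨R⟩ : Nonempty (Sylow 2 (fixingSubgroup N (s : Set α))) := inferInstance
  obtain ⟨w, hw, hw'⟩ := exists_fix Nat.prime_two R.2 sᶜ (fun g _ x hx => by
    rw [Finset.mem_compl] at hx ⊢
    intro h
    have := (mem_fixingSubgroup_iff N).1 g.2 _ h
    change (g : N) • (g : N) • x = (g : N) • x at this
    rw [smul_left_cancel_iff] at this
    exact hx (this ▸ h)) (by
      rw [Finset.card_compl, hs]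
      obtain ⟨m, hm⟩ := hodd
      omega)
  rw [Finset.mem_compl] at hw
  have o1 : ¬ 2 ∣ Nat.card (orbit (fixingSubgroup N (s : Set α)) w) := fun h => by
    have h1 : (R : Subgroup (fixingSubgroup N (s : Set α))) ≤ stabilizer _ w := fun g hg => hw' g hg
    have h2 := Subgroup.index_dvd_of_le h1
    rw [index_stabilizer, ← Nat.card_coe_set_eq] at h2
    exact R.not_dvd_index (h.trans h2)
  have o2 : ∀ v, v ∉ s → ¬ 2 ∣ Nat.card (orbit (fixingSubgroup N (s : Set α)) v) := fun v hv => by
    obtain ⟨g, e1, rfl⟩ := off_of_mt hG hs w v hw hv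
    have e2 : ∀ x ∈ s, g⁻¹ • x = x := fun x hx => inv_smul_eq_iff.2 (e1 x hx).symm
    rwa [← Nat.card_congr (α := orbit (fixingSubgroup N (s : Set α)) w) (Equiv.subtypeEquiv (MulAction.toPerm g) fun x => ?_)]
    constructor
    · rintro ⟨⟨n, hn⟩, rfl⟩
      refine ⟨⟨⟨g * n * g⁻¹, ‹N.Normal›.conj_mem _ n.2 g⟩, (mem_fixingSubgroup_iff N).2 fun x hx => ?_⟩, ?_⟩
      · change (g * n * g⁻¹) • x = x
        rw [mul_smul, mul_smul, e2 x hx, show (n : G) • x = x from (mem_fixingSubgroup_iff N).1 hn x hx, e1 x hx]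
      · change (g * n * g⁻¹) • g • w = g • (n : G) • w
        simp [mul_smul]
    · rintro ⟨⟨n, hn⟩, e⟩
      refine ⟨⟨⟨g⁻¹ * n * g, ‹N.Normal›.conj_mem' _ n.2 g⟩, (mem_fixingSubgroup_iff N).2 fun x hx => ?_⟩, ?_⟩
      · change (g⁻¹ * n * g) • x = x
        rw [mul_smul, mul_smul, e1 x hx, show (n : G) • x = x from (mem_fixingSubgroup_iff N).1 hn x hx, e2 x hx]
      · change (g⁻¹ * n * g) • w = x
        change (n : G) • g • w = g • x at e
        rw [mul_smul, mul_smul, e, inv_smul_smul]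
  obtain ⟨i, hi⟩ := Gen.dvd (by omega) hgen Nat.prime_two le_rfl s hs ![c, d]
    (fun i => by fin_cases i <;> assumption) (fun i j hij => by
      fin_cases i <;> fin_cases j
      · exact absurd rfl hij
      · rintro ⟨g, e⟩; exact hn ⟨g, (mem_fixingSubgroup_iff N).1 g.2, e⟩
      · rintro ⟨g, e⟩
        exact hn ⟨(g⁻¹ : fixingSubgroup N (s : Set α)), (mem_fixingSubgroup_iff N).1 g⁻¹.2, inv_smul_eq_iff.2 e.symm⟩
      · exact absurd rfl hij)
  exact o2 _ (by fin_cases i <;> assumption) hi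

end Cfsg.Agent.S0699
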