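import Cfsg.Statements.S0700
import Cfsg.Agent.PM.Fr

set_option autoImplicit false
open Cfsg

namespace Cfsg.Agent.S0700

open MulAction PM

/-- Burnside's Theorem on doubly transitive groups: a minimal normal subgroup of a finite doubly transitive permutation group is elementary abelian and regular, or simple and primitive. -/
theorem result {α : Type*} [Fintype α] [DecidableEq α] (G : Subgroup (Equiv.Perm α)) (hG : MulAction.IsMultiplyPretransitive G α 2) (N : Subgroup G) [N.Normal] (hN : N ≠ ⊥) (hmin : ∀ M : Subgroup G, M.Normal → M ≤ N → M = ⊥ ∨ M = N) : (IsMulCommutative N ∧ (∃ p : ℕ, p.Prime ∧ ∀ n ∈ N, n ^ p = 1) ∧ ∀ a : α, MulAction.stabilizer N a = ⊥) ∨ (IsSimpleGroup N ∧ MulAction.IsPreprimitive N α) := by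
  haveI := nonempty_of_ne_bot (α := α) hN
  haveI := isPreprimitive_of_is_two_pretransitive hG
  have ht : IsPretransitive N α := tr_iff.2 (normal_tr' N hN)
  by_cases hr : ∀ a : α, stabilizer N a = ⊥
  · exact Or.inl ⟨(Cfsg.Agent.S0054.result hG N ht hr).1, (Cfsg.Agent.S0054.result hG N ht hr).2, hr⟩
  right
  have hp : IsPreprimitive N α := by
    by_contra hp
    -- minimal non-trivial invariant equivalence relation
    have hex : ∃ n, ∃ r : α → α → Prop, Equivalence r ∧ (∀ g ∈ N, ∀ x y, r x y → r (g • x) (g • y)) ∧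
        (∃ x y, r x y ∧ x ≠ y) ∧ (∃ x y, ¬ r x y) ∧ Nat.card {z : α × α // r z.1 z.2} = n := by
      by_contra hc
      refine hp (prim_of_rel fun r h1 h2 => ?_)
      by_contra h3
      push Not at h3
      exact hc ⟨_, r, h1, fun g hg => h2 ⟨g, hg⟩, h3.1, h3.2, rfl⟩
    classical
    obtain ⟨r, h1, h2, ⟨a, b, h3, hab⟩, ⟨c, d, h4⟩, h5⟩ := Nat.find_spec hex
    -- translates
    have tr : ∀ (u v : G) x y, x ≠ y → r (u • x) (u • y) → r (v • x) (v • y) →
        ∀ z w, r (u • z) (u • w) → r (v • z) (v • w) := by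
      have k : ∀ (v : G) x y, x ≠ y → r x y → r (v • x) (v • y) → ∀ z w, r z w → r (v • z) (v • w) := by
        intro v x y hxy e1 e2 z w e3
        by_contra e4
        refine Nat.find_min hex (m := Nat.card {z : α × α // r z.1 z.2 ∧ r (v • z.1) (v • z.2)}) ?_
          ⟨fun x y => r x y ∧ r (v • x) (v • y), ⟨fun x => ⟨h1.refl _, h1.refl _⟩,
            fun h => ⟨h1.symm h.1, h1.symm h.2⟩, fun h h' => ⟨h1.trans h.1 h'.1, h1.trans h.2 h'.2⟩⟩,
            fun g hg x y h => ⟨h2 g hg _ _ h.1, by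
              simpa [mul_smul] using h2 _ (‹N.Normal›.conj_mem g hg v) _ _ h.2⟩,
            ⟨x, y, ⟨e1, e2⟩, hxy⟩, ⟨c, d, fun h => h4 h.1⟩, rfl⟩
        rw [← h5]
        exact Set.ncard_lt_ncard (s := {z : α × α | r z.1 z.2 ∧ r (v • z.1) (v • z.2)})
          (t := {z : α × α | r z.1 z.2}) ⟨fun z h => h.1, fun h => e4 (h (show (z, w) ∈ _ from e3)).2⟩
      intro u v x y hxy e1 e2 z w e3
      simpa [mul_smul] using k (v * u⁻¹) _ _ (fun e => hxy (MulAction.injective u e)) e1
        (by simpa [mul_smul] using e2) _ _ e3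
    -- collinearity
    choose! u hu1 hu2 using fun x y (h : x ≠ y) => two_iff.1 hG x y a b h hab
    have hu : ∀ x y, x ≠ y → r (u x y • x) (u x y • y) := fun x y h => by rwa [hu1 x y h, hu2 x y h]
    have fixl : ∀ g ∈ N, ∀ x z, g • x = x → x ≠ z → r (u x z • x) (u x z • g • z) := fun g hg x z e h => by
      simpa [mul_smul, e] using h2 _ (‹N.Normal›.conj_mem g hg (u x z)) _ _ (hu x z h)
    have fix : ∀ g ∈ N, ∀ x y, x ≠ y → g • x = x → g • y = y → ∀ z, ¬ r (u x y • x) (u x y • z) →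
        g • z = z := fun g hg x y hxy e1 e2 z hz => by
      by_contra e3
      have hxz : x ≠ z := fun e => hz (e ▸ h1.refl _)
      have hyz : y ≠ z := fun e => hz (e ▸ hu x y hxy)
      have r1 := h1.trans (h1.symm (hu x z hxz)) (fixl g hg x z e1 hxz)
      have r2 := h1.trans (h1.symm (hu y z hyz)) (fixl g hg y z e2 hyz)
      have r3 := h1.trans (hu x z hxz) (h1.symm (tr _ _ _ _ (Ne.symm e3) r2 r1 _ _ (hu y z hyz)))
      exact hz (tr _ _ _ _ hxy r3 (hu x y hxy) _ _ (hu x z hxz))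
    obtain ⟨K, k1, k2, k3, k4, -⟩ := frob_kernel' ht fun x y hxy g hg e1 e2 => by
      obtain ⟨z, hz⟩ : ∃ z, ¬ r (u x y • x) (u x y • z) := by
        by_contra hc
        push Not at hc
        exact h4 (by simpa using h1.trans (h1.symm (hc ((u x y)⁻¹ • c))) (hc ((u x y)⁻¹ • d)))
      have hxz : x ≠ z := fun e => hz (e ▸ h1.refl _)
      refine eq_of_smul_eq_smul (α := α) fun w => ?_
      rw [one_smul]
      by_cases hw : r (u x y • x) (u x y • w)
      · by_cases hxw : x = w
        · rwa [← hxw]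
        exact fix g hg x z hxz e1 (fix g hg x y hxy e1 e2 z hz) w fun h =>
          hz (tr _ _ _ _ hxw h hw _ _ (hu x z hxz))
      · exact fix g hg x y hxy e1 e2 w hw
    rcases hmin K k1 k2 with rfl | rfl
    · obtain ⟨g, hg, e⟩ := tr_iff.1 k3 a b
      rw [Subgroup.mem_bot.1 hg, one_smul] at e
      exact hab e
    · exact hr k4
  refine ⟨?_, hp⟩
  by_contra hs
  haveI : Nontrivial N := (Subgroup.nontrivial_iff_ne_bot N).2 hN
  obtain ⟨M, m1, m2, -, m3⟩ := H1.exists_minimal_normal_le (⊤ : Subgroup N) top_ne_bot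
  have mtop : M ≠ ⊤ := by
    rintro rfl
    exact hs ⟨fun L hL => m3 L hL le_top⟩
  let c : G →* MulAut N := MulAut.conjNormal
  have cn : ∀ g : G, (M.map (c g).toMonoidHom).Normal := fun g => m1.map _ (c g).surjective
  have cm : ∀ g : G, ∀ L : Subgroup N, L.Normal → L ≤ M.map (c g).toMonoidHom → L = ⊥ ∨ L = M.map (c g).toMonoidHom := by
    intro g L hL h
    rcases m3 (L.comap (c g).toMonoidHom) (hL.comap _) (by
      intro x hx
      obtain ⟨y, hy, e⟩ := h hx
      exact (c g).injective e ▸ hy) with e | e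
    · left
      rw [← Subgroup.map_comap_eq_self_of_surjective (f := (c g).toMonoidHom) (c g).surjective L, e, Subgroup.map_bot]
    · right
      rw [← Subgroup.map_comap_eq_self_of_surjective (f := (c g).toMonoidHom) (c g).surjective L, e]
  have c0 : ∀ g : G, M.map (c g).toMonoidHom ≠ ⊥ := fun g e =>
    m2 ((Subgroup.map_eq_bot_iff_of_injective _ (c g).injective).1 e)
  have nor : ∀ L : Subgroup N, L ≠ ⊥ → (∀ g : G, L.map (c g).toMonoidHom ≤ L) → L = ⊤ := fun L l0 hL => by
    rcases hmin (L.map N.subtype) ⟨by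
      rintro _ ⟨x, hx, rfl⟩ g
      exact ⟨c g x, hL g ⟨x, hx, rfl⟩, rfl⟩⟩ (Subgroup.map_subtype_le _) with e | e
    · exact absurd ((Subgroup.map_eq_bot_iff_of_injective _ N.subtype_injective).1 e) l0
    · exact Subgroup.map_injective N.subtype_injective (by rw [e, ← MonoidHom.range_eq_map, Subgroup.range_subtype])
  obtain ⟨g, hg⟩ : ∃ g, M ≠ M.map (c g).toMonoidHom := by
    by_contra hc
    push Not at hc
    exact mtop (nor M m2 fun g => (hc g).ge)
  haveI := cn g
  have t1 : IsPretransitive M α := tr_iff.2 (normal_tr' M m2)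
  have t2 : IsPretransitive (M.map (c g).toMonoidHom) α := tr_iff.2 (normal_tr' _ (c0 g))
  obtain ⟨r1, r2, -, -, r3⟩ := two_min (α := α) M _ m2 (c0 g) m3 (cm g) hg t1 t2
  obtain ⟨r4, -⟩ := comm_of_min m3 (cm g) (c0 g) hg
  have r5 : M ⊔ M.map (c g).toMonoidHom = ⊤ := nor _ (fun e => m2 (le_bot_iff.1 (e ▸ le_sup_left))) fun h => by
    rw [Subgroup.map_sup, Subgroup.map_map]
    refine sup_le ?_ ?_
    · rcases r3 _ (cn h) (c0 h) (cm h) with e | e <;> rw [e]
      exacts [le_sup_left, le_sup_right]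
    · have : (c h).toMonoidHom.comp (c g).toMonoidHom = (c (h * g)).toMonoidHom := by
        rw [map_mul]; rfl
      rw [this]
      rcases r3 _ (cn (h * g)) (c0 _) (cm _) with e | e <;> rw [e]
      exacts [le_sup_left, le_sup_right]
  obtain ⟨a, b, hab⟩ := exists_pair_ne α
  have e1 : Nat.card N = Nat.card α * Nat.card α := by
    rw [← (Subgroup.isComplement'_of_disjoint_and_mul_eq_univ (disjoint_iff.2 r4)
      (by rw [← Subgroup.normal_mul, r5]; rfl)).card_mul, card_reg t1 a (r1 a), card_reg t2 a (r2 a)]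
  have e2 : Nat.card (stabilizer N a) = Nat.card α :=
    Nat.eq_of_mul_eq_mul_left Nat.card_pos ((card_mul_stab a).trans e1)
  -- orbits of N_a have the same length
  let S : Subgroup (stabilizer G a) := N.subgroupOf (stabilizer G a)
  haveI : IsPretransitive (stabilizer G a) (SubMulAction.ofStabilizer G a) :=
    is_one_pretransitive_iff.1 (SubMulAction.ofStabilizer.isMultiplyPretransitive.1 hG)
  have e3 : Nat.card S = Nat.card α := e2 ▸ Nat.card_congr ⟨fun x => ⟨⟨x.1.1, x.2⟩, x.1.2⟩,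
    fun x => ⟨⟨x.1.1, x.2⟩, x.1.2⟩, fun _ => rfl, fun _ => rfl⟩
  have key : ∀ y : SubMulAction.ofStabilizer G a, (orbit S y).ncard = 1 := fun y => by
    have d1 := (IsBlock.orbit_of_normal (G := stabilizer G a) (N := S) y).ncard_dvd_card ⟨y, mem_orbit_self y⟩
    have d2 : (orbit S y).ncard ∣ Nat.card α := e3 ▸ ⟨_, (card_orbit_mul y).symm⟩
    rw [← SubMulAction.nat_card_ofStabilizer_add_one_eq G a] at d2
    exact Nat.dvd_one.1 ((Nat.dvd_add_right d1).1 d2)
  have : S = ⊥ := by
    rw [eq_bot_iff]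
    intro s hs
    refine eq_of_smul_eq_smul (α := SubMulAction.ofStabilizer G a) fun y => ?_
    obtain ⟨z, hz⟩ := Set.ncard_eq_one.1 (key y)
    have h1 : s • y ∈ orbit S y := ⟨⟨s, hs⟩, rfl⟩
    have h2 := mem_orbit_self (M := S) y
    rw [hz] at h1 h2
    rw [one_smul, h1, h2]
  rw [this, Subgroup.card_bot] at e3
  exact (Finite.one_lt_card (α := α)).ne e3

end Cfsg.Agent.S0700
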