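import Cfsg.Statements.S0714
import Cfsg.Agent.PM.Jo

set_option autoImplicit false
open Cfsg

namespace Cfsg.Agent.S0714

open MulAction PM Equiv

/-- Over any field, the permutation module of the alternating group of degree at least 5 has exactly four invariant subspaces: zero, the constant functions, the functions with coordinate sum zero, and everything. -/
theorem result {α : Type*} [Fintype α] [DecidableEq α] (hα : 5 ≤ Fintype.card α) {K : Type*} [Field K] (W : Subrepresentation (Cfsg.permRep K (alternatingGroup α) α)) : W.toSubmodule = ⊥ ∨ W = Cfsg.permConstants K (alternatingGroup α) α ∨ W = Cfsg.permSumZero K (alternatingGroup α) α ∨ W.toSubmodule = ⊤ := by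
  classical
  haveI : Nonempty α := Fintype.card_pos_iff.1 (by omega)
  by_cases hc : W.toSubmodule ≤ (Cfsg.permConstants K (alternatingGroup α) α).toSubmodule
  · by_cases h0 : W.toSubmodule = ⊥
    · exact Or.inl h0
    refine Or.inr (Or.inl (Subrepresentation.toSubmodule_injective (Submodule.eq_of_le_of_finrank_le hc ?_)))
    have h4 : Module.finrank K (Cfsg.permConstants K (alternatingGroup α) α).toSubmodule = 1 :=
      finrank_span_singleton fun e => one_ne_zero (congrFun e (Classical.arbitrary α))
    rw [h4]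
    exact Submodule.one_le_finrank_iff.2 h0
  right; right
  have h3 : IsMultiplyPretransitive (alternatingGroup α) α 3 :=
    haveI := alternatingGroup.isMultiplyPretransitive α
    isMultiplyPretransitive_of_le (n := Nat.card α - 2) (by rw [Nat.card_eq_fintype_card]; omega) (by omega)
  have h2 : IsMultiplyPretransitive (alternatingGroup α) α 2 :=
    isMultiplyPretransitive_of_le (n := 3) (by omega) (by rw [Nat.card_eq_fintype_card]; omega)
  have cyc : ∀ a b c : α, a ≠ b → a ≠ c → b ≠ c → ∀ f ∈ W.toSubmodule,
      (f - fun x => f ((swap a b * swap a c) x)) ∈ W.toSubmodule := fun a b c h1 h2 h3 f hf =>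
    W.toSubmodule.sub_mem hf (W.apply_mem_toSubmodule (⟨_, (Perm.isThreeCycle_swap_mul_swap_same h1 h2 h3).mem_alternatingGroup⟩ : alternatingGroup α)⁻¹ hf)
  obtain ⟨f, hf, hf'⟩ := SetLike.not_le_iff_exists.1 hc
  obtain ⟨a, c, hac⟩ : ∃ a c, f a ≠ f c := by
    by_contra h
    push Not at h
    exact hf' (mem_const.2 ⟨f (Classical.arbitrary α), fun x => h _ _⟩)
  have ac : a ≠ c := fun e => hac (congrArg f e)
  obtain ⟨b, hb⟩ := exists_notMem (s := {a, c}) (Finset.card_le_two.trans_lt (by omega))
  obtain ⟨d, hd⟩ := exists_notMem (s := {a, c, b}) (Finset.card_le_three.trans_lt (by omega))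
  obtain ⟨e, he⟩ := exists_notMem (s := {a, c, b, d}) (Finset.card_le_four.trans_lt (by omega))
  simp only [Finset.mem_insert, Finset.mem_singleton, not_or] at hb hd he
  have k := cyc a d e (Ne.symm hd.1) (Ne.symm he.1) (Ne.symm he.2.2.2) _ (cyc a b c (Ne.symm hb.1) ac hb.2 f hf)
  have k2 : (Pi.single a 1 - Pi.single d 1 : α → K) ∈ W.toSubmodule := by
    convert W.toSubmodule.smul_mem (f a - f c)⁻¹ k
    ext x
    have := sub_ne_zero.2 hac
    by_cases h1 : x = a
    · subst h1
      simp [swap_apply_def, *, Ne.symm hd.1, Ne.symm he.1, Ne.symm hb.2, ac.symm, Ne.symm he.2.2.2]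
    by_cases h2 : x = d
    · subst h2
      simp [swap_apply_def, *, Ne.symm hd.1, Ne.symm he.1, Ne.symm hb.2, ac.symm, Ne.symm he.2.2.2]
      field_simp; ring
    by_cases h3 : x = e
    · subst h3
      simp [swap_apply_def, *, Ne.symm hd.1, Ne.symm he.1, Ne.symm hb.2, ac.symm, Ne.symm he.2.2.2]
    simp [swap_apply_of_ne_of_ne, h1, h2, h3]
  have k3 : ∀ x y, (Pi.single x 1 - Pi.single y 1 : α → K) ∈ W.toSubmodule := fun x y => by
    by_cases hxy : x = y
    · simp [hxy]
    obtain ⟨g, rfl, rfl⟩ := two_iff.1 h2 a d x y (Ne.symm hd.1) hxy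
    convert W.apply_mem_toSubmodule g k2
    ext z
    simp [Pi.single_apply, inv_smul_eq_iff]
  have k4 : (Cfsg.permSumZero K (alternatingGroup α) α).toSubmodule ≤ W.toSubmodule := fun v hv => by
    have : v = ∑ x, v x • (Pi.single x 1 - Pi.single a 1 : α → K) := by
      simp only [smul_sub, Finset.sum_sub_distrib, ← Finset.sum_smul, mem_sz.1 hv, zero_smul, sub_zero]
      exact pi_eq_sum_univ' v
    exact this ▸ Submodule.sum_mem _ fun x _ => Submodule.smul_mem _ _ (k3 x a)
  rcases k4.eq_or_lt with h | h
  · exact Or.inl (Subrepresentation.toSubmodule_injective h.symm)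
  · have := Submodule.finrank_lt_finrank_of_lt h
    have h5 := finrank_sz (G := alternatingGroup α) (α := α) (K := K)
    have h6 := Submodule.finrank_le W.toSubmodule
    rw [Module.finrank_fintype_fun_eq_card] at h6
    exact Or.inr (Submodule.eq_top_of_finrank_eq (by rw [Module.finrank_fintype_fun_eq_card]; omega))

end Cfsg.Agent.S0714
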