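import Cfsg.Statements.S0716
import Cfsg.Agent.PM.Ch2

set_option autoImplicit false
open Cfsg

namespace Cfsg.Agent.S0716

open MulAction PM H3 Cfsg

/-- (a) If all non-principal irreducible constituents of the permutation character of a transitive group have the same degree `f`, the character is multiplicity-free and all non-trivial subdegrees equal `f`. (b) A transitive group of rank at most 5 has multiplicity-free permutation character. -/
theorem result {G : Type*} [Group G] [Fintype G] {Ω : Type*} [Fintype Ω] [MulAction G Ω] [MulAction.IsPretransitive G Ω] (a : Ω) : ((f : ℕ) → (∀ χ : G → ℂ, Cfsg.IsIrrCharacter G χ → χ ≠ (fun _ => 1) → Cfsg.classInner (fun g : G => (Nat.card (MulAction.fixedBy Ω g) : ℂ)) χ ≠ 0 → χ 1 = f) → (∀ χ : G → ℂ, Cfsg.IsIrrCharacter G χ → Cfsg.classInner (fun g : G => (Nat.card (MulAction.fixedBy Ω g) : ℂ)) χ = 0 ∨ Cfsg.classInner (fun g : G => (Nat.card (MulAction.fixedBy Ω g) : ℂ))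 χ = 1) ∧ ∀ b : Ω, b ≠ a → Nat.card (MulAction.orbit (MulAction.stabilizer G a) b) = f) ∧ (Nat.card (MulAction.orbitRel.Quotient (MulAction.stabilizer G a) Ω) ≤ 5 → ∀ χ : G → ℂ, Cfsg.IsIrrCharacter G χ → Cfsg.classInner (fun g : G => (Nat.card (MulAction.fixedBy Ω g) : ℂ)) χ = 0 ∨ Cfsg.classInner (fun g : G => (Nat.card (MulAction.fixedBy Ω g) : ℂ)) χ = 1) := by
  refine ⟨fun f hf => mf_of_deg a f hf, fun h χ hχ => ?_⟩
  classical
  obtain ⟨c, h1, h2, h3, -⟩ := mult_nat (G := G) a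
  by_contra hc
  have e := h1 ⟨χ, hχ⟩
  have h4 : 2 ≤ c ⟨χ, hχ⟩ := by
    by_contra h5
    rcases Nat.le_one_iff_eq_zero_or_eq_one.1 (show c ⟨χ, hχ⟩ ≤ 1 by omega) with h | h
    · exact hc (.inl (e.trans (by simp [h])))
    · exact hc (.inr (e.trans (by simp [h])))
  obtain ⟨f, -, hf⟩ := irr_one_nat hχ
  refine hc ((mf_of_deg a f fun ψ h5 h6 h7 => ?_).1 χ hχ)
  by_contra h8
  rw [h1 ⟨ψ, h5⟩, Nat.cast_ne_zero] at h7
  have n1 : (⟨χ, hχ⟩ : IrrCharacter G) ≠ ⟨_, isIrr_one⟩ := fun e => by rw [e] at h4; omega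
  have n2 : (⟨ψ, h5⟩ : IrrCharacter G) ≠ ⟨_, isIrr_one⟩ := fun e => h6 (congrArg Subtype.val e)
  have n3 : (⟨χ, hχ⟩ : IrrCharacter G) ≠ ⟨ψ, h5⟩ := fun e =>
    h8 (by rw [← hf]; exact congrFun (congrArg Subtype.val e).symm 1)
  have := Finset.sum_le_sum_of_subset (f := fun χ => c χ ^ 2)
    (Finset.subset_univ {⟨χ, hχ⟩, ⟨ψ, h5⟩, ⟨_, isIrr_one⟩})
  rw [Finset.sum_insert (by simp [n1, n3]), Finset.sum_pair n2, h2, h3] at this
  nlinarith [Nat.pos_of_ne_zero h7]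

end Cfsg.Agent.S0716
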