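import Cfsg.Statements.S0717
import Cfsg.Agent.PM.Ch2

set_option autoImplicit false
open Cfsg

namespace Cfsg.Agent.S0717

open MulAction PM H3 Cfsg Matrix
open scoped ComplexConjugate

/-- All suborbits of a transitive group are self-paired (every pair of points is interchanged by some group element) if and only if the permutation character is multiplicity-free and each of its irreducible constituents is real-valued. -/
theorem result {G : Type*} [Group G] [Fintype G] {Ω : Type*} [Fintype Ω] [MulAction G Ω] [MulAction.IsPretransitive G Ω] : (∀ a b : Ω, ∃ g : G, g • a = b ∧ g • b = a) ↔ ∀ χ : G → ℂ, Cfsg.IsIrrCharacter G χ → Cfsg.classInner (fun g : G => (Nat.card (MulAction.fixedBy Ω g) : ℂ)) χ ≠ 0 → Cfsg.classInner (fun g : G => (Nat.card (MulAction.fixedBy Ω g) : ℂ)) χ = 1 ∧ ∀ g : G, (starRingEnd ℂ) (χ g) = χ g := by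
  classical
  refine ⟨fun h χ hχ h0 => ?_, fun h a b => ?_⟩
  · have sy : ∀ T : Matrix Ω Ω ℂ, Inv G T → Tᵀ = T := fun T hT => by
      ext x y
      obtain ⟨g, h1, h2⟩ := h x y
      rw [transpose_apply, ← hT g x y, h1, h2]
    have mf : MF G Ω := mf_of_comm fun S T hS hT => by
      rw [← sy _ (hS.mul hT), transpose_mul, sy _ hS, sy _ hT]
    refine ⟨(mf χ hχ).resolve_left h0, ?_⟩
    let E : Matrix Ω Ω ℂ := ∑ g, conj (χ g) • pm Ω g
    have iE : Inv G E := fun u x y => by
      simp only [E, Matrix.sum_apply, Matrix.smul_apply, pm]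
      refine (Fintype.sum_equiv (MulAut.conj u).toEquiv _ _ fun g => ?_).symm
      simp [irr_class hχ g u, mul_smul]
    have cp := char_class (char_perm (G := G) Ω)
    have tE : th G E = (Nat.card G * classInner (pc G Ω) χ / χ 1) • χ := by
      ext u
      rw [← trace_pm_mul, Finset.mul_sum, trace_sum]
      simp only [mul_smul_comm, trace_smul, ← pm_mul, smul_eq_mul]
      have : ∀ g, (pm Ω (u * g)).trace = ∑ φ : IrrCharacter G, classInner (pc G Ω) φ * φ.1 (g * u) :=
        fun g => by
          rw [← mul_one (pm Ω _), trace_pm_mul, th_one, class_mul_comm (a := pc G Ω) cp,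
            class_apply_eq_sum (f := pc G Ω) cp]
      simp only [this, Finset.mul_sum]
      rw [Finset.sum_comm, Finset.sum_eq_single ⟨χ, hχ⟩ ?_ (by simp)]
      · have := sum_class_mul_char hχ (class_conj (irr_class hχ)) u
        rw [sum_conj_mul_irr hχ] at this
        simp only [mul_left_comm (conj (χ _)), ← Finset.mul_sum, Pi.smul_apply, smul_eq_mul]
        rw [div_mul_eq_mul_div, eq_div_iff (irr_one_ne_zero hχ), mul_assoc, this]; ring
      · intro φ _ hφ
        have := sum_class_mul_char φ.2 (class_conj (irr_class hχ)) u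
        have h3 := irr_inner_ne φ.2 hχ fun e => hφ (Subtype.ext e)
        rw [classInner, mul_eq_zero, inv_eq_zero, or_iff_right (card_ne_zero' G)] at h3
        simp only [mul_comm (φ.1 _)] at h3
        rw [h3, zero_mul, mul_eq_zero, or_iff_left (irr_one_ne_zero φ.2)] at this
        simp only [mul_left_comm (conj (χ _)), ← Finset.mul_sum, this, mul_zero]
    have := tc_tr iE (irr_char hχ)
    rw [sy _ iE, tc, tc, tE, H3.inner_smul_left, H3.inner_smul_left, irr_inner_self hχ] at this
    have h2 := mul_left_cancel₀ (div_ne_zero (mul_ne_zero (card_ne_zero' G) h0)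
      (irr_one_ne_zero hχ)) this
    exact fun g => (congrFun (irr_eq_of_inner_ne_zero hχ (irr_conj hχ)
      (by rw [← h2]; exact one_ne_zero)) g).symm
  · have := MF.symm (G := G) (Ω := Ω) (fun χ hχ => (em _).imp_right fun h0 => (h χ hχ h0).1)
      (fun χ hχ h0 => (h χ hχ (by rw [h0]; exact one_ne_zero)).2) (oc_inv a b)
    have h1 := congrFun (congrFun this a) b
    rw [transpose_apply, oc_apply, oc_apply, if_pos (c := ∃ g : G, g • a = a ∧ _) ⟨1, by simp⟩] at h1
    by_contra hc
    rw [if_neg hc] at h1
    exact zero_ne_one h1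

end Cfsg.Agent.S0717
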