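import Cfsg.Statements.S0718
import Cfsg.Agent.PM.Ch2

set_option autoImplicit false
open Cfsg

namespace Cfsg.Agent.S0718

open MulAction PM H3 Cfsg Matrix

/-- Multiplicity-freeness of the permutation character is equivalent to commutativity of the centraliser ring, i.e. of the algebra of `G`-equivariant endomorphisms of the complex permutation module. -/
theorem result {G : Type*} [Group G] [Fintype G] {Ω : Type*} [Fintype Ω] [MulAction G Ω] : (∀ χ : G → ℂ, Cfsg.IsIrrCharacter G χ → Cfsg.classInner (fun g : G => (Nat.card (MulAction.fixedBy Ω g) : ℂ)) χ = 0 ∨ Cfsg.classInner (fun g : G => (Nat.card (MulAction.fixedBy Ω g) : ℂ)) χ = 1) ↔ ∀ S T : (Ω → ℂ) →ₗ[ℂ] (Ω → ℂ), S ∈ ((Cfsg.permRep ℂ G Ω).linHom (Cfsg.permRep ℂ G Ω)).invariants → T ∈ ((Cfsg.permRep ℂ G Ω).linHom (Cfsg.permRep ℂ G Ω)).invariants → S ∘ₗ T = T ∘ₗ S := by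
  classical
  have k : ∀ S : (Ω → ℂ) →ₗ[ℂ] (Ω → ℂ), S ∈ ((Cfsg.permRep ℂ G Ω).linHom
      (Cfsg.permRep ℂ G Ω)).invariants ↔ Inv G (LinearMap.toMatrix' S) := fun S => by
    rw [inv_iff, Representation.mem_invariants]
    refine forall_congr' fun g => ?_
    rw [Representation.linHom_apply]
    refine ⟨fun h => LinearMap.ext fun v => ?_, fun h => LinearMap.ext fun v => ?_⟩
    · have := LinearMap.congr_fun h (permRep ℂ G Ω g v)
      simp only [LinearMap.comp_apply, Representation.inv_self_apply] at this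
      exact this.symm
    · have := LinearMap.congr_fun h (permRep ℂ G Ω g⁻¹ v)
      simp only [LinearMap.comp_apply, Representation.self_inv_apply] at this
      exact this.symm
  refine ⟨fun h S T hS hT => LinearMap.toMatrix'.injective ?_, fun h => mf_of_comm fun S T hS hT => ?_⟩
  · rw [LinearMap.toMatrix'_comp, LinearMap.toMatrix'_comp]
    exact MF.comm h ((k S).1 hS) ((k T).1 hT)
  · apply toLin'.injective
    rw [toLin'_mul, toLin'_mul]
    exact h _ _ ((k _).2 (by simpa using hS)) ((k _).2 (by simpa using hT))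

end Cfsg.Agent.S0718
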