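import Cfsg.Statements.S0719
import Cfsg.Agent.PM.Ch2

set_option autoImplicit false
open Cfsg

namespace Cfsg.Agent.S0719

open MulAction PM H3 Cfsg Matrix
open scoped ComplexConjugate
theorem arith {m k r s : ℤ} (hm : 2 ≤ m) (k1 : 2 ≤ k) (k2 : k + 3 ≤ 2 * m)
    (e1 : k + r * (m - 1) + s * m = 0) (e2 : 2 * m * k = k ^ 2 + r ^ 2 * (m - 1) + s ^ 2 * m) :
    ∃ a : ℕ, m = 2 * a ^ 2 + 2 * a + 1 ∧ (k = a * (2 * a + 1) ∨ k = (a + 1) * (2 * a + 1)) := by
  obtain ⟨c, rfl⟩ : ∃ c, r = -c - s := ⟨-r - s, by ring⟩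
  obtain rfl : k = -c - s + m * c := by linear_combination e1
  have e3 : (m - 1) * (c * (2 - c)) = 2 * (s * (s + 1)) :=
    mul_left_cancel₀ (show m ≠ 0 by omega) (by linear_combination e2)
  have e4 : 0 ≤ s * (s + 1) := by
    rcases le_or_gt 0 s with h | h
    · positivity
    · exact mul_nonneg_of_nonpos_of_nonpos h.le (by omega)
  have e5 : 0 ≤ c * (2 - c) := by
    by_contra h
    nlinarith [mul_pos (show 0 < m - 1 by omega) (neg_pos.2 (not_le.1 h))]
  have e6 : 0 ≤ c := by by_contra h; nlinarith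
  have e7 : c ≤ 2 := by by_contra h; nlinarith
  have e8 : s * (s + 1) = 0 → s = 0 ∨ s = -1 := fun h => by
    rcases mul_eq_zero.1 h with h | h <;> omega
  interval_cases c
  · rcases e8 (by linarith) with rfl | rfl <;> omega
  · rcases le_or_gt 0 s with h | h
    · obtain ⟨a, rfl⟩ := Int.eq_ofNat_of_zero_le h
      exact ⟨a, by linear_combination e3, .inl (by linear_combination e3)⟩
    · obtain ⟨a, ha⟩ := Int.eq_ofNat_of_zero_le (show 0 ≤ -s - 1 by omega)
      obtain rfl : s = -a - 1 := by omega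
      exact ⟨a, by linear_combination e3, .inr (by linear_combination e3)⟩
  · rcases e8 (by linarith) with rfl | rfl <;> omega

/-- Groups of Wielandt type: if a primitive group of degree `2m` has rank 3 and permutation character `1 + χ₁ + χ₂` with irreducible `χ₁, χ₂` of degrees `m - 1` and `m`, then `m = 2a² + 2a + 1` for some positive integer `a` and the two non-trivial subdegrees are `a(2a+1)` and `(a+1)(2a+1)`. -/
theorem result {G : Type*} [Group G] [Fintype G] {Ω : Type*} [Fintype Ω] [MulAction G Ω] (hprim : MulAction.IsPreprimitive G Ω) {m : ℕ} (hm : Fintype.card Ω = 2 * m) (a₀ : Ω) (hrank : Nat.card (MulAction.orbitRel.Quotient (MulAction.stabilizer G a₀) Ω) = 3) (χ₁ χ₂ : G → ℂ) (h₁ : Cfsg.IsIrrCharacter G χ₁) (h₂ : Cfsg.IsIrrCharacter G χ₂) (hπ : (fun g : G => (Nat.card (MulAction.fixedBy Ω g) : ℂ)) = fun g => 1 + χ₁ g + χ₂ g) (hd₁ : χ₁ 1 = (m : ℂ) - 1) (hd₂ : χ₂ 1 = m) : ∃ a : ℕ, 0 < a ∧ m = 2 * a ^ 2 + 2 * a + 1 ∧ ∀ b : Ω, b ≠ a₀ → Nat.card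 (MulAction.orbit (MulAction.stabilizer G a₀) b) = a * (2 * a + 1) ∨ Nat.card (MulAction.orbit (MulAction.stabilizer G a₀) b) = (a + 1) * (2 * a + 1) := by
  classical
  haveI : Nonempty Ω := ⟨a₀⟩
  change pc G Ω = _ at hπ
  have hπ' : pc G Ω = (fun _ => 1) + χ₁ + χ₂ := hπ
  have n12 : χ₁ ≠ χ₂ := fun e => by
    rw [e, hd₂] at hd₁; exact one_ne_zero (α := ℂ) (by linear_combination hd₁)
  have i0 := inner_pc_one (G := G) (Ω := Ω)
  rw [hπ', H3.inner_add_left, H3.inner_add_left, irr_inner_self isIrr_one, irr_inner h₁ isIrr_one,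
    irr_inner h₂ isIrr_one] at i0
  have n1 : χ₁ ≠ fun _ => 1 := fun e => by
    rw [if_pos e, if_neg (e ▸ n12.symm)] at i0; norm_num at i0
  have n2 : χ₂ ≠ fun _ => 1 := fun e => by
    rw [if_pos e, if_neg n1] at i0; norm_num at i0
  have i1 : classInner (pc G Ω) χ₁ = 1 := by
    rw [hπ', H3.inner_add_left, H3.inner_add_left, irr_inner_self h₁, irr_inner_ne isIrr_one h₁ n1.symm,
      irr_inner_ne h₂ h₁ n12.symm]; simp
  have i2 : classInner (pc G Ω) χ₂ = 1 := by
    rw [hπ', H3.inner_add_left, H3.inner_add_left, irr_inner_self h₂, irr_inner_ne isIrr_one h₂ n2.symm,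
      irr_inner_ne h₁ h₂ n12]; simp
  have tr : ∀ T : Matrix Ω Ω ℂ, Inv G T →
      T.trace = tc T (fun _ : G => 1) + tc T χ₁ * (m - 1) + tc T χ₂ * m := fun T hT => by
    rw [trace_eq_sum hT, ← Finset.sum_subset (Finset.subset_univ
      ({⟨_, isIrr_one⟩, ⟨_, h₁⟩, ⟨_, h₂⟩} : Finset (IrrCharacter G))) fun χ _ hχ => ?_,
      Finset.sum_insert (by simp [n1.symm, n2.symm]), Finset.sum_pair (by simp [n12])]
    · simp only [hd₁, hd₂]; ring
    · simp only [Finset.mem_insert, Finset.mem_singleton, Subtype.ext_iff, not_or] at hχ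
      rw [tc_zero χ.2, zero_mul]
      rw [hπ', H3.inner_add_left, H3.inner_add_left, irr_inner_ne isIrr_one χ.2 (Ne.symm hχ.1),
        irr_inner_ne h₁ χ.2 (Ne.symm hχ.2.1), irr_inner_ne h₂ χ.2 (Ne.symm hχ.2.2)]; simp
  have m2 : 2 ≤ m := by
    obtain ⟨n, n0, hn⟩ := irr_one_nat h₁
    have : m = n + 1 := by exact_mod_cast (show (m : ℂ) = n + 1 by linear_combination hn - hd₁)
    omega
  have k2 : ∀ b, b ≠ a₀ → 2 ≤ Nat.card (orbit (stabilizer G a₀) b) := fun b hb => by
    by_contra h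
    haveI : Nonempty (orbit (stabilizer G a₀) b) := ⟨⟨b, mem_orbit_self b⟩⟩
    have h1 : Nat.card (orbit (stabilizer G a₀) b) = 1 := by
      have := Nat.card_pos (α := orbit (stabilizer G a₀) b); omega
    have h2 : stabilizer G a₀ ≤ stabilizer G b := fun u hu => congrArg Subtype.val
      ((Nat.card_eq_one_iff_unique.1 h1).1.elim ⟨_, ⟨⟨u, hu⟩, rfl⟩⟩ ⟨b, mem_orbit_self b⟩)
    have h3 : stabilizer G a₀ = stabilizer G b := Subgroup.eq_of_le_of_card_ge h2
      (Nat.eq_of_mul_eq_mul_left (Nat.card_pos (α := Ω))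
        ((card_mul_stab b).trans (card_mul_stab a₀).symm)).le
    rcases prim_rel (G := G) (fun x y : Ω => stabilizer G x = stabilizer G y)
      ⟨fun _ => rfl, Eq.symm, Eq.trans⟩ (fun g x y h => by
        rw [stabilizer_smul_eq_stabilizer_map_conj, stabilizer_smul_eq_stabilizer_map_conj, h])
      with h4 | h4
    · exact hb (h4 _ _ h3).symm
    · have : Nat.card (orbitRel.Quotient (stabilizer G a₀) Ω) = Nat.card Ω :=
        (Nat.card_eq_of_bijective (Quotient.mk _) ⟨fun x y e => by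
          obtain ⟨u, hu⟩ := Quotient.exact e
          exact hu.symm.trans (h4 a₀ y ▸ u.2 : u.1 ∈ stabilizer G y), Quotient.mk_surjective⟩).symm
      rw [hrank, Nat.card_eq_fintype_card] at this
      omega
  have key : ∀ b, b ≠ a₀ → ∃ a : ℕ, m = 2 * a ^ 2 + 2 * a + 1 ∧
      (Nat.card (orbit (stabilizer G a₀) b) = a * (2 * a + 1) ∨
        Nat.card (orbit (stabilizer G a₀) b) = (a + 1) * (2 * a + 1)) := fun b hb => by
    let Q := orbitRel.Quotient (stabilizer G a₀) Ω
    letI : Fintype Q := Fintype.ofFinite _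
    have nq : ∀ b, (Quotient.mk _ b : Q) = Quotient.mk _ a₀ → b = a₀ := fun b e => by
      obtain ⟨u, hu⟩ := Quotient.exact e
      exact hu.symm.trans u.2
    have c2 : ({Quotient.mk _ a₀, Quotient.mk _ b} : Finset Q)ᶜ.card = 1 := by
      rw [Finset.card_compl, Finset.card_pair fun e => hb (nq _ e.symm), ← Nat.card_eq_fintype_card,
        hrank]
    obtain ⟨q, hq⟩ := Finset.card_eq_one.1 c2
    obtain ⟨c, rfl⟩ := Quotient.exists_rep q
    have hq' : ∀ y, (y ≠ a₀ ∧ y ∉ orbit (stabilizer G a₀) b) ↔ y ∈ orbit (stabilizer G a₀) c :=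
      fun y => by
        have := Finset.ext_iff.1 hq (Quotient.mk _ y)
        simp only [Finset.mem_compl, Finset.mem_insert, Finset.mem_singleton, not_or] at this
        exact Iff.trans (and_congr (not_congr ⟨fun e => by rw [e], nq y⟩)
          (not_congr ⟨fun h => Quotient.sound h, fun h => Quotient.exact h⟩))
          (this.trans ⟨fun h => Quotient.exact h, fun h => Quotient.sound h⟩)
    have nb : a₀ ∉ orbit (stabilizer G a₀) b := fun h => hb (nq _ (Quotient.sound h).symm)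
    have ext : ∀ S T : Matrix Ω Ω ℂ, Inv G S → Inv G T → S a₀ a₀ = T a₀ a₀ → S a₀ b = T a₀ b →
        S a₀ c = T a₀ c → S = T := fun S T hS hT e1 e2 e3 => by
      ext x y
      obtain ⟨g, rfl⟩ := exists_smul_eq G a₀ x
      obtain ⟨y, rfl⟩ := (MulAction.toPerm g).surjective y
      change S _ (g • y) = T _ (g • y)
      rw [hS, hT]
      have : ∀ (u : stabilizer G a₀) z, S a₀ z = T a₀ z → S a₀ (u • z) = T a₀ (u • z) :=
        fun u z h => by
          have h1 := hS u a₀ z
          have h2 := hT u a₀ z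
          rw [u.2] at h1 h2
          exact h1.trans (h.trans h2.symm)
      by_cases y1 : y = a₀
      · rwa [y1]
      by_cases y2 : y ∈ orbit (stabilizer G a₀) b
      · obtain ⟨u, rfl⟩ := y2; exact this u b e2
      · obtain ⟨u, rfl⟩ := (hq' y).1 ⟨y1, y2⟩; exact this u c e3
    obtain ⟨hc, hc'⟩ := (hq' c).2 (mem_orbit_self c)
    have nc : a₀ ∉ orbit (stabilizer G a₀) c := fun h => ((hq' _).2 h).1 rfl
    have nbc : b ∉ orbit (stabilizer G a₀) c := fun h => ((hq' _).2 h).2 (mem_orbit_self b)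
    have I1 : Inv G (1 : Matrix Ω Ω ℂ) := fun g x y => by simp [one_apply]
    have Ia : ∀ {S T : Matrix Ω Ω ℂ}, Inv G S → Inv G T → Inv G (S + T) :=
      fun h h' g x y => by simp [h g, h' g]
    have Is : ∀ (z : ℂ) {S : Matrix Ω Ω ℂ}, Inv G S → Inv G (z • S) :=
      fun z _ h g x y => by simp [h g]
    have iA := oc_inv (G := G) a₀ b
    have iB := oc_inv (G := G) a₀ c
    have eJ : Jm Ω = 1 + oc G a₀ b + oc G a₀ c := ext _ _ (fun _ _ _ => rfl) (Ia (Ia I1 iA) iB)
      (by simp only [Matrix.add_apply, oc_left]; simp [Jm, nb, nc])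
      (by simp only [Matrix.add_apply, oc_left]; simp [Jm, hb.symm, nbc])
      (by simp only [Matrix.add_apply, oc_left]; simp [Jm, hc.symm, hc'])
    set P := ob G a₀ b * ob G a₀ b
    have eP : oc G a₀ b * oc G a₀ b = P.map (Int.castRingHom ℂ) := Matrix.map_mul.symm
    have eA : oc G a₀ b * oc G a₀ b = (P a₀ a₀ : ℂ) • (1 : Matrix Ω Ω ℂ) + (P a₀ b : ℂ) • oc G a₀ b +
        (P a₀ c : ℂ) • oc G a₀ c := ext _ _ (iA.mul iA) (Ia (Ia (Is _ I1) (Is _ iA)) (Is _ iB))
      (by simp only [eP, Matrix.add_apply, Matrix.smul_apply, oc_left]; simp [nb, nc])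
      (by simp only [eP, Matrix.add_apply, Matrix.smul_apply, oc_left]; simp [hb.symm, nbc])
      (by simp only [eP, Matrix.add_apply, Matrix.smul_apply, oc_left]; simp [hc.symm, hc'])
    have q1 : ∀ χ : G → ℂ, IsIrrCharacter G χ → χ ≠ (fun _ => 1) → classInner (pc G Ω) χ = 1 →
        tc (oc G a₀ b) χ ^ 2 = P a₀ a₀ - P a₀ c + (P a₀ b - P a₀ c) * tc (oc G a₀ b) χ :=
      fun χ j1 j2 j3 => by
        have l1 := tc_J (Ω := Ω) χ
        rw [irr_inner_ne isIrr_one j1 j2.symm, eJ, tc_add, tc_add, tc_one, j3] at l1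
        have l2 := tc_mul j1 j3 (T := oc G a₀ b) iA
        rw [eA, tc_add, tc_add, tc_smul, tc_smul, tc_smul, tc_one, j3] at l2
        linear_combination -l2 + P a₀ c * l1
    have t1 := tr _ iA
    rw [oc_trace hb, tc_oc] at t1
    have t2 := tr _ (iA.mul iA.ct)
    rw [tc_mul h₁ i1 iA, tc_mul h₂ i2 iA, tc_mul isIrr_one inner_pc_one iA, tc_ct iA (irr_char h₁),
      tc_ct iA (irr_char h₂), tc_ct iA char_one, tc_oc] at t2
    have t3 := tc_J (G := G) (Ω := Ω) fun _ => 1
    rw [eJ, tc_add, tc_add, tc_oc, tc_oc, tc_one, inner_pc_one, irr_inner_self isIrr_one, hm] at t3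
    have t4 : (oc G a₀ b * (oc G a₀ b)ᴴ).trace = 2 * m * Nat.card (orbit (stabilizer G a₀) b) := by
      have : ∀ x y, oc G a₀ b x y * star (oc G a₀ b x y) = oc G a₀ b x y := fun x y => by
        rw [oc_apply]; split_ifs <;> simp
      simp only [trace, Matrix.diag_apply, mul_apply, conjTranspose_apply, this, oc_row]
      simp [hm]
    have hk := k2 b hb
    have hl := k2 c hc
    set k := Nat.card (orbit (stabilizer G a₀) b)
    have t5 : 1 + k + Nat.card (orbit (stabilizer G a₀) c) = 2 * m := by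
      rw [mul_one] at t3; exact_mod_cast t3
    have z1 := tc_int h₁ iA
    have z2 := tc_int h₂ iA
    have q2 := q1 _ h₁ n1 i1
    have q3 := q1 _ h₂ n2 i2
    change IsIntegral ℤ (tc (oc G a₀ b) χ₁) at z1
    change IsIntegral ℤ (tc (oc G a₀ b) χ₂) at z2
    set r := tc (oc G a₀ b) χ₁
    set s := tc (oc G a₀ b) χ₂
    have : ∃ r' s' : ℤ, r = r' ∧ s = s' := by
      by_cases e : r = s
      · have m0 : ((2 * m - 1 : ℤ) : ℂ) ≠ 0 := by exact_mod_cast (by omega : (2 * m - 1 : ℤ) ≠ 0)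
        have e' : r = ((-k : ℤ) : ℂ) / ((2 * m - 1 : ℤ) : ℂ) := by
          rw [eq_div_iff m0]; push_cast; linear_combination -t1 + m * e
        obtain ⟨u, hu⟩ := int_dvd_of_isIntegral_div (by omega) (e' ▸ z1)
        rw [hu, Int.cast_mul, mul_div_cancel_left₀ _ m0] at e'
        exact ⟨u, u, e', e ▸ e'⟩
      · have e' : r + s = P a₀ b - P a₀ c :=
          mul_left_cancel₀ (sub_ne_zero.2 e) (by linear_combination q2 - q3)
        exact ⟨k + m * (P a₀ b - P a₀ c), -k - (m - 1) * (P a₀ b - P a₀ c),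
          by push_cast; linear_combination t1 + m * e',
          by push_cast; linear_combination -t1 - (m - 1) * e'⟩
    obtain ⟨r', s', hr, hs⟩ := this
    rw [hr, hs] at t1 t2
    rw [t4] at t2
    simp only [map_natCast, map_intCast] at t2
    obtain ⟨a, j1, j2⟩ := arith (m := m) (k := k) (r := r') (s := s') (by omega) (by omega) (by omega)
      (by exact_mod_cast t1.symm) (by simp only [sq]; exact_mod_cast t2)
    exact ⟨a, by exact_mod_cast j1, by exact_mod_cast j2⟩
  obtain ⟨b, hb⟩ := Fintype.exists_ne_of_one_lt_card (by omega) a₀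
  obtain ⟨a, j1, -⟩ := key b hb
  refine ⟨a, Nat.pos_of_ne_zero (by rintro rfl; omega), j1, fun b hb => ?_⟩
  obtain ⟨a', j2, j3⟩ := key b hb
  obtain rfl : a = a' := by nlinarith
  exact j3

end Cfsg.Agent.S0719
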