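import Cfsg.Statements.S0799
import Cfsg.Agent.H5.PSL2

set_option autoImplicit false
open Cfsg

namespace Cfsg.Agent.S0799

open H5

/-- Dickson's classification of the subgroups of PSL_2(q), q a power of the prime p, d = gcd(2, q − 1): every subgroup H is (a) cyclic or dihedral with k dividing (q+1)/d or (q−1)/d (cyclic of order k, or dihedral of order 2k), (b) isomorphic to a subgroup of the normaliser of a Sylow p-subgroup, (c) isomorphic to A_4, S_4 or A_5, or (d) isomorphic to PSL_2(K) or PGL_2(K) for a finite field K with |K|^m = q. -/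
theorem result {F : Type*} [Field F] [Fintype F] {q : ℕ} (hF : Fintype.card F = q) (p : ℕ) [Fact p.Prime] [CharP F p] (H : Subgroup (Matrix.ProjectiveSpecialLinearGroup (Fin 2) F)) : (∃ k : ℕ, (k ∣ (q + 1) / Nat.gcd 2 (q - 1) ∨ k ∣ (q - 1) / Nat.gcd 2 (q - 1)) ∧ ((IsCyclic H ∧ Nat.card H = k) ∨ Nonempty (H ≃* DihedralGroup k))) ∨ (∃ (P : Sylow p (Matrix.ProjectiveSpecialLinearGroup (Fin 2) F)) (K : Subgroup (Matrix.ProjectiveSpecialLinearGroup (Fin 2) F)), K ≤ Subgroup.normalizer ((P : Subgroup (Matrix.ProjectiveSpecialLinearGroup (Fin 2) F)) : Set (Matrix.ProjectiveSpecialLinearGroup (Fin 2) F)) ∧ Nonempty (H ≃* K)) ∨ Nonempty (H ≃* alternatingGroup (Fin 4)) ∨ Nonempty (H ≃* Equiv.Perm (Fin 4)) ∨ Nonempty (H ≃* alternatingGroup (Fin 5)) ∨ (∃ (K : Type) (_ : Field K) (_ : Fintype K) (m : ℕ), Fintype.card K ^ m = q ∧ (Nonempty (H ≃* Matrix.ProjectiveSpecialLinearGroup (Fin 2) K) ∨ Nonempty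 (H ≃* Matrix.ProjGenLinGroup (Fin 2) K))) := by
  subst hF
  have e0 := pslSub H
  have hle := map_psl_le H
  rcases dickson p (H.map psl) with ⟨x, hx⟩ | ⟨n, T, D, h, hl⟩ | ⟨-, h⟩ | ⟨-, ⟨e⟩⟩ | ⟨c, k0, -, h⟩
  · refine Or.inr (Or.inl ?_)
    have hP : IsPGroup p ((UP x).comap psl) := (isPGroup_UP p x).comap_of_injective _ psl_inj
    obtain ⟨P, hP'⟩ := hP.exists_le_sylow
    obtain ⟨y, hy⟩ := le_UP_of_isPGroup p (P.2.map psl)
    obtain ⟨u, hu, hu1⟩ := exists_UP_ne_one x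
    obtain ⟨u, rfl⟩ := exists_psl (UP_le_PS x hu)
    obtain rfl := fix_eq_of_UP hu hu1 (UP_le y (hy ⟨u, hP' hu, rfl⟩))
    refine ⟨P, H, fun g hg => ?_, ⟨MulEquiv.refl _⟩⟩
    rw [le_antisymm (Subgroup.map_le_iff_le_comap.1 hy) hP']
    exact Subgroup.le_normalizer_comap _ (by rw [normalizer_UP]; exact hx _ ⟨g, hg, rfl⟩)
  · have h1 : Nat.card ↥(T ⊓ H.map psl) ∣ n / Nat.gcd 2 (Fintype.card F - 1) :=
      h.card_inf_PS ▸ Subgroup.card_dvd_of_le (inf_le_inf_left _ hle)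
    refine Or.inl ⟨Nat.card ↥(T ⊓ H.map psl), ?_, ?_⟩
    · rcases h.eq with rfl | rfl
      exacts [Or.inr h1, Or.inl h1]
    · rcases h.sub_cases hl with h2 | ⟨-, ⟨e⟩⟩
      · have := h.cyc
        exact Or.inl ⟨e0.isCyclic.2 (Subgroup.isCyclic_of_le h2), by rw [inf_eq_right.2 h2, Nat.card_congr e0.toEquiv]⟩
      · exact Or.inr ⟨e0.trans e⟩
  · rcases h with ⟨⟨e⟩⟩ | ⟨⟨e⟩⟩ | ⟨⟨e⟩⟩
    · exact Or.inr (Or.inr (Or.inl ⟨e0.trans e⟩))
    · exact Or.inr (Or.inr (Or.inr (Or.inl ⟨e0.trans e⟩)))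
    · exact Or.inr (Or.inr (Or.inr (Or.inr (Or.inl ⟨e0.trans e⟩))))
  · exact Or.inr (Or.inr (Or.inr (Or.inr (Or.inl ⟨e0.trans e⟩))))
  · obtain ⟨K, _, _, hK⟩ := exists_type0 k0
    obtain ⟨m, -, hm⟩ := card_eq_pow_subfield k0
    refine Or.inr (Or.inr (Or.inr (Or.inr (Or.inr ⟨K, inferInstance, inferInstance, m, by rw [hK, hm], ?_⟩))))
    rcases h with h | ⟨-, h⟩
    · exact Or.inr ⟨(e0.trans (MulEquiv.subgroupCongr h)).trans ((cjEquiv c _).symm.trans (subPGL_equiv k0 hK).some)⟩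
    · exact Or.inl ⟨(e0.trans (MulEquiv.subgroupCongr h)).trans ((cjEquiv c _).symm.trans (subPSL_equiv k0 hK).some)⟩


end Cfsg.Agent.S0799
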