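import Cfsg.Statements.S2476
import Cfsg.Agent.H5.Spec

set_option autoImplicit false
open Cfsg

namespace Cfsg.Agent.S2476

open H5 Matrix Polynomial Module

/-- The set of element orders of PSL(3,q): let F be a finite field of characteristic p with q elements and d = gcd(3, q − 1). The orders of elements of PSL(3,F) are exactly the divisors of (q² + q + 1)/d, of (q² − 1)/d, of q − 1, of p(q − 1)/d, and, when p = 2, of 4. -/
theorem result {F : Type*} [Field F] [Fintype F] (p : ℕ) [Fact p.Prime] [CharP F p] :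
    Set.range (orderOf : Matrix.ProjectiveSpecialLinearGroup (Fin 3) F → ℕ) =
      {m : ℕ | m ∣ (Fintype.card F ^ 2 + Fintype.card F + 1) / Nat.gcd 3 (Fintype.card F - 1) ∨
        m ∣ (Fintype.card F ^ 2 - 1) / Nat.gcd 3 (Fintype.card F - 1) ∨ m ∣ Fintype.card F - 1 ∨
        m ∣ p * (Fintype.card F - 1) / Nat.gcd 3 (Fintype.card F - 1) ∨ (p = 2 ∧ m ∣ 4)} := by
  set q := Fintype.card F
  set d := Nat.gcd 3 (q - 1)
  have q1 : 1 < q := Fintype.one_lt_card
  have pp : p.Prime := Fact.out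
  have d1 : d ∣ q - 1 := Nat.gcd_dvd_right _ _
  have d3 : d ∣ 3 := Nat.gcd_dvd_left _ _
  have e3 : (q ^ 3 - 1) / (q - 1) = q ^ 2 + q + 1 := by rw [← Nat.geomSum_eq q1]; simp [Finset.sum_range_succ]; ring
  have e2 : (q ^ 2 - 1) / (q - 1) = q + 1 := by rw [← Nat.geomSum_eq q1]; simp [Finset.sum_range_succ]; ring
  have e4 : q ^ 2 - 1 = (q + 1) * (q - 1) := by simpa using Nat.sq_sub_sq q 1
  have cp : ∀ a b : F, a * a * b = 1 → a ^ ((q - 1) / d) = b ^ ((q - 1) / d) := fun a b h => by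
    have a0 : a ≠ 0 := by rintro rfl; simp at h
    have : a ^ (3 * ((q - 1) / d)) = 1 := by
      obtain ⟨t, ht⟩ := d3
      rw [ht, mul_right_comm, Nat.mul_div_cancel' d1, pow_mul, FiniteField.pow_card_sub_one_eq_one a a0, one_pow]
    apply mul_left_cancel₀ (pow_ne_zero ((q - 1) / d) (mul_ne_zero a0 a0))
    rw [← mul_pow, ← mul_pow, h, one_pow, ← this, pow_mul]; congr 1; ring
  obtain ⟨l, hl⟩ := IsCyclic.exists_ofOrder_eq_natCard (α := Fˣ)
  rw [Nat.card_units, Nat.card_eq_fintype_card] at hl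
  have hl' : ∀ t, l.1 ^ t = 1 ↔ q - 1 ∣ t := fun t => by rw [← hl, orderOf_dvd_iff_pow_eq_one, Units.ext_iff]; simp
  ext m
  refine ⟨?_, fun h => ?_⟩
  · rintro ⟨x, rfl⟩
    obtain ⟨g, rfl⟩ := QuotientGroup.mk_surjective x
    simp only [Set.mem_setOf_eq, psl_pow]
    have m0 := g.1.charpoly_monic
    have n0 : g.1.charpoly.natDegree = 3 := by simp
    have c0 : g.1.charpoly.coeff 0 = -1 := by
      have := g.1.det_eq_sign_charpoly_coeff
      rw [g.2] at this; simp [Odd.neg_one_pow (n := 3) (by decide)] at this; linear_combination this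
    by_cases i3 : Irreducible g.1.charpoly
    · have := Fact.mk i3
      have h := root_norm i3 m0
      rw [n0, e3, c0] at h
      obtain ⟨z, hz⟩ := mem_range_of_pow (F := F) (a := AdjoinRoot.root g.1.charpoly ^ ((q ^ 2 + q + 1) / d)) (by
        rw [← pow_mul, Nat.div_mul_cancel (e3 ▸ (gcd_geom q1 3).symm.dvd.trans (Nat.gcd_dvd_left _ _)), h]; norm_num) d1
      exact .inl ⟨z, pow_of_dvd ((dvd_iff_root _ _).2 hz)⟩
    obtain ⟨c, hc⟩ := Multiset.exists_mem_of_ne_zero (mt (m0.irreducible_iff_roots_eq_zero_of_degree_le_three (by omega) (by omega)).2 i3)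
    obtain ⟨Q, hQ⟩ := dvd_iff_isRoot.2 (isRoot_of_mem_roots hc)
    have m1 : Q.Monic := (monic_X_sub_C c).of_mul_monic_left (hQ ▸ m0)
    have n1 : Q.natDegree = 2 := by rw [hQ, (monic_X_sub_C c).natDegree_mul m1, natDegree_X_sub_C] at n0; omega
    have c1 : c * Q.coeff 0 = 1 := by rw [hQ] at c0; simpa using c0
    by_cases i2 : Irreducible Q
    · have := Fact.mk i2
      have h := root_norm i2 m1
      rw [n1, e2, neg_one_sq, one_mul] at h
      have r0 : AdjoinRoot.root Q ^ (q ^ 2 - 1) = 1 := by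
        rw [e4, pow_mul, h, ← map_pow, FiniteField.pow_card_sub_one_eq_one _ (right_ne_zero_of_mul_eq_one c1), map_one]
      have d2 : d ∣ q ^ 2 - 1 := e4 ▸ d1.mul_left _
      have h1 : (AdjoinRoot.root Q ^ ((q ^ 2 - 1) / d)) ^ d = 1 := by rw [← pow_mul, Nat.div_mul_cancel d2, r0]
      obtain ⟨z, hz⟩ := mem_range_of_pow (F := F) h1 d1
      refine .inr (.inl ⟨z, pow_of_dvd (hQ ▸ mul_dvd_of_irr (irreducible_X_sub_C c) i2 dvd_rfl (fun e => ?_) ?_ ((dvd_iff_root _ _).2 hz))⟩)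
      · have := natDegree_le_of_dvd e (X_sub_C_ne_zero c); simp [n1] at this
      · rw [hz, ← map_pow, map_eq_one_iff _ (algebraMap F _).injective] at h1
        have h2 : Q.coeff 0 ^ ((q ^ 2 - 1) / d) = z ^ (q + 1) := (algebraMap F (AdjoinRoot Q)).injective (by
          rw [map_pow, map_pow, ← h, ← hz, ← pow_mul, ← pow_mul, mul_comm])
        have h3 : z ^ (q + 2) = 1 := by
          obtain ⟨t, ht⟩ := Nat.dvd_add d1 d3
          rw [show q + 2 = d * t by omega, pow_mul, h1, one_pow]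
        rw [dvd_iff_isRoot]
        simp only [IsRoot, eval_sub, eval_pow, eval_X, eval_C, sub_eq_zero]
        rw [← mul_one (c ^ _), ← h3, pow_succ z, ← h2, ← mul_assoc, ← mul_pow, c1]; simp
    obtain ⟨a, ha⟩ := Multiset.exists_mem_of_ne_zero (mt (m1.irreducible_iff_roots_eq_zero_of_degree_le_three (by omega) (by omega)).2 i2)
    obtain ⟨R, hR⟩ := dvd_iff_isRoot.2 (isRoot_of_mem_roots ha)
    have m2 : R.Monic := (monic_X_sub_C a).of_mul_monic_left (hR ▸ m1)
    obtain ⟨b, rfl⟩ : ∃ b, R = X - C b := ⟨-R.coeff 0, by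
      rw [hR, (monic_X_sub_C a).natDegree_mul m2, natDegree_X_sub_C] at n1
      simpa using m2.eq_X_add_C (by omega)⟩
    subst hR
    have c2 : c * a * b = 1 := by simpa [mul_assoc] using c1
    have rep : ∀ a b : F, a * a * b = 1 → g.1.charpoly = (X - C a) ^ 2 * (X - C b) →
        (∃ z : F, g.1 ^ (p * (q - 1) / d) = z • 1) ∨ p = 2 ∧ ∃ z : F, g.1 ^ 4 = z • 1 := fun a b h e => by
      have k : ∀ a : F, (X - C a) ^ p ∣ X ^ (p * (q - 1) / d) - C ((a ^ ((q - 1) / d)) ^ p) := fun a => by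
        rw [Nat.mul_div_assoc _ d1, pow_mul', C_pow, ← sub_pow_char, C_pow]
        exact pow_dvd_pow_of_dvd (sub_dvd_pow_sub_pow _ _ _) _
      by_cases ab : a = b
      · subst ab
        rw [← pow_succ] at e
        rcases pp.two_le.eq_or_lt with rfl | h2
        · refine .inr ⟨rfl, a ^ 4, pow_of_dvd ?_⟩
          rw [e, C_pow, show 4 = 2 ^ 2 from rfl, ← sub_pow_char_pow]; exact pow_dvd_pow _ (by norm_num)
        · exact .inl ⟨_, pow_of_dvd (e ▸ (pow_dvd_pow _ h2).trans (k a))⟩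
      · exact .inl ⟨_, pow_of_dvd (e ▸ (isCoprime_X_sub_C_of_isUnit_sub (sub_ne_zero.2 ab).isUnit).pow_left.mul_dvd
          ((pow_dvd_pow _ pp.two_le).trans (k a)) (cp a b h ▸ (dvd_pow_self _ pp.ne_zero).trans (k b)))⟩
    refine .inr (.inr ?_)
    by_cases ca : c = a
    · exact .inr (rep a b (ca ▸ c2) (by rw [hQ, ca]; ring))
    by_cases cb : c = b
    · exact .inr (rep b a (by rw [← c2, cb]; ring) (by rw [hQ, cb]; ring))
    by_cases ab : a = b
    · exact .inr (rep a c (by rw [← c2, ab]; ring) (by rw [hQ, ab]; ring))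
    have k : ∀ a : F, a ≠ 0 → X - C a ∣ X ^ (q - 1) - C 1 := fun a h => by
      simp [dvd_iff_isRoot, q, FiniteField.pow_card_sub_one_eq_one a h]
    have cc := fun {a b : F} (h : a ≠ b) => isCoprime_X_sub_C_of_isUnit_sub (sub_ne_zero.2 h).isUnit
    exact .inl ⟨1, pow_of_dvd (hQ ▸ ((cc ca).mul_right (cc cb)).mul_dvd (k c (by rintro rfl; simp at c2))
      ((cc ab).mul_dvd (k a (by rintro rfl; simp at c2)) (k b (by rintro rfl; simp at c2))))⟩
  rcases h with h | h | h | h | ⟨rfl, h⟩ <;> refine exists_of_dvd ?_ h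
  · exact e3 ▸ psl_singer F three_pos
  · obtain ⟨K, _, _, _, ψ, γ, h, hd⟩ := exists_singer F two_pos
    rw [e2] at hd
    have d0 : (ψ γ).det ≠ 0 := fun e => pow_ne_zero (q + 1) γ.ne_zero (by simpa [e] using (hd γ).symm)
    refine psl_order (A := fromBlocks (ψ γ) 0 0 ((ψ γ).det⁻¹ • (1 : Matrix (Fin 1) (Fin 1) F))) rfl (by simp [d0]) fun t => ?_
    have e : ∀ z : F, ((ψ γ).det⁻¹ • (1 : Matrix (Fin 1) (Fin 1) F)) ^ t = z • 1 ↔ z = (ψ γ).det⁻¹ ^ t := fun z => by
      rw [_root_.smul_pow, one_pow, (smul_left_injective F one_ne_zero).eq_iff, eq_comm]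
    simp only [blk_pow, e, exists_eq_right, ← map_pow, emb_scalar]
    rw [map_pow, map_inv₀, hd, inv_pow, ← mul_eq_one_iff_eq_inv₀ (by simp), ← pow_mul, ← pow_add, ← Units.val_pow_eq_pow_val, Units.val_eq_one,
      ← orderOf_dvd_iff_pow_eq_one, h, show t + (q + 1) * t = t * (q + 2) by ring, dvd_mul_iff (by omega)]
    suffices Nat.gcd (q ^ 2 - 1) (q + 2) = d by rw [this]
    obtain ⟨s, hs⟩ := Nat.exists_eq_add_of_le' (show 2 ≤ q from q1)
    simp only [d]
    rw [e4, hs, show s + 2 + 1 = s + 3 from rfl, show s + 2 - 1 = s + 1 from rfl]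
    calc Nat.gcd _ (s + 4) = Nat.gcd 3 (s + 4) := by rw [show (s + 3) * (s + 1) = 3 + (s + 4) * s by ring, Nat.gcd_add_mul_left_left]
      _ = _ := by rw [show s + 4 = s + 1 + 3 from rfl, Nat.gcd_add_self_right]
  · refine psl_order (A := diagonal ![l.1, l⁻¹.1, 1]) rfl (by simp [Fin.prod_univ_three]) fun t => ?_
    simp only [diagonal_pow, smul_one_eq_diagonal, diagonal_eq_diagonal_iff, Fin.forall_fin_succ]
    simpa [← hl'] using ⟨fun h => h.2.symm, fun h => by simp [h]⟩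
  · refine psl_order (A := fromBlocks !![l.1, l.1; 0, l.1] 0 0 ((l.1 * l.1)⁻¹ • (1 : Matrix (Fin 1) (Fin 1) F))) rfl (by simp; field_simp) fun t => ?_
    have e : ∀ z : F, ((l.1 * l.1)⁻¹ • (1 : Matrix (Fin 1) (Fin 1) F)) ^ t = z • 1 ↔ z = (l.1 * l.1)⁻¹ ^ t := fun z => by
      rw [_root_.smul_pow, one_pow, (smul_left_injective F one_ne_zero).eq_iff, eq_comm]
    simp only [blk_pow, e, exists_eq_right, jb_eq p l.ne_zero]
    rw [inv_pow, ← mul_eq_one_iff_eq_inv₀ (by simp), ← mul_pow, ← pow_three, ← pow_mul, hl', mul_comm, dvd_mul_iff three_pos,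
      Nat.gcd_comm, Nat.mul_div_assoc _ d1]
    exact ⟨fun h => ((cop_char p).coprime_dvd_right (Nat.div_dvd_of_dvd d1)).mul_dvd_of_dvd_of_dvd h.1 h.2,
      fun h => ⟨(Dvd.intro _ rfl).trans h, (Dvd.intro_left _ rfl).trans h⟩⟩
  · let g : SpecialLinearGroup (Fin 3) F := ⟨!![1, 1, 0; 0, 1, 1; 0, 0, 1], by simp [det_fin_three]⟩
    have h2 : (1 + 1 : F) = 0 := CharTwo.add_self_eq_zero 1
    have g2 : g.1 ^ 2 = !![1, 0, 1; 0, 1, 0; 0, 0, 1] := by simp [g, sq, h2]
    refine ⟨g, orderOf_eq_prime_pow (p := 2) (n := 1) (fun e => ?_) ?_⟩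
    · obtain ⟨z, hz⟩ := (psl_pow g 2).1 (orderOf_dvd_of_pow_eq_one e)
      simpa [g2] using congrFun₂ hz 0 2
    · refine orderOf_dvd_iff_pow_eq_one.1 ((psl_pow g _).2 ⟨1, ?_⟩)
      rw [show 2 ^ (1 + 1) = 2 * 2 from rfl, pow_mul, g2]; simp [sq, h2, one_fin_three]


end Cfsg.Agent.S2476
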