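import Cfsg.Statements.S0819
import Cfsg.Agent.S2476

set_option autoImplicit false
open Cfsg

namespace Cfsg.Agent.S0819

/-- No element of PSL_3(4) has order 15. -/
theorem result {F : Type*} [Field F] [Fintype F] (hF : Fintype.card F = 4) (g : Matrix.ProjectiveSpecialLinearGroup (Fin 3) F) : orderOf g ≠ 15 := by
  obtain ⟨p, hp⟩ := CharP.exists F
  have := Fact.mk (CharP.char_is_prime F p)
  obtain ⟨f, pp, hf⟩ := FiniteField.card F p
  obtain rfl : p = 2 := (Nat.prime_dvd_prime_iff_eq pp Nat.prime_two).1 (pp.dvd_of_dvd_pow (n := 2) (by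
    rw [show 2 ^ 2 = 4 from rfl, ← hF, hf]; exact dvd_pow_self p f.ne_zero))
  intro h
  have := (S2476.result (F := F) 2).le ⟨g, h⟩
  simp [hF] at this


end Cfsg.Agent.S0819
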