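import Cfsg.Statements.S3335
import Cfsg.Agent.H5.Sym

set_option autoImplicit false
open Cfsg

namespace Cfsg.Agent.S3335

open H5 Equiv Equiv.Perm Subgroup

theorem main {G : Type*} [Group G] (m : ℕ) (x : Fin (m + 1) → G) (hx : closure (Set.range x) = ⊤) (α : MulAut G)
    (hα : ∀ i, α (x i) = (x i)⁻¹) (h0 : x 0 ^ 3 = 1) (h0' : x 0 ≠ 1) (h1 : ∀ i, i ≠ 0 → x i ^ 2 = 1)
    (h2 : ∀ i j : Fin (m + 1), j.val = i + 1 → (x i * x j) ^ 3 = 1)
    (h3 : ∀ i j : Fin (m + 1), i.val + 1 < j → (x i * x j) ^ 2 = 1) :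
    Finite G ∧ 2 * Nat.card G ≤ (m + 3).factorial := by
  let L := MulAction.toPermHom G G
  let a : Perm G := α.toEquiv
  have aL : ∀ g, a * L g = L (α g) * a := fun g => Equiv.ext fun y => by simp [a, L]
  have aa : a * a = 1 := by
    have : (α * α).toMonoidHom = MonoidHom.id G := MonoidHom.eq_of_eqOn_dense hx (by rintro _ ⟨i, rfl⟩; simp [hα])
    exact Equiv.ext fun y => DFunLike.congr_fun this y
  have k : ∀ g h, a * L g * (a * L h) = L (α g * h) := fun g h => by
    rw [aL g, mul_assoc, ← mul_assoc a, aa, one_mul, map_mul]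
  let y : ℕ → G := fun i => if h : 0 < i ∧ i < m + 2 then x ⟨i - 1, by omega⟩ else 1
  have yα : ∀ i, α (y i) = (y i)⁻¹ := fun i => by simp only [y]; split_ifs <;> simp [hα]
  have k' : ∀ i j, a * L (y i) * (a * L (y j)) = L ((y i)⁻¹ * y j) := fun i j => by rw [k, yα]
  have inv : ∀ i, i ≠ 0 → (x i)⁻¹ = x i := fun i h => inv_eq_of_mul_eq_one_right (sq (x i) ▸ h1 i h)
  have R : ∀ (i j : Fin (m + 1)) n, j ≠ 0 → (x i * x j) ^ n = 1 → ((x i)⁻¹ * x j) ^ n = 1 := fun i j n hj h => by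
    rw [← inv j hj, ← mul_inv_rev, inv_pow, inv_eq_one, ← conj_eq_one_iff (a := x i), ← conj_pow]
    simpa [mul_assoc] using h
  obtain ⟨f, c⟩ := coxA_card (fun i => a * L (y i)) (m + 2) (fun i h => by simp [k']) (fun i j h h' => by
      have : ((y i)⁻¹ * y j) ^ 2 = 1 := by
        simp only [y]
        rw [dif_pos (show 0 < j ∧ j < m + 2 by omega)]
        split_ifs with c
        · exact R _ _ _ (by simp [Fin.ext_iff]; omega) (h3 _ _ (by simp; omega))
        · simpa using h1 _ (by simp [Fin.ext_iff]; omega)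
      rw [sq] at this
      rw [k', k', eq_inv_of_mul_eq_one_left this]; simp) (fun i h => by
      have : ((y i)⁻¹ * y (i + 1)) ^ 3 = 1 := by
        simp only [y]
        rw [dif_pos (show 0 < i + 1 ∧ i + 1 < m + 2 by omega)]
        split_ifs with c
        · exact R _ _ _ (by simp [Fin.ext_iff]; omega) (h2 _ _ (by simp; omega))
        · obtain rfl : i = 0 := by omega
          simpa using h0
      have e : ∀ j, (a * L (y j))⁻¹ = a * L (y j) := fun j => inv_eq_of_mul_eq_one_right (by simp [k'])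
      rw [← mul_inv_eq_one, mul_inv_rev _ (a * L (y (i + 1))), mul_inv_rev (a * L (y (i + 1))), e, e, ← map_one L,
        ← this, map_pow, ← k']
      simp only [pow_succ, mul_assoc, pow_zero, one_mul])
  set P := closure ((fun i => a * L (y i)) '' Set.Iio (m + 2))
  have aP : a ∈ P := subset_closure ⟨0, by simp, by simp [y]⟩
  have LP : L.range ≤ P := by
    rw [MonoidHom.range_eq_map, ← hx, MonoidHom.map_closure, closure_le]
    rintro _ ⟨_, ⟨i, rfl⟩, rfl⟩
    have := mul_mem aP (subset_closure ⟨i + 1, by simp; omega, rfl⟩)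
    simpa [← mul_assoc, aa, y, show i.val + 1 < m + 2 by omega] using this
  have I : Function.Injective L := MulAction.toPerm_injective
  have : Finite L.range := Finite.of_injective _ (inclusion_injective LP)
  refine ⟨Finite.of_equiv _ (MonoidHom.ofInjective I).symm.toEquiv, le_trans ?_ c⟩
  rw [Nat.card_congr (MonoidHom.ofInjective I).toEquiv, ← Nat.card_congr (subgroupOfEquivOfLe LP).toEquiv,
    ← (L.range.subgroupOf P).index_mul_card]
  refine Nat.mul_le_mul_right _ ?_
  have h4 : (L.range.subgroupOf P).index ≠ 1 := fun e => by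
    obtain ⟨g, hg⟩ : (⟨a, aP⟩ : P) ∈ L.range.subgroupOf P := index_eq_one.1 e ▸ mem_top _
    have e1 : g = 1 := by simpa [L, a] using congrArg (· 1) hg
    have e2 : x 0 = (x 0)⁻¹ := by simpa [L, a, e1, hα] using congrArg (· (x 0)) hg
    rw [pow_succ, sq] at h0
    nth_rw 2 [e2] at h0
    exact h0' (by simpa using h0)
  have := (L.range.subgroupOf P).index_ne_zero_of_finite
  omega

/-- A presentation of the alternating group of degree n ≥ 3 on generators x_1, …, x_{n−2} (indexed here by 0, …, n−3): the first generator cubes to 1, every other generator squares to 1, the product of two consecutive generators has order dividing 3, and the product of two generators at distance at least 2 has order dividing 2. The group so presented is isomorphic to the alternating group of degree n. -/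
theorem result (n : ℕ) (hn : 3 ≤ n) :
    Nonempty (PresentedGroup
      ({g : FreeGroup (Fin (n - 2)) | ∃ i : Fin (n - 2), i.val = 0 ∧ g = FreeGroup.of i ^ 3} ∪
       {g | ∃ i : Fin (n - 2), 1 ≤ i.val ∧ g = FreeGroup.of i ^ 2} ∪
       {g | ∃ i j : Fin (n - 2), j.val = i.val + 1 ∧ g = (FreeGroup.of i * FreeGroup.of j) ^ 3} ∪
       {g | ∃ i j : Fin (n - 2), i.val + 1 < j.val ∧ g = (FreeGroup.of i * FreeGroup.of j) ^ 2})
      ≃* alternatingGroup (Fin n)) := by
  obtain ⟨m, rfl⟩ : ∃ m, n = m + 3 := ⟨n - 3, by omega⟩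
  obtain ⟨R, hR⟩ : ∃ R, ({g : FreeGroup (Fin (m + 1)) | ∃ i : Fin (m + 1), i.val = 0 ∧ g = FreeGroup.of i ^ 3} ∪
       {g | ∃ i : Fin (m + 1), 1 ≤ i.val ∧ g = FreeGroup.of i ^ 2} ∪
       {g | ∃ i j : Fin (m + 1), j.val = i.val + 1 ∧ g = (FreeGroup.of i * FreeGroup.of j) ^ 3} ∪
       {g | ∃ i j : Fin (m + 1), i.val + 1 < j.val ∧ g = (FreeGroup.of i * FreeGroup.of j) ^ 2}) = R := ⟨_, rfl⟩
  suffices Nonempty (PresentedGroup R ≃* alternatingGroup (Fin (m + 3))) by subst hR; exact this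
  have K : ∀ {H : Type} [Group H] (x : Fin (m + 1) → H), (∀ r ∈ R, FreeGroup.lift x r = 1) ↔ x 0 ^ 3 = 1 ∧
      (∀ i, i ≠ 0 → x i ^ 2 = 1) ∧ (∀ i j : Fin (m + 1), j.val = i + 1 → (x i * x j) ^ 3 = 1) ∧
      ∀ i j : Fin (m + 1), i.val + 1 < j → (x i * x j) ^ 2 = 1 := by
    intro H _ x
    subst hR
    refine ⟨fun h => ⟨?_, fun i c => ?_, fun i j c => ?_, fun i j c => ?_⟩, ?_⟩
    · simpa using h _ (.inl (.inl (.inl ⟨0, rfl, rfl⟩)))
    · simpa using h _ (.inl (.inl (.inr ⟨i, Fin.pos_iff_ne_zero.2 c, rfl⟩)))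
    · simpa using h _ (.inl (.inr ⟨i, j, c, rfl⟩))
    · simpa using h _ (.inr ⟨i, j, c, rfl⟩)
    · rintro ⟨h0, h1, h2, h3⟩ _ (((⟨i, c, rfl⟩ | ⟨i, c, rfl⟩) | ⟨i, j, c, rfl⟩) | ⟨i, j, c, rfl⟩)
      · obtain rfl : i = 0 := Fin.ext c
        simpa using h0
      · simpa using h1 i (Fin.pos_iff_ne_zero.1 c)
      · simpa using h2 i j c
      · simpa using h3 i j c
  let x : Fin (m + 1) → PresentedGroup R := PresentedGroup.of
  obtain ⟨h0, h1, h2, h3⟩ := (K x).1 fun r hr => by
    have : FreeGroup.lift x = PresentedGroup.mk R := by ext i; simp [x, PresentedGroup.of]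
    rw [this]; exact PresentedGroup.one_of_mem hr
  have R' : ∀ (i j : Fin (m + 1)) n, (x i * x j) ^ n = 1 → ((x i)⁻¹ * (x j)⁻¹) ^ n = 1 := fun i j n h => by
    rw [← mul_inv_rev, inv_pow, inv_eq_one, ← conj_eq_one_iff (a := x i), ← conj_pow]
    simpa [mul_assoc] using h
  let α := PresentedGroup.toGroup ((K fun i => (x i)⁻¹).2 ⟨by simp [h0], fun i c => by simp [h1 i c],
    fun i j c => R' _ _ _ (h2 i j c), fun i j c => R' _ _ _ (h3 i j c)⟩)
  have hα : ∀ i, α (x i) = (x i)⁻¹ := fun i => PresentedGroup.toGroup.of _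
  have αα : α.comp α = MonoidHom.id _ := PresentedGroup.ext fun i => by simp [show PresentedGroup.of i = x i from rfl, hα]
  let s : Fin (m + 2) → Perm (Fin (m + 3)) := fun i => swap i.castSucc i.succ
  have s1 : ∀ i, s i * s i = 1 := fun i => swap_mul_self _ _
  have n1 : ∀ i : Fin (m + 2), i.castSucc ≠ i.succ := fun i => i.castSucc_lt_succ.ne
  have s2 : ∀ i j : Fin (m + 2), i.val + 1 < j → Commute (s i) (s j) := fun i j h => by
    rw [commute_iff_eq, swap_mul_eq_mul_swap, swap_inv, swap_apply_of_ne_of_ne, swap_apply_of_ne_of_ne] <;>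
      simp [Fin.ext_iff] <;> omega
  have s3 : ∀ i j : Fin (m + 2), j.val = i + 1 → (s i * s j).IsThreeCycle := fun i j h => by
    have e : j.castSucc = i.succ := Fin.ext (by simp [h])
    have := isThreeCycle_swap_mul_swap_same (n1 i).symm (e ▸ (n1 j)) (by simp [Fin.ext_iff]; omega)
    simp only [s]; rwa [swap_comm i.castSucc, e]
  have s3' : ∀ i j : Fin (m + 2), j.val = i + 1 → (s i * s j) ^ 3 = 1 := fun i j h => by
    have := pow_orderOf_eq_one (s i * s j)
    rwa [(s3 i j h).orderOf] at this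
  have t2 : ∀ i g, s i * (s i * g) = g := fun i g => by rw [← mul_assoc, s1, one_mul]
  let z : Fin (m + 1) → alternatingGroup (Fin (m + 3)) := fun i => ⟨s 0 * s i.succ,
    mul_mem_alternatingGroup_of_isSwap ⟨_, _, n1 _, rfl⟩ ⟨_, _, n1 _, rfl⟩⟩
  have c0 : ∀ i : Fin (m + 1), i ≠ 0 → Commute (s 0) (s i.succ) := fun i h => s2 _ _ (by
    have := Fin.pos_iff_ne_zero.2 h; simpa)
  have zz : ∀ i j : Fin (m + 1), j ≠ 0 → (z i * z j).1 = s 0 * (s i.succ * s j.succ) * (s 0)⁻¹ := fun i j h => by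
    simp only [z, Subgroup.coe_mul, (c0 j h).eq, inv_eq_of_mul_eq_one_right (s1 0), mul_assoc]
  let φ := PresentedGroup.toGroup ((K z).2 ⟨Subtype.ext (s3' _ _ rfl), fun i c => Subtype.ext (by
      rw [SubgroupClass.coe_pow, (c0 i c).mul_pow]; simp [sq, s1]), fun i j c => Subtype.ext (by
      rw [SubgroupClass.coe_pow, zz i j (Fin.pos_iff_ne_zero.1 (show 0 < j.val by omega)), conj_pow, s3' _ _ (by simpa)]; simp),
    fun i j c => Subtype.ext (by
      rw [SubgroupClass.coe_pow, zz i j (Fin.pos_iff_ne_zero.1 (show 0 < j.val by omega)), conj_pow, (s2 _ _ (by simpa)).mul_pow]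
      simp [sq, s1])⟩)
  have hφ : ∀ i, φ (x i) = z i := fun i => PresentedGroup.toGroup.of _
  have S : Function.Surjective φ := fun g => by
    have G : closure (Set.range s) = ⊤ := by
      rw [eq_top_iff', ]; intro g
      exact le_closure_toSubmonoid _ (mclosure_swap_castSucc_succ (m + 2) ▸ Submonoid.mem_top g)
    obtain ⟨_, ⟨y, rfl⟩, e⟩ := alt_gen G s1 (s1 0) (sign_swap (n1 0)) (map_subtype_le φ.range) (fun i => by
      refine Fin.cases (by simp [s1]) (fun i => ⟨(z i)⁻¹, ⟨(x i)⁻¹, by simp [hφ]⟩, ?_⟩) i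
      simp [z, inv_eq_of_mul_eq_one_right (s1 _)]) g.2
    exact ⟨y, Subtype.ext e⟩
  obtain ⟨f, c⟩ := main m x (PresentedGroup.closure_range_of R) (MonoidHom.toMulEquiv α α αα αα) hα h0
    (fun e => (s3 0 (Fin.succ 0) rfl).isCycle.ne_one (by simpa [e, z, Subtype.ext_iff] using (hφ 0).symm)) h1 h2 h3
  refine ⟨MulEquiv.ofBijective φ ((Nat.bijective_iff_surjective_and_card φ).2 ⟨S, le_antisymm ?_
    (Nat.card_le_card_of_surjective _ S)⟩)⟩
  have := two_mul_nat_card_alternatingGroup (α := Fin (m + 3))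
  rw [Nat.card_perm, Nat.card_eq_fintype_card (α := Fin _), Fintype.card_fin] at this
  omega


end Cfsg.Agent.S3335
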