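import Cfsg.Statements.S0892
import Cfsg.Agent.S3335
import Cfsg.Agent.H1.Tr

set_option autoImplicit false
open Cfsg

namespace Cfsg.Agent.S0892

open H1
open Subgroup
open scoped commutatorElement

section
variable {G P : Type*} [Group G] [Group P] {a b c d w : G}

def Rel (N : ℕ) (t : ℕ → G) : Prop := t 0 ^ 3 = 1 ∧ (∀ i, 1 ≤ i → i < N → t i ^ 2 = 1) ∧
  (∀ i, i + 1 < N → (t i * t (i + 1)) ^ 3 = 1) ∧ ∀ i j, i + 1 < j → j < N → (t i * t j) ^ 2 = 1

theorem cm (h : d ∈ center G) (g : G) : Commute g d := mem_center_iff.1 h g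

theorem cjc (h : d ∈ center G) (g : G) : g * d * g⁻¹ = d := by rw [(cm h g).eq, mul_inv_cancel_right]

theorem cube (hd : d ∈ center G) (ha : a ^ 3 ∈ center G) (h : c * a * c⁻¹ = d * a⁻¹) : d ^ 3 = (a ^ 3) ^ 2 := by
  have := congrArg (· ^ 3) h
  simp only [conj_pow, cjc ha, (cm hd a⁻¹).symm.mul_pow, inv_pow] at this
  rw [pow_two, eq_mul_inv_iff_mul_eq.1 this]

theorem L0 {Z : Subgroup G} (hZ : Z ≤ center G) (ha : a ^ 3 ∈ Z) (hd : c * a * c⁻¹ * a ∈ Z) :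
    ∃ z ∈ Z, (a * z) ^ 3 = 1 ∧ c * (a * z) * c⁻¹ = (a * z)⁻¹ := by
  obtain ⟨d, e⟩ : ∃ d, d = c * a * c⁻¹ * a := ⟨_, rfl⟩
  rw [← e] at hd
  have h : c * a * c⁻¹ = d * a⁻¹ := by rw [e, mul_inv_cancel_right]
  have k := cube (hZ hd) (hZ ha) h
  have m := mul_mem hd (inv_mem ha)
  refine ⟨d * (a ^ 3)⁻¹, m, ?_, ?_⟩
  · rw [(cm (hZ m) a).mul_pow, (cm (hZ hd) _).symm.mul_pow, k]; group
  · have : d * (d * (a ^ 3)⁻¹) ^ 2 = 1 := by
      rw [(cm (hZ hd) _).symm.mul_pow, ← mul_assoc, ← pow_succ', k]; group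
    generalize d * (a ^ 3)⁻¹ = z at *
    rw [← conj_mul, h, cjc (hZ m), mul_assoc, (cm (hZ m) a⁻¹).eq, ← mul_assoc, mul_inv_rev, mul_left_inj,
      eq_inv_iff_mul_eq_one, mul_assoc, ← pow_two, this]

theorem comm2 (hw : w ∈ center G) (ha : a ^ 2 ∈ center G) (h : b * a = w * (a * b)) : w ^ 2 = 1 := by
  have e : b * a * b⁻¹ = w * a := by rw [h]; group
  have := congrArg (· ^ 2) e
  simp only [conj_pow, cjc ha, (cm hw a).symm.mul_pow] at this
  exact right_eq_mul.1 this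

theorem L1 {Z : Subgroup G} (hZ : Z ≤ center G) (ha : a ^ 3 = 1) (hb : b ^ 2 ∈ Z) (hab : (a * b) ^ 3 ∈ Z) :
    ∃ z ∈ Z, ∃ e ∈ Z, e ^ 2 = 1 ∧ (b * z) ^ 2 = e ∧ (a * (b * z)) ^ 3 = e := by
  obtain ⟨α, eα⟩ : ∃ α, α = b ^ 2 := ⟨_, rfl⟩
  obtain ⟨β, eβ⟩ : ∃ β, β = (a * b) ^ 3 := ⟨_, rfl⟩
  rw [← eα] at hb
  rw [← eβ] at hab
  have m := mul_mem hb (inv_mem hab)
  have me := mul_mem (pow_mem hb 3) (inv_mem (pow_mem hab 2))
  have c1 := (cm (hZ hb) β⁻¹).symm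
  refine ⟨α * β⁻¹, m, α ^ 3 * (β ^ 2)⁻¹, me, ?_, ?_, ?_⟩
  · have q1 : (a * b * a⁻¹) ^ 2 = α := by rw [conj_pow, ← eα, cjc (hZ hb)]
    have q2 : (a * a * b * (a * a)⁻¹) ^ 2 = α := by rw [conj_pow, ← eα, cjc (hZ hb)]
    have q3 : a * b * a⁻¹ * (a * a * b * (a * a)⁻¹) = β * b⁻¹ := by
      calc _ = a * b * a * b * (a ^ 3)⁻¹ * a := by group
        _ = _ := by rw [ha, eβ]; simp only [pow_succ]; group
    have q4 : (a * b * a⁻¹ * (a * a * b * (a * a)⁻¹)) ^ 2 = β ^ 2 * α⁻¹ := by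
      rw [q3, (cm (hZ hab) _).symm.mul_pow, inv_pow, ← eα]
    generalize a * b * a⁻¹ = x at *
    generalize a * a * b * (a * a)⁻¹ = y at *
    refine comm2 (a := y) (b := x) (hZ me) (q2 ▸ hZ hb) ?_
    have q5 : y * x = x⁻¹ * (β ^ 2 * α⁻¹) * y⁻¹ := by rw [← q4, pow_two]; group
    have mm := hZ (mul_mem (pow_mem hab 2) (inv_mem hb))
    rw [q5, (cm mm _).eq]
    calc _ = x ^ 2 * x⁻¹ * (y ^ 2 * y⁻¹) := by group
      _ = α ^ 2 * x⁻¹ * y⁻¹ := by
        rw [q1, q2, ← mul_assoc, mul_assoc α x⁻¹ α, (cm (hZ hb) x⁻¹).eq, ← mul_assoc, pow_two]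
      _ = _ := by group
  · rw [(cm (hZ m) b).mul_pow, c1.mul_pow, ← eα]; group
  · rw [← mul_assoc, (cm (hZ m) _).mul_pow, c1.mul_pow, ← eβ, ← mul_assoc, (cm (pow_mem (hZ hb) 3) β).eq]; group

theorem dd (ha : a ^ 3 = 1) (hd : b * a * b⁻¹ * a ∈ center G) (hc : c * a * c⁻¹ = a⁻¹)
    (hw : b * c * (c * b)⁻¹ ∈ center G) : b * a * b⁻¹ = a⁻¹ := by
  obtain ⟨d, e⟩ : ∃ d, d = b * a * b⁻¹ * a := ⟨_, rfl⟩
  rw [← e] at hd
  have h : b * a * b⁻¹ = d * a⁻¹ := by rw [e, mul_inv_cancel_right]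
  have k := cube hd (ha ▸ one_mem _) h
  have hc' : c * a⁻¹ * c⁻¹ = a := by rw [← conj_inv, hc, inv_inv]
  have h1 : (d * a⁻¹)⁻¹ = d * a := by
    calc _ = b * (c * a * c⁻¹) * b⁻¹ := by rw [← h, hc]; group
      _ = b * c * (c * b)⁻¹ * (c * (b * a * b⁻¹) * c⁻¹) * (b * c * (c * b)⁻¹)⁻¹ := by group
      _ = c * (b * a * b⁻¹) * c⁻¹ := by rw [← (cm hw _).eq, mul_inv_cancel_right]
      _ = _ := by rw [h, ← conj_mul, cjc hd, hc']
  rw [mul_inv_rev, inv_inv, ← (cm hd a).eq, mul_right_inj, inv_eq_iff_mul_eq_one] at h1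
  rw [ha, one_pow, pow_three, h1, mul_one] at k
  rw [h, k, one_mul]

theorem sqc {g y y' : G} (hw : w ∈ center G) (h2 : w ^ 2 = 1) (h : g * y * g⁻¹ = w * y') (hy : y ^ 2 = 1) :
    y' ^ 2 = 1 := by
  have := congrArg (· ^ 2) h
  simp only [conj_pow, hy, (cm hw y').symm.mul_pow, h2] at this
  simpa using this.symm

def T (s : ℕ → G) : ℕ → G
  | 0 => s 0
  | 1 => s 1
  | i + 2 => s (i + 2) * (T s (i + 1) * s (i + 2) * T s (i + 1) * (s (i + 2) * T s (i + 1) * s (i + 2))⁻¹)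

theorem core (φ : G →* P) (hc : φ.ker ≤ center G) {N : ℕ} (hN : N ≤ 3 ∨ 6 ≤ N) {x : ℕ → P} (hx : Rel N x)
    (s : ℕ → G) (hs : ∀ i, φ (s i) = x i) (s0 : s 0 ^ 3 = 1) (s1 : s 1 ^ 2 = 1) (s01 : (s 0 * s 1) ^ 3 = 1)
    (s2 : 2 < N → s 2 * s 0 * (s 2)⁻¹ = (s 0)⁻¹) : ∃ t : ℕ → G, (∀ i < N, φ (t i) = x i) ∧ Rel N t := by
  obtain ⟨x0, x1, x2, x3⟩ := hx
  have xi : ∀ i, 1 ≤ i → i < N → (x i)⁻¹ = x i := fun i h h' => inv_eq_of_mul_eq_one_right (sq (x i) ▸ x1 i h h')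
  have xb : ∀ i, 1 ≤ i → i + 1 < N → x i * x (i + 1) * x i * (x (i + 1) * x i * x (i + 1))⁻¹ = 1 := fun i h h' => by
    rw [← x2 i h', mul_inv_rev, mul_inv_rev, xi i h (by omega), xi _ (by omega) h']
    simp only [pow_succ, pow_zero, one_mul, mul_assoc]
  have l : ∀ i < N, φ (T s i) = x i := fun i => by
    induction i with
    | zero => exact fun _ => hs 0
    | succ i ih =>
      rcases i with _ | i
      · exact fun _ => hs 1
      intro h
      simp only [T, map_mul, map_inv, hs, ih (by omega)]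
      rw [xb _ (by omega) h, mul_one]
  have kc : ∀ i, i + 2 < N →
      T s (i + 1) * s (i + 2) * T s (i + 1) * (s (i + 2) * T s (i + 1) * s (i + 2))⁻¹ ∈ center G := fun i h => hc (by
    simp only [MonoidHom.mem_ker, map_mul, map_inv, hs, l (i + 1) (by omega)]
    simpa using xb _ (by omega) h)
  have br : ∀ i, i + 2 < N → T s (i + 1) * T s (i + 2) * T s (i + 1) * (T s (i + 1) * T s (i + 2))⁻¹ = T s (i + 2) :=
    fun i h => by
      have k := kc i h
      rw [mul_inv_eq_iff_eq_mul, T]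
      obtain ⟨z, e⟩ : ∃ z, z = T s (i + 1) * s (i + 2) * T s (i + 1) * (s (i + 2) * T s (i + 1) * s (i + 2))⁻¹ := ⟨_, rfl⟩
      rw [← e] at k ⊢
      rw [eq_mul_inv_iff_mul_eq] at e
      calc _ = T s (i + 1) * s (i + 2) * (z * T s (i + 1)) := by group
        _ = T s (i + 1) * s (i + 2) * T s (i + 1) * z := by rw [← (cm k _).eq]; group
        _ = z * s (i + 2) * (T s (i + 1) * s (i + 2)) * z := by rw [← e]; group
        _ = _ := by rw [← (cm k _).eq]; group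
  have u2 : 2 < N → T s 2 * s 0 * (T s 2)⁻¹ = (s 0)⁻¹ := fun h => by
    rw [T, ← s2 h, mul_assoc (s 2), ← (cm (kc 0 h) (s 0)).eq]; group
  have e0 : T s 0 = s 0 := rfl
  have e1 : T s 1 = s 1 := rfl
  rw [← e0] at s0 s01 u2
  rw [← e1] at s1 s01
  refine ⟨T s, l, ?_⟩
  generalize T s = t at *
  clear e0 e1 kc s2 hs
  have q : ∀ i, 1 ≤ i → i < N → t i ^ 2 = 1 := fun i h => by
    induction i, h using Nat.le_induction with
    | base => exact fun _ => s1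
    | succ i h ih =>
      intro h'
      obtain ⟨i, rfl⟩ : ∃ k, i = k + 1 := ⟨i - 1, by omega⟩
      rw [← br i h', conj_pow, ih (by omega)]; simp
  have w1 : ∀ i j, 1 ≤ i → i + 1 < j → j < N → t i * t j * (t j * t i)⁻¹ ∈ center G := fun i j h h' h'' => hc (by
    simp only [MonoidHom.mem_ker, map_mul, mul_inv_rev, map_inv, l i (by omega), l j h'', xi i h (by omega), xi j (by omega) h'']
    rw [← sq, x3 i j h' h''])
  have w2 : ∀ i j, 1 ≤ i → i + 1 < j → j < N → ∃ w ∈ center G, w ^ 2 = 1 ∧ t i * t j * (t i)⁻¹ = w * t j :=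
    fun i j h h' h'' => ⟨_, w1 i j h h' h'', comm2 (a := t j) (b := t i) (w1 i j h h' h'')
      (q j (by omega) h'' ▸ one_mem _) (by group), by group⟩
  have d1 : ∀ j, 2 ≤ j → j < N → t j * t 0 * (t j)⁻¹ * t 0 ∈ center G := fun j h h' => hc (by
    simp only [MonoidHom.mem_ker, map_mul, map_inv, l 0 (by omega), l j h', xi j (by omega) h']
    calc _ = x j * (x 0 * x j) ^ 2 * (x j)⁻¹ := by rw [sq]; group
      _ = _ := by rw [x3 0 j h h']; simp)
  have d2 : ∀ j, 4 ≤ j → j < N → t j * t 0 * (t j)⁻¹ = (t 0)⁻¹ := fun j h h' =>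
    dd s0 (d1 j (by omega) h') (u2 (by omega)) (by simpa using inv_mem (w1 2 j (by omega) (by omega) h'))
  have d3 : ∀ j, 2 ≤ j → j < N → t j * t 0 * (t j)⁻¹ = (t 0)⁻¹ := fun j h h' => by
    obtain rfl | rfl | c : j = 2 ∨ j = 3 ∨ 4 ≤ j := by omega
    exacts [u2 h', dd s0 (d1 3 h h') (d2 5 (by omega) (by omega)) (w1 3 5 (by omega) (by omega) (by omega)), d2 j c h']
  refine ⟨s0, q, fun i h => ?_, fun i => ?_⟩
  · rcases i with _ | i
    · exact s01
    have := mul_inv_eq_iff_eq_mul.1 (br i h)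
    calc _ = t (i + 1) * t (i + 2) * t (i + 1) * (t (i + 2) * (t (i + 1) * t (i + 2))) := by simp only [pow_succ]; group
      _ = t (i + 1) * (t (i + 2) * t (i + 1) ^ 2 * (t (i + 2))⁻¹ * t (i + 2) ^ 2) * (t (i + 1))⁻¹ * t (i + 1) ^ 2 := by
        rw [← this]; simp only [pow_succ, pow_zero, one_mul, mul_assoc, inv_mul_cancel_left]
      _ = _ := by rw [q _ (by omega) (by omega), q (i + 2) (by omega) h]; group
  induction i with
  | zero =>
    intro j h h'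
    calc _ = t 0 * (t j * t 0 * (t j)⁻¹) * t j ^ 2 := by simp only [pow_succ]; group
      _ = _ := by rw [d3 j h h', q j (by omega) h']; group
  | succ i ih =>
    intro j h h'
    obtain ⟨w, c1, c2, c3⟩ := w2 (i + 1) j (by omega) h h'
    rcases i with _ | i
    · refine sqc (g := t 0 * t 1) c1 c2 ?_ (ih j (by omega) h')
      have i1 : (t 1)⁻¹ = t 1 := inv_eq_of_mul_eq_one_right (sq (t 1) ▸ s1)
      have i0 : t j * (t 0)⁻¹ * (t j)⁻¹ = t 0 := by rw [← conj_inv, d3 j (by omega) h', inv_inv]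
      calc _ = t 0 * t 1 * t 0 * (t 1)⁻¹ * (t 1 * t j * (t 1)⁻¹) * (t 0)⁻¹ := by group
        _ = t 0 * t 1 * t 0 * (t 1)⁻¹ * w * (t j * (t 0)⁻¹ * (t j)⁻¹) * t j := by rw [c3]; group
        _ = w * ((t 0 * t 1) ^ 3 * (t 1)⁻¹ * t j) := by rw [i0, (cm c1 _).eq]; nth_rw 1 [i1]; simp only [pow_succ]; group
        _ = _ := by rw [s01, i1, one_mul]
    · obtain ⟨v, b1, b2, b3⟩ := w2 (i + 1) j (by omega) (by omega) h'
      refine sqc (g := t (i + 1) * t (i + 2)) (mul_mem c1 b1) (by rw [(cm b1 w).mul_pow, c2, b2, mul_one]) ?_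
        (ih j (by omega) h')
      rw [← conj_mul, br i (by omega), ← (cm (mul_mem c1 b1) _).eq, mul_assoc, mul_assoc (t (i + 2)), mul_right_inj]
      calc _ = t (i + 1) * (t (i + 2) * t j * (t (i + 2))⁻¹) * (t (i + 1))⁻¹ := by group
        _ = _ := by rw [c3, ← conj_mul, cjc c1, b3, ← mul_assoc, (cm (mul_mem c1 b1) _).eq]

theorem cc (ha : a ∈ center G) (hb : b ∈ center G) : ⁅a * c, b * d⁆ = ⁅c, d⁆ := by
  calc _ = a * (c * b * c⁻¹ * ⁅c, d⁆ * (d * a⁻¹ * d⁻¹)) * b⁻¹ := by simp only [commutatorElement_def]; group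
    _ = a * (b * ⁅c, d⁆ * b⁻¹) * (b * a⁻¹ * b⁻¹) := by rw [cjc hb, cjc (inv_mem ha)]; group
    _ = _ := by rw [cjc (inv_mem ha), ← (cm hb _).eq, mul_inv_cancel_right, ← (cm ha _).eq, mul_inv_cancel_right]

theorem fin (φ : G →* P) (hc : φ.ker ≤ center G) (ψ : P →* G) (h : φ.comp ψ = MonoidHom.id P) {z : G}
    (h1 : φ z = 1) (h2 : z ∈ commutator G) : z = 1 := by
  have e : ∀ y, φ (ψ y) = y := DFunLike.congr_fun h
  have k : ∀ a, a * (ψ (φ a))⁻¹ ∈ center G := fun a => hc (by simp [MonoidHom.mem_ker, e])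
  obtain ⟨y, rfl⟩ := (show commutator G ≤ ψ.range from commutator_le.2 fun a _ b _ => ⟨⁅φ a, φ b⁆, by
    rw [map_commutatorElement, ← cc (k a) (k b), inv_mul_cancel_right, inv_mul_cancel_right]⟩) h2
  rw [← e y, h1, map_one] 

theorem root [Finite G] [Finite P] (φ : G →* P) (hc : φ.ker ≤ center G) (hd : φ.ker ≤ commutator G)
    (hP : Nat.card P = 12) (ha : a ∈ φ.ker) : ∃ z ∈ φ.ker, z ^ 3 = a := by
  haveI : Fact (Nat.Prime 3) := ⟨Nat.prime_three⟩
  have : (Nat.card φ.ker).Coprime 3 := ((Nat.Prime.coprime_iff_not_dvd Nat.prime_three).2 fun h => by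
    obtain ⟨z, hz⟩ := exists_prime_orderOf_dvd_card' 3 h
    obtain ⟨Q, hQ⟩ := (IsPGroup.of_card (p := 3) (n := 1) (G := zpowers z.1)
      (by rw [Nat.card_zpowers, orderOf_coe, hz]; rfl)).exists_le_sylow
    let f := (φ.comp (Q : Subgroup G).subtype).rangeRestrict
    haveI : IsCyclic (φ.comp (Q : Subgroup G).subtype).range := by
      obtain ⟨k, hk⟩ := (Q.2.of_surjective f (MonoidHom.rangeRestrict_surjective _)).exists_card_eq
      have := card_subgroup_dvd_card (φ.comp (Q : Subgroup G).subtype).range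
      rw [hP] at this
      exact isCyclic_of_card_dvd_prime (p := 3) (Nat.Coprime.dvd_of_dvd_mul_right (m := 3) (n := 4)
        (hk ▸ Nat.Coprime.pow_left k (by norm_num)) this)
    have c := commutative_of_cyclic_center_quotient f fun x hx => mem_center_iff.2 fun g => Subtype.ext
      (mem_center_iff.1 (hc (congrArg Subtype.val hx)) g.1)
    have := H1.sylow_inf_commutator_inf_center Q ⟨⟨hQ (mem_zpowers _), hd z.2⟩, hc z.2⟩
    rw [commutator_eq_bot_iff_le_centralizer.2 fun x hx y hy => congrArg Subtype.val (c ⟨y, hy⟩ ⟨x, hx⟩)] at this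
    rw [show z = 1 from Subtype.ext this, orderOf_one] at hz
    omega).symm
  obtain ⟨z, hz⟩ := (powCoprime this).surjective ⟨a, ha⟩
  exact ⟨z, z.2, congrArg Subtype.val hz⟩

end

/-- Let n ≥ 4 with n ≠ 6 and n ≠ 7, and let Γ be a finite group with a subgroup Z contained in both the centre and the commutator subgroup of Γ such that Γ / Z is isomorphic to the alternating group on n letters. Then Z has order at most 2. -/
theorem result (n : ℕ) (hn : 4 ≤ n) (h6 : n ≠ 6) (h7 : n ≠ 7) {Γ : Type*} [Group Γ] [Finite Γ] (Z : Subgroup Γ) [Z.Normal] (hZc : Z ≤ Subgroup.center Γ) (hZd : Z ≤ commutator Γ) (e : Γ ⧸ Z ≃* alternatingGroup (Fin n)) : Nat.card Z ≤ 2 := by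
  obtain ⟨e'⟩ := S3335.result n (by omega)
  generalize hR : ({g : FreeGroup (Fin (n - 2)) | ∃ i : Fin (n - 2), i.val = 0 ∧ g = FreeGroup.of i ^ 3} ∪
       {g | ∃ i : Fin (n - 2), 1 ≤ i.val ∧ g = FreeGroup.of i ^ 2} ∪
       {g | ∃ i j : Fin (n - 2), j.val = i.val + 1 ∧ g = (FreeGroup.of i * FreeGroup.of j) ^ 3} ∪
       {g | ∃ i j : Fin (n - 2), i.val + 1 < j.val ∧ g = (FreeGroup.of i * FreeGroup.of j) ^ 2}) = R at e'
  let x : ℕ → PresentedGroup R := fun i => if h : i < n - 2 then PresentedGroup.of ⟨i, h⟩ else 1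
  have ex : ∀ i (h : i < n - 2), x i = PresentedGroup.mk R (FreeGroup.of ⟨i, h⟩) := fun i h => dif_pos h
  have hx : Rel (n - 2) x := by
    refine ⟨?_, fun i h h' => ?_, fun i h => ?_, fun i j h h' => ?_⟩
    · rw [ex 0 (by omega), ← map_pow]
      exact PresentedGroup.one_of_mem (hR.le (.inl (.inl (.inl ⟨_, rfl, rfl⟩))))
    · rw [ex i h', ← map_pow]
      exact PresentedGroup.one_of_mem (hR.le (.inl (.inl (.inr ⟨_, h, rfl⟩))))
    · rw [ex i (by omega), ex _ h, ← map_mul, ← map_pow]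
      exact PresentedGroup.one_of_mem (hR.le (.inl (.inr ⟨_, _, rfl, rfl⟩)))
    · rw [ex i (by omega), ex _ h', ← map_mul, ← map_pow]
      exact PresentedGroup.one_of_mem (hR.le (.inr ⟨_, _, h, rfl⟩))
  let φ : Γ →* PresentedGroup R := (e.trans e'.symm).toMonoidHom.comp (QuotientGroup.mk' Z)
  have hφ : Function.Surjective φ := (e.trans e'.symm).surjective.comp (QuotientGroup.mk'_surjective _)
  have hk : φ.ker = Z := by
    rw [← MonoidHom.comap_ker, (MonoidHom.ker_eq_bot_iff _).2 (e.trans e'.symm).injective, MonoidHom.comap_bot,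
      QuotientGroup.ker_mk']
  clear_value φ
  subst hk
  choose s hs using fun i => hφ (x i)
  have m0 : s 0 ^ 3 ∈ φ.ker := by rw [MonoidHom.mem_ker, map_pow, hs, hx.1]
  obtain ⟨z0, z1, z2, z3⟩ : ∃ z ∈ φ.ker, (s 0 * z) ^ 3 = 1 ∧
      (2 < n - 2 → s 2 * (s 0 * z) * (s 2)⁻¹ = (s 0 * z)⁻¹) := by
    by_cases h : 2 < n - 2
    · obtain ⟨z, k1, k2, k3⟩ := L0 (c := s 2) hZc m0 (by
        simp only [MonoidHom.mem_ker, map_mul, map_inv, hs]
        calc _ = x 2 * ((x 2 ^ 2)⁻¹ * x 2 ^ 2 * x 0 * (x 2 ^ 2)⁻¹ * x 2 * x 0 * x 2) * (x 2)⁻¹ := by group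
          _ = x 2 * (x 0 * x 2) ^ 2 * (x 2)⁻¹ := by rw [hx.2.1 2 (by omega) h, sq (x 0 * x 2)]; group
          _ = _ := by rw [hx.2.2.2 0 2 (by omega) h]; simp)
      exact ⟨z, k1, k2, fun _ => k3⟩
    obtain rfl : n = 4 := by omega
    haveI := Finite.of_equiv _ e'.symm.toEquiv
    obtain ⟨z, k1, k2⟩ := root φ hZc hZd (by
      rw [Nat.card_congr e'.toEquiv, nat_card_alternatingGroup]; simp [Nat.factorial]) (inv_mem m0)
    exact ⟨z, k1, by rw [(cm (hZc k1) _).mul_pow, k2, mul_inv_cancel], fun c => absurd c h⟩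
  obtain ⟨y0, y1, ε, y2, y3, y4, y5⟩ := L1 (b := s 1) hZc z2
    (by rw [MonoidHom.mem_ker, map_pow, hs, hx.2.1 1 le_rfl (by omega)])
    (by rw [MonoidHom.mem_ker, map_pow, map_mul, map_mul, hs, hs, z1, mul_one, hx.2.2.1 0 (by omega)])
  haveI : (zpowers ε).Normal := ⟨fun a ha g => by rwa [cjc (hZc (zpowers_le.2 y2 ha))]⟩
  let π := QuotientGroup.mk' (zpowers ε)
  let φ' := QuotientGroup.lift (zpowers ε) φ (zpowers_le.2 y2)
  have hπ : ∀ g, φ' (π g) = φ g := fun g => rfl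
  have π1 : π ε = 1 := (QuotientGroup.eq_one_iff _).2 (mem_zpowers _)
  have kc : φ'.ker ≤ center _ := fun a ha => by
    obtain ⟨a, rfl⟩ := QuotientGroup.mk'_surjective _ a
    refine mem_center_iff.2 fun g => ?_
    obtain ⟨g, rfl⟩ := QuotientGroup.mk'_surjective _ g
    rw [← map_mul, (cm (hZc ha) g).eq, map_mul]
  obtain ⟨t, t1, t2⟩ := core φ' kc (by omega) hx
    (fun i => π (if i = 0 then s 0 * z0 else if i = 1 then s 1 * y0 else s i)) (fun i => by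
      rw [hπ]; split_ifs with h h'
      · rw [map_mul, z1, hs, h, mul_one]
      · rw [map_mul, y1, hs, h', mul_one]
      · exact hs i)
    (by rw [← map_pow]; exact (congrArg π z2).trans (map_one π)) (by rw [← map_pow]; exact (congrArg π y4).trans π1)
    (by rw [← map_mul, ← map_pow]; exact (congrArg π y5).trans π1)
    (fun h => by rw [← map_mul, ← map_inv, ← map_mul, ← map_inv]; exact congrArg π (z3 h))
  let ψ := PresentedGroup.toGroup (f := fun i : Fin (n - 2) => t i) (rels := R) (by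
    subst hR
    rintro _ (((⟨i, c, rfl⟩ | ⟨i, c, rfl⟩) | ⟨i, j, c, rfl⟩) | ⟨i, j, c, rfl⟩)
    · simpa [c] using t2.1
    · simpa using t2.2.1 i c i.2
    · simpa [c] using t2.2.2.1 i (c ▸ j.2)
    · simpa using t2.2.2.2 i j c j.2)
  have : φ.ker ≤ zpowers ε := fun z hz => (QuotientGroup.eq_one_iff _).1 (fin φ' kc ψ (PresentedGroup.ext fun i => by
    rw [MonoidHom.comp_apply, PresentedGroup.toGroup.of, t1 i i.2, ex i i.2]; rfl) (z := π z) hz (by
      have := mem_map_of_mem π (hZd hz)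
      rw [commutator_def, map_commutator] at this
      exact commutator_mono le_top le_top this))
  exact (card_le_of_le this).trans (by
    rw [Nat.card_zpowers]; exact Nat.le_of_dvd two_pos (orderOf_dvd_of_pow_eq_one y3))

end Cfsg.Agent.S0892
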