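import Cfsg.Statements.S0979
import Cfsg.Agent.H3.Ord

set_option autoImplicit false
open Cfsg

namespace Cfsg.Agent.S0979

/-- No finite simple group has order 5472 = 2^5 * 3^2 * 19. -/
theorem result {G : Type*} [Group G] [Finite G] [IsSimpleGroup G] : Nat.card G ≠ 5472 := by
  intro h
  rcases H3.ord_big.{_, 0, 0} (G := G) (by rw [h]; norm_num) 19 (by norm_num) (by rw [h]; norm_num)
    (by rw [h]; norm_num) with ⟨e, _⟩ | ⟨e, _⟩ <;> omega

end Cfsg.Agent.S0979
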