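import Cfsg.Statements.S1011
import Cfsg.Agent.H3.Ord6

set_option autoImplicit false
open Cfsg

namespace Cfsg.Agent.S1011

open H3

/-- A simple group of order 504 is isomorphic to the projective special linear group of dimension 2 over the field with 8 elements. -/
theorem result {G : Type*} [Group G] [Finite G] [IsSimpleGroup G] (h : Nat.card G = 504) {F : Type*} [Field F] [Fintype F] (hF : Fintype.card F = 8) : Nonempty (G ≃* Matrix.ProjectiveSpecialLinearGroup (Fin 2) F) := by
  haveI : Fact (Nat.Prime 7) := ⟨by norm_num⟩
  have hG : ¬ IsMulCommutative G := fun c => absurd (h ▸ H1.prime_card_of_comm c.1.1) (by norm_num)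
  obtain ⟨K, _, _, a, e⟩ := psl_72 hG (p := 7) (s := 23) (by norm_num) h (by norm_num) (by norm_num) (by decide +kernel) (by decide +kernel)
  have := ord_card_psl e
  rcases a with a | a | a
  · rw [a, h] at this; simp at this
  · exact ord_psl_congr (a.trans hF.symm) e
  · rw [a, h] at this; simp at this

end Cfsg.Agent.S1011
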