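import Cfsg.Statements.S1015
import Cfsg.Agent.H1.Simp
import Cfsg.Agent.S4343

set_option autoImplicit false
open Cfsg

namespace Cfsg.Agent.S1015

open H1

/-- No finite simple group has order 1200 = 2^4 * 3 * 5^2. -/
theorem result {G : Type*} [Group G] [Finite G] [IsSimpleGroup G] : Nat.card G ≠ 1200 := by
  intro h
  have : Fact (Nat.Prime 5) := ⟨by norm_num⟩
  obtain ⟨P⟩ : Nonempty (Sylow 5 G) := inferInstance
  have h1 : Nat.card P = 25 := by rw [P.card_eq_multiplicity, h]; decide +kernel
  have h3 := card_sylow_modEq_one 5 G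
  have h4 := P.card_dvd_index
  have h5 := P.1.card_mul_index
  rw [h1, h] at h5
  rw [show P.1.index = 48 by omega] at h4
  have := Nat.le_of_dvd (by omega) h4
  have := S4343.result (S := G) (fun e => absurd (prime_card_of_comm e.1.1) (by rw [h]; norm_num)) 5
    (by rw [h]; norm_num) (by
      unfold Nat.ModEq at h3
      generalize Nat.card (Sylow 5 G) = n at *
      interval_cases n <;> omega) P
  omega

end Cfsg.Agent.S1015
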