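import Cfsg.Statements.S1141
import Cfsg.Agent.H4.SU2
import Cfsg.Agent.SE.Sg2

set_option autoImplicit false
open Cfsg

namespace Cfsg.Agent.S1141

open scoped Pointwise
open H4.SU2

def th {F : Type*} [Field F] (D : Dt F) : Fˣ →* MulAut (UU D) where
  toFun l :=
    { toFun := fun x => ⟨l * x.a, l * D.σ l * x.b, by simp only [map_mul, D.inv]; linear_combination (l * D.σ l) * x.h⟩
      invFun := fun x => ⟨(l⁻¹ : Fˣ) * x.a, (l⁻¹ : Fˣ) * D.σ (l⁻¹ : Fˣ) * x.b, by simp only [map_mul, D.inv]; linear_combination (((l⁻¹ : Fˣ) : F) * D.σ (l⁻¹ : Fˣ)) * x.h⟩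
      left_inv := fun x => by
        have : D.σ l ≠ 0 := (map_ne_zero _).2 l.ne_zero
        ext <;> simp <;> field_simp
      right_inv := fun x => by
        have : D.σ l ≠ 0 := (map_ne_zero _).2 l.ne_zero
        ext <;> simp <;> field_simp
      map_mul' := fun x y => by ext <;> simp <;> ring }
  map_one' := by ext x <;> simp
  map_mul' l m := by ext x <;> simp <;> ring

lemma th_b {F : Type*} [Field F] (D : Dt F) (l : Fˣ) (x : UU D) : (th D l x).b = l * D.σ l * x.b := rfl
lemma th_a {F : Type*} [Field F] (D : Dt F) (l : Fˣ) (x : UU D) : (th D l x).a = l * x.a := rfl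

def K0 {F : Type*} [Field F] (D : Dt F) : Subgroup Fˣ where
  carrier := {l | D.σ l = l}
  mul_mem' := by
    intro a b ha hb
    show D.σ (a * b : F) = a * b
    rw [map_mul, ha, hb]
  one_mem' := by simp
  inv_mem' := by
    intro a ha
    show D.σ ((a⁻¹ : Fˣ) : F) = _
    rw [Units.val_inv_eq_inv_val, map_inv₀, ha]

/-- Let `q = 2^n ≥ 4` and `|F| = q²`. A Sylow 2-subgroup `S` of `PSU₃(q)` has order `q³`, its centre has order `q`, and `S` is a Suzuki 2-group. -/
theorem result {F : Type*} [Field F] [Fintype F] {n : ℕ} (hn : 2 ≤ n)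
    (hF : Fintype.card F = (2 ^ n) ^ 2) (S : Sylow 2 (Cfsg.PSU 3 F (2 ^ n))) :
    Nat.card S = (2 ^ n) ^ 3 ∧ Nat.card (Subgroup.center ↥(S : Subgroup (Cfsg.PSU 3 F (2 ^ n)))) = 2 ^ n ∧
      Cfsg.IsSuzukiTwoGroup ↥(S : Subgroup (Cfsg.PSU 3 F (2 ^ n))) := by
  classical
  obtain ⟨D, hD⟩ := exD (by omega) hF
  obtain ⟨e⟩ := sylow_PSU (D := D) (by omega) hF hD S
  have h1 : 1 < 2 ^ n := Nat.one_lt_two_pow (by omega)
  have h4 : 4 ≤ 2 ^ n := Nat.pow_le_pow_right (n := 2) (by norm_num) hn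
  obtain ⟨c1, c2⟩ := cnt h1 hF hD
  have hσ := ex_nonfix h1 hF hD
  have hz := center_iff hσ c2
  have hc := card_UU h1 hF hD
  refine ⟨by rw [← hc]; exact Nat.card_congr e.toEquiv, ?_, SE.suz_equiv e.symm ⟨inferInstance, ?_, ?_, ?_, ?_⟩⟩
  · rw [H5.card_center_congr e, ← c1]
    refine Nat.card_congr
      { toFun := fun x => ⟨x.1.b, fix_of _ ((hz _).1 x.2)⟩
        invFun := fun y => ⟨⟨0, y.1, by rw [y.2]; linear_combination y.1 * D.two⟩, (hz _).2 rfl⟩
        left_inv := fun x => Subtype.ext (UU.ext ((hz _).1 x.2).symm rfl)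
        right_inv := fun y => rfl }
  · exact IsPGroup.of_card (n := n * 3) (by rw [hc, pow_mul])
  · obtain ⟨b, hb⟩ := c2 1
    by_contra h
    push Not at h
    exact one_ne_zero ((hz ⟨1, b, hb⟩).1 (Subgroup.mem_center_iff.2 fun g => h _ _))
  · rw [Nat.card_eq_fintype_card] at c1
    obtain ⟨a, b, c, -, -, -, e1, e2, e3⟩ := (Finset.two_lt_card_iff (s := (Finset.univ : Finset {b : F // D.σ b = b}))).1 (by rw [Finset.card_univ]; omega)
    refine ⟨⟨0, a.1 - c.1, by rw [map_sub, a.2, c.2]; linear_combination (a.1 - c.1) * D.two⟩, ⟨0, b.1 - c.1, by rw [map_sub, b.2, c.2]; linear_combination (b.1 - c.1) * D.two⟩,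
      fun h => e1 (Subtype.ext (sub_left_injective (congrArg UU.b h))), fun h => e2 (Subtype.ext (sub_eq_zero.1 (congrArg UU.b h))), (H4.SU2.sq _).2 rfl,
      fun h => e3 (Subtype.ext (sub_eq_zero.1 (congrArg UU.b h))), (H4.SU2.sq _).2 rfl⟩
  · refine ⟨(K0 D).map (th D), isCyclic_of_surjective _ ((th D).subgroupMap_surjective (K0 D)), fun x y hx hx2 hy hy2 => ?_⟩
    have xa := (H4.SU2.sq x).1 hx2
    have ya := (H4.SU2.sq y).1 hy2
    have xb : x.b ≠ 0 := fun h => hx (UU.ext xa h)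
    have yb : y.b ≠ 0 := fun h => hy (UU.ext ya h)
    have hinj : Function.Injective (fun t : F => t * t) := fun s t h => by
      have : (s - t) ^ 2 = 0 := by
        simp only at h
        linear_combination h + (t * t - s * t) * D.two
      exact sub_eq_zero.1 (pow_eq_zero_iff (by norm_num) |>.1 this)
    obtain ⟨l, hl⟩ := (Finite.injective_iff_surjective.1 hinj) (y.b / x.b)
    simp only at hl
    have l0 : l ≠ 0 := by
      rintro rfl
      exact div_ne_zero yb xb (by simpa using hl.symm)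
    have lf : D.σ l = l := hinj (by
      show D.σ l * D.σ l = l * l
      rw [← map_mul, hl, map_div₀, fix_of x xa, fix_of y ya])
    refine ⟨⟨th D (Units.mk0 l l0), Units.mk0 l l0, lf, rfl⟩, ?_, ?_⟩
    · refine UU.ext (by rw [th_a, xa, ya, mul_zero]) ?_
      rw [th_b]
      simp only [Units.val_mk0]
      rw [lf, hl]; field_simp
    · rintro ⟨_, m, hm, rfl⟩ h
      have h2 := congrArg UU.b h
      rw [th_b, show D.σ m = m from hm] at h2
      have : (m : F) = l := hinj (by
        show (m : F) * m = l * l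
        rw [hl, ← h2]; field_simp)
      apply Subtype.ext
      show th D m = th D (Units.mk0 l l0)
      congr 1
      exact Units.ext this

end Cfsg.Agent.S1141
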