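import Cfsg.Statements.S1236
import Cfsg.Agent.L.PG4
import Cfsg.Agent.H1.Basic
import Cfsg.Agent.H9.Basic
import Cfsg.Agent.FT.Rank

set_option autoImplicit false
open Cfsg

namespace Cfsg.Agent.S1236

open Subgroup

theorem card_le_two {X : Type*} [Group X] [Finite X] {a : X} {W : Subgroup X} (h : W ≤ zpowers a)
    (h2 : ∀ y ∈ W, y ^ 2 = 1) : Nat.card W ≤ 2 := by
  haveI := isCyclic_of_le h
  rw [← IsCyclic.exponent_eq_card]
  exact Nat.le_of_dvd two_pos (Monoid.exponent_dvd_of_forall_pow_eq_one fun y => Subtype.ext (h2 _ y.2))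

theorem four {X : Type*} [Group X] [Finite X] {a : X} (hi : (zpowers a).index = 2)
    (h : ∀ g ∉ zpowers a, ∀ y ∈ zpowers a, Commute g y → y ^ 2 = 1) {V : Subgroup X}
    (hV : IsElementaryAbelian 2 V) (h4 : Nat.card V = 4) : centralizer (V : Set X) ≤ V := by
  obtain ⟨s, hs, hs'⟩ := SetLike.not_le_iff_exists.1 fun h' : V ≤ zpowers a => by
    have := card_le_two h' hV.2
    omega
  have h1 : V ≤ centralizer {s} := H9.le_centralizer_singleton_iff.2 (L.le_centralizer_of_comm hV.1 hs)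
  refine (centralizer_le (Set.singleton_subset_iff.2 hs)).trans (eq_of_le_of_card_ge h1 ?_).ge
  rw [← H1.card_inf_mul_relIndex (zpowers a), h4]
  refine Nat.mul_le_mul (card_le_two (W := zpowers a ⊓ centralizer {s}) inf_le_left
    fun y hy => h s hs' y hy.1 (hy.2 s rfl)) (m₂ := 2) ?_
  exact (relIndex_le_of_le_right le_top (L.relIndex_pos _ _).ne').trans (by rw [relIndex_top_right, hi])

theorem mem_r {m : ℕ} [NeZero m] (i : ZMod m) : DihedralGroup.r i ∈ zpowers (DihedralGroup.r (1 : ZMod m)) :=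
  ⟨(i.val : ℕ), by simp⟩

theorem four_dih {m : ℕ} [NeZero m] {V : Subgroup (DihedralGroup m)}
    (hV : IsElementaryAbelian 2 V) (h4 : Nat.card V = 4) : centralizer (V : Set (DihedralGroup m)) ≤ V := by
  refine four (a := .r 1) ?_ (fun g hg y hy h => ?_) hV h4
  · have := (zpowers (DihedralGroup.r (1 : ZMod m))).card_mul_index
    rw [Nat.card_zpowers, DihedralGroup.orderOf_r_one, DihedralGroup.nat_card, mul_comm 2] at this
    exact Nat.eq_of_mul_eq_mul_left (NeZero.pos m) this
  · obtain ⟨k, rfl⟩ := hy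
    rcases g with i | i
    · exact absurd (mem_r i) hg
    · simp only [DihedralGroup.r_one_zpow] at h ⊢
      have := h.eq
      rw [DihedralGroup.sr_mul_r, DihedralGroup.r_mul_sr, DihedralGroup.sr.injEq] at this
      rw [pow_two, DihedralGroup.r_mul_r, DihedralGroup.one_def]
      congr 1
      linear_combination this

theorem lift {R Y : Type*} [Group R] [Finite R] [Group Y] {t : R} (ht : orderOf t = 2) {A : Subgroup R}
    (hA : IsElementaryAbelian 2 A) (hA8 : Nat.card A = 8) (htA : t ∈ A) (f : R →* Y) (hf : f.ker = zpowers t)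
    (h : ∀ V : Subgroup Y, IsElementaryAbelian 2 V → Nat.card V = 4 → centralizer (V : Set Y) ≤ V) :
    centralizer (A : Set R) = A := by
  have hk : f.ker ≤ A := hf.le.trans (zpowers_le.2 htA)
  refine le_antisymm (fun c hc => ?_) (L.le_centralizer_of_comm hA.1)
  rw [← comap_map_eq_self hk]
  refine h _ (FT.isElem_map f hA) ?_ ?_
  · have := H1.card_mul_relIndex hk
    rw [relIndex_ker, hf, Nat.card_zpowers, ht, hA8] at this
    omega
  · rintro _ ⟨a, ha, rfl⟩
    rw [← map_mul, ← map_mul, hc a ha]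

/-- Let R be a finite group, t a central involution of R such that R ⧸ ⟨t⟩ is dihedral (of order ≥ 4) or quasi-dihedral, and A ≤ R an elementary abelian subgroup of order 8 containing t. Then C_R(A) = A. -/
theorem result {R : Type*} [Group R] [Finite R] (t : R) (ht : orderOf t = 2) (htz : t ∈ Subgroup.center R) [(Subgroup.zpowers t).Normal] (hq : (∃ m : ℕ, 2 ≤ m ∧ Nonempty (R ⧸ Subgroup.zpowers t ≃* DihedralGroup m)) ∨ Cfsg.IsQuasiDihedral (R ⧸ Subgroup.zpowers t)) (A : Subgroup R) (hA : Cfsg.IsElementaryAbelian 2 A) (hA8 : Nat.card A = 8) (htA : t ∈ A) : Subgroup.centralizer (A : Set R) = A := by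
  rcases hq with ⟨m, hm, ⟨e⟩⟩ | hq
  · haveI : NeZero m := ⟨by omega⟩
    refine lift ht hA hA8 htA (e.toMonoidHom.comp (QuotientGroup.mk' _)) ?_ fun V => four_dih
    rw [← MonoidHom.comap_ker, (MonoidHom.ker_eq_bot_iff _).2 e.injective, MonoidHom.comap_bot, QuotientGroup.ker_mk']
  · obtain ⟨n, a, b, hn, ha, hi, hb, h1, h2⟩ := L.dqs_of_quasiDihedral hq
    refine lift ht hA hA8 htA (QuotientGroup.mk' _) (QuotientGroup.ker_mk' _) fun V => four hi fun g hg y hy h => ?_
    obtain ⟨k, rfl⟩ := (L.DQS.commute_iff' (P := ⊤) (Or.inr (Or.inr ⟨hn, h1, h2⟩)) (by omega) ha (mem_top b) hb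
      (by rwa [relIndex_top_right]) (mem_top g) hg hy).1 h
    have := pow_orderOf_eq_one (a ^ 2 ^ n)
    rw [L.orderOf_pow_two_pow ha] at this
    show ((a ^ 2 ^ n) ^ k) ^ 2 = 1
    rw [← zpow_natCast, ← zpow_mul, mul_comm, zpow_mul, zpow_natCast, this, one_zpow]

end Cfsg.Agent.S1236
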