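import Cfsg.Statements.S1313
import Cfsg.Agent.H9.Comp

set_option autoImplicit false
open Cfsg

namespace Cfsg.Agent.S1313

/-- For a finite group H, |H| ≤ |F*(H)|!. -/
theorem result {H : Type*} [Group H] [Finite H] : Nat.card H ≤ Nat.factorial (Nat.card ↥(Cfsg.generalizedFittingSubgroup H)) := by
  open H9 Subgroup in open scoped commutatorElement in
  classical
  set F := generalizedFittingSubgroup H with hF
  have hC : centralizer (F : Set H) ≤ F := by
    have := centralizer_Fst_le (⊤ : Subgroup H)
    rwa [Fst_top, top_inf_eq] at this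
  let φ : H →* MulAut F := MulAut.conjNormal
  have hker : φ.ker ≤ F := by
    refine le_trans (fun x hx => ?_) hC
    rw [mem_centralizer_iff]
    intro y hy
    have := congrArg Subtype.val (DFunLike.congr_fun (MonoidHom.mem_ker.1 hx) ⟨y, hy⟩)
    simp only [φ, MulAut.conjNormal_apply, MulAut.one_apply] at this
    calc y * x = (x * y * x⁻¹) * x := by rw [this]
      _ = x * y := by group
  have h1 : Nat.card H = Nat.card φ.range * Nat.card φ.ker := by
    rw [← index_ker, index_mul_card]
  have := Fintype.ofFinite F
  have h2 : Nat.card φ.range ≤ (Nat.card F - 1).factorial := by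
    let ψ : φ.range → Equiv.Perm {x : F // x ≠ 1} := fun a =>
      Equiv.Perm.subtypePerm (a.1 : MulAut F).toEquiv (fun x => by simp)
    have hψ : Function.Injective ψ := by
      intro a b hab
      ext x
      by_cases hx : x = 1
      · subst hx; simp
      · exact congrArg (fun y => ((y : {x : F // x ≠ 1}).1 : H)) (DFunLike.congr_fun hab ⟨x, hx⟩)
    refine (Nat.card_le_card_of_injective ψ hψ).trans ?_
    rw [Nat.card_eq_fintype_card, Fintype.card_perm, Fintype.card_subtype_compl, Nat.card_eq_fintype_card]
    simp
  have h3 : Nat.card φ.ker ≤ Nat.card F := card_le_of_le hker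
  have h4 : 0 < Nat.card F := Nat.card_pos
  rw [h1, ← Nat.mul_factorial_pred h4.ne', mul_comm]
  exact Nat.mul_le_mul h3 h2

end Cfsg.Agent.S1313
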