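import Cfsg.Statements.S1349
import Cfsg.Agent.H2.Weight
import Cfsg.Agent.H5.Dih

set_option autoImplicit false
open Cfsg

namespace Cfsg.Agent.S1349

open Subgroup H1 Cfsg.Agent.H2

/-- Let G be finite, L ≤ G solvable of odd order, and A an elementary abelian 2-subgroup of order 2^d (d ≥ 1) normalizing L with C_A(L) = 1. Then there are subgroups A_1, …, A_d of A of order 2 generating A and subgroups L_1, …, L_d of L such that each A_i ⊔ L_i is dihedral of order 2 n_i with n_i odd and at least 3, and A_i ⊔ L_i commutes elementwise with A_j ⊔ L_j for i ≠ j. -/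
theorem result {G : Type*} [Group G] [Finite G] (L A : Subgroup G) (hLs : Group.IsSolvable ↥L) (hLodd : Odd (Nat.card ↥L)) (hA : Cfsg.IsElementaryAbelian 2 A) (d : ℕ) (hd : 1 ≤ d) (hAd : Nat.card ↥A = 2 ^ d) (hAL : A ≤ Subgroup.normalizer (L : Set G)) (hfaith : A ⊓ Subgroup.centralizer (L : Set G) = ⊥) : ∃ (Ai : Fin d → Subgroup G) (Li : Fin d → Subgroup G) (n : Fin d → ℕ), (∀ i, Ai i ≤ A ∧ Nat.card ↥(Ai i) = 2 ∧ Li i ≤ L ∧ Odd (n i) ∧ 3 ≤ n i ∧ Nonempty (↥(Ai i ⊔ Li i) ≃* DihedralGroup (n i))) ∧ (⨆ i, Ai i) = A ∧ ∀ i j, i ≠ j → ∀ x ∈ Ai i ⊔ Li i, ∀ y ∈ Ai j ⊔ Li j, x * y = y * x := by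
  set F := (fittingSubgroup L).map L.subtype
  have FL : F ≤ L := map_subtype_le _
  have oF := hLodd.of_dvd_nat (card_dvd_of_le FL)
  have p2 : (Nat.card A).Coprime (Nat.card F) := hAd ▸ (Nat.coprime_two_left.2 oF).pow_left d
  have nF : normalizer (L : Set G) ≤ normalizer (F : Set G) := map_char_le_normalizer L _
  obtain ⟨M, m1, m2, m3, m4⟩ := exists_ab_faithful (X := F) hA (isNilpotent_map L.subtype fitting_isNilpotent) p2 (hAL.trans nF)
    (le_bot_iff.1 (hfaith ▸ le_inf inf_le_left (le_centralizer_of_section (N := F) (le_trans (le_inf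
      (commutator_le_of_le_normalizer (inf_le_left.trans hAL)) ((commutator_mono le_rfl inf_le_right).trans (by
        rw [Subgroup.commutator_comm]
        exact commutator_le_of_le_normalizer (le_normalizer_centralizer (le_normalizer.trans nF)))))
      (centralizer_map_fitting_le hLs)) inf_le_right (coprime_of_le_left p2 inf_le_left))))
  have oM := oF.of_dvd_nat (card_dvd_of_le m1)
  obtain ⟨y, b, h1, -, -, h4⟩ := exists_dual hA m2 oM m3 m4 d A le_rfl hAd
  have oy : ∀ i, Odd (orderOf (y i)) := fun i => oM.of_dvd_nat (M.orderOf_dvd_natCard (h1 i).1)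
  have y2 : ∀ i, orderOf (y i) ≠ 2 := fun i e => (oy i).not_two_dvd_nat e.symm.dvd
  have bb : ∀ i, b i ^ 2 = 1 := fun i => hA.2 _ (h1 i).2.2.2.1
  have ob : ∀ i, orderOf (b i) = 2 := fun i => orderOf_eq_prime (bb i) fun e => by
    have := (h1 i).2.2.2.2.1
    rw [e, one_mul, inv_one, mul_one, eq_inv_iff_mul_eq_one, ← pow_two, ← orderOf_dvd_iff_pow_eq_one,
      Nat.prime_dvd_prime_iff_eq (h1 i).2.1 Nat.prime_two] at this
    exact y2 i this
  refine ⟨fun i => zpowers (b i), fun i => zpowers (y i), fun i => orderOf (y i), fun i => ⟨zpowers_le.2 (h1 i).2.2.2.1,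
    by rw [Nat.card_zpowers, ob], zpowers_le.2 (FL (m1 (h1 i).1)), oy i, ?_, ?_⟩,
    le_antisymm (iSup_le fun i => zpowers_le.2 (h1 i).2.2.2.1) h4, fun i j hij x hx z hz => ?_⟩
  · have := (h1 i).2.1.two_le
    have := y2 i
    beta_reduce; omega
  · have e : zpowers (b i) ⊔ zpowers (y i) = closure {y i, b i} := by
      rw [sup_comm, zpowers_eq_closure, zpowers_eq_closure, ← Subgroup.closure_union]; rfl
    beta_reduce
    rw [e]
    exact H5.dih_equiv_closure (h1 i).2.1.ne_zero _ _ rfl (by rw [← pow_two, bb]) (h1 i).2.2.2.2.1 fun h =>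
      (oy i).not_two_dvd_nat (ob i ▸ orderOf_dvd_of_mem_zpowers h)
  · have c : ∀ {u v w : G}, Commute u v → Commute u w → u ∈ centralizer ((zpowers v ⊔ zpowers w : Subgroup G) : Set G) :=
      fun h1 h2 => le_centralizer_iff.1 (sup_le (zpowers_le.2 (by rw [centralizer_zpowers]; exact mem_centralizer_singleton_iff.2 h1.symm))
        (zpowers_le.2 (by rw [centralizer_zpowers]; exact mem_centralizer_singleton_iff.2 h2.symm))) (mem_zpowers _)
    exact ((sup_le (zpowers_le.2 (c (ea_comm hA (h1 i).2.2.2.1 (h1 j).2.2.2.1) ((h1 i).2.2.2.2.2 j hij.symm)))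
      (zpowers_le.2 (c ((h1 j).2.2.2.2.2 i hij).symm (le_centralizer_iff_isMulCommutative.2 m2 (h1 j).1 _ (h1 i).1)))) hx z hz).symm

end Cfsg.Agent.S1349
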