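import Cfsg.Statements.S1892
import Cfsg.Agent.FT.B6

set_option autoImplicit false
open Cfsg

namespace Cfsg.Agent.S1892

open Subgroup H9 in

/-- Let S be a finite p-solvable group with no nontrivial normal subgroup of order prime to p, A a p-subgroup of S, and Q a nontrivial A-invariant subgroup of order prime to p with [A, Q] = Q. Then the commutator [O_p(S), A, Q] is nontrivial. -/
theorem result {S : Type*} [Group S] [Finite S] {p : ℕ} [Fact p.Prime]
    (hS : Cfsg.IsPSolvable p S) (hred : Cfsg.pPrimeCore p S = ⊥)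
    (A Q : Subgroup S) (hA : IsPGroup p A) (hQ : ¬ p ∣ Nat.card Q) (hQ1 : Q ≠ ⊥)
    (hinv : ∀ a ∈ A, ∀ x ∈ Q, a * x * a⁻¹ ∈ Q) (hAQ : ⁅A, Q⁆ = Q) :
    ⁅⁅Cfsg.pCore p S, A⁆, Q⁆ ≠ ⊥ := by
  intro h
  have hQ' : (Nat.card Q).Coprime p := cop_iff.2 hQ
  have hn : A ≤ normalizer (Q : Set S) := fun a ha => H1.mem_normalizer_iff_conj_mem.2 (hinv a ha)
  have hP := pCore_p (G := S) p
  set P := Cfsg.pCore p S with hPd
  have nP : ∀ X : Subgroup S, X ≤ normalizer (P : Set S) := fun X => le_normalizer_of_normal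
  have c1 : ⁅⁅P, Q⁆, Q⁆ = ⁅P, Q⁆ := cop_ccomm (nP Q) (copA_of_p' hP hQ')
  have hR : ⁅P, Q⁆ ≤ P := commutator_le_left' (nP Q)
  have nQ : Q ≤ normalizer ((⁅P, Q⁆ : Subgroup S) : Set S) := normalizer_commutator (nP Q) le_normalizer
  have nA : A ≤ normalizer ((⁅P, Q⁆ : Subgroup S) : Set S) := normalizer_commutator (nP A) hn
  have c2 := FT.centralizer_le_commutator_of_eq nQ (card_cop_of_p (hP.to_le hR) hQ').symm
    (Or.inl (isSolvable_of_isPGroup (hP.to_le hR))) c1
  have c3 : ⁅⁅P, Q⁆, A⁆ ≤ ⁅P, A⁆ := commutator_mono hR le_rfl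
  have c4 : ⁅⁅A, Q⁆, ⁅P, Q⁆⁆ ≤ ⁅⁅P, Q⁆, ⁅P, Q⁆⁆ := by
    refine three_subgroups (normalizer_commutator nA nA) (normalizer_commutator nQ nQ)
      (normalizer_commutator le_normalizer le_normalizer) ?_ ?_
    · rw [commutator_comm Q, c1]
      exact (le_inf (commutator_le_left' nA) (c3.trans (commutator_eq_bot_iff_le_centralizer.1 h))).trans c2
    · exact (commutator_mono c3 le_rfl).trans (h.le.trans bot_le)
  rw [hAQ, commutator_comm Q, c1] at c4
  have c5 : ⁅P, Q⁆ = ⊥ := by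
    by_contra h0
    exact (commutator_lt_of_solvable (isSolvable_of_isPGroup (hP.to_le hR)) h0).not_ge c4
  have c6 := centralizer_Op_le_of_PLay (PLay_eq_bot_of_psol (psol_of_isPSolvable hS)) ((Op'_top p).trans hred)
  rw [Op_top] at c6
  rw [commutator_comm, commutator_eq_bot_iff_le_centralizer] at c5
  exact hQ1 (eq_bot_of_p_p' (hP.to_le ((le_inf le_top c5).trans c6)) hQ')

end Cfsg.Agent.S1892
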