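import Cfsg.Statements.S1893
import Cfsg.Agent.H9.QP
import Cfsg.Agent.FT.Pi
import Cfsg.Agent.H9.Comp
import Cfsg.Agent.H9.Sec

set_option autoImplicit false
open Cfsg

namespace Cfsg.Agent.S1893

open scoped commutatorElement
open H1
open Subgroup H9 FT MatrixGroups

theorem nsect {Γ : Type*} [Group Γ] [hs : Group.IsSolvable Γ] {q : ℕ} [hq : Fact q.Prime] (h2 : q ≠ 2) (h3 : q ≠ 3) :
    ¬ Sect SL(2, ZMod q) (⊤ : Subgroup Γ) := fun h => by
  haveI := h.isSolvable inferInstance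
  have a : (2 : ZMod q) ≠ 0 := fun e => h2 ((Nat.prime_dvd_prime_iff_eq hq.out Nat.prime_two).1
    ((ZMod.natCast_eq_zero_iff 2 q).1 (by exact_mod_cast e)))
  have b : (2 : ZMod q) ^ 2 ≠ 1 := fun e => h3 ((Nat.prime_dvd_prime_iff_eq hq.out Nat.prime_three).1
    ((ZMod.natCast_eq_zero_iff 3 q).1 (by push_cast; linear_combination e)))
  haveI : Nontrivial SL(2, ZMod q) := ⟨⟨1, -1, fun e => a (by
    have := congrArg (fun M : SL(2, ZMod q) => M.1 0 0) e
    simp at this
    linear_combination this)⟩⟩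
  exact (Group.IsSolvable.commutator_lt_top_of_nontrivial SL(2, ZMod q)).ne
    (Matrix.SL2.commutator_eq_top a b)

theorem key {Γ : Type*} [Group Γ] [Finite Γ] [Group.IsSolvable Γ] {q : ℕ} [Fact q.Prime] (h2 : q ≠ 2) (h3 : q ≠ 3)
    {x : Γ} (hx : IsPGroup q (zpowers x)) (h1 : x ∈ centralizer (Op' q (Fit (⊤ : Subgroup Γ)) : Set Γ))
    (hq : ⁅⁅Op q (⊤ : Subgroup Γ), zpowers x⁆, zpowers x⁆ = ⊥) : x ∈ Op q (⊤ : Subgroup Γ) := by
  have m := pstN_of_not_sect h2 (nsect (Γ := Γ) h2 h3) _ (normal_of_top_le (le_normalizer_Op q ⊤)) (Op_p q ⊤) x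
    (mem_top x) hq
  set Y := Op' q (Fit (⊤ : Subgroup Γ))
  haveI : Y.Normal := normal_of_top_le (normalizer_Op' (le_normalizer_Fit ⊤))
  set N := Opm q ⊤ (centralizer (Op q (⊤ : Subgroup Γ) : Set Γ)) ⊓ centralizer (Y : Set Γ)
  haveI : N.Normal := inferInstance
  have e : Ores q N ≤ Fit ⊤ := by
    refine le_trans (le_inf le_top ?_) (centralizer_Fit_le_of_solvable inferInstance)
    rw [← nilpotent_eq_Op_sup_Op' (p := q) (Fit_nil ⊤), H9.centralizer_sup, Op_Fit]
    exact le_inf ((Ores_mono inf_le_left).trans (Ores_Opm_le _ _)) ((Ores_le q N).trans inf_le_right)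
  have e2 : Ores q N ≤ Y := Ores_le_iff.2 fun Q a b => by
    exact (le_Opi_of_nilpotent (Fit_nil ⊤) (piG_compl_singleton_iff.2 b) ((le_Ores a b).trans e)).trans
      (Opi_compl_singleton _).le
  obtain ⟨T, hT, xT⟩ := exists_syl_ge hx ((zpowers_le (H := N)).2 ⟨m, h1⟩)
  have n : N ≤ normalizer (T : Set Γ) := hT.Ores_sup.ge.trans (sup_le (e2.trans ((le_centralizer_iff.1
    (hT.le.trans inf_le_right)).trans (Subgroup.centralizer_le_normalizer _))) Subgroup.le_normalizer)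
  exact le_Op le_top (normalizer_Op (top_le_normalizer N)) (Op_p q N) ((hT.eq_Op n).le (xT (mem_zpowers x)))

theorem red {Γ : Type*} [Group Γ] [Finite Γ] [Group.IsSolvable Γ] {π : Set ℕ} (h2 : 2 ∉ π) (h3 : 3 ∉ π)
    (hF : PiG π (Fit (⊤ : Subgroup Γ))) {A E : Subgroup Γ} (hE : Fit ⊤ ≤ E) (h1 : E ≤ normalizer (A : Set Γ))
    (hA : E ⊓ centralizer (A : Set Γ) = A) : centralizer (A : Set Γ) ≤ A := by
  set F := Fit (⊤ : Subgroup Γ)
  haveI : F.Normal := normal_of_top_le (le_normalizer_Fit ⊤)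
  set C := centralizer (A : Set Γ)
  have ac : A ≤ centralizer (C : Set Γ) := le_centralizer_iff.1 le_rfl
  have a : ⁅C, F⁆ ≤ A := by
    refine le_trans (le_inf ((commutator_le_right C F).trans hE) ?_) hA.le
    rw [← commutator_eq_bot_iff_le_centralizer]
    refine commutator_commutator_eq_bot_of_rotate ?_ ?_
    · exact commutator_eq_bot_iff_le_centralizer.2 ((H9.commutator_le_right' (hE.trans h1)).trans ac)
    · rw [commutator_eq_bot_iff_le_centralizer.2 ac, commutator_bot_left]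
  have b : ∀ {Y P : Subgroup Γ}, Y ≤ F → P ≤ C → ⁅Y, P⁆ ≤ centralizer (P : Set Γ) := fun hY hP =>
    ((commutator_mono hY hP).trans ((commutator_comm F C).le.trans a)).trans (ac.trans (H9.centralizer_anti hP))
  refine le_trans (le_inf (le_trans (le_of_forall_syl fun q _ => ?_) hE) le_rfl) hA.le
  obtain ⟨P, hP⟩ := exists_syl q C
  refine ⟨P, hP, fun x hx => ?_⟩
  have c : P ≤ centralizer (Op' q F : Set Γ) := le_centralizer_iff.1 (cop_le_centralizer
    (normalizer_Op' le_normalizer_of_normal) (copA_of_p hP.isP (Op'_cop q F)) le_rfl (b (Op'_le q F) hP.le))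
  by_cases hq : q ∈ π
  · exact Op_le_Fit ⊤ (key (fun e => h2 (e ▸ hq)) (fun e => h3 (e ▸ hq)) (isPGroup_zpowers_of_mem hP.isP hx) (c hx)
      (commutator_eq_bot_iff_le_centralizer.2 (b (Op_le_Fit ⊤) ((zpowers_le.2 hx).trans hP.le))))
  · rw [Op'_eq_self (hF.cop Fact.out hq)] at c
    exact centralizer_Fit_le_of_solvable inferInstance ⟨mem_top x, c hx⟩

/-- Let S be a finite solvable group, π a set of primes containing neither 2 nor 3, H a Hall π-subgroup of S, and A a self-centralizing normal subgroup of the Fitting subgroup F(H). Then C_S(A) = A × D for a normal subgroup D of C_S(A) whose order has no prime divisor in π. -/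
theorem result {S : Type*} [Group S] [Finite S] [Group.IsSolvable S]
    (π : Set ℕ) (h2 : 2 ∉ π) (h3 : 3 ∉ π) (H : Subgroup S) (hH : Cfsg.IsPiHall π H)
    (A : Subgroup S) (hA : Cfsg.IsSCN ((Cfsg.fittingSubgroup H).map H.subtype) A) :
    ∃ D : Subgroup S, D ≤ Subgroup.centralizer (A : Set S) ∧
      (∀ c ∈ Subgroup.centralizer (A : Set S), ∀ d ∈ D, c * d * c⁻¹ ∈ D) ∧
      A ⊓ D = ⊥ ∧ A ⊔ D = Subgroup.centralizer (A : Set S) ∧
      ∀ q : ℕ, q.Prime → q ∣ Nat.card D → q ∉ π := by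
  rw [Fit_eq] at hA
  obtain ⟨a1, a2, a3⟩ := hA
  have hH' := hall_top_iff.2 hH
  set O := Opi πᶜ (⊤ : Subgroup S)
  haveI : O.Normal := normal_of_top_le (le_normalizer_Opi _ ⊤)
  have pO : PiG πᶜ O := Opi_pi _ _
  let f := QuotientGroup.mk' O
  have fk : f.ker = O := QuotientGroup.ker_mk' O
  have ft : (⊤ : Subgroup S).map f = ⊤ := map_top_of_surjective f (QuotientGroup.mk'_surjective O)
  have k0 : f.ker ⊓ H = ⊥ := by rw [fk, inf_comm]; exact hH'.pi.inf_eq_bot pO
  have pA : PiG π A := hH'.pi.le (a1.trans (Fit_le H))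
  have o0 : Opi πᶜ (⊤ : Subgroup (S ⧸ O)) = ⊥ := by
    rw [← ft, ← map_Opi_of_ker f (by rw [fk]; exact pO.le inf_le_left)]
    exact (Subgroup.map_eq_bot_iff _).2 fk.ge
  have hF : PiG π (Fit (⊤ : Subgroup (S ⧸ O))) := by
    rw [← Opi_sup_Opi_of_nilpotent (Fit_nil ⊤) π, le_bot_iff.1 ((Opi_le_Opi le_top (le_normalizer_Fit ⊤)).trans o0.le),
      sup_bot_eq]
    exact Opi_pi _ _
  have nF : ∀ X : Subgroup (S ⧸ O), X ≤ normalizer (Fit (⊤ : Subgroup (S ⧸ O)) : Set (S ⧸ O)) := fun X =>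
    le_top.trans (le_normalizer_Fit ⊤)
  have r := red h2 h3 hF (A := A.map f) (E := (Fit H).map f)
    (by
      rw [map_Fit_of_ker f (k0.le.trans bot_le)]
      exact le_Fit ((hH'.map f).le_of_le_normalizer hF (le_top.trans ft.ge) (Or.inr (nF _))) (nF _) (Fit_nil ⊤))
    (map_le_normalizer_map f a2)
    (by
      rw [← cop_map_centralizer f (a1.trans Subgroup.le_normalizer)
        (pA.copA (pO.le (inf_le_left.trans fk.le)) (Or.inl inferInstance)), a3])
  have l : centralizer (A : Set S) ≤ A ⊔ O := by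
    have := comap_mono (f := f) ((map_le_centralizer_map f le_rfl).trans r)
    rw [comap_map_eq, comap_map_eq, fk] at this
    exact le_sup_left.trans this
  refine ⟨O ⊓ centralizer (A : Set S), inf_le_right, fun c hc d hd => ⟨Normal.conj_mem inferInstance d hd.1 c,
    mul_mem (mul_mem hc hd.2) ((centralizer (A : Set S)).inv_mem hc)⟩, pA.inf_eq_bot (pO.le inf_le_left), ?_, pO.le inf_le_left⟩
  rw [← dedekind (a3.ge.trans inf_le_right) (Or.inl le_normalizer_of_normal), inf_eq_right.2 l]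

end Cfsg.Agent.S1893
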