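import Cfsg.Statements.S1894
import Cfsg.Agent.H1.Frattini
import Cfsg.Agent.H9.Basic

set_option autoImplicit false
open Cfsg

namespace Cfsg.Agent.S1894

open Subgroup H9 in

/-- Let P be a finite p-group, A a normal subgroup of P and B an abelian subgroup of A that is normal in P. Then some subgroup C of A containing B is normal in P and is self-centralizing and normal in A (C ∈ SCN(A)). -/
theorem result {P : Type*} [Group P] [Finite P] {p : ℕ} [Fact p.Prime] (hP : IsPGroup p P)
    (A : Subgroup P) [A.Normal] (B : Subgroup P) [B.Normal] (hBA : B ≤ A) (hB : IsMulCommutative B) :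
    ∃ C : Subgroup P, C.Normal ∧ B ≤ C ∧ Cfsg.IsSCN A C := by
  obtain ⟨C, ⟨h1, h2, h3, h4⟩, hm⟩ := exists_maximal_of_wellFoundedGT
    (fun C : Subgroup P => C.Normal ∧ B ≤ C ∧ C ≤ A ∧ IsMulCommutative C) ⟨B, inferInstance, le_rfl, hBA, hB⟩
  refine ⟨C, h1, h2, h3, le_normalizer_of_normal, le_antisymm ?_ (le_inf h3 (le_centralizer_iff_isMulCommutative.2 h4))⟩
  by_contra h
  haveI : Group.IsNilpotent P := hP.isNilpotent
  obtain ⟨x, a1, a2, a3⟩ := H1.exists_central_mod (L := ⊤) inferInstance
    (lt_of_le_not_ge (le_inf h3 (le_centralizer_iff_isMulCommutative.2 h4)) h) le_top le_normalizer_of_normal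
    le_normalizer_of_normal
  refine a2 (hm ⟨normalizer_eq_top_iff.1 (eq_top_iff.2 (H1.le_normalizer_sup_zpowers le_normalizer_of_normal a3)),
    le_sup_of_le_left h2, sup_le h3 (zpowers_le.2 a1.1), H1.isMulCommutative_sup h4 inferInstance
      (le_centralizer_iff.1 (zpowers_le.2 a1.2))⟩ le_sup_left (mem_sup_right (mem_zpowers x)))

end Cfsg.Agent.S1894
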