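import Cfsg.Statements.S1895
import Cfsg.Agent.FT.B4b
import Cfsg.Agent.H9.Norm
import Cfsg.Agent.H9.MS1
import Cfsg.Agent.H1.Basic

set_option autoImplicit false
open Cfsg

namespace Cfsg.Agent.S1895

open scoped commutatorElement
open H1
open Subgroup H9 L
open scoped commutatorElement

universe u

section
variable {G : Type*} [Group G] [Finite G] {p : ℕ} [hp : Fact p.Prime] {R : Subgroup G}

theorem mp (hp2 : p ≠ 2) (hc : ∀ x ∈ R, x ^ p = 1 → x ∈ centralizer (R : Set G)) {a b : G} (ha : a ∈ R)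
    (hb : b ∈ R) (h : ⁅a⁻¹, b⁻¹⁆ ^ p = 1) : (a * b) ^ p = a ^ p * b ^ p := by
  have m : ⁅a⁻¹, b⁻¹⁆ ∈ R := by
    rw [commutatorElement_def]
    exact mul_mem (mul_mem (mul_mem (inv_mem ha) (inv_mem hb)) (inv_mem (inv_mem ha))) (inv_mem (inv_mem hb))
  have c := inv_mem (hc _ m h)
  obtain ⟨k, hk⟩ := dvd_choose_two (hp.out.odd_of_ne_two hp2)
  rw [mul_pow_class2 (z := ⁅a⁻¹, b⁻¹⁆⁻¹) (by rw [commutatorElement_def]; group) (c a ha) (c b hb), hk, pow_mul,
    inv_pow, h, inv_one, one_pow, mul_one]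

theorem kl (hp2 : p ≠ 2) (hR : IsPGroup p R) (hc : ∀ x ∈ R, x ^ p = 1 → x ∈ centralizer (R : Set G))
    (M : Subgroup G) : M ≤ R → ∀ x ∈ M, (x ^ p) ^ p = 1 → ∀ y ∈ M, ⁅x, y⁆ ^ p = 1 := by
  induction M using WellFoundedLT.induction with
  | ind M ih =>
  intro hM x hx h y hy
  rcases (zpowers_le.2 hx).lt_or_eq with lt | e
  · obtain ⟨M₀, m1, m2, m3, -⟩ := exists_maximal_of_p (hR.to_le hM) lt
    have a : x ∈ M₀ := m1 (mem_zpowers x)
    have b : y * x⁻¹ * y⁻¹ ∈ M₀ := conj_mem_of_le_normalizer m3 hy (inv_mem a)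
    have l := m2.le.trans hM
    have := mp hp2 hc (l a) (l b) (ih M₀ m2 l _ (inv_mem a) (by rw [inv_pow, inv_pow, h, inv_one]) _ (inv_mem b))
    rw [show ⁅x, y⁆ = x * (y * x⁻¹ * y⁻¹) by rw [commutatorElement_def]; group, this, conj_pow, inv_pow,
      inv_mem (hc _ (pow_mem (hM hx) p) h) y (hM hy)]
    group
  · rw [← e] at hy
    rw [commutatorElement_eq_one_iff_commute.2 (commute_of_mem_zpowers hy).symm, one_pow]

theorem om_pow (hc : ∀ x ∈ R, x ^ p = 1 → x ∈ centralizer (R : Set G)) {x : G} (hx : x ∈ omegaOne p R) :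
    x ^ p = 1 :=
  pow_eq_one_of_mem_omegaOne (fun a ha b hb h1 h2 => by
    rw [Commute.mul_pow (hc b hb h2 a ha), h1, h2, one_mul]) hx

end

theorem pc1 {p : ℕ} [hp : Fact p.Prime] (hp2 : p ≠ 2) (n : ℕ) : ∀ (Γ : Type u) [Group Γ] [Finite Γ]
    (R U : Subgroup Γ) [R.Normal], Nat.card R = n → IsPGroup p R →
    (∀ x ∈ R, x ^ p = 1 → x ∈ centralizer (R : Set Γ)) → Nat.card (omegaOne p R) ≤ p ^ 2 →
    (∀ X : Subgroup Γ, X.Normal → X < R → X ≤ U) → U.relIndex R ≤ p ^ 2 := by
  induction n using Nat.strong_induction_on with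
  | _ n ih =>
  intro Γ _ _ R U _ hn hR hc hO hU
  set O := omegaOne p R with hO'
  haveI : O.Normal := normal_of_top_le (normalizer_omegaOne (top_le_normalizer R))
  rcases (omegaOne_le p R).lt_or_eq with lt | e
  swap
  · exact (Nat.le_of_dvd Nat.card_pos (relIndex_dvd_card U R)).trans (e ▸ hO)
  have OU := hU O inferInstance lt
  have O0 : O ≠ ⊥ := fun e => by
    obtain ⟨x, hx, ox⟩ := exists_orderOf_eq_of_isPGroup hR (ne_bot_of_gt lt)
    have := mem_omegaOne hx (ox ▸ pow_orderOf_eq_one x)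
    rw [← hO', e, mem_bot] at this
    rw [this, orderOf_one] at ox
    exact hp.out.ne_one ox.symm
  let f := QuotientGroup.mk' O
  have fs : Function.Surjective f := QuotientGroup.mk'_surjective O
  have fk : f.ker = O := QuotientGroup.ker_mk' O
  have f1 : ∀ x, f x = 1 ↔ x ∈ O := fun x => QuotientGroup.eq_one_iff x
  haveI : (R.map f).Normal := Normal.map inferInstance f fs
  have cm : ∀ {a b}, a ∈ R → b ∈ R → ⁅a, b⁆ ∈ R := fun ha hb =>
    commutator_le_left R R (commutator_mem_commutator ha hb)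
  have hc' : ∀ x ∈ R.map f, x ^ p = 1 → x ∈ centralizer ((R.map f : Subgroup (Γ ⧸ O)) : Set (Γ ⧸ O)) := by
    rintro _ ⟨x, hx, rfl⟩ h _ ⟨y, hy, rfl⟩
    rw [← map_pow, f1] at h
    rw [eq_comm, ← commutatorElement_eq_one_iff_mul_comm, ← map_commutatorElement, f1]
    exact mem_omegaOne (cm hx hy) (kl hp2 hR hc R le_rfl x hx (om_pow hc h) y hy)
  have e1 := card_eq_card_map_mul f R
  rw [fk, inf_eq_left.2 lt.le] at e1
  rw [← relIndex_map_of_ker_le f (inf_le_right : U ⊓ R ≤ R) (inf_le_inf_right _ (fk.le.trans OU)) |>.trans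
    (inf_relIndex_right U R)]
  refine ih _ ?_ (Γ ⧸ O) (R.map f) _ rfl (hR.map f) hc' ?_ fun X _ hX => ?_
  · rw [← hn, e1]
    exact lt_mul_of_one_lt_right Nat.card_pos ((one_lt_card_iff_ne_bot O).2 O0)
  · set Y := (omegaOne p (R.map f)).comap f ⊓ R
    have yp : ∀ x ∈ Y, x ^ p ∈ O := fun x hx => by rw [← f1, map_pow]; exact om_pow hc' hx.1
    obtain ⟨I, i1, i2⟩ := FT.exists_pow_hom (S := Y) (p := p) fun x hx y hy => mp hp2 hc hx.2 hy.2
      (kl hp2 hR hc R le_rfl _ (inv_mem hx.2) (om_pow hc (yp _ (inv_mem hx))) _ (inv_mem hy.2))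
    have a : I ≤ O := fun y hy => by obtain ⟨x, hx, rfl⟩ := (i1 y).1 hy; exact yp x hx
    have e2 := card_eq_card_map_mul f Y
    rw [map_comap_inf f (omegaOne_le _ _), fk,
      inf_eq_left.2 (le_inf (fk.ge.trans (ker_le_comap _ _)) lt.le : O ≤ Y)] at e2
    have := i2.trans (Nat.mul_le_mul (card_le_of_le a) (card_le_of_le (omegaOne_mono p (inf_le_right : Y ≤ R))))
    rw [e2] at this
    exact (Nat.le_of_mul_le_mul_right this Nat.card_pos).trans hO
  · have l : X.comap f ⊓ R < R := lt_of_le_of_ne inf_le_right fun e => hX.ne (by rw [← map_comap_inf f hX.le, e])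
    rw [← map_comap_inf f hX.le]
    exact map_mono (le_inf (hU _ inferInstance l) inf_le_right)

theorem pc2 {Γ : Type u} [Group Γ] [Finite Γ] {p : ℕ} [hp : Fact p.Prime] (hp2 : p ≠ 2) {R U : Subgroup Γ}
    [R.Normal] (hR : IsPGroup p R) (hr : PRankLE p 2 Γ) (hU : ∀ X : Subgroup Γ, X.Normal → X < R → X ≤ U) :
    U.relIndex R ≤ p ^ 2 := by
  let T := {A : Subgroup Γ // A ≤ R ∧ R ≤ normalizer (A : Set Γ) ∧ IsElementaryAbelian p A ∧ Nat.card A = p ^ 2}
  let W : Subgroup Γ := ⨆ A : T, A.1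
  have lW : ∀ A : T, A.1 ≤ W := fun A => le_iSup (fun A : T => A.1) A
  have WR : W ≤ R := iSup_le fun A => A.2.1
  haveI : W.Normal := normal_of_top_le (le_normalizer_of_cj_le fun g _ => by
    rw [cj_iSup]
    refine iSup_le fun A => lW ⟨cj g A.1, (cj_mono g A.2.1).trans (cj_eq_of_normal g R).le, ?_,
      FT.isElem_cj g A.2.2.2.1, by rw [card_cj]; exact A.2.2.2.2⟩
    rw [← cj_normalizer]; exact (cj_eq_of_normal g R).ge.trans (cj_mono g A.2.2.1))
  by_cases hC : R ≤ centralizer (W : Set Γ)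
  · have hc : ∀ x ∈ R, x ^ p = 1 → x ∈ centralizer (R : Set Γ) := by
      intro x hx h
      by_cases cy : IsCyclic R
      · exact fun y hy => congrArg Subtype.val (cy.commGroup.mul_comm ⟨y, hy⟩ ⟨x, hx⟩)
      obtain ⟨A, hA⟩ := exists_normal_elem_two hR le_rfl Subgroup.le_normalizer cy (Or.inl hp2)
      have a : A ≤ centralizer (R : Set Γ) := (lW ⟨A, hA⟩).trans (le_centralizer_iff.1 hC)
      have b := isElem_sup hA.2.2.1 (isElem_zpowers h) (a.trans (H9.centralizer_anti (zpowers_le.2 hx)))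
      have c : A = A ⊔ zpowers x := eq_of_le_of_card_ge le_sup_left (hA.2.2.2 ▸ hr _ b.1 b.2)
      exact a (c ▸ mem_sup_right (mem_zpowers x))
    exact pc1 hp2 _ Γ R U rfl hR hc (hr _ (H1.isMulCommutative_of_comm fun x hx y hy =>
      hc y (omegaOne_le p R hy) (om_pow hc hy) x (omegaOne_le p R hx)) fun x hx => om_pow hc hx) hU
  have k := hU (centralizer (W : Set Γ) ⊓ R) inferInstance (lt_of_le_of_ne inf_le_right fun e => hC (e ▸ inf_le_left))
  refine le_trans (Nat.le_of_dvd (Nat.pos_of_ne_zero index_ne_zero_of_finite) (relIndex_dvd_of_le_left R k)) ?_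
  change (centralizer (W : Set Γ) ⊓ R).relIndex R ≤ _
  rw [inf_relIndex_right]
  have b : ∀ A : T, (centralizer (A.1 : Set Γ)).relIndex R ≤ p := fun A => by
    simpa using relIndex_centralizer_le_pow hR 2 A.2.1 A.2.2.1 A.2.2.2.2
  obtain ⟨A⟩ : Nonempty T := by
    by_contra e
    exact hC (le_centralizer_iff.1 (iSup_le fun A => absurd ⟨A⟩ e))
  by_cases e : W ≤ A.1
  · rw [le_antisymm e (lW A)]
    exact (b A).trans (Nat.le_self_pow two_ne_zero p)
  obtain ⟨B, hB⟩ : ∃ B : T, ¬ B.1 ≤ A.1 := by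
    by_contra c
    push Not at c
    exact e (iSup_le c)
  have z : ⁅W, R⁆ ≤ centralizer (R : Set Γ) := H9.commutator_iSup_le (fun _ => le_normalizer_of_normal) fun A => by
    have n0 : A.1 ≠ ⊥ := fun e => by
      have := A.2.2.2.2
      rw [e, card_bot] at this
      exact absurd this (Nat.one_lt_pow two_ne_zero hp.out.one_lt).ne
    have pA := hR.to_le A.2.1
    have l := commutator_lt_of_p pA hR A.2.2.1 n0
    by_cases e : ⁅A.1, R⁆ = ⊥
    · rw [e]; exact bot_le
    have l2 := commutator_lt_of_p (pA.to_le l.le) hR (normalizer_commutator_ge_right _ _) e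
    rw [← commutator_eq_bot_iff_le_centralizer]
    by_contra e2
    have c1 := mul_card_le_of_lt pA l
    have c2 := mul_card_le_of_lt (pA.to_le l.le) l2
    have c3 := (one_lt_card_iff_ne_bot _).2 e2
    have := hp.out.pos
    have := Nat.le_of_mul_le_mul_left (c1.trans (A.2.2.2.2.trans (pow_two p)).le) this
    nlinarith
  have w3 : Nat.card W ≤ p ^ 3 := FT.t4_8a (hR.to_le WR) (FT.rk_le_iff'.2 fun A _ h => hr A h.1 h.2) fun x hx =>
    omegaOne_exp_class2 (hp.out.odd_of_ne_two hp2) (commutator_eq_bot_iff_le_centralizer.2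
      (((commutator_mono le_rfl WR).trans z).trans (H9.centralizer_anti WR)))
      ((iSup_le fun A y hy => mem_omegaOne (lW A hy) (A.2.2.2.1.2 y hy) : W ≤ omegaOne p W) hx)
  have l : A.1 ⊔ B.1 ≤ W := sup_le (lW A) (lW B)
  have c := mul_card_le_of_lt ((hR.to_le WR).to_le l) (left_lt_sup.2 hB)
  rw [← eq_of_le_of_card_ge l (w3.trans (by rw [A.2.2.2.2, ← pow_succ'] at c; exact c)), H9.centralizer_sup]
  exact (relIndex_inf_le' (b A) (b B)).trans (pow_two p).ge

/-- Let p be an odd prime and G a finite p-solvable group with no elementary abelian subgroup of order p³. Then every chief factor H/K of G (H, K normal in G with no normal subgroup of G strictly between them) whose order is a power of p has order p or p². -/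
theorem result {G : Type*} [Group G] [Finite G] {p : ℕ} [Fact p.Prime] (hp : p ≠ 2)
    (hG : Cfsg.IsPSolvable p G) (hr : Cfsg.PRankLE p 2 G)
    (H K : Subgroup G) [H.Normal] [K.Normal] (hKH : K < H) (hpow : ∃ n : ℕ, K.relIndex H = p ^ n)
    (hchief : ∀ L : Subgroup G, L.Normal → K ≤ L → L ≤ H → L = K ∨ L = H) :
    K.relIndex H = p ∨ K.relIndex H = p ^ 2 := by
  obtain ⟨n, hn⟩ := hpow
  obtain ⟨S, hS⟩ := exists_syl (p := p) H
  let N := normalizer (S : Set G)
  have fr := hS.frattini le_top le_normalizer_of_normal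
  rw [top_inf_eq] at fr
  have hSK : ¬ S ≤ K := fun e => hS.not_dvd_of_le' e (by
    rw [hn]
    refine dvd_pow_self p fun z => hKH.not_ge (relIndex_eq_one.1 (by rw [hn, z, pow_zero])))
  have hH : ⁅H, H⁆ ≤ K := by
    let f := QuotientGroup.mk' K
    have fk : f.ker = K := QuotientGroup.ker_mk' K
    have pH : IsPGroup p (H.map f) := IsPGroup.of_card (by rw [← relIndex_ker, fk, hn])
    have l := commutator_lt_of_p pH pH Subgroup.le_normalizer fun e =>
      hKH.not_ge (fk ▸ (Subgroup.map_eq_bot_iff H).1 e)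
    rcases hchief (⁅H, H⁆ ⊔ K) inferInstance le_sup_right (sup_le (commutator_le_left H H) hKH.le) with e | e
    · exact e ▸ le_sup_left
    · refine absurd ?_ l.ne
      conv_rhs => rw [← e, Subgroup.map_sup, (Subgroup.map_eq_bot_iff K).2 fk.ge, sup_bot_eq, map_commutator]
  haveI : (S.subgroupOf N).Normal := normal_in_normalizer
  obtain ⟨R, -, ⟨r1, r2, r3⟩, rm⟩ := exists_minimal_le_of_wellFoundedLT
    (fun R : Subgroup N => R.Normal ∧ R ≤ S.subgroupOf N ∧ ¬ R ≤ K.subgroupOf N) (S.subgroupOf N)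
    ⟨inferInstance, le_rfl, fun e => hSK fun x hx => e (x := ⟨x, Subgroup.le_normalizer hx⟩) hx⟩
  have k := pc2 hp (R := R) (U := K.subgroupOf N) ((hS.isP.comap_subtype).to_le r2)
    (fun A a b => by
      rw [← card_map_of_injective N.subtype_injective]
      exact hr _ (FT.isElem_map N.subtype ⟨a, b⟩).1 (FT.isElem_map N.subtype ⟨a, b⟩).2)
    fun X x1 x2 => by
      by_contra c
      exact x2.not_ge (rm ⟨x1, x2.le.trans r2, c⟩ x2.le)
  have l : R.map N.subtype ≤ H := (map_le_iff_le_comap.2 r2).trans hS.le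
  have nR : N ≤ normalizer ((R.map N.subtype : Subgroup G) : Set G) := by
    have := map_le_normalizer_map N.subtype (le_normalizer_of_normal (H := R) (K := ⊤))
    rwa [← MonoidHom.range_eq_map, range_subtype] at this
  have e := (hchief (R.map N.subtype ⊔ K) (normal_of_top_le (fr ▸ sup_le
    (H9.le_normalizer_of_commutator_le (hH.trans le_sup_right) (sup_le l hKH.le))
    (normalizer_sup nR le_normalizer_of_normal))) le_sup_right (sup_le l hKH.le)).resolve_left
    fun e => r3 (map_le_iff_le_comap.1 (e ▸ le_sup_left))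
  rw [subgroupOf, relIndex_comap, ← H1.relIndex_sup_of_le_normalizer le_normalizer_of_normal, e, hn] at k
  have k2 := (Nat.pow_le_pow_iff_right (Fact.out : p.Prime).one_lt).1 k
  have : n ≠ 0 := fun z => hKH.not_ge (relIndex_eq_one.1 (by rw [hn, z, pow_zero]))
  rw [hn]
  interval_cases n
  · exact absurd rfl this
  · exact Or.inl (pow_one p)
  · exact Or.inr rfl

end Cfsg.Agent.S1895
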