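import Cfsg.Statements.S1897
import Cfsg.Agent.H8.Z1
import Cfsg.Agent.H8.XU33
import Cfsg.Agent.H8.XL27
-- import your own Cfsg.Agent.* helpers here

set_option autoImplicit false
set_option maxRecDepth 200000
open Cfsg

namespace Cfsg.Agent.S1897

/-- The projective special unitary group PSU₃(3) (realised over the field with 9 elements) has a subgroup isomorphic to PSL₂(7). -/
theorem result {F : Type*} [Field F] [Fintype F] (hF : Fintype.card F = 9)
    {K : Type*} [Field K] [Fintype K] (hK : Fintype.card K = 7) :
    ∃ H : Subgroup (Cfsg.PSU 3 F 3), Nonempty (H ≃* Matrix.ProjectiveSpecialLinearGroup (Fin 2) K) := by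
  exact (H8.Z1.u33 (H8.U33.iso hF)).imp fun _ h => ⟨h.some.symm.trans (H8.L27.iso hK).some.symm⟩

end Cfsg.Agent.S1897
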