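import Cfsg.Statements.S1898
import Cfsg.Agent.H2.Small

set_option autoImplicit false
open Cfsg

namespace Cfsg.Agent.S1898

open Subgroup
open scoped commutatorElement

/-- Let X be a finite 2-group whose derived subgroup is elementary abelian and central. Then the subgroup generated by the elements of order dividing 4 has exponent dividing 4, and every automorphism of X fixing each element of order dividing 4 has 2-power order. -/
theorem result {X : Type*} [Group X] [Finite X] (hX : IsPGroup 2 X)
    (hel : Cfsg.IsElementaryAbelian 2 (commutator X)) (hcen : commutator X ≤ Subgroup.center X) :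
    (∀ x ∈ Subgroup.closure {g : X | g ^ 4 = 1}, x ^ 4 = 1) ∧
      ∀ φ : MulAut X, (∀ g : X, g ^ 4 = 1 → φ g = g) → ∃ k : ℕ, φ ^ (2 ^ k) = 1 := by
  haveI : Fact (Nat.Prime 2) := ⟨Nat.prime_two⟩
  have hc : ∀ x y : X, ⁅x, y⁆ ∈ commutator X := fun x y => commutator_mem_commutator (mem_top x) (mem_top y)
  have hz : ∀ x y z : X, z * ⁅x, y⁆ = ⁅x, y⁆ * z := fun x y z => mem_center_iff.mp (hcen (hc x y)) z
  have h2 : ∀ x y : X, ⁅x, y⁆ * ⁅x, y⁆ = 1 := fun x y => by rw [← pow_two]; exact hel.2 _ (hc x y)
  have hsw : ∀ x y : X, x * y = ⁅x, y⁆ * (y * x) := fun x y => by rw [commutatorElement_def]; group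
  have hsq : ∀ x y : X, x * x * y = y * (x * x) := fun x y => by
    calc x * x * y = x * (x * y) := by group
      _ = x * (⁅x, y⁆ * (y * x)) := by rw [← hsw]
      _ = ⁅x, y⁆ * (x * y) * x := by rw [← mul_assoc, hz x y x]; group
      _ = ⁅x, y⁆ * (⁅x, y⁆ * (y * x)) * x := by rw [← hsw]
      _ = (⁅x, y⁆ * ⁅x, y⁆) * (y * (x * x)) := by simp only [mul_assoc]
      _ = y * (x * x) := by rw [h2, one_mul]
  constructor
  · intro x hx
    induction hx using closure_induction with
    | mem x hx => exact hx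
    | one => simp
    | inv x _ h => rw [inv_pow, h, inv_one]
    | mul x y _ _ hx hy =>
      have e : x * y * (x * y) = ⁅y, x⁆ * (x * x * (y * y)) := by
        calc x * y * (x * y) = x * (y * x) * y := by group
          _ = x * (⁅y, x⁆ * (x * y)) * y := by rw [← hsw]
          _ = ⁅y, x⁆ * (x * x * (y * y)) := by rw [← mul_assoc x, hz y x x]; group
      have hx' : x * x * (x * x) = 1 := by rw [← hx]; simp only [pow_succ, pow_zero, one_mul, mul_assoc]
      have hy' : y * y * (y * y) = 1 := by rw [← hy]; simp only [pow_succ, pow_zero, one_mul, mul_assoc]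
      calc (x * y) ^ 4 = (x * y * (x * y)) * (x * y * (x * y)) := by simp only [pow_succ, pow_zero, one_mul, mul_assoc]
        _ = ⁅y, x⁆ * ((x * x * (y * y)) * ⁅y, x⁆) * (x * x * (y * y)) := by rw [e]; simp only [mul_assoc]
        _ = (⁅y, x⁆ * ⁅y, x⁆) * (x * x * ((y * y) * (x * x)) * (y * y)) := by rw [hz]; simp only [mul_assoc]
        _ = (x * x * (x * x)) * (y * y * (y * y)) := by rw [h2, ← hsq x (y * y)]; simp only [mul_assoc, one_mul]
        _ = 1 := by rw [hx', hy', one_mul]
  · intro φ hφ
    obtain ⟨k, m, hm, e⟩ := Nat.exists_eq_two_pow_mul_odd (orderOf_pos φ).ne'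
    refine ⟨k, ?_⟩
    have ho : orderOf (φ ^ 2 ^ k) = m := by
      rw [orderOf_pow_of_dvd (by positivity) (e ▸ dvd_mul_right _ _), e, Nat.mul_div_cancel_left _ (by positivity)]
    have hf : ∀ n : ℕ, ∀ g : X, g ^ 4 = 1 → (φ ^ n) g = g := by
      intro n g hg
      induction n with
      | zero => rfl
      | succ n ih => rw [pow_succ, MulAut.mul_apply, hφ g hg, ih]
    have := H2.fix_of_small (p := 2) (P := ⊤) (β := MulAut.toPerm X (φ ^ 2 ^ k)) (hX.to_subgroup ⊤)
      (fun x _ y _ => map_mul (φ ^ 2 ^ k) x y) (fun x => by simp)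
      (Nat.Coprime.coprime_dvd_left (orderOf_map_dvd _ _) (by rw [ho]; exact Nat.coprime_two_right.mpr hm))
      (fun x _ hx => hf _ x (by simpa [H2.sm] using hx))
    ext x
    exact this x (mem_top x)

end Cfsg.Agent.S1898
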