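import Cfsg.Statements.S1899


set_option autoImplicit false
open Cfsg

namespace Cfsg.Agent.S1899

/-- Let a dihedral group of order 2n, n odd and n > 1, act on a finite abelian 2-group A through automorphisms d and t with d^n = 1, t² = 1 and t d t⁻¹ = d⁻¹, and suppose that d fixes only the identity. Then A is the internal direct product of C_A(t) and its image under d. -/
theorem result {A : Type*} [CommGroup A] [Finite A] (hA : IsPGroup 2 A)
    {n : ℕ} (hn : Odd n) (hn1 : 1 < n) (d t : MulAut A) (hd : d ^ n = 1) (ht : t ^ 2 = 1) (hdt : t * d * t⁻¹ = d⁻¹)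
    (hfix : ∀ a : A, d a = a → a = 1) :
    (MulEquiv.toMonoidHom t).eqLocus (MonoidHom.id A) ⊓ ((MulEquiv.toMonoidHom t).eqLocus (MonoidHom.id A)).map d.toMonoidHom = ⊥ ∧
      (MulEquiv.toMonoidHom t).eqLocus (MonoidHom.id A) ⊔ ((MulEquiv.toMonoidHom t).eqLocus (MonoidHom.id A)).map d.toMonoidHom = ⊤ := by
  have t2 : ∀ a, t (t a) = a := fun a => by rw [← MulAut.mul_apply, ← sq, ht]; rfl
  have td : ∀ a, t (d a) = d⁻¹ (t a) := fun a => by
    rw [← hdt]; simp [MulAut.mul_apply]
  have td' : ∀ a, t (d⁻¹ a) = d (t a) := fun a => by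
    have := td (d⁻¹ a)
    simp only [MulAut.apply_inv_self] at this
    rw [this, MulAut.apply_inv_self]
  have d2 : ∀ a, d (d a) = a → a = 1 := fun a h => hfix a (by
    obtain ⟨k, rfl⟩ := hn
    have h1 : ∀ j, (d ^ (2 * j)) a = a := fun j => by
      induction j with
      | zero => rfl
      | succ j ih => rw [Nat.mul_succ, pow_add, MulAut.mul_apply, sq, MulAut.mul_apply, h, ih]
    have := congrArg (fun f : MulAut A => f a) hd
    simp only [pow_succ', MulAut.mul_apply, h1] at this
    exact this)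
  refine ⟨eq_bot_iff.2 ?_, eq_top_iff.2 fun x _ => ?_⟩
  · rintro _ ⟨h1, c, h2, rfl⟩
    have e1 : t (d c) = d c := h1
    have e2 : t c = c := h2
    rw [td, e2] at e1
    have := d2 c (by rw [← e1, MulAut.apply_inv_self])
    subst this
    simp
  · let f : A →* A := MonoidHom.mk' (fun a => a * (d (d a))⁻¹) fun a b => by simp only [map_mul, mul_inv, mul_mul_mul_comm]
    have hf : Function.Injective f := (injective_iff_map_eq_one f).2 fun a h => d2 a (mul_inv_eq_one.1 h).symm
    obtain ⟨a, rfl⟩ := (Finite.injective_iff_surjective.1 hf) x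
    have : f a = (t a * a) * (d (d⁻¹ (t a) * d a))⁻¹ := by
      change a * (d (d a))⁻¹ = _
      rw [map_mul, MulAut.apply_inv_self, mul_inv, mul_mul_mul_comm, mul_inv_cancel, one_mul]
    rw [this]
    refine mul_mem (Subgroup.mem_sup_left ?_) (inv_mem (Subgroup.mem_sup_right ⟨_, ?_, rfl⟩))
    · change t (t a * a) = t a * a
      rw [map_mul, t2, mul_comm]
    · change t (d⁻¹ (t a) * d a) = d⁻¹ (t a) * d a
      rw [map_mul, td', td, t2, mul_comm]

end Cfsg.Agent.S1899
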