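import Cfsg.Statements.S1900
import Cfsg.Agent.H1.Generation
import Cfsg.Agent.H2.T1
import Cfsg.Agent.FT.Pi

set_option autoImplicit false
open Cfsg

namespace Cfsg.Agent.S1900

open Subgroup H9 in

/-- Let S = PQ be a finite group with P a normal Sylow p-subgroup and Q elementary abelian of order q², q a prime different from p. If exactly two subgroups X₁, X₂ of order q in Q have a nontrivial centralizer in P, then P is the internal direct product of C_P(X₁) and C_P(X₂): they commute elementwise, meet trivially and generate P. -/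
theorem result {S : Type*} [Group S] [Finite S] {p q : ℕ} [Fact p.Prime] [Fact q.Prime] (hpq : p ≠ q)
    (P : Sylow p S) [(P : Subgroup S).Normal] (Q : Subgroup S) (hQ : Cfsg.IsElementaryAbelian q Q) (hQc : Nat.card Q = q ^ 2)
    (hS : (P : Subgroup S) ⊔ Q = ⊤)
    (X₁ X₂ : Subgroup S) (h₁ : X₁ ≤ Q) (h₂ : X₂ ≤ Q) (h₁₂ : X₁ ≠ X₂) (hc₁ : Nat.card X₁ = q) (hc₂ : Nat.card X₂ = q)
    (hf₁ : (P : Subgroup S) ⊓ Subgroup.centralizer (X₁ : Set S) ≠ ⊥)
    (hf₂ : (P : Subgroup S) ⊓ Subgroup.centralizer (X₂ : Set S) ≠ ⊥)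
    (honly : ∀ X : Subgroup S, X ≤ Q → Nat.card X = q →
      (P : Subgroup S) ⊓ Subgroup.centralizer (X : Set S) ≠ ⊥ → X = X₁ ∨ X = X₂) :
    ⁅(P : Subgroup S) ⊓ Subgroup.centralizer (X₁ : Set S), (P : Subgroup S) ⊓ Subgroup.centralizer (X₂ : Set S)⁆ = ⊥ ∧
      ((P : Subgroup S) ⊓ Subgroup.centralizer (X₁ : Set S)) ⊓ ((P : Subgroup S) ⊓ Subgroup.centralizer (X₂ : Set S)) = ⊥ ∧
      ((P : Subgroup S) ⊓ Subgroup.centralizer (X₁ : Set S)) ⊔ ((P : Subgroup S) ⊓ Subgroup.centralizer (X₂ : Set S)) = P := by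
  have hP := P.isPGroup'
  set R := (P : Subgroup S) with hR
  have nR : ∀ X : Subgroup S, X ≤ normalizer (R : Set S) := fun X => le_normalizer_of_normal
  have q1 : IsPGroup q Q := isPGroup_of_elem hQ.2
  have cQ : (Nat.card Q).Coprime p := cop_of_isPGroup_ne hpq.symm q1
  have cc : ∀ X ≤ Q, ∀ Y ≤ Q, X ≤ centralizer (Y : Set S) := fun X a Y b =>
    a.trans ((le_centralizer_iff_isMulCommutative.2 hQ.1).trans (centralizer_le b))
  have pq := (Fact.out : q.Prime)
  have zc : ∀ a ∈ Q, a ≠ 1 → Nat.card (zpowers a) = q := fun a h1 h2 => by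
    rw [Nat.card_zpowers]; exact orderOf_eq_prime (hQ.2 a h1) h2
  have gen : ∀ N M : Subgroup S, N ≤ R → Q ≤ normalizer (N : Set S) → N ⊓ centralizer (X₁ : Set S) ≤ M →
      N ⊓ centralizer (X₂ : Set S) ≤ M → N ≤ M := fun N M a1 a2 a3 a4 => by
    refine H1.le_of_centralizer_le hQ.1 (fun hc => ?_) a2 (card_cop_of_p (hP.to_le a1) cQ).symm fun a b1 b2 => ?_
    · obtain ⟨x, c1, c2⟩ := H1.exists_eq_zpowers_of_isCyclic hc
      have := orderOf_dvd_of_pow_eq_one (hQ.2 x c1)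
      rw [← Nat.card_zpowers, c2, hQc, sq] at this
      exact absurd (Nat.le_of_dvd pq.pos this) (by nlinarith [pq.one_lt])
    rw [← centralizer_zpowers]
    by_cases h0 : R ⊓ centralizer (zpowers a : Set S) = ⊥
    · exact (inf_le_inf a1 le_rfl).trans (h0.le.trans bot_le)
    rcases honly _ (zpowers_le.2 b1) (zc a b1 b2) h0 with e | e <;> rwa [e]
  have d12 : X₁ ⊓ X₂ = ⊥ := (FT.le_or_inf_eq_bot_of_card_prime (hc₁ ▸ pq) X₂).resolve_left fun h =>
    h₁₂ (eq_of_le_of_card_ge h (hc₁.trans hc₂.symm).ge)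
  have i0 : (R ⊓ centralizer (X₁ : Set S)) ⊓ (R ⊓ centralizer (X₂ : Set S)) = ⊥ := by
    by_contra h0
    obtain ⟨⟨x, x1⟩, x2⟩ := ne_bot_iff_exists_ne_one.1 (FT.ne_bot_of_card_prime (hc₁ ▸ pq : (Nat.card X₁).Prime))
    obtain ⟨⟨y, y1⟩, y2⟩ := ne_bot_iff_exists_ne_one.1 (FT.ne_bot_of_card_prime (hc₂ ▸ pq : (Nat.card X₂).Prime))
    have x3 : x ∉ X₂ := fun h => x2 (Subtype.ext (mem_bot.1 (d12.le ⟨x1, h⟩)))
    have y3 : y ∉ X₁ := fun h => y2 (Subtype.ext (mem_bot.1 (d12.le ⟨h, y1⟩)))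
    have m := mul_mem (h₁ x1) (h₂ y1)
    rcases honly (zpowers (x * y)) (zpowers_le.2 m) (zc _ m fun e => x3 (by
      rw [eq_inv_of_mul_eq_one_left e]; exact inv_mem y1)) (fun e => h0 (eq_bot_iff.2 (le_trans (le_inf
        (inf_le_left.trans inf_le_left) (le_centralizer_iff.1 (zpowers_le.2 (mul_mem
          (le_centralizer_iff.1 (inf_le_left.trans inf_le_right) x1)
          (le_centralizer_iff.1 (inf_le_right.trans inf_le_right) y1))))) e.le))) with e | e
    · exact y3 ((mul_mem_cancel_left x1).1 (e.le (mem_zpowers _)))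
    · exact x3 ((mul_mem_cancel_right y1).1 (e.le (mem_zpowers _)))
  have s0 : (R ⊓ centralizer (X₁ : Set S)) ⊔ (R ⊓ centralizer (X₂ : Set S)) = R :=
    le_antisymm (sup_le inf_le_left inf_le_left) (gen R _ le_rfl (nR Q) le_sup_left le_sup_right)
  refine ⟨?_, i0, s0⟩
  have nC : ∀ X ≤ Q, Q ≤ normalizer ((R ⊓ centralizer (X : Set S) : Subgroup S) : Set S) := fun X a =>
    normalizer_inf (nR Q) (normalizer_centralizer ((cc Q le_rfl X a).trans (centralizer_le_normalizer' X)))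
  set N := ⁅R ⊓ centralizer (X₁ : Set S), R ⊓ centralizer (X₂ : Set S)⁆ with hN
  have n1 : N ≤ R := commutator_le_of_le inf_le_left inf_le_left
  have n2 : Q ≤ normalizer (N : Set S) := normalizer_commutator (nC _ h₁) (nC _ h₂)
  have n3 : R ≤ normalizer (N : Set S) :=
    s0.ge.trans (sup_le (normalizer_commutator_ge_left _ _) (normalizer_commutator_ge_right _ _))
  have m1 : ⁅N, R⁆ ≤ N := commutator_le_left' n3
  have nR' : ∀ K, ⁅N, R⁆ ≤ K → K ≤ N → R ≤ normalizer (K : Set S) := fun K a b => le_normalizer_of_commutator_le a b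
  have m2 : Q ≤ normalizer ((⁅N, R⁆ : Subgroup S) : Set S) := normalizer_commutator n2 (nR Q)
  have step : ∀ X Y : Subgroup S, X ≤ Q → Y ≤ Q → N = ⁅R ⊓ centralizer (X : Set S), R ⊓ centralizer (Y : Set S)⁆ →
      (R ⊓ centralizer (X : Set S)) ⊓ (R ⊓ centralizer (Y : Set S)) = ⊥ → N ≤ ⁅N, X⁆ ⊔ ⁅N, R⁆ := fun X Y a b e1 e2 => by
    have k1 := nR' (⁅N, X⁆ ⊔ ⁅N, R⁆) le_sup_right (sup_le (commutator_le_left' (a.trans n2)) m1)
    have k2 := cop_commutator_sup (a.trans (nC Y b)) (copA_of_p' (hP.to_le inf_le_left) (cop_of_le cQ a))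
    rw [show R ⊓ centralizer (Y : Set S) ⊓ centralizer (X : Set S) = ⊥ from eq_bot_iff.2 (le_trans
      (le_inf (le_inf (inf_le_left.trans inf_le_left) inf_le_right) inf_le_left) e2.le), sup_bot_eq] at k2
    refine le_trans (by rw [k2, commutator_comm, ← e1]) (three_subgroups (A := R ⊓ centralizer (Y : Set S)) (B := X)
      (C := R ⊓ centralizer (X : Set S)) (inf_le_left.trans k1) (normalizer_sup (normalizer_commutator_ge_right _ _)
        (a.trans m2)) (inf_le_left.trans k1) ?_ (e1 ▸ le_sup_left))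
    rw [commutator_comm X, commutator_eq_bot_iff_le_centralizer.2 inf_le_right, commutator_bot_left]
    exact bot_le
  have s1 := step _ _ h₁ h₂ rfl i0
  have s2 := step _ _ h₂ h₁ (commutator_comm _ _) ((inf_comm _ _).trans i0)
  have k1 := nR' ((N ⊓ centralizer (X₂ : Set S)) ⊔ ⁅N, R⁆) le_sup_right (sup_le inf_le_left m1)
  have s3 : N ≤ (N ⊓ centralizer (X₂ : Set S)) ⊔ ⁅N, R⁆ := s1.trans (sup_le ((commutator_mono
    (gen N ((N ⊓ centralizer (X₁ : Set S)) ⊔ ((N ⊓ centralizer (X₂ : Set S)) ⊔ ⁅N, R⁆)) n1 n2 le_sup_left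
      (le_sup_of_le_right le_sup_left)) le_rfl).trans (commutator_sup_le ((inf_le_left.trans n1).trans k1) le_normalizer
      ((commutator_eq_bot_iff_le_centralizer.2 inf_le_right).le.trans bot_le) (commutator_le_left' (normalizer_sup
        (normalizer_inf (h₁.trans n2) (normalizer_centralizer ((cc _ h₁ _ h₂).trans (centralizer_le_normalizer' _))))
        (h₁.trans m2))))) le_sup_right)
  have k2 := nR' _ le_rfl m1
  exact H2T.eq_bot_of_le_commutator hP.isNilpotent n1 (s2.trans (sup_le ((commutator_mono s3 le_rfl).trans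
    (commutator_sup_le ((inf_le_left.trans n1).trans k2) le_normalizer
      ((commutator_eq_bot_iff_le_centralizer.2 inf_le_right).le.trans bot_le) (commutator_le_left' (h₂.trans m2)))) le_rfl))

end Cfsg.Agent.S1900
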