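import Cfsg.Statements.S1901
import Cfsg.Agent.H2.T1

set_option autoImplicit false
open Cfsg

namespace Cfsg.Agent.S1901

open Subgroup H9 in

/-- Let G be a finite p-solvable group and Q a subgroup of order prime to p such that p divides the index of C_G(Q) in N_G(Q). Then Q normalizes no Sylow p-subgroup of G. -/
theorem result {G : Type*} [Group G] [Finite G] {p : ℕ} [Fact p.Prime]
    (hG : Cfsg.IsPSolvable p G) (Q : Subgroup G) (hQ : ¬ p ∣ Nat.card Q)
    (hA : p ∣ (Subgroup.centralizer (Q : Set G)).relIndex (Subgroup.normalizer (Q : Set G)))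
    (P : Sylow p G) : ¬ Q ≤ Subgroup.normalizer ((P : Subgroup G) : Set G) := by
  intro h
  obtain ⟨A, hA'⟩ := exists_syl p (normalizer (Q : Set G))
  have h1 := H2T.cent_of_normalizes_syl G Q A P (psol_of_isPSolvable hG) (cop_iff.2 hQ) hA'.isP hA'.le
    (syl_top_of_sylow P) h
  rw [commutator_comm, commutator_eq_bot_iff_le_centralizer] at h1
  exact hA'.not_dvd (hA.trans (relIndex_dvd_of_le_left _ h1))

end Cfsg.Agent.S1901
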