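import Cfsg.Statements.S3737
import Cfsg.Agent.H1.Baer

set_option autoImplicit false
open Cfsg

namespace Cfsg.Agent.S3737

open H1
open Subgroup
open scoped commutatorElement

/-- Thompson's strengthening of the P × Q lemma for odd primes. Let p be an odd prime and let P, Q and G be subgroups of a finite group with P a p-group, Q of order prime to p and normalized by P, and G a p-group normalized by both P and Q. If every element of G centralized by P is centralized by Q, then Q centralizes G. -/
theorem result {X : Type*} [Group X] [Finite X] {p : ℕ} [Fact p.Prime] (hp : p ≠ 2) (P Q G : Subgroup X) (hP : IsPGroup p P) (hQ : (Nat.card Q).Coprime p) (hPQ : P ≤ Subgroup.normalizer (Q : Set X)) (hG : IsPGroup p G) (hPG : P ≤ Subgroup.normalizer (G : Set X)) (hQG : Q ≤ Subgroup.normalizer (G : Set X)) (hC : G ⊓ Subgroup.centralizer (P : Set X) ≤ Subgroup.centralizer (Q : Set X)) : Q ≤ Subgroup.centralizer (G : Set X) := by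
  refine le_centralizer_iff.1 ?_
  induction G using WellFoundedLT.induction with
  | ind G ih =>
  have ih' : ∀ H < G, P ≤ normalizer (H : Set X) → Q ≤ normalizer (H : Set X) →
      H ≤ centralizer (Q : Set X) := fun H h h1 h2 =>
    ih H h (hG.to_le h.le) h1 h2 ((inf_le_inf_right _ h.le).trans hC)
  have hc := H9.copA_of_p' hG hQ
  rcases (H9.commutator_le_left' hQG).lt_or_eq with h1 | h1
  · exact H9.cop_le_centralizer hQG hc le_rfl (ih' _ h1 (H9.normalizer_commutator hPG hPQ)
      (normalizer_commutator_ge_right G Q))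
  by_cases hb : G = ⊥
  · rw [hb]; exact bot_le
  have h2 := ih' _ (map_frattini_lt hb) (L.normalizer_Phi hPG) (L.normalizer_Phi hQG)
  have h3 := L.class2_of_Phi hG
    (le_centralizer_iff.1 (L.le_centralizer_of_three h1 h2 (L.normalizer_Phi le_normalizer)))
  rcases (L.omegaOne_le p G).lt_or_eq with h4 | h4
  · exact L.le_centralizer_of_omega_odd hp hQ hG hQG
      (ih' _ h4 (L.normalizer_omegaOne hPG) (L.normalizer_omegaOne hQG))
  have ho := (Fact.out : p.Prime).odd_of_ne_two hp
  have e : ∀ x : G, x ^ p = 1 := fun x => Subtype.ext (L.omegaOne_exp_class2 ho h3 (h4.ge x.2))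
  obtain ⟨k, hk⟩ := ho
  have d : BD G (k + 1) := ⟨fun x y z => Subtype.ext (L.commute_of_commutator_eq_bot h3
    (commutator_mem_commutator x.2 y.2) z.2), fun x y => by
      rw [← pow_add, show k + 1 + (k + 1) = p + 1 by omega, pow_succ, e, one_mul]⟩
  have := baer_pq d e G.normalizerMonoidHom (P := P.subgroupOf _) (Q := Q.subgroupOf _)
    (hP.of_equiv (subgroupOfEquivOfLe hPG).symm)
    (by rwa [Nat.card_congr (subgroupOfEquivOfLe hQG).toEquiv])
    (fun u hu => mem_normalizer_fintype fun a ha => H9.conj_mem_of_le_normalizer hPQ hu ha)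
    (fun x hx a ha => Subtype.ext (mul_inv_eq_of_eq_mul (hC ⟨x.2, fun u hu =>
      eq_mul_of_mul_inv_eq (congrArg Subtype.val (hx ⟨u, hPG hu⟩ hu))⟩ a ha)))
  exact fun x hx a ha => eq_mul_of_mul_inv_eq (congrArg Subtype.val (this ⟨a, hQG ha⟩ ha ⟨x, hx⟩))

end Cfsg.Agent.S3737
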