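import Cfsg.Statements.S1902
import Cfsg.Agent.S3737
import Cfsg.Agent.H9.PCon
import Cfsg.Agent.H9.Cop
import Cfsg.Agent.L.PG2
import Cfsg.Agent.H9.Sec

set_option autoImplicit false
open Cfsg

namespace Cfsg.Agent.S1902

open H1
open Subgroup H9

/-- Let p be an odd prime, G a finite p-solvable group, and B an elementary abelian subgroup of order p² such that B is the subgroup generated by the elements of order p of some Sylow p-subgroup of C_G(b₀), for some nontrivial b₀ ∈ B. Then every B-invariant subgroup of G of order prime to p lies in O_{p'}(G). -/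
theorem result {G : Type*} [Group G] [Finite G] {p : ℕ} [Fact p.Prime] (hp : p ≠ 2)
    (hG : Cfsg.IsPSolvable p G) (B : Subgroup G) (hB : Cfsg.IsElementaryAbelian p B) (hBc : Nat.card B = p ^ 2)
    (b₀ : G) (hb₀ : b₀ ∈ B) (hb₁ : b₀ ≠ 1) (P : Sylow p ↥(Subgroup.centralizer ({b₀} : Set G)))
    (hBP : B = Subgroup.closure {x : G | x ∈ ((P : Subgroup ↥(Subgroup.centralizer ({b₀} : Set G))).map
      (Subgroup.centralizer ({b₀} : Set G)).subtype : Subgroup G) ∧ orderOf x = p})
    (Q : Subgroup G) (hQ : ¬ p ∣ Nat.card Q) (hinv : ∀ b ∈ B, ∀ x ∈ Q, b * x * b⁻¹ ∈ Q) :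
    Q ≤ Cfsg.pPrimeCore p G := by
  let f := QuotientGroup.mk' (pPrimeCore p G)
  have fs : Function.Surjective f := QuotientGroup.mk'_surjective _
  have fk : f.ker = pPrimeCore p G := QuotientGroup.ker_mk' _
  have ft : (⊤ : Subgroup G).map f = ⊤ := map_top_of_surjective f fs
  have kc : (Nat.card f.ker).Coprime p := by rw [fk]; exact pPrimeCore_cop p
  set R := Op p (⊤ : Subgroup (G ⧸ pPrimeCore p G))
  have nR : ∀ X : Subgroup (G ⧸ pPrimeCore p G), X ≤ normalizer (R : Set _) := fun X =>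
    le_top.trans (le_normalizer_Op p ⊤)
  have cR : ⊤ ⊓ centralizer (R : Set _) ≤ R := centralizer_Op_le_of_PLay
    (PLay_eq_bot_of_psol (by rw [← ft]; exact (psol_of_isPSolvable hG).map f)) (by rw [Op'_top]; exact pPrimeCore_quotient p)
  obtain ⟨D, d1, d2, -, d4, d5⟩ := L.exists_critical_odd hp (Op_p p (⊤ : Subgroup (G ⧸ pPrimeCore p G)))
  have qc := cop_map f (cop_iff.2 hQ)
  have pB : IsPGroup p B := isPGroup_of_elem hB.2
  have nB : B ≤ normalizer (Q : Set G) := fun b hb => mem_normalizer_fintype fun x hx => hinv b hb x hx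
  have pz := isPGroup_zpowers_of_mem pB hb₀
  have hP := syl_of_sylow P
  set C := centralizer ({b₀} : Set G)
  have e := cop_map_centralizer f (A := zpowers b₀) (K := ⊤) le_normalizer_of_normal
    (copA_of_p pz (cop_of_le kc inf_le_left))
  rw [top_inf_eq, ft, top_inf_eq, H9.centralizer_zpowers] at e
  have k := S3737.result hp ((zpowers b₀).map f) (Q.map f) D (pz.map f) qc
    (map_le_normalizer_map f ((zpowers_le.2 hb₀).trans nB)) ((Op_p p ⊤).to_le d1) ((nR _).trans d2)
    ((nR _).trans d2) fun x hx => by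
      have a : R ⊓ C.map f ≤ _ := (hP.map f).le_of_le_normalizer ((Op_p p ⊤).to_le inf_le_left) inf_le_right
        (Or.inr (le_normalizer_inf (nR _) ((hP.map f).le.trans Subgroup.le_normalizer)))
      obtain ⟨y, hy, rfl⟩ := a ⟨d1 hx.1, e.ge hx.2⟩
      have y1 : y ^ p = 1 := (inf_eq_bot_of_p_p' hP.isP kc).le ⟨pow_mem hy p, (map_pow f y p).trans (d4 _ hx.1)⟩
      have yB : y ∈ B := by
        by_cases z : y = 1
        · rw [z]; exact one_mem _
        · rw [hBP]; exact subset_closure ⟨hy, orderOf_eq_prime y1 z⟩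
      exact commutator_eq_bot_iff_le_centralizer.1 (le_bot_iff.1 ((le_inf
        ((commutator_mono inf_le_left le_rfl).trans (H9.commutator_le_left' (nR _)))
        (H9.commutator_le_right' (inf_le_right.trans (map_le_normalizer_map f nB)))).trans
        (inf_eq_bot_of_p_p' (Op_p p ⊤) qc).le)) (⟨d1 hx.1, mem_map_of_mem f yB⟩ : f y ∈ R ⊓ B.map f)
  have l := (le_inf le_top (le_centralizer_iff.1 (d5 _ qc (nR _) (le_centralizer_iff.1 k)))).trans cR
  exact ((Subgroup.map_eq_bot_iff Q).1 (eq_bot_of_p_p' ((Op_p p ⊤).to_le l) qc)).trans fk.le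

end Cfsg.Agent.S1902
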