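import Cfsg.Statements.S1905
import Cfsg.Agent.H1.Invol
import Cfsg.Agent.H9.LE1

set_option autoImplicit false
open Cfsg

namespace Cfsg.Agent.S1905

open Subgroup H9 in

/-- Let M be a subgroup of even order of a finite group S such that M contains the centralizer in S of each of its involutions and the normal core of M in S has odd order. Then all involutions of S are conjugate. If moreover N_S(X) ≤ M for a Sylow 2-subgroup X of M and I is an involution in the centre of X, then all involutions of M are conjugate in M and M = M₀ C_M(I) for some subgroup M₀ of M of odd order. -/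
theorem result {S : Type*} [Group S] [Finite S] (M : Subgroup S) (hM : Even (Nat.card M))
    (hC : ∀ i ∈ M, orderOf i = 2 → Subgroup.centralizer ({i} : Set S) ≤ M) (hcore : Odd (Nat.card M.normalCore)) :
    (∀ x y : S, orderOf x = 2 → orderOf y = 2 → IsConj x y) ∧
      ∀ (X : Sylow 2 M) (I : M), I ∈ (Subgroup.center ↥(X : Subgroup ↥M)).map (X : Subgroup ↥M).subtype → orderOf I = 2 →
        Subgroup.normalizer (((X : Subgroup M).map M.subtype : Subgroup S) : Set S) ≤ M →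
        (∀ x y : M, orderOf x = 2 → orderOf y = 2 → IsConj x y) ∧
          ∃ M₀ : Subgroup M, Odd (Nat.card M₀) ∧
            ∀ m : M, ∃ a ∈ M₀, ∃ c ∈ Subgroup.centralizer ({I} : Set M), m = a * c := by
  haveI : Fact (Nat.Prime 2) := ⟨Nat.prime_two⟩
  obtain ⟨i, i1, i2⟩ := exists_orderOf_eq_of_dvd (p := 2) hM.two_dvd
  have out : ∀ y : S, orderOf y = 2 → ∃ g : S, g * y * g⁻¹ ∉ M := fun y hy => by
    by_contra! h
    exact (Nat.not_even_iff_odd.2 hcore) (even_iff_two_dvd.2 (hy ▸ orderOf_dvd_card_of_mem (H := M.normalCore) h))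
  have odd : ∀ x ∈ M, orderOf x = 2 → ∀ y ∉ M, orderOf y = 2 → Odd (orderOf (x * y)) := fun x x1 x2 y y1 y2 => by
    by_contra h
    obtain ⟨z, -, z1, z2, z3⟩ := H1.pair_even (H1.two_sq x2) (H1.two_sq y2) h
    exact y1 (hC z (hC x x1 x2 (mem_centralizer_singleton_iff.2 z2)) z1 (mem_centralizer_singleton_iff.2 z3.symm))
  have cj1 : ∀ x ∈ M, orderOf x = 2 → ∀ y ∉ M, orderOf y = 2 → IsConj x y := fun x x1 x2 y y1 y2 =>
    let ⟨t, _, h⟩ := H1.pair_odd (H1.two_sq x2) (H1.two_sq y2) (odd x x1 x2 y y1 y2)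
    isConj_iff.2 ⟨t, h⟩
  have all : ∀ x y : S, orderOf x = 2 → orderOf y = 2 → IsConj x y := by
    have : ∀ y : S, orderOf y = 2 → ∀ x ∈ M, orderOf x = 2 → IsConj x y := fun y hy x x1 x2 =>
      let ⟨g, hg⟩ := out y hy
      (cj1 x x1 x2 _ hg ((orderOf_conj g y).trans hy)).trans (isConj_iff.2 ⟨g, rfl⟩).symm
    exact fun x y hx hy => (this x hx i i1 i2).symm.trans (this y hy i i1 i2)
  refine ⟨all, fun X I hI I2 hN => ?_⟩
  have hX := syl_of_sylow X
  set Y := (X : Subgroup M).map M.subtype with hY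
  have I3 : orderOf (I : S) = 2 := (orderOf_coe I).trans I2
  have c1 : Y ≤ centralizer {(I : S)} := by
    rw [map_center_subtype] at hI
    rintro _ ⟨x, hx, rfl⟩
    exact mem_centralizer_singleton_iff.2 (congrArg Subtype.val (hI.2 x hx))
  have se : ∀ g : S, g * I * g⁻¹ ∈ M → g ∈ M := fun g hg => by
    have a1 : cj g Y ≤ M := (cj_mono g c1).trans ((cj_centralizer_singleton _ _).le.trans
      (hC _ hg ((orderOf_conj g _).trans I3)))
    obtain ⟨m, a2, a3⟩ := hX.exists_cj_le (isPGroup_cj g hX.isP) a1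
    rw [← cj_mul] at a3
    exact (mul_mem_cancel_left a2).1 (hN (mem_normalizer_of_cj_le a3))
  refine ⟨fun x y hx hy => ?_, ?_⟩
  · have : ∀ x : M, orderOf x = 2 → IsConj I x := fun x hx => by
      obtain ⟨g, hg⟩ := isConj_iff.1 (all I x I3 ((orderOf_coe x).trans hx))
      exact isConj_iff.2 ⟨⟨g, se g (hg ▸ x.2)⟩, Subtype.ext hg⟩
    exact (this x hx).symm.trans (this y hy)
  obtain ⟨k, hk⟩ := out I I3
  set t := k * I * k⁻¹ with ht
  have t2 : orderOf t = 2 := (orderOf_conj k _).trans I3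
  refine ⟨(cj t M).subgroupOf M, ?_, fun m => ?_⟩
  · rw [H1.card_subgroupOf', ← Nat.not_even_iff_odd, even_iff_two_dvd]
    intro h
    obtain ⟨x, x1, x2⟩ := exists_orderOf_eq_of_dvd h
    obtain ⟨g, rfl⟩ := isConj_iff.1 (all I x I3 x2)
    have := se (t⁻¹ * g) (by
      have := mem_cj.1 x1.1
      convert this using 1
      group)
    exact hk (inv_mem_iff.1 ((mul_mem_cancel_right (se g x1.2)).1 this))
  have a1 : orderOf ((m : S) * I * (m : S)⁻¹) = 2 := (orderOf_conj _ _).trans I3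
  have a2 : orderOf (t * I * t⁻¹) = 2 := (orderOf_conj _ _).trans I3
  have a3 := mul_mem (mul_mem m.2 I.2) (inv_mem m.2)
  obtain ⟨u, u1, u2⟩ := H1.pair_odd (H1.two_sq a1) (H1.two_sq a2) (odd _ a3 a1 _ (fun h => hk (se t h)) a2)
  have u3 := H1.pair_inverts (H1.two_sq a1) (H1.two_sq a2) u1
  set x := (m : S) * I * (m : S)⁻¹ with hx
  have e : (x⁻¹ * u⁻¹ * t) * I * (x⁻¹ * u⁻¹ * t)⁻¹ = x := by
    calc _ = x⁻¹ * u⁻¹ * (t * I * t⁻¹) * u * x := by group
      _ = _ := by rw [← u2]; group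
  have d1 := se _ (e ▸ a3)
  refine ⟨⟨_, d1⟩, ?_, ⟨_, d1⟩⁻¹ * m, mem_centralizer_singleton_iff.2 (Subtype.ext ?_), by group⟩
  · change x⁻¹ * u⁻¹ * t ∈ cj t M
    rw [mem_cj]
    convert inv_mem d1 using 1
    have : x⁻¹ * u⁻¹ = u * x := by rw [← u3, H1.two_inv a1]; calc x * (x * u * x) = (x * x) * u * x := by group
      _ = _ := by rw [H1.two_sq a1, one_mul]
    calc t⁻¹ * (x⁻¹ * u⁻¹ * t) * t = t⁻¹ * (x⁻¹ * u⁻¹) * (t * t) := by group
      _ = _ := by rw [H1.two_sq t2]; nth_rw 1 [this]; group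
  · change (x⁻¹ * u⁻¹ * t)⁻¹ * m * I = I * ((x⁻¹ * u⁻¹ * t)⁻¹ * m)
    generalize x⁻¹ * u⁻¹ * t = d at e
    calc _ = d⁻¹ * x * m := by rw [hx]; group
      _ = _ := by rw [← e]; group

end Cfsg.Agent.S1905
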