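import Cfsg.Statements.S1906
import Cfsg.Agent.H3.R19
import Cfsg.Agent.H9.LE1
import Cfsg.Agent.H1.DI

set_option autoImplicit false
open Cfsg

namespace Cfsg.Agent.S1906

open H3 Subgroup
open scoped commutatorElement

/-- Let G be a finite group with no subgroup of index 2 whose Sylow 2-subgroup X embeds in GL₃(F) for a finite field F of odd order. If X contains an elementary abelian subgroup of order 8, then X is abelian. -/
theorem result {G : Type*} [Group G] [Finite G] (hG : ∀ H : Subgroup G, H.index ≠ 2) (X : Sylow 2 G)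
    {F : Type*} [Field F] [Fintype F] (hF : Odd (Fintype.card F))
    (f : ↥(X : Subgroup G) →* GL (Fin 3) F) (hf : Function.Injective f)
    (E : Subgroup G) (hE : E ≤ (X : Subgroup G)) (hEa : Cfsg.IsElementaryAbelian 2 E) (hE8 : Nat.card E = 8) :
    IsMulCommutative (X : Subgroup G) := by
  classical
  have h2 : (2 : F) ≠ 0 := Ring.two_ne_zero fun e => by
    have := FiniteField.even_card_of_char_two e
    obtain ⟨k, hk⟩ := hF
    omega
  obtain ⟨φ, hφ⟩ : ∃ φ : (X : Subgroup G) →* Matrix (Fin 3) (Fin 3) F, Function.Injective φ :=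
    ⟨(Units.coeHom _).comp f, Units.val_injective.comp hf⟩
  have sg : ∀ x : (X : Subgroup G), x * x = 1 → (φ x).det = 1 ∨ (φ x).det = -1 := fun x h =>
    mul_self_eq_one_iff.1 (by rw [← Matrix.det_mul, ← map_mul, h, map_one, Matrix.det_one])
  obtain ⟨y, hy⟩ : ∃ y, φ y = -1 := by
    by_contra! n
    let ι := inclusion hE
    have q : ∀ e : E, e * e = 1 := fun e => Subtype.ext (by simpa [sq] using hEa.2 e e.2)
    have q' : ∀ e : E, ι e * ι e = 1 := fun e => by rw [← map_mul, q, map_one]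
    let s : E →* Matrix (Fin 3) (Fin 3) F :=
      { toFun := fun e => (φ (ι e)).det • φ (ι e)
        map_one' := by simp
        map_mul' := fun a b => by simp [smul_smul, mul_comm] }
    have s1 : Function.Injective s := (injective_iff_map_eq_one s).2 fun e h => by
      change (φ (ι e)).det • φ (ι e) = 1 at h
      rcases sg _ (q' e) with k | k <;> rw [k] at h
      · exact inclusion_injective hE (hφ (by simpa using h))
      · exact absurd (neg_eq_iff_eq_neg.1 (by simpa using h)) (n _)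
    have s2 : ∀ e, (s e).det = 1 := fun e => by
      change ((φ (ι e)).det • φ (ι e)).det = 1
      rw [Matrix.det_smul]
      rcases sg _ (q' e) with k | k <;> rw [k] <;> norm_num
    have s3 : ∀ e, s e * s e = 1 := fun e => by rw [← map_mul, q, map_one]
    have s4 : ∀ a b, s a * s b = s b * s a := fun a b => by rw [← map_mul, hEa.1.1.1 a b, map_mul]
    have ex : ∀ t : Finset E, t.card ≤ 4 → ∃ x, x ∉ t := fun t h => by
      by_contra! c
      haveI := Fintype.ofFinite E
      rw [Finset.eq_univ_iff_forall.2 c, Finset.card_univ, ← Nat.card_eq_fintype_card] at h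
      omega
    obtain ⟨a, ha⟩ := ex {1} (by simp)
    obtain ⟨b, hb⟩ := ex {1, a} (Finset.card_le_two.trans (by norm_num))
    obtain ⟨c, hc⟩ := ex {1, a, b, a * b} Finset.card_le_four
    simp only [Finset.mem_insert, Finset.mem_singleton, not_or] at ha hb hc
    have := Four.mem (a := s a) (b := s b) ⟨h2, s3 a, s3 b, s2 a, s2 b, fun e => ha (s1 (e.trans s.map_one.symm)),
      fun e => hb.1 (s1 (e.trans s.map_one.symm)), fun e => hb.2 (s1 e).symm, s4 a b⟩ (s4 c a) (s4 c b) (s3 c) (s2 c)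
    rw [← map_mul, ← s.map_one] at this
    simp only [s1.eq_iff] at this
    tauto
  by_contra na
  obtain ⟨T, hT⟩ : ∃ T, T = ((Matrix.detMonoidHom.comp φ).ker).map (X : Subgroup G).subtype := ⟨_, rfl⟩
  have t1 : ∀ x : (X : Subgroup G), (x : G) ∈ T ↔ (φ x).det = 1 := fun x => by
    rw [hT]; exact mem_map_iff_mem (X : Subgroup G).subtype_injective
  have t2 : T ≤ X := hT ▸ map_subtype_le _
  have t3 : ⁅(X : Subgroup G), (X : Subgroup G)⁆ ≤ T := commutator_le.2 fun a ha b hb => (t1 ⁅(⟨a, ha⟩ : (X : Subgroup G)), ⟨b, hb⟩⁆).2 (by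
    have : ∀ u : (X : Subgroup G), (φ u).det * (φ u⁻¹).det = 1 := fun u => by rw [← Matrix.det_mul, ← map_mul, mul_inv_cancel, map_one, Matrix.det_one]
    simp only [commutatorElement_def, map_mul, Matrix.det_mul]
    linear_combination ((φ ⟨b, hb⟩).det * (φ ⟨b, hb⟩⁻¹).det) * this ⟨a, ha⟩ + this ⟨b, hb⟩)
  have y1 : y * y = 1 := hφ (by simp [hy])
  have y2 : (y : G) * y = 1 := congrArg Subtype.val y1
  have y3 : (y : G) ∉ T := fun e => r19_neg h2 Matrix.det_one (hy ▸ (t1 y).1 e)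
  have y4 : (X : Subgroup G) ≤ centralizer {(y : G)} := fun x hx => mem_centralizer_singleton_iff.2
    (congrArg Subtype.val (hφ (show φ (⟨x, hx⟩ * y) = φ (y * ⟨x, hx⟩) by simp [hy])))
  have cj2 : ∀ g : G, g * y * g⁻¹ * (g * y * g⁻¹) = 1 := fun g => by
    rw [show g * y * g⁻¹ * (g * y * g⁻¹) = g * (y * y) * g⁻¹ by group, y2]; group
  obtain ⟨g, g1, g2⟩ := H9.thompson_extremal (H9.syl_top_of_sylow X) t2 t3 y2 y.2 y3 (fun g c1 c2 =>
    (t1 (⟨_, c1⟩ * y)).2 (by
      rw [map_mul, Matrix.det_mul, (sg ⟨_, c1⟩ (Subtype.ext (cj2 g))).resolve_left fun e => c2 ((t1 ⟨_, c1⟩).2 e),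
        (sg y y1).resolve_left fun e => y3 ((t1 y).2 e)]; norm_num))
    (mem_sup_left ((H1.le_pResidual_of_no_index hG).ge (mem_top _))) X.isPGroup' y4
  have g3 : H9.cj g X = X := eq_of_le_of_card_ge g2 (H9.card_cj g _).ge
  have g4 : ∀ x ∈ (X : Subgroup G), g⁻¹ * x * g ∈ (X : Subgroup G) := fun x hx => H9.mem_cj.1 (g3.ge hx)
  have g5 : g * y * g⁻¹ ∉ ⁅(X : Subgroup G), (X : Subgroup G)⁆ := fun e => by
    have k : H9.cj g ⁅(X : Subgroup G), (X : Subgroup G)⁆ = ⁅(X : Subgroup G), (X : Subgroup G)⁆ := by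
      rw [H9.cj_def, map_commutator, ← H9.cj_def, g3]
    exact y3 (t3 (by simpa [mul_assoc] using H9.mem_cj.1 (k.ge e)))
  have c1 : ⁅(X : Subgroup G), (X : Subgroup G)⁆ ≤ X := commutator_le.2 fun a ha b hb =>
    mul_mem (mul_mem (mul_mem ha hb) (inv_mem ha)) (inv_mem hb)
  have c2 := H1.inf_centralizer_ne_bot_of_isPGroup (X.isPGroup'.to_le c1) X.isPGroup' (normalizer_commutator_ge_left _ _)
    fun e => na (le_centralizer_iff_isMulCommutative.1 (commutator_eq_bot_iff_le_centralizer.1 e))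
  obtain ⟨⟨z, z1, z2⟩, hz⟩ := exists_prime_orderOf_dvd_card' 2 (((X.isPGroup'.to_le c1).to_inf_left.card_eq_or_dvd).resolve_left
    (mt card_eq_one.1 c2))
  replace hz : orderOf z = 2 := (orderOf_coe _).trans hz
  have four : Four (φ ⟨z, c1 z1⟩) (φ ⟨_, t2 g1⟩) := ⟨h2, by
      rw [← map_mul, ← φ.map_one]; exact congrArg φ (Subtype.ext (by simpa [sq, hz] using pow_orderOf_eq_one z)),
    by rw [← map_mul, ← φ.map_one]; exact congrArg φ (Subtype.ext (cj2 g)), (t1 _).1 (t3 z1), (t1 _).1 g1,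
    fun e => by rw [show z = 1 from congrArg Subtype.val (hφ (e.trans φ.map_one.symm)), orderOf_one] at hz; omega,
    fun e => g5 (by rw [show g * y * g⁻¹ = 1 from congrArg Subtype.val (hφ (e.trans φ.map_one.symm))]; exact one_mem _),
    fun e => g5 ((show z = g * y * g⁻¹ from congrArg Subtype.val (hφ e)) ▸ z1),
    by rw [← map_mul, ← map_mul]; exact congrArg φ (Subtype.ext (z2 _ (t2 g1)).symm)⟩
  have k1 : ∀ x : (X : Subgroup G), φ x * φ ⟨z, c1 z1⟩ = φ ⟨z, c1 z1⟩ * φ x := fun x => by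
    rw [← map_mul, ← map_mul]; exact congrArg φ (Subtype.ext (z2 _ x.2))
  have k2 : ∀ x : (X : Subgroup G), φ x * φ ⟨_, t2 g1⟩ = φ ⟨_, t2 g1⟩ * φ x := fun x => by
    rw [← map_mul, ← map_mul]
    refine congrArg φ (Subtype.ext ?_)
    have := mem_centralizer_singleton_iff.1 (y4 (g4 _ x.2))
    calc (x : G) * (g * y * g⁻¹) = g * (g⁻¹ * x * g * y) * g⁻¹ := by group
      _ = g * y * g⁻¹ * x := by rw [this]; group
  exact na ⟨⟨fun a b => hφ (by rw [map_mul, map_mul]; exact four.comm (k1 a) (k2 a) (k1 b) (k2 b))⟩⟩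

end Cfsg.Agent.S1906
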