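import Cfsg.Statements.S1908
import Cfsg.Agent.H1.PiSep

set_option autoImplicit false
open Cfsg

namespace Cfsg.Agent.S1908

open H1

/-- Let π be a set of primes and G a finite π-separable group: G has a chain of normal subgroups from 1 to G in which each successive index is divisible only by primes in π or only by primes outside π. Then G has a Hall π-subgroup, any two Hall π-subgroups of G are conjugate, and every subgroup of G whose order is divisible only by primes in π lies in some Hall π-subgroup. -/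
theorem result {G : Type*} [Group G] [Finite G] (π : Set ℕ)
    (hsep : ∃ (n : ℕ) (H : Fin (n + 1) → Subgroup G), H 0 = ⊥ ∧ H (Fin.last n) = ⊤ ∧ Monotone H ∧ (∀ i, (H i).Normal) ∧
      ∀ i : Fin n, (∀ q : ℕ, q.Prime → q ∣ (H i.castSucc).relIndex (H i.succ) → q ∈ π) ∨
        (∀ q : ℕ, q.Prime → q ∣ (H i.castSucc).relIndex (H i.succ) → q ∉ π)) :
    (∃ K : Subgroup G, Cfsg.IsPiHall π K) ∧
      (∀ K L : Subgroup G, Cfsg.IsPiHall π K → Cfsg.IsPiHall π L → ∃ g : G, L = K.map (MulAut.conj g).toMonoidHom) ∧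
      ∀ U : Subgroup G, (∀ q : ℕ, q.Prime → q ∣ Nat.card U → q ∈ π) → ∃ K : Subgroup G, Cfsg.IsPiHall π K ∧ U ≤ K := by
  obtain ⟨n, H, h0, hn, -, hnorm, hidx⟩ := hsep
  have h : PiSep π G := piSep_of_series H h0 hn hnorm hidx
  refine ⟨?_, fun K L hK hL => ?_, fun U hU => h.exists_piHall_ge hU⟩
  · obtain ⟨K, hK, -⟩ := h.exists_hall
    exact ⟨K, hK⟩
  · obtain ⟨g, hg⟩ := h.piHall_conj hK hL
    exact ⟨g, hg.symm⟩

end Cfsg.Agent.S1908
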