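import Cfsg.Statements.S1924
import Cfsg.Agent.H1.MC2
import Cfsg.Agent.H1.Invol

set_option autoImplicit false
open Cfsg

namespace Cfsg.Agent.S1924

open Subgroup H1 Equiv
open scoped Pointwise

theorem sign_semireg {X : Type*} [Fintype X] [DecidableEq X] (σ : Perm X) {k m : ℕ} (h1 : σ ^ 2 ^ (k + 1) = 1)
    (h2 : ∀ x, (σ ^ 2 ^ k) x ≠ x) (hc : Fintype.card X = 2 ^ (k + 1) * m) (hm : Odd m) : Perm.sign σ = -1 := by
  have h3 : ∀ n ∈ σ.cycleType, n = 2 ^ (k + 1) := fun n hn => by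
    obtain ⟨j, hj, rfl⟩ := (Nat.dvd_prime_pow Nat.prime_two).1 ((Perm.dvd_of_mem_cycleType hn).trans (orderOf_dvd_of_pow_eq_one h1))
    obtain ⟨c, τ, rfl, hd, hc, e⟩ := Perm.mem_cycleType_iff.1 hn
    by_contra h
    obtain ⟨x, hx, -⟩ := id hc
    refine h2 x ?_
    have : c ^ 2 ^ k = 1 := orderOf_dvd_iff_pow_eq_one.1 (by
      rw [hc.orderOf, e]; exact pow_dvd_pow 2 (by have : j ≠ k + 1 := fun e => h (by rw [e]); omega))
    rw [hd.commute.mul_pow, this, one_mul, Perm.pow_apply_eq_self_of_apply_eq_self ((hd x).resolve_left hx)]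
  have h4 : σ.support = Finset.univ := Finset.eq_univ_of_forall fun x => Perm.mem_support.2 fun e =>
    h2 x (Perm.pow_apply_eq_self_of_apply_eq_self e _)
  have h5 := σ.sum_cycleType
  rw [h4, Finset.card_univ, hc, Multiset.eq_replicate_card.2 h3, Multiset.sum_replicate, smul_eq_mul, mul_comm,
    Nat.mul_right_inj (by positivity)] at h5
  rw [Perm.sign_of_cycleType, σ.sum_cycleType, h4, Finset.card_univ, hc, h5]
  exact Odd.neg_one_pow (Even.add_odd ((even_two.pow_of_ne_zero k.succ_ne_zero).mul_right _) hm)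

theorem not_mem_res {G : Type*} [Group G] [Finite G] {H : Subgroup G} {c : G} {k m : ℕ} (h1 : c ^ 2 ^ (k + 1) = 1)
    (h2 : ∀ g : G, g * c ^ 2 ^ k * g⁻¹ ∉ H) (hc : H.index = 2 ^ (k + 1) * m) (hm : Odd m) : c ∉ pResidual 2 G := fun h => by
  classical
  haveI := Fintype.ofFinite (G ⧸ H)
  have := H2.pResidual_le_ker (n := 2) (IsPGroup.of_card (n := 1) (by simp)) (Perm.sign.comp (MulAction.toPermHom G (G ⧸ H))) h
  rw [MonoidHom.mem_ker, MonoidHom.comp_apply, sign_semireg _ (k := k) (by rw [← map_pow, h1, map_one]) (fun x e => ?_)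
    (by rw [← hc, index_eq_card, Nat.card_eq_fintype_card]) hm] at this
  · exact absurd this (by decide)
  · obtain ⟨g, rfl⟩ := QuotientGroup.mk_surjective x
    rw [← map_pow, MulAction.toPermHom_apply, MulAction.toPerm_apply, MulAction.Quotient.smul_coe, eq_comm, QuotientGroup.eq] at e
    exact h2 g⁻¹ (by simpa [mul_assoc] using e)

/-- A consequence of Thompson's transfer lemma. Let G be a finite group, L a subgroup with O²(L) = L, T a Sylow 2-subgroup of L and S a Sylow 2-subgroup of G containing T. Suppose D ≤ S is a dihedral subgroup of order at least 4 (the four-group counts) with D ∩ T = 1 and S = TD as a set of products (so |S| = |T|·|D|), and C ≤ D is cyclic of index 2 in D. If no involution of D outside C is G-conjugate to an involution of the subgroup generated by T and C, and the involution of C is not G-conjugate to any involution of T, then G has a normal subgroup K, containing every Sylow 2-subgroup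 of L as a Sylow 2-subgroup, with G = KD. -/
theorem result {G : Type*} [Group G] [Finite G] (L T S D C : Subgroup G) (hL : Cfsg.pResidual 2 ↥L = ⊤)
    (hTL : T ≤ L) (hT2 : IsPGroup 2 T) (hTsyl : ¬ 2 ∣ T.relIndex L)
    (hS2 : IsPGroup 2 S) (hSsyl : ¬ 2 ∣ S.index) (hTS : T ≤ S)
    (hDS : D ≤ S) (hDih : ∃ n : ℕ, 2 ≤ n ∧ Nonempty (↥D ≃* DihedralGroup n)) (hDT : D ⊓ T = ⊥) (hTD : T ⊔ D = S) (hTDc : Nat.card T * Nat.card D = Nat.card S)
    (hCD : C ≤ D) (hC : IsCyclic ↥C) (hCi : C.relIndex D = 2)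
    (h1 : ∀ x ∈ D, x ∉ C → orderOf x = 2 → ∀ g : G, g * x * g⁻¹ ∈ T ⊔ C → False)
    (h2 : ∀ c ∈ C, orderOf c = 2 → ∀ g : G, g * c * g⁻¹ ∈ T → False) :
    ∃ K : Subgroup G, K.Normal ∧ K ⊔ D = ⊤ ∧
      ∀ T' : Subgroup G, T' ≤ L → IsPGroup 2 T' → ¬ 2 ∣ T'.relIndex L → T' ≤ K ∧ ¬ 2 ∣ T'.relIndex K := by
  set K := pResidual 2 G
  have LK : L ≤ K := fun x hx => H2.map_pResidual_le 2 L.subtype ⟨⟨x, hx⟩, hL.ge (mem_top _), rfl⟩
  have sS : IsSylowIn 2 S ⊤ := ⟨le_top, hS2, by rwa [relIndex_top_right]⟩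
  have sT : IsSylowIn 2 T L := ⟨hTL, hT2, hTsyl⟩
  have oS : Odd S.index := Nat.odd_iff.2 (Nat.two_dvd_ne_zero.1 hSsyl)
  have inj : ∀ E ≤ D, ∀ M, ∀ (h1 : T ≤ M) (h2 : E ≤ M), Function.Injective
      fun t : T × E => (⟨t.1 * t.2, mul_mem (h1 t.1.2) (h2 t.2.2)⟩ : M) := fun E hE M h1 h2 => by
    rintro ⟨a, b⟩ ⟨a', b'⟩ e
    have e1 : (a : G) * b = a' * b' := congr(($e : G))
    have e2 : (a' : G)⁻¹ * a = b' * (b : G)⁻¹ := by rw [inv_mul_eq_iff_eq_mul, ← mul_assoc, ← e1, mul_inv_cancel_right]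
    have e3 : (a' : G)⁻¹ * a = 1 := mem_bot.1 (hDT.le ⟨e2 ▸ Subgroup.mul_mem _ (hE b'.2) (Subgroup.inv_mem _ (hE b.2)),
      Subgroup.mul_mem _ (Subgroup.inv_mem _ a'.2) a.2⟩)
    exact Prod.ext (Subtype.ext (inv_mul_eq_one.1 e3).symm) (Subtype.ext (mul_inv_eq_one.1 (e2 ▸ e3)).symm)
  have fac : ∀ E ≤ D, ∀ M, T ≤ M → E ≤ M → Nat.card T * Nat.card E ≤ Nat.card M := fun E hE M h1 h2 => by
    rw [← Nat.card_prod]
    exact Nat.card_le_card_of_injective _ (inj E hE M h1 h2)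
  have cC := card_mul_relIndex hCD
  rw [hCi] at cC
  have sq : ∀ x ∈ D, x ∉ C → orderOf x = 2 := fun x hx h => by
    obtain ⟨n, hn, ⟨e⟩⟩ := hDih
    have a1 : ∀ (z : D) j, e z = .sr j → orderOf (z : G) = 2 := fun z j h => by
      rw [orderOf_coe, ← e.orderOf_eq, h, DihedralGroup.orderOf_sr]
    rcases he : e ⟨x, hx⟩ with i | i
    swap; · exact a1 _ _ he
    by_contra h0
    obtain ⟨s, j, s1, s2⟩ : ∃ (s : D) (j : ZMod n), e s = .sr j ∧ (s : G) ∈ C := by
      by_cases h3 : ((e.symm (.sr 0) : D) : G) ∈ C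
      · exact ⟨_, 0, e.apply_symm_apply _, h3⟩
      · exact ⟨e.symm (.sr 0) * ⟨x, hx⟩, _, by rw [map_mul, e.apply_symm_apply, he]; rfl,
          (mul_mem_iff_of_index_two (H := C.subgroupOf D) hCi).2 (iff_of_false h3 h)⟩
    have a2 : (s : G) * x * (s : G)⁻¹ = x⁻¹ := congrArg Subtype.val (e.injective (a₁ := s * ⟨x, hx⟩ * s⁻¹) (a₂ := ⟨x, hx⟩⁻¹) (by
      simp [s1, he]))
    have a3 : x * x ∈ C := (mul_mem_iff_of_index_two (H := C.subgroupOf D) hCi (a := ⟨x, hx⟩) (b := ⟨x, hx⟩)).2 Iff.rfl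
    have a4 : x * x ≠ 1 := fun e => h0 (two_of e fun e => h (e ▸ one_mem _))
    obtain ⟨c, -, rfl⟩ := exists_eq_zpowers_of_isCyclic hC
    have a5 : (s : G) * (x * x) = x * x * s := le_centralizer_iff_isMulCommutative.2 inferInstance a3 _ s2
    have a6 : x * x * (x * x) = 1 := by
      have : (s : G) * (x * x) * (s : G)⁻¹ = x⁻¹ * x⁻¹ := by rw [← a2]; group
      rw [a5, mul_inv_cancel_right] at this
      nth_rw 1 [this]; group
    rw [← two_eq_of_mem_zpowers a3 s2 (two_of a6 a4) (a1 _ _ s1)] at a2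
    exact a4 (by rw [← eq_inv_iff_mul_eq_one, ← a2]; group)
  obtain ⟨x₀, x1, x2⟩ : ∃ x ∈ D, x ∉ C := by
    by_contra! h
    rw [relIndex_eq_one.2 h] at hCi; omega
  have i2 : (T ⊔ C).relIndex S = 2 := by
    have a1 := card_mul_relIndex (sup_le hTS (hCD.trans hDS))
    have a2 := fac C hCD _ le_sup_left le_sup_right
    have a3 : (T ⊔ C).relIndex S ≠ 1 := fun e => h1 x₀ x1 x2 (sq _ x1 x2) 1 (by simpa using relIndex_eq_one.1 e (hDS x1))
    have a4 : 0 < Nat.card (T ⊔ C : Subgroup G) := Nat.card_pos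
    have a5 : 0 < Nat.card S := Nat.card_pos
    rw [← hTDc, ← cC] at a1 a5
    generalize (T ⊔ C).relIndex S = r at *
    rcases r with _ | _ | _ | r <;> first | rfl | exact absurd rfl a3 | nlinarith
  have DK : D ⊓ K ≤ C := fun x hx => by
    by_contra h
    exact not_mem_res (k := 0) (H := T ⊔ C) (by rw [← orderOf_dvd_iff_pow_eq_one, sq x hx.1 h]; rfl)
      (fun g => by simpa using h1 x hx.1 h (sq x hx.1 h) g) (by rw [← relIndex_mul_index (sup_le hTS (hCD.trans hDS)), i2]; rfl) oS hx.2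
  have cS : Nat.card (S ⊓ K : Subgroup G) = Nat.card T * Nat.card (D ⊓ K : Subgroup G) := by
    refine le_antisymm ?_ (fac _ inf_le_left _ (le_inf hTS (hTL.trans LK)) (inf_le_inf_right _ hDS))
    rw [← Nat.card_prod]
    refine Nat.card_le_card_of_surjective (fun t => (⟨t.1 * t.2, mul_mem (le_inf hTS (hTL.trans LK) t.1.2)
      (inf_le_inf_right _ hDS t.2.2)⟩ : (S ⊓ K : Subgroup G))) fun x => ?_
    obtain ⟨⟨a, b⟩, e⟩ := ((Nat.bijective_iff_injective_and_card _).2 ⟨inj D le_rfl S hTS hDS, by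
      rw [Nat.card_prod, hTDc]⟩).2 ⟨x, x.2.1⟩
    have e1 : (a : G) * b = x := congr(($e : G))
    exact ⟨(a, ⟨b, b.2, (K.mul_mem_cancel_left (LK (hTL a.2))).1 (e1 ▸ x.2.2)⟩), Subtype.ext e1⟩
  have sK := sS.inf_normal (K := K) le_top le_normalizer_of_normal
  have TK : T ≤ S ⊓ K := le_inf hTS (hTL.trans LK)
  have DK2 : D ⊓ K = ⊥ := by
    by_contra h
    haveI := hC
    obtain ⟨c, hc, e⟩ := exists_eq_zpowers_of_isCyclic (isCyclic_of_le DK)
    obtain ⟨k, hk⟩ := exists_orderOf_eq_pow hS2 (hDS hc.1)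
    rcases k with _ | k
    · exact h (by rw [← e, orderOf_eq_one_iff.1 hk, zpowers_one_eq_bot])
    refine not_mem_res (G := K) (H := T.subgroupOf K) (c := ⟨c, hc.2⟩) (k := k) (Subtype.ext (by
      simp [← hk])) (fun g h => h2 (c ^ 2 ^ k) (pow_mem (DK hc) _) (by
        rw [orderOf_pow_of_dvd (by positivity) (hk ▸ pow_dvd_pow 2 k.le_succ), hk, pow_succ, Nat.mul_div_cancel_left _ (by positivity)]) g h)
      (m := (S ⊓ K).relIndex K) ?_ (Nat.odd_iff.2 (Nat.two_dvd_ne_zero.1 sK.not_dvd))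
      ((le_pResidual_of_no_index no_index_two_pResidual).ge (mem_top _))
    rw [← relIndex, ← relIndex_mul_relIndex _ _ _ TK inf_le_right, ← hk, ← Nat.card_zpowers, e]
    congr 1
    exact Nat.eq_of_mul_eq_mul_left Nat.card_pos ((card_mul_relIndex TK).trans cS)
  rw [DK2, card_bot, mul_one] at cS
  refine ⟨K, inferInstance, ?_, fun T' a1 a2 a3 => ⟨a1.trans LK, (sK.of_card_le a2 (a1.trans LK)
    (cS.trans (sT.card_eq_card ⟨a1, a2, a3⟩)).le).not_dvd⟩⟩
  obtain ⟨P, hP⟩ := sS.exists_sylow_top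
  exact top_le_iff.1 ((H2.pResidual_sup_sylow P).ge.trans (sup_le le_sup_left (hP.le.trans (hTD.ge.trans
    (sup_le_sup_right (hTL.trans LK) D)))))

end Cfsg.Agent.S1924
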