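import Cfsg.Statements.S1940
import Cfsg.Agent.H2.T1

set_option autoImplicit false
open Cfsg

namespace Cfsg.Agent.S1940

/-- Let the finite group L act by automorphisms on the finite abelian group M, and let N be an L-invariant subgroup of M such that M/N is a p-group on which L acts trivially (every l • m lies in the coset mN). If every element of M is a product of an element of N and an element fixed by a Sylow p-subgroup T of L, then every element of M is a product of an element of N and an element fixed by all of L. -/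
theorem result {L : Type*} [Group L] [Finite L] {M : Type*} [CommGroup M] [Finite M] [MulDistribMulAction L M]
    {p : ℕ} [Fact p.Prime] (N : Subgroup M) (hN : ∀ (l : L) (m : M), m ∈ N → l • m ∈ N)
    (hquot : IsPGroup p (M ⧸ N)) (htriv : ∀ (l : L) (m : M), (l • m) * m⁻¹ ∈ N) (T : Sylow p L)
    (hT : ∀ m : M, ∃ n ∈ N, ∃ c : M, (∀ t ∈ (T : Subgroup L), t • c = c) ∧ m = n * c) :
    ∀ m : M, ∃ n ∈ N, ∃ c : M, (∀ l : L, l • c = c) ∧ m = n * c := by
  intro m
  obtain ⟨n, h1, c, h2, rfl⟩ := hT m
  obtain ⟨τ, a1, a2⟩ := H2T.avg (MulDistribMulAction.toMulAut L M) (T : Subgroup L)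
  obtain ⟨k, hk⟩ := H2.exists_pow_inv (Z := (⊤ : Subgroup (M ⧸ N))) (hquot.to_subgroup _) T.not_dvd_index
  refine ⟨n * (c * (τ c ^ k)⁻¹), mul_mem h1 ?_, τ c ^ k, fun l => ?_, by group⟩
  · have e := (QuotientGroup.eq_one_iff _).2 (a2 N c fun l => htriv l c)
    rw [QuotientGroup.mk_mul, QuotientGroup.mk_inv, mul_inv_eq_one] at e
    rw [← QuotientGroup.eq_one_iff, QuotientGroup.mk_mul, QuotientGroup.mk_inv, mul_inv_eq_one, QuotientGroup.mk_pow, e,
      QuotientGroup.mk_pow, ← pow_mul, hk _ trivial]
  · rw [smul_pow']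
    exact congrArg (· ^ k) (a1 c h2 l)

end Cfsg.Agent.S1940
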