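import Cfsg.Statements.S1941
import Cfsg.Agent.H2.T1

set_option autoImplicit false
open Cfsg

namespace Cfsg.Agent.S1941

open Subgroup H9 in

/-- Let G be a finite group with no nontrivial normal subgroup of order prime to p, T a Sylow p-subgroup of G and E(G) the layer of G (the subgroup generated by its components). An automorphism of G of p-power order that fixes T and E(G) elementwise is inner. -/
theorem result {G : Type*} [Group G] [Finite G] {p : ℕ} [Fact p.Prime] (hcore : Cfsg.pPrimeCore p G = ⊥)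
    (T : Sylow p G) (α : MulAut G) (hα : ∃ j : ℕ, orderOf α = p ^ j) (hfixT : ∀ x ∈ (T : Subgroup G), α x = x)
    (hfixE : ∀ x ∈ Cfsg.layer G, α x = x) : ∃ g : G, ∀ x : G, α x = g * x * g⁻¹ := by
  have hF : ∀ x ∈ Fst (⊤ : Subgroup G), α x = x := fun x hx => by
    have : Fst (⊤ : Subgroup G) ≤ α.toMonoidHom.eqLocus (MonoidHom.id G) := by
      refine sup_le ?_ ?_
      · rw [Lay_top]; exact hfixE
      · rw [Fit_eq_Op_of_Op'_eq_bot ((Op'_top p).trans hcore)]
        exact fun y hy => hfixT y ((syl_top_of_sylow T).Op_le hy)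
    exact this hx
  let Z : Subgroup G := centralizer (Fst (⊤ : Subgroup G) : Set G)
  haveI : (Fst (⊤ : Subgroup G)).Normal := Fst_top (G := G) ▸ gfit_normal
  have z1 : Z ≤ Fst ⊤ := fun z hz => centralizer_Fst_le ⊤ ⟨trivial, hz⟩
  have z2 : Z ≤ centralizer (Z : Set G) := centralizer_le z1
  have z3 : IsPGroup p Z := (Op_p p ⊤).to_le (by
    rw [← Fit_eq_Op_of_Op'_eq_bot ((Op'_top p).trans hcore)]
    exact le_Fit le_top le_normalizer_of_normal (isNilpotent_of_le_centralizer z2))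
  let _ : CommGroup Z := { mul_comm := fun a b => Subtype.ext (z2 b.2 a a.2) }
  have d : ∀ g, α g * g⁻¹ ∈ Z := fun g f hf => by
    have := hF _ (‹(Fst (⊤ : Subgroup G)).Normal›.conj_mem' f hf g)
    rw [map_mul, map_mul, map_inv, hF f hf] at this
    calc f * (α g * g⁻¹) = α g * ((α g)⁻¹ * f * α g) * g⁻¹ := by group
      _ = _ := by rw [this]; group
  let δ : G → Z := fun g => ⟨_, d g⟩
  obtain ⟨k, hk⟩ := H2.exists_pow_inv z3 T.not_dvd_index
  refine ⟨(Nm T δ ^ k : Z), fun x => ?_⟩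
  have e1 := Nm_shift (M := T) (ψ := δ) (fun t m hm => Subtype.ext (by
    change α (t * m) * (t * m)⁻¹ = α t * t⁻¹
    rw [map_mul, hfixT m hm]; group)) x
  have e2 : (fun t => δ (x * t)) = fun t => δ x * (MulAut.conjNormal x).toMonoidHom (δ t) := funext fun t => Subtype.ext (by
    change α (x * t) * (x * t)⁻¹ = α x * x⁻¹ * (x * (α t * t⁻¹) * x⁻¹)
    rw [map_mul]; group)
  rw [e2, Nm_mul, Nm_const, ← Nm_map] at e1
  have e3 := congrArg (fun z : Z => ((z ^ k : Z) : G)) e1
  simp only [mul_pow, ← map_pow, ← pow_mul] at e3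
  change ((δ x : Z) : G) ^ _ * (x * (Nm T δ ^ k : Z) * x⁻¹) = _ at e3
  rw [hk _ (δ x).2] at e3
  change α x * x⁻¹ * _ = _ at e3
  generalize ((Nm T δ ^ k : Z) : G) = b at e3
  calc α x = (α x * x⁻¹ * (x * b * x⁻¹)) * x * b⁻¹ := by group
    _ = _ := by rw [e3]

end Cfsg.Agent.S1941
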