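import Cfsg.Statements.S1945
import Cfsg.Agent.H9.LE3

set_option autoImplicit false
open Cfsg

namespace Cfsg.Agent.S1945

/-- Let S be a Sylow p-subgroup of the finite group G, and assume that p is odd or that G is solvable. The elements of S each of which is its only G-conjugate in S form a subgroup W of Z(S); W is then a direct factor of Z(S): there is a subgroup K of Z(S) with W ∩ K = 1 and WK = Z(S). (For p = 2 and G not solvable this can fail.) -/
theorem result {G : Type*} [Group G] [Finite G] {p : ℕ} [Fact p.Prime] (S : Sylow p G) (h : p ≠ 2 ∨ Group.IsSolvable G) :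
    ∃ W K : Subgroup G, (∀ x : G, x ∈ W ↔ (x ∈ (S : Subgroup G) ∧ ∀ g : G, g * x * g⁻¹ ∈ (S : Subgroup G) → g * x * g⁻¹ = x)) ∧
      K ≤ ((S : Subgroup G) ⊓ Subgroup.centralizer ((S : Subgroup G) : Set G)) ∧ W ⊓ K = ⊥ ∧ W ⊔ K = ((S : Subgroup G) ⊓ Subgroup.centralizer ((S : Subgroup G) : Set G)) := by
  open H9 Subgroup in open scoped commutatorElement in
  have hS := syl_top_of_sylow S
  rcases h with h | h
  · exact wc_factor hS (N := normalizer (JA (S : Subgroup G) : Set G)) (V := Zc (JA (S : Subgroup G)))
      (normalizer_JA le_normalizer) (Zc_comm _) (inf_le_left.trans (JA_le _))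
      (normalizer_Zc le_rfl) (Zc_le_ZA _) fun x hx hx' => weak_JA hS hx hx' (Or.inl h)
  · have hQ := hS.inf_normal le_top (le_normalizer_Opp (p := p) ⊤)
    exact wc_factor_of_le hS (le_trans (le_inf le_top (inf_le_right.trans (centralizer_anti inf_le_left)))
      ((PLay_eq_bot_iff_centralizer hQ).1 (PLay_eq_bot_of_solvable inferInstance)))

end Cfsg.Agent.S1945
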