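import Cfsg.Statements.S1947
import Cfsg.Agent.H2.T1

set_option autoImplicit false
open Cfsg

namespace Cfsg.Agent.S1947

open Subgroup H9 in

/-- Let G be a finite group and p a prime. If every element of G of order dividing p (dividing 4 when p = 2) lies in some fixed term Z_n(G) of the upper central series, then G has a normal p-complement. -/
theorem result {G : Type*} [Group G] [Finite G] {p : ℕ} [Fact p.Prime] (n : ℕ)
    (h : ∀ a : G, (a ^ p = 1 ∨ (p = 2 ∧ a ^ 4 = 1)) → a ∈ Subgroup.upperCentralSeries G n) : Cfsg.HasNormalPComplement p G := by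
  obtain ⟨P⟩ : Nonempty (Sylow p G) := inferInstance
  refine H2T.npc_of_cent P fun Q A h1 h2 h3 => ?_
  have hQ := P.isPGroup'.to_le h1
  have key : ∀ m, Q ⊓ Subgroup.upperCentralSeries G m ≤ centralizer (A : Set G) := fun m => by
    induction m with
    | zero => simp
    | succ m ih =>
      have n1 : A ≤ normalizer ((Q ⊓ Subgroup.upperCentralSeries G (m + 1) : Subgroup G) : Set G) :=
        normalizer_inf h3 le_normalizer_of_normal
      refine cop_le_centralizer n1 (copA_of_p' (hQ.to_le inf_le_left) h2)
        (le_inf ((commutator_le_left' n1).trans inf_le_left) (commutator_le.2 fun x hx y _ => ?_)) ih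
      exact Subgroup.mem_upperCentralSeries_succ_iff.1 hx.2 y
  exact H2T.cent_of_sm h2 hQ h3 fun x hx hs => key n ⟨hx, h x hs⟩

end Cfsg.Agent.S1947
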