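import Cfsg.Statements.S1948
import Cfsg.Agent.H2.T1

set_option autoImplicit false
open Cfsg

namespace Cfsg.Agent.S1948

open Subgroup H9 in

/-- Let S be a Sylow p-subgroup of the finite group G. Then G = N_G(S)·O_{p'}(G) if and only if G is p-constrained and N_G(S) controls fusion in S, in the sense that whenever a subgroup Q of S has a conjugate g Q g⁻¹ inside S, the element g is a product n c with n normalizing S and c centralizing Q. -/
theorem result {G : Type*} [Group G] [Finite G] {p : ℕ} [Fact p.Prime] (S : Sylow p G) :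
    Subgroup.normalizer ((S : Subgroup G) : Set G) ⊔ Cfsg.pPrimeCore p G = ⊤ ↔
      (Cfsg.IsPConstrained p G ∧
        ∀ Q : Subgroup G, Q ≤ (S : Subgroup G) → ∀ g : G, Q.map (MulAut.conj g).toMonoidHom ≤ (S : Subgroup G) →
          ∃ n ∈ Subgroup.normalizer ((S : Subgroup G) : Set G), ∃ c ∈ Subgroup.centralizer (Q : Set G), g = n * c) := by
  have hS := syl_top_of_sylow S
  refine ⟨fun h => ⟨isPConstrained_top_iff.2 (PLay_eq_bot_iff'.2 fun K hK => ?_), fun Q h1 g h2 => ?_⟩, fun ⟨h1, h2⟩ => ?_⟩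
  · have n : ⊤ ≤ normalizer ((Cfsg.pPrimeCore p G ⊔ S : Subgroup G) : Set G) := h.ge.trans (sup_le
      (normalizer_sup le_normalizer_of_normal le_rfl) (le_sup_left.trans le_normalizer))
    have a1 := hK.pqs.eq_of_syl_le ((SN.of_normal le_top n).inf_of_le (X := K) le_top) (hS.inf_sn hK.sn)
      (inf_le_inf le_sup_right le_rfl)
    have a2 := npc_of_le_sup (pPrimeCore_cop p) S.isPGroup' le_normalizer_of_normal (a1.ge.trans inf_le_left)
    refine hK.pqs.not_cop ?_
    rw [← Ores_eq_of_perfect p hK.pqs.perfect, a2.Ores_eq]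
    exact Op'_cop p K
  · obtain ⟨n, a1, d, a2, rfl⟩ := mem_sup_of_normal_right.1 (h.ge (mem_top g))
    refine ⟨n, a1, d, fun x hx => ?_, rfl⟩
    have a3 : d * x * d⁻¹ * x⁻¹ ∈ (S : Subgroup G) ⊓ Cfsg.pPrimeCore p G := mem_inf.2 ⟨mul_mem (by
      have := conj_mem_of_le_normalizer' le_rfl a1 (h2 (conj_mem_cj (g := n * d) hx))
      convert this using 1
      group) (inv_mem (h1 hx)), by
      rw [mul_assoc, mul_assoc, ← mul_assoc x]
      exact (Cfsg.pPrimeCore p G).mul_mem a2 ((inferInstance : (Cfsg.pPrimeCore p G).Normal).conj_mem _ (inv_mem a2) x)⟩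
    rw [inf_eq_bot_of_p_p' S.isPGroup' (pPrimeCore_cop p), mem_bot, mul_inv_eq_one, mul_inv_eq_iff_eq_mul] at a3
    exact a3.symm
  · refine eq_top_iff.2 fun g _ => ?_
    obtain ⟨n, a1, d, a2, rfl⟩ := H2T.opp_frattini hS g
    refine mul_mem ?_ (mem_sup_right a2)
    obtain ⟨m, a3, c, a4, rfl⟩ := h2 _ inf_le_left n ((mem_normalizer_iff_cj.1 a1).le.trans inf_le_left)
    have b1 := hS.inf_normal (N := Opp p ⊤) le_top (le_normalizer_Opp p ⊤)
    have b2 := (PLay_eq_bot_iff_centralizer b1).1 (isPConstrained_top_iff.1 h1) ⟨mem_top c, Opp_top (G := G) (p := p) ▸ a4⟩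
    rw [← Opp_eq_sup b1, Op'_top] at b2
    exact mul_mem (mem_sup_left a3) (sup_le le_sup_right (le_sup_of_le_left (inf_le_left.trans le_normalizer)) b2)

end Cfsg.Agent.S1948
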