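import Cfsg.Statements.S1949
import Cfsg.Agent.H1.Section
import Cfsg.Agent.L.PG2
import Cfsg.Agent.H9.Sec
import Cfsg.Agent.H9.MS1

set_option autoImplicit false
open Cfsg

namespace Cfsg.Agent.S1949

open scoped commutatorElement
open H1
open Subgroup H9 L
open scoped commutatorElement

theorem exists_Y {Γ : Type*} [Group Γ] [Finite Γ] (p : ℕ) (P Z : Subgroup Γ) [P.Normal] [Z.Normal] :
    ∃ Y : Subgroup Γ, Y.Normal ∧ ∀ x, x ∈ Y ↔ x ∈ P ∧ (∀ g ∈ P, ⁅x, g⁆ ∈ Z) ∧ x ^ p ∈ Z := by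
  set f := QuotientGroup.mk' Z
  have fz : ∀ x, f x = 1 ↔ x ∈ Z := fun x => QuotientGroup.eq_one_iff x
  haveI : (P.map f).Normal := Normal.map inferInstance f (QuotientGroup.mk'_surjective Z)
  set W := P.map f ⊓ centralizer ((P.map f : Subgroup (Γ ⧸ Z)) : Set (Γ ⧸ Z))
  haveI : (omegaOne p W).Normal := normal_of_top_le (normalizer_omegaOne (top_le_normalizer W))
  refine ⟨P ⊓ (omegaOne p W).comap f, inferInstance, fun x => ⟨fun h => ⟨h.1, fun g hg => ?_, ?_⟩, fun h => ⟨h.1, ?_⟩⟩⟩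
  · rw [← fz, map_commutatorElement, commutatorElement_eq_one_iff_mul_comm]
    exact ((omegaOne_le p W h.2).2 _ ⟨g, hg, rfl⟩).symm
  · rw [← fz, map_pow]
    exact omegaOne_exp_of_comm (H := W) (H1.isMulCommutative_of_comm fun a ha b hb => hb.2 a ha.1) h.2
  · refine mem_omegaOne ⟨⟨x, h.1, rfl⟩, ?_⟩ (by rw [← map_pow, fz]; exact h.2.2)
    rintro _ ⟨g, hg, rfl⟩
    have := (fz _).2 (h.2.1 g hg)
    rw [map_commutatorElement, commutatorElement_eq_one_iff_mul_comm] at this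
    exact this.symm

theorem crit0 {Γ : Type*} [Group Γ] [Finite Γ] {p : ℕ} [Fact p.Prime] {P Q : Subgroup Γ} [P.Normal] [Q.Normal]
    (hP : IsPGroup p P) (hQ : Q ≤ P) : ∃ H : Subgroup Γ, H.Normal ∧ H ≤ Q ∧
      (∀ x ∈ H, (∀ g ∈ P, ⁅x, g⁆ ∈ H ⊓ centralizer (H : Set Γ)) ∧ x ^ p ∈ H ⊓ centralizer (H : Set Γ)) ∧
      Q ⊓ centralizer (H : Set Γ) ≤ H := by
  obtain ⟨H, -, ⟨h1, h0, h2⟩, hmax⟩ := Finite.exists_le_maximal (a := (⊥ : Subgroup Γ))
    (p := fun H : Subgroup Γ => H.Normal ∧ H ≤ Q ∧ ∀ x ∈ H,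
      (∀ g ∈ P, ⁅x, g⁆ ∈ H ⊓ centralizer (H : Set Γ)) ∧ x ^ p ∈ H ⊓ centralizer (H : Set Γ))
    ⟨inferInstance, bot_le, fun x hx => by rw [mem_bot.1 hx]; simp⟩
  refine ⟨H, h1, h0, h2, ?_⟩
  by_contra hne
  set Z := H ⊓ centralizer (H : Set Γ)
  obtain ⟨x, hx, hxZ, h3, h4⟩ := exists_central_mod_pow (L := P) (N := Z)
    (C := Q ⊓ centralizer (H : Set Γ)) hP
    (lt_of_le_of_ne (inf_le_inf_right _ h0) fun h => hne (h ▸ inf_le_left)) (inf_le_left.trans hQ)
    le_normalizer_of_normal le_normalizer_of_normal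
  obtain ⟨Y, hYn, hYm⟩ := exists_Y p P Z
  let X := (Q ⊓ centralizer (H : Set Γ)) ⊓ Y
  have hY : H ⊔ X ≤ Y := sup_le (fun y hy => (hYm y).2 ⟨hQ (h0 hy), h2 y hy⟩) inf_le_right
  have hZ : Z ≤ (H ⊔ X) ⊓ centralizer ((H ⊔ X : Subgroup Γ) : Set Γ) := by
    refine le_inf (inf_le_left.trans le_sup_left) ?_
    rw [H9.centralizer_sup]
    exact le_inf inf_le_right (inf_le_left.trans (le_centralizer_iff.1 (inf_le_left.trans inf_le_right)))
  have := hmax (y := H ⊔ X) ⟨inferInstance, sup_le h0 (inf_le_left.trans inf_le_left), fun y hy =>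
    ⟨fun g hg => hZ (((hYm y).1 (hY hy)).2.1 g hg), hZ ((hYm y).1 (hY hy)).2.2⟩⟩ le_sup_left
  exact hxZ ⟨this (mem_sup_right ⟨hx, (hYm x).2 ⟨hQ hx.1, h4, h3⟩⟩), hx.2⟩

theorem crit1 {Γ : Type*} [Group Γ] [Finite Γ] {p : ℕ} [hp : Fact p.Prime] {P Q : Subgroup Γ} [P.Normal]
    [Q.Normal] (hP : IsPGroup p P) (hQ : Q ≤ P) : ∃ D : Subgroup Γ, D.Normal ∧ D ≤ Q ∧
      (∀ d ∈ D, d ^ p = 1 ∨ (p = 2 ∧ d ^ 4 = 1)) ∧ ⁅D, P⁆ ≤ D ⊓ centralizer (D : Set Γ) ∧
      ∀ A : Subgroup Γ, (Nat.card A).Coprime p → D ≤ centralizer (A : Set Γ) → Q ≤ centralizer (A : Set Γ) := by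
  obtain ⟨H, h1, h0, h2, h5⟩ := crit0 hP hQ
  have h3 : ⁅H, P⁆ ≤ centralizer (H : Set Γ) := commutator_le.2 fun x hx g hg => ((h2 x hx).1 g hg).2
  have h6 : ⁅⁅H, H⁆, H⁆ = ⊥ := commutator_eq_bot_iff_le_centralizer.2
    ((commutator_mono le_rfl (h0.trans hQ)).trans h3)
  obtain ⟨e, e1, e2, e3⟩ : ∃ e : ℕ, p ∣ e ∧ p ∣ e.choose 2 ∧ (e = p ∨ (p = 2 ∧ e = 4)) := by
    by_cases h : p = 2
    · subst h; exact ⟨4, by decide, by decide, Or.inr ⟨rfl, rfl⟩⟩
    · exact ⟨p, dvd_rfl, dvd_choose_two (hp.out.odd_of_ne_two h), Or.inl rfl⟩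
  haveI : (omegaOne e H).Normal := normal_of_top_le (normalizer_omegaOne (top_le_normalizer H))
  refine ⟨omegaOne e H, inferInstance, (omegaOne_le _ _).trans h0, fun d hd => ?_,
    le_inf (commutator_le_left _ _) ((commutator_mono (omegaOne_le _ _) le_rfl).trans (h3.trans
      (H9.centralizer_anti (omegaOne_le _ _)))), fun A hA h => ?_⟩
  · have : d ^ e = 1 := by
      refine pow_eq_one_of_mem_omegaOne (fun x hx y hy a b => ?_) hd
      rw [mul_pow_of_class2 h6 (fun z hz => ?_) hx hy, a, b, one_mul]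
      obtain ⟨k, hk⟩ := e2
      rw [hk, pow_mul, commutator_pow_eq_one_of_class2 h6 (fun x hx => (h2 x hx).2.2) hz, one_pow]
    rcases e3 with rfl | ⟨a, rfl⟩
    · exact Or.inl this
    · exact Or.inr ⟨a, this⟩
  · exact le_centralizer_of_selfcent hA (hP.to_le hQ) le_normalizer_of_normal h0 h5
      (le_centralizer_of_omega hA e1 e2 H (hP.to_le (h0.trans hQ)) le_normalizer_of_normal
        fun x hx a => h (mem_omegaOne hx a))

/-- Let P be a finite p-group and G a group of automorphisms of P containing the inner automorphisms. Then there is a G-invariant subgroup D of P, contained in the subgroup generated by the elements x⁻¹α(x) with x in P and α in O^p(G), of exponent dividing p when p is odd and dividing 4 when p = 2, with [D, P] ≤ Z(D), such that every automorphism in G of order prime to p that fixes D elementwise is the identity; moreover every maximal abelian subgroup A of D is normal in P and every automorphism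 in G fixing A elementwise has p-power order. -/
theorem result {P : Type*} [Group P] [Finite P] {p : ℕ} [Fact p.Prime] (hP : IsPGroup p P)
    (G : Subgroup (MulAut P)) (hG : Cfsg.Inn P ≤ G) :
    ∃ D : Subgroup P,
      (∀ α ∈ G, D.map α.toMonoidHom = D) ∧
      D ≤ Subgroup.closure {y : P | ∃ α ∈ Cfsg.pResidual p ↥G, ∃ x : P, y = x⁻¹ * (α : MulAut P) x} ∧
      (∀ d ∈ D, d ^ p = 1 ∨ (p = 2 ∧ d ^ 4 = 1)) ∧
      ⁅D, (⊤ : Subgroup P)⁆ ≤ D ⊓ Subgroup.centralizer (D : Set P) ∧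
      (∀ α ∈ G, (orderOf α).Coprime p → (∀ d ∈ D, α d = d) → α = 1) ∧
      ∀ A : Subgroup P, A ≤ D → IsMulCommutative ↥A →
        (∀ B : Subgroup P, A ≤ B → B ≤ D → IsMulCommutative ↥B → B = A) →
        A.Normal ∧ ∀ α ∈ G, (∀ a ∈ A, α a = a) → ∃ k : ℕ, orderOf α = p ^ k := by
  obtain ⟨Γ, _, _, i, j, hi, hj, hc, -, hs, hn⟩ := exists_ambient (K := P) (A := G) G.subtype
  set Q := Subgroup.closure {y : P | ∃ α ∈ Cfsg.pResidual p ↥G, ∃ x : P, y = x⁻¹ * (α : MulAut P) x}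
  have hc' : ∀ (a : G) (k : P), j a * i k * (j a)⁻¹ = i ((a : MulAut P) k) := hc
  have nrm_of : ∀ H : Subgroup P, (∀ α : G, ∀ x ∈ H, (α : MulAut P) x ∈ H) → (H.map i).Normal := by
    intro H h
    have k1 : ∀ a : G, j a ∈ normalizer ((H.map i : Subgroup Γ) : Set Γ) := fun a =>
      mem_normalizer_fintype (by rintro _ ⟨x, hx, rfl⟩; rw [hc']; exact ⟨_, h a x hx, rfl⟩)
    refine normal_of_top_le (hs ▸ sup_le ?_ ?_)
    · rintro _ ⟨a, rfl⟩; exact k1 a
    · rintro _ ⟨g, rfl⟩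
      refine mem_normalizer_fintype ?_
      rintro _ ⟨x, hx, rfl⟩
      exact ⟨_, h ⟨MulAut.conj g, hG ⟨g, rfl⟩⟩ x hx, by simp⟩
  haveI : (pResidual p G).Normal := by
    rw [← Ores_top]; exact normal_of_top_le (le_normalizer_Ores p ⊤)
  haveI qn : (Q.map i).Normal := nrm_of Q fun α x hx => by
    have : Q.map (α : MulAut P).toMonoidHom ≤ Q := by
      rw [MonoidHom.map_closure]
      refine closure_mono ?_
      rintro _ ⟨_, ⟨β, hβ, y, rfl⟩, rfl⟩
      exact ⟨α * β * α⁻¹, Normal.conj_mem inferInstance β hβ α, (α : MulAut P) y, by simp⟩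
    exact this ⟨x, hx, rfl⟩
  have hP' : IsPGroup p i.range := by
    rw [MonoidHom.range_eq_map]; exact (hP.to_subgroup ⊤).map i
  obtain ⟨D, d1, d2, d3, d4, d5⟩ := crit1 hP' (map_le_range i Q)
  have dP : D ≤ i.range := d2.trans (map_le_range i Q)
  have dm : (D.comap i).map i = D := map_comap_eq_self dP
  have inv : ∀ α : G, ∀ x ∈ D.comap i, (α : MulAut P) x ∈ D.comap i := fun α x hx => by
    show i _ ∈ D
    rw [← hc']; exact d1.conj_mem _ hx _
  have cen : ∀ (α : G) (H : Subgroup P), H.map i ≤ centralizer ((zpowers (j α) : Subgroup Γ) : Set Γ) ↔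
      ∀ x ∈ H, (α : MulAut P) x = x := by
    intro α H
    rw [H9.centralizer_zpowers, map_le_iff_le_comap]
    refine forall₂_congr fun x _ => ?_
    rw [mem_comap, mem_centralizer_singleton_iff, ← hi.eq_iff, ← hc', mul_inv_eq_iff_eq_mul, eq_comm]
  have cop : ∀ α : G, (orderOf (α : MulAut P)).Coprime p → (Nat.card (zpowers (j α))).Coprime p := by
    intro α h
    rwa [Nat.card_zpowers, orderOf_injective j hj, ← Subgroup.orderOf_coe]
  have p4 : ⁅D.comap i, (⊤ : Subgroup P)⁆ ≤ D.comap i ⊓ centralizer ((D.comap i : Subgroup P) : Set P) := by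
    refine commutator_le.2 fun x hx g _ => ?_
    have := d4 (commutator_mem_commutator hx ⟨g, rfl⟩ : ⁅i x, i g⁆ ∈ ⁅D, i.range⁆)
    rw [← map_commutatorElement] at this
    refine ⟨this.1, fun y hy => hi ?_⟩
    rw [map_mul, map_mul]; exact this.2 _ hy
  have p5 : ∀ α ∈ G, (orderOf α).Coprime p → (∀ d ∈ D.comap i, α d = d) → α = 1 := by
    intro α hα h1 h2
    have c := cop ⟨α, hα⟩ h1
    have a := d5 _ c (dm ▸ (cen ⟨α, hα⟩ _).2 h2)
    have b : i.range ≤ centralizer ((zpowers (j ⟨α, hα⟩) : Subgroup Γ) : Set Γ) := by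
      refine cop_le_centralizer le_normalizer_of_normal (copA_of_p' hP' c) (commutator_le.2 ?_) a
      rintro _ ⟨x, rfl⟩ y hy
      rw [← MonoidHom.map_zpowers] at hy
      obtain ⟨β, hβ, rfl⟩ := hy
      refine ⟨x⁻¹⁻¹ * (β : MulAut P) x⁻¹, subset_closure ⟨β, ?_, x⁻¹, rfl⟩, ?_⟩
      · refine (zpowers_le.2 ?_) hβ
        exact subset_closure (by rw [Set.mem_setOf_eq, ← Subgroup.orderOf_coe]; exact h1)
      · rw [map_mul, ← hc', inv_inv, map_inv, commutatorElement_def]; group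
    rw [MonoidHom.range_eq_map] at b
    exact MulEquiv.ext fun x => (cen ⟨α, hα⟩ ⊤).1 b x trivial
  refine ⟨D.comap i, fun α hα => ?_, ?_, fun d hd => ?_, p4, p5, fun A hA hAc hm => ⟨?_, fun α hα h => ?_⟩⟩
  · refine le_antisymm ?_ fun x hx => ⟨α⁻¹ x, inv ⟨α⁻¹, inv_mem hα⟩ x hx, by simp⟩
    rintro _ ⟨x, hx, rfl⟩
    exact inv ⟨α, hα⟩ x hx
  · rw [← comap_map_eq_self_of_injective hi Q]; exact comap_mono d2
  · rcases d3 _ hd with h | ⟨h, h'⟩
    · exact Or.inl (hi (by rw [map_pow, h, map_one]))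
    · exact Or.inr ⟨h, hi (by rw [map_pow, h', map_one])⟩
  all_goals
    have sc : D.comap i ⊓ centralizer (A : Set P) ≤ A := fun x hx => by
      rw [← hm (A ⊔ zpowers x) le_sup_left (sup_le hA (zpowers_le.2 hx.1))
        (isMulCommutative_sup_zpowers hAc hx.2)]
      exact mem_sup_right (mem_zpowers x)
  · refine ⟨fun a ha g => ?_⟩
    have := p4 (commutator_mem_commutator (hA ha) (mem_top g))
    have e : g * a * g⁻¹ = ⁅a, g⁆⁻¹ * a := by rw [commutatorElement_def]; group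
    rw [e]
    exact mul_mem (inv_mem (sc ⟨this.1, H9.centralizer_anti hA this.2⟩)) ha
  · obtain ⟨k, m, hm1, hm2⟩ := Nat.exists_eq_pow_mul_and_not_dvd (orderOf_pos α).ne' p (Fact.out : p.Prime).ne_one
    have o : (orderOf (α ^ p ^ k)).Coprime p := by
      rw [orderOf_pow_of_dvd (pow_pos (Fact.out : p.Prime).pos k).ne' (hm2 ▸ Dvd.intro _ rfl), hm2,
        Nat.mul_div_cancel_left _ (pow_pos (Fact.out : p.Prime).pos k)]
      exact cop_iff.2 hm1
    have fx : ∀ n : ℕ, ∀ a ∈ A, (α ^ n) a = a := by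
      intro n a ha
      induction n with
      | zero => rfl
      | succ n ih => rw [pow_succ, MulAut.mul_apply, h a ha, ih]
    have := le_centralizer_of_selfcent (H := A.map i) (cop ⟨α ^ p ^ k, pow_mem hα _⟩ o) (hP'.to_le dP)
      le_normalizer_of_normal (map_le_iff_le_comap.2 hA) (fun y hy => by
        obtain ⟨x, rfl⟩ := dP hy.1
        refine ⟨x, sc ⟨hy.1, fun a ha => hi ?_⟩, rfl⟩
        rw [map_mul, map_mul]; exact hy.2 _ ⟨a, ha, rfl⟩) ((cen _ _).2 (fx _))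
    rw [← dm] at this
    have h1 := p5 _ (pow_mem hα _) o ((cen ⟨α ^ p ^ k, pow_mem hα _⟩ _).1 this)
    obtain ⟨l, -, hl⟩ := (Nat.dvd_prime_pow Fact.out).1 (orderOf_dvd_of_pow_eq_one h1)
    exact ⟨l, hl⟩

end Cfsg.Agent.S1949
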