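import Cfsg.Statements.S1952
import Cfsg.Agent.H2.Fus12
import Cfsg.Agent.L.PG2

set_option autoImplicit false
open Cfsg

namespace Cfsg.Agent.S1952

open Subgroup in

/-- Let P be a finite p-group with a normal elementary abelian subgroup A of index p, and let x ∈ A and y ∈ P with y outside A. If the product of the p conjugates y^(-i) x y^i (i = 0, …, p−1) is not the identity, then the wreath product Z_p ≀ Z_p, realised as a Sylow p-subgroup of the symmetric group of degree p², is a homomorphic image of P. -/
theorem result {P : Type*} [Group P] [Finite P] {p : ℕ} [Fact p.Prime] (hP : IsPGroup p P) (A : Subgroup P) [A.Normal]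
    (hA : Cfsg.IsElementaryAbelian p A) (hidx : A.index = p) (x y : P) (hx : x ∈ A) (hy : y ∉ A)
    (hprod : ((List.range p).map (fun i => (y ^ i)⁻¹ * x * y ^ i)).prod ≠ 1) :
    ∃ (Q : Sylow p (Equiv.Perm (Fin (p ^ 2)))) (f : P →* ↥(Q : Subgroup (Equiv.Perm (Fin (p ^ 2))))), Function.Surjective f := by
  have hu : ∀ i, (y ^ i)⁻¹ * x * y ^ i ∈ A := fun i => ‹A.Normal›.conj_mem' x hx _
  have hm : ∀ l : List ℕ, (l.map (fun i => (y ^ i)⁻¹ * x * y ^ i)).prod ∈ A := fun l =>
    list_prod_mem (by simpa using fun i _ => hu i)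
  obtain ⟨B, _, θ, h1, h2, h3, -⟩ := H2.exists_hom_card_p (S := A) (L := ⊥) (hP.to_subgroup A)
    (L.Phi_le_of (p := p) (commutator_eq_bot_iff_le_centralizer.2 (le_centralizer_iff_isMulCommutative.2 hA.1)).le
      fun a ha => hA.2 a ha) (hm _) hprod
  obtain ⟨W, f, hf⟩ := H2.exists_wreath_quotient (D := ⊤) (hP.to_subgroup _) le_top (by rwa [relIndex_top_right])
    le_normalizer_of_normal h2 h1 (mem_top y) hx (by
      refine fun e => h3 ?_
      rw [← e]
      generalize p = n
      induction n with
      | zero => simpa using h1.map_one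
      | succ n ih => rw [List.range_succ, List.map_append, List.prod_append, Finset.prod_range_succ, ← ih, List.map_singleton,
          List.prod_singleton, h1 _ (hm _) _ (hu n)])
  exact ⟨W, f.comp (topEquiv (G := P)).symm.toMonoidHom, hf.comp (topEquiv (G := P)).symm.surjective⟩

end Cfsg.Agent.S1952
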