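import Cfsg.Statements.S1953
import Cfsg.Agent.H9.CS

set_option autoImplicit false
open Cfsg

namespace Cfsg.Agent.S1953

/-- Let p be an odd prime and P a Sylow p-subgroup of the finite group G, and suppose that for no p-subgroup Q of G does N_G(Q)/C_G(Q) have a section isomorphic to SL₂(p). Call a subgroup Q of P centric-radical when Z(Q) is a Sylow p-subgroup of C_G(Q) and the only normal subgroup X of N_G(Q) containing Q·C_G(Q) such that the index of Q·C_G(Q) in X is a power of p is Q·C_G(Q) itself (that is, N_G(Q)/Q·C_G(Q) has no nontrivial normal p-subgroup). Then there is a centric-radical subgroup Q of P contained in every centric-radical subgroup of P; it is normal in P, and N_G(Q) controls strong fusion in P: whenever a subgroup A of P has g A g⁻¹ ≤ P, the element g is a product h c with h in N_G(Q) and c centralizing A. -/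
theorem result {G : Type*} [Group G] [Finite G] {p : ℕ} [Fact p.Prime] (hp : p ≠ 2) (P : Sylow p G)
    (hfree : ∀ Q : Subgroup G, IsPGroup p ↥Q → ¬ ∃ (H K : Subgroup G) (_ : (K.subgroupOf H).Normal),
      Subgroup.centralizer (Q : Set G) ≤ K ∧ K ≤ H ∧ H ≤ Subgroup.normalizer (Q : Set G) ∧
      Nonempty ((↥H ⧸ K.subgroupOf H) ≃* Matrix.SpecialLinearGroup (Fin 2) (ZMod p)))
    (cr : Subgroup G → Prop)
    (hcr : ∀ Q : Subgroup G, cr Q ↔ (Q ≤ (P : Subgroup G) ∧
      (∃ R : Sylow p ↥(Subgroup.centralizer (Q : Set G)),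
        (R : Subgroup ↥(Subgroup.centralizer (Q : Set G))).map (Subgroup.centralizer (Q : Set G)).subtype = Q ⊓ Subgroup.centralizer (Q : Set G)) ∧
      ∀ X : Subgroup G, X ≤ Subgroup.normalizer (Q : Set G) →
        (∀ n ∈ Subgroup.normalizer (Q : Set G), X.map (MulAut.conj n).toMonoidHom = X) →
        Q ⊔ Subgroup.centralizer (Q : Set G) ≤ X → (∃ k : ℕ, (Q ⊔ Subgroup.centralizer (Q : Set G)).relIndex X = p ^ k) →
        X = Q ⊔ Subgroup.centralizer (Q : Set G))) :
    ∃ Q : Subgroup G, cr Q ∧ (∀ R : Subgroup G, cr R → Q ≤ R) ∧ (∀ x ∈ (P : Subgroup G), Q.map (MulAut.conj x).toMonoidHom = Q) ∧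
      ∀ A : Subgroup G, A ≤ (P : Subgroup G) → ∀ g : G, A.map (MulAut.conj g).toMonoidHom ≤ (P : Subgroup G) →
        ∃ h ∈ Subgroup.normalizer (Q : Set G), ∃ c ∈ Subgroup.centralizer (A : Set G), g = h * c := by
  open H9 Subgroup in open scoped commutatorElement in
  have hS := syl_top_of_sylow P
  have hF := H2.sat_sub (hSH := le_top) hS.h2
  have hc := FG.constrained_of_not_fqd hp hF fun h => by
    obtain ⟨X, h1, K, h2, θ, h3, h4⟩ := sl2_of_gqd (gqd_of_sect ((FG.fqd_sub_iff hS).1 h))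
    obtain ⟨i, ⟨e⟩⟩ := exists_section_equiv θ h3
    exact hfree X h1 ⟨K, kr θ, i, h4, kr_le θ, h2, ⟨e.symm⟩⟩
  have hQ := csf_iff.1 (H2.core_normal (fusionSystemOfSubgroup ⊤ (P : Subgroup G) le_top))
  have hm := H2.le_core (csf_iff.2 (hQ.opm hS hc))
  generalize (fusionSystemOfSubgroup ⊤ (P : Subgroup G) le_top).core = Q at hc hQ hm
  have hN := hQ.syl_N hS
  refine ⟨Q, (hcr Q).2 ⟨hQ.1, ?_, fun X h1 h2 h3 h4 => le_antisymm ?_ h3⟩, fun R hR => ?_,
    fun x hx => mem_normalizer_iff_cj.1 (hQ.le_normalizer hx), fun A hA g hg => ?_⟩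
  · have := hN.inf_normal (centralizer_le_normalizer' Q) (normalizer_centralizer le_rfl)
    rw [show (P : Subgroup G) ⊓ centralizer (Q : Set G) = Q ⊓ centralizer (Q : Set G) from
      le_antisymm (le_inf hc inf_le_right) (inf_le_inf_right _ hQ.1)] at this
    exact this.exists_sylow
  · rw [← H2G.Opm_eq_of_syl (H2G.rad_syl hQ.1 hS.isP (by rwa [inf_eq_left.2 hQ.le_normalizer]) hm)]
    refine le_Opm h1 (fun n hn => mem_normalizer_iff_cj.2 (h2 n hn)) ?_
    rw [← Ores_Ores]
    exact (Ores_mono ((Ores_le_iff_relIndex (h1.trans (normalizer_sup le_rfl (normalizer_centralizer le_rfl)))).2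
      h4)).trans (Ores_le_of_sup (hS.isP.to_le hQ.1) (normalizer_centralizer le_normalizer) (sup_comm _ _).le)
  · obtain ⟨h1, ⟨T, h2⟩, h3⟩ := (hcr R).1 hR
    have hle : R ⊔ centralizer (R : Set G) ≤ Opm p (normalizer (R : Set G)) (centralizer (R : Set G)) :=
      sup_le (le_Opm le_normalizer le_rfl ((Ores_eq_bot_of_p (hS.isP.to_le h1)).le.trans bot_le)) (H2G.cent_le_Opm R)
    exact hQ.le_of_cr hS.isP h1 (h2 ▸ syl_of_sylow T) (h3 _ (Opm_le _ _ _)
      (fun n hn => mem_normalizer_iff_cj.1 (le_normalizer_Opm _ _ hn)) hle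
      ((Ores_le_iff_relIndex ((Opm_le _ _ _).trans (normalizer_sup le_rfl (normalizer_centralizer le_rfl)))).1
        ((Ores_Opm_le _ _).trans le_sup_right))).le
  · obtain ⟨x, hx, e⟩ := hQ.2 A hA g hg
    refine ⟨x, hx, x⁻¹ * g, mem_centralizer_iff.2 fun a ha => ?_, by group⟩
    rw [show a * (x⁻¹ * g) = x⁻¹ * (x * a * x⁻¹) * g by group, ← e a ha]; group

end Cfsg.Agent.S1953
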