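import Cfsg.Statements.S1954
import Cfsg.Agent.H2.Fus8
import Cfsg.Agent.H1.SylowIn
import Cfsg.Agent.H1.Basic

set_option autoImplicit false
open Cfsg

namespace Cfsg.Agent.S1954

open Subgroup
open scoped commutatorElement

theorem ctl_fusion {G : Type*} [Group G] [Finite G] {p : ℕ} [Fact p.Prime] (P : Sylow p G) (W : Subgroup G)
    (hWP : W ≤ P)
    (hsc : ∀ Z : Subgroup G, Z ≤ W → normalizer (W : Set G) ≤ normalizer (Z : Set G) →
      ∀ z ∈ Z, ∀ g : G, g * z * g⁻¹ ∈ (P : Subgroup G) → g * z * g⁻¹ ∈ Z) :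
    ∀ A : Subgroup G, A ≤ (P : Subgroup G) → ∀ g : G, A.map (MulAut.conj g).toMonoidHom ≤ (P : Subgroup G) →
        ∃ h ∈ Subgroup.normalizer (W : Set G), ∃ c ∈ Subgroup.centralizer (A : Set G), g = h * c := by
  have hF := H2.sat_group P
  have hsc' : ∀ Z : Subgroup G, Z ≤ W → normalizer (W : Set G) ≤ normalizer (Z : Set G) →
      (Cfsg.groupFusionSystem (P : Subgroup G)).StronglyClosed Z := by
    intro Z hZ hn
    rw [H2.group_eq_sub]
    exact H2.sc_sub_iff.2 ⟨hZ.trans hWP, fun x hx a _ h => hsc Z hZ hn x hx a h⟩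
  haveI : Group.IsNilpotent W := (P.isPGroup'.to_le hWP).isNilpotent
  have hn : (Cfsg.groupFusionSystem (P : Subgroup G)).IsNormal W := by
    refine hF.normal_of_chain' (hsc' W le_rfl le_rfl)
      (fun i => (Subgroup.upperCentralSeries W i).map W.subtype) (Group.nilpotencyClass W) ?_ ?_ ?_ ?_
    · simp only [Subgroup.upperCentralSeries_nilpotencyClass]
      intro x hx
      exact ⟨⟨x, hx⟩, trivial, rfl⟩
    · intro i _
      exact hsc' _ (map_subtype_le _) (H1.map_char_le_normalizer W _)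
    · simp
    · intro i _
      rw [commutator_comm, Subgroup.commutator_le]
      rintro _ ⟨x, hx, rfl⟩ y hy
      exact ⟨⁅x, ⟨y, hy⟩⁆, Subgroup.mem_upperCentralSeries_succ_iff.1 hx _, rfl⟩
  intro A hA g hg
  let φ : A →* G := (MulAut.conj g).toMonoidHom.comp A.subtype
  obtain ⟨ψ, ⟨-, -, h, hh⟩, h1, h2⟩ := hn.2 A φ ⟨hA, fun x => hg ⟨x, x.2, rfl⟩, g, fun x => rfl⟩
  refine ⟨h, ?_, h⁻¹ * g, ?_, by group⟩
  · refine H2.mem_normalizer_of_cj_le ?_
    rintro _ ⟨w, hw, rfl⟩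
    rw [← h2]
    exact ⟨⟨w, (le_sup_right : W ≤ A ⊔ W) hw⟩, hw, hh _⟩
  · rw [mem_centralizer_iff]
    intro a ha
    have e := (hh _).symm.trans (h1 ⟨a, ha⟩)
    have e' : h * a * h⁻¹ = g * a * g⁻¹ := e
    calc a * (h⁻¹ * g) = h⁻¹ * (h * a * h⁻¹) * g := by group
      _ = h⁻¹ * g * a := by rw [e']; group

/-- Let N be a normal subgroup of the finite group G, P a Sylow p-subgroup of G, and V a subgroup of P ∩ N normal in P ∩ N such that N_N(V) controls strong fusion in P ∩ N with respect to N (whenever a subgroup A of P ∩ N has n A n⁻¹ ≤ P ∩ N for some n in N, then n = h c with h in N_N(V) and c in C_N(A)). Let W be the subgroup generated by the conjugates of V under N_G(P ∩ N). Then N_G(W) controls strong fusion in P with respect to G. -/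
theorem result {G : Type*} [Group G] [Finite G] {p : ℕ} [Fact p.Prime] (N : Subgroup G) [N.Normal] (P : Sylow p G) (V : Subgroup G)
    (hV : V ≤ (P : Subgroup G) ⊓ N) (hVn : ∀ x ∈ (P : Subgroup G) ⊓ N, V.map (MulAut.conj x).toMonoidHom = V)
    (hctrl : ∀ A : Subgroup G, A ≤ (P : Subgroup G) ⊓ N → ∀ n ∈ N, A.map (MulAut.conj n).toMonoidHom ≤ (P : Subgroup G) ⊓ N →
      ∃ h ∈ N ⊓ Subgroup.normalizer (V : Set G), ∃ c ∈ N ⊓ Subgroup.centralizer (A : Set G), n = h * c)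
    (W : Subgroup G) (hW : W = Subgroup.closure (⋃ x ∈ Subgroup.normalizer (((P : Subgroup G) ⊓ N : Subgroup G) : Set G),
      ((V.map (MulAut.conj x).toMonoidHom : Subgroup G) : Set G))) :
    ∀ A : Subgroup G, A ≤ (P : Subgroup G) → ∀ g : G, A.map (MulAut.conj g).toMonoidHom ≤ (P : Subgroup G) →
        ∃ h ∈ Subgroup.normalizer (W : Set G), ∃ c ∈ Subgroup.centralizer (A : Set G), g = h * c := by
  obtain ⟨T, hT⟩ : ∃ T : Subgroup G, T = (P : Subgroup G) ⊓ N := ⟨_, rfl⟩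
  rw [← hT] at hV hVn hctrl hW
  let Ctl : Subgroup G → Prop := fun U => U ≤ T ∧ ∀ A : Subgroup G, A ≤ T → ∀ n ∈ N, H2.cj n A ≤ T →
      ∃ h ∈ N ⊓ normalizer (U : Set G), ∃ c ∈ N ⊓ centralizer (A : Set G), n = h * c
  have hNn : N.Normal := inferInstance
  have hcj : ∀ x ∈ normalizer (T : Set G), Ctl (H2.cj x V) := by
    intro x hx
    have hxT := H2.cj_eq_iff.2 hx
    have hxT' := H2.cj_eq_iff.2 (Subgroup.inv_mem _ hx)
    refine ⟨hxT ▸ H2.cj_mono x hV, fun A hA n hn hnA => ?_⟩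
    obtain ⟨h, hh, c, hc, e⟩ := hctrl (H2.cj x⁻¹ A) (hxT' ▸ H2.cj_mono _ hA) (x⁻¹ * n * x⁻¹⁻¹)
      (hNn.conj_mem n hn _) (by
        show H2.cj _ (H2.cj _ _) ≤ T
        rw [← H2.cj_mul, show x⁻¹ * n * x⁻¹⁻¹ * x⁻¹ = x⁻¹ * n by group, H2.cj_mul]
        exact hxT' ▸ H2.cj_mono _ hnA)
    refine ⟨x * h * x⁻¹, ⟨hNn.conj_mem h hh.1 _, ?_⟩, x * c * x⁻¹, ⟨hNn.conj_mem c hc.1 _, ?_⟩, ?_⟩
    · have := H2.conj_mem_cj (g := x).2 hh.2
      rwa [H2.cj_normalizer] at this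
    · have := H2.conj_mem_cj (g := x).2 hc.2
      rwa [H2.cj_centralizer, H2.cj_cj_inv] at this
    · calc n = x * (x⁻¹ * n * x⁻¹⁻¹) * x⁻¹ := by group
        _ = _ := by rw [e]; group
  have hsup : ∀ U U' : Subgroup G, Ctl U → Ctl U' → Ctl (U ⊔ U') := by
    intro U U' hU hU'
    refine ⟨sup_le hU.1 hU'.1, fun A hA n hn hnA => ?_⟩
    obtain ⟨h, hh, c, hc, e⟩ := hU.2 A hA n hn hnA
    have hcA : H2.cj c A = A := H2.cj_eq_iff.2 (centralizer_le_normalizer _ hc.2)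
    have hhA : H2.cj h A ≤ T := by
      rw [e, H2.cj_mul, hcA] at hnA
      exact hnA
    have hhU : H2.cj h U = U := H2.cj_eq_iff.2 hh.2
    obtain ⟨h', hh', c', hc', e'⟩ := hU'.2 (A ⊔ U) (sup_le hA hU.1) h hh.1 (by
      rw [H2.cj_sup, hhU]; exact sup_le hhA hU.1)
    have hc1 : c' ∈ centralizer (A : Set G) := centralizer_le (SetLike.coe_subset_coe.2 le_sup_left) hc'.2
    have hc2 : c' ∈ centralizer (U : Set G) := centralizer_le (SetLike.coe_subset_coe.2 le_sup_right) hc'.2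
    refine ⟨h', ⟨hh'.1, ?_⟩, c' * c, ⟨N.mul_mem hc'.1 hc.1, Subgroup.mul_mem _ hc1 hc.2⟩, by rw [e, e', mul_assoc]⟩
    apply H2.cj_eq_iff.1
    have : h' ∈ normalizer (U : Set G) := by
      have : h' = h * c'⁻¹ := by rw [e']; group
      rw [this]
      exact Subgroup.mul_mem _ hh.2 (Subgroup.inv_mem _ (centralizer_le_normalizer _ hc2))
    rw [H2.cj_sup, H2.cj_eq_iff.2 this, H2.cj_eq_iff.2 hh'.2]
  have hVW : ∀ x ∈ normalizer (T : Set G), H2.cj x V ≤ W := by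
    intro x hx y hy
    rw [hW]
    exact subset_closure (Set.mem_biUnion hx hy)
  have hCW : Ctl W := by
    obtain ⟨U, -, hU⟩ := Finite.exists_le_maximal (p := fun U : Subgroup G => Ctl U ∧ U ≤ W)
      (a := H2.cj 1 V) ⟨hcj 1 (Subgroup.one_mem _), hVW 1 (Subgroup.one_mem _)⟩
    have : W ≤ U := by
      rw [hW, closure_le]
      intro y hy
      simp only [Set.mem_iUnion] at hy
      obtain ⟨x, hx, hy⟩ := hy
      exact hU.2 (y := U ⊔ H2.cj x V) ⟨hsup _ _ hU.1.1 (hcj x hx), sup_le hU.1.2 (hVW x hx)⟩ le_sup_left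
        ((le_sup_right : H2.cj x V ≤ U ⊔ H2.cj x V) hy)
    rw [← le_antisymm hU.1.2 this]
    exact hU.1.1
  have hXW : normalizer (T : Set G) ≤ normalizer (W : Set G) := by
    intro x hx
    refine H2.mem_normalizer_of_cj_le ?_
    rw [H2.cj_le_iff]
    conv_lhs => rw [hW]
    rw [closure_le]
    intro y hy
    simp only [Set.mem_iUnion] at hy
    obtain ⟨x', hx', hy⟩ := hy
    have := hVW (x * x') (Subgroup.mul_mem _ hx hx')
    rw [H2.cj_mul, H2.cj_le_iff] at this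
    exact this hy
  have hTs : H1.IsSylowIn p T N := by
    rw [hT]
    exact (H1.isSylowIn_top P).inf_normal le_top (by rw [normalizer_eq_top_iff.2 hNn]; exact le_top)
  refine ctl_fusion P W (hCW.1.trans (hT.le.trans inf_le_left)) ?_
  intro Z hZ hn z hz g hg
  obtain ⟨k, hk, x, hx, e⟩ := hTs.frattini (g := g⁻¹) (by rw [normalizer_eq_top_iff.2 hNn]; trivial)
  have eg : g = x⁻¹ * k⁻¹ := by rw [← mul_inv_rev, ← e, inv_inv]
  have hzT : z ∈ T := hCW.1 (hZ hz)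
  have hgT : g * z * g⁻¹ ∈ T := by
    rw [hT]
    exact ⟨hg, hNn.conj_mem _ (hT.le hzT).2 _⟩
  have hkT : k⁻¹ * z * k⁻¹⁻¹ ∈ T := by
    have := (mem_normalizer_iff.1 hx _).1 hgT
    rwa [eg, show x * (x⁻¹ * k⁻¹ * z * (x⁻¹ * k⁻¹)⁻¹) * x⁻¹ = k⁻¹ * z * k⁻¹⁻¹ by group] at this
  obtain ⟨h, hh, c, hc, e2⟩ := hCW.2 (zpowers z) (zpowers_le.2 hzT) k⁻¹ (N.inv_mem hk) (by
    rw [H2.cj_zpowers]; exact zpowers_le.2 hkT)
  have hcz : z * c = c * z := mem_centralizer_iff.1 hc.2 z (mem_zpowers z)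
  have h3 : x⁻¹ * h ∈ normalizer (Z : Set G) :=
    hn (Subgroup.mul_mem _ (Subgroup.inv_mem _ (hXW hx)) hh.2)
  have := (mem_normalizer_iff.1 h3 z).1 hz
  have e3 : g * z * g⁻¹ = x⁻¹ * h * z * (x⁻¹ * h)⁻¹ := by
    rw [eg, e2]
    calc x⁻¹ * (h * c) * z * (x⁻¹ * (h * c))⁻¹ = x⁻¹ * h * (c * z) * c⁻¹ * (x⁻¹ * h)⁻¹ := by group
      _ = _ := by rw [← hcz]; group
  rwa [e3]

end Cfsg.Agent.S1954
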