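import Cfsg.Statements.S1956
import Cfsg.Agent.H2.Control

set_option autoImplicit false
open Cfsg

namespace Cfsg.Agent.S1956

open Subgroup in

/-- Let P be a Sylow p-subgroup of the finite group G such that every element of P of order dividing p (dividing 4 when p = 2) is central in P. Then the fusion of these elements is controlled by N_G(P): if such an element a of P has g a g⁻¹ in P, then g = n c with n normalizing P and c commuting with a. -/
theorem result {G : Type*} [Group G] [Finite G] {p : ℕ} [Fact p.Prime] (P : Sylow p G)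
    (hcen : ∀ a ∈ (P : Subgroup G), (a ^ p = 1 ∨ (p = 2 ∧ a ^ 4 = 1)) → ∀ y ∈ (P : Subgroup G), a * y = y * a) :
    ∀ a ∈ (P : Subgroup G), (a ^ p = 1 ∨ (p = 2 ∧ a ^ 4 = 1)) → ∀ g : G, g * a * g⁻¹ ∈ (P : Subgroup G) →
      ∃ n ∈ Subgroup.normalizer ((P : Subgroup G) : Set G), ∃ c : G, c * a = a * c ∧ g = n * c := by
  intro a ha hs g hg
  have hs' : (g * a * g⁻¹) ^ p = 1 ∨ (p = 2 ∧ (g * a * g⁻¹) ^ 4 = 1) :=
    hs.imp (fun e => by rw [conj_pow, e]; simp) (And.imp_right fun e => by rw [conj_pow, e]; simp)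
  obtain ⟨c, h1, h2⟩ := H2.burnside_fusion (K := centralizer {a}) (H2.isSylowIn_top P) le_top (mem_top g⁻¹)
    (fun y hy => mem_centralizer_singleton_iff.2 (hcen a ha hs y hy).symm) fun y hy => by
      have := hcen _ hg hs' _ (H2.mem_cj.1 hy)
      rw [mem_centralizer_singleton_iff]
      calc y * a = g⁻¹ * (g⁻¹⁻¹ * y * g⁻¹ * (g * a * g⁻¹)) * g := by group
        _ = _ := by rw [← this]; group
  exact ⟨_, inv_mem h2, c, mem_centralizer_singleton_iff.1 h1, by group⟩

end Cfsg.Agent.S1956
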