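import Cfsg.Statements.S2001
import Cfsg.Agent.H9.Ctl

set_option autoImplicit false
open Cfsg

namespace Cfsg.Agent.S2001

section
open H9 Subgroup
open scoped commutatorElement
theorem mem_sup_iff_aux {G : Type*} [Group G] {Q N C : Subgroup G} (hN : Q ≤ N) (x : G) :
    x ∈ (Q ⊓ ⁅N, N⁆) ⊔ (Q ⊓ ⁅C, C⁆) ↔ ∃ a ∈ Q ⊓ ⁅N, N⁆, ∃ b ∈ Q ⊓ ⁅C, C⁆, x = a * b := by
  rw [mem_sup_of_le_normalizer' (inf_le_left.trans (normalizer_inf le_normalizer
    (hN.trans (normalizer_commutator le_normalizer le_normalizer))))]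
  simp only [eq_comm]
end

/-- Let p be a prime dividing the order of the finite group G, P a Sylow p-subgroup, W a conjugacy functor for p on G with Z(H) ≤ W(H) for every nontrivial p-subgroup H, and V a central functor: a conjugacy functor with V(H) ≤ Z(H), and V(H) ≤ V(K) whenever Z(H) ≤ Z(K), for nontrivial p-subgroups H, K. Say that W with V controls transfer in a subgroup L when some Sylow p-subgroup Q of L satisfies Q ∩ L' = (Q ∩ (N_L(W(Q)))')·(Q ∩ (C_L(V(Q)))') as a product of two subgroups. If W with V controls transfer in N_G(H) for every subgroup H with Z(P) ≤ H ≤ P, then W with V controls transfer in G. -/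
theorem result {G : Type*} [Group G] [Finite G] {p : ℕ} [Fact p.Prime] (hdiv : p ∣ Nat.card G) (P : Sylow p G) (W V : Subgroup G → Subgroup G) (hW : Cfsg.IsConjugacyFunctor p W) (hV : Cfsg.IsConjugacyFunctor p V) (hWZ : ∀ H : Subgroup G, IsPGroup p ↥H → H ⊓ Subgroup.centralizer ((H : Subgroup G) : Set G) ≤ W H) (hVZ : ∀ H : Subgroup G, IsPGroup p ↥H → V H ≤ H ⊓ Subgroup.centralizer ((H : Subgroup G) : Set G)) (hVmono : ∀ H K : Subgroup G, IsPGroup p ↥H → IsPGroup p ↥K → H ≠ ⊥ → K ≠ ⊥ → H ⊓ Subgroup.centralizer ((H : Subgroup G) : Set G) ≤ K ⊓ Subgroup.centralizer ((K : Subgroup G) : Set G) → V H ≤ V K) (hloc : ∀ H : Subgroup G, (P : Subgroup G) ⊓ Subgroup.centralizer (((P : Subgroup G) : Subgroup G) : Set G) ≤ H → H ≤ (P : Subgroup G) → ∃ Q : Subgroup G, Q ≤ Subgroup.normalizer ((H : Subgroup G) : Set G) ∧ IsPGroup p ↥Q ∧ ¬ p ∣ (Q).relIndex (Subgroup.normalizer ((H : Subgroup G) : Set G)) ∧ ∀ x : G, x ∈ Q ⊓ ⁅Subgroup.normalizer ((H : Subgroup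 G) : Set G), Subgroup.normalizer ((H : Subgroup G) : Set G)⁆ ↔ ∃ a ∈ Q ⊓ ⁅Subgroup.normalizer ((H : Subgroup G) : Set G) ⊓ Subgroup.normalizer ((W Q : Subgroup G) : Set G), Subgroup.normalizer ((H : Subgroup G) : Set G) ⊓ Subgroup.normalizer ((W Q : Subgroup G) : Set G)⁆, ∃ b ∈ Q ⊓ ⁅Subgroup.normalizer ((H : Subgroup G) : Set G) ⊓ Subgroup.centralizer ((V Q : Subgroup G) : Set G), Subgroup.normalizer ((H : Subgroup G) : Set G) ⊓ Subgroup.centralizer ((V Q : Subgroup G) : Set G)⁆, x = a * b) : ∃ Q : Subgroup G, IsPGroup p ↥Q ∧ ¬ p ∣ Q.index ∧ ∀ x : G, x ∈ Q ⊓ commutator G ↔ ∃ a ∈ Q ⊓ ⁅Subgroup.normalizer ((W Q : Subgroup G) : Set G), Subgroup.normalizer ((W Q : Subgroup G) : Set G)⁆, ∃ b ∈ Q ⊓ ⁅Subgroup.centralizer ((V Q : Subgroup G) : Set G), Subgroup.centralizer ((V Q : Subgroup G) : Set G)⁆, x = a * b := by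
  open H9 Subgroup in open scoped commutatorElement in
  have hS := syl_top_of_sylow P
  have hP1 : (P : Subgroup G) ≠ ⊥ := fun h => cop_iff.1 (hS.eq_bot_iff.1 h) (by simpa using hdiv)
  have hVC : ∀ Q : Subgroup G, IsPGroup p Q → Q ≤ centralizer (V Q : Set G) := fun Q hQ =>
    le_centralizer_iff.1 ((hVZ Q hQ).trans inf_le_right)
  set T₀ := ((P : Subgroup G) ⊓ ⁅normalizer (W P : Set G), normalizer (W P : Set G)⁆) ⊔
    (P ⊓ ⁅centralizer (V P : Set G), centralizer (V P : Set G)⁆) with hT₀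
  have key : RAll (Rt T₀) P ⊤ := by
    refine local_global hS (frel_Rt _ _ _) (fun _ _ _ _ h => Rt.cent h) (single_cf hW) le_rfl
      (by rintro _ rfl Q hQ h; exact h.trans (hWZ Q hQ)) (fun T h1 h2 h3 h4 h5 => ?_) ?_
    · obtain ⟨Q, a1, a2, a3, a4⟩ := hloc T h3 h1
      unfold FN at h4
      rw [top_inf_eq] at h4 h5 ⊢
      obtain ⟨y, hy, e⟩ := Syl.conj ⟨a1, a2, a3⟩ h4
      have b1 : Q ⊓ ⁅normalizer (T : Set G), normalizer (T : Set G)⁆ ≤
          (Q ⊓ ⁅normalizer (T : Set G) ⊓ normalizer (W Q : Set G),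
            normalizer (T : Set G) ⊓ normalizer (W Q : Set G)⁆) ⊔
          (Q ⊓ ⁅normalizer (T : Set G) ⊓ centralizer (V Q : Set G),
            normalizer (T : Set G) ⊓ centralizer (V Q : Set G)⁆) := fun x hx => by
        obtain ⟨a, ha, b, hb, rfl⟩ := (a4 x).1 hx
        exact mul_mem_sup ha hb
      have b2 := cj_mono y b1
      simp only [cj_inf, cj_sup, cj_commutator, cj_normalizer, cj_centralizer, ← cf_cj hW a2,
        ← cf_cj hV a2, mem_normalizer_iff_cj.1 hy, e] at b2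
      refine (rall_Rt_iff h4).2 (b2.trans (sup_le ?_ ?_))
      · exact (rall_Rt_iff (h4.mono (le_inf h4.le (cf_le_normalizer hW h4.isP)) inf_le_left)).1
          (h5 W rfl)
      · refine le_trans (inf_le_inf inf_le_left ?_) le_sup_right
        have : V P ≤ V (P ⊓ normalizer (T : Set G)) := hVmono _ _ hS.isP h4.isP hP1
          (fun h0 => h2 (eq_bot_iff.2 ((le_inf h1 le_normalizer).trans h0.le)))
          (le_inf (h3.trans (le_inf h1 le_normalizer)) (inf_le_right.trans (centralizer_anti inf_le_left)))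
        exact commutator_mono (inf_le_right.trans (centralizer_anti this))
          (inf_le_right.trans (centralizer_anti this))
    · rintro _ rfl
      rw [top_inf_eq]
      exact (rall_Rt_iff (hS.mono (cf_le_normalizer hW hS.isP) le_top)).2 le_sup_left
  refine ⟨P, hS.isP, P.not_dvd_index, fun x => ?_⟩
  rw [← mem_sup_iff_aux (cf_le_normalizer hW hS.isP)]
  exact ⟨fun h => (rall_Rt_iff hS).1 key h, fun h => (sup_le (inf_le_inf_left _
    (commutator_mono le_top le_top)) (inf_le_inf_left _ (commutator_mono le_top le_top)) : T₀ ≤ _) h⟩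

end Cfsg.Agent.S2001
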