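import Cfsg.Statements.S2002
import Cfsg.Agent.H9.Ctl

set_option autoImplicit false
open Cfsg

namespace Cfsg.Agent.S2002

section
open H9 Subgroup
open scoped commutatorElement
theorem conv {G : Type*} [Group G] [Finite G] {Q L N C : Subgroup G} :
    (∀ (X : Set G) (a : G), X ⊆ Q → a ∈ L → (fun x => a⁻¹ * x * a) '' X ⊆ Q →
      ∃ c ∈ L ⊓ centralizer X, ∃ (n : ℕ) (b : Fin n → G), (∀ i, b i ∈ L ⊓ N ∨ b i ∈ L ⊓ C) ∧
        a = c * (List.ofFn b).prod ∧ ∀ k : ℕ, k ≤ n → (fun x => (((List.ofFn b).take k).prod)⁻¹ * x *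
          ((List.ofFn b).take k).prod) '' ((fun x => c⁻¹ * x * c) '' X) ⊆ Q) ↔
    RAll (Fz ((L ⊓ N : Subgroup G) ∪ (L ⊓ C : Subgroup G)) Q) Q L := by
  have im1 : ∀ (X : Set G), ∀ c ∈ centralizer X, (fun x => c⁻¹ * x * c) '' X = X := by
    intro X c hc
    rw [Set.image_congr (g := id) fun x hx => by rw [mul_assoc, hc x hx]; simp, Set.image_id]
  constructor
  · intro h A hA g hg hgA
    obtain ⟨c, hc, n, b, h1, h2, h3⟩ := h A g⁻¹ hA (L.inv_mem hg)
      (by rw [image_subset_iff_cj', closure_eq, inv_inv]; exact hgA)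
    refine ⟨_, (ch_iff_list hA).2 ⟨List.ofFn b, fun x hx => ?_, rfl, fun k hk => ?_⟩, ?_⟩
    · obtain ⟨i, rfl⟩ := List.mem_ofFn.1 hx
      exact (h1 i).imp inv_mem inv_mem
    · have := h3 k (by simpa using hk)
      rwa [im1 _ c hc.2, image_subset_iff_cj', closure_eq] at this
    · rw [← inv_inv g, h2]; simpa using hc.2
  · intro h X a hX ha h1
    have hA : closure X ≤ Q := (closure_le _).2 hX
    obtain ⟨c, h2, h3⟩ := h _ hA a⁻¹ (L.inv_mem ha) (image_subset_iff_cj'.1 h1)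
    have hc : c ∈ L := h2.mem (Set.union_subset inf_le_left inf_le_left)
    obtain ⟨l, b1, rfl, b2⟩ := (ch_iff_list hA).1 h2
    rw [centralizer_closure] at h3
    refine ⟨(l.prod⁻¹⁻¹ * a⁻¹)⁻¹, ⟨L.inv_mem (L.mul_mem (L.inv_mem hc) (L.inv_mem ha)), (centralizer X).inv_mem h3⟩, l.length,
      l.get, fun i => ?_, by simp, fun k hk => ?_⟩
    · exact (b1 _ (l.get_mem i)).imp inv_mem_iff.1 inv_mem_iff.1
    · rw [im1 _ _ (inv_mem h3), image_subset_iff_cj', List.ofFn_get]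
      exact b2 k hk
end

/-- Let p be a prime dividing the order of the finite group G, P a Sylow p-subgroup, W a conjugacy functor for p on G with Z(H) ≤ W(H) for every nontrivial p-subgroup H, and V a central functor (a conjugacy functor with V(H) ≤ Z(H), and V(H) ≤ V(K) whenever Z(H) ≤ Z(K)). Say that W with V controls strong fusion in a subgroup L when some Sylow p-subgroup Q of L has the property: whenever X ⊆ Q and a ∈ L with a⁻¹Xa ⊆ Q, then a = c b with c ∈ C_L(X) and b = b₁ ⋯ bₙ a product of elements each in N_L(W(Q)) or in C_L(V(Q)) such that every partial conjugate (b₁ ⋯ bₖ)⁻¹ X (b₁ ⋯ bₖ) lies in Q. If W with V controls strong fusion in N_G(H) for every subgroup H with Z(P) ≤ H ≤ P, then W with V controls strong fusion in G. -/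
theorem result {G : Type*} [Group G] [Finite G] {p : ℕ} [Fact p.Prime] (hdiv : p ∣ Nat.card G) (P : Sylow p G) (W V : Subgroup G → Subgroup G) (hW : Cfsg.IsConjugacyFunctor p W) (hV : Cfsg.IsConjugacyFunctor p V) (hWZ : ∀ H : Subgroup G, IsPGroup p ↥H → H ⊓ Subgroup.centralizer ((H : Subgroup G) : Set G) ≤ W H) (hVZ : ∀ H : Subgroup G, IsPGroup p ↥H → V H ≤ H ⊓ Subgroup.centralizer ((H : Subgroup G) : Set G)) (hVmono : ∀ H K : Subgroup G, IsPGroup p ↥H → IsPGroup p ↥K → H ≠ ⊥ → K ≠ ⊥ → H ⊓ Subgroup.centralizer ((H : Subgroup G) : Set G) ≤ K ⊓ Subgroup.centralizer ((K : Subgroup G) : Set G) → V H ≤ V K) (hloc : ∀ H : Subgroup G, (P : Subgroup G) ⊓ Subgroup.centralizer (((P : Subgroup G) : Subgroup G) : Set G) ≤ H → H ≤ (P : Subgroup G) → ∃ Q : Subgroup G, Q ≤ Subgroup.normalizer ((H : Subgroup G) : Set G) ∧ IsPGroup p ↥Q ∧ ¬ p ∣ (Q).relIndex (Subgroup.normalizer ((H : Subgroup G) : Set G)) ∧ ∀ (X : Set G) (a : G), X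 ⊆ Q → a ∈ Subgroup.normalizer ((H : Subgroup G) : Set G) → (fun x => a⁻¹ * x * a) '' X ⊆ Q → ∃ c ∈ Subgroup.normalizer ((H : Subgroup G) : Set G) ⊓ Subgroup.centralizer X, ∃ (n : ℕ) (b : Fin n → G), (∀ i, b i ∈ Subgroup.normalizer ((H : Subgroup G) : Set G) ⊓ Subgroup.normalizer ((W Q : Subgroup G) : Set G) ∨ b i ∈ Subgroup.normalizer ((H : Subgroup G) : Set G) ⊓ Subgroup.centralizer ((V Q : Subgroup G) : Set G)) ∧ a = c * (List.ofFn b).prod ∧ ∀ k : ℕ, k ≤ n → (fun x => (((List.ofFn b).take k).prod)⁻¹ * x * ((List.ofFn b).take k).prod) '' ((fun x => c⁻¹ * x * c) '' X) ⊆ Q) : ∃ Q : Subgroup G, IsPGroup p ↥Q ∧ ¬ p ∣ Q.index ∧ ∀ (X : Set G) (a : G), X ⊆ Q → (fun x => a⁻¹ * x * a) '' X ⊆ Q → ∃ c ∈ Subgroup.centralizer X, ∃ (n : ℕ) (b : Fin n → G), (∀ i, b i ∈ ⊤ ⊓ Subgroup.normalizer ((W Q : Subgroup G) : Set G) ∨ b i ∈ ⊤ ⊓ Subgroup.centralizer ((V Q : Subgroup G) : Set G)) ∧ a = c * (List.ofFn b).prod ∧ ∀ k : ℕ, k ≤ n →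 (fun x => (((List.ofFn b).take k).prod)⁻¹ * x * ((List.ofFn b).take k).prod) '' ((fun x => c⁻¹ * x * c) '' X) ⊆ Q := by
  open H9 Subgroup in open scoped commutatorElement in
  have hS := syl_top_of_sylow P
  have hP1 : (P : Subgroup G) ≠ ⊥ := fun h => cop_iff.1 (hS.eq_bot_iff.1 h) (by simpa using hdiv)
  have key : RAll (Fz ((⊤ ⊓ normalizer (W P : Set G) : Subgroup G) ∪
      (⊤ ⊓ centralizer (V P : Set G) : Subgroup G)) (P : Subgroup G)) (P : Subgroup G) ⊤ := by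
    refine local_global hS (frel_Fz _ _ _) (fun _ _ _ _ h => Fz.cent h) (single_cf hW) le_rfl
      (by rintro _ rfl Q hQ h; exact h.trans (hWZ Q hQ)) (fun T h1 h2 h3 h4 h5 => ?_) ?_
    · obtain ⟨Q, a1, a2, a3, a4⟩ := hloc T h3 h1
      unfold FN at h4
      rw [top_inf_eq (normalizer (T : Set G))] at h4 h5 ⊢
      obtain ⟨y, hy, e⟩ := Syl.conj ⟨a1, a2, a3⟩ h4
      have b1 := (conv.1 a4).cj_Fz hy (E' := (normalizer (T : Set G) ⊓ normalizer (W (cj y Q) : Set G) :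
        Subgroup G) ∪ (normalizer (T : Set G) ⊓ centralizer (V (cj y Q) : Set G) : Subgroup G)) (by
          rw [cf_cj hW a2, cf_cj hV a2, ← cj_normalizer, ← cj_centralizer]
          rintro x (hx | hx)
          · exact Or.inl ⟨mul_mem (mul_mem hy hx.1) ((normalizer (T : Set G)).inv_mem hy), conj_mem_cj hx.2⟩
          · exact Or.inr ⟨mul_mem (mul_mem hy hx.1) ((normalizer (T : Set G)).inv_mem hy), conj_mem_cj hx.2⟩)
      rw [e] at b1
      have : V P ≤ V (P ⊓ normalizer (T : Set G)) := hVmono _ _ hS.isP h4.isP hP1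
        (fun h0 => h2 (eq_bot_iff.2 ((le_inf h1 le_normalizer).trans h0.le)))
        (le_inf (h3.trans (le_inf h1 le_normalizer)) (inf_le_right.trans (centralizer_anti inf_le_left)))
      intro A hA g hg hgA
      refine (b1 A hA g hg hgA).bind (frel_Fz _ (P : Subgroup G) ⊤) (fun _ _ _ _ h => Fz.cent h) inf_le_left
        (fun _ _ => trivial) ?_ hA trivial
      rintro x (hx | hx) B hB hxB
      · exact h5 W rfl B hB x hx hxB
      · exact Fz.single (Or.inr ⟨trivial, centralizer_anti this hx.2⟩) (hxB.trans inf_le_left)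
    · rintro _ rfl A _ g hg hgA
      exact Fz.single (Or.inl hg) hgA
  refine ⟨P, hS.isP, P.not_dvd_index, fun X a h1 h2 => ?_⟩
  obtain ⟨c, hc, h3⟩ := conv.2 key X a h1 trivial h2
  exact ⟨c, hc.2, h3⟩

end Cfsg.Agent.S2002
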