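import Cfsg.Statements.S2133
import Cfsg.Agent.H8.CM24
import Cfsg.Agent.H8.Mathieu
-- import your own Cfsg.Agent.* helpers here

set_option autoImplicit false
set_option maxRecDepth 200000
open Cfsg

namespace Cfsg.Agent.S2133

/-- The Mathieu group M₂₄ (the automorphism group of the length-24 binary code) has an involution whose centraliser is isomorphic to the centraliser of a transvection in SL(5, 2) (a group of shape 2^{1+6}:GL(3, 2)). -/
theorem result (s : Matrix.SpecialLinearGroup (Fin 5) (ZMod 2)) (hs : (s : Matrix (Fin 5) (Fin 5) (ZMod 2)) = Matrix.transvection 0 1 1) : ∃ z : ↥Cfsg.M24, orderOf z = 2 ∧ Nonempty (↥(Subgroup.centralizer ({z} : Set ↥Cfsg.M24)) ≃* ↥(Subgroup.centralizer ({s} : Set (Matrix.SpecialLinearGroup (Fin 5) (ZMod 2))))) := by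
  
  obtain ⟨_, S⟩ := H8.M24.std.act H8.isoM24
  obtain ⟨z, -, h, C⟩ := H8.M24.cent2 S
  exact ⟨z, h, (H8.M24.cent52 C s hs).map .symm⟩

end Cfsg.Agent.S2133
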