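import Cfsg.Statements.S2162
import Cfsg.Agent.H5.Sim2

set_option autoImplicit false
open Cfsg

namespace Cfsg.Agent.S2162

open H5 Matrix

/-- Conjugacy of involutions in the special linear group over a finite field of characteristic two, in dimension at least 3: two elements of order 2 of SL_n(F) are conjugate in SL_n(F) exactly when the matrices a − 1 and b − 1 have the same rank (the rank of a − 1 is the dimension of the commutator space [V, a]). -/
theorem result {F : Type*} [Field F] [Fintype F] [CharP F 2] {n : ℕ} (hn : 3 ≤ n) (a b : Matrix.SpecialLinearGroup (Fin n) F) (ha : orderOf a = 2) (hb : orderOf b = 2) :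
    IsConj a b ↔ ((a : Matrix (Fin n) (Fin n) F) - 1).rank = ((b : Matrix (Fin n) (Fin n) F) - 1).rank := by
  have k : ∀ a : SpecialLinearGroup (Fin n) F, orderOf a = 2 → (a.1 - 1) * (a.1 - 1) = 0 := fun a ha => by
    have : a.1 * a.1 = 1 := congrArg Subtype.val ((sq a).symm.trans (ha ▸ pow_orderOf_eq_one a))
    simp only [mul_sub, sub_mul, this, mul_one, one_mul]; ext; simp [CharTwo.sub_eq_add, add_comm]
  refine ⟨fun h => by simpa using IsConj.rank_aeval (SpecialLinearGroup.coeMonoidHom.map_isConj h) (.X - 1), fun h =>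
    isConj_SL (isConj_of_sq (k a ha) (k b hb) h) fun c _ => ?_⟩
  obtain ⟨d, rfl⟩ := FiniteField.isSquare_of_char_two (ringChar.eq F 2) c
  obtain ⟨x, h1, h2⟩ := exists_comm_det_sq (k a ha) (fun e => by simp [show a = 1 from Subtype.ext (sub_eq_zero.1 e)] at ha) d
  exact ⟨x, comm_of_sub_one h1, h2⟩


end Cfsg.Agent.S2162
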