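import Cfsg.Statements.S2163
import Mathlib

set_option autoImplicit false
open Cfsg

namespace Cfsg.Agent.S2163

open Matrix

/-- Over a finite field of characteristic two and for n ≥ 3: for every ℓ with 1 ≤ ℓ and 2ℓ ≤ n, the matrix j_ℓ that is the identity plus the entries 1 in positions (n − ℓ + i, i) for i < ℓ (an identity block of size ℓ in the lower left corner) lies in SL_n(F), has order 2, and j_ℓ − 1 has rank ℓ. Together with the conjugacy criterion by rank, these matrices represent the conjugacy classes of involutions of SL_n(F). -/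
theorem result {F : Type*} [Field F] [Fintype F] [CharP F 2] {n : ℕ} (hn : 3 ≤ n) (ℓ : ℕ) (h1 : 1 ≤ ℓ) (h2 : 2 * ℓ ≤ n) :
    ∃ a : Matrix.SpecialLinearGroup (Fin n) F, (a : Matrix (Fin n) (Fin n) F) = 1 + Matrix.of (fun i j : Fin n => if j.val < ℓ ∧ i.val = j.val + (n - ℓ) then (1 : F) else 0) ∧ orderOf a = 2 ∧ ((a : Matrix (Fin n) (Fin n) F) - 1).rank = ℓ := by
  set N : Matrix (Fin n) (Fin n) F := Matrix.of (fun i j : Fin n => if j.val < ℓ ∧ i.val = j.val + (n - ℓ) then (1 : F) else 0)
  have NN : N * N = 0 := by
    ext i j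
    rw [mul_apply]
    refine Finset.sum_eq_zero fun k _ => ?_
    simp only [N, of_apply]
    split_ifs with a b
    · omega
    all_goals simp
  have sq : (1 + N) * (1 + N) = 1 := by
    have : N + N = 0 := by ext; exact CharTwo.add_self_eq_zero _
    rw [add_mul, mul_add, mul_add, NN]; simp [add_assoc, this]
  have r : N.rank = ℓ := by
    let i1 : Fin ℓ → Fin n := fun k => ⟨k, by omega⟩
    let i2 : Fin ℓ → Fin n := fun k => ⟨k + (n - ℓ), by omega⟩
    refine le_antisymm ?_ ?_
    · have : N = N.submatrix id i1 * (1 : Matrix _ _ F).submatrix i1 id := by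
        ext i j
        by_cases c : j.val < ℓ
        · rw [mul_apply, Finset.sum_eq_single ⟨j, c⟩ (fun k _ e => by simp [i1, one_apply, Fin.ext_iff] at e ⊢; tauto) (by simp)]
          simp [i1, one_apply]
        · rw [mul_apply, Finset.sum_eq_zero fun k _ => by simp [i1, one_apply, Fin.ext_iff]; omega]
          simp [N, c]
      rw [this]; exact (rank_mul_le_left _ _).trans (rank_le_width _)
    · have := rank_submatrix_le N i2 i1
      rwa [show N.submatrix i2 i1 = 1 by ext i j; simp [N, i1, i2, one_apply, Fin.ext_iff], rank_one, Fintype.card_fin] at this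
  have d : (1 + N).det = 1 := by
    have := congrArg det sq
    rw [det_mul, det_one, mul_self_eq_one_iff, CharTwo.neg_eq] at this
    tauto
  refine ⟨⟨_, d⟩, rfl, orderOf_eq_prime ((pow_two _).trans (Subtype.ext sq)) fun e => ?_, by simpa using r⟩
  have : N = 0 := by simpa using congrArg Subtype.val e
  rw [this, rank_zero] at r; omega


end Cfsg.Agent.S2163
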