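import Cfsg.Statements.S2164
import Cfsg.Agent.H5.Adj
import Cfsg.Agent.S2162

set_option autoImplicit false
open Cfsg

namespace Cfsg.Agent.S2164

open H5 H5.Form Matrix

/-- Conjugacy of involutions in the special unitary group SU_n(q), q even, n ≥ 3, realised over the field F with q² elements as the matrices of determinant 1 preserving the form Σ u_i v_i^q: for two elements of order 2 of SU_n(q) the following are equivalent — they are conjugate in SU_n(q); they are conjugate in SL_n(F); the matrices a − 1 and b − 1 have the same rank. -/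
theorem result {F : Type*} [Field F] [Fintype F] [CharP F 2] {n q : ℕ} (hF : Fintype.card F = q ^ 2) (hn : 3 ≤ n) (a b : ↥(Cfsg.SU n F q)) (ha : orderOf a = 2) (hb : orderOf b = 2) :
    (IsConj a b ↔ IsConj (a : Matrix.SpecialLinearGroup (Fin n) F) (b : Matrix.SpecialLinearGroup (Fin n) F)) ∧
    (IsConj a b ↔ (((a : Matrix.SpecialLinearGroup (Fin n) F) : Matrix (Fin n) (Fin n) F) - 1).rank = (((b : Matrix.SpecialLinearGroup (Fin n) F) : Matrix (Fin n) (Fin n) F) - 1).rank) := by
  have o := S2162.result hn a.1 b.1 (by simpa) (by simpa)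
  suffices h : _ from ⟨h, h.trans o⟩
  refine ⟨(Subgroup.subtype _).map_isConj, fun h => su_conj hF (SpecialLinearGroup.coeMonoidHom.map_isConj h) fun c hc => ?_⟩
  obtain ⟨d, e⟩ := sq_of_two CharTwo.two_eq_zero c.1
  have d0 : d ≠ 0 := fun k => c.ne_zero (by simp [e, k])
  obtain ⟨x, h⟩ := (hermF_nondeg n hF).exists_det_sq (conj_ne_id hF) (suEquiv n hF a).2.1
    (fun k => by simp [show a = 1 from (suEquiv n hF).map_eq_one_iff.1 (Subtype.ext k)] at ha) (d := .mk0 d d0) (by
      rintro _ ⟨x, rfl⟩
      have : (suEquiv n hF a).1 ((suEquiv n hF a).1 x) = x := by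
        rw [← LinearEquiv.mul_apply, ← Subgroup.coe_mul, ← map_mul, ← sq, ← ha, pow_orderOf_eq_one, map_one]; rfl
      rw [mem_fixSp]; simp only [LinearMap.sub_apply, LinearEquiv.coe_coe, LinearMap.id_apply, map_sub, this]
      ext; simp [CharTwo.sub_eq_add, add_comm]) (by
      rw [e, map_mul] at hc
      exact sub_eq_zero.1 (pow_eq_zero_iff two_ne_zero |>.1 (by
        simp only [Units.val_mk0]; linear_combination hc + (1 - d * conj hF d) * (CharTwo.two_eq_zero (R := F)))))
  exact ⟨x, h.1, h.2.1, h.2.2.trans (Units.ext (by simp [e, sq]))⟩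


end Cfsg.Agent.S2164
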