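import Cfsg.Statements.S2165
import Cfsg.Agent.H5.Kinds

set_option autoImplicit false
open Cfsg

namespace Cfsg.Agent.S2165

open Matrix

/-- In SU_n(q), q even, n ≥ 3 (matrices of determinant 1 over the field with q² elements preserving Σ u_i v_i^q): for every ℓ with 1 ≤ ℓ and 2ℓ ≤ n, the permutation matrix of the involution of {0, …, n−1} exchanging i and n − ℓ + i for each i < ℓ lies in SU_n(q), has order 2, and differs from the identity by a matrix of rank ℓ. So every rank between 1 and n/2 occurs for involutions of SU_n(q). -/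
theorem result {F : Type*} [Field F] [Fintype F] [CharP F 2] {n q : ℕ} (hF : Fintype.card F = q ^ 2) (hn : 3 ≤ n) (ℓ : ℕ) (h1 : 1 ≤ ℓ) (h2 : 2 * ℓ ≤ n) :
    ∃ a : ↥(Cfsg.SU n F q), (((a : Matrix.SpecialLinearGroup (Fin n) F) : Matrix (Fin n) (Fin n) F) = Matrix.of (fun i j : Fin n => if (j.val < ℓ ∧ i.val = j.val + (n - ℓ)) ∨ (i.val < ℓ ∧ j.val = i.val + (n - ℓ)) ∨ (i = j ∧ ℓ ≤ i.val ∧ i.val < n - ℓ) then (1 : F) else 0)) ∧ orderOf a = 2 ∧ ((((a : Matrix.SpecialLinearGroup (Fin n) F) : Matrix (Fin n) (Fin n) F)) - 1).rank = ℓ := by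
  let σ : Fin n → Fin n := fun i => if h : i.val < ℓ then ⟨i + (n - ℓ), by omega⟩ else if h : n - ℓ ≤ i.val then ⟨i - (n - ℓ), by omega⟩ else i
  have σσ : Function.Involutive σ := fun i => by
    have := i.2
    have e : ∀ i, (σ i).val = if i.val < ℓ then i + (n - ℓ) else if n - ℓ ≤ i.val then i - (n - ℓ) else i := fun i => by
      simp only [σ]; split_ifs <;> rfl
    rw [Fin.ext_iff, e, e]; split_ifs <;> omega
  set A : Matrix (Fin n) (Fin n) F := Matrix.of (fun i j : Fin n => if (j.val < ℓ ∧ i.val = j.val + (n - ℓ)) ∨ (i.val < ℓ ∧ j.val = i.val + (n - ℓ)) ∨ (i = j ∧ ℓ ≤ i.val ∧ i.val < n - ℓ) then (1 : F) else 0)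
  have hA : A = (σσ.toPerm σ).permMatrix F := by
    ext i j
    simp only [A, of_apply, PEquiv.toMatrix_apply, Equiv.toPEquiv_apply, Function.Involutive.coe_toPerm, Option.mem_def, Option.some.injEq]
    congr 1
    simp only [σ]; split_ifs <;> simp_all [Fin.ext_iff] <;> omega
  have hv : ∀ v, A *ᵥ v = v ∘ σ := fun v => by rw [hA, permMatrix_mulVec]; rfl
  have sq : A * A = 1 := toLin'.injective (LinearMap.ext fun v => by simp [← mulVec_mulVec, hv, Function.comp_assoc, σσ.comp_self])
  have d : A.det = 1 := by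
    have := congrArg det sq
    rw [det_mul, det_one, mul_self_eq_one_iff, CharTwo.neg_eq] at this
    tauto
  have r : (A - 1).rank = ℓ := by
    let i1 : Fin ℓ → Fin n := fun k => ⟨k, by omega⟩
    let i2 : Fin ℓ → Fin n := fun k => ⟨k + (n - ℓ), by omega⟩
    refine le_antisymm ?_ ?_
    · have : A - 1 = (A - 1).submatrix id i1 * ((1 : Matrix _ _ F).submatrix i1 id - (1 : Matrix _ _ F).submatrix i2 id) := by
        ext i j
        have := j.2
        rw [mul_apply]
        by_cases c : j.val < ℓ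
        · rw [Finset.sum_eq_single ⟨j, c⟩ (fun k _ e => by
            simp [i1, i2, one_apply, Fin.ext_iff] at e ⊢; simp [e, show ¬ k.val + (n - ℓ) = j by omega]) (by simp)]
          simp [i1, i2, one_apply, Fin.ext_iff, show ¬ n - ℓ = 0 by omega]
        by_cases c' : n - ℓ ≤ j.val
        · rw [Finset.sum_eq_single ⟨j - (n - ℓ), by omega⟩ (fun k _ e => by
            simp [i1, i2, one_apply, Fin.ext_iff] at e ⊢
            simp [show ¬ k.val = j by omega, show ¬ k.val + (n - ℓ) = j by omega]) (by simp)]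
          simp [A, i1, i2, one_apply, Fin.ext_iff, c', c, show ¬ j.val - (n - ℓ) = j by omega]
          split_ifs <;> first | omega | simp
        · rw [Finset.sum_eq_zero fun k _ => by
            simp [i1, i2, one_apply, Fin.ext_iff, show ¬ k.val = j by omega, show ¬ k.val + (n - ℓ) = j by omega]]
          simp [A, one_apply, Fin.ext_iff]
          split_ifs <;> first | omega | simp
      rw [this]; exact (rank_mul_le_left _ _).trans (rank_le_width _)
    · have := rank_submatrix_le (A - 1) i2 i1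
      rwa [show (A - 1).submatrix i2 i1 = 1 by
        ext i j; simp [A, i1, i2, one_apply, Fin.ext_iff]; split_ifs <;> simp_all <;> omega, rank_one, Fintype.card_fin] at this
  refine ⟨⟨⟨A, d⟩, fun u v => ?_⟩, rfl, orderOf_eq_prime ((pow_two _).trans (Subtype.ext (Subtype.ext sq))) fun e => ?_, r⟩
  · change Cfsg.hermForm n F q (A *ᵥ u) (A *ᵥ v) = _
    rw [hv, hv]
    exact Equiv.sum_comp (σσ.toPerm σ) fun i => u i * v i ^ q
  have : A - 1 = 0 := sub_eq_zero.2 (congrArg (fun t => t.1.1) e)
  rw [this, rank_zero] at r; omega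


end Cfsg.Agent.S2165
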