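import Cfsg.Statements.S2166
import Cfsg.Agent.H5.Inv3

set_option autoImplicit false
open Cfsg

namespace Cfsg.Agent.S2166

open H5 H5.Form Module

/-- Conjugacy of involutions in the symplectic group Sp_{2m}(F), F a finite field of characteristic two, m ≥ 2 (Sp taken as the matrices A with A J Aᵀ = J, acting on column vectors, with the alternating form f(u, v) = u ⬝ (J v)). For an involution t write V(t) for the set of vectors v with f(v, t v) = 0 (a subspace). Two involutions a, b are conjugate in Sp_{2m}(F) exactly when a − 1 and b − 1 have the same rank and, in case that rank is even, V(a) and V(b) have the same number of elements. -/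
theorem result {F : Type*} [Field F] [Fintype F] [CharP F 2] {m : ℕ} (hm : 2 ≤ m) (a b : ↥(Matrix.symplecticGroup (Fin m) F)) (ha : orderOf a = 2) (hb : orderOf b = 2) :
    IsConj a b ↔ ((((a : ↥(Matrix.symplecticGroup (Fin m) F)) : Matrix (Fin m ⊕ Fin m) (Fin m ⊕ Fin m) F) - 1).rank = (((b : ↥(Matrix.symplecticGroup (Fin m) F)) : Matrix (Fin m ⊕ Fin m) (Fin m ⊕ Fin m) F) - 1).rank ∧
      (Even (((a : ↥(Matrix.symplecticGroup (Fin m) F)) : Matrix (Fin m ⊕ Fin m) (Fin m ⊕ Fin m) F) - 1).rank → Nat.card {v : Fin m ⊕ Fin m → F // Cfsg.sympForm m F v (Matrix.mulVec ((a : ↥(Matrix.symplecticGroup (Fin m) F)) : Matrix (Fin m ⊕ Fin m) (Fin m ⊕ Fin m) F) v) = 0} = Nat.card {v : Fin m ⊕ Fin m → F // Cfsg.sympForm m F v (Matrix.mulVec ((b : ↥(Matrix.symplecticGroup (Fin m) F)) : Matrix (Fin m ⊕ Fin m) (Fin m ⊕ Fin m) F) v) = 0})) := by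
  have c := c2_symp (CharTwo.two_eq_zero (R := F))
  have a2 := sq_of_order (spEquiv m) ha
  have b2 := sq_of_order (spEquiv m) hb
  rw [rank_sub_one (spEquiv_apply m a), rank_sub_one (spEquiv_apply m b), ← isConj_congr (spEquiv m), c.conj_iff (sympF_nondeg m) a2 b2]
  have k := c.card_iso (sympF_nondeg m) (spEquiv m a).2 a2
  have l := c.card_iso (sympF_nondeg m) (spEquiv m b).2 b2
  simp only [sympF_B, spEquiv_apply] at k l
  refine and_congr_right fun e => ⟨fun h _ => ?_, fun h => ?_⟩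
  · by_cases i : (sympF F m).Alt (spEquiv m a).1
    · exact (k.2.1 i).trans (l.2.1 (h.1 i)).symm
    · exact Nat.eq_of_mul_eq_mul_right Nat.card_pos ((k.1.resolve_left (mt k.2.2 i)).trans (l.1.resolve_left (mt l.2.2 (mt h.2 i))).symm)
  · exact ⟨fun i => l.2.2 ((h (c.alt_iff_ts (sympF_nondeg m) (spEquiv m a).2 a2 i).2).symm.trans (k.2.1 i)),
      fun i => k.2.2 ((h (e ▸ (c.alt_iff_ts (sympF_nondeg m) (spEquiv m b).2 b2 i).2)).trans (l.2.1 i))⟩


end Cfsg.Agent.S2166
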