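import Cfsg.Statements.S2172
import Cfsg.Agent.H5.Inv3

set_option autoImplicit false
open Cfsg

namespace Cfsg.Agent.S2172

open H5 H5.Form Module

/-- Splitting of involution classes from O to Ω for the hyperbolic quadratic form Q = Σ x_i y_i in dimension 2m over a finite field F of characteristic two, m ≥ 4. Let t, s be involutions of the commutator subgroup Ω that are conjugate in the full isometry group O. If it is not the case that t − 1 has rank m and Q(v + t v) = 0 for every vector v, then t and s are conjugate by an element of Ω. If t − 1 has rank m and Q(v + t v) = 0 for all v, then t and s are conjugate by an element of Ω exactly when the intersection of the images of t − 1 and s − 1 has even dimension (so the class of t in O meets at most two classes of Ω). -/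
theorem result {F : Type*} [Field F] [Fintype F] [CharP F 2] {m : ℕ} (hm : 4 ≤ m) (t s : ↥(Cfsg.isometryGroup F (Cfsg.quadFormPlus m F))) (ht : orderOf t = 2) (hs : orderOf s = 2) (htO : t ∈ Cfsg.Omega F (Cfsg.quadFormPlus m F)) (hsO : s ∈ Cfsg.Omega F (Cfsg.quadFormPlus m F)) (hconj : IsConj t s) :
    (¬ (((((t : ↥(Cfsg.isometryGroup F (Cfsg.quadFormPlus m F))) : GL (Fin m ⊕ Fin m) F) : Matrix (Fin m ⊕ Fin m) (Fin m ⊕ Fin m) F) - 1).rank = m ∧ ∀ v : Fin m ⊕ Fin m → F, Cfsg.quadFormPlus m F (v + Matrix.mulVec (((t : ↥(Cfsg.isometryGroup F (Cfsg.quadFormPlus m F))) : GL (Fin m ⊕ Fin m) F) : Matrix (Fin m ⊕ Fin m) (Fin m ⊕ Fin m) F) v) = 0) →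
      ∃ g ∈ Cfsg.Omega F (Cfsg.quadFormPlus m F), g * t * g⁻¹ = s) ∧
    ((((((t : ↥(Cfsg.isometryGroup F (Cfsg.quadFormPlus m F))) : GL (Fin m ⊕ Fin m) F) : Matrix (Fin m ⊕ Fin m) (Fin m ⊕ Fin m) F) - 1).rank = m ∧ ∀ v : Fin m ⊕ Fin m → F, Cfsg.quadFormPlus m F (v + Matrix.mulVec (((t : ↥(Cfsg.isometryGroup F (Cfsg.quadFormPlus m F))) : GL (Fin m ⊕ Fin m) F) : Matrix (Fin m ⊕ Fin m) (Fin m ⊕ Fin m) F) v) = 0) →
      ((∃ g ∈ Cfsg.Omega F (Cfsg.quadFormPlus m F), g * t * g⁻¹ = s) ↔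
        Even (Module.finrank F ↥(LinearMap.range (Matrix.toLin' ((((t : ↥(Cfsg.isometryGroup F (Cfsg.quadFormPlus m F))) : GL (Fin m ⊕ Fin m) F) : Matrix (Fin m ⊕ Fin m) (Fin m ⊕ Fin m) F) - 1)) ⊓ LinearMap.range (Matrix.toLin' ((((s : ↥(Cfsg.isometryGroup F (Cfsg.quadFormPlus m F))) : GL (Fin m ⊕ Fin m) F) : Matrix (Fin m ⊕ Fin m) (Fin m ⊕ Fin m) F) - 1)))))) := by
  have h : (plusF F m).OGood := good_plus (.inr (by omega))
  have h2 := CharTwo.two_eq_zero (R := F)
  have c := c2_orth h2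
  have t2 := sq_of_order (oEquiv (plusF F m)) ht
  have a : (∀ v, quadFormPlus m F (v + t.1.1.mulVec v) = 0) ↔ (plusF F m).Alt (oEquiv (plusF F m) t).1 := forall_congr' fun v => by
    rw [add_comm, ← sub_neg_eq_add, neg_eq_of_add_eq_zero_left (c.add_self v)]; exact (c.Q_nu (oEquiv (plusF F m) t).2 v).congr_left
  have k := (isConj_congr (oEquiv (plusF F m))).2 hconj
  erw [a, rank_sub_one (oEquiv_apply (plusF F m) t), exists_omega_conj (plusF F m)]
  refine ⟨fun l => h.nd.conj_Om h2 h.RG t2 (fun i => l ⟨Nat.eq_of_mul_eq_mul_left two_pos (i.1.trans (by simp [two_mul])), i.2⟩) k, fun l => ?_⟩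
  obtain ⟨i, j⟩ := c.alt_iff_ts h.nd (oEquiv (plusF F m) t).2 t2 l.2
  have e : 2 * finrank F (mv (oEquiv (plusF F m) t).1) = finrank F (Fin m ⊕ Fin m → F) := (congrArg _ l.1).trans (by simp [two_mul])
  rw [h.conj_top h2 i e t2 l.2 e k, inf_idem, Nat.sub_self, Nat.even_sub (Submodule.finrank_mono inf_le_left), map_sub, map_sub, Matrix.toLin'_one]
  simp only [j, Even.zero, true_iff]; rfl


end Cfsg.Agent.S2172
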