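import Cfsg.Statements.S2173
import Cfsg.Agent.H5.Inv3

set_option autoImplicit false
open Cfsg

namespace Cfsg.Agent.S2173

open H5 H5.Form Module

/-- For the quadratic form Σ x_i y_i + (z₁² + c z₁ z₂ + d z₂²) in dimension 2m with anisotropic binary part over a finite field F of characteristic two, m ≥ 4 (minus type): two involutions of the commutator subgroup Ω that are conjugate in the full isometry group O are conjugate by an element of Ω (no class of involutions of O inside Ω splits). -/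
theorem result {F : Type*} [Field F] [Fintype F] [CharP F 2] {m : ℕ} (hm : 4 ≤ m) (c d : F) (hcd : ∀ z₁ z₂ : F, z₁ ^ 2 + c * z₁ * z₂ + d * z₂ ^ 2 = 0 → z₁ = 0 ∧ z₂ = 0) (t s : ↥(Cfsg.isometryGroup F (Cfsg.quadFormMinus (m - 1) F c d))) (ht : orderOf t = 2) (hs : orderOf s = 2) (htO : t ∈ Cfsg.Omega F (Cfsg.quadFormMinus (m - 1) F c d)) (hsO : s ∈ Cfsg.Omega F (Cfsg.quadFormMinus (m - 1) F c d)) (hconj : IsConj t s) :
    ∃ g ∈ Cfsg.Omega F (Cfsg.quadFormMinus (m - 1) F c d), g * t * g⁻¹ = s := by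
  have h : (minusF (m - 1) c d).OGood := ⟨minusF_nondeg _ (disc_ne_zero_of_aniso hcd), .inr (by simp; omega)⟩
  have h2 := CharTwo.two_eq_zero (R := F)
  have t2 := sq_of_order (oEquiv (minusF (m - 1) c d)) ht
  refine (exists_omega_conj (minusF (m - 1) c d)).2 (h.nd.conj_Om h2 h.RG t2 (fun l => minusF_not_hasTS (m - 1) hcd
    ⟨_, ?_, ((c2_orth h2).alt_iff_ts h.nd (oEquiv (minusF (m - 1) c d) t).2 t2 l.2).1⟩) ((isConj_congr (oEquiv (minusF (m - 1) c d))).2 hconj))
  have := l.1; simp at this; omega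


end Cfsg.Agent.S2173
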