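import Cfsg.Statements.S2179
import Cfsg.Agent.H6.InvF4

set_option autoImplicit false
open Cfsg

namespace Cfsg.Agent.S2179

/-- Centralizers of the two remaining classes of involutions in the Chevalley group G of type F₄ over a finite field F of characteristic two (this problem's root numbering for type F₄, from the Chevalley data module: p₁, p₂ short, p₃, p₄ long with indices 33, 27, 25, 24 and negatives 14, 20, 22, 23; U generated by the positive root subgroups). For an element of G with matrix x_47(1)x_44(1) (highest root times highest short root): its centralizer in G is generated by U, X_{−p₂} and X_{−p₃}. For an element of G with matrix x_39(1)x_45(1) (roots (1,2,2,1) and (2,4,2,1), an orthogonal short/long pair): its centralizer in G is generated by X_{p₁}, X_{−p₁}, X_{p₄}, X_{−p₄} and the root subgroups of all positive roots other than p₂ (27), p₃ (25), p₁ + p₂ (34) and p₃ + p₄ (26). -/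
theorem result {F : Type*} [Field F] [Fintype F] [CharP F 2] (w v : GL Cfsg.Lie.chevF4.Idx F) (hw : (w : Matrix Cfsg.Lie.chevF4.Idx Cfsg.Lie.chevF4.Idx F) = Cfsg.Lie.chevF4.x F 47 1 * Cfsg.Lie.chevF4.x F 44 1) (hv : (v : Matrix Cfsg.Lie.chevF4.Idx Cfsg.Lie.chevF4.Idx F) = Cfsg.Lie.chevF4.x F 39 1 * Cfsg.Lie.chevF4.x F 45 1) :
    Cfsg.Lie.chevF4.group F ⊓ Subgroup.centralizer {w} = Cfsg.Lie.chevF4.posUnipotent F ⊔ Cfsg.Lie.chevF4.rootSubgroup F 20 ⊔ Cfsg.Lie.chevF4.rootSubgroup F 22 ∧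
    Cfsg.Lie.chevF4.group F ⊓ Subgroup.centralizer {v} = Cfsg.Lie.chevF4.rootSubgroup F 33 ⊔ Cfsg.Lie.chevF4.rootSubgroup F 14 ⊔ Cfsg.Lie.chevF4.rootSubgroup F 24 ⊔ Cfsg.Lie.chevF4.rootSubgroup F 23 ⊔
      Subgroup.closure {g : GL Cfsg.Lie.chevF4.Idx F | ∃ (r : ℕ) (c : F), Cfsg.Lie.chevF4.IsPosRoot r ∧ r ∉ [27, 25, 34, 26] ∧ (g : Matrix Cfsg.Lie.chevF4.Idx Cfsg.Lie.chevF4.Idx F) = Cfsg.Lie.chevF4.x F r c} := by
  open H6 H6.Chev H6.Chev.F4 Cfsg.Lie in
  obtain ⟨X, hX, -⟩ : ∃ X : Tw (certF4.sys F) symF4, (∀ r t, X.φ r t = RingHom.id F t ^ grF4.lam r) ∧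
      ∀ r t, X.φ (certF4.R.neg r) (-t) = - X.φ r t :=
    exists_twB grF4OK grF4S symF4C (rk2_of_mem (by simp) _) Nat.prime_two grF4B (by decide +kernel) _
  open H6 H6.Chev H6.Chev.F4 Cfsg.Lie in
  have e1 : w = (certF4.sys F).w1 [rt 47, rt 44] := Units.ext (by simp [hw, StSys.w1, StSys.wd]; rfl)
  open H6 H6.Chev H6.Chev.F4 Cfsg.Lie in
  have e2 : v = (certF4.sys F).w1 [rt 39, rt 45] := Units.ext (by simp [hv, StSys.w1, StSys.wd]; rfl)
  open H6 H6.Chev H6.Chev.F4 Cfsg.Lie in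
  have h := fun i => certF4.rootSubgroup_eq (F := F) (rt i)
  open H6 H6.Chev H6.Chev.F4 Cfsg.Lie in
  have hc := certF4.closure_eq_U (F := F) (p := fun r => chevF4.IsPosRoot r ∧ r ∉ [27, 25, 34, 26])
    (T := T4) (fun _ h => h.1.1) fun r => by
      rw [certF4.isPosRoot_iff]; refine and_congr_right fun _ => ?_; revert r; decide
  simp only [and_assoc] at hc
  open H6 H6.Chev H6.Chev.F4 Cfsg.Lie in
  rw [e1, e2, certF4.group_eq, cent3 certF4.r3, cent4 (X := X) (fun r => by simp [hX]) certF4.r3,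
    certF4.posUnipotent_eq, hc, show chevF4.rootSubgroup F 20 = _ from h 20,
    show chevF4.rootSubgroup F 22 = _ from h 22, show chevF4.rootSubgroup F 33 = _ from h 33,
    show chevF4.rootSubgroup F 14 = _ from h 14, show chevF4.rootSubgroup F 24 = _ from h 24,
    show chevF4.rootSubgroup F 23 = _ from h 23, sup_assoc]
  open H6 H6.Chev H6.Chev.F4 Cfsg.Lie in
  simp only [← StSys.U_union]
  refine ⟨rfl, congrArg _ (Set.ext fun r => ?_)⟩
  simp only [H6.Chev.F4.T4, Set.mem_union, Set.mem_insert_iff, Set.mem_singleton_iff, Set.mem_setOf_eq]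
  revert r; decide +kernel

end Cfsg.Agent.S2179
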