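import Cfsg.Statements.S2180
import Cfsg.Agent.H6.InvG2

set_option autoImplicit false
open Cfsg

namespace Cfsg.Agent.S2180

/-- Centralizers of involutions in the Chevalley group G of type G₂ over a finite field F of characteristic two with at least four elements (this problem's root numbering for type G₂, from the Chevalley data module: a = p₁ short with index 7, b = p₂ long with index 6, −a = 4, −b = 5, 2a + b = 9, 3a + b = 10, 3a + 2b = 11; U generated by the positive root subgroups). For an element z of G with matrix x_{3a+2b}(1): the centralizer of z in G is generated by U and X_{−a}. For an element t of G with matrix x_{2a+b}(1): the centralizer of t in G is generated by X_{2a+b}, X_{3a+b}, X_{3a+2b}, X_b and X_{−b}. -/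
theorem result {F : Type*} [Field F] [Fintype F] [CharP F 2] (hF : 4 ≤ Fintype.card F) (z t : GL Cfsg.Lie.chevG2.Idx F) (hz : (z : Matrix Cfsg.Lie.chevG2.Idx Cfsg.Lie.chevG2.Idx F) = Cfsg.Lie.chevG2.x F 11 1) (ht : (t : Matrix Cfsg.Lie.chevG2.Idx Cfsg.Lie.chevG2.Idx F) = Cfsg.Lie.chevG2.x F 9 1) :
    Cfsg.Lie.chevG2.group F ⊓ Subgroup.centralizer {z} = Cfsg.Lie.chevG2.posUnipotent F ⊔ Cfsg.Lie.chevG2.rootSubgroup F 4 ∧
    Cfsg.Lie.chevG2.group F ⊓ Subgroup.centralizer {t} = Cfsg.Lie.chevG2.rootSubgroup F 9 ⊔ Cfsg.Lie.chevG2.rootSubgroup F 10 ⊔ Cfsg.Lie.chevG2.rootSubgroup F 11 ⊔ Cfsg.Lie.chevG2.rootSubgroup F 6 ⊔ Cfsg.Lie.chevG2.rootSubgroup F 5 := by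
  open H6 H6.Chev H6.Chev.G2 Cfsg.Lie in
  have e1 : z = (certG2.sys F).x (rt 11) 1 := Units.ext hz
  open H6 H6.Chev H6.Chev.G2 Cfsg.Lie in
  have e2 : t = (certG2.sys F).x (rt 9) 1 := Units.ext ht
  open H6 H6.Chev H6.Chev.G2 Cfsg.Lie in
  have h := fun i => certG2.rootSubgroup_eq (F := F) (rt i)
  open H6 H6.Chev H6.Chev.G2 Cfsg.Lie in
  rw [e1, e2, certG2.group_eq, cent11 certG2.r3, cent9 certG2.r3,
    certG2.posUnipotent_eq, show chevG2.rootSubgroup F 4 = _ from h 4,
    show chevG2.rootSubgroup F 9 = _ from h 9, show chevG2.rootSubgroup F 10 = _ from h 10,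
    show chevG2.rootSubgroup F 11 = _ from h 11, show chevG2.rootSubgroup F 6 = _ from h 6,
    show chevG2.rootSubgroup F 5 = _ from h 5]
  simp only [← H6.StSys.U_union]
  refine ⟨trivial, congrArg _ (Set.ext fun r => ?_)⟩
  simp only [Set.mem_union, Set.mem_insert_iff, Set.mem_singleton_iff, or_assoc]

end Cfsg.Agent.S2180
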