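import Cfsg.Statements.S2197
import Cfsg.Agent.H8.XTi2
import Cfsg.Agent.H8.YTi
-- import your own Cfsg.Agent.* helpers here

set_option autoImplicit false
set_option maxRecDepth 200000
open Cfsg

namespace Cfsg.Agent.S2197

open MulAction in
theorem burn {G Ω : Type*} [Group G] [Finite G] [Fintype Ω] [MulAction G Ω] [FaithfulSMul G Ω] {p q : ℕ} (hp : p.Prime) (hq : 1 < q)
    (h : (∃ Q : Subgroup G, Nat.card Q = q ∧ ∀ x : Q, x ^ p = 1) ∧ ∃ a : G, ∀ x : G, orderOf x = p → IsConj a x) :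
    ∃ f < Fintype.card Ω, q ∣ Fintype.card Ω + (q - 1) * f ∧
      ∀ d, (∀ ω : Ω, ∀ e, e ∣ q → e ∣ Nat.card (stabilizer G ω) → e ≤ d) → Fintype.card Ω + (q - 1) * f ≤ Fintype.card Ω * d := by
  classical
  obtain ⟨⟨Q, h1, h2⟩, a, ha⟩ := h
  haveI := Fact.mk hp
  haveI := Fintype.ofFinite Q
  have k : ∀ x : Q, x ≠ 1 → Nat.card (fixedBy Ω x) = Nat.card (fixedBy Ω a) := fun x hx => by
    obtain ⟨c, hc⟩ := isConj_iff.1 (ha x (by rw [Subgroup.orderOf_coe]; exact orderOf_eq_prime (h2 x) hx))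
    have : fixedBy Ω x = fixedBy Ω (x : G) := rfl
    rw [this, ← hc, ← smul_fixedBy, Nat.card_coe_set_eq, Nat.card_coe_set_eq, Set.ncard_smul_set]
  have s : ∑ x : Q, Fintype.card (fixedBy Ω x) = Fintype.card Ω + (q - 1) * Nat.card (fixedBy Ω a) := by
    rw [← Finset.add_sum_erase _ _ (Finset.mem_univ 1), Finset.sum_congr rfl fun x hx =>
      (Nat.card_eq_fintype_card.symm.trans (k x (Finset.ne_of_mem_erase hx))), Finset.sum_const, Finset.card_erase_of_mem (Finset.mem_univ _),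
      Finset.card_univ, ← Nat.card_eq_fintype_card (α := Q), h1]
    simp
  refine ⟨Nat.card (fixedBy Ω a), ?_, ?_, fun d hd => ?_⟩
  · haveI : Nontrivial Q := Finite.one_lt_card_iff_nontrivial.1 (h1 ▸ hq)
    obtain ⟨x, hx⟩ := exists_ne (1 : Q)
    rw [← k x hx, Nat.card_eq_fintype_card]
    obtain ⟨ω, hω⟩ := not_forall.1 fun h : ∀ ω : Ω, (x : G) • ω = ω =>
      hx (Subtype.ext (eq_of_smul_eq_smul (M := G) (α := Ω) fun ω => (h ω).trans (one_smul _ _).symm))
    exact Fintype.card_subtype_lt (x := ω) hω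
  · haveI := Fintype.ofFinite (orbitRel.Quotient Q Ω)
    rw [← s, sum_card_fixedBy_eq_card_orbits_mul_card_group, ← Nat.card_eq_fintype_card (α := Q), h1]
    exact Dvd.intro_left _ rfl
  · have : ∑ x : Q, Fintype.card (fixedBy Ω x) = ∑ ω : Ω, Nat.card (stabilizer Q ω) := by
      simp only [Nat.card_eq_fintype_card, Fintype.card_subtype, Finset.card_filter, mem_fixedBy, mem_stabilizer_iff]
      exact Finset.sum_comm
    rw [← s, this, ← Finset.card_univ, ← smul_eq_mul]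
    refine Finset.sum_le_card_nsmul _ _ _ fun ω _ => hd ω _ (h1 ▸ Subgroup.card_subgroup_dvd_card _) ?_
    exact Subgroup.card_dvd_of_injective ((Q.subtype.comp (stabilizer Q ω).subtype).codRestrict (stabilizer G ω) fun x => x.2)
      fun x y h => Subtype.ext (Subtype.ext (congrArg Subtype.val h :))
open MulAction in
theorem key {G Ω : Type*} [Group G] [Fintype Ω] [MulAction G Ω] [FaithfulSMul G Ω] (hG : Nat.card G = 17971200)
    (c5 : (∃ Q : Subgroup G, Nat.card Q = 25 ∧ ∀ x : Q, x ^ 5 = 1) ∧ ∃ a : G, ∀ x : G, orderOf x = 5 → IsConj a x)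
    (c3 : (∃ Q : Subgroup G, Nat.card Q = 27 ∧ ∀ x : Q, x ^ 3 = 1) ∧ ∃ a : G, ∀ x : G, orderOf x = 3 → IsConj a x)
    (f39 : ∃ x y : G, orderOf x = 13 ∧ orderOf y = 3 ∧ y * x = x ^ 3 * y) (hΩ : 3 ≤ Fintype.card Ω) :
    ¬ IsMultiplyPretransitive G Ω 2 := fun h => by
  classical
  haveI : Finite G := Nat.finite_of_card_ne_zero (by rw [hG]; norm_num)
  haveI : Nontrivial Ω := Fintype.one_lt_card_iff_nontrivial.1 (by omega)
  obtain ⟨a, b, hab⟩ := exists_pair_ne Ω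
  have h1 := h.index_of_fixingSubgroup_mul (Set.ncard_pair hab)
  haveI : IsPretransitive G Ω := isPretransitive_of_is_two_pretransitive
  have h2 : ∀ ω : Ω, Fintype.card Ω * Nat.card (stabilizer G ω) = 17971200 := fun ω => by
    rw [← hG, ← Nat.card_eq_fintype_card, ← index_stabilizer_of_transitive G ω, Subgroup.index_mul_card]
  obtain ⟨f5, a5, b5, d5⟩ := burn (Ω := Ω) (by norm_num) (by norm_num) c5
  obtain ⟨f3, a3, b3, -⟩ := burn (Ω := Ω) (by norm_num) (by norm_num) c3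
  rw [Nat.card_eq_fintype_card] at h1
  obtain ⟨m, hm⟩ : ∃ m, Fintype.card Ω = m + 2 := ⟨Fintype.card Ω - 2, by omega⟩
  have h3 : (m + 2) * (m + 1) ∣ 17971200 := by
    rw [hm, Nat.add_sub_cancel, Nat.factorial_succ, Nat.factorial_succ, ← mul_assoc] at h1
    rw [← Nat.eq_of_mul_eq_mul_right m.factorial_pos h1, ← hG]
    exact Subgroup.index_dvd_card _
  have h4 : m < 4300 := by have := Nat.le_of_dvd (by norm_num) h3; nlinarith
  have h5 := (show ∀ m < 4300, (m + 2) * (m + 1) ∣ 17971200 → m < 25 ∨ m = 25 ∨ m = 38 ∨ m = 63 by decide +kernel) m h4 h3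
  have h6 : m = 38 ∨ m = 63 → False := fun h => by
    have := d5 5 fun ω e h1 h3 => by
      obtain ⟨i, hi, rfl⟩ := (Nat.dvd_prime_pow (p := 5) (m := 2) (by norm_num)).1 h1
      have := h2 ω
      interval_cases i
      · norm_num
      · norm_num
      · obtain ⟨c, hc⟩ := h3
        rw [hc, hm] at this
        rcases h with rfl | rfl <;> omega
    omega
  have hm' : Fintype.card Ω = 27 := by
    rcases h5 with h | h | h | h
    exacts [by omega, by omega, (h6 (.inl h)).elim, (h6 (.inr h)).elim]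
  obtain ⟨x, y, hx, hy, e⟩ := f39
  haveI : Fact (Nat.Prime 13) := ⟨by norm_num⟩
  have hx' : x ^ 13 = 1 := hx ▸ pow_orderOf_eq_one x
  have hy' : y ^ 3 = 1 := hy ▸ pow_orderOf_eq_one y
  have k : ∀ ω : fixedBy Ω x, y • (ω : Ω) ∈ fixedBy Ω x := fun ω => by
    have : (x ^ 3) • y • (ω : Ω) = y • (ω : Ω) := by rw [← mul_smul, ← e, mul_smul, ω.2]
    have h7 : x = (x ^ 3) ^ 9 := by rw [← pow_mul, show 3 * 9 = 13 * 2 + 1 by rfl, pow_succ, pow_mul, hx', one_pow, one_mul]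
    have h8 := pow_mem (show x ^ 3 ∈ stabilizer G (y • (ω : Ω)) from this) 9
    rwa [← h7] at h8
  have m1 := Equiv.Perm.card_fixedPoints_modEq (f := fun ω : Ω => x • ω) (p := 13) (n := 1) (funext fun ω => by
    show ((fun ω : Ω => x • ω)^[13]) ω = ω
    rw [smul_iterate, hx']; exact one_smul _ _)
  have m2 := Equiv.Perm.card_fixedPoints_modEq (α := fixedBy Ω x) (f := fun ω => ⟨_, k ω⟩) (p := 3) (n := 1) (funext fun ω => Subtype.ext (by
    show y • y • y • (ω : Ω) = ω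
    rw [← mul_smul, ← mul_smul, ← pow_three', hy', one_smul]))
  have m3 : Fintype.card (Function.fixedPoints (fun ω : fixedBy Ω x => (⟨_, k ω⟩ : fixedBy Ω x))) = 0 := by
    rw [Fintype.card_eq_zero_iff]
    refine ⟨fun ⟨ω, h⟩ => ?_⟩
    have := orderOf_dvd_natCard (⟨y, congrArg Subtype.val h⟩ : stabilizer G (ω : Ω))
    rw [← Subgroup.orderOf_coe, hy] at this
    have h7 := h2 ω
    rw [hm'] at h7
    omega
  have m4 : Fintype.card (fixedBy Ω x) < Fintype.card Ω := by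
    have hx1 : x ≠ 1 := by rintro rfl; simp at hx
    obtain ⟨ω, hω⟩ := not_forall.1 fun h : ∀ ω : Ω, x • ω = ω => hx1 (eq_of_smul_eq_smul (α := Ω) fun ω => (h ω).trans (one_smul _ _).symm)
    exact Fintype.card_subtype_lt (x := ω) hω
  have m5 : Fintype.card (Function.fixedPoints fun ω : Ω => x • ω) = Fintype.card (fixedBy Ω x) := Fintype.card_congr (Equiv.refl _)
  erw [m3] at m2
  erw [m5, hm'] at m1
  unfold Nat.ModEq at m1 m2
  omega
theorem tr {G H : Type*} [Group G] [Group H] (e : G ≃* H) {p q : ℕ}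
    (h : (∃ Q : Subgroup G, Nat.card Q = q ∧ ∀ x : Q, x ^ p = 1) ∧ ∃ a : G, ∀ x : G, orderOf x = p → IsConj a x) :
    (∃ Q : Subgroup H, Nat.card Q = q ∧ ∀ x : Q, x ^ p = 1) ∧ ∃ a : H, ∀ x : H, orderOf x = p → IsConj a x := by
  obtain ⟨⟨Q, h1, h2⟩, a, ha⟩ := h
  refine ⟨⟨Q.map (e : G →* H), (Nat.card_congr (e.subgroupMap Q).toEquiv).symm.trans h1, fun x => ?_⟩, e a, fun x hx => ?_⟩
  · obtain ⟨y, rfl⟩ := (e.subgroupMap Q).surjective x
    rw [← map_pow, h2, map_one]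
  · simpa using e.toMonoidHom.map_isConj (ha (e.symm x) (by rw [MulEquiv.orderOf_eq, hx]))
theorem key2 {G H Ω : Type*} [Group G] [Group H] (e' : Nonempty (G ≃* H)) [Fintype Ω] [MulAction G Ω] [FaithfulSMul G Ω] (hG : Nat.card G = 17971200)
    (c5 : (∃ Q : Subgroup H, Nat.card Q = 25 ∧ ∀ x : Q, x ^ 5 = 1) ∧ ∃ a : H, ∀ x : H, orderOf x = 5 → IsConj a x)
    (c3 : (∃ Q : Subgroup H, Nat.card Q = 27 ∧ ∀ x : Q, x ^ 3 = 1) ∧ ∃ a : H, ∀ x : H, orderOf x = 3 → IsConj a x)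
    (f39 : ∃ x y : H, orderOf x = 13 ∧ orderOf y = 3 ∧ y * x = x ^ 3 * y) (hΩ : 3 ≤ Fintype.card Ω) :
    ¬ MulAction.IsMultiplyPretransitive G Ω 2 :=
  let e := e'.some.symm
  let ⟨x, y, h1, h2, h3⟩ := f39
  key hG (tr e c5) (tr e c3) ⟨e x, e y, (e.orderOf_eq x).trans h1, (e.orderOf_eq y).trans h2, by rw [← map_pow, ← map_mul, ← map_mul, h3]⟩ hΩ

/-- The Tits group (the commutator subgroup of ²F₄(2)) has no faithful 2-transitive action on a finite set with more than two points. -/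
theorem result {Ω : Type*} [Fintype Ω] [MulAction Cfsg.Lie.TitsGroup Ω] [FaithfulSMul Cfsg.Lie.TitsGroup Ω] (hΩ : 3 ≤ Fintype.card Ω) :
    ¬ MulAction.IsMultiplyPretransitive Cfsg.Lie.TitsGroup Ω 2 := by
  have := @key2 Lie.TitsGroup H8.Ti.P Ω _ _ H8.Ti.iso
  have := @this _ _ _ H8.Ti.tcard H8.Ti.cls5 H8.Ti.cls3 H8.Ti.f39 hΩ
  exact this

end Cfsg.Agent.S2197
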