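import Cfsg.Statements.S2202
import Cfsg.Agent.H3.Ab5

set_option autoImplicit false
open Cfsg

namespace Cfsg.Agent.S2202

open H3 SE

/-- Finite groups in which the centralizer of every involution is abelian. Let G be a finite group of even order in which the centralizer of every element of order 2 is abelian. Then the Sylow 2-subgroups of G are cyclic, or a Sylow 2-subgroup of G is normal, or G is isomorphic to the direct product of SL₂(F) for a finite field F of characteristic two and an abelian group of odd order. -/
theorem result {G : Type*} [Group G] [Finite G] (heven : Even (Nat.card G)) (h : ∀ t : G, orderOf t = 2 → IsMulCommutative ↥(Subgroup.centralizer ({t} : Set G))) :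
    (∀ P : Sylow 2 G, IsCyclic ↥P) ∨ (∀ P : Sylow 2 G, (P : Subgroup G).Normal) ∨
    (∃ (F : Type) (_ : Field F) (_ : Fintype F) (A : Type) (_ : CommGroup A) (_ : Finite A), CharP F 2 ∧ Odd (Nat.card A) ∧ Nonempty (G ≃* Matrix.SpecialLinearGroup (Fin 2) F × A)) := by
  haveI : Fact (Nat.Prime 2) := ⟨Nat.prime_two⟩
  refine or_iff_not_imp_left.2 fun a => or_iff_not_imp_left.2 fun b => ?_
  obtain ⟨P, a⟩ := not_forall.1 a
  obtain ⟨k, -⟩ := ac_of_sylow (fun t i a b p q => H1.comm_of_mem (h t (inv_iff_orderOf.1 i)) (mem_Cz.2 p) (mem_Cz.2 q)) P a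
    fun n => b fun Q => by
      haveI := Sylow.unique_of_normal P n
      rwa [Subsingleton.elim Q P]
  obtain ⟨a, F, _, _, c, d, ⟨e⟩⟩ := k.main
  letI : CommGroup (Subgroup.center G) := { (inferInstance : Group _) with
    mul_comm := fun a b => Subtype.ext (Subgroup.mem_center_iff.1 b.2 a) }
  exact ⟨F, inferInstance, inferInstance, Shrink.{0} (Subgroup.center G), inferInstance, inferInstance,
    CharTwo.of_one_ne_zero_of_two_eq_zero one_ne_zero (two_eq_zero (by omega) d),
    by rw [← Nat.card_congr (equivShrink.{0} (Subgroup.center G))]; exact k.odd_center,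
    ⟨e.trans ((MulEquiv.refl _).prodCongr (equivShrink.{0} (Subgroup.center G)).symm.mulEquiv.symm)⟩⟩

end Cfsg.Agent.S2202
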