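import Cfsg.Statements.S2214
import Cfsg.Agent.H6.Sub

set_option autoImplicit false
open Cfsg

namespace Cfsg.Agent.S2214

/-- Let k be an algebraically closed field of prime characteristic p, G the adjoint Chevalley group of type G₂, B₂, D₄, F₄, E₆, E₇ or E₈ over k (the matrix group generated by the root elements x_s(t), t ∈ k, acting on the Lie algebra), q = p^a with a ≥ 1, and K a subgroup of G containing every root element x_s(t) with t^q = t and consisting of matrices all of whose entries c satisfy c^q = c. Then the centralizer of K in G is trivial, and the normalizer of K in G is exactly the set of elements of G all of whose entries c satisfy c^q = c. -/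
theorem result {k : Type*} [Field k] [IsAlgClosed k] (p : ℕ) [Fact p.Prime] [CharP k p] (D : Cfsg.Lie.ChevalleyDatum) (hD : D ∈ [Cfsg.Lie.chevG2, Cfsg.Lie.chevB2, Cfsg.Lie.chevD4, Cfsg.Lie.chevF4, Cfsg.Lie.chevE6, Cfsg.Lie.chevE7, Cfsg.Lie.chevE8]) (a : ℕ) (ha : 1 ≤ a) (K : Subgroup (GL D.Idx k)) (hKG : K ≤ D.group k)
    (hLK : Subgroup.closure {g : GL D.Idx k | ∃ (s : ℕ) (t : k), t ^ (p ^ a) = t ∧ (g : Matrix D.Idx D.Idx k) = D.x k s t} ≤ K)
    (hKfix : ∀ g ∈ K, ∀ i j : D.Idx, ((g : Matrix D.Idx D.Idx k) i j) ^ (p ^ a) = (g : Matrix D.Idx D.Idx k) i j) :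
    D.group k ⊓ Subgroup.centralizer (K : Set (GL D.Idx k)) = ⊥ ∧
    ∀ g : GL D.Idx k, g ∈ D.group k → (g ∈ Subgroup.normalizer (K : Set (GL D.Idx k)) ↔ ∀ i j : D.Idx, ((g : Matrix D.Idx D.Idx k) i j) ^ (p ^ a) = (g : Matrix D.Idx D.Idx k) i j) := by
  open H6 H6.Chev Cfsg.Lie in
  obtain ⟨C⟩ := cert_of_mem hD
  let f := iterateFrobenius k p a
  let E := f.eqLocusField (RingHom.id k)
  have he : ∀ t, f t = t ↔ t ∈ E.subtype.range := fun t =>
    ⟨fun h => ⟨⟨t, h⟩, rfl⟩, fun ⟨u, hu⟩ => hu ▸ u.2⟩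
  have h1 : ((C.sys k).sub E.subtype).grp ≤ K := le_trans ((StSys.U_le_iff _).2 fun r _ t =>
    Subgroup.subset_closure (by exact ⟨r, t, t.2, C.sys_x r _⟩)) hLK
  have h2 : K ≤ (C.mapTw f).Fx := fun g hg => (C.mem_mapTw f).2 ⟨hKG hg, hKfix g hg⟩
  refine ⟨eq_bot_iff.2 fun g hg => ChevSys.eq_one_of_sub E.subtype C.adj (C.group_eq.le hg.1)
    fun u hu => ?_, fun g hg => ?_⟩
  · rw [← Subgroup.mem_centralizer_iff.1 hg.2 u (h1 hu)]; simp
  · rw [(C.mapTw f).normalizer_eq (f := f) (fun _ _ => rfl) he C.adj h1 h2 (C.group_eq.le hg),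
      C.mem_mapTw]
    exact and_iff_right hg

end Cfsg.Agent.S2214
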