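import Cfsg.Statements.S2231
import Cfsg.Agent.H5.SL2Cl

set_option autoImplicit false
open Cfsg

namespace Cfsg.Agent.S2231

open H5

/-- Let p be an odd prime and K a finite field of characteristic p. Then Qd(p) (the natural semidirect product of an elementary abelian group of order p² by SL₂(p)) is not involved in the projective special linear group PSL₂(K). -/
theorem result {p : ℕ} [Fact p.Prime] (hp : p ≠ 2) {K : Type*} [Field K] [Fintype K] [CharP K p] : ¬ Cfsg.Involves ↥(Cfsg.qd p) (Matrix.ProjectiveSpecialLinearGroup (Fin 2) K) := by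
  rintro ⟨H, R, _, ⟨e⟩⟩
  let φ : H →* Cfsg.qd p := e.toMonoidHom.comp (QuotientGroup.mk' _)
  have hφ : Function.Surjective φ := e.surjective.comp (QuotientGroup.mk'_surjective _)
  have : NeZero p := ⟨(Fact.out : p.Prime).ne_zero⟩
  obtain ⟨P⟩ : Nonempty (Sylow p H) := inferInstance
  obtain ⟨x, hx⟩ := le_UP_of_isPGroup p ((P.isPGroup'.map H.subtype).map psl)
  have h1 : ∀ a ∈ (P.mapSurjective hφ : Subgroup (Cfsg.qd p)), ∀ b ∈ (P.mapSurjective hφ : Subgroup (Cfsg.qd p)), a * b = b * a := by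
    rintro _ ⟨a, ha, rfl⟩ _ ⟨b, hb, rfl⟩
    rw [← map_mul, ← map_mul]
    exact congrArg _ (Subtype.ext (psl_inj (by
      simpa using UP_comm (hx ⟨a, ⟨a, ha, rfl⟩, rfl⟩) (hx ⟨b, ⟨b, hb, rfl⟩, rfl⟩))))
  let u : ZMod p × ZMod p × ZMod p → Cfsg.qd p := fun v =>
    ⟨⟨!![1, v.1, v.2.1; 0, 1, v.2.2; 0, 0, 1], by simp [Matrix.det_fin_three]⟩, Subgroup.subset_closure ⟨rfl, rfl, rfl⟩⟩
  have hu : ∀ v w, u v * u w = u (v.1 + w.1, w.2.1 + v.1 * w.2.2 + v.2.1, w.2.2 + v.2.2) := fun v w =>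
    Subtype.ext (Subtype.ext (show (u v).1.1 * (u w).1.1 = _ by simp [u, add_comm, add_left_comm]))
  have hu1 : u (0, 0, 0) = 1 := Subtype.ext (Subtype.ext (by simp [u, Matrix.one_fin_three]))
  have hi : Function.Injective u := fun v w h => by
    have h : (u v).1.1 = (u w).1.1 := congrArg (·.1.1) h
    simp only [u, EmbeddingLike.apply_eq_iff_eq, Matrix.vecCons_inj] at h
    exact Prod.ext h.1.2.1 (Prod.ext h.1.2.2.1 h.2.1.2.2.1)
  let U : Subgroup (Cfsg.qd p) :=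
    { carrier := Set.range u
      mul_mem' := by rintro _ _ ⟨v, rfl⟩ ⟨w, rfl⟩; exact ⟨_, (hu v w).symm⟩
      one_mem' := ⟨_, hu1⟩
      inv_mem' := by
        rintro _ ⟨v, rfl⟩
        exact ⟨(-v.1, v.1 * v.2.2 - v.2.1, -v.2.2), eq_inv_of_mul_eq_one_right (by rw [hu, ← hu1]; congr 1; simp; ring)⟩ }
  have hU : IsPGroup p U := IsPGroup.of_card (n := 3) (by
    refine (Nat.card_congr (Equiv.ofInjective u hi)).symm.trans ?_; simp [pow_succ, mul_assoc])
  obtain ⟨Q, hQ⟩ := hU.exists_le_sylow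
  obtain ⟨g, rfl⟩ := MulAction.exists_smul_eq (Cfsg.qd p) (P.mapSurjective hφ) Q
  have h2 := h1 _ (mem_cj.1 (hQ ⟨(1, 0, 0), rfl⟩)) _ (mem_cj.1 (hQ ⟨(0, 0, 1), rfl⟩))
  have h3 : u (1, 0, 0) * u (0, 0, 1) = u (0, 0, 1) * u (1, 0, 0) :=
    (MulAut.conj g⁻¹).injective (by rw [map_mul, map_mul]; simpa using h2)
  rw [hu, hu] at h3
  simpa using hi h3


end Cfsg.Agent.S2231
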