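import Cfsg.Statements.S2232
import Cfsg.Agent.H5.Sim2
import Cfsg.Agent.H5.Decomp

set_option autoImplicit false
open Cfsg

namespace Cfsg.Agent.S2232

open H5 Matrix Module

/-- Let p be an odd prime, q a power of p and K a finite field with q² elements. Then Qd(p) (the natural semidirect product of an elementary abelian group of order p² by SL₂(p)) is not involved in the projective special unitary group PSU₃(q) realised over K. -/
theorem result {p : ℕ} [Fact p.Prime] (hp : p ≠ 2) {K : Type*} [Field K] [Fintype K] [CharP K p] (n : ℕ) (hn : 1 ≤ n) (hK : Fintype.card K = (p ^ n) ^ 2) : ¬ Cfsg.Involves ↥(Cfsg.qd p) (Cfsg.PSU 3 K (p ^ n)) := by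
  rintro ⟨A, R, _, ⟨e⟩⟩
  let Φ := hermF 3 hK
  have hΦ := hermF_nondeg 3 hK
  let B := A.comap (QuotientGroup.mk' (Subgroup.center (SU 3 K (p ^ n))))
  let φ : B →* qd p := (e.toMonoidHom.comp (QuotientGroup.mk' _)).comp ((QuotientGroup.mk' _).subgroupComap A)
  have hφ : Function.Surjective φ := (e.surjective.comp (QuotientGroup.mk'_surjective _)).comp
    (MonoidHom.subgroupComap_surjective_of_surjective _ _ (QuotientGroup.mk'_surjective _))
  have row : ∀ g : qd p, g.1.1 2 0 = 0 ∧ g.1.1 2 1 = 0 ∧ g.1.1 2 2 = 1 := fun ⟨g, hg⟩ => by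
    induction hg using Subgroup.closure_induction'' with
    | one => simp
    | mem _ h => exact h
    | inv_mem g h =>
      have := h.2.2 ▸ h.2.1 ▸ h.1 ▸ det_fin_three g.1 ▸ g.2
      simpa [Matrix.SpecialLinearGroup.coe_inv, adjugate_fin_three, h.1, h.2.1] using this
    | mul a b _ _ h k => simp only at h k; simp [mul_apply, Fin.sum_univ_three, h, k]
  let ψ : qd p →* Matrix (Fin 2) (Fin 2) (ZMod p) :=
    { toFun := fun g => g.1.1.submatrix Fin.castSucc Fin.castSucc
      map_one' := by ext i j; fin_cases i <;> fin_cases j <;> simp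
      map_mul' := fun a b => by ext i j; fin_cases i <;> fin_cases j <;> simp [mul_apply, Fin.sum_univ_succ, row b] }
  let N := (ψ.comp φ).toHomUnits.ker
  let S : Sylow p N := default
  let ρ : B →* (Fin 3 → K) ≃ₗ[K] Fin 3 → K := Φ.sisom.subtype.comp ((suEquiv 3 hK).toMonoidHom.comp B.subtype)
  have hρ : Function.Injective ρ := Subtype.val_injective.comp ((suEquiv 3 hK).injective.comp Subtype.val_injective)
  have iso : ∀ g, ρ g ∈ Φ.isom := fun g => (suEquiv 3 hK g).2.1
  let T := S.1.map N.subtype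
  let W : Submodule K (Fin 3 → K) := ⨅ s : T, fixSp (ρ s)
  have mW : ∀ v, v ∈ W ↔ ∀ s ∈ T, ρ s v = v := fun v => by simp [W, mem_fixSp]
  have iW : ∀ g ∈ Subgroup.normalizer (T : Set B), ∀ v ∈ W, ρ g v ∈ W := fun g hg v hv => (mW _).2 fun s hs => by
    have := (mW v).1 hv _ ((Subgroup.mem_normalizer_iff''.1 hg s).1 hs)
    simpa [LinearEquiv.symm_apply_eq] using congrArg (ρ g) this
  have W1 : Φ.perp W ≠ ⊥ := fun c => by
    have k : T = ⊥ := eq_bot_iff.2 fun s hs => hρ (LinearEquiv.ext fun v => by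
      simpa using (mW v).1 (by rw [← hΦ.perp_perp W, c]; simp) s hs)
    obtain ⟨g, hg⟩ := hφ ⟨⟨!![1, 0, 1; 0, 1, 0; 0, 0, 1], by simp [det_fin_three]⟩, Subgroup.subset_closure ⟨rfl, rfl, rfl⟩⟩
    have k1 : orderOf (φ g) = p := orderOf_eq_prime (Subtype.ext (Subtype.ext (by
      rw [hg]; refine (pow_one p ▸ unip_iff p 1).2 (pow_eq_zero_of_le (Fact.out : p.Prime).two_le ?_)
      ext i j; fin_cases i <;> fin_cases j <;> simp [sq, mul_apply, Fin.sum_univ_succ, one_apply]))) fun c => by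
        simpa [hg] using congrArg (·.1.1 0 2) c
    refine S.ne_bot_of_dvd_card ((k1 ▸ orderOf_map_dvd φ g).trans ((orderOf_injective N.subtype N.subtype_injective ⟨g, Units.ext ?_⟩).dvd.trans
      (orderOf_dvd_natCard _))) ((Subgroup.map_eq_bot_iff_of_injective _ N.subtype_injective).1 k)
    ext i j; fin_cases i <;> fin_cases j <;> simp [hg, ψ]
  obtain ⟨v, hv, v0⟩ : ∃ v ∈ W ⊓ Φ.perp W, v ≠ 0 := by
    let _ : MulAction T (Φ.perp W) :=
      { smul := fun s x => ⟨ρ s x, Form.isom_perp_mem (iso s) (iW _ (T.le_normalizer s.2)) _ x.2⟩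
        one_smul := fun x => Subtype.ext (by change ρ 1 x = x; simp)
        mul_smul := fun a b x => Subtype.ext (by change ρ (a * b) x = ρ a (ρ b x); simp) }
    have := Submodule.nontrivial_iff_ne_bot.2 W1
    obtain ⟨b, hb, ne⟩ := (S.2.map N.subtype).exists_fixed_point_of_prime_dvd_card_of_fixed_point (Φ.perp W) (a := 0) (by
      rw [Module.natCard_eq_pow_finrank (K := K), Nat.card_eq_fintype_card, hK]
      exact dvd_pow (dvd_pow (dvd_pow_self p (by omega)) two_ne_zero) Module.finrank_pos.ne') fun u => Subtype.ext (map_zero (ρ u))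
    exact ⟨b, ⟨(mW _).2 fun s hs => congrArg Subtype.val (hb ⟨s, hs⟩), b.2⟩, fun c => ne (Subtype.ext c.symm)⟩
  let U := W ⊓ Φ.perp W
  have U1 : finrank K U = 1 := by
    have k1 := hΦ.finrank_perp U
    have k2 := Submodule.finrank_mono (show U ≤ Φ.perp U from inf_le_right.trans (Φ.perp_anti inf_le_left))
    have : 1 ≤ finrank K U := Submodule.one_le_finrank_iff.2 ((Submodule.ne_bot_iff _).2 ⟨v, hv, v0⟩)
    change _ + finrank K (Φ.perp U) = _ at k1; rw [finrank_fin_fun] at k1; omega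
  have U2 : finrank K (Φ.perp U) = 2 := by
    have : _ + finrank K (Φ.perp U) = _ := hΦ.finrank_perp U
    rw [finrank_fin_fun] at this; omega
  have one : ∀ (X Y : Submodule K (Fin 3 → K)) (a b : (Fin 3 → K) ≃ₗ[K] Fin 3 → K), X ≤ Y → finrank K Y = finrank K X + 1 → (∀ x ∈ X, a x ∈ X) → (∀ x ∈ X, b x ∈ X) →
      (∀ x ∈ Y, a x ∈ Y) → (∀ x ∈ Y, b x ∈ Y) → ∀ y ∈ Y, a (b (a.symm (b.symm y))) - y ∈ X := fun X Y a b h h1 aX bX aY bY y hy => by
    have hy' := symm_mem_of_mem a aY _ (symm_mem_of_mem b bY y hy)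
    rw [← b.apply_symm_apply y, ← a.apply_symm_apply (b.symm y)]
    simp only [LinearEquiv.symm_apply_apply]
    generalize a.symm (b.symm y) = z at hy'
    by_cases c : z ∈ X
    · exact sub_mem (aX _ (bX _ c)) (bX _ (aX _ c))
    have k : X ⊔ K ∙ z = Y := Submodule.eq_of_le_of_finrank_eq (sup_le h (by simpa)) (by rw [Submodule.finrank_sup_span_singleton c, h1])
    obtain ⟨x, hx, _, k3, k1⟩ := Submodule.mem_sup.1 (k.ge (aY z hy'))
    obtain ⟨x', hx', _, k4, k2⟩ := Submodule.mem_sup.1 (k.ge (bY z hy'))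
    obtain ⟨c, rfl⟩ := Submodule.mem_span_singleton.1 k3
    obtain ⟨d, rfl⟩ := Submodule.mem_span_singleton.1 k4
    rw [show a (b z) - b (a z) = a x' + d • x - (b x + c • x') by
      rw [← k2, map_add, map_smul, ← k1, map_add, map_smul, ← k2]; module]
    exact sub_mem (add_mem (aX _ hx') (X.smul_mem _ hx)) (add_mem (bX _ hx) (X.smul_mem _ hx'))
  have lift : ∀ x : qd p, ∃ g ∈ Subgroup.normalizer (T : Set B), ψ (φ g) = ψ x := fun x => by
    obtain ⟨g, rfl⟩ := hφ x
    obtain ⟨a, ha, b, hb, rfl⟩ := Subgroup.mem_sup_of_normal_right.1 (S.normalizer_sup_eq_top.ge (Subgroup.mem_top g))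
    exact ⟨a, ha, by rw [map_mul, map_mul, show ψ (φ b) = 1 from congrArg Units.val hb, mul_one]⟩
  obtain ⟨a, ha, ea⟩ := lift ⟨⟨!![1, 1, 0; 0, 1, 0; 0, 0, 1], by simp [det_fin_three]⟩, Subgroup.subset_closure ⟨rfl, rfl, rfl⟩⟩
  obtain ⟨b, hb, eb⟩ := lift ⟨⟨!![1, 0, 0; 1, 1, 0; 0, 0, 1], by simp [det_fin_three]⟩, Subgroup.subset_closure ⟨rfl, rfl, rfl⟩⟩
  have iU : ∀ g ∈ Subgroup.normalizer (T : Set B), ∀ x ∈ U, ρ g x ∈ U := fun g hg x hx => ⟨iW g hg x hx.1, Form.isom_perp_mem (iso g) (iW g hg) x hx.2⟩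
  have iP := fun g hg => Form.isom_perp_mem (iso g) (iU g hg)
  let c := a * b * a⁻¹ * b⁻¹
  have k : ((ρ c : End K (Fin 3 → K)) - 1) ^ 3 = 0 := LinearMap.ext fun x => by
    simpa [c, pow_succ] using one ⊥ U (ρ a) (ρ b) bot_le (by simp [U1]) (by simp) (by simp) (iU a ha) (iU b hb) _
      (one U _ (ρ a) (ρ b) (inf_le_right.trans (Φ.perp_anti inf_le_left)) (U2.trans (by rw [U1])) (iU a ha) (iU b hb) (iP a ha) (iP b hb) _
      (one _ ⊤ (ρ a) (ρ b) le_top (by simp [U2]) (iP a ha) (iP b hb) (by simp) (by simp) x trivial))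
  have k1 : c ^ p = 1 := hρ (LinearEquiv.toLinearMap_injective (by
    have : CharP (End K (Fin 3 → K)) p := charP_of_injective_algebraMap' K p
    have := pow_eq_zero_of_le (show 3 ≤ p by have := (Fact.out : p.Prime).two_le; omega) k
    rw [sub_pow_char_of_commute _ (Commute.one_right _), one_pow, sub_eq_zero] at this
    rw [map_pow, map_one]; exact (map_pow LinearEquiv.automorphismGroup.toLinearMapMonoidHom _ _).trans this))
  have k2 : ψ (φ c) * (!![1, 0; 1, 1] * !![1, 1; 0, 1]) = !![1, 1; 0, 1] * !![1, 0; 1, 1] := by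
    have ea' : ψ (φ a) = !![1, 1; 0, 1] := ea.trans (by ext i j; fin_cases i <;> fin_cases j <;> simp [ψ])
    have eb' : ψ (φ b) = !![1, 0; 1, 1] := eb.trans (by ext i j; fin_cases i <;> fin_cases j <;> simp [ψ])
    simp only [← ea', ← eb', ← map_mul, c]; group
  have k3 := (isNilpotent_trace_of_isNilpotent ⟨_, (unip_iff p 1).1 (show ψ (φ c) ^ p ^ 1 = 1 by rw [pow_one, ← map_pow, ← map_pow, k1, map_one, map_one])⟩).eq_zero
  have k4 := congrFun (congrFun k2 0 :)
  have k5 := congrFun (congrFun k2 1)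
  have k6 := k4 0
  have k7 := k4 1
  have k8 := k5 0
  have k9 := k5 1
  simp only [mul_apply, Fin.sum_univ_two, trace_fin_two, Matrix.sub_apply, of_apply, cons_val', cons_val_zero, cons_val_one, cons_val_fin_one, one_apply_eq] at k3 k6 k7 k8 k9
  exact one_ne_zero (α := ZMod p) (by linear_combination k3 - 2 * k6 + k7 - k9 + k8)


end Cfsg.Agent.S2232
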