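import Cfsg.Statements.S2238
import Cfsg.Agent.H6.Suz4

set_option autoImplicit false
open Cfsg

namespace Cfsg.Agent.S2238

/-- The partition of the Suzuki group: with q = 2^(2m+1), m ≥ 1, r = 2^m and the Suzuki group realised as the stabiliser in SL₄ of the Suzuki–Tits ovoid, every non-identity element lies in exactly one subgroup that is either a Sylow 2-subgroup or a cyclic subgroup of order q − 1, q + 2r + 1 or q − 2r + 1. -/
theorem result {F : Type*} [Field F] [Fintype F] {m : ℕ} (hm : 1 ≤ m) (hF : Fintype.card F = 2 ^ (2 * m + 1)) (g : ↥(Cfsg.Sz F m)) (hg : g ≠ 1) :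
    ∃! U : Subgroup ↥(Cfsg.Sz F m), ((∃ P : Sylow 2 ↥(Cfsg.Sz F m), U = (P : Subgroup ↥(Cfsg.Sz F m))) ∨
      (IsCyclic ↥U ∧ Nat.card ↥U ∈ ({2 ^ (2 * m + 1) - 1, 2 ^ (2 * m + 1) + 2 ^ (m + 1) + 1, 2 ^ (2 * m + 1) - 2 ^ (m + 1) + 1} : Set ℕ))) ∧ g ∈ U := by
  let P := H6.Suz.Par.mk m hm hF
  have := P.sz.finite
  have key : ∀ {U : Subgroup (Cfsg.Sz F m)} {Y : H6.Suz.SzS P (Cfsg.Sz F m)}, Nat.card U ∈ P.tori → g ∈ U →
      g ∉ Y.U := fun hU h h' => by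
    obtain ⟨n, hn⟩ := (Nat.dvd_prime_pow (m := 2) Nat.prime_two).1
      (orderOf_dvd_of_pow_eq_one (H6.Suz.SzS.pow_four h'))
    rcases n with _ | n
    · exact hg (orderOf_eq_one_iff.1 hn.2)
    · exact P.odd_tori hU ((hn.2 ▸ dvd_pow_self 2 (by omega)).trans (Subgroup.orderOf_dvd_natCard _ h))
  obtain ⟨Y, h, -⟩ | h := P.sz.cent_or hg
  · refine ⟨Y.U, ⟨Or.inl ⟨Y.sylow, rfl⟩, h⟩, ?_⟩
    rintro U ⟨⟨S, rfl⟩ | ⟨-, hU⟩, h'⟩
    · obtain ⟨Y', e⟩ := Y.exists_U_eq S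
      exact e ▸ H6.Suz.SzS.U_eq hg (e ▸ h') h
    · exact absurd h (key hU h')
  · refine ⟨_, ⟨Or.inr h, H6.Suz.mem_cent.2 rfl⟩, ?_⟩
    rintro U ⟨⟨S, rfl⟩ | ⟨hc, hU⟩, h'⟩
    · obtain ⟨Y', e⟩ := P.sz.exists_U_eq S
      exact absurd (e ▸ h') (key h.2 (H6.Suz.mem_cent.2 rfl))
    · have hle : U ≤ Subgroup.centralizer {g} := fun x hx => H6.Suz.mem_cent.2
        (congrArg Subtype.val (hc.isMulCommutative.1.1 ⟨x, hx⟩ ⟨g, h'⟩))
      refine H1.eq_of_le_of_card_eq hle ((P.sz.coprime_tori hU h.2).resolve_right fun e => hg ?_)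
      exact orderOf_eq_one_iff.1 (Nat.eq_one_of_dvd_coprimes e (Subgroup.orderOf_dvd_natCard _ h')
        (Subgroup.orderOf_dvd_natCard _ (hle h')))

end Cfsg.Agent.S2238
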