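import Cfsg.Statements.S2239
import Cfsg.Agent.H6.Suz5

set_option autoImplicit false
open Cfsg

namespace Cfsg.Agent.S2239

/-- Subfield subgroups of the Suzuki group: let q = 2^(2m+1) and s = 2^(2k+1) with m, k ≥ 1 and 2k+1 dividing 2m+1 (so q is a power of s), both groups realised as stabilisers in SL₄ of the Suzuki–Tits ovoid. Then Sz(q) has a subgroup isomorphic to Sz(s), and any two subgroups of Sz(q) isomorphic to Sz(s) are conjugate. -/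
theorem result {F : Type*} [Field F] [Fintype F] {m : ℕ} (hm : 1 ≤ m) (hF : Fintype.card F = 2 ^ (2 * m + 1)) {K : Type*} [Field K] [Fintype K] {k : ℕ} (hk : 1 ≤ k) (hK : Fintype.card K = 2 ^ (2 * k + 1)) (hdiv : 2 * k + 1 ∣ 2 * m + 1) :
    (∃ S : Subgroup ↥(Cfsg.Sz F m), Nonempty (↥S ≃* ↥(Cfsg.Sz K k))) ∧
    ∀ S₁ S₂ : Subgroup ↥(Cfsg.Sz F m), Nonempty (↥S₁ ≃* ↥(Cfsg.Sz K k)) → Nonempty (↥S₂ ≃* ↥(Cfsg.Sz K k)) →
      ∃ g : ↥(Cfsg.Sz F m), S₂ = S₁.map (MulAut.conj g).toMonoidHom := by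
  let P := H6.Suz.Par.mk m hm hF
  let Q := H6.Suz.Par.mk k hk hK
  obtain ⟨σ⟩ := P.exists_ringHom hK hdiv
  refine ⟨⟨_, ⟨(MonoidHom.ofInjective (f := P.szEquiv.toMonoidHom.comp (P.emb Q σ (P.comm_θ Q σ hdiv)))
    (P.szEquiv.injective.comp (P.emb_inj ..))).symm.trans Q.szEquiv⟩⟩, ?_⟩
  have key : ∀ S : Subgroup (Cfsg.Sz F m), Nonempty (S ≃* Cfsg.Sz K k) → ∃ g : Cfsg.Sz F m, ∃ σ ι,
      Q.sz.Ind P.sz ι σ ∧ ι.range = S.map (MulAut.conj g).toMonoidHom := fun S ⟨e⟩ => by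
    obtain ⟨g, σ, h⟩ := Q.sz.align P.sz (S.subtype.comp e.symm.toMonoidHom)
      (Subtype.val_injective.comp e.symm.injective)
    exact ⟨g, σ, _, h, by rw [MonoidHom.range_comp, MonoidHom.range_comp,
      MonoidHom.range_eq_top.2 e.symm.surjective, ← MonoidHom.range_eq_map, Subgroup.range_subtype]⟩
  intro S₁ S₂ h₁ h₂
  obtain ⟨g₁, σ₁, ι₁, h₁, e₁⟩ := key S₁ h₁
  obtain ⟨g₂, σ₂, ι₂, h₂, e₂⟩ := key S₂ h₂
  have e : ι₁.range = ι₂.range := by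
    ext
    simp only [h₁.mem_range, h₂.mem_range, H6.Suz.mem_range_iff]
  refine ⟨g₂⁻¹ * g₁, ?_⟩
  rw [e, e₂, ← H1.conj_smul_eq_map, ← H1.conj_smul_eq_map] at e₁
  rw [← H1.conj_smul_eq_map, ← H1.conj_smul_conj_smul, ← e₁, H1.conj_inv_smul_smul]

end Cfsg.Agent.S2239
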