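import Cfsg.Statements.S2240
import Cfsg.Agent.H6.Suz5

set_option autoImplicit false
open Cfsg

namespace Cfsg.Agent.S2240

/-- Elementary abelian TI-subgroups of the Suzuki group: let q = 2^(2m+1) with m ≥ 1, the group realised as the stabiliser in SL₄ of the Suzuki–Tits ovoid, and n ≥ 2. There is an elementary abelian 2-subgroup E of order 2^n that is a TI-subgroup (every conjugate of E meeting E nontrivially is E itself) if and only if n divides 2m + 1. -/
theorem result {F : Type*} [Field F] [Fintype F] {m : ℕ} (hm : 1 ≤ m) (hF : Fintype.card F = 2 ^ (2 * m + 1)) (n : ℕ) (hn : 2 ≤ n) :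
    (∃ E : Subgroup ↥(Cfsg.Sz F m), Cfsg.IsElementaryAbelian 2 E ∧ Nat.card ↥E = 2 ^ n ∧
      ∀ x : ↥(Cfsg.Sz F m), E ⊓ E.map (MulAut.conj x).toMonoidHom ≠ ⊥ → x ∈ Subgroup.normalizer (E : Set ↥(Cfsg.Sz F m))) ↔ n ∣ 2 * m + 1 := by
  let P := H6.Suz.Par.mk m hm hF
  have := P.sz.finite
  have h2 := P.two
  constructor
  · rintro ⟨E, hE, hc, hT⟩
    obtain ⟨S, hS⟩ := (IsPGroup.of_card hc).exists_le_sylow
    obtain ⟨X, hX⟩ := P.sz.exists_U_eq S
    have hZ : ∀ x ∈ E, ∃ b, x = X.T 0 b := fun x hx =>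
      H6.Suz.SzS.mem_Z_of_sq (hX ▸ hS hx) (by simpa [sq] using hE.2 x hx)
    let L : Subring F :=
      { carrier := {c | ∀ b, X.T 0 b ∈ E → X.T 0 (c * b) ∈ E}
        mul_mem' := fun hc hd b hb => mul_assoc _ _ b ▸ hc _ (hd b hb)
        one_mem' := fun b hb => by simpa
        add_mem' := fun hc hd b hb => by simpa [X.T_mul, add_mul] using E.mul_mem (hc b hb) (hd b hb)
        zero_mem' := fun b hb => by simp
        neg_mem' := fun {c} hc b hb => by rw [show -c = c by grind]; exact hc b hb }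
    have : Nontrivial E := Finite.one_lt_card_iff_nontrivial.1 (hc ▸ Nat.one_lt_two_pow (by omega))
    obtain ⟨⟨_, ha⟩, h1⟩ := exists_ne (1 : E)
    obtain ⟨a, rfl⟩ := hZ _ ha
    have ha0 : a ≠ 0 := by rintro rfl; simp at h1
    have hL : Nat.card L = 2 ^ n := by
      refine hc ▸ Nat.card_eq_of_bijective (fun c => ⟨_, c.2 a ha⟩) ⟨fun c d e => Subtype.ext
        (mul_right_cancel₀ ha0 (X.T_eq_iff.1 (congrArg Subtype.val e)).2), fun ⟨x, hx⟩ => ?_⟩
      obtain ⟨b, rfl⟩ := hZ _ hx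
      refine ⟨⟨b / a, fun c hc => ?_⟩, by simp [ha0]⟩
      by_cases hb : b = 0
      · simp [hb]
      obtain ⟨k, hk⟩ := P.exists_mul_θ (b / a)
      have e : ∀ c, X.D (Units.mk0 k (by rintro rfl; simp [eq_comm, hb, ha0] at hk)) * X.T 0 c * _ = X.T 0 (b / a * c) :=
        fun c => by rw [X.D_T, mul_zero, Units.val_mk0, hk]
      rw [← e]
      refine (hT _ (fun h => hb ((X.T_eq_one (a := 0)).1 ?_).2) _).1 hc
      exact (Subgroup.eq_bot_iff_forall _).1 h _ ⟨hx, _, ha, (e a).trans (by simp [ha0])⟩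
    letI := (Finite.isField_of_domain L).toField
    have := Module.natCard_eq_pow_finrank (K := L) (V := F)
    rw [hL, Nat.card_eq_fintype_card, hF, ← pow_mul] at this
    exact ⟨_, Nat.pow_right_injective le_rfl this⟩
  · intro h
    letI := Fintype.ofFinite (GaloisField 2 n)
    have hK : Nat.card (GaloisField 2 n) = 2 ^ n := GaloisField.card 2 n (by omega)
    obtain ⟨σ⟩ := P.exists_ringHom (Nat.card_eq_fintype_card.symm.trans hK) h
    let X := P.sz
    let f : Multiplicative (GaloisField 2 n) →* Cfsg.Sz F m :=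
      MonoidHom.mk' (fun b => X.T 0 (σ b.toAdd)) fun a b => by simp [X.T_mul]
    refine ⟨f.range, ⟨inferInstance, ?_⟩, ?_, fun x hx => ?_⟩
    · rintro _ ⟨a, rfl⟩
      exact (sq _).trans (H6.Suz.SzS.sq_of_mem_Z (X.T_mem_Z _))
    · exact (Nat.card_congr (MonoidHom.ofInjective (f := f) fun a b e =>
        σ.injective (X.T_eq_iff.1 e).2).toEquiv).symm.trans hK
    · obtain ⟨⟨_, ⟨a, rfl⟩, _, ⟨b, rfl⟩, e⟩, h1⟩ := Subgroup.ne_bot_iff_exists_ne_one.1 hx
      replace h1 : f a ≠ 1 := fun e => h1 (Subtype.ext e)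
      change x * X.T 0 _ * x⁻¹ = X.T 0 _ at e
      have hb : X.T 0 (σ b.toAdd) ≠ 1 := fun e' => h1 (e.symm.trans (by rw [e', mul_one, mul_inv_cancel]))
      obtain ⟨c, d, k, rfl⟩ := H6.Suz.SzS.mem_B_of_conj (X.T_mem ..) hb (e ▸ X.T_mem_B ..)
      have e' : ∀ y, X.T c d * X.D k * X.T 0 y * (X.T c d * X.D k)⁻¹ = X.T 0 (k * P.θ k * y) := fun y => by
        rw [show ∀ t s u : Cfsg.Sz F m, t * s * u * (t * s)⁻¹ = t * (s * u * s⁻¹) * t⁻¹ by intros; group,
          X.D_T, X.T_conj]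
        simp
      rw [e', X.T_eq_iff] at e
      refine H1.mem_normalizer_iff_conj_mem.2 ?_
      rintro _ ⟨y, rfl⟩
      refine ⟨.ofAdd (a.toAdd / b.toAdd * y.toAdd), Eq.trans ?_ (e' _).symm⟩
      have hb : σ b.toAdd ≠ 0 := fun e => hb (by simp [e])
      simp [f, ← e.2, hb]

end Cfsg.Agent.S2240
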