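import Cfsg.Statements.S2241
import Cfsg.Agent.H6.Suz4

set_option autoImplicit false
open Cfsg

namespace Cfsg.Agent.S2241

/-- Real 2-elements of the Suzuki group: with q = 2^(2m+1), m ≥ 1, and the group realised as the stabiliser in SL₄ of the Suzuki–Tits ovoid, a non-identity element of a Sylow 2-subgroup is conjugate to its inverse if and only if it is an involution; in particular no element of order 4 is conjugate to its inverse. -/
theorem result {F : Type*} [Field F] [Fintype F] {m : ℕ} (hm : 1 ≤ m) (hF : Fintype.card F = 2 ^ (2 * m + 1)) (P : Sylow 2 ↥(Cfsg.Sz F m)) (g : ↥(Cfsg.Sz F m)) (hg : g ∈ (P : Subgroup ↥(Cfsg.Sz F m))) (h1 : g ≠ 1) :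
    IsConj g g⁻¹ ↔ orderOf g = 2 := by
  let Q := H6.Suz.Par.mk m hm hF
  obtain ⟨Y, hY⟩ := Q.sz.exists_U_eq P
  rw [← hY] at hg
  refine ⟨fun h => ?_, fun h => by
    rw [inv_eq_of_mul_eq_one_left (show g * g = 1 by rw [← sq, ← h, pow_orderOf_eq_one])]⟩
  obtain ⟨x, hx⟩ := isConj_iff.1 h
  obtain ⟨c, d, k, rfl⟩ := H6.Suz.SzS.mem_B_of_conj hg h1 (hx ▸ Y.U_le_B (inv_mem hg))
  obtain ⟨a, b, rfl⟩ := hg
  refine orderOf_eq_prime ?_ h1
  rw [show ∀ t s u : Cfsg.Sz F m, t * s * u * (t * s)⁻¹ = t * (s * u * s⁻¹) * t⁻¹ by intros; group,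
    Y.D_T, Y.T_conj, Y.T_inv, Y.T_eq_iff] at hx
  obtain rfl : a = 0 := by
    by_contra ha
    obtain rfl : k = 1 := Units.ext (mul_right_cancel₀ ha (hx.1.trans (one_mul a).symm))
    obtain ⟨y, rfl⟩ : ∃ y, c = a * y := ⟨c / a, by field_simp⟩
    have e : Q.θ y + y = 1 := mul_left_cancel₀ (mul_ne_zero ha (Q.θ.map_ne_zero_iff.2 ha)) (by
      have := hx.2
      simp only [Units.val_one, map_one, one_mul, map_mul] at this
      linear_combination this)
    have h2 := congrArg Q.θ e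
    rw [map_add, Q.θθ, map_one] at h2
    have := Q.two
    have h3 : y * (y + 1) = 0 := by grind
    rcases mul_eq_zero.1 h3 with rfl | h3
    · simp at e
    · obtain rfl : y = 1 := by grind
      rw [map_one] at e
      grind
  simp [sq, Y.T_sq]

end Cfsg.Agent.S2241
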