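import Cfsg.Statements.S2249
import Cfsg.Agent.H5.PW
import Cfsg.Agent.H5.Rk2

set_option autoImplicit false
open Cfsg

namespace Cfsg.Agent.S2249

open H5 H5.PW Matrix SemidirectProduct

theorem cent2 {F : Type*} [Field F] {y g : Matrix (Fin 2) (Fin 2) F} (h : g * y = y * g) (hy : ∀ c : F, y ≠ c • 1) : ∃ a b : F, g = a • 1 + b • y := by
  have e0 := congrFun (congrFun h 0) 0
  have e1 := congrFun (congrFun h 0) 1
  have e2 := congrFun (congrFun h 1) 0
  simp only [mul_apply, Fin.sum_univ_two] at e0 e1 e2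
  by_cases c1 : y 0 1 = 0
  · by_cases c2 : y 1 0 = 0
    · have c3 : y 0 0 - y 1 1 ≠ 0 := fun c => hy (y 0 0) (by ext i j; fin_cases i <;> fin_cases j <;> simp [c1, c2, sub_eq_zero.1 c])
      refine ⟨g 0 0 - (g 0 0 - g 1 1) / (y 0 0 - y 1 1) * y 0 0, (g 0 0 - g 1 1) / (y 0 0 - y 1 1), ?_⟩
      ext i j; fin_cases i <;> fin_cases j <;> simp [c1, c2] <;> grind
    · refine ⟨g 0 0 - g 1 0 / y 1 0 * y 0 0, g 1 0 / y 1 0, ?_⟩
      ext i j; fin_cases i <;> fin_cases j <;> simp <;> grind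
  · refine ⟨g 0 0 - g 0 1 / y 0 1 * y 0 0, g 0 1 / y 0 1, ?_⟩
    ext i j; fin_cases i <;> fin_cases j <;> simp <;> grind

theorem key {F : Type*} [Field F] (h2 : (2 : F) ≠ 0) (hs : ∀ (c : F) k, c ^ 2 ^ k = 1 → c ^ 2 = 1) {x y : GL (Fin 2) F} {k : ℕ} (hx : x ^ 2 ^ k = 1) (h4 : x ^ 4 ≠ 1)
    (hy : y ^ 2 = 1) (h : x * y * x⁻¹ * y = y * (x * y * x⁻¹)) : y = 1 ∨ y = -1 := by
  by_contra! c
  have y2 : y.1 * y.1 = 1 := by rw [← sq]; exact congrArg Units.val hy
  have ns : ∀ c : F, y.1 ≠ c • 1 := fun a e => by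
    have : a * a = 1 := by simpa [e, smul_smul] using congrFun (congrFun y2 0) 0
    rcases mul_self_eq_one_iff.1 this with rfl | rfl
    exacts [c.1 (Units.ext (by simpa using e)), c.2 (Units.ext (by simpa using e))]
  have tr : y.1.trace = 0 := by_contra fun t => ns ((1 + y.1.det) / y.1.trace) (by
    have e := fun i j => congrFun (congrFun y2 i) j
    have := e 0 0; have := e 0 1; have := e 1 0; have := e 1 1
    simp [mul_apply, Fin.sum_univ_two, trace_fin_two, det_fin_two] at *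
    ext i j; fin_cases i <;> fin_cases j <;> simp <;> grind)
  obtain ⟨a, b, e⟩ := cent2 (congrArg Units.val h) ns
  have a0 : a = 0 := by
    have := congrArg trace e
    rw [Units.val_mul, Units.val_mul, trace_units_conj] at this
    simpa [tr, h2] using this.symm
  have b2 : b * b = 1 := by
    have : (x * y * x⁻¹).1 * (x * y * x⁻¹).1 = 1 := by rw [← Units.val_mul, ← sq, conj_pow, hy]; simp
    simpa [e, a0, smul_smul, y2] using congrFun (congrFun this 0) 0
  have e1 : x.1 * y.1 = b • (y.1 * x.1) := by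
    have := congrArg (· * x.1) e
    simp only [Units.val_mul, Units.inv_mul_cancel_right, a0, zero_smul, zero_add, smul_mul_assoc] at this
    exact this
  obtain ⟨s, t, e⟩ := cent2 (g := x.1 * x.1) (by rw [mul_assoc, e1, mul_smul_comm, ← mul_assoc, e1, smul_mul_assoc, smul_smul, b2, one_smul, mul_assoc]) ns
  have ev : ∀ ε : F, ε * ε = 1 → (s + t * ε) ^ 2 = 1 := fun ε hε => hs _ k (by
    have k1 : ∀ n, (x.1 * x.1) ^ n * (1 + ε • y.1) = (s + t * ε) ^ n • (1 + ε • y.1) := fun n => by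
      induction n with
      | zero => simp
      | succ n ih =>
        rw [pow_succ', mul_assoc, ih, mul_smul_comm, e, pow_succ, mul_smul]
        congr 1
        simp only [add_mul, mul_add, smul_mul_assoc, mul_smul_comm, y2, one_mul, mul_one, smul_smul]
        match_scalars <;> grind
    have := congrArg trace (k1 (2 ^ k))
    rw [← sq, ← pow_mul, mul_comm 2, pow_mul, show x.1 ^ 2 ^ k = 1 from congrArg Units.val hx] at this
    simpa [tr, h2] using this.symm)
  have e2 := ev 1 (by simp)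
  have e3 := ev (-1) (by simp)
  refine h4 (Units.ext ?_)
  rw [show (x ^ 4).1 = (x.1 * x.1) * (x.1 * x.1) by simp [pow_succ, mul_assoc], e]
  simp only [add_mul, mul_add, smul_mul_assoc, mul_smul_comm, y2, one_mul, mul_one, smul_smul, Units.val_one]
  match_scalars <;> grind

/-- The normal 2-rank of the general linear group over a finite field of odd order q: for n ≥ 1 and S a Sylow 2-subgroup of GL_n(F), the largest rank of an elementary abelian subgroup of S that is normal in S equals n when q ≡ 1 (mod 4) and ⌊(n + 1)/2⌋ when q ≡ 3 (mod 4). -/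
theorem result {F : Type*} [Field F] [Fintype F] {q : ℕ} (hF : Fintype.card F = q) (hodd : Odd q) (n : ℕ) (hn : 1 ≤ n) (S : Sylow 2 (Matrix.GeneralLinearGroup (Fin n) F)) :
    (q % 4 = 1 → ((∃ E : Subgroup ↥(S : Subgroup (Matrix.GeneralLinearGroup (Fin n) F)), E.Normal ∧ Cfsg.IsElementaryAbelian 2 E ∧ 2 ^ (n) ≤ Nat.card ↥E) ∧
      ∀ E : Subgroup ↥(S : Subgroup (Matrix.GeneralLinearGroup (Fin n) F)), E.Normal → Cfsg.IsElementaryAbelian 2 E → Nat.card ↥E ≤ 2 ^ (n))) ∧
    (q % 4 = 3 → ((∃ E : Subgroup ↥(S : Subgroup (Matrix.GeneralLinearGroup (Fin n) F)), E.Normal ∧ Cfsg.IsElementaryAbelian 2 E ∧ 2 ^ ((n + 1) / 2) ≤ Nat.card ↥E) ∧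
      ∀ E : Subgroup ↥(S : Subgroup (Matrix.GeneralLinearGroup (Fin n) F)), E.Normal → Cfsg.IsElementaryAbelian 2 E → Nat.card ↥E ≤ 2 ^ ((n + 1) / 2))) := by
  classical
  subst hF
  have h2 := two_ne_zero_of_odd hodd
  have h1 := Fintype.one_lt_card (α := F)
  have neg : ∀ m [NeZero m] (D : Sylow 2 (GL (Fin m) F)), ∃ z : D, z.1 = -1 ∧ orderOf z = 2 ∧ ∀ x, x * z = z * x := fun m _ D => by
    have o : orderOf (-1 : GL (Fin m) F) = 2 := orderOf_eq_prime (by simp) fun c => h2 (by
      have := congrArg (·.1 0 0) c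
      simp at this; linear_combination -this)
    have : (Subgroup.zpowers (-1 : GL (Fin m) F)).Normal := ⟨by rintro _ ⟨k, rfl⟩ g; exact ⟨k, by simp [← conj_zpow]⟩⟩
    exact ⟨⟨_, (IsPGroup.of_card (n := 1) ((Nat.card_zpowers _).trans o)).le_sylow_of_normal D (Subgroup.mem_zpowers _)⟩, rfl,
      by rwa [Subgroup.orderOf_mk], fun x => Subtype.ext (by simp)⟩
  refine ⟨fun hq => ⟨?_, fun E _ h => ?_⟩, fun hq => ?_⟩
  · let D : Sylow 2 (GL (Fin 1) F) := default
    let T : Sylow 2 (Equiv.Perm (Fin n)) := default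
    obtain ⟨z, -, z2, hz⟩ := neg 1 D
    obtain ⟨e⟩ := sylow_equiv ((glCongr (Equiv.uniqueProd _ _)).toMonoidHom.comp (mat (T := T) (α := Fin n) D.1.subtype))
      ((glCongr _).injective.comp (mat_inj D.1.subtype_injective)) (by
        rw [card_wr, card_sylow, card_sylow, Nat.card_perm, ← pow_mul, ← pow_add, Nat.card_eq_fintype_card (α := Fin n), Fintype.card_fin]
        congr 1
        clear hn S T
        induction n with
        | zero => simp
        | succ n ih =>
          rw [v_gl_succ hodd n, ← ih, Nat.factorial_succ, padicValNat.mul n.succ_ne_zero n.factorial_ne_zero, v_gl_succ hodd 0]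
          rcases (n + 1).even_or_odd with c | c
          · have := padicValNat.pow_two_sub_one h1 hodd.not_two_dvd_nat n.succ_ne_zero c
            rw [show Fintype.card F + 1 = 2 * (Fintype.card F / 2 + 1) by omega, padicValNat.mul two_ne_zero (by omega),
              padicValNat.eq_zero_of_not_dvd (n := Fintype.card F / 2 + 1) (by omega)] at this
            simp [mul_add] at this ⊢; omega
          · rw [v_odd h1 hodd c, padicValNat.eq_zero_of_not_dvd c.not_two_dvd_nat]; simp; ring) S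
    obtain ⟨E, k1, k2, k3⟩ := exists_normal z2 hz e
    exact ⟨E, k1, k2, by rw [k3]; simp⟩
  · let φ := glEquiv.toMonoidHom.comp (S.1.subtype.comp E.subtype)
    obtain ⟨ι, b, ε, k⟩ := exists_eigenbasis h2 φ h.1.is_comm.comm fun a => Subtype.ext (h.2 a a.2)
    have := Module.Finite.finite_basis b
    refine (Nat.card_le_card_of_injective (fun a i => ε i a) fun x y e => eq_of_signs
      (glEquiv.injective.comp (Subtype.val_injective.comp Subtype.val_injective)) k (congrFun e)).trans ?_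
    rw [Nat.card_fun, ← Module.finrank_eq_nat_card_basis b]; simp
  obtain ⟨m, r, hr, rfl⟩ : ∃ m r, r ≤ 1 ∧ n = 2 * m + r := ⟨n / 2, n % 2, by omega, by omega⟩
  rw [show (2 * m + r + 1) / 2 = m + r by omega]
  have hs : ∀ (c : F) k, c ^ 2 ^ k = 1 → c ^ 2 = 1 := fun c k e => by
    obtain ⟨j, -, h⟩ := (Nat.dvd_prime_pow Nat.prime_two).1 (orderOf_dvd_of_pow_eq_one e)
    have := orderOf_dvd_of_pow_eq_one (FiniteField.pow_card_sub_one_eq_one c (by rintro rfl; simp at e))
    have : j ≤ 1 := by_contra fun c => by have := (pow_dvd_pow 2 (show 2 ≤ j by omega)).trans (h ▸ this); omega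
    exact orderOf_dvd_iff_pow_eq_one.1 (h ▸ pow_dvd_pow 2 this)
  obtain ⟨A, -, hA⟩ := exists_ord (F := F) (e := 8) two_pos (Nat.eight_dvd_sq_sub_one_of_odd hodd)
  let x : GL (Fin 2) F := ⟨A, A ^ 7, (pow_succ' ..).symm.trans ((hA 8).2 dvd_rfl), (pow_succ ..).symm.trans ((hA 8).2 dvd_rfl)⟩
  have x8 : x ^ 2 ^ 3 = 1 := Units.ext ((hA 8).2 dvd_rfl)
  have x4 : x ^ 4 ≠ 1 := fun c => by simpa using (hA 4).1 (congrArg Units.val c)
  obtain ⟨D, hD⟩ := (show IsPGroup 2 (Subgroup.zpowers x) from fun ⟨_, j, rfl⟩ => ⟨3, Subtype.ext (by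
    change (x ^ j) ^ _ = 1
    rw [← zpow_natCast, ← _root_.zpow_mul, mul_comm, _root_.zpow_mul, zpow_natCast, x8, _root_.one_zpow])⟩).exists_le_sylow
  have li : ∀ (T : Subgroup (Equiv.Perm (Fin m))) (a : Wr D T (Fin m)) i, a⁻¹.left i = (a.left (a.right⁻¹⁻¹ • i))⁻¹ := fun _ _ _ => rfl
  let T : Sylow 2 (Equiv.Perm (Fin m)) := default
  let D' : Sylow 2 (GL (Fin r) F) := default
  have v1 : padicValNat 2 (Fintype.card F - 1) = 1 := by
    rw [show Fintype.card F - 1 = 2 * (Fintype.card F / 2) by omega, padicValNat.mul two_ne_zero (by omega), padicValNat.eq_zero_of_not_dvd (n := _ / 2) (by omega)]; simp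
  have c' : Nat.card D' = 2 ^ r := by
    rw [card_sylow]; interval_cases r
    · simp
    · rw [v_gl_succ hodd 0]; simp [v1]
  obtain ⟨φ, k1, k2, -⟩ := exists_gl hodd D T (Fintype.card_fin m)
  obtain ⟨ψ, hψ⟩ := (Emb.prod ⟨φ, k1⟩ ⟨_, D'.1.subtype_injective⟩).trans (gl_emb (2 * m) r)
  obtain ⟨e⟩ := sylow_equiv ψ hψ (by
    rw [Nat.card_prod, k2, c', ← pow_add]; interval_cases r
    · rfl
    · rw [v_gl_succ hodd, v_odd h1 hodd (by simp), v1]) S
  obtain ⟨z, ez, z2, hz⟩ := neg 2 D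
  have sq' : ∀ y : D', y ^ 2 = 1 := fun y => orderOf_dvd_iff_pow_eq_one.1 ((orderOf_dvd_natCard y).trans (c' ▸ pow_dvd_pow 2 hr))
  refine ⟨?_, fun E hE h => ?_⟩
  · obtain ⟨E, k1, ⟨k2, k3⟩, k4⟩ := exists_normal (T := T) (α := Fin m) z2 hz (.refl _)
    refine ⟨(E.prod ⊤).comap e.toMonoidHom, inferInstance, ⟨⟨⟨fun a b => Subtype.ext (e.injective ?_)⟩⟩, fun a ha => e.injective ?_⟩, ?_⟩
    · simp only [Subgroup.coe_mul, map_mul]
      exact Prod.ext (congrArg Subtype.val (k2.is_comm.comm ⟨_, a.2.1⟩ ⟨_, b.2.1⟩))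
        (Commute.of_orderOf_dvd_two (fun y => orderOf_dvd_of_pow_eq_one (sq' y)) _ _)
    · rw [map_pow, map_one]; exact Prod.ext (k3 _ ha.1) (sq' _)
    · rw [Subgroup.comap_equiv_eq_map_symm', Subgroup.card_map_of_injective e.symm.injective]
      refine le_of_eq_of_le ?_ (Nat.card_congr (E.prodEquiv (⊤ : Subgroup D')).toEquiv).ge
      rw [Nat.card_prod, k4, Subgroup.card_top, c', pow_add]; simp
  let g : Fin m → S := fun i => e.symm (inl (Pi.mulSingle i ⟨x, hD (Subgroup.mem_zpowers x)⟩), 1)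
  have k3 : ∀ a : E, (e a).1.right = 1 := fun a => Subtype.ext (Equiv.ext fun i => by_contra fun c => x4 (by
    have := congrArg (fun s => (e s).1.left ((e a).1.right • i)) (h.2 _ (mul_mem (hE.conj_mem _ a.2 (g ((e a).1.right • i))) (inv_mem a.2)))
    simp only [g, sq, map_mul, map_inv, MulEquiv.apply_symm_apply, Prod.fst_mul, Prod.fst_inv, left_mul, mul_right, inv_right, right_inl, map_one, li,
      left_inl, inv_one, one_mul, mul_one, inv_inv, mul_inv_cancel, one_smul, inv_smul_smul, smul_inv_smul, Pi.mulSingle_eq_same,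
      Pi.mulSingle_eq_of_ne (show i ≠ (e a).1.right • i from Ne.symm c), mul_inv_cancel_right] at this
    have : x * x = 1 := congrArg Subtype.val this
    rw [show 4 = 2 * 2 from rfl, pow_mul, sq x, this, one_pow]))
  have k4 : ∀ (a : E) i, (e a).1.left i ∈ Subgroup.zpowers z := fun a i => by
    have l := congrArg (fun s => ((e s).1.left i).1) (h.2 _ a.2)
    have l' := congrArg (fun s => ((e s.1).1.left i).1) (h.1.is_comm.comm ⟨_, hE.conj_mem _ a.2 (g i)⟩ a)
    simp only [g, sq, map_mul, map_inv, MulEquiv.apply_symm_apply, Prod.fst_mul, Prod.fst_inv, left_mul, mul_right, inv_right, right_inl, map_one, Subgroup.coe_mul, k3, li,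
      left_inl, inv_one, one_mul, mul_one, inv_inv, one_smul, Pi.mulSingle_eq_same, Subgroup.coe_inv] at l l'
    rcases key h2 hs x8 x4 ((sq _).trans l) l' with c | c
    · exact ⟨0, Subtype.ext c.symm⟩
    · exact ⟨1, Subtype.ext (by simp [c, ez])⟩
  refine (Nat.card_le_card_of_injective (fun a : E => ((fun i => ⟨_, k4 a i⟩ : Fin m → Subgroup.zpowers z), (e a).2)) fun a b h => ?_).trans ?_
  · exact Subtype.ext (e.injective (Prod.ext (SemidirectProduct.ext (funext fun i => congrArg (·.1 i |>.1) h) ((k3 a).trans (k3 b).symm)) (Prod.ext_iff.1 h).2))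
  · rw [Nat.card_prod, Nat.card_fun, Nat.card_zpowers, z2, c', pow_add]; simp


end Cfsg.Agent.S2249
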