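import Cfsg.Statements.S2251
import Cfsg.Agent.H6.Suz7

set_option autoImplicit false
open Cfsg

namespace Cfsg.Agent.S2251

/-- The subgroups of the Suzuki group: with q = 2^(2m+1), m ≥ 1, r = 2^m and the group realised as the stabiliser in SL₄ of the Suzuki–Tits ovoid, every proper subgroup is contained in the normalizer of a Sylow 2-subgroup, or in the normalizer of a cyclic subgroup of order q − 1, q + 2r + 1 or q − 2r + 1, or in a subgroup isomorphic to a smaller Suzuki group Sz(s) with s = 2^(2k+1) ≥ 8 and 2k+1 a proper divisor of 2m+1. -/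
theorem result {F : Type*} [Field F] [Fintype F] {m : ℕ} (hm : 1 ≤ m) (hF : Fintype.card F = 2 ^ (2 * m + 1)) (M : Subgroup ↥(Cfsg.Sz F m)) (hM : M ≠ ⊤) :
    (∃ P : Sylow 2 ↥(Cfsg.Sz F m), M ≤ Subgroup.normalizer ((P : Subgroup ↥(Cfsg.Sz F m)) : Set ↥(Cfsg.Sz F m))) ∨
    (∃ U : Subgroup ↥(Cfsg.Sz F m), IsCyclic ↥U ∧ Nat.card ↥U ∈ ({2 ^ (2 * m + 1) - 1, 2 ^ (2 * m + 1) + 2 ^ (m + 1) + 1, 2 ^ (2 * m + 1) - 2 ^ (m + 1) + 1} : Set ℕ) ∧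
      M ≤ Subgroup.normalizer (U : Set ↥(Cfsg.Sz F m))) ∨
    (∃ (K : Type) (_ : Field K) (_ : Fintype K) (k : ℕ), 1 ≤ k ∧ k < m ∧ Fintype.card K = 2 ^ (2 * k + 1) ∧ 2 * k + 1 ∣ 2 * m + 1 ∧
      ∃ S : Subgroup ↥(Cfsg.Sz F m), Nonempty (↥S ≃* ↥(Cfsg.Sz K k)) ∧ M ≤ S) := by
  let P := H6.Suz.Par.mk m hm hF
  let X := P.sz
  have hB : ∀ Y : H6.Suz.SzS P (Cfsg.Sz F m), M ≤ Y.B → ∃ P : Sylow 2 ↥(Cfsg.Sz F m),
      M ≤ Subgroup.normalizer ((P : Subgroup ↥(Cfsg.Sz F m)) : Set ↥(Cfsg.Sz F m)) := fun Y h =>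
    ⟨Y.sylow, h.trans Y.normalizer_U.ge⟩
  obtain ⟨Y, h⟩ | h | ⟨k, h1, h2, h3, Y, h⟩ := X.subgroups hM
  · exact Or.inl (hB Y h)
  · obtain ⟨g, h⟩ | ⟨g, h⟩ | ⟨g, hg, h⟩ := X.solvable M h
    · exact Or.inl (hB (X.conj g⁻¹) fun s hs => X.mem_conj_B.2 (by simpa using h s hs))
    · exact Or.inr (Or.inl ⟨_, (X.conj g⁻¹).isCyclic_H, Or.inl (X.conj g⁻¹).card_H, fun s hs =>
        (X.conj g⁻¹).normalizer_H.ge (X.mem_conj_N.2 (by simpa using h s hs))⟩)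
    · exact Or.inr (Or.inl ⟨_, hg.cyclic, Or.inr hg.card_cent.1, h⟩)
  · have := Fact.mk Nat.prime_two
    let K := GaloisField 2 (2 * k + 1)
    letI : Fintype K := Fintype.ofFinite K
    have hK : Fintype.card K = 2 ^ (2 * k + 1) := by rw [← Nat.card_eq_fintype_card, GaloisField.card 2 _ (by omega)]
    let Q := H6.Suz.Par.mk k h1 hK
    obtain ⟨σ⟩ := P.exists_ringHom hK h3
    have hι := P.szEquiv.injective.comp (P.emb_inj Q σ (P.comm_θ Q σ h3))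
    obtain ⟨g, τ, hI⟩ := Q.model.align Y (P.szEquiv.toMonoidHom.comp (P.emb Q σ (P.comm_θ Q σ h3))) hι
    exact Or.inr (Or.inr ⟨K, inferInstance, inferInstance, k, h1, h2, hK, h3, _,
      ⟨(MonoidHom.ofInjective ((MulAut.conj g).injective.comp hι)).symm.trans Q.szEquiv⟩, h rfl hI⟩)

end Cfsg.Agent.S2251
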