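import Cfsg.Statements.S2254
import Cfsg.Agent.CZ.Nil
import Cfsg.Agent.H1.SylowIn

set_option autoImplicit false
open Cfsg

namespace Cfsg.Agent.S2254

open Subgroup Nat Pointwise CZ.Nil

theorem card_cent {n t : ℕ} {c : Equiv.Perm (Fin n)} (h : c.cycleType = Multiset.replicate (t + 1) 3) :
    Nat.card (centralizer {c}) = (n - 3 * (t + 1))! * 3 ^ (t + 1) * (t + 1)! := by
  rw [Equiv.Perm.nat_card_centralizer, h, Multiset.toFinset_replicate, if_neg (by omega), Finset.prod_singleton,
    Multiset.count_replicate_self, Multiset.sum_replicate, Multiset.prod_replicate, smul_eq_mul, Fintype.card_fin,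
    mul_comm (t + 1)]

theorem struct {n : ℕ} (hn : n % 4 = 3) {N : Subgroup (Equiv.Perm (Fin n))} (hN : Group.IsNilpotent N)
    (hc : Nat.card N = 3 * 2 ^ padicValNat 2 (n - 3)!) : ∃ (c : Equiv.Perm (Fin n)) (Q : Subgroup (Equiv.Perm (Fin n))),
    c.cycleType = Multiset.replicate 1 3 ∧ H1.IsSylowIn 2 Q (centralizer {c}) ∧ N = Q ⊔ zpowers c := by
  haveI : Fact (Nat.Prime 3) := ⟨Nat.prime_three⟩
  set k := padicValNat 2 (n - 3)! with hk
  obtain ⟨⟨c, hcN⟩, hc3⟩ := exists_prime_orderOf_dvd_card' (G := N) 3 (by rw [hc]; exact dvd_mul_right _ _)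
  rw [Subgroup.orderOf_mk] at hc3
  obtain ⟨Q, hQ⟩ := H1.exists_isSylowIn (p := 2) N
  have hQc : Nat.card Q = 2 ^ k := by
    rw [hQ.card_eq, hc, Nat.factorization_mul (by norm_num) (by positivity), Nat.prime_three.factorization,
      Nat.prime_two.factorization_pow]
    simp
  have hQC : Q ≤ centralizer {c} := fun x hx => mem_centralizer_singleton_iff.2
    (H1.commute_of_coprime_of_nilpotent hN (hQ.le hx) hcN (by
      rw [hc3]
      exact (Nat.Coprime.pow_left k (by norm_num)).coprime_dvd_left (hQc ▸ Subgroup.orderOf_dvd_natCard Q hx)))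
  obtain ⟨t, ht⟩ := Equiv.Perm.cycleType_prime_order (σ := c) (hc3 ▸ Nat.prime_three)
  rw [hc3] at ht
  have h3t : 3 * (t + 1) ≤ n := by
    have := c.sum_cycleType_le
    rw [ht, Multiset.sum_replicate, smul_eq_mul, Fintype.card_fin] at this
    omega
  have hv : padicValNat 2 (Nat.card (centralizer {c})) = padicValNat 2 (n - 3 * (t + 1))! + padicValNat 2 (t + 1)! := by
    rw [card_cent ht, padicValNat.mul (by positivity) (factorial_ne_zero _), padicValNat.mul (factorial_ne_zero _)
      (by positivity), padicValNat.eq_zero_of_not_dvd (n := 3 ^ (t + 1)) (fun h => by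
        have := Nat.prime_two.dvd_of_dvd_pow h; omega), add_zero]
  have hle : k ≤ padicValNat 2 (Nat.card (centralizer {c})) := by
    rw [← padicValNat_dvd_iff_le Nat.card_pos.ne', ← hQc]; exact card_dvd_of_le hQC
  have ht0 : t = 0 := by
    by_contra h0
    rw [hv] at hle
    have h2 : padicValNat 2 2 ! = 1 := by simp
    by_cases h1 : t = 1
    · subst h1
      have a1 := v_eq (n - 3)
      have a2 := v_eq (n - 3 * (1 + 1))
      have a3 := v_add (a := (n - 3 * (1 + 1)) / 4) (b := 0) (c := (n - 3) / 4) (by omega)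
      rw [show 1 + 1 = 2 from rfl, h2] at hle
      rw [show 1 + 1 = 2 from rfl] at a2 a3
      omega
    · have a1 := v_add (a := n - 3 * (t + 1)) (b := 3 * t) (c := n - 3) (by omega)
      have a2 := v_add (a := t + 1) (b := 2) (c := 3 * t) (by omega)
      omega
  subst ht0
  refine ⟨c, Q, ht, ⟨hQC, hQ.isPGroup, fun h => ?_⟩, (eq_of_le_of_card_ge (sup_le hQ.le (zpowers_le.2 hcN)) ?_).symm⟩
  · have h1 := (Q.subgroupOf (centralizer {c})).card_mul_index
    rw [Nat.card_congr (subgroupOfEquivOfLe hQC).toEquiv, hQc] at h1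
    have h2 : 2 ^ (k + 1) ∣ Nat.card (centralizer {c}) := h1 ▸ pow_succ 2 k ▸ mul_dvd_mul_left _ h
    rw [padicValNat_dvd_iff_le Nat.card_pos.ne', hv] at h2
    simp at h2
    omega
  · rw [hc]
    refine Nat.le_of_dvd Nat.card_pos (Nat.Coprime.mul_dvd_of_dvd_of_dvd (Nat.Coprime.pow_right k (by norm_num)) ?_
      (hQc ▸ card_dvd_of_le le_sup_left))
    rw [← hc3, ← Nat.card_zpowers]; exact card_dvd_of_le le_sup_right

/-- Let n ≡ 3 (mod 4). Then every nilpotent subgroup of the symmetric group on n letters has order at most 3 times the order of a Sylow 2-subgroup of the symmetric group on n − 3 letters; the bound is attained by a nilpotent subgroup isomorphic to the direct product of such a Sylow 2-subgroup with a cyclic group of order 3; and any two nilpotent subgroups attaining the bound are conjugate. -/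
theorem result  (n : ℕ) (hn : n % 4 = 3)
    (P : Sylow 2 (Equiv.Perm (Fin (n - 3)))) :
    (∀ N : Subgroup (Equiv.Perm (Fin n)), Group.IsNilpotent N → Nat.card N ≤ 3 * Nat.card P) ∧
    (∃ M : Subgroup (Equiv.Perm (Fin n)), Group.IsNilpotent M ∧ Nat.card M = 3 * Nat.card P ∧
      Nonempty (M ≃* (↥(P : Subgroup (Equiv.Perm (Fin (n - 3)))) × Multiplicative (ZMod 3)))) ∧
    (∀ N₁ N₂ : Subgroup (Equiv.Perm (Fin n)), Group.IsNilpotent N₁ → Group.IsNilpotent N₂ →
      Nat.card N₁ = 3 * Nat.card P → Nat.card N₂ = 3 * Nat.card P →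
      ∃ g : Equiv.Perm (Fin n), N₂ = N₁.map (MulAut.conj g).toMonoidHom) := by
  have hP : Nat.card P = 2 ^ padicValNat 2 (n - 3)! := by rw [card_sylow, Nat.card_fin]
  refine ⟨fun N hN => by rw [hP, ← g_eq3 hn]; exact bound' N hN, ?_, fun N₁ N₂ h1 h2 c1 c2 => ?_⟩
  · obtain ⟨e⟩ : Nonempty (Fin (n - 3) ⊕ Multiplicative (ZMod 3) ≃ Fin n) := ⟨Fintype.equivFinOfCardEq (by simp; omega)⟩
    let f : ↥(P : Subgroup (Equiv.Perm (Fin (n - 3)))) × Multiplicative (ZMod 3) →* Equiv.Perm (Fin n) :=
      e.permCongrHom.toMonoidHom.comp ((Equiv.Perm.sumCongrHom _ _).comp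
        ((P : Subgroup (Equiv.Perm (Fin (n - 3)))).subtype.prodMap (MulAction.toPermHom _ (Multiplicative (ZMod 3)))))
    have hf : Function.Injective f := e.permCongrHom.injective.comp (Equiv.Perm.sumCongrHom_injective.comp
      (Subtype.val_injective.prodMap MulAction.toPerm_injective))
    haveI := P.isPGroup'.isNilpotent
    refine ⟨f.range, nilpotent_of_mulEquiv (MonoidHom.ofInjective hf), ?_, ⟨(MonoidHom.ofInjective hf).symm⟩⟩
    rw [← Nat.card_congr (MonoidHom.ofInjective hf).toEquiv, Nat.card_prod, mul_comm]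
    simp
  · rw [hP] at c1 c2
    obtain ⟨a, Q, ha, hQ, rfl⟩ := struct hn h1 c1
    obtain ⟨b, R, hb, hR, rfl⟩ := struct hn h2 c2
    obtain ⟨u, rfl⟩ := isConj_iff.1 (Equiv.Perm.isConj_iff_cycleType_eq.2 (ha.trans hb.symm))
    have h3 := hQ.smul' u
    have h4 : MulAut.conj u • centralizer {a} = centralizer {u * a * u⁻¹} := by
      ext x
      rw [mem_pointwise_smul_iff_inv_smul_mem, mem_centralizer_singleton_iff, mem_centralizer_singleton_iff]
      simp only [MulAut.smul_def, MulAut.conj_inv_apply]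
      constructor <;> intro h
      · calc x * (u * a * u⁻¹) = u * (u⁻¹ * x * u * a) * u⁻¹ := by group
          _ = _ := by rw [h]; group
      · calc u⁻¹ * x * u * a = u⁻¹ * (x * (u * a * u⁻¹)) * u := by group
          _ = _ := by rw [h]; group
    rw [h4] at h3
    obtain ⟨x, hx, e⟩ := h3.conj hR
    refine ⟨x * u, ?_⟩
    rw [Subgroup.map_sup, MonoidHom.map_zpowers, ← e, ← mul_smul, ← map_mul]
    congr 2
    change _ = x * u * a * (x * u)⁻¹
    rw [← mul_inv_eq_iff_eq_mul.2 (mem_centralizer_singleton_iff.1 hx)]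
    group

end Cfsg.Agent.S2254
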