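import Cfsg.Statements.S2256
import Cfsg.Agent.CZ.Nil2
import Cfsg.Agent.S2254

set_option autoImplicit false
open Cfsg

namespace Cfsg.Agent.S2256

open Subgroup Nat Pointwise CZ.Nil

/-- Let n ≡ 3 (mod 4) with n ≥ 7. Then every nilpotent subgroup of the alternating group on n letters has order at most 3 times the order of a Sylow 2-subgroup of the alternating group on n − 3 letters; the bound is attained by a nilpotent subgroup isomorphic to the direct product of such a Sylow 2-subgroup with a cyclic group of order 3; and any two nilpotent subgroups of the alternating group attaining the bound are conjugate in it. -/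
theorem result  (n : ℕ) (hn : n % 4 = 3) (h7 : 7 ≤ n)
    (P : Sylow 2 (alternatingGroup (Fin (n - 3)))) :
    (∀ N : Subgroup (alternatingGroup (Fin n)), Group.IsNilpotent N → Nat.card N ≤ 3 * Nat.card P) ∧
    (∃ M : Subgroup (alternatingGroup (Fin n)), Group.IsNilpotent M ∧ Nat.card M = 3 * Nat.card P ∧
      Nonempty (M ≃* (↥(P : Subgroup (alternatingGroup (Fin (n - 3)))) × Multiplicative (ZMod 3)))) ∧
    (∀ N₁ N₂ : Subgroup (alternatingGroup (Fin n)), Group.IsNilpotent N₁ → Group.IsNilpotent N₂ →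
      Nat.card N₁ = 3 * Nat.card P → Nat.card N₂ = 3 * Nat.card P →
      ∃ g : alternatingGroup (Fin n), N₂ = N₁.map (MulAut.conj g).toMonoidHom) := by
  have hP := card_sylow_alt (n := n - 3) (by omega) P
  have hg := g_eq3 hn
  have hodd : ∀ N : Subgroup (alternatingGroup (Fin n)), Group.IsNilpotent N → ¬ 2 ∣ Nat.card N →
      Nat.card N < 3 * Nat.card P := fun N hN h2 => by
    have := alt_odd N hN h2
    have := o_lt' n (by omega) (by omega)
    omega
  refine ⟨fun N hN => ?_, ?_, fun N₁ N₂ h1 h2 c1 c2 => ?_⟩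
  · by_cases h2 : 2 ∣ Nat.card N
    · have := alt_bound N hN h2
      omega
    · exact (hodd N hN h2).le
  · obtain ⟨e⟩ : Nonempty (Fin (n - 3) ⊕ Multiplicative (ZMod 3) ≃ Fin n) := ⟨Fintype.equivFinOfCardEq (by simp; omega)⟩
    let f : ↥(P : Subgroup (alternatingGroup (Fin (n - 3)))) × Multiplicative (ZMod 3) →* Equiv.Perm (Fin n) :=
      e.permCongrHom.toMonoidHom.comp ((Equiv.Perm.sumCongrHom _ _).comp
        (((alternatingGroup (Fin (n - 3))).subtype.comp (P : Subgroup (alternatingGroup (Fin (n - 3)))).subtype).prodMap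
          (MulAction.toPermHom _ (Multiplicative (ZMod 3)))))
    have hf : Function.Injective f := e.permCongrHom.injective.comp (Equiv.Perm.sumCongrHom_injective.comp
      ((Subtype.val_injective.comp Subtype.val_injective).prodMap MulAction.toPerm_injective))
    have hs : ∀ v, f v ∈ alternatingGroup (Fin n) := by
      rintro ⟨a, b⟩
      rw [Equiv.Perm.mem_alternatingGroup]
      change Equiv.Perm.sign (e.permCongr (Equiv.sumCongr (a.1.1) (MulAction.toPermHom _ (Multiplicative (ZMod 3)) b))) = 1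
      rw [Equiv.Perm.sign_permCongr, Equiv.Perm.sign_sumCongr, Equiv.Perm.mem_alternatingGroup.1 a.1.2, one_mul,
        show b = (b ^ 2) ^ 2 by revert b; decide, map_pow, map_pow, Int.units_sq]
    let f' := f.codRestrict _ hs
    have hf' : Function.Injective f' := fun a b h => hf (congrArg Subtype.val h)
    haveI := P.isPGroup'.isNilpotent
    refine ⟨f'.range, nilpotent_of_mulEquiv (MonoidHom.ofInjective hf'), ?_, ⟨(MonoidHom.ofInjective hf').symm⟩⟩
    rw [← Nat.card_congr (MonoidHom.ofInjective hf').toEquiv, Nat.card_prod, mul_comm]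
    simp
  · obtain ⟨Q⟩ : Nonempty (Sylow 2 (Equiv.Perm (Fin (n - 3)))) := inferInstance
    have hQ : Nat.card Q = 2 ^ padicValNat 2 (n - 3)! := by rw [card_sylow, Nat.card_fin]
    have key : ∀ N : Subgroup (alternatingGroup (Fin n)), Group.IsNilpotent N → Nat.card N = 3 * Nat.card P →
        ∃ M : Subgroup (Equiv.Perm (Fin n)), Group.IsNilpotent M ∧ Nat.card M = 3 * Nat.card Q ∧
          (∀ x : alternatingGroup (Fin n), x ∈ N ↔ x.1 ∈ M) ∧ ∃ σ ∈ M, Equiv.Perm.sign σ = -1 := by
      intro N hN hc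
      obtain ⟨M, a1, a2, σ, a3, a4⟩ := alt_even N hN (by_contra fun h => (hodd N hN h).ne hc)
      have b1 := card_le_of_le a2
      have b2 := two_mul_inf a3 a4
      have b3 := bound' M a1
      have b4 := card_map_of_injective (K := N) (f := (alternatingGroup (Fin n)).subtype) Subtype.val_injective
      have b5 := eq_of_le_of_card_ge a2 (by omega)
      refine ⟨M, a1, by omega, fun x => ⟨fun h => (a2 ⟨x, h, rfl⟩).1, fun h => ?_⟩, σ, a3, a4⟩
      obtain ⟨y, hy, e⟩ : x.1 ∈ N.map (alternatingGroup (Fin n)).subtype := b5 ▸ ⟨h, x.2⟩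
      exact Subtype.ext e ▸ hy
    obtain ⟨M₁, a1, a2, a3, σ, a4, a5⟩ := key N₁ h1 c1
    obtain ⟨M₂, b1, b2, b3, -⟩ := key N₂ h2 c2
    obtain ⟨u, hu⟩ := (Cfsg.Agent.S2254.result n hn Q).2.2 M₁ M₂ a1 b1 a2 b2
    have fin : ∀ v : alternatingGroup (Fin n), (∃ m ∈ M₁, v.1 = u * m) → N₂ = N₁.map (MulAut.conj v).toMonoidHom := by
      rintro v ⟨m, hm, hv⟩
      ext x
      rw [b3, hu, mem_map_equiv, mem_map_equiv, a3]
      simp only [MulAut.conj_symm_apply, coe_mul, coe_inv, hv, mul_inv_rev]
      rw [show m⁻¹ * u⁻¹ * x.1 * (u * m) = m⁻¹ * (u⁻¹ * x.1 * u) * m by group, Subgroup.mul_mem_cancel_right _ hm,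
        Subgroup.mul_mem_cancel_left _ (inv_mem hm)]
    rcases Int.units_eq_one_or (Equiv.Perm.sign u) with h | h
    · exact ⟨⟨u, h⟩, fin _ ⟨1, one_mem _, (mul_one u).symm⟩⟩
    · exact ⟨⟨u * σ, by simp [h, a5]⟩, fin _ ⟨σ, a4, rfl⟩⟩

end Cfsg.Agent.S2256
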