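import Cfsg.Statements.S2257
import Cfsg.Agent.H5.SL2Cl
import Cfsg.Agent.S0206

set_option autoImplicit false
open Cfsg

namespace Cfsg.Agent.S2257

open H5 Subgroup MulAction OnePoint

theorem dihS (n : ℕ) : Group.IsSolvable (DihedralGroup n) := by
  let f : Multiplicative (ZMod n) →* DihedralGroup n := ⟨⟨fun i => .r i.toAdd, rfl⟩, fun _ _ => rfl⟩
  let g : DihedralGroup n →* Multiplicative (ZMod 2) :=
    ⟨⟨fun x => match x with | .r _ => 1 | .sr _ => .ofAdd 1, rfl⟩, by
      rintro (a | a) (b | b)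
      · rfl
      · exact (one_mul _).symm
      · exact (mul_one _).symm
      · exact (by decide : (1 : Multiplicative (ZMod 2)) = .ofAdd 1 * .ofAdd 1)⟩
  refine Group.isSolvable_of_ker_le_range f g ?_
  rintro (a | a) h
  · exact ⟨.ofAdd a, rfl⟩
  · exact absurd (show (Multiplicative.ofAdd 1 : Multiplicative (ZMod 2)) = 1 from h) (by decide)

def Sol {G : Type*} [Group G] (x : G) : Set G := {y | Group.IsSolvable (closure ({x, y} : Set G))}

theorem sol_equiv {G G' : Type*} [Group G] [Group G'] (e : G ≃* G') (x : G) : (Sol (e x)).ncard = (Sol x).ncard := by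
  have : Sol (e x) = e '' Sol x := by
    ext y
    obtain ⟨y, rfl⟩ := e.surjective y
    rw [e.injective.mem_set_image]
    have h : closure ({e x, e y} : Set G') = (closure ({x, y} : Set G)).map (e : G →* G') := by
      rw [MonoidHom.map_closure, Set.image_pair]; rfl
    change Group.IsSolvable _ ↔ Group.IsSolvable _
    rw [h]
    exact ⟨isSolvable_of_equiv (e.subgroupMap _), isSolvable_of_equiv (e.subgroupMap _).symm⟩
  rw [this, Set.ncard_image_of_injective _ e.injective]

theorem sol_conj {G : Type*} [Group G] (c x : G) : (Sol (c * x * c⁻¹)).ncard = (Sol x).ncard :=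
  sol_equiv (MulAut.conj c) x

theorem sol_of_le {G : Type*} [Group G] {x y : G} {K : Subgroup G} (hK : Group.IsSolvable K) (hx : x ∈ K) (hy : y ∈ K) :
    y ∈ Sol x := isSolvable_of_le ((closure_le _).2 (Set.pair_subset hx hy)) hK

theorem nsol (K : Type*) [Field K] [Fintype K] (h6 : 4 ≤ Nat.card K) (k : Group.IsSolvable (PSL2 K)) : False := by
  have hs : IsSimpleGroup (PSL2 K) := Matrix.ProjectiveSpecialLinearGroup.rank_two_simple h6
  obtain ⟨x, hx⟩ := exists_psl (aff_mem_PS.2 (by simp) : aff 1 1 ∈ PS K)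
  obtain ⟨y, hy⟩ := exists_psl (pg_mem_PS.2 (by simp) : pg 1 0 1 1 (by simp) ∈ PS K)
  have := congrArg psl (IsSimpleGroup.comm_iff_isSolvable.2 k x y)
  simp [hx, hy, aff, pg_mul, pg_eq_iff] at this

variable {F : Type*} [Field F] [Fintype F] [CharP F 2]

theorem cases_sol {x y : PG F} (h : y ∈ Sol x) :
    (∃ z : OnePoint F, x • z = z ∧ y • z = z) ∨ ∃ n T D, IsTor n T D ∧ x ∈ D ∧ y ∈ D := by
  have hx : x ∈ closure ({x, y} : Set (PG F)) := subset_closure (by simp)
  have hy : y ∈ closure ({x, y} : Set (PG F)) := subset_closure (by simp)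
  change Group.IsSolvable _ at h
  generalize closure ({x, y} : Set (PG F)) = H at *
  by_cases h2 : 2 ∣ Nat.card H
  swap
  · obtain ⟨n, T, D, h1, h3⟩ := le_tor_of_odd 2 h2 h2
    exact .inr ⟨n, T, D, h1, h1.le (h3 hx), h1.le (h3 hy)⟩
  by_cases hf : ∃ z : OnePoint F, ∀ g ∈ H, g • z = z
  · obtain ⟨z, hz⟩ := hf
    exact .inl ⟨z, hz x hx, hz y hy⟩
  rcases dickson_unip 2 H h2 hf with ⟨-, n, T, D, h1, h3⟩ | ⟨h1, -⟩ | ⟨c, K, h3, h4⟩
  · exact .inr ⟨n, T, D, h1, h3 hx, h3 hy⟩
  · exact absurd h1 (by decide)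
  exfalso
  have h5 : cj c (subPSL K) ≤ H := by
    rcases h4 with rfl | ⟨-, rfl⟩
    · exact cj_le_cj.2 (subPSL_le K)
    · exact le_rfl
  have h6 : 4 ≤ Nat.card K := by
    obtain ⟨n, h1, h7⟩ := card_subfield_pow 2 K
    have : 2 ∣ Nat.card K := h7 ▸ dvd_pow_self 2 (by omega)
    omega
  have := Fintype.ofFinite K
  have k : Group.IsSolvable (PSL2 K) :=
    isSolvable_of_equiv (((psEquiv K).trans (subPSLEquiv K)).trans (cjEquiv c _)) (isSolvable_of_le h5 h)
  exact nsol K h6 k

theorem eqD {n n' : ℕ} {T D T' D' : Subgroup (PG F)} (h : IsTor n T D) (h' : IsTor n' T' D') {x : PG F} (hx : x ∈ T)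
    (h1 : x ≠ 1) (hx' : x ∈ D') : D' = D := by
  have h2 : x ∈ T' := by
    by_contra k
    exact h.not_dvd 2 (orderOf_eq_prime ((sq x).trans (h'.inv x hx' k)) h1 ▸ h.orderOf_dvd hx)
  have h3 : zpowers x ≠ ⊥ := by rwa [ne_eq, zpowers_eq_bot]
  rw [← h.normalizer_eq (zpowers_le.2 hx) h3, ← h'.normalizer_eq (zpowers_le.2 h2) h3]

theorem cop : (Fintype.card F - 1).Coprime (Fintype.card F + 1) := by
  obtain ⟨k, hk⟩ := char_dvd_card (F := F) 2
  have := Fintype.one_lt_card (α := F)
  rw [show Fintype.card F + 1 = 2 + (Fintype.card F - 1) by omega, Nat.coprime_add_self_right, Nat.coprime_two_right]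
  exact ⟨k - 1, by omega⟩

theorem split_of_fix {x : PG F} {z : OnePoint F} (hz : x • z = z) (h2 : ¬ 2 ∣ orderOf x) : ∃ c, x ∈ cj c (splitT F) :=
  (fix_cases hz).resolve_left fun ⟨c, b, hb, e⟩ => h2 (by rw [e, orderOf_conj', orderOf_aff_one 2 hb])

theorem c3 {x : PG F} (h1 : x ≠ 1) (ho : orderOf x ∣ Fintype.card F + 1) : (Sol x).ncard = 2 * (Fintype.card F + 1) := by
  have nd : ¬ orderOf x ∣ Fintype.card F - 1 := fun h => h1 (orderOf_eq_one_iff.1 (Nat.eq_one_of_dvd_coprimes cop h ho))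
  have h2 : ¬ 2 ∣ orderOf x := fun h => by
    have := h.trans ho
    have := char_dvd_card (F := F) 2
    omega
  obtain ⟨n, T, D, h, hx⟩ := exists_tor_of_orderOf 2 (g := x) fun e => h2 e.symm.dvd
  obtain rfl : n = Fintype.card F + 1 := h.eq.resolve_left fun e => nd (e ▸ h.orderOf_dvd hx)
  have : Sol x = D := by
    refine Set.Subset.antisymm (fun y hy => ?_) fun y hy => sol_of_le h.isSolvable (h.le hx) hy
    rcases cases_sol hy with ⟨z, hz, -⟩ | ⟨n', T', D', h', k1, k2⟩
    · obtain ⟨c, hc⟩ := split_of_fix hz h2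
      exact absurd ((isTor_split.cj c).orderOf_dvd hc) nd
    · exact eqD h h' hx h1 k1 ▸ k2
  rw [this, ← h.card_D]; rfl

theorem c2 {x : PG F} (h1 : x ≠ 1) (ho : orderOf x ∣ Fintype.card F - 1) :
    (Sol x).ncard = 2 * Fintype.card F * (Fintype.card F - 1) := by
  have hq := Fintype.one_lt_card (α := F)
  have h2 : ¬ 2 ∣ orderOf x := fun h => by
    have := h.trans ho
    have := char_dvd_card (F := F) 2
    omega
  obtain ⟨c, hc⟩ : ∃ c, x ∈ cj c (splitT F) := by
    by_contra k
    obtain ⟨T, D, h, -, h3⟩ := exists_nonsplit (F := F)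
    obtain ⟨c, hc⟩ := h3 x fun z hz => k (split_of_fix hz h2)
    exact h1 (orderOf_eq_one_iff.1 (Nat.eq_one_of_dvd_coprimes cop ho ((h.cj c).orderOf_dvd hc)))
  obtain ⟨x, hx, rfl⟩ : ∃ y ∈ splitT F, x = c * y * c⁻¹ := ⟨_, mem_cj.1 hc, by group⟩
  replace h1 : x ≠ 1 := by rintro rfl; simp at h1
  rw [sol_conj]
  have h := isTor_split (F := F)
  have ne : (∞ : OnePoint F) ≠ (0 : F) := infty_ne_coe _
  let A : Set (PG F) := stabilizer (PG F) (∞ : OnePoint F)
  let B : Set (PG F) := stabilizer (PG F) ((0 : F) : OnePoint F)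
  have e : Sol x = (A ∪ B) ∪ (splitD F \ splitT F) := by
    ext y
    constructor
    · intro hy
      rcases cases_sol hy with ⟨z, hz, k⟩ | ⟨n', T', D', h', k1, k2⟩
      · by_cases a1 : z = ∞
        · subst a1; exact .inl (.inl k)
        by_cases a2 : z = (0 : F)
        · subst a2; exact .inl (.inr k)
        exact absurd (pg_three x _ _ _ ne (Ne.symm a1) (Ne.symm a2) hx.1 hx.2 hz) h1
      · by_cases a : y ∈ splitT F
        · exact .inl (.inl a.1)
        · exact .inr ⟨eqD h h' hx h1 k1 ▸ k2, a⟩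
    · rintro ((hy | hy) | hy)
      · exact sol_of_le (isSolvable_stabilizer _) hx.1 hy
      · exact sol_of_le (isSolvable_stabilizer _) hx.2 hy
      · exact sol_of_le h.isSolvable (h.le hx) hy.1
  have d : Disjoint (A ∪ B) (splitD F \ splitT F) := Set.disjoint_left.2 fun y hy ⟨k1, k2⟩ => by
    rcases mem_pairStab.1 k1 with k | k
    · exact k2 k
    · rcases hy with hy | hy
      · exact ne (hy.symm.trans k.1)
      · exact ne (k.2.symm.trans hy)
  have a1 : A.ncard = _ := card_stab ∞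
  have a2 : B.ncard = _ := card_stab _
  have a3 : (A ∩ B).ncard = _ := h.card
  have a4 : (splitT F : Set (PG F)).ncard = _ := h.card
  have a5 : (splitD F : Set (PG F)).ncard = _ := h.card_D
  have a6 := Set.ncard_union_add_ncard_inter A B
  have a7 := Set.ncard_diff_add_ncard_of_subset (s := (splitT F : Set (PG F))) (t := splitD F) h.le
  rw [e, Set.ncard_union_eq d, mul_assoc]
  omega

theorem c1 {x : PG F} (ho : orderOf x = 2) : (Sol x).ncard = 3 * Fintype.card F * (Fintype.card F - 1) := by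
  obtain ⟨c, b, hb, rfl⟩ := exists_conj_of_orderOf 2 (g := x) ho.symm.dvd
  rw [sol_conj]
  rw [orderOf_conj'] at ho
  have two : (2 : F) = 0 := CharTwo.two_eq_zero
  have fx : ∀ z : OnePoint F, aff 1 b • z = z → z = ∞ := fun z hz => by
    induction z using OnePoint.rec with
    | infty => rfl
    | coe t => exact absurd (by simpa using hz) hb
  have xa : aff 1 b • (∞ : OnePoint F) = ∞ := aff_infty _ _
  generalize aff 1 b = x at *
  have xx : x * x = 1 := by have := pow_orderOf_eq_one x; rwa [ho, sq] at this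
  let A : Set (PG F) := stabilizer (PG F) (∞ : OnePoint F)
  let I : Set (PG F) := {y | y * y = 1 ∧ y • (∞ : OnePoint F) ≠ ∞}
  have mI : ∀ y, y ∈ (x * ·) '' I ↔ x * y ∈ I := fun y =>
    ⟨by rintro ⟨y, hy, rfl⟩; simpa [← mul_assoc, xx] using hy, fun h => ⟨_, h, by simp [← mul_assoc, xx]⟩⟩
  have sm : ∀ y : PG F, (x * y) • (∞ : OnePoint F) = ∞ ↔ y • (∞ : OnePoint F) = ∞ := fun y => by
    rw [mul_smul]
    exact ⟨fun h => (smul_left_cancel_iff x).1 (h.trans xa.symm), fun h => by rw [h, xa]⟩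
  have sI : ∀ y ∈ I, y ∈ Sol x := fun y hy => by
    obtain ⟨e⟩ := S0206.result x y ho (orderOf_eq_prime ((sq y).trans hy.1) (by rintro rfl; exact hy.2 (one_smul _ _)))
      (by rintro rfl; exact hy.2 xa)
    exact isSolvable_of_equiv e (dihS _)
  have e : Sol x = (A ∪ I) ∪ (x * ·) '' I := by
    ext y
    rw [Set.mem_union, mI]
    constructor
    · intro hy
      by_cases a : y • (∞ : OnePoint F) = ∞
      · exact .inl (.inl a)
      rcases cases_sol hy with ⟨z, hz, k⟩ | ⟨n, T, D, h, k1, k2⟩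
      · exact absurd (fx z hz ▸ k) a
      have xT : x ∉ T := fun k => h.not_dvd 2 (ho ▸ h.orderOf_dvd k)
      by_cases a2 : y ∈ T
      · exact .inr ⟨h.inv _ (D.mul_mem k1 k2) fun k => xT (((h.mul_mem_iff k1 k2).1 k).2 a2), fun k => a ((sm y).1 k)⟩
      · exact .inl (.inr ⟨h.inv y k2 a2, a⟩)
    · rintro ((hy | hy) | hy)
      · exact sol_of_le (isSolvable_stabilizer _) xa hy
      · exact sI y hy
      · refine sol_of_le (sI _ hy) (subset_closure (by simp)) ?_
        have : y = x * (x * y) := by rw [← mul_assoc, xx, one_mul]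
        exact this ▸ mul_mem (subset_closure (by simp)) (subset_closure (by simp [← this]))
  have d1 : Disjoint A I := Set.disjoint_left.2 fun y hy k => k.2 hy
  have d2 : Disjoint (A ∪ I) ((x * ·) '' I) := Set.disjoint_left.2 fun y hy k => by
    rw [mI] at k
    rcases hy with hy | hy
    · exact k.2 ((sm y).2 hy)
    · have : x * y = y * x := by
        rw [← inv_eq_of_mul_eq_one_right k.1, mul_inv_rev, inv_eq_of_mul_eq_one_right xx, inv_eq_of_mul_eq_one_right hy.1]
      exact hy.2 (fx _ (by rw [smul_smul, this, mul_smul, xa]))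
  have a1 : A.ncard = _ := card_stab ∞
  let f : F × Fˣ → PG F := fun s => pg s.1 (s.1 * s.1 - s.2) 1 s.1 (by simp)
  have hf : Function.Injective f := by
    rintro ⟨a, t⟩ ⟨a', t'⟩ h
    obtain ⟨u, -, h1, h2, h3, -⟩ := pg_eq_iff.1 h
    obtain rfl : u = 1 := by simpa using h3.symm
    simp only [one_mul] at h1 h2
    subst h1
    exact Prod.ext rfl (Units.ext (sub_right_injective h2).symm)
  have hI : I = Set.range f := by
    ext y
    constructor
    · rintro ⟨k1, k2⟩
      obtain ⟨a, b, c, d, h, rfl⟩ := exists_pg y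
      have hc : c ≠ 0 := fun e => k2 (pg_infty_eq_iff.2 e)
      rw [pg_mul, pg_eq_one_iff] at k1
      obtain rfl : a = d := mul_left_cancel₀ hc (by linear_combination k1.2.1 - c * d * two)
      refine ⟨⟨a / c, Units.mk0 ((a * a - b * c) / c ^ 2) (div_ne_zero h (pow_ne_zero 2 hc))⟩,
        pg_eq_iff.2 ⟨c, hc, ?_, ?_, ?_, ?_⟩⟩ <;> simp <;> field_simp <;> ring
    · rintro ⟨⟨a, t⟩, rfl⟩
      refine ⟨?_, fun k => one_ne_zero (pg_infty_eq_iff.1 k)⟩
      simp only [f]
      rw [pg_mul, pg_eq_one_iff]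
      exact ⟨by linear_combination a * (a * a - t) * two, by linear_combination a * two, by ring⟩
  have a2 : I.ncard = Fintype.card F * (Fintype.card F - 1) := by
    classical
    rw [hI, Set.ncard_range_of_injective hf, Nat.card_prod, Nat.card_units, Nat.card_eq_fintype_card]
  rw [e, Set.ncard_union_eq d2, Set.ncard_union_eq d1, Set.ncard_image_of_injective _ (mul_right_injective x), a1, a2]
  ring

/-- Let G = PSL_2(F) with F a field of order q = 2^p, p prime, and for x ∈ G call the solubilizer of x the set of y ∈ G such that x and y generate a solvable subgroup. Then the solubilizer of an involution has 3q(q − 1) elements; that of a non-identity element of order dividing q − 1 has 2q(q − 1) elements; and that of a non-identity element of order dividing q + 1 has 2(q + 1) elements. -/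
theorem result (p : ℕ) (hp : p.Prime) {F : Type*} [Field F] [Fintype F]
    (hF : Fintype.card F = 2 ^ p) (x : Matrix.ProjectiveSpecialLinearGroup (Fin 2) F) :
    (orderOf x = 2 → Nat.card {y : Matrix.ProjectiveSpecialLinearGroup (Fin 2) F // Group.IsSolvable ↥(Subgroup.closure ({x, y} : Set (Matrix.ProjectiveSpecialLinearGroup (Fin 2) F)))} = 3 * 2 ^ p * (2 ^ p - 1)) ∧
    (x ≠ 1 → orderOf x ∣ 2 ^ p - 1 → Nat.card {y : Matrix.ProjectiveSpecialLinearGroup (Fin 2) F // Group.IsSolvable ↥(Subgroup.closure ({x, y} : Set (Matrix.ProjectiveSpecialLinearGroup (Fin 2) F)))} = 2 * 2 ^ p * (2 ^ p - 1)) ∧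
    (x ≠ 1 → orderOf x ∣ 2 ^ p + 1 → Nat.card {y : Matrix.ProjectiveSpecialLinearGroup (Fin 2) F // Group.IsSolvable ↥(Subgroup.closure ({x, y} : Set (Matrix.ProjectiveSpecialLinearGroup (Fin 2) F)))} = 2 * (2 ^ p + 1)) := by
  haveI : CharP F 2 := char_of_card Nat.prime_two hF
  have he : Even (Fintype.card F) := even_iff_two_dvd.2 (char_dvd_card 2)
  let e : PSL2 F ≃* PG F := MulEquiv.ofBijective psl ⟨psl_inj, fun g => exists_psl (PS_eq_top he ▸ mem_top g)⟩
  have h : Nat.card {y : PSL2 F // Group.IsSolvable (closure ({x, y} : Set (PSL2 F)))} = (Sol (e x)).ncard :=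
    (sol_equiv e x).symm
  rw [h, ← hF, ← e.orderOf_eq, ← e.map_ne_one_iff]
  exact ⟨c1, c2, c3⟩

end Cfsg.Agent.S2257
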