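import Cfsg.Statements.S2258
import Cfsg.Agent.CZ.Sol3

set_option autoImplicit false
open Cfsg

namespace Cfsg.Agent.S2258

open H5 Subgroup MulAction OnePoint S2257 CZ.Sol3

variable {F : Type*} [Field F] [Fintype F] [CharP F 3] {m : ℕ} (hm : Odd m) (hF : Fintype.card F = 3 ^ m)

theorem h3 : (3 : F) = 0 := by simpa using CharP.cast_eq_zero F 3
theorem h2 : (2 : F) ≠ 0 := fun e => one_ne_zero (by linear_combination h3 (F := F) - e : (1 : F) = 0)

include hm hF

theorem q4 : Fintype.card F % 4 = 3 := by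
  obtain ⟨k, rfl⟩ := hm
  rw [hF, pow_succ, pow_mul, Nat.mul_mod, Nat.pow_mod]; simp

theorem ns : ¬ IsSquare (-1 : F) := fun h => FiniteField.isSquare_neg_one_iff.1 h (q4 hm hF)

theorem g2 : Nat.gcd 2 (Fintype.card F - 1) = 2 := gcd_two_of_odd (Nat.odd_iff.2 (by have := q4 hm hF; omega))

theorem cases3 {x y : PG F} (h : y ∈ Sol x) (hx' : x ∈ PS F) (hy' : y ∈ PS F) :
    (∃ z : OnePoint F, x • z = z ∧ y • z = z) ∨ (∃ n T D, IsTor n T D ∧ x ∈ D ∧ y ∈ D) ∨
      ∃ (f : A4 →* PG F) (a b : A4), Function.Injective f ∧ f a = x ∧ f b = y := by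
  have hx : x ∈ closure ({x, y} : Set (PG F)) := subset_closure (by simp)
  have hy : y ∈ closure ({x, y} : Set (PG F)) := subset_closure (by simp)
  have hP : closure ({x, y} : Set (PG F)) ≤ PS F := (closure_le _).2 (Set.pair_subset hx' hy')
  change Group.IsSolvable _ at h
  generalize closure ({x, y} : Set (PG F)) = H at *
  have a4 : (H ≃* A4) → ∃ (f : A4 →* PG F) (a b : A4), Function.Injective f ∧ f a = x ∧ f b = y := fun e => by
    obtain ⟨a, ha⟩ := (emb_range e).ge hx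
    obtain ⟨b, hb⟩ := (emb_range e).ge hy
    exact ⟨_, a, b, emb_inj e, ha, hb⟩
  have a5 : (H ≃* A5) → False := fun e => not_isSolvable_A5 (isSolvable_of_equiv e.symm h)
  rcases dickson 3 H with ⟨z, hz⟩ | ⟨n, T, D, h1, k⟩ | ⟨h1, ⟨⟨e⟩⟩ | ⟨⟨e⟩⟩ | ⟨⟨e⟩⟩⟩ | ⟨-, ⟨e⟩⟩ | ⟨c, K, h3, h4⟩
  · exact .inl ⟨z, hz x hx, hz y hy⟩
  · exact .inr (.inl ⟨n, T, D, h1, k hx, k hy⟩)
  · exact .inr (.inr (a4 e))
  · exact absurd (by rw [card_equiv e, Nat.card_perm, Nat.card_fin]; decide) h1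
  · exact (a5 e).elim
  · exact (a5 e).elim
  have h5 : cj c (subPSL K) ≤ H := by
    rcases h4 with rfl | ⟨-, rfl⟩
    · exact cj_le_cj.2 (subPSL_le K)
    · exact le_rfl
  have := Fintype.ofFinite K
  have h6 : Nat.card K = 3 := by
    by_contra k
    exact nsol K (by omega)
      (isSolvable_of_equiv (((psEquiv K).trans (subPSLEquiv K)).trans (cjEquiv c _)) (isSolvable_of_le h5 h))
  rcases h4 with rfl | ⟨-, rfl⟩
  · rw [cj_le_iff, cj_of_normal] at hP
    exact absurd (even_of_subPGL_le (h6 ▸ hF) (Nat.odd_iff.2 (by have := q4 hm hF; omega)) hP) (Nat.not_even_iff_odd.2 hm)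
  obtain ⟨H, ⟨e⟩⟩ := exists_A4 (h2 (F := F))
  obtain ⟨d, hd⟩ := A4_le_sub h2 K e
  have h7 := card_subPSL K
  rw [h6] at h7
  have h8 : H = cj d (subPSL K) := hd.antisymm (le_of_card_le hd (by
    rw [card_cj, card_equiv e, KB.card_A4]; norm_num at h7; omega))
  exact .inr (.inr (a4 (((cjEquiv c _).symm.trans (cjEquiv d _)).trans ((MulEquiv.subgroupCongr h8.symm).trans e))))

theorem dv2 {n : ℕ} (h : n ∣ Fintype.card F - 1) (h' : n ∣ Fintype.card F + 1) : n = 1 ∨ n = 2 := by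
  have := q4 hm hF
  exact (Nat.dvd_prime Nat.prime_two).1 ((Nat.dvd_add_right h).1 (by
    rwa [show Fintype.card F - 1 + 2 = Fintype.card F + 1 by omega]))

omit hm hF in
theorem spl {x : PG F} {z : OnePoint F} (hz : x • z = z) (h : orderOf x ≠ 3) : ∃ c, x ∈ cj c (splitT F) :=
  (fix_cases hz).resolve_left fun ⟨c, b, hb, e⟩ => h (by rw [e, orderOf_conj', orderOf_aff_one 3 hb])

omit hm hF in
theorem noA4 {x : PG F} (h1 : x ≠ 1) (o2 : orderOf x ≠ 2) (o3 : orderOf x ≠ 3) {f : A4 →* PG F} {a : A4} (e : f a = x) :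
    False := by
  rcases fa a with h | h
  · exact o2 (orderOf_eq_prime (by rw [← e, ← map_pow, h, map_one]) h1)
  · exact o3 (orderOf_eq_prime (by rw [← e, ← map_pow, h, map_one]) h1)

theorem d4 {x : PG F} (hP : x ∈ PS F) (h1 : x ≠ 1) (o2 : orderOf x ≠ 2) (ho : orderOf x ∣ Fintype.card F + 1) :
    (Sol x ∩ PS F).ncard = Fintype.card F + 1 := by
  have nd : ¬ orderOf x ∣ Fintype.card F - 1 := fun h => (dv2 hm hF h ho).elim (fun e => h1 (orderOf_eq_one_iff.1 e)) o2
  have o3 : orderOf x ≠ 3 := fun h => by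
    have := char_dvd_card (F := F) 3
    rw [h] at ho
    omega
  have xx : x * x ≠ 1 := fun h => o2 (orderOf_eq_prime ((sq x).trans h) h1)
  obtain ⟨n, T, D, h, hx⟩ := exists_tor_of_orderOf 3 o3
  obtain rfl : n = Fintype.card F + 1 := h.eq.resolve_left fun e => nd (e ▸ h.orderOf_dvd hx)
  have : Sol x ∩ PS F = (D ⊓ PS F : Subgroup _) := by
    refine Set.Subset.antisymm (fun y hy => ⟨?_, hy.2⟩) fun y hy => ⟨sol_of_le h.isSolvable (h.le hx) hy.1, hy.2⟩
    rcases cases3 hm hF hy.1 hP hy.2 with ⟨z, hz, -⟩ | ⟨n', T', D', h', k1, k2⟩ | ⟨f, a, -, -, e, -⟩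
    · obtain ⟨c, hc⟩ := spl hz o3
      exact absurd ((isTor_split.cj c).orderOf_dvd hc) nd
    · exact h'.D_eq h (h'.mem_of_sq k1 xx) hx h1 ▸ k2
    · exact (noA4 h1 o2 o3 e).elim
  have a := h.inf_PS_dihedral.1
  have := q4 hm hF
  rw [g2 hm hF] at a
  rw [‹Sol x ∩ _ = _›, ← Nat.card_coe_set_eq]
  exact a.trans (by omega)

theorem d3 {x : PG F} (hP : x ∈ PS F) (h1 : x ≠ 1) (o2 : orderOf x ≠ 2) (ho : orderOf x ∣ Fintype.card F - 1) :
    (Sol x ∩ PS F).ncard = Fintype.card F * (Fintype.card F - 1) := by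
  have hq := q4 hm hF
  have o3 : orderOf x ≠ 3 := fun h => by
    have := char_dvd_card (F := F) 3
    rw [h] at ho
    omega
  obtain ⟨c, hc⟩ : ∃ c, x ∈ cj c (splitT F) := by
    by_contra k
    obtain ⟨T, D, h, -, h3⟩ := exists_nonsplit (F := F)
    obtain ⟨c, hc⟩ := h3 x fun z hz => k (spl hz o3)
    exact (dv2 hm hF ho ((h.cj c).orderOf_dvd hc)).elim (fun e => h1 (orderOf_eq_one_iff.1 e)) o2
  obtain ⟨x, hx, rfl⟩ : ∃ y ∈ splitT F, x = c * y * c⁻¹ := ⟨_, mem_cj.1 hc, by group⟩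
  replace h1 : x ≠ 1 := by rintro rfl; simp at h1
  replace hP : x ∈ PS F := by simpa [mul_assoc] using (PS_normal (k := F)).conj_mem _ hP c⁻¹
  rw [orderOf_conj'] at o2 o3
  have xx : x * x ≠ 1 := fun h => o2 (orderOf_eq_prime ((sq x).trans h) h1)
  rw [sp_conj]
  have h := isTor_split (F := F)
  have ne : (∞ : OnePoint F) ≠ (0 : F) := infty_ne_coe _
  let A : Set (PG F) := (stabilizer (PG F) (∞ : OnePoint F) ⊓ PS F : Subgroup _)
  let B : Set (PG F) := (stabilizer (PG F) ((0 : F) : OnePoint F) ⊓ PS F : Subgroup _)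
  let T : Set (PG F) := (splitT F ⊓ PS F : Subgroup _)
  let D : Set (PG F) := (splitD F ⊓ PS F : Subgroup _)
  have e : Sol x ∩ PS F = (A ∪ B) ∪ (D \ T) := by
    ext y
    constructor
    · rintro ⟨hy, hy'⟩
      rcases cases3 hm hF hy hP hy' with ⟨z, hz, k⟩ | ⟨n', T', D', h', k1, k2⟩ | ⟨f, a, -, -, e, -⟩
      · by_cases a1 : z = ∞
        · subst a1; exact .inl (.inl ⟨k, hy'⟩)
        by_cases a2 : z = (0 : F)
        · subst a2; exact .inl (.inr ⟨k, hy'⟩)
        exact absurd (pg_three x _ _ _ ne (Ne.symm a1) (Ne.symm a2) hx.1 hx.2 hz) h1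
      · by_cases a : y ∈ splitT F
        · exact .inl (.inl ⟨a.1, hy'⟩)
        · exact .inr ⟨⟨h'.D_eq h (h'.mem_of_sq k1 xx) hx h1 ▸ k2, hy'⟩, fun k => a k.1⟩
      · exact (noA4 h1 o2 o3 e).elim
    · rintro ((hy | hy) | hy)
      · exact ⟨sol_of_le (isSolvable_stabilizer _) hx.1 hy.1, hy.2⟩
      · exact ⟨sol_of_le (isSolvable_stabilizer _) hx.2 hy.1, hy.2⟩
      · exact ⟨sol_of_le h.isSolvable (h.le hx) hy.1.1, hy.1.2⟩
  have d : Disjoint (A ∪ B) (D \ T) := Set.disjoint_left.2 fun y hy ⟨k1, k2⟩ => by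
    rcases mem_pairStab.1 k1.1 with k | k
    · exact k2 ⟨k, k1.2⟩
    · rcases hy with hy | hy
      · exact ne (hy.1.symm.trans k.1)
      · exact ne (k.2.symm.trans hy.1)
  have a1 : _ * A.ncard = _ := card_stab_PS ∞
  have a2 : _ * B.ncard = _ := card_stab_PS _
  have a3 : A ∩ B = T := Set.ext fun y => ⟨fun k => ⟨⟨k.1.1, k.2.1⟩, k.1.2⟩, fun k => ⟨⟨k.1.1, k.2⟩, k.1.2, k.2⟩⟩
  have a4 : T.ncard = _ := h.card_inf_PS
  have a5 : D.ncard = _ := h.inf_PS_dihedral.1
  have a6 := Set.ncard_union_add_ncard_inter A B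
  have a7 := Set.ncard_diff_add_ncard_of_subset (s := T) (t := D) fun y k => ⟨h.le k.1, k.2⟩
  rw [g2 hm hF] at a1 a2
  rw [a3] at a6
  rw [e, Set.ncard_union_eq d]
  omega

theorem d2 {x : PG F} (ho : orderOf x = 3) :
    2 * (Sol x ∩ PS F).ncard = Fintype.card F * (Fintype.card F + 5) := by
  obtain ⟨c, b, hb, rfl⟩ := exists_conj_of_orderOf 3 (g := x) ho.symm.dvd
  rw [sp_conj]
  rw [orderOf_conj'] at ho
  have fx : ∀ z : OnePoint F, aff 1 b • z = z → z = ∞ := fun z hz => by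
    induction z using OnePoint.rec with
    | infty => rfl
    | coe t => exact absurd (by simpa using hz) hb
  have xa : aff 1 b • (∞ : OnePoint F) = ∞ := aff_infty _ _
  have hP : aff 1 b ∈ PS F := aff_mem_PS.2 (by simp)
  have x3 : aff 1 b ^ 3 = 1 := by have := pow_orderOf_eq_one (aff 1 b); rwa [ho] at this
  have x1 : aff 1 b ≠ 1 := fun h => hb (aff_eq_one.1 h).2
  let A : Set (PG F) := (stabilizer (PG F) (∞ : OnePoint F) ⊓ PS F : Subgroup _)
  have hd : ∀ a : F, a * -a - (-b ^ 2 - a ^ 2) * 1 = b ^ 2 := fun a => by ring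
  let u : F → PG F := fun a => pg a (-b ^ 2 - a ^ 2) 1 (-a) (by rw [hd]; exact pow_ne_zero 2 hb)
  let f : F × Fin 3 → PG F := fun s => aff 1 b ^ s.2.1 * u s.1
  have fi : ∀ s, f s • (∞ : OnePoint F) ≠ ∞ := fun s k => by
    simp only [f, u] at k
    rw [aff_one_pow, aff, pg_mul, pg_infty_eq_iff] at k
    simp at k
  have hf : Function.Injective f := by
    rintro ⟨a, i⟩ ⟨a', j⟩ h
    simp only [f, u] at h
    rw [aff_one_pow, aff_one_pow, aff, aff, pg_mul, pg_mul, pg_eq_iff] at h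
    obtain ⟨t, -, k1, -, k3, k4⟩ := h
    obtain rfl : t = 1 := by simpa using k3.symm
    obtain rfl : a' = a := by simpa using k4
    have k : ((j.1 : ℕ) : F) = (i.1 : ℕ) := by simpa [hb] using k1
    have := (CharP.natCast_eq_natCast F 3).1 k
    exact congrArg (Prod.mk _) (Fin.ext (by have := i.2; have := j.2; unfold Nat.ModEq at *; omega))
  have e : Sol (aff 1 b) ∩ PS F = A ∪ Set.range f := by
    ext y
    constructor
    · rintro ⟨hy, hy'⟩
      by_cases a : y • (∞ : OnePoint F) = ∞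
      · exact .inl ⟨a, hy'⟩
      rcases cases3 hm hF hy hP hy' with ⟨z, hz, k⟩ | ⟨n, T, D, h, k1, k2⟩ | ⟨g, α, β, hg, e1, e2⟩
      · exact absurd (fx z hz ▸ k) a
      · refine absurd (ho ▸ h.orderOf_dvd (h.mem_of_sq k1 fun k => ?_)) (h.not_dvd 3)
        exact x1 (by rwa [pow_succ, sq, k, one_mul] at x3)
      rcases fc α β (hg (by rw [map_pow, e1, x3, map_one])) (by rintro rfl; exact x1 (by rw [← e1, map_one])) with
        k | ⟨i, k1, k2⟩
      · have k := congrArg g k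
        rw [map_mul, map_mul, e1, e2] at k
        exact absurd (fx _ (by rw [smul_smul, k, mul_smul, xa])) a
      have k1 := congrArg g k1
      have k2 := congrArg g k2
      simp only [map_mul, map_pow, e1, e2, map_one] at k1 k2
      have hy : y = aff 1 b ^ i.1 * (aff 1 b ^ (3 - i.1) * y) := by
        rw [← mul_assoc, ← pow_add, Nat.add_sub_cancel' i.2.le, x3, one_mul]
      generalize aff 1 b ^ (3 - i.1) * y = v at *
      obtain ⟨α, β, γ, δ, h, rfl⟩ := exists_pg v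
      have hc : γ ≠ 0 := fun e => a (by rw [hy, mul_smul, pg_infty_eq_iff.2 e, aff_one_pow, aff_infty])
      have t1 : α + δ = 0 := by
        rcases pow_two_eq_one_iff.1 k1 with k | k
        · exact absurd (pg_eq_one_iff.1 k).2.1 hc
        · simpa [kap_pg, h] using k
      have t2 : (b * γ) ^ 2 = α * δ - β * γ := by
        rw [aff, pg_mul] at k2
        rcases pow_three_eq_one_iff.1 k2 with k | k
        · exact absurd (by simpa using (pg_eq_one_iff.1 k).2.1) hc
        · rw [kap_pg, div_eq_one_iff_eq (det_mul_ne (by simp) h)] at k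
          simp only [Units.val_one] at k
          linear_combination k - (α + δ + 2 * b * γ) * t1
      refine .inr ⟨⟨α / γ, i⟩, ?_⟩
      rw [hy]
      refine congrArg (aff 1 b ^ i.1 * ·) (pg_eq_iff.2 ⟨γ, hc, by field_simp, ?_, by simp, ?_⟩)
      · field_simp; linear_combination t2 + α * t1
      · field_simp; linear_combination t1
    · rintro (hy | ⟨⟨a, i⟩, rfl⟩)
      · exact ⟨sol_of_le (isSolvable_stabilizer _) xa hy.1, hy.2⟩
      have uP : u a ∈ PS F := pg_mem_PS.2 (by rw [hd]; exact ⟨b, sq b⟩)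
      refine ⟨sol_mul (sol_symm (tri (pow_two_eq_one_iff.2 (.inr (by simp [u, kap_pg]))) x3 ?_ fun k => ?_)) _,
        mul_mem (pow_mem hP _) uP⟩
      · refine pow_three_eq_one_iff.2 (.inr ?_)
        simp only [u]
        rw [aff, pg_mul, kap_pg, div_eq_one_iff_eq (det_mul_ne (by rw [hd]; exact pow_ne_zero 2 hb) (by simp))]
        simp only [Units.val_one]
        ring
      · exact one_ne_zero (pg_eq_one_iff.1 k).2.1
  have d : Disjoint A (Set.range f) := Set.disjoint_left.2 fun y hy ⟨s, k⟩ => fi s (k ▸ hy.1)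
  have a1 : _ * A.ncard = _ := card_stab_PS ∞
  rw [g2 hm hF] at a1
  rw [e, Set.ncard_union_eq d, Set.ncard_range_of_injective hf, Nat.card_prod, Nat.card_fin, Nat.card_eq_fintype_card,
    mul_add, a1]
  obtain ⟨r, hr⟩ : ∃ r, Fintype.card F = r + 1 := ⟨_, (Nat.succ_pred_eq_of_pos Fintype.card_pos).symm⟩
  rw [hr, Nat.add_sub_cancel]; ring

theorem key {a b c d : F} (h : a * d - b * c = 1) :
    pg a b c d (by simp [h]) ∈ Sol (pg (0 : F) (-1) 1 0 (by simp)) ↔
      a + d = 0 ∨ b - c = 0 ∨ (a - d = 0 ∧ b + c = 0) ∨ ((a + d) ^ 2 = 1 ∧ (b - c) ^ 2 = 1) := by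
  have hj : pg (0 : F) (-1) 1 0 (by simp) * pg a b c d (by simp [h]) =
      pg (-c) (-d) a b (by rw [show -c * b - -d * a = 1 by linear_combination h]; simp) := by
    rw [pg_mul]; exact pg_congr (by ring) (by ring) (by ring) (by ring)
  have h' : -c * b - -d * a = 1 := by linear_combination h
  have j2 : pg (0 : F) (-1) 1 0 (by simp) ^ 2 = 1 := pow_two_eq_one_iff.2 (.inr (by simp [kap_pg]))
  have j1 : pg (0 : F) (-1) 1 0 (by simp) ≠ 1 := fun k => one_ne_zero (pg_eq_one_iff.1 k).2.1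
  have jo := orderOf_eq_prime j2 j1
  have jP : pg (0 : F) (-1) 1 0 (by simp) ∈ PS F := pg_mem_PS.2 (by simp)
  have jf : ∀ z : OnePoint F, pg (0 : F) (-1) 1 0 (by simp) • z ≠ z := fun z hz => by
    induction z using OnePoint.rec with
    | infty => exact one_ne_zero (pg_infty_eq_iff.1 hz)
    | coe t => exact ns hm hF ⟨t, by linear_combination pg_coe_eq_iff.1 hz⟩
  have hk : pg a b c d (by simp [h]) * pg (0 : F) (-1) 1 0 (by simp) =
      pg b (-a) d (-c) (by rw [show b * -c - -a * d = 1 by linear_combination h]; simp) := by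
    rw [pg_mul]; exact pg_congr (by ring) (by ring) (by ring) (by ring)
  have yP : pg a b c d (by simp [h]) ∈ PS F := pg_mem_PS.2 (by simp [h])
  have k1 : kap (pg a b c d (by simp [h])) = (a + d) ^ 2 := by rw [kap_pg, h, div_one]
  have k2 : kap (pg (0 : F) (-1) 1 0 (by simp) * pg a b c d (by simp [h])) = (b - c) ^ 2 := by
    rw [hj, kap_pg, h', div_one]; ring
  have o1 : pg a b c d (by simp [h]) = 1 → b - c = 0 := fun k => by
    obtain ⟨k, k', -⟩ := pg_eq_one_iff.1 k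
    rw [k, k', sub_zero]
  have o2 : pg (0 : F) (-1) 1 0 (by simp) * pg a b c d (by simp [h]) = 1 → a + d = 0 := fun k => by
    obtain ⟨k, k', -⟩ := pg_eq_one_iff.1 (hj ▸ k)
    linear_combination k' - k
  have cm : pg (0 : F) (-1) 1 0 (by simp) * pg a b c d (by simp [h]) = pg a b c d (by simp [h]) * pg (0 : F) (-1) 1 0 (by simp) →
      b - c = 0 ∨ (a - d = 0 ∧ b + c = 0) := fun k => by
    rw [hj, hk, pg_eq_iff] at k
    obtain ⟨t, -, e1, e2, e3, e4⟩ := k
    have : (t + 1) * (t - 1) = 0 := by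
      linear_combination (1 - t ^ 2) * h + d * (e2 - t * e3) + c * (t * e4 + e1)
    rcases mul_eq_zero.1 this with k | k
    · exact .inl (by linear_combination e1 - c * k)
    · exact .inr ⟨by linear_combination -e3 - a * k, by linear_combination e1 - c * k⟩
  have cm' : a - d = 0 ∧ b + c = 0 → pg (0 : F) (-1) 1 0 (by simp) * pg a b c d (by simp [h]) =
      pg a b c d (by simp [h]) * pg (0 : F) (-1) 1 0 (by simp) := fun k => by
    rw [hj, hk]
    exact pg_congr (by linear_combination -k.2) (by linear_combination k.1) (by linear_combination k.1)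
      (by linear_combination k.2)
  generalize pg (0 : F) (-1) 1 0 _ = j at *
  generalize pg a b c d _ = y at *
  have s1 : y ^ 2 = 1 → a + d = 0 ∨ b - c = 0 := fun k =>
    (pow_two_eq_one_iff.1 k).elim (fun k => .inr (o1 k)) fun k => .inl (pow_eq_zero_iff two_ne_zero |>.1 (k1 ▸ k))
  have s2 : (j * y) ^ 2 = 1 → a + d = 0 ∨ b - c = 0 := fun k =>
    (pow_two_eq_one_iff.1 k).elim (fun k => .inl (o2 k)) fun k => .inr (pow_eq_zero_iff two_ne_zero |>.1 (k2 ▸ k))
  constructor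
  · intro hy
    rcases cases3 hm hF hy jP yP with ⟨z, hz, -⟩ | ⟨n, T, D, h, a1, a2⟩ | ⟨g, α, β, hg, e1, e2⟩
    · exact absurd hz (jf z)
    · by_cases b1 : y ∈ T
      · by_cases b2 : j ∈ T
        · exact .inr ((cm (h.comm b2 b1)).imp_right .inl)
        · exact (s2 ((sq _).trans (h.inv _ (D.mul_mem a1 a2) fun k => b2 (((h.mul_mem_iff a1 a2).1 k).2 b1)))).imp_right .inl
      · exact (s1 ((sq _).trans (h.inv _ a2 b1))).imp_right .inl
    rcases fb α β (hg (by rw [map_pow, e1, j2, map_one])) (by rintro rfl; exact j1 (by rw [← e1, map_one])) with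
      k | ⟨k, k'⟩
    · exact (s1 (by rw [← e2, ← map_pow, k, map_one])).imp_right .inl
    rcases pow_three_eq_one_iff.1 (show y ^ 3 = 1 by rw [← e2, ← map_pow, k, map_one]) with b1 | b1
    · exact .inr (.inl (o1 b1))
    rcases pow_three_eq_one_iff.1 (show (j * y) ^ 3 = 1 by rw [← e1, ← e2, ← map_mul, ← map_pow, k', map_one]) with b2 | b2
    · exact .inl (o2 b2)
    · exact .inr (.inr (.inr ⟨k1 ▸ b1, k2 ▸ b2⟩))
  · rintro (k | k | k | k)
    · exact dih jo (pow_two_eq_one_iff.2 (.inr (by rw [k1, k]; simp)))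
    · have := sol_mul (dih jo (pow_two_eq_one_iff.2 (.inr (by rw [k2, k]; simp)))) 1
      rwa [pow_one, ← mul_assoc, ← sq, j2, one_mul] at this
    · exact com (cm' k)
    · exact tri j2 (pow_three_eq_one_iff.2 (.inr (k1.trans k.1))) (pow_three_eq_one_iff.2 (.inr (k2.trans k.2))) j1

theorem d1 {x : PSL2 F} (ho : orderOf x = 2) : (Sol x).ncard = Fintype.card F * (Fintype.card F + 1) := by
  let j : SL2 F := sl2 0 (-1) 1 0 (by simp)
  have hj : psl (j : PSL2 F) = pg (0 : F) (-1) 1 0 (by simp) := mkS_sl2 _ _ _ _ _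
  have jo : orderOf (j : PSL2 F) = 2 := by
    rw [← orderOf_psl, hj]
    exact orderOf_eq_prime (pow_two_eq_one_iff.2 (.inr (by simp [kap_pg]))) fun k => one_ne_zero (pg_eq_one_iff.1 k).2.1
  obtain ⟨c, rfl⟩ := isConj_iff.1 (isConj_invol jo ho)
  rw [sol_conj]
  have hq := q4 hm hF
  have c1 := QuotientGroup.card_preimage_mk (center (SL2 F)) (Sol (j : PSL2 F))
  have c2 : Nat.card (center (SL2 F)) = 2 := by
    have a1 := card_eq_card_quotient_mul_card_subgroup (center (SL2 F))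
    have a2 := card_PSL2_mul (F := F)
    rw [g2 hm hF, ← card_SL2, a1, mul_comm] at a2
    exact (Nat.eq_of_mul_eq_mul_left Nat.card_pos a2).symm
  let φ : SL2 F → (F × F) × F × F := fun g => ((g 0 0 + g 1 1, g 0 1 - g 1 0), (g 0 0 - g 1 1, g 0 1 + g 1 0))
  have hφ : Function.Injective φ := fun g g' h => by
    obtain ⟨a, b, c, d, _, rfl⟩ := exists_sl2 g
    obtain ⟨a', b', c', d', _, rfl⟩ := exists_sl2 g'
    obtain ⟨⟨e1, e2⟩, e3, e4⟩ : (a + d = a' + d' ∧ b - c = b' - c') ∧ a - d = a' - d' ∧ b + c = b' + c' := by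
      simpa [φ, Prod.ext_iff] using h
    exact sl2_eq_iff.2 ⟨mul_left_cancel₀ h2 (by linear_combination e1 + e3), mul_left_cancel₀ h2 (by linear_combination e2 + e4),
      mul_left_cancel₀ h2 (by linear_combination e4 - e2), mul_left_cancel₀ h2 (by linear_combination e1 - e3)⟩
  have mem : ∀ a b c d h, sl2 a b c d h ∈ (QuotientGroup.mk ⁻¹' Sol (j : PSL2 F) : Set (SL2 F)) ↔
      a + d = 0 ∨ b - c = 0 ∨ (a - d = 0 ∧ b + c = 0) ∨ ((a + d) ^ 2 = 1 ∧ (b - c) ^ 2 = 1) := fun a b c d h => by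
    rw [← key hm hF h, ← hj, ← mkS_sl2 a b c d h]
    exact (sol_map psl psl_inj).symm
  have t := h3 (F := F)
  have e : φ '' (QuotientGroup.mk ⁻¹' Sol (j : PSL2 F)) = Q F := by
    ext ⟨⟨s, r⟩, u, v⟩
    constructor
    · rintro ⟨g, hg, e⟩
      obtain ⟨a, b, c, d, h, rfl⟩ := exists_sl2 g
      obtain ⟨⟨rfl, rfl⟩, rfl, rfl⟩ : (a + d = s ∧ b - c = r) ∧ a - d = u ∧ b + c = v := by
        simpa [φ, Prod.ext_iff] using e
      exact ⟨by dsimp only; linear_combination -4 * h - t, (mem _ _ _ _ _).1 hg⟩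
    · rintro ⟨k1, k2⟩
      dsimp only at k1 k2
      have e1 : -(s + u) + -(s - u) = s := by linear_combination -s * t
      have e2 : -(v + r) - -(v - r) = r := by linear_combination -r * t
      have e3 : -(s + u) - -(s - u) = u := by linear_combination -u * t
      have e4 : -(v + r) + -(v - r) = v := by linear_combination -v * t
      refine ⟨sl2 (-(s + u)) (-(v + r)) (-(v - r)) (-(s - u)) (by linear_combination -k1), (mem _ _ _ _ _).2 ?_,
        Prod.ext (Prod.ext e1 e2) (Prod.ext e3 e4)⟩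
      rwa [e1, e2, e3, e4]
  have c3 := Q_card (ns hm hF) t
  rw [← e, Set.ncard_image_of_injective _ hφ, ← Nat.card_coe_set_eq, c1, c2, Nat.card_coe_set_eq] at c3
  omega

omit hm hF

/-- Let G = PSL_2(F) with F a field of order q = 3^p, p an odd prime, and for x ∈ G call the solubilizer of x the set of y ∈ G such that x and y generate a solvable subgroup. Then the solubilizer of an involution has q(q + 1) elements; that of an element of order 3 has q(q + 5)/2 elements; that of an element of order neither 1 nor 2 dividing q − 1 has q(q − 1) elements; and that of an element of order neither 1 nor 2 dividing q + 1 has q + 1 elements. -/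
theorem result (p : ℕ) (hp : p.Prime) (hodd : Odd p) {F : Type*} [Field F] [Fintype F]
    (hF : Fintype.card F = 3 ^ p) (x : Matrix.ProjectiveSpecialLinearGroup (Fin 2) F) :
    (orderOf x = 2 → Nat.card {y : Matrix.ProjectiveSpecialLinearGroup (Fin 2) F // Group.IsSolvable ↥(Subgroup.closure ({x, y} : Set (Matrix.ProjectiveSpecialLinearGroup (Fin 2) F)))} = 3 ^ p * (3 ^ p + 1)) ∧
    (orderOf x = 3 → 2 * Nat.card {y : Matrix.ProjectiveSpecialLinearGroup (Fin 2) F // Group.IsSolvable ↥(Subgroup.closure ({x, y} : Set (Matrix.ProjectiveSpecialLinearGroup (Fin 2) F)))} = 3 ^ p * (3 ^ p + 5)) ∧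
    (x ≠ 1 → orderOf x ≠ 2 → orderOf x ∣ 3 ^ p - 1 → Nat.card {y : Matrix.ProjectiveSpecialLinearGroup (Fin 2) F // Group.IsSolvable ↥(Subgroup.closure ({x, y} : Set (Matrix.ProjectiveSpecialLinearGroup (Fin 2) F)))} = 3 ^ p * (3 ^ p - 1)) ∧
    (x ≠ 1 → orderOf x ≠ 2 → orderOf x ∣ 3 ^ p + 1 → Nat.card {y : Matrix.ProjectiveSpecialLinearGroup (Fin 2) F // Group.IsSolvable ↥(Subgroup.closure ({x, y} : Set (Matrix.ProjectiveSpecialLinearGroup (Fin 2) F)))} = 3 ^ p + 1) := by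
  haveI : CharP F 3 := char_of_card Nat.prime_three hF
  have h0 : Nat.card {y : PSL2 F // Group.IsSolvable (closure ({x, y} : Set (PSL2 F)))} = (Sol x).ncard := rfl
  have h : (Sol x).ncard = (Sol (psl x) ∩ PS F).ncard := by
    rw [← Set.ncard_image_of_injective _ psl_inj]
    congr 1
    ext y
    constructor
    · rintro ⟨y, hy, rfl⟩
      exact ⟨(sol_map psl psl_inj).2 hy, psl_mem y⟩
    · rintro ⟨k1, k2⟩
      obtain ⟨y, rfl⟩ := exists_psl k2
      exact ⟨y, (sol_map psl psl_inj).1 k1, rfl⟩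
  rw [h0, ← hF]
  refine ⟨d1 hodd hF, ?_⟩
  rw [h, ← orderOf_psl, ← map_ne_one_iff psl psl_inj]
  exact ⟨d2 hodd hF, d3 hodd hF (psl_mem x), d4 hodd hF (psl_mem x)⟩

end Cfsg.Agent.S2258
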