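import Cfsg.Statements.S2259
import Cfsg.Agent.H6.Suz8

set_option autoImplicit false
open Cfsg

namespace Cfsg.Agent.S2259

/-- Let G be the Suzuki group Sz(q), q = 2^(2m+1) with 2m + 1 prime and m ≥ 1, realised inside Sp_4(F) for F the field of order q, write r = 2^(m+1) (so r² = 2q), and for x ∈ G call the solubilizer of x the set of y ∈ G such that x and y generate a solvable subgroup. Then the solubilizer of an involution has q²(4q − 3) elements; that of an element of order 4 has q²(q + 3) elements; that of a non-identity element of order dividing q − 1 has 2q²(q − 1) elements; that of a non-identity element of order dividing q + r + 1 has 4(q + r + 1) elements; and that of a non-identity element of order dividing q − r + 1 has 4(q − r + 1) elements. -/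
theorem result {F : Type*} [Field F] [Fintype F] {m : ℕ} (hm : 1 ≤ m)
    (hp : (2 * m + 1).Prime) (hF : Fintype.card F = 2 ^ (2 * m + 1)) (x : ↥(Cfsg.Lie.Sz F (2 ^ (m + 1)))) :
    (orderOf x = 2 → Nat.card {y : ↥(Cfsg.Lie.Sz F (2 ^ (m + 1))) // Group.IsSolvable ↥(Subgroup.closure ({x, y} : Set (↥(Cfsg.Lie.Sz F (2 ^ (m + 1))))))} = (2 ^ (2 * m + 1)) ^ 2 * (4 * 2 ^ (2 * m + 1) - 3)) ∧
    (orderOf x = 4 → Nat.card {y : ↥(Cfsg.Lie.Sz F (2 ^ (m + 1))) // Group.IsSolvable ↥(Subgroup.closure ({x, y} : Set (↥(Cfsg.Lie.Sz F (2 ^ (m + 1))))))} = (2 ^ (2 * m + 1)) ^ 2 * (2 ^ (2 * m + 1) + 3)) ∧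
    (x ≠ 1 → orderOf x ∣ 2 ^ (2 * m + 1) - 1 →
      Nat.card {y : ↥(Cfsg.Lie.Sz F (2 ^ (m + 1))) // Group.IsSolvable ↥(Subgroup.closure ({x, y} : Set (↥(Cfsg.Lie.Sz F (2 ^ (m + 1))))))} = 2 * (2 ^ (2 * m + 1)) ^ 2 * (2 ^ (2 * m + 1) - 1)) ∧
    (x ≠ 1 → orderOf x ∣ 2 ^ (2 * m + 1) + 2 ^ (m + 1) + 1 → Nat.card {y : ↥(Cfsg.Lie.Sz F (2 ^ (m + 1))) // Group.IsSolvable ↥(Subgroup.closure ({x, y} : Set (↥(Cfsg.Lie.Sz F (2 ^ (m + 1))))))} = 4 * (2 ^ (2 * m + 1) + 2 ^ (m + 1) + 1)) ∧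
    (x ≠ 1 → orderOf x ∣ 2 ^ (2 * m + 1) - 2 ^ (m + 1) + 1 → Nat.card {y : ↥(Cfsg.Lie.Sz F (2 ^ (m + 1))) // Group.IsSolvable ↥(Subgroup.closure ({x, y} : Set (↥(Cfsg.Lie.Sz F (2 ^ (m + 1))))))} = 4 * (2 ^ (2 * m + 1) - 2 ^ (m + 1) + 1)) := by
  let P := H6.Suz.Par.mk m hm hF
  let X := P.lie
  have := X.finite
  have key : x ≠ 1 → ∀ a b, a * b = P.q ^ 2 + 1 → a.Coprime b → orderOf x ∣ a → (∀ n, n = P.q + 2 ^ (m + 1) + 1 ∨
      n = P.q - 2 ^ (m + 1) + 1 → n = a ∨ n = b) → (H6.Suz.Sol x).ncard = 4 * a := fun h1 a b e hc hd h => by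
    have f := X.fpf_of_dvd h1 (hd.trans (Dvd.intro _ e))
    rw [f.sol, (h _ f.card_cent.1).resolve_right fun e' => h1 (orderOf_eq_one_iff.1 (Nat.eq_one_of_dvd_coprimes hc hd
      (e' ▸ Subgroup.orderOf_dvd_natCard _ (H6.Suz.mem_cent.2 rfl))))]
  have hc : (P.q + 2 ^ (m + 1) + 1).Coprime (P.q - 2 ^ (m + 1) + 1) :=
    (X.coprime_tori (Or.inr (Or.inl rfl)) (Or.inr (Or.inr rfl))).resolve_left (by
      have := Nat.two_pow_pos (m + 1)
      change ¬ P.q + 2 ^ (m + 1) + 1 = P.q - 2 ^ (m + 1) + 1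
      generalize P.q = Q
      omega)
  refine ⟨X.sol_two, X.sol_four, fun h1 hd => ?_, fun h1 hd => key h1 _ _ P.tori_mul hc hd fun _ => id,
    fun h1 hd => key h1 _ _ ((mul_comm _ _).trans P.tori_mul) hc.symm hd fun _ => Or.symm⟩
  obtain h | ⟨Y, h⟩ | ⟨Y, k, hk, rfl⟩ := X.tri' x
  · exact absurd (orderOf_eq_one_iff.1 (Nat.eq_one_of_dvd_coprimes P.coprime_B
      ((Subgroup.orderOf_dvd_natCard _ (H6.Suz.mem_cent.2 rfl)).trans h.card_dvd) (hd.mul_left _))) h1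
  · exact absurd (H6.Suz.eq_one_of_odd (Odd.of_dvd_nat (X.card_H ▸ X.froH.odd) hd) (H6.Suz.SzS.pow_four h)) h1
  · exact Y.sol_D hk

end Cfsg.Agent.S2259
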