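import Cfsg.Statements.S2268
import Cfsg.Agent.H9.Syl

set_option autoImplicit false
open Cfsg

namespace Cfsg.Agent.S2268

open Subgroup H9 in

/-- Let G be a finite group with an abelian Sylow p-subgroup P and let Q ≤ P. Then N_G(Q) = (N_G(Q) ∩ N_G(P))·C_G(Q), so that N_G(Q)/C_G(Q) is a homomorphic image of the subgroup (N_G(Q) ∩ N_G(P))/C_G(P) of N_G(P)/C_G(P); in particular the order of N_G(Q)/C_G(Q) divides the order of N_G(P)/C_G(P). -/
theorem result {G : Type*} [Group G] [Finite G] {p : ℕ} [Fact p.Prime]
    (P : Sylow p G) (hP : IsMulCommutative (P : Subgroup G)) (Q : Subgroup G) (hQ : Q ≤ (P : Subgroup G)) :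
    Subgroup.normalizer (Q : Set G) =
      (Subgroup.normalizer (Q : Set G) ⊓ Subgroup.normalizer ((P : Subgroup G) : Set G)) ⊔ Subgroup.centralizer (Q : Set G) ∧
    ((Subgroup.centralizer (Q : Set G)).subgroupOf (Subgroup.normalizer (Q : Set G))).index ∣ ((Subgroup.centralizer ((P : Subgroup G) : Set G)).subgroupOf (Subgroup.normalizer ((P : Subgroup G) : Set G))).index := by
  have h1 : (P : Subgroup G) ≤ centralizer (Q : Set G) :=
    (le_centralizer_iff_isMulCommutative.2 hP).trans (centralizer_le hQ)
  have h2 := ((syl_top_of_sylow P).mono h1 le_top).frattini (centralizer_le_normalizer _) (normalizer_centralizer le_rfl)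
  refine ⟨by rw [sup_comm, h2], ?_⟩
  show (centralizer (Q : Set G)).relIndex (normalizer (Q : Set G)) ∣
    (centralizer ((P : Subgroup G) : Set G)).relIndex (normalizer ((P : Subgroup G) : Set G))
  have h3 : (centralizer (Q : Set G)).relIndex (normalizer (Q : Set G)) = (centralizer (Q : Set G)).relIndex
      (normalizer (Q : Set G) ⊓ normalizer ((P : Subgroup G) : Set G)) := by
    conv_lhs => rw [← h2, sup_comm]
    exact relIndex_sup_of_le_normalizer (inf_le_left.trans (normalizer_centralizer le_rfl))
  rw [h3]
  have h4 : centralizer ((P : Subgroup G) : Set G) ≤ normalizer (Q : Set G) ⊓ normalizer ((P : Subgroup G) : Set G) :=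
    le_inf ((centralizer_le hQ).trans (centralizer_le_normalizer _)) (centralizer_le_normalizer _)
  refine (relIndex_dvd_of_le_left _ (centralizer_le hQ)).trans ?_
  exact Dvd.intro _ (relIndex_mul_relIndex _ _ _ h4 inf_le_right)

end Cfsg.Agent.S2268
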