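import Cfsg.Statements.S2269
import Cfsg.Agent.H1.Tr

set_option autoImplicit false
open Cfsg

namespace Cfsg.Agent.S2269

open Subgroup Equiv

theorem real {G : Type*} [Group G] [Finite G] {p : ℕ} [Fact p.Prime] (P : Sylow p G) (hP : IsMulCommutative (P : Subgroup G))
    {x : G} {k : ℕ} (h1 : x ^ p ^ k = 1) (h2 : IsConj x x⁻¹) (h3 : x ≠ x⁻¹) :
    2 ∣ ((centralizer ((P : Subgroup G) : Set G)).subgroupOf (normalizer ((P : Subgroup G) : Set G))).index := by
  obtain ⟨j, -, hj⟩ := (Nat.dvd_prime_pow Fact.out).1 (orderOf_dvd_of_pow_eq_one h1)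
  obtain ⟨g, -, hg⟩ := (H1.isSylowIn_top P).exists_conj_mem (mem_top x) ⟨j, hj⟩
  obtain ⟨c, hc⟩ := isConj_iff.1 (((isConj_iff.2 ⟨g, rfl⟩).symm.trans h2).trans (isConj_iff.2 ⟨g, conj_inv.symm⟩))
  replace h3 : g * x * g⁻¹ ≠ (g * x * g⁻¹)⁻¹ := by simpa [mul_assoc]
  generalize g * x * g⁻¹ = y at *
  obtain ⟨n, hn, e⟩ := P.conj_eq_normalizer_conj_of_mem y c⁻¹ hg (by simpa [hc])
  rw [inv_inv, hc] at e
  by_contra h
  obtain ⟨m, hm⟩ := Nat.odd_iff.2 (Nat.two_dvd_ne_zero.1 h)
  have k1 := pow_index_mem ((centralizer ((P : Subgroup G) : Set G)).subgroupOf (normalizer ((P : Subgroup G) : Set G))) ⟨n, hn⟩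
  rw [hm, mem_subgroupOf] at k1
  have k2 : Commute (n ^ 2) y := by
    have a : n * y⁻¹ = y * n := by rw [e]; group
    have b : n * y = y⁻¹ * n := by rw [eq_inv_mul_iff_mul_eq, ← mul_assoc, ← a, inv_mul_cancel_right]
    rw [Commute, SemiconjBy, pow_two, mul_assoc, b, ← mul_assoc, a, mul_assoc]
  have k3 : Commute y n := by simpa [pow_succ', pow_mul] using
    (show Commute y (n ^ (2 * m + 1)) from k1 y hg).mul_right ((k2.pow_left m).symm.inv_right)
  exact h3 (by rw [e, mul_assoc, k3.eq, inv_mul_cancel_left])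

theorem d5 : ∀ x y : Perm (Fin 5), x * x = 1 → x ≠ 1 → x * y = y * x → Perm.sign x = 1 → Perm.sign y = 1 → y * y = 1 := by
  set_option synthInstance.maxSize 1024 in decide +kernel

theorem cA : Nat.card (alternatingGroup (Fin 5)) = 60 := by rw [nat_card_alternatingGroup]; simp [Nat.factorial]

theorem d4 : ∀ x : Perm (Fin 5), x ^ 4 = 1 → Perm.sign x = 1 → x * x = 1 := by decide +kernel

/-- Let n ≥ 5 and let P be an abelian Sylow p-subgroup of the alternating group A_n. Then N(P)/C(P) (taken in A_n) has even order, or P is cyclic, except when n = 5 and p = 2, where P is a four-group and N(P)/C(P) has order 3. -/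
theorem result (n : ℕ) (hn : 5 ≤ n) {p : ℕ} [Fact p.Prime]
    (P : Sylow p (alternatingGroup (Fin n))) (hP : IsMulCommutative (P : Subgroup (alternatingGroup (Fin n)))) :
    (¬ (n = 5 ∧ p = 2) → 2 ∣ ((Subgroup.centralizer ((P : Subgroup (alternatingGroup (Fin n))) : Set (alternatingGroup (Fin n)))).subgroupOf (Subgroup.normalizer ((P : Subgroup (alternatingGroup (Fin n))) : Set (alternatingGroup (Fin n))))).index ∨ IsCyclic (P : Subgroup (alternatingGroup (Fin n)))) ∧
    ((n = 5 ∧ p = 2) → ((Subgroup.centralizer ((P : Subgroup (alternatingGroup (Fin n))) : Set (alternatingGroup (Fin n)))).subgroupOf (Subgroup.normalizer ((P : Subgroup (alternatingGroup (Fin n))) : Set (alternatingGroup (Fin n))))).index = 3 ∧ IsKleinFour (P : Subgroup (alternatingGroup (Fin n)))) := by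
  have hp := Fact.out (p := p.Prime)
  refine ⟨fun h => ?_, ?_⟩
  · by_cases h2 : p = 2
    · subst h2
      obtain ⟨f⟩ : Nonempty (Fin 6 ↪ Fin n) := Function.Embedding.nonempty_of_card_le (by simp; omega)
      let φ : Perm (Fin 6) →* Perm (Fin n) := Perm.extendDomainHom f.toEquivRange
      have s : ∀ x, Perm.sign x = 1 → φ x ∈ alternatingGroup (Fin n) := fun x h => (Perm.sign_extendDomain _ _).trans h
      refine Or.inl (real P hP (x := ⟨_, s (c[0, 1, 2, 3] * c[4, 5]) (by decide)⟩) (k := 2) (Subtype.ext ?_)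
        (isConj_iff.2 ⟨⟨_, s (c[0, 2] * c[4, 5]) (by decide)⟩, Subtype.ext ?_⟩) fun e => ?_)
      · exact (map_pow φ _ _).symm.trans ((congrArg φ (by decide)).trans (map_one φ))
      · simp only [coe_mul, coe_inv, ← map_inv, ← map_mul]
        exact congrArg φ (by decide)
      · exact absurd (Perm.extendDomainHom_injective _ ((congrArg Subtype.val e).trans (map_inv φ _).symm)) (by decide)
    by_cases h3 : p + 2 ≤ n
    · obtain ⟨x, hx⟩ := (Perm.exists_with_cycleType_iff (Fin n) (m := {p})).2 ⟨by simp; omega, by simpa using hp.two_le⟩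
      have o : orderOf x = p := by rw [← Perm.lcm_cycleType, hx]; simp
      refine Or.inl (real P hP (x := ⟨x, by
          rw [Perm.mem_alternatingGroup, Perm.sign_of_cycleType, hx]
          simpa using ((hp.odd_of_ne_two h2).add_one).neg_one_pow⟩) (k := 1)
        (Subtype.ext (by simpa using o ▸ pow_orderOf_eq_one x)) (alternatingGroup.isConj_of
          (Perm.isConj_iff_cycleType_eq.2 (Perm.cycleType_inv _).symm) (by rw [← Perm.sum_cycleType, hx]; simpa)) fun e => h2 ?_)
      exact (Nat.prime_dvd_prime_iff_eq hp Nat.prime_two).1 (o ▸ orderOf_dvd_of_pow_eq_one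
        (pow_two x ▸ mul_eq_one_iff_eq_inv.2 (congrArg Subtype.val e)))
    · obtain ⟨k, hk⟩ := P.isPGroup'.exists_card_eq
      refine Or.inr (isCyclic_of_card_dvd_prime (p := p) (hk ▸ (pow_dvd_pow p ?_).trans (pow_one p).dvd))
      have d : p ^ k ∣ n.factorial := by
        have := (card_subgroup_dvd_card (P : Subgroup _)).trans (card_subgroup_dvd_card (alternatingGroup (Fin n)))
        rwa [hk, Nat.card_perm, Nat.card_eq_fintype_card, Fintype.card_fin] at this
      have := hp.two_le
      rw [hp.pow_dvd_factorial_iff (b := 2) (Nat.log_lt_of_lt_pow (by omega) (by nlinarith))] at d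
      exact d.trans (by simpa using Nat.lt_succ_iff.1 (Nat.div_lt_of_lt_mul (by omega)))
  rintro ⟨rfl, rfl⟩
  have c4 : Nat.card P = 4 := by rw [P.card_eq_multiplicity, cA]; decide +kernel
  have sq : ∀ x ∈ (P : Subgroup (alternatingGroup (Fin 5))), x * x = 1 := fun x hx => Subtype.ext (d4 _
    (congrArg Subtype.val (show x ^ 4 = 1 from orderOf_dvd_iff_pow_eq_one.1 ((Subgroup.orderOf_dvd_natCard _ hx).trans c4.dvd))) x.2)
  haveI : Nontrivial P := Finite.one_lt_card_iff_nontrivial.1 (by omega)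
  refine ⟨?_, c4, Monoid.exponent_eq_prime_iff Nat.prime_two |>.2 fun x hx =>
    orderOf_eq_prime (Subtype.ext ((pow_two x.1).trans (sq x x.2))) hx⟩
  obtain ⟨⟨x, hx⟩, x1⟩ := exists_ne (1 : (P : Subgroup (alternatingGroup (Fin 5))))
  have c1 := L.le_centralizer_of_comm hP
  have c2 : centralizer {x} ≤ P := (P.is_maximal' (Q := centralizer {x}) (fun y => ⟨1, Subtype.ext (Subtype.ext ((pow_two y.1.1).trans
    (d5 x.1 _ (congrArg Subtype.val (sq x hx)) (fun e => x1 (Subtype.ext (Subtype.ext e))) (congrArg Subtype.val (y.2 x rfl)) x.2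
      y.1.2)))⟩) (c1.trans (centralizer_le (by simpa)))).le
  have i1 := (Nat.le_of_dvd (L.relIndex_pos _ _) (relIndex_dvd_of_le_left _ (c2.trans c1))).trans
    ((L.relIndex_centralizer_le (L := normalizer ((P : Subgroup (alternatingGroup (Fin 5))) : Set (alternatingGroup (Fin 5)))) (N := P) fun g hg =>
      by simpa [commutatorElement_def, mul_assoc] using mul_mem hx ((mem_normalizer_iff.1 hg _).1 (inv_mem hx))).trans c4.le)
  have i2 := (relIndex_dvd_of_le_left _ c1).trans (relIndex_dvd_index_of_le P.le_normalizer)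
  have i3 := (P : Subgroup (alternatingGroup (Fin 5))).card_mul_index
  rw [c4, cA] at i3
  rw [show (P : Subgroup (alternatingGroup (Fin 5))).index = 15 by omega] at i2
  have i4 : (centralizer ((P : Subgroup (alternatingGroup (Fin 5))) : Set (alternatingGroup (Fin 5)))).relIndex (normalizer ((P : Subgroup (alternatingGroup (Fin 5))) : Set (alternatingGroup (Fin 5)))) ≠ 1 := fun e => by
    obtain ⟨k, hk⟩ := (H1.isPGroup_of_hasNPC_of_simple (H2.hasNPC_top.1 (H2.burnside_rel (H2.isSylowIn_top P)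
      (inf_le_right.trans (relIndex_eq_one.1 e)))) (by rw [cA]; decide)).exists_card_eq
    exact absurd (Nat.prime_three.dvd_of_dvd_pow (n := k) (by rw [← hk, cA]; decide)) (by decide)
  change relIndex _ _ = _
  generalize relIndex (G := alternatingGroup (Fin 5)) (centralizer _) _ = i at *
  interval_cases i <;> omega

end Cfsg.Agent.S2269
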