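import Cfsg.Statements.S2270
import Cfsg.Agent.S2268
import Cfsg.Agent.H2.Half

set_option autoImplicit false
open Cfsg

namespace Cfsg.Agent.S2270

open Equiv Equiv.Perm Subgroup in

/-- Let n ≥ 3, p an odd prime, and P an abelian Sylow p-subgroup of the symmetric group S_n (with p dividing n!, so that P ≠ 1). Then N(P)/C(P) has even order. -/
theorem result (n : ℕ) (hn : 3 ≤ n) {p : ℕ} [Fact p.Prime] (hp : p ≠ 2) (hpn : p ≤ n)
    (P : Sylow p (Equiv.Perm (Fin n))) (hP : IsMulCommutative (P : Subgroup (Equiv.Perm (Fin n)))) :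
    2 ∣ ((Subgroup.centralizer ((P : Subgroup (Equiv.Perm (Fin n))) : Set (Equiv.Perm (Fin n)))).subgroupOf (Subgroup.normalizer ((P : Subgroup (Equiv.Perm (Fin n))) : Set (Equiv.Perm (Fin n))))).index := by
  classical
  have hp2 := (Fact.out : p.Prime).two_le
  obtain ⟨c, hc, hs⟩ : ∃ c : Perm (Fin n), c.IsCycle ∧ c.support.card = p := by
    obtain ⟨c, hc⟩ := (exists_with_cycleType_iff (α := Fin n) (m := {p})).2 ⟨by simpa using hpn, by simpa using hp2⟩
    have h1 : c.IsCycle := card_cycleType_eq_one.1 (by simp [hc])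
    exact ⟨c, h1, by rw [← sum_cycleType, hc]; simp⟩
  have ho : orderOf c = p := by rw [hc.orderOf, hs]
  have hz : IsPGroup p (zpowers c) := IsPGroup.of_card (n := 1) (by rw [Nat.card_zpowers, ho, pow_one])
  obtain ⟨g, -, hg⟩ := (H9.syl_top_of_sylow P).exists_cj_le hz le_top
  set d := g * c * g⁻¹ with hd
  have hdP : d ∈ P := hg (mem_map_of_mem _ (mem_zpowers c))
  have hdo : orderOf d = p := by rw [← ho]; exact (MulAut.conj g).orderOf_eq c
  obtain ⟨t, ht⟩ := isConj_iff.1 ((isConj_iff_cycleType_eq (σ := d) (τ := d⁻¹)).2 (cycleType_inv d).symm)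
  refine Dvd.dvd.trans ?_ (S2268.result P hP (zpowers d) (zpowers_le.2 hdP)).2
  have htn : t ∈ normalizer (zpowers d : Set (Perm (Fin n))) := mem_normalizer_fintype fun y ⟨k, e⟩ => by
    rw [← e, ← conj_zpow, ht]; exact zpow_mem (inv_mem (mem_zpowers d)) k
  by_contra hodd
  obtain ⟨k, hk⟩ := Nat.odd_iff.2 (Nat.two_dvd_ne_zero.1 hodd)
  have h1 := ((centralizer (zpowers d : Set (Perm (Fin n)))).subgroupOf (normalizer (zpowers d : Set _))).pow_index_mem ⟨t, htn⟩
  rw [hk, mem_subgroupOf] at h1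
  have h2 : d * t ^ (2 * k + 1) = t ^ (2 * k + 1) * d := h1 d (mem_zpowers d)
  have h3 : Commute (t ^ 2) d := by
    have : t * d⁻¹ * t⁻¹ = d := by rw [← conj_inv, ht, inv_inv]
    show t ^ 2 * d = d * t ^ 2
    calc t ^ 2 * d = t * (t * d * t⁻¹) * t⁻¹ * t ^ 2 := by simp [pow_two, mul_assoc]
      _ = _ := by rw [ht, this]
  have h4 : Commute t d := by
    have := ((h3.pow_left k).inv_left).mul_left (show Commute (t ^ (2 * k + 1)) d from h2.symm)
    rwa [← pow_mul, pow_succ, inv_mul_cancel_left] at this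
  rw [h4.eq, mul_inv_cancel_right] at ht
  have h5 : orderOf d ∣ 2 := orderOf_dvd_of_pow_eq_one (by rw [pow_two]; exact mul_eq_one_iff_eq_inv.2 ht)
  rw [hdo] at h5
  exact hp ((Nat.prime_dvd_prime_iff_eq Fact.out Nat.prime_two).1 h5)

end Cfsg.Agent.S2270
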