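import Cfsg.Statements.S2336
import Cfsg.Agent.H3.Gl

set_option autoImplicit false
open Cfsg

namespace Cfsg.Agent.S2336

open H3 Finset Matrix
open scoped Classical ComplexConjugate

theorem irr_of_sum {G ι : Type*} [Group G] [Fintype G] [Fintype ι] (a : ι → G → ℂ) (h : ∀ i, IsCharacter G (a i)) (h0 : ∀ i, a i ≠ 0)
    {m : ℕ} (hm : classInner (∑ i, a i) (∑ i, a i) = m) (hl : m ≤ Fintype.card ι) :
    (∀ i, IsIrrCharacter G (a i)) ∧ Function.Injective a := by
  choose c hc using fun i j => inner_char_nat (h i) (h j)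
  have c1 : ∀ i, 1 ≤ c i i := fun i => Nat.pos_of_ne_zero fun e => h0 i (inner_self_eq_zero (by rw [hc, e, Nat.cast_zero]))
  simp only [inner_sum_left, inner_sum_right, hc] at hm
  have s : ∑ j, ∑ i, c i j = m := by exact_mod_cast hm
  have r : ∀ j, 1 ≤ ∑ i, c i j := fun j => (c1 j).trans (single_le_sum (f := fun i => c i j) (fun _ _ => Nat.zero_le _) (mem_univ j))
  have r1 := (sum_eq_sum_iff_of_le fun j _ => r j).1 (le_antisymm (sum_le_sum fun j (_ : j ∈ univ) => r j) (by simpa [s] using hl))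
  refine ⟨fun i => isIrr_of_norm_one (h i) ?_, fun i j e => by_contra fun d => ?_⟩
  · rw [hc, le_antisymm ((single_le_sum (f := fun k => c k i) (fun _ _ => Nat.zero_le _) (mem_univ i)).trans (r1 i (mem_univ i)).ge) (c1 i),
      Nat.cast_one]
  · have := (sum_le_sum_of_subset (f := fun k => c k j) (subset_univ {i, j})).trans (r1 j (mem_univ j)).ge
    have k : c i j = c j j := Nat.cast_injective (R := ℂ) ((hc i j).symm.trans (by rw [e]; exact hc j j))
    rw [sum_pair d, k] at this
    have := c1 j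
    omega

theorem pair {F : Type*} [Field F] {m : ℕ} {v w : Fin (m + 3) → F} (h : LinearIndependent F ![v, w]) :
    ∃ g : SpecialLinearGroup (Fin (m + 3)) F, g.1 *ᵥ Pi.single 0 1 = v ∧ g.1 *ᵥ Pi.single 1 1 = w := by
  have hD : LinearIndependent F ![(Pi.single 0 1 : Fin (m + 3) → F), Pi.single 1 1] := LinearIndependent.pair_iff.2 fun s t e =>
    ⟨by simpa using congrFun e 0, by simpa using congrFun e 1⟩
  obtain ⟨g, hg⟩ := Submodule.exists_linearEquiv_restrict_eq (hD.linearCombinationEquiv.symm ≪≫ₗ h.linearCombinationEquiv)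
  have a := hg (hD.linearCombinationEquiv (Finsupp.single 0 1))
  have b := hg (hD.linearCombinationEquiv (Finsupp.single 1 1))
  have d : (LinearMap.toMatrix' g.toLinearMap).det ≠ 0 := by rw [LinearMap.det_toMatrix']; exact g.isUnit_det'.ne_zero
  refine ⟨⟨LinearMap.toMatrix' g.toLinearMap * diagonal (Pi.mulSingle 2 (LinearMap.toMatrix' g.toLinearMap).det⁻¹), by
    rw [det_mul, det_diagonal, prod_pi_mulSingle', if_pos (mem_univ _), mul_inv_cancel₀ d]⟩, ?_, ?_⟩ <;>
    simp only [← mulVec_mulVec, diagonal_mulVec_single, LinearMap.toMatrix'_mulVec]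
  · rw [Pi.mulSingle_eq_of_ne (by simp [Fin.ext_iff, Nat.mod_eq_of_lt])]; simpa using a.symm
  · rw [Pi.mulSingle_eq_of_ne (by simp [Fin.ext_iff, Nat.mod_eq_of_lt])]; simpa using b.symm

theorem single {F : Type*} [Field F] {m : ℕ} {v : Fin (m + 3) → F} (h : v ≠ 0) :
    ∃ g : SpecialLinearGroup (Fin (m + 3)) F, g.1 *ᵥ Pi.single 0 1 = v :=
  let ⟨_, a⟩ := exists_linearIndependent_pair_of_one_lt_finrank (R := F) (by simp) h
  let ⟨g, b, _⟩ := pair a
  ⟨g, b⟩

/-- scalars times the special linear group on non-zero vectors -/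
def act (F : Type*) [Field F] (n : ℕ) : MulAction (Fˣ × SpecialLinearGroup (Fin n) F) {v : Fin n → F // v ≠ 0} where
  smul x v := ⟨x.1.1 • x.2.1 *ᵥ v.1, smul_ne_zero x.1.ne_zero fun e => v.2 (by
    have := congrArg (x.2⁻¹.1 *ᵥ ·) e
    simpa only [mulVec_mulVec, ← Matrix.SpecialLinearGroup.coe_mul, inv_mul_cancel, Matrix.SpecialLinearGroup.coe_one, one_mulVec,
      mulVec_zero] using this)⟩
  one_smul v := Subtype.ext (show (1 : F) • (1 : Matrix _ _ F) *ᵥ v.1 = v.1 by simp)
  mul_smul x y v := Subtype.ext (show (x.1.1 * y.1.1) • (x.2.1 * y.2.1) *ᵥ v.1 = x.1.1 • x.2.1 *ᵥ (y.1.1 • y.2.1 *ᵥ v.1) by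
    simp [mul_smul, mulVec_smul])

/-- Let F be a finite field with q elements and n ≥ 3. The permutation character of SL_n(F) on the non-zero vectors of F^n (the function sending a matrix to the number of non-zero vectors it fixes) is the sum of the principal character and q − 1 pairwise distinct irreducible complex characters. -/
theorem result {F : Type*} [Field F] [Fintype F] [DecidableEq F] (n : ℕ) (hn : 3 ≤ n) :
    ∃ χ : Fin (Fintype.card F - 1) → (Matrix.SpecialLinearGroup (Fin n) F → ℂ),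
      (∀ i, Cfsg.IsIrrCharacter (Matrix.SpecialLinearGroup (Fin n) F) (χ i)) ∧ Function.Injective χ ∧
      ∀ g : Matrix.SpecialLinearGroup (Fin n) F,
        (Nat.card {v : Fin n → F // v ≠ 0 ∧ (g : Matrix (Fin n) (Fin n) F).mulVec v = v} : ℂ) = 1 + ∑ i, χ i g := by
  obtain ⟨m, rfl⟩ := Nat.exists_eq_add_of_le' hn
  set G := SpecialLinearGroup (Fin (m + 3)) F
  set X := {v : Fin (m + 3) → F // v ≠ 0}
  letI : Fintype G := Fintype.ofFinite G
  letI := act F (m + 3)
  letI : MulAction G X := MulAction.compHom X (MonoidHom.inr Fˣ G)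
  have sm : ∀ (g : G) (v : X), (g • v).1 = g.1 *ᵥ v.1 := fun g v => one_smul F _
  let Ψ : Fˣ × G → ℂ := fun x => Nat.card (MulAction.fixedBy X x)
  have hΨ : IsCharacter _ Ψ := char_perm X
  let π : (Fˣ →* ℂˣ) → G → ℂ := fun l g => classInner (fun c => Ψ (c, g)) fun c => l c
  have hπ : ∀ l, IsCharacter G (π l) := fun l => char_partial hΨ (char_hom l)
  have q0 := card_ne_zero' Fˣ
  have cq : Nat.card Fˣ = Fintype.card F - 1 := by rw [Nat.card_units, Nat.card_eq_fintype_card]
  have sπ : ∀ g, ∑ l, π l g = Ψ (1, g) := fun g => by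
    simp only [π, classInner, ← mul_sum]
    rw [sum_comm, sum_eq_single 1 (fun c _ h1 => ?_) (by simp)]
    · simp [← Nat.card_eq_fintype_card, card_hom_comm, ← mul_assoc, mul_comm _ (Nat.card Fˣ : ℂ), q0]
    · obtain ⟨f, hf⟩ := exists_hom_ne_one (G := Fˣ) (g := c) (by simpa [(commutator_eq_bot_iff_center_eq_top _).2 CommGroup.center_eq_top])
      rw [← mul_sum, ← map_sum, eq_zero_of_mul_eq_self_left (b := (f c : ℂ)) (a := ∑ l : Fˣ →* ℂˣ, (l c : ℂ)) (by simpa using hf) (by
        rw [mul_sum]; exact Fintype.sum_equiv (Equiv.mulLeft f) _ _ fun l => by simp), map_zero, mul_zero]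
  have π1 : ∀ l, π l 1 * Nat.card Fˣ = Nat.card X := fun l => by
    simp only [π, classInner]
    rw [sum_eq_single 1 (fun c _ h1 => ?_) (by simp)]
    · simp only [Ψ, Prod.mk_one_one, MulAction.fixedBy_one_eq_univ, Nat.card_univ, map_one, Units.val_one]; field_simp
    · haveI : IsEmpty (MulAction.fixedBy X ((c, 1) : Fˣ × G)) := ⟨fun v => h1 (Units.ext (smul_left_injective F v.1.2 (by
        simpa using (show c.1 • (1 : Matrix _ _ F) *ᵥ v.1.1 = v.1.1 from congrArg Subtype.val v.2))))⟩
      simp only [Ψ, Nat.card_of_isEmpty, Nat.cast_zero, zero_mul]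
  let e0 : X := ⟨Pi.single 0 1, by simp⟩
  let e1 : X := ⟨Pi.single 1 1, by simp⟩
  have cX : Nat.card X = Fintype.card F ^ (m + 3) - 1 := by
    rw [Nat.card_eq_fintype_card, Fintype.card_subtype_compl]; simp
  have i1 : classInner (π 1) (fun _ => 1) ≠ 0 := by
    haveI : Nonempty (MulAction.orbitRel.Quotient (Fˣ × G) X) := ⟨Quotient.mk'' e0⟩
    have := inner_perm_one (G := Fˣ × G) X
    refine fun e => Nat.card_pos.ne' (Nat.cast_injective (R := ℂ) (this.symm.trans ?_))
    simp only [π, classInner, ← mul_sum, MonoidHom.one_apply, Units.val_one, map_one, mul_one, mul_eq_zero, inv_eq_zero, q0,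
      card_ne_zero' G, false_or] at e
    simp only [classInner, map_one, mul_one, Fintype.sum_prod_type]
    rw [sum_comm, e, mul_zero, Nat.cast_zero]
  let a : Option (Fˣ →* ℂˣ) → G → ℂ := fun o => o.elim (fun _ => 1) fun l => π l - if l = 1 then fun _ => (1 : ℂ) else (0 : G → ℂ)
  have sa : ∑ o, a o = fun g => (Nat.card (MulAction.fixedBy X g) : ℂ) := funext fun g => by
    simp only [Fintype.sum_option, a, Option.elim, sum_sub_distrib, sum_ite_eq', mem_univ, if_true, add_sub_cancel, Finset.sum_apply, sπ,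
      Pi.sub_apply, ite_apply, Pi.zero_apply]
    rfl
  have q1 := Fintype.one_lt_card (α := F)
  obtain ⟨h1, h2⟩ := irr_of_sum a (by
      rintro (_ | l)
      · exact char_one
      · by_cases e : l = 1
        · simpa [a, e] using char_sub_of_inner_ne_zero (hπ 1) isIrr_one i1
        · simpa [a, e] using hπ l) (by
      have lt : Nat.card Fˣ < Nat.card X := by
        have := Nat.pow_lt_pow_right q1 (show 1 < m + 3 by omega)
        rw [cq, cX]; rw [pow_one] at this; omega
      rintro (_ | l) e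
      · simpa [a] using congrFun e 1
      · have := π1 l
        rw [sub_eq_zero.1 e] at this
        split_ifs at this
        · exact lt.ne (by exact_mod_cast (one_mul _).symm.trans this)
        · exact (Nat.zero_lt_of_lt lt).ne (by exact_mod_cast (zero_mul _).symm.trans this))
    (m := Nat.card (MulAction.orbitRel.Quotient G (X × X))) (by
      rw [sa, ← inner_perm_one]
      refine congrArg _ (sum_congr rfl fun g _ => ?_)
      rw [map_natCast, map_one, mul_one, ← Nat.cast_mul, ← Nat.card_prod]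
      exact congrArg _ (Nat.card_congr ⟨fun x => ⟨(x.1, x.2), Prod.ext x.1.2 x.2.2⟩,
        fun x => (⟨x.1.1, congrArg Prod.fst x.2⟩, ⟨x.1.2, congrArg Prod.snd x.2⟩), fun _ => rfl, fun _ => rfl⟩)) (by
      rw [Fintype.card_option, ← Nat.card_eq_fintype_card, card_hom_comm, ← Finite.card_option]
      refine Nat.card_le_card_of_surjective (fun o : Option Fˣ => Quotient.mk'' (e0, o.elim e1 fun c => ((c, 1) : Fˣ × G) • e0)) fun x => ?_
      obtain ⟨⟨v, w⟩, rfl⟩ := Quotient.mk''_surjective x
      by_cases i : LinearIndependent F ![v.1, w.1]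
      · obtain ⟨g, b, c⟩ := pair i
        exact ⟨none, (Quotient.sound' (MulAction.orbitRel_apply.2
          ⟨g, Prod.ext (Subtype.ext ((sm _ _).trans b)) (Subtype.ext ((sm _ _).trans c))⟩)).symm⟩
      · obtain ⟨c, b⟩ := not_forall.1 (mt (LinearIndependent.pair_iff' v.2).2 i)
        obtain ⟨g, d⟩ := single v.2
        replace b := not_not.1 b
        refine ⟨some (Units.mk0 c fun e => w.2 (by rw [← b, e, zero_smul])),
          (Quotient.sound' (MulAction.orbitRel_apply.2
            ⟨g, Prod.ext (Subtype.ext ((sm _ _).trans d)) (Subtype.ext ((sm _ _).trans ?_))⟩)).symm⟩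
        change g.1 *ᵥ (c • (1 : Matrix _ _ F) *ᵥ Pi.single 0 1) = _
        rw [one_mulVec, mulVec_smul, d, b])
  let e : Fin (Fintype.card F - 1) ≃ (Fˣ →* ℂˣ) := Fintype.equivOfCardEq (by
    rw [Fintype.card_fin, ← cq, ← Nat.card_eq_fintype_card, card_hom_comm])
  refine ⟨fun i => a (some (e i)), fun i => h1 _, fun i j b => e.injective (Option.some_injective _ (h2 b)), fun g => ?_⟩
  have := congrFun sa g
  rw [Finset.sum_apply, Fintype.sum_option, ← e.sum_comp] at this
  refine Eq.trans (congrArg _ (Nat.card_congr ?_)) this.symm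
  exact ⟨fun v => ⟨⟨v.1, v.2.1⟩, Subtype.ext ((sm _ _).trans v.2.2)⟩, fun v => ⟨v.1.1, v.1.2, (sm _ _).symm.trans (congrArg Subtype.val v.2)⟩,
    fun _ => rfl, fun _ => rfl⟩

end Cfsg.Agent.S2336
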