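import Cfsg.Statements.S2352
import Mathlib

set_option autoImplicit false
open Cfsg

namespace Cfsg.Agent.S2352

open Equiv

/-- A non-trivial law holds in only finitely many alternating groups: for every non-trivial element w of the free group on countably many generators there is N such that for all n ≥ N some substitution of elements of the alternating group of degree n into w is not the identity. -/
theorem result (w : FreeGroup ℕ) (hw : w ≠ 1) :
    ∃ N : ℕ, ∀ n : ℕ, N ≤ n → ∃ f : ℕ → alternatingGroup (Fin n), FreeGroup.lift f w ≠ 1 := by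
  classical
  let B : Finset (FreeGroup ℕ) := (w.toWord.tails.map FreeGroup.mk).toFinset
  have ex : ∀ i : ℕ, ∃ σ : Perm B, ∀ x y : B, y.1 = .of i * x.1 → σ x = y := fun i => by
    let e : {x : B // FreeGroup.of i * x.1 ∈ B} ≃ {y : B // (FreeGroup.of i)⁻¹ * y.1 ∈ B} :=
      ⟨fun x => ⟨⟨_, x.2⟩, by simp⟩, fun y => ⟨⟨_, y.2⟩, by simp⟩, fun x => by simp, fun y => by simp⟩
    exact ⟨e.extendSubtype, fun x y h => (e.extendSubtype_apply_of_mem x (h ▸ y.2)).trans (Subtype.ext h.symm)⟩
  choose σ hσ using ex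
  have m : ∀ L, L <:+ w.toWord → FreeGroup.mk L ∈ B := fun L h => by simpa [B] using ⟨L, h, rfl⟩
  have key : ∀ L (h : L <:+ w.toWord), FreeGroup.lift σ (.mk L) ⟨_, m [] List.nil_suffix⟩ = ⟨_, m L h⟩ := fun L h => by
    induction L with
    | nil => rfl
    | cons x L ih =>
      have e : FreeGroup.mk (x :: L) = FreeGroup.mk [x] * FreeGroup.mk L := rfl
      refine (congrArg (fun t => FreeGroup.lift σ t _) e).trans ?_

      rw [map_mul, Perm.mul_apply, ih ((List.suffix_cons x L).trans h)]
      obtain ⟨i, _ | _⟩ := x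
      · rw [show FreeGroup.mk [(i, false)] = (FreeGroup.of i)⁻¹ from rfl, map_inv, FreeGroup.lift_apply_of, Perm.inv_eq_iff_eq]
        exact (hσ i _ _ ((mul_inv_cancel_left (FreeGroup.of i) (FreeGroup.mk L)).symm)).symm
      · exact (congrFun (congrArg _ FreeGroup.lift_apply_of) _).trans (hσ i _ _ e)
  refine ⟨Fintype.card (B ⊕ B), fun n hn => ?_⟩
  obtain ⟨ι⟩ := Function.Embedding.nonempty_of_card_le (hn.trans (Fintype.card_fin n).ge)
  let φ : Perm B →* Perm (Fin n) := (Perm.viaEmbeddingHom ι).comp ((Perm.sumCongrHom B B).comp ((MonoidHom.id _).prod (.id _)))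
  let ψ := φ.codRestrict (alternatingGroup (Fin n)) fun x => by simp [φ, Perm.viaEmbeddingHom_apply, Perm.viaEmbedding]
  refine ⟨ψ ∘ σ, fun h => hw ?_⟩
  rw [show FreeGroup.lift (ψ ∘ σ) = ψ.comp (FreeGroup.lift σ) by ext1; simp] at h
  have h1 : FreeGroup.lift σ w = 1 := congrArg Prod.fst (Perm.sumCongrHom_injective
    ((Perm.viaEmbeddingHom_injective ι (((congrArg Subtype.val h).trans (map_one _).symm))).trans (map_one _).symm))
  have := congrArg Subtype.val (key _ List.suffix_rfl)
  simp only [FreeGroup.mk_toWord, h1] at this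
  exact this.symm


end Cfsg.Agent.S2352
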