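import Cfsg.Statements.S2353
import Cfsg.Agent.H5.SL2X

set_option autoImplicit false
open Cfsg

namespace Cfsg.Agent.S2353

open H5 Polynomial

variable {F : Type*} [Field F]

/-- polynomial matrix with attracting line `a` and repelling line `b` -/
noncomputable def N (a b : F) : (Matrix (Fin 2) (Fin 2) F)[X] :=
  C !![a, -(a * b); 1, -b] * X ^ 2 + C !![-b, a * b; -1, a]

theorem coeff_prod (L : List (F × F)) (x : F × F) (h : List.IsChain (fun u v : F × F => v.1 ≠ u.2) (x :: L)) :
    (((x :: L).map fun u => N u.1 u.2).prod).natDegree ≤ 2 * (L.length + 1) ∧ ∃ c : F, c ≠ 0 ∧ ∃ b,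
      (((x :: L).map fun u => N u.1 u.2).prod).coeff (2 * (L.length + 1)) = c • !![x.1, -(x.1 * b); 1, -b] := by
  have h1 : ∀ a b : F, (N a b).natDegree ≤ 2 := fun a b => by unfold N; compute_degree
  have h2 : ∀ a b : F, (N a b).coeff 2 = !![a, -(a * b); 1, -b] := fun a b => by simp [N]
  induction L generalizing x with
  | nil => exact ⟨by simpa using h1 _ _, 1, one_ne_zero, x.2, by simpa using h2 _ _⟩
  | cons y L ih =>
    obtain ⟨h3, c, hc, b, h4⟩ := ih y (List.isChain_cons_cons.1 h).2
    rw [List.map_cons, List.prod_cons, List.length_cons, show 2 * (L.length + 1 + 1) = 2 + 2 * (L.length + 1) by ring]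
    refine ⟨natDegree_mul_le.trans (add_le_add (h1 _ _) h3), c * (y.1 - x.2),
      mul_ne_zero hc (sub_ne_zero.2 (List.isChain_cons_cons.1 h).1), b, ?_⟩
    rw [coeff_mul_add_eq_of_natDegree_le (h1 _ _) h3, h2, h4]
    ext i j; fin_cases i <;> fin_cases j <;> simp <;> ring


/-- A non-trivial law holds in PSL_2 over only finitely many finite fields: for every non-trivial element w of the free group on countably many generators there is N such that over every finite field with at least N elements some substitution of elements of PSL_2 into w is not the identity. -/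
theorem result (w : FreeGroup ℕ) (hw : w ≠ 1) :
    ∃ N : ℕ, ∀ (F : Type*) [Field F] [Fintype F], N ≤ Fintype.card F →
      ∃ f : ℕ → Matrix.ProjectiveSpecialLinearGroup (Fin 2) F, FreeGroup.lift f w ≠ 1 := by
  classical
  obtain ⟨M, hM⟩ := (w.toWord.map Prod.fst).toFinset.bddAbove
  refine ⟨2 * M + 2 * w.toWord.length + 2, fun F _ _ hN => ?_⟩
  obtain ⟨α⟩ : Nonempty (Fin (M + 1) × Bool ↪ F) := Function.Embedding.nonempty_of_card_le (by simp; omega)
  let β : ℕ × Bool → F := fun x => α (Fin.ofNat _ x.1, x.2)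
  have hβ : ∀ x : ℕ × Bool, β x ≠ β (x.1, !x.2) := fun x e => by simpa using α.injective e
  obtain ⟨x, L, hL⟩ := List.exists_cons_of_ne_nil (mt FreeGroup.toWord_eq_nil_iff.1 hw)
  have hch : List.IsChain (fun u v : F × F => v.1 ≠ u.2) (w.toWord.map fun x => (β x, β (x.1, !x.2))) := by
    rw [List.isChain_map]
    refine (FreeGroup.isReduced_toWord (x := w)).imp_of_mem_imp fun a b ha hb h e => ?_
    have e := Prod.ext_iff.1 (α.injective e)
    have h1 : a.1 ≤ M := hM (List.mem_toFinset.2 (List.mem_map_of_mem ha))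
    have h2 : b.1 ≤ M := hM (List.mem_toFinset.2 (List.mem_map_of_mem hb))
    have h3 : a.1 = b.1 := by
      have := congrArg Fin.val e.1
      simp [Nat.mod_eq_of_lt (Nat.lt_succ_of_le h1), Nat.mod_eq_of_lt (Nat.lt_succ_of_le h2)] at this
      exact this.symm
    simpa [h h3] using e.2
  rw [hL, List.map_cons] at hch
  obtain ⟨h1, c, hc, b, h2⟩ := coeff_prod _ _ hch
  have hLL : (β x, β (x.1, !x.2)) :: L.map (fun x => (β x, β (x.1, !x.2))) = w.toWord.map fun x => (β x, β (x.1, !x.2)) := by
    rw [hL]; rfl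
  rw [hLL, List.map_map, List.length_map] at h1 h2
  obtain ⟨P, hP⟩ : ∃ P, (w.toWord.map ((fun u : F × F => N u.1 u.2) ∘ fun x => (β x, β (x.1, !x.2)))).prod = P := ⟨_, rfl⟩
  rw [hP] at h1 h2
  have h3 : (matPolyEquiv.symm P 1 0) * X ≠ 0 := mul_ne_zero (fun e => hc (by
    have := congrFun (congrFun h2 1) 0
    rw [← matPolyEquiv_symm_apply_coeff, e] at this
    simpa using this.symm)) X_ne_zero
  obtain ⟨t, ht⟩ : ∃ t, ((matPolyEquiv.symm P 1 0) * X).eval t ≠ 0 := by
    by_contra! h
    refine h3 (eq_zero_of_natDegree_lt_card_of_eval_eq_zero _ Function.injective_id h (natDegree_mul_le.trans_lt ?_))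
    have : (matPolyEquiv.symm P 1 0).natDegree ≤ 2 * (L.length + 1) := natDegree_le_iff_coeff_eq_zero.2 fun n hn => by
      rw [matPolyEquiv_symm_apply_coeff, coeff_eq_zero_of_natDegree_lt (h1.trans_lt hn)]; rfl
    rw [hL, List.length_cons] at hN
    rw [natDegree_X]; omega
  rw [eval_mul, eval_X, mul_ne_zero_iff] at ht
  let G : ℕ × Bool → GL2 F := fun x => gl2 (β x * t ^ 2 - β (x.1, !x.2)) (-(β x * β (x.1, !x.2)) * t ^ 2 + β x * β (x.1, !x.2))
    (t ^ 2 - 1) (-β (x.1, !x.2) * t ^ 2 + β x) (fun e => pow_ne_zero 2 (mul_ne_zero (sub_ne_zero.2 (hβ x)) ht.2) (by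
      rw [← e]; ring))
  have hG : ∀ x, mkG (G x) ∈ PS F := fun x => pg_mem_PS.2 ⟨(β x - β (x.1, !x.2)) * t, by ring⟩
  choose f hf using fun i => exists_psl (hG (i, true))
  refine ⟨f, fun e => ht.1 ?_⟩
  have h4 : psl (FreeGroup.lift f w) = mkG (w.toWord.map G).prod := by
    conv_lhs => rw [← FreeGroup.mk_toWord (x := w), FreeGroup.lift_mk, map_list_prod, List.map_map]
    rw [map_list_prod, List.map_map]
    refine congrArg _ (List.map_congr_left ?_)
    rintro ⟨i, _ | _⟩ -
    · simp only [Function.comp, cond_false, map_inv, hf, G, mkG_gl2, pg_inv, pg_eq_iff]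
      exact ⟨-1, by simp, by simp; ring, by simp; ring, by simp, by simp; ring⟩
    · exact hf i
  rw [e, map_one, eq_comm, mkG_eq_one_iff] at h4
  let φ := ((evalRingHom t).mapMatrix (m := Fin 2)).comp (matPolyEquiv (R := F) (n := Fin 2)).symm.toRingEquiv.toRingHom
  have h5 : φ P = (w.toWord.map G).prod.1 := by
    rw [← hP, map_list_prod, ← Units.coeHom_apply, map_list_prod, List.map_map, List.map_map]
    refine congrArg _ (List.map_congr_left fun x _ => ?_)
    simp only [Function.comp, N, map_add, map_mul, map_pow]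
    ext i j; fin_cases i <;> fin_cases j <;> simp [φ, G, sq, Matrix.mul_apply] <;> ring
  exact (congrFun (congrFun h5 1) 0).trans h4.2.1


end Cfsg.Agent.S2353
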