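import Cfsg.Statements.S2354
import Cfsg.Agent.H6.Suz1

set_option autoImplicit false
open Cfsg

namespace Cfsg.Agent.S2354

open Polynomial Matrix

/-- generic root element -/
def uA {R : Type*} [CommRing R] (x y : R) : GL (Fin 4) R :=
  ⟨!![1, 0, x, y; 0, 1, 0, x; 0, 0, 1, 0; 0, 0, 0, 1], !![1, 0, -x, -y; 0, 1, 0, -x; 0, 0, 1, 0; 0, 0, 0, 1],
    by ext i j; fin_cases i <;> fin_cases j <;> simp [Matrix.mul_apply, Fin.sum_univ_four],
    by ext i j; fin_cases i <;> fin_cases j <;> simp [Matrix.mul_apply, Fin.sum_univ_four]⟩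

/-- opposite generic root element -/
def uB {R : Type*} [CommRing R] (x y : R) : GL (Fin 4) R :=
  ⟨!![1, 0, 0, 0; 0, 1, 0, 0; x, 0, 1, 0; y, x, 0, 1], !![1, 0, 0, 0; 0, 1, 0, 0; -x, 0, 1, 0; -y, -x, 0, 1],
    by ext i j; fin_cases i <;> fin_cases j <;> simp [Matrix.mul_apply, Fin.sum_univ_four],
    by ext i j; fin_cases i <;> fin_cases j <;> simp [Matrix.mul_apply, Fin.sum_univ_four]⟩

/-- generic generators -/
def gen {R : Type*} [CommRing R] (x y : R) (i : ℕ) : GL (Fin 4) R :=
  uA (x ^ (i + 1)) (y ^ (i + 1)) * uB (x ^ (i + 1)) (y ^ (i + 1))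

theorem map_gen {R S : Type*} [CommRing R] [CommRing S] (φ : R →+* S) (x y : R) (w : FreeGroup ℕ) :
    GeneralLinearGroup.map φ (FreeGroup.lift (gen x y) w) = FreeGroup.lift (gen (φ x) (φ y)) w :=
  FreeGroup.lift_unique ((GeneralLinearGroup.map φ).comp (FreeGroup.lift (gen x y))) fun i => by
    simp only [MonoidHom.comp_apply, FreeGroup.lift_apply_of, gen, map_mul]
    congr 1 <;> ext i j <;> fin_cases i <;> fin_cases j <;> simp [uA, uB]

theorem key {K : Type*} [Field K] {p s d : K[X]} (h : s.degree ≤ p.degree) (hp : p ≠ 0)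
    (hd : 0 < d.degree) : p.degree < (s + d * p).degree := by
  have : p.degree < (d * p).degree := by
    rw [degree_mul, degree_eq_natDegree hp]
    exact (zero_add _).ge.trans_lt (WithBot.add_lt_add_right (by simp) hd)
  rwa [degree_add_eq_right_of_degree_lt (h.trans_lt this)]

/-- ping-pong invariant -/
def Inv {K : Type*} [Field K] (l : ℕ × Bool) (v : Fin 4 → K[X]) : Prop :=
  cond l.2 ((v 0 - X ^ (l.1 + 1) * v 3).degree < (v 3).degree)
    ((v 3 + X ^ (l.1 + 1) * v 0).degree < (v 0).degree)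

theorem deg {K : Type*} [Field K] (i : ℕ) : 0 < (X ^ (i + 1) : K[X]).degree := by
  rw [degree_X_pow]; exact_mod_cast i.succ_pos

theorem deg2 {K : Type*} [Field K] (i : ℕ) : 0 < (-X ^ (i + 1) : K[X]).degree := by
  rw [degree_neg]; exact deg i

theorem deg' {K : Type*} [Field K] {i j : ℕ} (h : i ≠ j) : 0 < (X ^ (i + 1) - X ^ (j + 1) : K[X]).degree := by
  rcases h.lt_or_gt with h | h
  · rw [degree_sub_eq_right_of_degree_lt (by simpa only [degree_X_pow, Nat.cast_lt] using Nat.succ_lt_succ h)]; exact deg j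
  · rw [degree_sub_eq_left_of_degree_lt (by simpa only [degree_X_pow, Nat.cast_lt] using Nat.succ_lt_succ h)]; exact deg i

theorem Inv.lt {K : Type*} [Field K] {l : ℕ × Bool} {v : Fin 4 → K[X]} (h : Inv l v) :
    cond l.2 (v 3 ≠ 0 ∧ (v 3).degree < (v 0).degree) (v 0 ≠ 0 ∧ (v 0).degree < (v 3).degree) := by
  obtain ⟨i, _ | _⟩ := l
  · exact ⟨ne_zero_of_degree_gt h, by
      simpa using key h.le (ne_zero_of_degree_gt h) (deg2 i)⟩
  · exact ⟨ne_zero_of_degree_gt h, by simpa using key h.le (ne_zero_of_degree_gt h) (deg i)⟩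

theorem step {K : Type*} [Field K] (i : ℕ) (v : Fin 4 → K[X]) :
    ((v 3).degree < (v 0 + -X ^ (i + 1) * v 3).degree → Inv (i, false) ((gen (0 : K[X]) X i)⁻¹.1 *ᵥ v)) ∧
    ((v 0).degree < (v 3 + X ^ (i + 1) * v 0).degree → Inv (i, true) ((gen (0 : K[X]) X i).1 *ᵥ v)) := by
  constructor <;> intro h <;> simp only [Inv, cond] <;> convert h using 2 <;>
    simp [gen, uA, uB, mulVec, dotProduct, Fin.sum_univ_four] <;> ring

theorem inv_lift {K : Type*} [Field K] (l : ℕ × Bool) (L : List (ℕ × Bool))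
    (h : FreeGroup.IsReduced (l :: L)) :
    Inv l ((FreeGroup.lift (gen (0 : K[X]) X) (FreeGroup.mk (l :: L))).1 *ᵥ fun _ => 1) := by
  induction L generalizing l with
  | nil =>
    obtain ⟨i, _ | _⟩ := l
    · simpa using (step i _).1 (key (K := K) le_rfl one_ne_zero (deg2 i))
    · simpa using (step i _).2 (key (K := K) le_rfl one_ne_zero (deg i))
  | cons l' L ih =>
    have h1 := ih l' (FreeGroup.isReduced_cons_cons.1 h).2
    have h2 := (FreeGroup.isReduced_cons_cons.1 h).1
    rw [FreeGroup.lift_mk, List.map_cons, List.prod_cons, ← FreeGroup.lift_mk, Units.val_mul,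
      ← mulVec_mulVec]
    generalize (FreeGroup.lift (gen (0 : K[X]) X) (FreeGroup.mk (l' :: L))).1 *ᵥ (fun _ => 1) = v at h1
    have h3 := h1.lt
    obtain ⟨i, _ | _⟩ := l
    · refine (step i v).1 ?_
      obtain ⟨j, _ | _⟩ := l'
      · exact key h3.2.le (ne_zero_of_degree_gt h3.2) (deg2 i)
      · convert key h1.le h3.1 (deg' (i := j) (j := i) (by simpa [eq_comm] using h2)) using 2; ring
    · refine (step i v).2 ?_
      obtain ⟨j, _ | _⟩ := l'
      · convert key h1.le h3.1 (deg' (i := i) (j := j) (by simpa using h2)) using 2; ring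
      · exact key h3.2.le (ne_zero_of_degree_gt h3.2) (deg i)

/-- A non-trivial law holds in only finitely many Suzuki groups: for every non-trivial element w of the free group on countably many generators there is N such that for q = 2^(2m+1) with m ≥ N some substitution of elements of the Suzuki group over the field with q elements into w is not the identity. -/
theorem result (w : FreeGroup ℕ) (hw : w ≠ 1) :
    ∃ N : ℕ, ∀ (F : Type*) [Field F] [Fintype F] (m : ℕ), 1 ≤ m → N ≤ m →
      Fintype.card F = 2 ^ (2 * m + 1) →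
      ∃ f : ℕ → ↥(Cfsg.Lie.Sz F (2 ^ (m + 1))), FreeGroup.lift f w ≠ 1 := by
  have h0 : FreeGroup.lift (gen (0 : (ZMod 2)[X]) X) w ≠ 1 := fun e => by
    obtain ⟨l, L, h⟩ := List.exists_cons_of_ne_nil (mt FreeGroup.toWord_eq_nil_iff.1 hw)
    have := (inv_lift (K := ZMod 2) l L (h ▸ FreeGroup.isReduced_toWord)).lt
    rw [← h, FreeGroup.mk_toWord, e] at this
    obtain ⟨i, _ | _⟩ := l <;> simp at this
  obtain ⟨i, j, hp⟩ : ∃ i j, (FreeGroup.lift (gen (C X : (ZMod 2)[X][X]) X) w).1 i j - (1 : Matrix _ _ _) i j ≠ 0 := by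
    by_contra! h
    have := map_gen (mapRingHom (evalRingHom (0 : ZMod 2))) (C X) X w
    rw [show FreeGroup.lift (gen (C X : (ZMod 2)[X][X]) X) w = 1 from
      Units.ext (Matrix.ext fun i j => sub_eq_zero.1 (h i j))] at this
    exact h0 (by simpa using this.symm)
  set p := (FreeGroup.lift (gen (C X : (ZMod 2)[X][X]) X) w).1 i j - (1 : Matrix _ _ _) i j with hp'
  obtain ⟨N, hN⟩ := ((finite_setOf_isRoot hp).preimage (f := fun e : ℕ => (X ^ e : (ZMod 2)[X]))
    fun a _ b _ e => by simpa using congrArg natDegree e).bddAbove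
  let D := p.support.sup fun k => (p.coeff k).natDegree
  refine ⟨N + D + p.natDegree, fun F _ _ m hm hN' hF => ?_⟩
  let P := H6.Suz.Par.mk m hm hF
  have := P.charP
  have h1 : m < 2 ^ m := Nat.lt_two_pow_self
  have h2 : p.eval (X ^ 2 ^ (m + 1)) ≠ 0 := fun e => by
    have := hN (a := 2 ^ (m + 1)) e
    omega
  have h3 : (p.eval (X ^ 2 ^ (m + 1))).natDegree ≤ (D + p.natDegree) * 2 ^ (m + 1) := by
    rw [eval_eq_sum]
    refine natDegree_sum_le_of_forall_le _ _ fun k hk => natDegree_mul_le.trans ?_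
    rw [natDegree_pow, natDegree_X_pow, add_mul]
    exact add_le_add ((Finset.le_sup (f := fun k => (p.coeff k).natDegree) hk).trans
      (Nat.le_mul_of_pos_right _ (by positivity))) (Nat.mul_le_mul_right _ (le_natDegree_of_mem_supp k hk))
  by_contra! h
  refine h2 (map_injective _ (ZMod.castHom (dvd_refl 2) F).injective (Eq.trans
    (eq_zero_of_natDegree_lt_card_of_eval_eq_zero _ Function.injective_id (fun b => ?_) ?_) (by simp)))
  · let φ := (eval₂RingHom (ZMod.castHom (dvd_refl 2) F) b).comp (evalRingHom (X ^ 2 ^ (m + 1)))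
    have e := map_gen φ (C X) X w
    rw [← FreeGroup.lift_unique ((Subgroup.subtype _).comp (FreeGroup.lift fun k => P.lie.T 0 (b ^ (k + 1)) *
      (P.lie.W * P.lie.T 0 (b ^ (k + 1)) * P.lie.W))) (fun k => ?_), MonoidHom.comp_apply, h] at e
    · rw [eval_map]
      change φ p = 0
      rw [hp', map_sub, sub_eq_zero, Matrix.one_apply, apply_ite φ, map_one, map_zero]
      exact congrArg (fun g : GL (Fin 4) F => g.1 i j) e
    · rw [MonoidHom.comp_apply, FreeGroup.lift_apply_of, map_mul, gen, show φ (C X) = b by simp [φ],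
        show φ X = P.θ b by simp [φ, P.θ_apply, P], ← map_pow]
      congr 1 <;> refine Units.ext ?_
      · change P.Tm _ _ = _
        simp [H6.Suz.Par.Tm, H6.Suz.Par.f, uA]
      · change H6.Suz.Par.Wm F * P.Tm _ _ * H6.Suz.Par.Wm F = _
        simp [H6.Suz.Par.Tm, H6.Suz.Par.Wm, H6.Suz.Par.f, uB]
  · refine (natDegree_map_le.trans h3).trans_lt ?_
    rw [hF, show 2 * m + 1 = m + (m + 1) by ring, pow_add 2 m (m + 1)]
    exact (Nat.mul_lt_mul_right (by positivity)).2 (by omega)

end Cfsg.Agent.S2354
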