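import Cfsg.Statements.S2359
import Cfsg.Agent.H6.Ree6

set_option autoImplicit false
open Cfsg

namespace Cfsg.Agent.S2359

/-- Let R be the small Ree group over the field with q = 3^(2m+1) ≥ 27 elements. If H is a cyclic subgroup of R of order (q−1)/2, then the centralizer of H in R is cyclic of order q−1, and every non-trivial subgroup of H has the same centralizer as H. If H is a cyclic subgroup of order (q+1)/4, then the centralizer of H is abelian of order q+1 with no element of order 4 (so it is the direct product of H and a group of order 4 whose non-identity elements all have order 2), and every non-trivial subgroup of H has the same centralizer as H. -/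
theorem result {K : Type*} [Field K] [Fintype K] {m : ℕ} (hm : 1 ≤ m)
    (hK : Fintype.card K = 3 ^ (2 * m + 1)) (H : Subgroup ↥(Cfsg.Lie.twistedG2 K (3 ^ m))) (hH : IsCyclic H) :
    (Nat.card H = (3 ^ (2 * m + 1) - 1) / 2 →
      IsCyclic ↥(Subgroup.centralizer (H : Set ↥(Cfsg.Lie.twistedG2 K (3 ^ m)))) ∧
        Nat.card ↥(Subgroup.centralizer (H : Set ↥(Cfsg.Lie.twistedG2 K (3 ^ m)))) = 3 ^ (2 * m + 1) - 1 ∧
        ∀ A : Subgroup ↥(Cfsg.Lie.twistedG2 K (3 ^ m)), A ≤ H → A ≠ ⊥ →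
          Subgroup.centralizer (A : Set ↥(Cfsg.Lie.twistedG2 K (3 ^ m))) = Subgroup.centralizer (H : Set ↥(Cfsg.Lie.twistedG2 K (3 ^ m)))) ∧
    (Nat.card H = (3 ^ (2 * m + 1) + 1) / 4 →
      IsMulCommutative ↥(Subgroup.centralizer (H : Set ↥(Cfsg.Lie.twistedG2 K (3 ^ m)))) ∧
        Nat.card ↥(Subgroup.centralizer (H : Set ↥(Cfsg.Lie.twistedG2 K (3 ^ m)))) = 3 ^ (2 * m + 1) + 1 ∧
        (∀ x ∈ Subgroup.centralizer (H : Set ↥(Cfsg.Lie.twistedG2 K (3 ^ m))), orderOf x ≠ 4) ∧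
        ∀ A : Subgroup ↥(Cfsg.Lie.twistedG2 K (3 ^ m)), A ≤ H → A ≠ ⊥ →
          Subgroup.centralizer (A : Set ↥(Cfsg.Lie.twistedG2 K (3 ^ m))) = Subgroup.centralizer (H : Set ↥(Cfsg.Lie.twistedG2 K (3 ^ m)))) := by
  obtain ⟨f, hf, X, -⟩ := H6.Ree.exists_model hK
  have := X.finite
  refine ⟨fun h => ?_, fun h => ?_⟩
  · obtain ⟨g, hT⟩ := (X.torH hm).of_cyclic hH (h.trans X.card_AH.symm)
    rw [hT.cent_sub le_rfl hT.ne]
    have := X.isCyclic_H
    exact ⟨isCyclic_of_surjective _ (H5.cjEquiv g _).surjective, by rw [H5.card_cj, X.card_H],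
      fun A => hT.cent_sub⟩
  · obtain ⟨A', T, hT, -, e, e', -⟩ := X.exists_torQ hm
    obtain ⟨g, hT⟩ := hT.of_cyclic hH (h.trans e.symm)
    rw [hT.cent_sub le_rfl hT.ne]
    refine ⟨⟨⟨fun a b => Subtype.ext (hT.comm _ a.2 _ b.2)⟩⟩, by rw [H5.card_cj, e'], fun x _ h4 => ?_,
      fun A => hT.cent_sub⟩
    have h2 := X.sq_of_pow (g := x) (n := 2) (by rw [show 2 ^ 2 = orderOf x from h4.symm, pow_orderOf_eq_one])
    have := orderOf_dvd_of_pow_eq_one ((sq x).trans h2)
    rw [h4] at this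
    omega

end Cfsg.Agent.S2359
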