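import Cfsg.Statements.S2450
import Cfsg.Agent.H5.SL2X

set_option autoImplicit false
open Cfsg

namespace Cfsg.Agent.S2450

open H5

theorem two_vals {F : Type*} [Field F] [Fintype F] (h4 : 4 ≤ Fintype.card F) (t : F) {β : F} (hβ : β ≠ 0) :
    ∃ y z, y ≠ 0 ∧ z ≠ 0 ∧ (t + y * β) ^ 2 ≠ (t + z * β) ^ 2 := by
  classical
  obtain ⟨z, -, hz⟩ := Finset.exists_mem_notMem_of_card_lt_card (s := {0, 1, -1 - 2 * t / β}) (t := Finset.univ)
    (Finset.card_le_three.trans_lt (by simp; omega))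
  simp only [Finset.mem_insert, Finset.mem_singleton, not_or] at hz
  exact ⟨1, z, one_ne_zero, hz.1, by grind⟩

theorem key {F : Type*} [Field F] [Fintype F] (h4 : 4 ≤ Fintype.card F) (a b : SL2 F) (ha : mkS a ≠ 1) (hb : mkS b ≠ 1)
    (h : a.1.trace ^ 2 ≠ 4 ∨ (a.1.trace = 2 ∧ b.1.trace = 2)) (h' : b.1.trace ^ 2 ≠ 4 ∨ b.1.trace = 2) :
    ∃ A B A' B' : SL2 F, IsConj a A ∧ IsConj b B ∧ IsConj a A' ∧ IsConj b B' ∧
      (A * B).1.trace ^ 2 ≠ (A' * B').1.trace ^ 2 := by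
  have hup : ∀ b : SL2 F, mkS b ≠ 1 → b.1.trace = 2 → ∃ β, β ≠ 0 ∧ IsConj b (up β) := fun b hb h => by
    obtain ⟨β, hβ⟩ := exists_conj_up_of_trace h
    exact ⟨β, by rintro rfl; rw [up_eq_one.2 rfl, isConj_one_left] at hβ; exact hb (by simp [hβ]), hβ⟩
  rcases h with h | ⟨h1, h2⟩
  · rcases h' with h' | h'
    · obtain ⟨A, B, a1, a2, a3⟩ := macbeath h b.1.trace 0
      obtain ⟨A', B', b1, b2, b3⟩ := macbeath h b.1.trace 1
      exact ⟨A, B, A', B', isConj_of_trace a1.symm h, isConj_of_trace a2.symm h', isConj_of_trace b1.symm h,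
        isConj_of_trace b2.symm h', by rw [a3, b3]; simp⟩
    · obtain ⟨β, h0, hβ⟩ := hup b hb h'
      obtain ⟨y, z, hy, hz, e⟩ := two_vals h4 a.1.trace h0
      exact ⟨sl2 0 (-y⁻¹) y a.1.trace (by simp [hy]), _, sl2 0 (-z⁻¹) z a.1.trace (by simp [hz]), _,
        isConj_of_trace (by simp) h, hβ, isConj_of_trace (by simp) h, hβ, by simpa [sl2_mul, add_comm] using e⟩
  · obtain ⟨α, a0, hα⟩ := hup a ha h1
    obtain ⟨β, b0, hβ⟩ := hup b hb h2
    classical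
    obtain ⟨x, x0, hx⟩ : ∃ x : F, x ≠ 0 ∧ α * β * x ^ 2 ≠ 4 := by
      by_cases h : α * β = 4
      · obtain ⟨z, -, hz⟩ := Finset.exists_mem_notMem_of_card_lt_card (s := {0, 1, (-1 : F)}) (t := Finset.univ)
          (Finset.card_le_three.trans_lt (by simp; omega))
        simp only [Finset.mem_insert, Finset.mem_singleton, not_or] at hz
        exact ⟨z, hz.1, by grind⟩
      · exact ⟨1, one_ne_zero, by simpa⟩
    refine ⟨_, _, _, _, hα, hβ, hα, hβ.trans (isConj_iff.2 ⟨sl2 0 (-x⁻¹) x 0 (by simp [x0]), rfl⟩), ?_⟩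
    simp [sl2_mul, sl2_inv]
    grind

/-- The Arad–Herzog conjecture for PSL(2,q): let F be a finite field with q ≥ 4 elements. For any two non-identity elements a, b of PSL(2,F), the set of products of a conjugate of a with a conjugate of b is not a single conjugacy class. -/
theorem result {F : Type*} [Field F] [Fintype F] (h4 : 4 ≤ Fintype.card F)
    (a b : Matrix.ProjectiveSpecialLinearGroup (Fin 2) F) (ha : a ≠ 1) (hb : b ≠ 1) (c : Matrix.ProjectiveSpecialLinearGroup (Fin 2) F) :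
    {g : Matrix.ProjectiveSpecialLinearGroup (Fin 2) F | ∃ u v : Matrix.ProjectiveSpecialLinearGroup (Fin 2) F, g = (u * a * u⁻¹) * (v * b * v⁻¹)} ≠ {g | IsConj c g} := by
  obtain ⟨a, rfl⟩ := QuotientGroup.mk_surjective a
  obtain ⟨b, rfl⟩ := QuotientGroup.mk_surjective b
  have norm : ∀ a : SL2 F, (a : PSL2 F) ≠ 1 → ∃ a' : SL2 F, (a' : PSL2 F) = a ∧ mkS a' ≠ 1 ∧
      (a'.1.trace ^ 2 ≠ 4 ∨ a'.1.trace = 2) := fun a ha => by
    have h1 : mkS a ≠ 1 := fun e => ha (psl_inj (e.trans (map_one _).symm))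
    by_cases h : a.1.trace = -2
    · exact ⟨-a, mk_neg a, by rwa [mkS_neg], Or.inr (by rw [trace_neg_SL, h, neg_neg])⟩
    · exact ⟨a, rfl, h1, by grind⟩
  obtain ⟨a', ea, ha1, ha2⟩ := norm a ha
  obtain ⟨b', eb, hb1, hb2⟩ := norm b hb
  rw [← ea, ← eb]
  intro h
  have h1 : ∀ A B : SL2 F, IsConj a' A → IsConj b' B → (A * B).1.trace ^ 2 = kap (psl c) := fun A B hA hB => by
    obtain ⟨u, rfl⟩ := isConj_iff.1 hA
    obtain ⟨v, rfl⟩ := isConj_iff.1 hB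
    obtain ⟨w, hw⟩ := isConj_iff.1 ((Set.ext_iff.1 h ((u * a' * u⁻¹ * (v * b' * v⁻¹) : SL2 F) : PSL2 F)).1 ⟨u, v, rfl⟩)
    rw [← kap_mkS, ← psl_mk, ← hw, map_mul, map_mul, map_inv, kap_conj]
  by_cases h2 : a'.1.trace ^ 2 ≠ 4 ∨ (a'.1.trace = 2 ∧ b'.1.trace = 2)
  · obtain ⟨A, B, A', B', c1, c2, c3, c4, c5⟩ := key h4 a' b' ha1 hb1 h2 hb2
    exact c5 ((h1 _ _ c1 c2).trans (h1 _ _ c3 c4).symm)
  · obtain ⟨A, B, A', B', c1, c2, c3, c4, c5⟩ := key h4 b' a' hb1 ha1 (by tauto) ha2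
    refine c5 ?_
    have h3 : ∀ A B : SL2 F, (A * B).1.trace = (B * A).1.trace := fun A B => Matrix.trace_mul_comm _ _
    rw [h3 A, h3 A', h1 _ _ c2 c1, h1 _ _ c4 c3]


end Cfsg.Agent.S2450
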