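import Cfsg.Statements.S2455
import Cfsg.Agent.H5.SL2X

set_option autoImplicit false
open Cfsg

namespace Cfsg.Agent.S2455

open H5

/-- A strong covering result in the direction of Thompson's conjecture (non-identity elements) for PSL(2,q), q odd: let F be a finite field of odd characteristic p with at least 5 elements and let x ∈ PSL(2,F) have order greater than 2 and not divisible by p (so x is not unipotent). Then every non-identity element of PSL(2,F) is a product of two conjugates of x. -/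
theorem result {F : Type*} [Field F] [Fintype F] (p : ℕ) [Fact p.Prime] [CharP F p] (hp : p ≠ 2) (h5 : 5 ≤ Fintype.card F)
    (x : Matrix.ProjectiveSpecialLinearGroup (Fin 2) F) (hx2 : 2 < orderOf x) (hxp : ¬ p ∣ orderOf x) : ∀ g : Matrix.ProjectiveSpecialLinearGroup (Fin 2) F, g ≠ 1 → ∃ u v : Matrix.ProjectiveSpecialLinearGroup (Fin 2) F, g = (u * x * u⁻¹) * (v * x * v⁻¹) := by
  intro g hg
  have h2 := (char_ne_two (F := F) p).1 hp
  obtain ⟨x, rfl⟩ := QuotientGroup.mk_surjective x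
  obtain ⟨g, rfl⟩ := QuotientGroup.mk_surjective g
  rw [← orderOf_psl, psl_mk] at hx2 hxp
  have hg1 : mkS g ≠ 1 := fun e => hg (psl_inj (e.trans (map_one _).symm))
  have key : ∀ y : SL2 F, mkS y = mkS x → y.1.trace ≠ 2 := fun y e h => by
    obtain ⟨z, hz⟩ := exists_US_of_trace h
    rcases (Nat.dvd_prime Fact.out).1 (orderOf_dvd_of_pow_eq_one (pow_char_UP p (e ▸ mkS_mem_UP hz))) with h | h
    · omega
    · exact hxp h.symm.dvd
  have h1 : x.1.trace ^ 2 ≠ 4 := fun e => by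
    rcases sq_eq_sq_iff_eq_or_eq_neg.1 (e.trans (by norm_num : (4 : F) = 2 ^ 2)) with h | h
    exacts [key x rfl h, key (-x) (mkS_neg x) (by rw [trace_neg_SL, h, neg_neg])]
  have h0 : x.1.trace ≠ 0 := fun e => by
    have := orderOf_dvd_of_pow_eq_one (pow_two_eq_one_iff.2 (Or.inr (by rw [kap_mkS, e]; simp) : mkS x = 1 ∨ _))
    have := Nat.le_of_dvd two_pos this; omega
  have fin : ∀ A B : SL2 F, A.1.trace = x.1.trace → (B.1.trace = x.1.trace ∨ B.1.trace = -x.1.trace) →
      ∃ u v : PSL2 F, ((A * B : SL2 F) : PSL2 F) = (u * x * u⁻¹) * (v * x * v⁻¹) := fun A B hA hB => by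
    obtain ⟨u, rfl⟩ := isConj_iff.1 (isConj_of_trace hA.symm h1)
    rcases hB with hB | hB
    · obtain ⟨v, rfl⟩ := isConj_iff.1 (isConj_of_trace hB.symm h1)
      exact ⟨u, v, rfl⟩
    · obtain ⟨v, hv⟩ := isConj_iff.1 (isConj_of_trace (h := -B) (by rw [trace_neg_SL, hB, neg_neg]) h1)
      exact ⟨u, v, by rw [← mk_neg, ← mul_neg, ← hv]; rfl⟩
  have fin2 : ∀ b, (b = x.1.trace ∨ b = -x.1.trace) → ∀ g : SL2 F, mkS g ≠ 1 → (∀ A B : SL2 F, A.1.trace = x.1.trace →
      B.1.trace = b → (A * B).1.trace = g.1.trace → mkS (A * B) ≠ 1) →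
      ∃ u v : PSL2 F, (g : PSL2 F) = (u * x * u⁻¹) * (v * x * v⁻¹) := fun b hb g hg h => by
    obtain ⟨A, B, hA, hB, hAB⟩ := macbeath h1 b g.1.trace
    obtain ⟨c, hc⟩ := isConj_GL (g := toG (A * B)) (h := toG g) (h A B hA hB hAB) hg hAB ((A * B).2.trans g.2.symm)
    rw [← toG_conjSL, toG_inj.eq_iff, map_mul] at hc
    rw [← hc]
    exact fin _ _ (by rw [trace_conjSL, hA]) (by rw [trace_conjSL, hB]; exact hb)
  have h4 : (2 : F) ≠ -2 := fun e => four_ne_zero' h2 (by linear_combination e)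
  have fin3 : ∀ g : SL2 F, mkS g ≠ 1 → g.1.trace = 2 → ∃ u v : PSL2 F, (g : PSL2 F) = (u * x * u⁻¹) * (v * x * v⁻¹) :=
    fun g hg h => fin2 _ (Or.inr rfl) g hg fun A B hA hB hAB e => by
      rcases mkS_eq_one_iff.1 e with e | e
      · obtain ⟨a, b, c, d, h, rfl⟩ := exists_sl2 A
        rw [eq_inv_of_mul_eq_one_right e, sl2_inv] at hB
        simp at hA hB
        exact h0 (mul_left_cancel₀ h2 (by linear_combination hB - hA))
      · rw [e, h] at hAB; simp at hAB; exact h4 hAB.symm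
  by_cases h : g.1.trace = 2
  · exact fin3 g hg1 h
  by_cases h' : g.1.trace = -2
  · exact mk_neg g ▸ fin3 (-g) (by rwa [mkS_neg]) (by rw [trace_neg_SL, h', neg_neg])
  · refine fin2 _ (Or.inl rfl) g hg1 fun A B _ _ hAB e => ?_
    rcases mkS_eq_one_iff.1 e with e | e <;> rw [e] at hAB <;> simp at hAB
    exacts [h hAB.symm, h' hAB.symm]


end Cfsg.Agent.S2455
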