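import Cfsg.Statements.S2456
import Cfsg.Agent.H5.SL2X

set_option autoImplicit false
open Cfsg

namespace Cfsg.Agent.S2456

open H5

/-- A strong covering result in the direction of Thompson's conjecture (non-identity elements) for PSL(2,q), q even: let F be a finite field of characteristic 2 with q ≥ 4 elements and let x ∈ PSL(2,F) have order greater than 2 and not dividing q + 1. Then every non-identity element of PSL(2,F) is a product of two conjugates of x. -/
theorem result {F : Type*} [Field F] [Fintype F] [CharP F 2] (h4 : 4 ≤ Fintype.card F)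
    (x : Matrix.ProjectiveSpecialLinearGroup (Fin 2) F) (hx2 : 2 < orderOf x) (hxq : ¬ orderOf x ∣ Fintype.card F + 1) : ∀ g : Matrix.ProjectiveSpecialLinearGroup (Fin 2) F, g ≠ 1 → ∃ u v : Matrix.ProjectiveSpecialLinearGroup (Fin 2) F, g = (u * x * u⁻¹) * (v * x * v⁻¹) := by
  intro g hg
  have h2 : (2 : F) = 0 := CharP.cast_eq_zero F 2
  have hs : ∀ a : F, IsSquare a := FiniteField.isSquare_of_char_two (ringChar.eq F 2)
  obtain ⟨x, rfl⟩ := QuotientGroup.mk_surjective x
  obtain ⟨g, rfl⟩ := QuotientGroup.mk_surjective g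
  rw [← orderOf_psl, psl_mk] at hx2 hxq
  have hg1 : mkS g ≠ 1 := fun e => hg (psl_inj (e.trans (map_one _).symm))
  have h0 : x.1.trace ≠ 0 := fun e => by
    have := orderOf_dvd_of_pow_eq_one (pow_two_eq_one_iff.2 (Or.inr (by rw [kap_mkS, e]; simp) : mkS x = 1 ∨ _))
    have := Nat.le_of_dvd two_pos this; omega
  have h1 : x.1.trace ^ 2 ≠ 4 := by grind
  have fin : ∀ A B : SL2 F, A.1.trace = x.1.trace → B.1.trace = x.1.trace → (A * B).1.trace = g.1.trace → mkS (A * B) ≠ 1 →
      ∃ u v : PSL2 F, (g : PSL2 F) = (u * x * u⁻¹) * (v * x * v⁻¹) := fun A B hA hB hAB h => by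
    obtain ⟨u, rfl⟩ := isConj_iff.1 (isConj_of_trace hA.symm h1)
    obtain ⟨v, rfl⟩ := isConj_iff.1 (isConj_of_trace hB.symm h1)
    obtain ⟨c, rfl⟩ := isConj_iff.1 (isConj_of_trace_sq hs h hg1 hAB)
    exact ⟨↑(c * u), ↑(c * v), congrArg (QuotientGroup.mk) (by group : _ = c * u * x * (c * u)⁻¹ * (c * v * x * (c * v)⁻¹))⟩
  by_cases h : g.1.trace = 0
  · obtain ⟨T, D, hT, -, hf⟩ := exists_nonsplit F
    obtain ⟨u, hu⟩ := (root_of_fix (g := toG x)).1 (by
      by_contra! h3
      obtain ⟨c, hc⟩ := hf _ h3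
      exact hxq ((hT.cj c).orderOf_dvd hc))
    change u ^ 2 - x.1.trace * u + x.1.det = 0 at hu
    rw [x.2] at hu
    refine fin (sl2 u 1 0 (x.1.trace - u) (by grind)) (sl2 (x.1.trace - u) 0 0 u (by grind)) (by simp) (by simp) ?_ ?_
    · rw [sl2_mul, h]; simp; grind
    · rw [sl2_mul, mkS_sl2, ne_eq, pg_eq_one_iff]; grind
  · obtain ⟨A, B, hA, hB, hAB⟩ := macbeath h1 x.1.trace g.1.trace
    refine fin A B hA hB hAB fun e => h ?_
    rw [← hAB, (map_eq_one_iff _ (mkS_inj h2)).1 e]; simpa using h2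


end Cfsg.Agent.S2456
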