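import Cfsg.Statements.S2466
import Cfsg.Agent.H8.Spec
-- import your own Cfsg.Agent.* helpers here

set_option autoImplicit false
open Cfsg

namespace Cfsg.Agent.S2466

/-- Adjacency of odd primes in the prime graph of the alternating groups: let r ≠ s be odd primes at most n. The alternating group of degree n has an element of order r·s if and only if r + s ≤ n. -/
theorem result (n r s : ℕ) (hr : r.Prime) (hs : s.Prime) (hr2 : r ≠ 2) (hs2 : s ≠ 2) (hrs : r ≠ s) (hrn : r ≤ n) (hsn : s ≤ n) :
    (r * s ∈ Set.range (orderOf : alternatingGroup (Fin n) → ℕ)) ↔ r + s ≤ n := by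
  rw [H8.mem_spec_alt]
  have o1 := hr.eq_two_or_odd.resolve_left hr2
  have o2 := hs.eq_two_or_odd.resolve_left hs2
  have cp := (Nat.coprime_primes hr hs).2 hrs
  constructor
  · rintro ⟨m, ⟨h1, h2⟩, h3, -⟩
    have hd := h3 ▸ (Multiset.lcm_dvd.2 fun _ => Multiset.dvd_prod : m.lcm ∣ m.prod)
    obtain ⟨a, ha, a1⟩ := hr.prime.exists_mem_multiset_dvd ((dvd_mul_right r s).trans hd)
    obtain ⟨b, hb, b1⟩ := hs.prime.exists_mem_multiset_dvd ((dvd_mul_left s r).trans hd)
    have a2 := h2 a ha
    have b2 := h2 b hb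
    obtain ⟨m, rfl⟩ := Multiset.exists_cons_of_mem ha
    rw [Multiset.sum_cons] at h1
    rcases Multiset.mem_cons.1 hb with rfl | hb
    · have := Nat.le_of_dvd (by omega) (cp.mul_dvd_of_dvd_of_dvd a1 b1)
      have := Nat.add_le_mul hr.two_le hs.two_le
      omega
    · have := Multiset.le_sum_of_mem hb
      have := Nat.le_of_dvd (by omega) a1
      have := Nat.le_of_dvd (by omega) b1
      omega
  · intro h
    refine ⟨{r, s}, ⟨by simpa using h, by simp [hr.two_le, hs.two_le]⟩, by simp [lcm_eq_nat_lcm, cp.lcm_eq_mul], by simp; omega⟩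

end Cfsg.Agent.S2466
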