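import Cfsg.Statements.S2467
import Cfsg.Agent.H8.Spec
-- import your own Cfsg.Agent.* helpers here

set_option autoImplicit false
open Cfsg

namespace Cfsg.Agent.S2467

/-- Adjacency of 2 and an odd prime in the prime graph of the alternating groups: let r be an odd prime at most n, with n ≥ 4. The alternating group of degree n has an element of order 2r if and only if r + 4 ≤ n. -/
theorem result (n r : ℕ) (hn : 4 ≤ n) (hr : r.Prime) (hr2 : r ≠ 2) (hrn : r ≤ n) :
    (2 * r ∈ Set.range (orderOf : alternatingGroup (Fin n) → ℕ)) ↔ r + 4 ≤ n := by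
  rw [H8.mem_spec_alt]
  have o1 := hr.eq_two_or_odd.resolve_left hr2
  have cp := (Nat.coprime_primes hr Nat.prime_two).2 hr2
  constructor
  · rintro ⟨m, ⟨h1, h2⟩, h3, h4⟩
    have hd := h3 ▸ (Multiset.lcm_dvd.2 fun _ => Multiset.dvd_prod : m.lcm ∣ m.prod)
    obtain ⟨a, ha, a1⟩ := hr.prime.exists_mem_multiset_dvd ((dvd_mul_left r 2).trans hd)
    obtain ⟨b, hb, b1⟩ := Nat.prime_two.prime.exists_mem_multiset_dvd ((dvd_mul_right 2 r).trans hd)
    have ev : ∀ m : Multiset ℕ, (m.sum + Multiset.card m) % 2 = 1 → ∃ c ∈ m, 2 ∣ c := fun m => by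
      induction m using Multiset.induction_on with
      | empty => simp
      | cons a m ih =>
        intro h
        by_cases h2 : 2 ∣ a
        · exact ⟨a, by simp, h2⟩
        · obtain ⟨c, hc, c1⟩ := ih (by simp at h; omega)
          exact ⟨c, by simp [hc], c1⟩
    have a2 := h2 a ha
    have r3 := hr.two_le
    obtain ⟨m, rfl⟩ := Multiset.exists_cons_of_mem ha
    simp only [Multiset.sum_cons, Multiset.card_cons] at h1 h4
    by_cases h5 : 2 ∣ a
    · have := Nat.le_of_dvd (by omega) (cp.mul_dvd_of_dvd_of_dvd a1 h5)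
      obtain ⟨c, hc, -⟩ := ev m (by omega)
      have := Multiset.le_sum_of_mem hc
      have := h2 c (by simp [hc])
      omega
    · have := Nat.le_of_dvd (by omega) a1
      rcases Multiset.mem_cons.1 hb with rfl | hb
      · exact absurd b1 h5
      obtain ⟨m, rfl⟩ := Multiset.exists_cons_of_mem hb
      simp only [Multiset.sum_cons, Multiset.card_cons] at h1 h4
      obtain ⟨c, hc, -⟩ := ev m (by omega)
      have := Multiset.le_sum_of_mem hc
      have := h2 c (by simp [hc])
      have := h2 b (by simp)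
      omega
  · intro h
    refine ⟨{r, 2, 2}, ⟨by simp; omega, by simp [hr.two_le]⟩, by simp [lcm_eq_nat_lcm, cp.lcm_eq_mul, mul_comm], by simp; omega⟩

end Cfsg.Agent.S2467
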