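import Cfsg.Statements.S2471
import Cfsg.Agent.H5.PSL2

set_option autoImplicit false
open Cfsg

namespace Cfsg.Agent.S2471

open H5

/-- In PSL(2,q) with q odd, the characteristic p is isolated from 2 in the prime graph: for F a finite field of odd characteristic p with at least 5 elements, PSL(2,F) has no element of order 2p. -/
theorem result {F : Type*} [Field F] [Fintype F] (p : ℕ) [Fact p.Prime] [CharP F p] (hp : p ≠ 2) (h5 : 5 ≤ Fintype.card F) (g : Matrix.ProjectiveSpecialLinearGroup (Fin 2) F) :
    orderOf g ≠ 2 * p := by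
  intro h
  have hp' : p.Prime := Fact.out
  rcases unip_or_tor p (psl g) with ⟨h1, -⟩ | ⟨h1, -⟩ <;> rw [orderOf_psl, h] at h1
  · have := hp'.pos; omega
  · exact h1 (dvd_mul_left _ _)


end Cfsg.Agent.S2471
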