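import Cfsg.Statements.S2485
import Cfsg.Agent.H5.SL2X

set_option autoImplicit false
open scoped Pointwise
open Cfsg

namespace Cfsg.Agent.S2485

open H5

theorem key {F : Type*} [Field F] (h2 : (2 : F) ≠ 0) {s t : PG F} (hs : s * s = 1) (hs1 : s ≠ 1) (ht : t * t = 1) (ht1 : t ≠ 1)
    (hf : ∀ x : OnePoint F, s • x ≠ x) : ∃ z : PG F, z ≠ 1 ∧ z * s = s * z ∧ z * t = t * z := by
  obtain ⟨a, b, c, d, h, rfl⟩ := exists_pg s
  obtain ⟨a', b', c', d', h', rfl⟩ := exists_pg t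
  have e1 := (pow_two_eq_one_iff.1 ((sq _).trans hs)).resolve_left hs1
  have e2 := (pow_two_eq_one_iff.1 ((sq _).trans ht)).resolve_left ht1
  rw [kap_pg, div_eq_zero_iff, or_iff_left (by assumption), pow_eq_zero_iff two_ne_zero, add_eq_zero_iff_neg_eq] at e1 e2
  subst e1 e2
  by_cases h3 : (b * c' - b' * c) * (b' * c - b * c') - 2 * (a * b' - a' * b) * (2 * (c * a' - c' * a)) = 0
  · have := comm_of_det_comm (x := (gl2 a b c (-a) h).1) (y := (gl2 a' b' c' (-a') h').1)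
      (fun l e => by obtain ⟨x, hx⟩ := root_of_fix.2 ⟨l, e⟩; exact hf x hx) (by simp [Matrix.det_fin_two]; linear_combination h3)
    exact ⟨_, hs1, rfl, by rw [← mkG_gl2, ← mkG_gl2, ← map_mul, ← map_mul]; exact congrArg _ (Units.ext this)⟩
  · refine ⟨pg _ _ _ _ h3, fun e => h3 ?_, ?_, ?_⟩
    · have := pg_eq_one_iff.1 e; grind
    all_goals rw [pg_mul, pg_mul, pg_eq_iff]; exact ⟨-1, by simp, by ring, by ring, by ring, by ring⟩

/-- Let q = 2^k − 1 ≥ 7 be a prime and let G = PGL(2,q), the general linear group of degree 2 over the field with q elements modulo its centre. Then any two Sylow 2-subgroups of G have a non-trivial intersection: for a Sylow 2-subgroup H and every x ∈ G, H ∩ H^x ≠ 1. -/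
theorem result {q k : ℕ} [Fact q.Prime] (hk : q + 1 = 2 ^ k) (hq : 7 ≤ q)
    (H : Sylow 2 (GL (Fin 2) (ZMod q) ⧸ Subgroup.center (GL (Fin 2) (ZMod q))))
    (x : GL (Fin 2) (ZMod q) ⧸ Subgroup.center (GL (Fin 2) (ZMod q))) :
    (H : Subgroup (GL (Fin 2) (ZMod q) ⧸ Subgroup.center (GL (Fin 2) (ZMod q)))) ⊓ MulAut.conj x • (H : Subgroup _) ≠ ⊥ := by
  have hF : Fintype.card (ZMod q) = q := ZMod.card q
  obtain ⟨j, rfl⟩ : ∃ j, k = j + 3 := ⟨k - 3, by
    have : 2 ^ 3 ≤ 2 ^ k := by omega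
    have := (Nat.pow_le_pow_iff_right (by norm_num)).1 this
    omega⟩
  have hk' : q + 1 = 8 * 2 ^ j := by rw [hk]; ring
  revert H x
  change ∀ (H : Sylow 2 (PG (ZMod q))) (x : PG (ZMod q)), (H : Subgroup (PG (ZMod q))) ⊓ cj x H ≠ ⊥
  intro H x
  have ho : Odd (Fintype.card (ZMod q)) := by rw [hF, Nat.odd_iff]; omega
  have h2 := two_ne_of_odd ho
  obtain ⟨T, D, hT, hf, -⟩ := exists_nonsplit (ZMod q)
  have h1 := D.card_mul_index
  rw [hT.card_D, card_PG, hF] at h1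
  have h3 : ¬ 2 ∣ D.index := fun ⟨m, hm⟩ => by
    have h4 : (q + 1) * (4 * m) = (q + 1) * (q * (q - 1)) := by rw [hm] at h1; linear_combination h1
    have h5 : 4 ∣ q * (q - 1) := ⟨m, (Nat.eq_of_mul_eq_mul_left (by omega) h4).symm⟩
    have := (Nat.Coprime.dvd_mul_left (Nat.Coprime.pow_left 2 ((Nat.coprime_two_left).2 (hF ▸ ho)))).1 h5
    omega
  obtain ⟨c, hc⟩ := sylow_card_of (G := PG (ZMod q)) H h3
  have h4 : cj c D = H := H.is_maximal' (IsPGroup.of_card (n := j + 4) (by rw [card_cj, hT.card_D, hF, hk]; ring)) hc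
  obtain ⟨t, ht⟩ := exists_prime_orderOf_dvd_card' (G := T) 2 (by rw [hT.card, hF]; omega)
  rw [← Subgroup.orderOf_coe] at ht
  have h5 : (t : PG (ZMod q)) ≠ 1 := fun e => by simp [e] at ht
  have h6 : (t : PG (ZMod q)) * t = 1 := (sq _).symm.trans (orderOf_dvd_iff_pow_eq_one.1 ht.dvd)
  have h7 : ∀ c : PG (ZMod q), Subgroup.centralizer {c * t * c⁻¹} = cj c D := fun c =>
    (hT.cj c).centralizer_eq_D (conj_mem_cj.2 t.2) (by simpa using h5) (by simp [h6])
  obtain ⟨z, h8, h9, h10⟩ := key h2 (s := c * t * c⁻¹) (t := x * c * t * (x * c)⁻¹)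
    (by simp [h6]) (by simpa using h5) (by rw [conj_mul, h6]; simp) (by rwa [ne_eq, conj_eq_one_iff]) fun y hy =>
      hf t t.2 h5 (c⁻¹ • y) (by rwa [mul_smul, mul_smul, smul_eq_iff_eq_inv_smul] at hy)
  rw [← Subgroup.mem_centralizer_singleton_iff, h7] at h9 h10
  rw [← cj_cj, h4] at h10
  rw [h4] at h9
  exact fun e => h8 (e.le ⟨h9, h10⟩)


end Cfsg.Agent.S2485
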