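import Cfsg.Statements.S2486
import Cfsg.Agent.H4.GLU

set_option autoImplicit false
open scoped Pointwise
open Cfsg

namespace Cfsg.Agent.S2486

open H4.GLU Matrix

abbrev LL (n : ℕ) := GL (Fin n) (ZMod 2)

noncomputable def tv {n : ℕ} {i j : Fin n} (h : i ≠ j) : LL n :=
  Matrix.SpecialLinearGroup.toGL ⟨transvection i j (1 : ZMod 2), det_transvection_of_ne i j h 1⟩

theorem tv_apply {n : ℕ} {i j : Fin n} (h : i ≠ j) (x y : Fin n) :
    (tv h).1 x y = (if x = y then 1 else 0) + if i = x ∧ j = y then 1 else 0 := by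
  show transvection i j (1 : ZMod 2) x y = _
  simp [transvection, Matrix.one_apply, Matrix.single_apply]

theorem cj_apply {n : ℕ} (w : Equiv.Perm (Fin n)) (g : LL n) (x y : Fin n) :
    (pm (ZMod 2) w * g * (pm (ZMod 2) w)⁻¹).1 x y = g.1 (w⁻¹ x) (w⁻¹ y) := by
  rw [← map_inv, mul_pm, pm_mul]

theorem tv_mem {n : ℕ} {i j : Fin n} (h : i < j) : tv h.ne ∈ upperTriangularGL n (ZMod 2) := fun x y (hxy : y < x) => by
  rw [tv_apply, if_neg hxy.ne', if_neg (by rintro ⟨rfl, rfl⟩; exact lt_asymm h hxy), add_zero]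

theorem tv_ne {n : ℕ} {i j : Fin n} (h : i ≠ j) : tv h ≠ 1 := fun e => by
  have := tv_apply h i j
  rw [e] at this
  simp [h] at this

theorem propB {n : ℕ} (g : LL n) : (∃ t ∈ upperTriangularGL n (ZMod 2), t ≠ 1 ∧ g⁻¹ * t * g ∈ upperTriangularGL n (ZMod 2)) ∨
    ∃ b ∈ upperTriangularGL n (ZMod 2), ∃ b' ∈ upperTriangularGL n (ZMod 2), g = b * pm (ZMod 2) Fin.revPerm * b' := by
  obtain ⟨b, hb, w, b', hb', rfl⟩ := bruhat g
  by_cases hw : ∃ i j, i < j ∧ w i < w j
  · obtain ⟨i, j, h1, h2⟩ := hw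
    have k : pm (ZMod 2) w * tv h1.ne * (pm (ZMod 2) w)⁻¹ ∈ upperTriangularGL n (ZMod 2) := fun x y (hxy : y < x) => by
      rw [cj_apply, tv_apply, if_neg (fun e => hxy.ne' (w⁻¹.injective e)), if_neg, add_zero]
      rintro ⟨rfl, rfl⟩
      simp only [Equiv.Perm.coe_inv, Equiv.apply_symm_apply] at h2
      exact lt_asymm h2 hxy
    refine Or.inl ⟨b * (pm (ZMod 2) w * tv h1.ne * (pm (ZMod 2) w)⁻¹) * b⁻¹, mul_mem (mul_mem hb k) (inv_mem hb),
      by simpa [conj_eq_one_iff] using tv_ne h1.ne, ?_⟩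
    convert mul_mem (mul_mem (inv_mem hb') (tv_mem h1)) hb' using 1
    group
  · push Not at hw
    have h1 : StrictAnti w := fun i j h => (hw i j h).lt_of_ne fun e => h.ne' (w.injective e)
    have h2 := ((h1.comp Fin.rev_strictAnti).range_inj strictMono_id).1
      (by rw [(w.surjective.comp Fin.rev_surjective).range_eq, Set.range_id])
    have h3 : w = Fin.revPerm := Equiv.ext fun i => by
      have := congrFun h2 (Fin.rev i)
      simpa using this
    exact Or.inr ⟨b, hb, b', hb', by rw [h3]⟩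

theorem propA {n : ℕ} (g : LL n) (h : ∀ t ∈ upperTriangularGL n (ZMod 2), g * t * g⁻¹ ∈ upperTriangularGL n (ZMod 2)) :
    g ∈ upperTriangularGL n (ZMod 2) := by
  obtain ⟨b, hb, w, b', hb', rfl⟩ := bruhat g
  have h1 : StrictMono w := fun i j hij => by
    by_contra hc
    have hlt : w j < w i := (not_lt.1 hc).lt_of_ne fun e => hij.ne' (w.injective e)
    have k : pm (ZMod 2) w * tv hij.ne * (pm (ZMod 2) w)⁻¹ ∈ upperTriangularGL n (ZMod 2) := by
      convert mul_mem (mul_mem (inv_mem hb) (h _ (mul_mem (mul_mem (inv_mem hb') (tv_mem hij)) hb'))) hb using 1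
      group
    have := k (show id (w j) < id (w i) from hlt)
    rw [cj_apply, tv_apply] at this
    simp [hij.ne] at this
  have h2 : w = 1 := Equiv.ext (congrFun ((h1.range_inj strictMono_id).1 (by rw [w.surjective.range_eq, Set.range_id])))
  rw [h2, map_one, mul_one]
  exact mul_mem hb hb'

theorem propC {n : ℕ} (hn : 1 ≤ n) : IsPGroup 2 (upperTriangularGL n (ZMod 2)) := fun b => by
  haveI : Nonempty (Fin n) := ⟨⟨0, hn⟩⟩
  have hb : (b.1.1 : Matrix (Fin n) (Fin n) (ZMod 2)).BlockTriangular id := b.2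
  have hd : ∀ i, b.1.1 i i = 1 := fun i => by
    have := b.1.det_ne_zero
    rw [det_of_upperTriangular hb, Finset.prod_ne_zero_iff] at this
    have := this i (Finset.mem_univ i)
    revert this
    generalize b.1.1 i i = c
    revert c
    decide
  have h1 := aeval_self_charpoly b.1.1
  rw [charpoly_of_upperTriangular _ hb] at h1
  simp only [hd, Finset.prod_const, Finset.card_univ, Fintype.card_fin, map_pow, map_sub, Polynomial.aeval_X, map_one] at h1
  refine ⟨n, Subtype.ext (Units.ext ?_)⟩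
  have h2 : (b.1.1 - 1) ^ 2 ^ n = 0 := pow_eq_zero_of_le Nat.lt_two_pow_self.le h1
  rw [sub_pow_char_pow_of_commute 2 n (Commute.one_right _), one_pow, sub_eq_zero] at h2
  simpa using h2

/-- Let n ≥ 4 and let G be a finite group with a normal subgroup N of index 2 isomorphic to SL(n,2) and with trivial centralizer in G (so G is the extension of the simple group L_n(2) by its inverse-transpose automorphism, its full automorphism group). Then any two Sylow 2-subgroups of G have a non-trivial intersection: for a Sylow 2-subgroup H and every x ∈ G, H ∩ H^x ≠ 1. -/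
theorem result {G : Type*} [Group G] [Finite G] {n : ℕ} (hn : 4 ≤ n) (N : Subgroup G) [N.Normal]
    (e : N ≃* Matrix.SpecialLinearGroup (Fin n) (ZMod 2)) (hidx : N.index = 2)
    (hC : Subgroup.centralizer (N : Set G) = ⊥)
    (H : Sylow 2 G) (x : G) :
    (H : Subgroup G) ⊓ MulAut.conj x • (H : Subgroup G) ≠ ⊥ := by
  haveI : Fact (Nat.Prime 2) := ⟨Nat.prime_two⟩
  have hs : Function.Surjective (Matrix.SpecialLinearGroup.toGL : Matrix.SpecialLinearGroup (Fin n) (ZMod 2) →* LL n) := fun g =>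
    ⟨⟨g.1, by
      have := g.det_ne_zero
      revert this
      generalize g.1.det = c
      revert c
      decide⟩, Units.ext rfl⟩
  let e' : LL n ≃* N := (e.trans (MulEquiv.ofBijective _ ⟨Matrix.SpecialLinearGroup.toGL_injective, hs⟩)).symm
  let φ : LL n →* G := N.subtype.comp e'.toMonoidHom
  have hφ : Function.Injective φ := N.subtype_injective.comp e'.injective
  have hr : ∀ g ∈ N, ∃ l, φ l = g := fun g hg => ⟨e'.symm ⟨g, hg⟩, by simp [φ]⟩
  have hm : ∀ l, φ l ∈ N := fun l => (e' l).2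
  obtain ⟨S, hS⟩ := ((propC (n := n) (by omega)).map φ).exists_le_sylow
  have hB : ∀ l, φ l ∈ (S : Subgroup G) ↔ l ∈ upperTriangularGL n (ZMod 2) := by
    have hP : IsPGroup 2 ((S : Subgroup G).comap φ) := S.isPGroup'.comap_of_injective φ hφ
    have hle : upperTriangularGL n (ZMod 2) ≤ (S : Subgroup G).comap φ := Subgroup.map_le_iff_le_comap.1 hS
    refine fun l => ⟨fun h => ?_, fun h => hle h⟩
    by_contra hc
    haveI : Finite (LL n) := Finite.of_injective φ hφ
    haveI := hP.isNilpotent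
    have h1 := normalizerCondition_of_isNilpotent (G := (S : Subgroup G).comap φ)
      ((upperTriangularGL n (ZMod 2)).subgroupOf _) (lt_top_iff_ne_top.2 fun e => hc (Subgroup.subgroupOf_eq_top.1 e h))
    obtain ⟨y, y1, y2⟩ := SetLike.exists_of_lt h1
    exact y2 (propA y.1 fun t ht => (Subgroup.mem_normalizer_iff.1 y1 ⟨t, hle ht⟩).1 ht)
  obtain ⟨s, s1, s2⟩ : ∃ s ∈ (S : Subgroup G), s ∉ N := by
    by_contra hc
    push Not at hc
    have := Subgroup.index_dvd_of_le (show (S : Subgroup G) ≤ N from hc)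
    rw [hidx] at this
    exact S.not_dvd_index this
  have k1 : ∀ g ∈ N, ∃ t ∈ (S : Subgroup G), t ≠ 1 ∧ g⁻¹ * t * g ∈ (S : Subgroup G) := fun g hg => by
    obtain ⟨l', hl'⟩ := hr _ (‹N.Normal›.conj_mem g hg s)
    obtain ⟨l, rfl⟩ := hr g hg
    rcases propB l with ⟨t, t1, t2, t3⟩ | ⟨b, hb, b', hb', e1⟩
    · exact ⟨φ t, (hB t).2 t1, fun h => t2 (hφ (h.trans (map_one φ).symm)), by simpa using (hB _).2 t3⟩
    rcases propB l' with ⟨t, t1, t2, t3⟩ | ⟨c, hc, c', hc', e2⟩
    · refine ⟨s⁻¹ * φ t * s, mul_mem (mul_mem (inv_mem s1) ((hB t).2 t1)) s1, fun h => t2 (hφ ?_), ?_⟩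
      · rw [map_one]
        exact conj_eq_one_iff.1 (by rw [inv_inv]; exact h : s⁻¹ * φ t * s⁻¹⁻¹ = 1)
      · have := (hB _).2 t3
        rw [map_mul, map_mul, map_inv, hl'] at this
        convert mul_mem (mul_mem (inv_mem s1) this) s1 using 1
        group
    · refine ⟨φ b * (φ c)⁻¹ * s, mul_mem (mul_mem ((hB b).2 hb) (inv_mem ((hB c).2 hc))) s1, fun h => s2 ?_, ?_⟩
      · rw [eq_inv_of_mul_eq_one_right h]
        exact inv_mem (mul_mem (hm b) (inv_mem (hm c)))
      · have a1 : s * φ l = φ c * φ (pm (ZMod 2) Fin.revPerm) * φ c' * s := by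
          rw [← map_mul, ← map_mul, ← e2, hl']; group
        have a2 : (φ l)⁻¹ * φ b * φ (pm (ZMod 2) Fin.revPerm) = (φ b')⁻¹ := by
          rw [e1, map_mul, map_mul]; group
        have a3 : (φ l)⁻¹ * (φ b * (φ c)⁻¹ * s) * φ l = (φ b')⁻¹ * φ c' * s := by
          rw [← a2, mul_assoc, mul_assoc, a1]; group
        rw [a3]
        exact mul_mem (mul_mem (inv_mem ((hB _).2 hb')) ((hB _).2 hc')) s1
  have k2 : ∀ z : G, ∃ t ∈ (S : Subgroup G), t ≠ 1 ∧ z⁻¹ * t * z ∈ (S : Subgroup G) := fun z => by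
    by_cases hz : z ∈ N
    · exact k1 z hz
    · obtain ⟨t, t1, t2, t3⟩ := k1 (z * s) ((Subgroup.mul_mem_iff_of_index_two hidx).2 (iff_of_false hz s2))
      refine ⟨t, t1, t2, ?_⟩
      convert mul_mem (mul_mem s1 t3) (inv_mem s1) using 1
      group
  obtain ⟨y, rfl⟩ := MulAction.exists_smul_eq G S H
  obtain ⟨t, t1, t2, t3⟩ := k2 (y⁻¹ * x * y)
  intro hbot
  have : y * t * y⁻¹ ∈ ((y • S : Sylow 2 G) : Subgroup G) ⊓ MulAut.conj x • ((y • S : Sylow 2 G) : Subgroup G) := by
    rw [Sylow.coe_subgroup_smul, Subgroup.mem_inf, Subgroup.mem_pointwise_smul_iff_inv_smul_mem,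
      Subgroup.mem_pointwise_smul_iff_inv_smul_mem, Subgroup.mem_pointwise_smul_iff_inv_smul_mem]
    simp only [MulAut.smul_def, MulAut.conj_inv_apply]
    constructor
    · convert t1 using 1
      group
    · convert t3 using 1
      group
  rw [hbot, Subgroup.mem_bot] at this
  exact t2 (conj_eq_one_iff.1 this)

end Cfsg.Agent.S2486
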