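import Cfsg.Statements.S2487
import Cfsg.Agent.H6.DN2
import Cfsg.Agent.H5.OmIndex
import Cfsg.Agent.H4.St1
import Cfsg.Agent.H6.ChevAdj

set_option autoImplicit false
open scoped Pointwise
open Cfsg

namespace Cfsg.Agent.S2487

open H5 H5.Form H6 H6.StSys H6.ChevSys

theorem abs {G L : Type*} [Group G] [Finite G] [Group L] (N : Subgroup G) [N.Normal] (hidx : N.index = 2) (e' : L ≃* N)
    (B : Subgroup L) (w0 : L) (pA : ∀ g : L, (∀ t ∈ B, g * t * g⁻¹ ∈ B) → g ∈ B)
    (pB : ∀ g : L, (∃ t ∈ B, t ≠ 1 ∧ g⁻¹ * t * g ∈ B) ∨ ∃ b ∈ B, ∃ b' ∈ B, g = b * w0 * b') (pC : IsPGroup 2 B)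
    (H : Sylow 2 G) (x : G) : (H : Subgroup G) ⊓ MulAut.conj x • (H : Subgroup G) ≠ ⊥ := by
  haveI : Fact (Nat.Prime 2) := ⟨Nat.prime_two⟩
  let φ : L →* G := N.subtype.comp e'.toMonoidHom
  have hφ : Function.Injective φ := N.subtype_injective.comp e'.injective
  have hr : ∀ g ∈ N, ∃ l, φ l = g := fun g hg => ⟨e'.symm ⟨g, hg⟩, by simp [φ]⟩
  have hm : ∀ l, φ l ∈ N := fun l => (e' l).2
  obtain ⟨S, hS⟩ := (pC.map φ).exists_le_sylow
  have hB : ∀ l, φ l ∈ (S : Subgroup G) ↔ l ∈ B := by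
    have hP : IsPGroup 2 ((S : Subgroup G).comap φ) := S.isPGroup'.comap_of_injective φ hφ
    have hle : B ≤ (S : Subgroup G).comap φ := Subgroup.map_le_iff_le_comap.1 hS
    refine fun l => ⟨fun h => ?_, fun h => hle h⟩
    by_contra hc
    haveI : Finite L := Finite.of_injective φ hφ
    haveI := hP.isNilpotent
    have h1 := normalizerCondition_of_isNilpotent (G := (S : Subgroup G).comap φ)
      ((B).subgroupOf _) (lt_top_iff_ne_top.2 fun e => hc (Subgroup.subgroupOf_eq_top.1 e h))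
    obtain ⟨y, y1, y2⟩ := SetLike.exists_of_lt h1
    exact y2 (pA y.1 fun t ht => (Subgroup.mem_normalizer_iff.1 y1 ⟨t, hle ht⟩).1 ht)
  obtain ⟨s, s1, s2⟩ : ∃ s ∈ (S : Subgroup G), s ∉ N := by
    by_contra hc
    push Not at hc
    have := Subgroup.index_dvd_of_le (show (S : Subgroup G) ≤ N from hc)
    rw [hidx] at this
    exact S.not_dvd_index this
  have k1 : ∀ g ∈ N, ∃ t ∈ (S : Subgroup G), t ≠ 1 ∧ g⁻¹ * t * g ∈ (S : Subgroup G) := fun g hg => by
    obtain ⟨l', hl'⟩ := hr _ (‹N.Normal›.conj_mem g hg s)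
    obtain ⟨l, rfl⟩ := hr g hg
    rcases pB l with ⟨t, t1, t2, t3⟩ | ⟨b, hb, b', hb', e1⟩
    · exact ⟨φ t, (hB t).2 t1, fun h => t2 (hφ (h.trans (map_one φ).symm)), by simpa using (hB _).2 t3⟩
    rcases pB l' with ⟨t, t1, t2, t3⟩ | ⟨c, hc, c', hc', e2⟩
    · refine ⟨s⁻¹ * φ t * s, mul_mem (mul_mem (inv_mem s1) ((hB t).2 t1)) s1, fun h => t2 (hφ ?_), ?_⟩
      · rw [map_one]
        exact conj_eq_one_iff.1 (by rw [inv_inv]; exact h : s⁻¹ * φ t * s⁻¹⁻¹ = 1)
      · have := (hB _).2 t3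
        rw [map_mul, map_mul, map_inv, hl'] at this
        convert mul_mem (mul_mem (inv_mem s1) this) s1 using 1
        group
    · refine ⟨φ b * (φ c)⁻¹ * s, mul_mem (mul_mem ((hB b).2 hb) (inv_mem ((hB c).2 hc))) s1, fun h => s2 ?_, ?_⟩
      · rw [eq_inv_of_mul_eq_one_right h]
        exact inv_mem (mul_mem (hm b) (inv_mem (hm c)))
      · have a1 : s * φ l = φ c * φ w0 * φ c' * s := by
          rw [← map_mul, ← map_mul, ← e2, hl']; group
        have a2 : (φ l)⁻¹ * φ b * φ w0 = (φ b')⁻¹ := by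
          rw [e1, map_mul, map_mul]; group
        have a3 : (φ l)⁻¹ * (φ b * (φ c)⁻¹ * s) * φ l = (φ b')⁻¹ * φ c' * s := by
          rw [← a2, mul_assoc, mul_assoc, a1]; group
        rw [a3]
        exact mul_mem (mul_mem (inv_mem ((hB _).2 hb')) ((hB _).2 hc')) s1
  have k2 : ∀ z : G, ∃ t ∈ (S : Subgroup G), t ≠ 1 ∧ z⁻¹ * t * z ∈ (S : Subgroup G) := fun z => by
    by_cases hz : z ∈ N
    · exact k1 z hz
    · obtain ⟨t, t1, t2, t3⟩ := k1 (z * s) ((Subgroup.mul_mem_iff_of_index_two hidx).2 (iff_of_false hz s2))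
      refine ⟨t, t1, t2, ?_⟩
      convert mul_mem (mul_mem s1 t3) (inv_mem s1) using 1
      group
  obtain ⟨y, rfl⟩ := MulAction.exists_smul_eq G S H
  obtain ⟨t, t1, t2, t3⟩ := k2 (y⁻¹ * x * y)
  intro hbot
  have : y * t * y⁻¹ ∈ ((y • S : Sylow 2 G) : Subgroup G) ⊓ MulAut.conj x • ((y • S : Sylow 2 G) : Subgroup G) := by
    rw [Sylow.coe_subgroup_smul, Subgroup.mem_inf, Subgroup.mem_pointwise_smul_iff_inv_smul_mem,
      Subgroup.mem_pointwise_smul_iff_inv_smul_mem, Subgroup.mem_pointwise_smul_iff_inv_smul_mem]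
    simp only [MulAut.smul_def, MulAut.conj_inv_apply]
    constructor
    · convert t1 using 1
      group
    · convert t3 using 1
      group
  rw [hbot, Subgroup.mem_bot] at this
  exact t2 (conj_eq_one_iff.1 this)

theorem chev {Φ ι : Type} [Fintype ι] [DecidableEq ι] [Finite Φ] {R : RS Φ ι} {F : Type*} [Field F] [Fintype F]
    (hF : Fintype.card F = 2) [CharP F 2] {L : Type*} [Group L] [Finite L] (S : ChevSys R F L) (hS : S.grp = ⊤)
    {G : Type*} [Group G] [Finite G] (N : Subgroup G) [N.Normal] (hidx : N.index = 2) (e' : L ≃* N)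
    (H : Sylow 2 G) (x : G) : (H : Subgroup G) ⊓ MulAut.conj x • (H : Subgroup G) ≠ ⊥ := by
  haveI : Fact (Nat.Prime 2) := ⟨Nat.prime_two⟩
  haveI := Fintype.ofFinite Φ
  haveI := Fintype.ofFinite L
  have hH : S.H = ⊥ := by
    refine eq_bot_iff.2 ((Subgroup.closure_le _).2 ?_)
    rintro _ ⟨r, t, ht, rfl⟩
    have := FiniteField.pow_card_sub_one_eq_one t ht
    rw [hF] at this
    have h1 : t = 1 := by simpa using this
    rw [h1]
    exact S.h_one r
  have hB : S.B = S.Up := by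
    show S.Up ⊔ S.H = S.Up
    rw [hH, sup_bot_eq]
  obtain ⟨w0, -, hw0⟩ := R.exists_longest Set.univ
  obtain ⟨n0, hn0, a0⟩ := S.nconj.exists_acts w0
  refine abs N hidx e' S.Up n0 (fun g hg => ?_) (fun g => ?_) (H4.St.pU (S := S) 2) H x
  · rw [← hB, ← S.normalizer_Up]
    exact ⟨Subgroup.mem_normalizer_fintype hg, hS ▸ Subgroup.mem_top g⟩
  · obtain ⟨b, hb, n, hn, b', hb', rfl⟩ := S.exists_BNB (g := g) (hS ▸ Subgroup.mem_top g)
    rw [hB] at hb hb'
    obtain ⟨w, a⟩ := S.nconj.exists_acts_of_mem_N hn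
    by_cases hw : ∃ i, R.Pos (R.act w (R.simple i))
    · obtain ⟨i, hi⟩ := hw
      have k0 : S.x (R.simple i) 1 ∈ S.Up := S.x_mem_U (T := {r | R.Pos r}) (R.pos_simple i) 1
      have k : n * S.x (R.simple i) 1 * n⁻¹ ∈ S.Up :=
        a.conj_mem_U (T := {R.simple i}) (T' := {r | R.Pos r}) (fun r hr => by
          rw [Set.mem_singleton_iff.1 hr]; exact hi) (S.x_mem_U (Set.mem_singleton _) 1)
      refine Or.inl ⟨b * (n * S.x (R.simple i) 1 * n⁻¹) * b⁻¹, mul_mem (mul_mem hb k) (inv_mem hb), fun h => ?_, ?_⟩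
      · rw [conj_eq_one_iff, conj_eq_one_iff] at h
        exact one_ne_zero (S.eq_zero_of_x_mem_H (h ▸ one_mem _))
      · convert mul_mem (mul_mem (inv_mem hb') k0) hb' using 1
        group
    · push Not at hw
      have h1 : w0⁻¹ * w = 1 := R.eq_one_of_simple_pos fun i => by
        rw [R.act_mul]
        by_contra hc
        have h2 := ((hw0 _).2 ⟨(R.pos_neg_iff _).2 hc, R.inJ_univ _⟩).2
        rw [R.act_neg, R.act_act_inv, R.pos_neg_iff] at h2
        exact h2 (hw i)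
      have h3 : n0⁻¹ * n ∈ S.H := S.inv_mul_mem_H hn0 hn a0 (by rw [inv_mul_eq_one.1 h1]; exact a)
      rw [hH, Subgroup.mem_bot, inv_mul_eq_one] at h3
      exact Or.inr ⟨b, hb, b', hb', by rw [h3]⟩

/-- Let m ≥ 4 and let G be the full isometry group of the hyperbolic quadratic form x₁y₁ + ⋯ + x_m y_m on the 2m-dimensional space over the field with 2 elements (the orthogonal group O⁺(2m,2), which contains Ω⁺(2m,2) with index 2). Then any two Sylow 2-subgroups of G have a non-trivial intersection: for a Sylow 2-subgroup H and every x ∈ G, H ∩ H^x ≠ 1. -/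
theorem result {F : Type*} [Field F] [Fintype F] (hF : Fintype.card F = 2) {m : ℕ} (hm : 4 ≤ m)
    (H : Sylow 2 (Cfsg.isometryGroup F (Cfsg.quadFormPlus m F)))
    (x : Cfsg.isometryGroup F (Cfsg.quadFormPlus m F)) :
    (H : Subgroup (Cfsg.isometryGroup F (Cfsg.quadFormPlus m F))) ⊓ MulAut.conj x • (H : Subgroup _) ≠ ⊥ := by
  classical
  obtain ⟨l, rfl⟩ : ∃ l, m = l + 4 := ⟨m - 4, by omega⟩
  have h2 : (2 : F) = 0 := by
    have := FiniteField.cast_card_eq_zero F
    rw [hF] at this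
    exact_mod_cast this
  haveI : CharP F 2 := (CharP.charP_iff_prime_eq_zero Nat.prime_two).2 (by exact_mod_cast h2)
  have h1 := plusF_nondeg (F := F) (l + 4)
  have hd : Module.finrank F (Fin (l + 4) ⊕ Fin (l + 4) → F) = 2 * (l + 4) := by simp; omega
  have hi : (Cfsg.Omega F (plusF F (l + 4)).Q).index = 2 := by
    rw [← h1.index_even (h1.orth_RG (Or.inr (by omega))) (FiniteField.isSquare_of_char_two (ringChar.eq F 2)) (by omega),
      ← map_commutator_eq' (oEquiv (plusF F (l + 4)))]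
    exact (Subgroup.index_map_equiv _ _).symm
  have hz := h1.card_center_Om (by omega)
  rw [if_neg (by simp [h2]), Subgroup.card_eq_one] at hz
  have hz' : Subgroup.center (Cfsg.Omega F (plusF F (l + 4)).Q) = ⊥ := eq_bot_iff.2 fun g hg => by
    have := (MulEquivClass.apply_mem_center_iff (omegaEquiv (plusF F (l + 4)))).2 hg
    exact (omegaEquiv _).injective ((Subgroup.mem_bot.1 (hz ▸ this)).trans (map_one _).symm)
  obtain ⟨e⟩ := H6.DN.isoD (F := F) (l := l)
  haveI : Finite (H6.DN.sysD F l).grp := Finite.of_equiv _ e.symm.toEquiv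
  exact chev hF (H6.DN.sysD F l).restrict (H6.DN.sysD F l).restrict_grp (Cfsg.Omega F (plusF F (l + 4)).Q) hi
    (e.trans ((QuotientGroup.quotientMulEquivOfEq hz').trans QuotientGroup.quotientBot)) H x

end Cfsg.Agent.S2487
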