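import Cfsg.Statements.S2495
import Cfsg.Agent.H5.Spec
import Cfsg.Agent.H5.Zsig

set_option autoImplicit false
open Cfsg

namespace Cfsg.Agent.S2495

open H5 Matrix Polynomial Module

/-- Let q be an odd prime power, n ≥ 4 even, and L = PSL(n,q). Then L has an element of order q^(n/2) + 1 if and only if the 2-part of n exceeds the 2-part of q − 1. -/
theorem result {F : Type*} [Field F] [Fintype F] {q : ℕ} (hF : Fintype.card F = q) (hodd : Odd q)
    {n : ℕ} (hn : 4 ≤ n) (heven : Even n) :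
    (∃ g : Matrix.ProjectiveSpecialLinearGroup (Fin n) F, orderOf g = q ^ (n / 2) + 1) ↔
      padicValNat 2 (q - 1) < padicValNat 2 n := by
  subst hF
  obtain ⟨m, rfl⟩ := heven.two_dvd
  set q := Fintype.card F
  have q1 : 1 < q := Fintype.one_lt_card
  rw [Nat.mul_div_cancel_left _ two_pos]
  have e : (q ^ (2 * m) - 1) / (q - 1) = (q ^ m + 1) * ((q ^ m - 1) / (q - 1)) := by
    rw [← Nat.mul_div_assoc _ (Nat.sub_one_dvd_pow_sub_one q m), pow_mul', ← Nat.sq_sub_sq, one_pow]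
  have d1 : Nat.gcd (2 * m) (q - 1) ∣ (q ^ (2 * m) - 1) / (q - 1) := gcd_geom q1 _ ▸ Nat.gcd_dvd_left _ _
  have key : q ^ m + 1 ∣ (q ^ (2 * m) - 1) / (q - 1) / Nat.gcd (2 * m) (q - 1) ↔ padicValNat 2 (q - 1) < padicValNat 2 (2 * m) := by
    rw [Nat.dvd_div_iff_mul_dvd d1, e, mul_comm (Nat.gcd _ _), Nat.mul_dvd_mul_iff_left (by positivity)]
    have : Nat.gcd (2 * m) (q - 1) ∣ (q ^ m - 1) / (q - 1) ↔ Nat.gcd (2 * m) (q - 1) ∣ m :=
      ⟨fun h => (gcd_geom q1 m ▸ Nat.dvd_gcd h (Nat.gcd_dvd_right _ _) : _ ∣ Nat.gcd m _).trans (Nat.gcd_dvd_left _ _),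
        fun h => ((gcd_geom q1 m).symm ▸ Nat.dvd_gcd h (Nat.gcd_dvd_right _ _) : _ ∣ Nat.gcd _ (q - 1)).trans (Nat.gcd_dvd_left _ _)⟩
    rw [this, padicValNat.mul two_ne_zero (by omega), padicValNat_self, add_comm, Nat.lt_succ_iff, ← padicValNat_dvd_iff_le (by omega)]
    obtain ⟨w, u, k2, e'⟩ := Nat.exists_eq_two_pow_mul_odd (n := q - 1) (by omega)
    rw [e', padicValNat.mul (by simp) k2.pos.ne', padicValNat.prime_pow, padicValNat.eq_zero_of_not_dvd k2.not_two_dvd_nat, add_zero]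
    refine ⟨fun h => ?_, fun ⟨t, ht⟩ => ?_⟩
    · obtain ⟨v, s, k1, rfl⟩ := Nat.exists_eq_two_pow_mul_odd (n := m) (by omega)
      by_contra c
      have : v + 1 ≤ w := by
        by_contra! c'
        exact c ((pow_dvd_pow 2 (by omega)).mul_right _)
      have := (Nat.dvd_gcd (show 2 ^ (v + 1) ∣ 2 * (2 ^ v * s) from ⟨s, by ring⟩) ((pow_dvd_pow 2 this).mul_right u)).trans h
      rw [pow_succ, Nat.mul_dvd_mul_iff_left (by positivity)] at this
      exact k1.not_two_dvd_nat this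
    · rw [ht, mul_left_comm, Nat.gcd_mul_left]
      exact Nat.mul_dvd_mul_left _ (((Nat.coprime_two_right.2 k2).coprime_dvd_left (Nat.gcd_dvd_right _ _)).dvd_of_dvd_mul_left
        (Nat.gcd_dvd_left _ _))
  refine ⟨fun ⟨x, hx⟩ => key.1 ?_, fun h => exists_of_dvd (psl_singer F (by omega)) (key.2 h)⟩
  obtain ⟨r, hr, o⟩ := zsigmondy q1 (show 1 < 2 * m by omega) (fun h => by rw [h.1] at hodd; exact absurd hodd (by decide)) (by omega)
  have := Fact.mk hr
  obtain ⟨p, hp⟩ := CharP.exists F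
  have := Fact.mk (CharP.char_is_prime F p)
  have : NeZero (2 * m) := ⟨by omega⟩
  have dr : r ∣ q ^ m + 1 := by
    have := (dvd_pow_iff (by omega) (2 * m)).2 o.dvd
    rw [pow_mul', ← one_pow 2, Nat.sq_sub_sq] at this
    exact (hr.dvd_mul.1 this).resolve_right fun h => by have := Nat.le_of_dvd (by omega) (o ▸ (dvd_pow_iff (by omega) m).1 h); omega
  obtain ⟨g, rfl⟩ := QuotientGroup.mk_surjective x
  have o1 := orderOf_pow_orderOf_div (orderOf_pos _).ne' (hx ▸ dr)
  have cr := cop_of_ord (by omega) hr (show orderOf (q : ZMod r) ≠ 1 by omega)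
  obtain ⟨y, e1, hy⟩ := psl_lift _ (o1.symm ▸ cr)
  rw [o1] at hy
  have cm := comm_lift cr hy (b := g) (e1 ▸ (Commute.refl _).pow_left _)
  let E : Matrix (Fin (2 * m)) (Fin (2 * m)) F ≃ₐ[F] End F (Fin (2 * m) → F) := Matrix.toLinAlgEquiv'
  have d : finrank F (FiniteField.Extension F p (2 * m)) = finrank F (Fin (2 * m) → F) := by rw [FiniteField.finrank_extension]; simp
  obtain ⟨i1, i2⟩ := irr_of_order (x := E y.1) hr (by rw [← map_pow, show y.1 ^ r = 1 from congrArg Subtype.val hy, map_one])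
    (by simpa using lift_ne (g := y) (t := 1) (by rw [e1, o1]; simpa using hr.ne_one)) (by simp; omega) (by simpa using o)
  obtain ⟨ψ, -, h2⟩ := exists_emb_irr d i1 i2
  obtain ⟨a, ha⟩ := cent_range ψ d (f := E g.1) fun b => by
    obtain ⟨f, hf⟩ := h2 b
    exact hf ▸ commute_aeval (Commute.map (congrArg Subtype.val cm.symm.eq) E) f
  have n1 : a ^ ((q ^ (2 * m) - 1) / (q - 1)) = 1 := by
    have := FiniteField.algebraMap_norm_eq_pow (K := F) (x := a)
    rw [← det_emb ψ d, ha, show LinearMap.det (E g.1) = 1 from (LinearMap.det_toLin' _).trans g.2, map_one,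
      FiniteField.natCard_extension, Nat.card_eq_fintype_card] at this
    exact this.symm
  obtain ⟨z, hz⟩ := mem_range_of_pow (F := F) (a := a ^ ((q ^ (2 * m) - 1) / (q - 1) / Nat.gcd (2 * m) (q - 1)))
    (by rw [← pow_mul, Nat.div_mul_cancel d1, n1]) (Nat.gcd_dvd_right _ _)
  rw [← hx, psl_pow]
  exact ⟨z, E.injective (by rw [map_pow, ← ha, ← map_pow, hz, AlgHom.commutes, map_smul, map_one, Algebra.algebraMap_eq_smul_one])⟩


end Cfsg.Agent.S2495
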