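import Cfsg.Statements.S2505
import Mathlib

set_option autoImplicit false
open Cfsg

namespace Cfsg.Agent.S2505

open Equiv Subgroup MulAction

def g : ℕ → ℕ
  | 0 => 1
  | 1 => 1
  | 2 => 2
  | 3 => 3
  | 4 => 4
  | n + 5 => 3 * g (n + 2)

theorem g3 (m : ℕ) : 3 * g m ≤ g (m + 3) := by
  match m with
  | 0 => decide
  | 1 => decide
  | m + 2 => rfl

theorem g12 (m : ℕ) : g m ≤ g (m + 1) ∧ 2 * g m ≤ g (m + 2) := by
  induction m using Nat.strong_induction_on with | _ m ih => ?_
  match m with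
  | 0 => decide
  | 1 => decide
  | 2 => decide
  | 3 => decide
  | 4 => decide
  | m + 5 =>
    have := ih (m + 2) (by omega)
    rw [g, show m + 5 + 1 = m + 1 + 5 by ring, show m + 5 + 2 = m + 2 + 5 by ring, g, g]
    simp only [add_assoc, Nat.reduceAdd] at *
    omega

theorem gs (s m : ℕ) : s * g m ≤ g (m + s) := by
  induction s using Nat.strong_induction_on with | _ s ih => ?_
  match s with
  | 0 => simp
  | 1 => simpa using (g12 m).1
  | 2 => exact (g12 m).2
  | 3 => exact g3 m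
  | 4 => have := (g12 m).2; have := (g12 (m + 2)).2; simp only [add_assoc, Nat.reduceAdd] at *; omega
  | s + 5 =>
    have := ih (s + 2) (by omega)
    have := g3 (m + (s + 2))
    rw [show m + (s + 5) = m + (s + 2) + 3 by ring]
    nlinarith

theorem ub {Ω : Type*} [Fintype Ω] [DecidableEq Ω] (n : ℕ) (A : Subgroup (Perm Ω)) (hA : IsMulCommutative A)
    (s : Finset Ω) (hs : s.card = n) (h : ∀ a ∈ A, ∀ x ∉ s, a x = x) : Nat.card A ≤ g n := by
  classical
  induction n using Nat.strong_induction_on generalizing A s with | _ n ih => ?_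
  rcases s.eq_empty_or_nonempty with rfl | ⟨x, hx⟩
  · obtain rfl : A = ⊥ := eq_bot_iff.2 fun a ha => Equiv.ext fun x => h a ha x (by simp)
    subst hs; simp [g]
  let O := (orbit A x).toFinset
  have O1 : O ⊆ s := fun y hy => by
    obtain ⟨a, rfl⟩ := Set.mem_toFinset.1 hy
    by_contra c
    have : a.1 x = x := a.1.injective (h a a.2 _ c)
    exact c (show a.1 x ∈ s by rwa [this])
  have O2 : 0 < O.card := Finset.card_pos.2 ⟨x, Set.mem_toFinset.2 (mem_orbit_self x)⟩
  have := Finset.card_le_card O1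
  have H := ih (n - O.card) (by omega) ((stabilizer A x).map A.subtype) inferInstance (s \ O)
    (by rw [Finset.card_sdiff_of_subset O1, hs]) (by
      rintro _ ⟨a, ha, rfl⟩ y hy
      by_cases c : y ∈ O
      · obtain ⟨b, rfl⟩ := Set.mem_toFinset.1 c
        change a • b • x = b • x
        rw [← mul_smul, hA.1.1 a b, mul_smul, ha]
      · exact h a a.2 y (by simpa [c] using hy))
  rw [card_map_of_injective A.subtype_injective] at H
  rw [← (stabilizer A x).index_mul_card, index_stabilizer, Set.ncard_eq_toFinset_card']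
  exact (Nat.mul_le_mul_left _ H).trans ((gs _ _).trans (by rw [Nat.sub_add_cancel (by omega)]))

def R (n c : ℕ) : Prop := ∃ A : Subgroup (Perm (Fin n)), IsMulCommutative A ∧ Nat.card A = c

theorem R.add {n m c d : ℕ} (h : R n c) (h' : R m d) : R (n + m) (c * d) := by
  obtain ⟨A, a, rfl⟩ := h
  obtain ⟨B, b, rfl⟩ := h'
  have : IsMulCommutative (A.prod B) := ⟨⟨fun x y => Subtype.ext (Prod.ext
    (congrArg Subtype.val (a.1.1 ⟨_, x.2.1⟩ ⟨_, y.2.1⟩)) (congrArg Subtype.val (b.1.1 ⟨_, x.2.2⟩ ⟨_, y.2.2⟩)))⟩⟩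
  refine ⟨(A.prod B).map (finSumFinEquiv.permCongrHom.toMonoidHom.comp (Perm.sumCongrHom _ _)), inferInstance, ?_⟩
  rw [card_map_of_injective (finSumFinEquiv.permCongrHom.injective.comp Perm.sumCongrHom_injective),
    Nat.card_congr (A.prodEquiv B).toEquiv, Nat.card_prod]

theorem R.self (n : ℕ) : R (n + 2) (n + 2) := ⟨zpowers (finRotate (n + 2)), inferInstance, by
  rw [Nat.card_zpowers, isCycle_finRotate.orderOf, support_finRotate]; simp⟩

theorem R3 (k : ℕ) : R (3 * k) (3 ^ k) := by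
  induction k with
  | zero => exact ⟨⊥, inferInstance, by simp⟩
  | succ k ih => exact ih.add (.self 1)

theorem gv (k : ℕ) : g (3 * (k + 1)) = 3 ^ (k + 1) ∧ g (3 * (k + 1) + 1) = 4 * 3 ^ k ∧
    g (3 * (k + 1) + 2) = 2 * 3 ^ (k + 1) := by
  induction k with
  | zero => decide
  | succ k ih =>
    rw [show 3 * (k + 1 + 1) = 3 * k + 1 + 5 by ring, show 3 * k + 1 + 5 + 1 = 3 * k + 2 + 5 by ring,
      show 3 * k + 1 + 5 + 2 = 3 * k + 3 + 5 by ring, g, g, g]
    simp only [mul_add, add_assoc, pow_succ, Nat.reduceAdd, Nat.reduceMul] at *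
    omega

/-- The largest order of an abelian subgroup of the symmetric group of degree n is 3^k when n = 3k, 4·3^(k−1) when n = 3k + 1, and 2·3^k when n = 3k + 2, for every k ≥ 1. -/
theorem result (k : ℕ) (hk : 1 ≤ k) :
    IsGreatest {c : ℕ | ∃ A : Subgroup (Equiv.Perm (Fin (3 * k))), IsMulCommutative A ∧ Nat.card A = c} (3 ^ k) ∧
    IsGreatest {c : ℕ | ∃ A : Subgroup (Equiv.Perm (Fin (3 * k + 1))), IsMulCommutative A ∧ Nat.card A = c}
      (4 * 3 ^ (k - 1)) ∧
    IsGreatest {c : ℕ | ∃ A : Subgroup (Equiv.Perm (Fin (3 * k + 2))), IsMulCommutative A ∧ Nat.card A = c}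
      (2 * 3 ^ k) := by
  obtain ⟨k, rfl⟩ := Nat.exists_eq_add_of_le' hk
  have U : ∀ n c, g n = c → R n c → IsGreatest {c | ∃ A : Subgroup (Perm (Fin n)), IsMulCommutative A ∧ Nat.card A = c} c := by
    rintro n _ rfl h
    exact ⟨h, by rintro _ ⟨A, a, rfl⟩; exact ub n A a Finset.univ (by simp) (by simp)⟩
  refine ⟨U _ _ (gv k).1 (R3 _), U _ _ (gv k).2.1 ?_, U _ _ (gv k).2.2 (mul_comm 2 _ ▸ (R3 _).add (.self 0))⟩
  exact mul_comm 4 _ ▸ (R3 k).add (.self 2)


end Cfsg.Agent.S2505
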