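import Cfsg.Statements.S2504
import Cfsg.Agent.S2505

set_option autoImplicit false
open Cfsg

namespace Cfsg.Agent.S2504

open Equiv Subgroup MulAction Cfsg.Agent.S2505

section
variable {Ω : Type*} [Fintype Ω] [DecidableEq Ω]

theorem step {A : Subgroup (Perm Ω)} (hA : IsMulCommutative A) {s : Finset Ω} (h : ∀ a ∈ A, ∀ x ∉ s, a x = x) {x : Ω}
    (hx : 2 ≤ (orbit A x).ncard) : ∃ B ≤ A, IsMulCommutative B ∧ ∃ r : Finset Ω, r.card + (orbit A x).ncard = s.card ∧
      (∀ a ∈ B, ∀ x ∉ r, a x = x) ∧ Nat.card A = (orbit A x).ncard * Nat.card B := by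
  classical
  let O := (orbit A x).toFinset
  have O1 : O ⊆ s := fun y hy => by
    obtain ⟨a, rfl⟩ := Set.mem_toFinset.1 hy
    by_contra c
    have : a.1 x = x := a.1.injective (h a a.2 _ c)
    have k : orbit A x ⊆ {x} := by rintro _ ⟨b, rfl⟩; exact h b b.2 x fun e => c (show a.1 x ∈ s by rwa [this])
    simpa using hx.trans (Set.ncard_le_ncard k)
  refine ⟨(stabilizer A x).map A.subtype, map_subtype_le _, inferInstance, s \ O, by
    rw [Set.ncard_eq_toFinset_card', Finset.card_sdiff_add_card_eq_card O1], ?_, by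
      rw [card_map_of_injective A.subtype_injective, ← (stabilizer A x).index_mul_card, index_stabilizer]⟩
  rintro _ ⟨a, ha, rfl⟩ y hy
  by_cases c : y ∈ O
  · obtain ⟨b, rfl⟩ := Set.mem_toFinset.1 c
    change a • b • x = b • x
    rw [← mul_smul, hA.1.1 a b, mul_smul, ha]
  · exact h a a.2 y (by simpa [c] using hy)

theorem triv {A : Subgroup (Perm Ω)} (h : ∀ x : Ω, (orbit A x).ncard < 2) : Nat.card A = 1 := by
  rw [card_eq_one, eq_bot_iff]
  exact fun a ha => Equiv.ext fun x => (Set.ncard_le_one_iff (Set.toFinite _)).1 (Nat.lt_succ_iff.1 (h x))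
    ⟨⟨a, ha⟩, rfl⟩ (mem_orbit_self x)

def u : ℕ → ℕ
  | 0 => 1
  | 1 => 5
  | k + 2 => 16 * 3 ^ k

theorem big (k t m : ℕ) (h : m + (t + 4) = 3 * k + 2) : (t + 4) * g m ≤ u k := by
  induction t using Nat.strong_induction_on generalizing m with | _ t ih => ?_
  match t, k with
  | t + 3, k => have := ih t (by omega) (m + 3) (by omega); have := g3 m; nlinarith
  | _, 0 => omega
  | 0, 1 => obtain rfl : m = 1 := by omega
            decide
  | 1, 1 => obtain rfl : m = 0 := by omega
            decide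
  | 2, 1 => omega
  | 0, k + 2 => rw [show m = 3 * (k + 1) + 1 by omega, (gv k).2.1, u]; omega
  | 1, k + 2 => rw [show m = 3 * (k + 1) by omega, (gv k).1, u]; omega
  | 2, 2 => obtain rfl : m = 2 := by omega
            decide
  | 2, k + 3 => rw [show m = 3 * (k + 1) + 2 by omega, (gv k).2.2, u]; omega

theorem ub' (k : ℕ) (A : Subgroup (Perm Ω)) (hA : IsMulCommutative A) (he : A ≤ alternatingGroup Ω) (s : Finset Ω)
    (hs : s.card = 3 * k + 2) (h : ∀ a ∈ A, ∀ x ∉ s, a x = x) : Nat.card A ≤ u k := by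
  induction k generalizing A s with
  | zero =>
    refine (card_eq_one.2 (eq_bot_iff.2 fun a ha => ?_)).le
    have := (Finset.card_le_card fun x hx => by_contra fun c => Perm.mem_support.1 hx (h a ha x c)).trans hs.le
    rcases Nat.eq_or_lt_of_le this with e | e
    · exact absurd ((Perm.card_support_eq_two.1 e).sign_eq.symm.trans (he ha)) (by decide)
    · exact Perm.card_support_le_one.1 (by omega)
  | succ k ih =>
    have u1 : 3 * u k ≤ u (k + 1) ∧ 2 ≤ u (k + 1) := by
      match k with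
      | 0 => decide
      | 1 => decide
      | k + 2 => have := Nat.pow_pos (n := k) three_pos; simp only [u, pow_succ]; omega
    by_cases h3 : ∃ x : Ω, 3 ≤ (orbit A x).ncard
    · obtain ⟨x, hx⟩ := h3
      obtain ⟨B, b1, b2, r, b3, b4, b5⟩ := step hA h (x := x) (by omega)
      rcases Nat.eq_or_lt_of_le hx with e | e
      · have := ih B b2 (b1.trans he) r (by omega) b4
        rw [b5, ← e]; omega
      · obtain ⟨t, e⟩ := Nat.exists_eq_add_of_le' e
        rw [b5, e]
        exact (Nat.mul_le_mul_left _ (ub _ B b2 r rfl b4)).trans (big _ t _ (by omega))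
    push Not at h3
    by_cases h2 : ∃ x : Ω, 2 ≤ (orbit A x).ncard
    swap
    · rw [triv (by simpa using h2)]; omega
    obtain ⟨x, hx⟩ := h2
    obtain ⟨B, b1, b2, r, b3, b4, b5⟩ := step hA h hx
    have e := h3 x
    by_cases h2 : ∃ x : Ω, 2 ≤ (orbit B x).ncard
    swap
    · rw [b5, triv (by simpa using h2)]; omega
    obtain ⟨y, hy⟩ := h2
    obtain ⟨C, c1, c2, q, c3, c4, c5⟩ := step b2 b4 hy
    have e' := (Set.ncard_le_ncard (show orbit B y ⊆ orbit A y by rintro _ ⟨b, rfl⟩; exact ⟨⟨b, b1 b.2⟩, rfl⟩)).trans_lt (h3 y)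
    have := ub _ C c2 q rfl c4
    have := big (k + 1) 0 q.card (by omega)
    rw [b5, c5, show (orbit A x).ncard = 2 by omega, show (orbit B y).ncard = 2 by omega]
    omega
end

def R (n c : ℕ) : Prop := ∃ A ≤ alternatingGroup (Fin n), IsMulCommutative A ∧ Nat.card A = c

theorem R.add {n m c d : ℕ} (h : R n c) (h' : R m d) : R (n + m) (c * d) := by
  obtain ⟨A, a', a, rfl⟩ := h
  obtain ⟨B, b', b, rfl⟩ := h'
  have : IsMulCommutative (A.prod B) := ⟨⟨fun x y => Subtype.ext (Prod.ext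
    (congrArg Subtype.val (a.1.1 ⟨_, x.2.1⟩ ⟨_, y.2.1⟩)) (congrArg Subtype.val (b.1.1 ⟨_, x.2.2⟩ ⟨_, y.2.2⟩)))⟩⟩
  refine ⟨(A.prod B).map (finSumFinEquiv.permCongrHom.toMonoidHom.comp (Perm.sumCongrHom _ _)), ?_, inferInstance, ?_⟩
  · rintro _ ⟨⟨x, y⟩, ⟨hx, hy⟩, rfl⟩
    exact (Perm.sign_permCongr _ _).trans ((Perm.sign_sumCongr _ _).trans (by rw [a' hx, b' hy, one_mul]))
  rw [card_map_of_injective (finSumFinEquiv.permCongrHom.injective.comp Perm.sumCongrHom_injective),
    Nat.card_congr (A.prodEquiv B).toEquiv, Nat.card_prod]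

theorem R3 (k : ℕ) : R (3 * k) (3 ^ k) := by
  induction k with
  | zero => exact ⟨⊥, bot_le, inferInstance, by simp⟩
  | succ k ih => exact ih.add ⟨zpowers (finRotate 3), zpowers_le.2 (Perm.mem_alternatingGroup.2 (by decide)), inferInstance, by
      rw [Nat.card_zpowers, isCycle_finRotate.orderOf, support_finRotate]; simp⟩

theorem R4 : R 4 4 := by
  have h := alternatingGroup.kleinFour_isKleinFour (α := Fin 4) (by simp)
  have := h.isMulCommutative
  exact ⟨(alternatingGroup.kleinFour (Fin 4)).map (alternatingGroup _).subtype, map_subtype_le _, inferInstance,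
    (card_map_of_injective (Subgroup.subtype_injective _)).trans h.1⟩

/-- The largest order of an abelian subgroup of the alternating group of degree n is 3^k when n = 3k, 4·3^(k−1) when n = 3k + 1, and 16·3^(k−2) when n = 3k + 2, for every k ≥ 2 (so for all degrees n ≥ 6). -/
theorem result (k : ℕ) (hk : 2 ≤ k) :
    IsGreatest {c : ℕ | ∃ A : Subgroup (alternatingGroup (Fin (3 * k))), IsMulCommutative A ∧ Nat.card A = c} (3 ^ k) ∧
    IsGreatest {c : ℕ | ∃ A : Subgroup (alternatingGroup (Fin (3 * k + 1))), IsMulCommutative A ∧ Nat.card A = c}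
      (4 * 3 ^ (k - 1)) ∧
    IsGreatest {c : ℕ | ∃ A : Subgroup (alternatingGroup (Fin (3 * k + 2))), IsMulCommutative A ∧ Nat.card A = c}
      (16 * 3 ^ (k - 2)) := by
  obtain ⟨k, rfl⟩ := Nat.exists_eq_add_of_le' hk
  have U : ∀ n c, (∀ A ≤ alternatingGroup (Fin n), IsMulCommutative A → Nat.card A ≤ c) → R n c →
      IsGreatest {c | ∃ A : Subgroup (alternatingGroup (Fin n)), IsMulCommutative A ∧ Nat.card A = c} c := by
    rintro n _ h ⟨A, a, b, rfl⟩
    refine ⟨⟨A.subgroupOf _, inferInstance, Nat.card_congr (subgroupOfEquivOfLe a).toEquiv⟩, ?_⟩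
    rintro _ ⟨B, c, rfl⟩
    exact (card_map_of_injective (Subgroup.subtype_injective _)).ge.trans (h _ (map_subtype_le B) inferInstance)
  refine ⟨U _ _ (fun A _ a => (gv (k + 1)).1 ▸ ub _ A a Finset.univ (by simp) (by simp)) (R3 _),
    U _ _ (fun A _ a => (ub _ A a Finset.univ (by simp) (by simp)).trans (gv (k + 1)).2.1.le) ?_,
    U _ _ (fun A h a => ub' (k + 2) A a h Finset.univ (by simp) (by simp)) ?_⟩
  · exact mul_comm 4 _ ▸ (R3 (k + 1)).add R4
  · exact mul_comm 16 _ ▸ (R3 k).add (R4.add R4)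

end Cfsg.Agent.S2504
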