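import Cfsg.Statements.S2507
import Cfsg.Agent.H5.SL2Cl

set_option autoImplicit false
open Cfsg

namespace Cfsg.Agent.S2507

open H5

/-- Let F be a finite field with q = 2^f ≥ 4 elements. The conjugacy class sizes of PSL(2,F) are exactly 1, q(q − 1), q² − 1 and q(q + 1). -/
theorem result {F : Type*} [Field F] [Fintype F]
    (h2 : 2 ∣ Fintype.card F) (h4 : 4 ≤ Fintype.card F) :
    Set.range (fun g : (Matrix.ProjectiveSpecialLinearGroup (Fin 2) F) => (Subgroup.centralizer ({g} : Set (Matrix.ProjectiveSpecialLinearGroup (Fin 2) F))).index) =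
      {1, Fintype.card F * (Fintype.card F - 1), Fintype.card F ^ 2 - 1, Fintype.card F * (Fintype.card F + 1)} := by
  have he : Even (Fintype.card F) := even_iff_two_dvd.2 h2
  have hg := gcd_two_of_even he (by omega)
  have hc := card_PSL2_mul (F := F)
  rw [hg, one_mul] at hc
  have key : ∀ (g : PSL2 F) (a b : ℕ), Nat.card (Subgroup.centralizer {g}) = a → 0 < a →
      a * b = Fintype.card F * (Fintype.card F - 1) * (Fintype.card F + 1) → (Subgroup.centralizer {g}).index = b :=
    fun g a b h1 h2 h3 => Nat.eq_of_mul_eq_mul_left h2 (by rw [h3, ← hc, ← h1, Subgroup.card_mul_index])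
  have hs : Fintype.card F ^ 2 - 1 = (Fintype.card F + 1) * (Fintype.card F - 1) := Nat.sq_sub_sq _ 1
  have hT : ∀ n T D, IsTor n T D → ∀ g : PSL2 F, psl g ∈ T → g ≠ 1 → Nat.card (Subgroup.centralizer {g}) = n :=
    fun n T D h g h1 h3 => by
      have : CharP F 2 := CharTwo.of_one_ne_zero_of_two_eq_zero one_ne_zero (even_iff_two_eq_zero.1 he)
      rw [h.card_centralizer h1 fun e => h.not_dvd 2 ?_, hg, Nat.div_one]
      rw [← orderOf_eq_prime ((sq g).trans e) h3, ← orderOf_psl]
      exact h.orderOf_dvd h1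
  have hT' : ∀ n, n = Fintype.card F - 1 ∨ n = Fintype.card F + 1 → ∃ g : PSL2 F, Nat.card (Subgroup.centralizer {g}) = n :=
    fun n hn => by
      obtain ⟨T, D, h⟩ := exists_tor hn
      obtain ⟨r, hr, ho⟩ := h.exists_gen
      obtain ⟨g, rfl⟩ := exists_psl (g := r) (PS_eq_top he ▸ Subgroup.mem_top _)
      exact ⟨g, hT n T D h g (hr ▸ Subgroup.mem_zpowers _) (by rintro rfl; simp at ho; omega)⟩
  ext m
  simp only [Set.mem_range, Set.mem_insert_iff, Set.mem_singleton_iff]
  constructor
  · rintro ⟨g, rfl⟩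
    rcases pg_cases (psl g) with h | ⟨h, x, hx⟩ | ⟨h, n, T, D, h1, hx⟩ <;> rw [← psl.map_one] at h
    · simp [psl_inj h]
    · exact Or.inr (Or.inr (Or.inl (key g _ _ (card_centralizer_UP hx (mt (congrArg _) h)) (by omega) (by rw [hs]; ring))))
    · have := hT n T D h1 g hx (mt (congrArg _) h)
      rcases h1.eq with rfl | rfl
      · exact Or.inr (Or.inr (Or.inr (key g _ _ this (by omega) (by ring))))
      · exact Or.inr (Or.inl (key g _ _ this (by omega) (by ring)))
  · rintro (rfl | rfl | rfl | rfl)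
    · exact ⟨1, by simp⟩
    · obtain ⟨g, h⟩ := hT' _ (Or.inr rfl)
      exact ⟨g, key g _ _ h (by omega) (by ring)⟩
    · obtain ⟨u, hu, h1⟩ := exists_UP_ne_one (F := F) OnePoint.infty
      obtain ⟨g, rfl⟩ := exists_psl (UP_le_PS _ hu)
      exact ⟨g, key g _ _ (card_centralizer_UP hu (by rintro rfl; simp at h1)) (by omega) (by rw [hs]; ring)⟩
    · obtain ⟨g, h⟩ := hT' _ (Or.inl rfl)
      exact ⟨g, key g _ _ h (by omega) (by ring)⟩


end Cfsg.Agent.S2507
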