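import Cfsg.Statements.S2508
import Cfsg.Agent.H5.SL2Cl

set_option autoImplicit false
open Cfsg

namespace Cfsg.Agent.S2508

open H5

/-- Let F be a finite field with q elements, q odd and q ≥ 7. If q ≡ 1 (mod 4) the conjugacy class sizes of PSL(2,F) are exactly 1, (q² − 1)/2, q(q + 1)/2, q(q − 1) and q(q + 1); if q ≡ 3 (mod 4) they are exactly 1, (q² − 1)/2, q(q − 1)/2, q(q + 1) and q(q − 1). -/
theorem result {F : Type*} [Field F] [Fintype F]
    (hodd : ¬ 2 ∣ Fintype.card F) (h7 : 7 ≤ Fintype.card F) :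
    (Fintype.card F % 4 = 1 →
      Set.range (fun g : (Matrix.ProjectiveSpecialLinearGroup (Fin 2) F) => (Subgroup.centralizer ({g} : Set (Matrix.ProjectiveSpecialLinearGroup (Fin 2) F))).index) =
        {1, (Fintype.card F ^ 2 - 1) / 2, Fintype.card F * (Fintype.card F + 1) / 2,
          Fintype.card F * (Fintype.card F - 1), Fintype.card F * (Fintype.card F + 1)}) ∧
    (Fintype.card F % 4 = 3 →
      Set.range (fun g : (Matrix.ProjectiveSpecialLinearGroup (Fin 2) F) => (Subgroup.centralizer ({g} : Set (Matrix.ProjectiveSpecialLinearGroup (Fin 2) F))).index) =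
        {1, (Fintype.card F ^ 2 - 1) / 2, Fintype.card F * (Fintype.card F - 1) / 2,
          Fintype.card F * (Fintype.card F + 1), Fintype.card F * (Fintype.card F - 1)}) := by
  have ho : Odd (Fintype.card F) := Nat.odd_iff.2 (by omega)
  have h2 := two_ne_of_odd ho
  have hg := gcd_two_of_odd ho
  have hc := card_PSL2_mul (F := F)
  obtain ⟨k, hk⟩ := id ho
  have hT1 := fun n T D h g => IsTor.card_centralizer (F := F) (n := n) (T := T) (D := D) h (g := g)
  have hT2 := fun n T D h g => IsTor.card_centralizer_inv (F := F) (n := n) (T := T) (D := D) h (g := g)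
  have hT3 := fun n T D h => IsTor.exists_gen_PS (F := F) (n := n) (T := T) (D := D) h
  have hT4 := fun n T D h g => IsTor.orderOf_dvd_PS (F := F) (n := n) (T := T) (D := D) h (g := g)
  have hT5 := fun n => exists_tor (F := F) (n := n)
  have hT6 := fun n T D h => IsTor.eq (F := F) (n := n) (T := T) (D := D) h
  have hU := fun x g => card_centralizer_UP (F := F) (x := x) (g := g)
  rw [hg] at hc hT1 hT2 hT3 hT4
  have e1 : 2 * k + 1 - 1 = 2 * k := rfl
  have e2 : ((2 * k + 1) ^ 2 - 1) / 2 = 2 * k * (k + 1) := Nat.div_eq_of_eq_mul_right two_pos (Nat.sub_eq_of_eq_add (by ring))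
  have e3 : (2 * k + 1) * (2 * k + 1 + 1) / 2 = (2 * k + 1) * (k + 1) := Nat.div_eq_of_eq_mul_right two_pos (by ring)
  have e4 : (2 * k + 1) * (2 * k) / 2 = (2 * k + 1) * k := Nat.div_eq_of_eq_mul_right two_pos (by ring)
  have e5 : 2 * k / 2 = k := by omega
  have e6 : (2 * k + 1 + 1) / 2 = k + 1 := by omega
  simp only [hk, e1, e2, e3, e4] at hc h7 hT5 hT6 hU ⊢
  have key : ∀ (g : PSL2 F) (a b : ℕ), Nat.card (Subgroup.centralizer {g}) = a → 0 < a →
      2 * (a * b) = (2 * k + 1) * (2 * k) * (2 * k + 1 + 1) → (Subgroup.centralizer {g}).index = b :=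
    fun g a b h1 h2 h3 => Nat.eq_of_mul_eq_mul_left h2 (by
      rw [← hc, ← (Subgroup.centralizer {g}).card_mul_index, h1] at h3; omega)
  have fwd : ∀ g : PSL2 F, let i := (Subgroup.centralizer {g}).index
      i = 1 ∨ i = 2 * k * (k + 1) ∨ i = (2 * k + 1) * (2 * k) ∨ i = (2 * k + 1) * (2 * k + 1 + 1) ∨
      (2 ∣ k ∧ i = (2 * k + 1) * (k + 1)) ∨ (2 ∣ k + 1 ∧ i = (2 * k + 1) * k) := fun g => by
    rcases pg_cases (psl g) with h | ⟨h, x, hx⟩ | ⟨h, n, T, D, h1, hx⟩ <;> rw [← psl.map_one] at h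
    · simp [psl_inj h]
    · exact Or.inr (Or.inl (key g _ _ (hU x g hx (mt (congrArg _) h)) (by omega) (by ring)))
    · by_cases h3 : g * g = 1
      · have h4 := hT2 n T D h1 _ hx (mt (congrArg _) h) h3
        have h5 := hT4 n T D h1 _ hx (psl_mem g)
        rw [orderOf_psl, orderOf_eq_prime ((sq g).trans h3) (mt (congrArg _) h)] at h5
        rcases hT6 n T D h1 with rfl | rfl
        · rw [e5] at h4 h5
          exact Or.inr (Or.inr (Or.inr (Or.inr (Or.inl ⟨h5, key g _ _ h4 (by omega) (by ring)⟩))))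
        · rw [e6] at h4 h5
          exact Or.inr (Or.inr (Or.inr (Or.inr (Or.inr ⟨h5, key g _ _ h4 (by omega) (by ring)⟩))))
      · have h4 := hT1 n T D h1 _ hx h3
        rcases hT6 n T D h1 with rfl | rfl
        · exact Or.inr (Or.inr (Or.inr (Or.inl (key g _ _ (h4.trans e5) (by omega) (by ring)))))
        · exact Or.inr (Or.inr (Or.inl (key g _ _ (h4.trans e6) (by omega) (by ring))))
  have b1 : ∀ n, n = 2 * k ∨ n = 2 * k + 1 + 1 → ∃ g : PSL2 F, Nat.card (Subgroup.centralizer {g}) = n / 2 := fun n hn => by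
    obtain ⟨T, D, h⟩ := hT5 n hn
    obtain ⟨r, hr, ho⟩ := hT3 n T D h
    have hr' : r ∈ T ⊓ PS F := hr ▸ Subgroup.mem_zpowers r
    obtain ⟨g, rfl⟩ := exists_psl hr'.2
    exact ⟨g, hT1 n T D h _ hr'.1 (sq_ne_one_of_three_le (by rw [← orderOf_psl, ho]; omega))⟩
  have b2 : ∀ n, n = 2 * k ∨ n = 2 * k + 1 + 1 → 2 ∣ n / 2 → ∃ g : PSL2 F, Nat.card (Subgroup.centralizer {g}) = 2 * (n / 2) :=
    fun n hn hd => by
      obtain ⟨T, D, h⟩ := hT5 n hn
      obtain ⟨r, hr⟩ := exists_prime_orderOf_dvd_card' (G := ↥(T ⊓ PS F)) 2 (by rwa [h.card_inf_PS, hg])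
      obtain ⟨g, e⟩ := exists_psl r.2.2
      rw [← Subgroup.orderOf_coe, ← e, orderOf_psl] at hr
      exact ⟨g, hT2 n T D h _ (e ▸ r.2.1) (by rintro rfl; simp at hr) ((sq g).symm.trans (orderOf_dvd_iff_pow_eq_one.1 hr.dvd))⟩
  have c0 : ∃ g : PSL2 F, (Subgroup.centralizer {g}).index = 1 := ⟨1, by simp⟩
  have c1 : ∃ g : PSL2 F, (Subgroup.centralizer {g}).index = 2 * k * (k + 1) := by
    obtain ⟨u, hu, h1⟩ := exists_UP_ne_one (F := F) OnePoint.infty
    obtain ⟨g, rfl⟩ := exists_psl (UP_le_PS _ hu)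
    exact ⟨g, key g _ _ (hU _ _ hu (by rintro rfl; simp at h1)) (by omega) (by ring)⟩
  have c2 : ∃ g : PSL2 F, (Subgroup.centralizer {g}).index = (2 * k + 1) * (2 * k) :=
    (b1 _ (Or.inr rfl)).imp fun g h => key g _ _ (h.trans e6) (by omega) (by ring)
  have c3 : ∃ g : PSL2 F, (Subgroup.centralizer {g}).index = (2 * k + 1) * (2 * k + 1 + 1) :=
    (b1 _ (Or.inl rfl)).imp fun g h => key g _ _ (h.trans e5) (by omega) (by ring)
  refine ⟨fun h4 => ?_, fun h4 => ?_⟩ <;> ext m <;> simp only [Set.mem_range, Set.mem_insert_iff, Set.mem_singleton_iff]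
  · refine ⟨by rintro ⟨g, rfl⟩; have := fwd g; omega, ?_⟩
    rintro (rfl | rfl | rfl | rfl | rfl) <;> try assumption
    exact (b2 _ (Or.inl rfl) (by omega)).imp fun g h => key g (2 * k) _ (h.trans (by rw [e5])) (by omega) (by ring)
  · refine ⟨by rintro ⟨g, rfl⟩; have := fwd g; omega, ?_⟩
    rintro (rfl | rfl | rfl | rfl | rfl) <;> try assumption
    exact (b2 _ (Or.inr rfl) (by omega)).imp fun g h => key g (2 * (k + 1)) _ (h.trans (by rw [e6])) (by omega) (by ring)


end Cfsg.Agent.S2508
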