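import Cfsg.Statements.S2514
import Cfsg.Agent.H2.Half

set_option autoImplicit false
open Cfsg

namespace Cfsg.Agent.S2514

theorem ex_max {G : Type*} [Group G] [Finite G] (x : G) : ∃ y : G, orderOf x ∣ orderOf y ∧
    ∀ m ∈ Set.range (orderOf : G → ℕ), orderOf y ∣ m → m = orderOf y := by
  obtain ⟨y, hy, h⟩ := Set.exists_max_image {y : G | orderOf x ∣ orderOf y} orderOf (Set.toFinite _) ⟨x, dvd_rfl⟩
  refine ⟨y, hy, ?_⟩
  rintro _ ⟨z, rfl⟩ hz
  exact le_antisymm (h z (hy.trans hz)) (Nat.le_of_dvd (orderOf_pos z) hz)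

theorem ex_dvd {G : Type*} [Group G] [Finite G] {n : ℕ} (y : G) (h : n ∣ orderOf y) : ∃ x : G, orderOf x = n :=
  ⟨y ^ (orderOf y / n), orderOf_pow_orderOf_div (orderOf_pos y).ne' h⟩

/-- For a finite group X write μ(X) for the set of element orders of X that are maximal under divisibility. Let G and H be finite groups and k ≥ 1 such that μ(H) ⊆ μ(G) and μ(G) has fewer than k elements outside μ(H). Then the direct product of k copies of G has the same set of element orders as the direct product of k − 1 copies of G with H. -/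
theorem result {G H : Type*} [Group G] [Finite G] [Group H] [Finite H] (k : ℕ) (hk : 1 ≤ k)
    (hsub : {n : ℕ | n ∈ Set.range (orderOf : H → ℕ) ∧ ∀ m ∈ Set.range (orderOf : H → ℕ), n ∣ m → m = n} ⊆ {n : ℕ | n ∈ Set.range (orderOf : G → ℕ) ∧ ∀ m ∈ Set.range (orderOf : G → ℕ), n ∣ m → m = n})
    (hfew : ({n : ℕ | n ∈ Set.range (orderOf : G → ℕ) ∧ ∀ m ∈ Set.range (orderOf : G → ℕ), n ∣ m → m = n} \ {n : ℕ | n ∈ Set.range (orderOf : H → ℕ) ∧ ∀ m ∈ Set.range (orderOf : H → ℕ), n ∣ m → m = n}).ncard < k) :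
    Set.range (orderOf : (Fin k → G) → ℕ) = Set.range (orderOf : (Fin (k - 1) → G) × H → ℕ) := by
  obtain ⟨k, rfl⟩ : ∃ j, k = j + 1 := ⟨k - 1, by omega⟩
  show _ = Set.range (orderOf : (Fin k → G) × H → ℕ)
  have key : ∀ (i : Fin (k + 1)) (x : Fin (k + 1) → G) (h : H), orderOf (x i) = orderOf h →
      orderOf x = orderOf ((fun j => x (i.succAbove j), h) : (Fin k → G) × H) := by
    intro i x h e
    rw [orderOf_eq_orderOf_iff]
    intro n
    rw [Prod.ext_iff, funext_iff, funext_iff, Fin.forall_iff_succAbove i]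
    simp only [Pi.pow_apply, Pi.one_apply, Prod.pow_fst, Prod.pow_snd, Prod.fst_one, Prod.snd_one]
    rw [orderOf_eq_orderOf_iff.1 e n, and_comm]
  ext n
  constructor
  · rintro ⟨x, rfl⟩
    choose y hy hy' using fun i => ex_max (x i)
    by_cases h : ∃ i, orderOf (y i) ∈ Set.range (orderOf : H → ℕ)
    · obtain ⟨i, h, e⟩ := h
      obtain ⟨h', e'⟩ := ex_dvd h (e ▸ hy i)
      exact ⟨_, (key i x h' e'.symm).symm⟩
    · push Not at h
      obtain ⟨i, -, j, -, hij, e⟩ := Set.exists_ne_map_eq_of_ncard_lt_of_maps_to (s := (Set.univ : Set (Fin (k + 1))))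
        (hfew.trans_eq (by rw [Set.ncard_univ, Nat.card_fin])) (f := fun i => orderOf (y i))
        (fun i _ => ⟨⟨⟨_, rfl⟩, hy' i⟩, fun h' => h i h'.1⟩) ((Set.finite_range _).subset fun _ h => h.1.1)
      obtain ⟨z, hz⟩ := ex_dvd (y j) (Nat.lcm_dvd (e ▸ hy i) (hy j))
      refine ⟨_, ((key i (Function.update (Function.update x j z) i 1) 1 (by simp)).symm.trans ?_)⟩
      rw [orderOf_eq_orderOf_iff]
      intro n
      rw [funext_iff, funext_iff]
      simp only [Pi.pow_apply, Pi.one_apply]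
      have hz' : z ^ n = 1 ↔ x i ^ n = 1 ∧ x j ^ n = 1 := by
        simp only [← orderOf_dvd_iff_pow_eq_one, hz, Nat.lcm_dvd_iff]
      constructor
      · intro h1 l
        have h2 := h1 j
        rw [Function.update_of_ne hij.symm, Function.update_self, hz'] at h2
        by_cases h3 : l = i
        · rw [h3]; exact h2.1
        by_cases h4 : l = j
        · rw [h4]; exact h2.2
        simpa [h3, h4] using h1 l
      · intro h1 l
        by_cases h3 : l = i
        · simp [h3]
        by_cases h4 : l = j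
        · subst h4; rw [Function.update_of_ne h3, Function.update_self]; exact hz'.2 ⟨h1 i, h1 l⟩
        simpa [h3, h4] using h1 l
  · rintro ⟨⟨x, h⟩, rfl⟩
    obtain ⟨h', e1, e2⟩ := ex_max h
    obtain ⟨⟨g, hg⟩, -⟩ := hsub ⟨⟨h', rfl⟩, e2⟩
    obtain ⟨g', hg'⟩ := ex_dvd g (hg ▸ e1)
    refine ⟨Fin.cons g' x, (key 0 (Fin.cons g' x) h (by simpa using hg')).trans ?_⟩
    simp

end Cfsg.Agent.S2514
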