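import Cfsg.Statements.S2515
import Cfsg.Agent.H6.Spec3

set_option autoImplicit false
open Cfsg

namespace Cfsg.Agent.S2515

/-- Let q = 3^α with α ≥ 3 odd. There is a finite group H having a non-trivial normal 3-subgroup and whose element orders maximal under divisibility are exactly 6, 9, q − 1 and (q + 1)/2. -/
theorem result (α : ℕ) (hα : 3 ≤ α) (hodd : Odd α) :
    ∃ (H : Type) (_ : Group H) (_ : Fintype H), (∃ P : Subgroup H, P.Normal ∧ P ≠ ⊥ ∧ IsPGroup 3 ↥P) ∧
      {n : ℕ | n ∈ Set.range (orderOf : H → ℕ) ∧ ∀ m ∈ Set.range (orderOf : H → ℕ), n ∣ m → m = n} = ({6, 9, 3 ^ α - 1, (3 ^ α + 1) / 2} : Set ℕ) := by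
  obtain ⟨H, hG, hF, -, hP, hs⟩ := H6.Sp3.exists_H α hodd 0
  refine ⟨H, hG, hF, hP, ?_⟩
  have h27 : 27 ≤ 3 ^ α := Nat.pow_le_pow_right (n := 3) (by norm_num) hα
  have h3 : 3 ∣ 3 ^ α := dvd_pow_self 3 (by omega)
  have ho : 3 ^ α % 2 = 1 := by rw [Nat.pow_mod]; simp
  generalize 3 ^ α = q at *
  ext n
  simp only [Set.mem_setOf_eq, hs, Set.mem_insert_iff, Set.mem_singleton_iff]
  constructor
  · rintro ⟨h | h | h | h, hm⟩
    · exact Or.inl (hm _ (Or.inl dvd_rfl) h).symm
    · exact Or.inr (Or.inl (hm _ (Or.inr (Or.inl dvd_rfl)) h).symm)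
    · exact Or.inr (Or.inr (Or.inl (hm _ (Or.inr (Or.inr (Or.inl dvd_rfl))) h).symm))
    · exact Or.inr (Or.inr (Or.inr (hm _ (Or.inr (Or.inr (Or.inr dvd_rfl))) h).symm))
  · have hx : ¬ (q + 1) / 2 ∣ q - 1 := fun h => by
      have h2 : (q + 1) / 2 ∣ 2 * ((q + 1) / 2) - (q - 1) := Nat.dvd_sub (Dvd.intro_left _ rfl) h
      rw [show 2 * ((q + 1) / 2) - (q - 1) = 2 by omega] at h2
      have := Nat.le_of_dvd (by norm_num) h2
      omega
    rintro (rfl | rfl | rfl | rfl)
    · refine ⟨Or.inl dvd_rfl, fun m h hm => ?_⟩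
      rcases h with h | h | h | h
      · exact Nat.dvd_antisymm h hm
      all_goals (have := hm.trans h; omega)
    · refine ⟨Or.inr (Or.inl dvd_rfl), fun m h hm => ?_⟩
      rcases h with h | h | h | h
      · have := hm.trans h; omega
      · exact Nat.dvd_antisymm h hm
      all_goals (have := hm.trans h; omega)
    · refine ⟨Or.inr (Or.inr (Or.inl dvd_rfl)), fun m h hm => ?_⟩
      rcases h with h | h | h | h
      · have := Nat.le_of_dvd (by omega) (hm.trans h); omega
      · have := Nat.le_of_dvd (by omega) (hm.trans h); omega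
      · exact Nat.dvd_antisymm h hm
      · have := Nat.le_of_dvd (by omega) (hm.trans h); omega
    · refine ⟨Or.inr (Or.inr (Or.inr dvd_rfl)), fun m h hm => ?_⟩
      rcases h with h | h | h | h
      · have := Nat.le_of_dvd (by omega) (hm.trans h); omega
      · have := Nat.le_of_dvd (by omega) (hm.trans h); omega
      · exact absurd (hm.trans h) hx
      · exact Nat.dvd_antisymm h hm

end Cfsg.Agent.S2515
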