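import Cfsg.Statements.S2516
import Cfsg.Agent.H2.Half

set_option autoImplicit false
open Cfsg

namespace Cfsg.Agent.S2516

/-- Let F be a field of characteristic p > 0, V a non-zero finite-dimensional F-vector space, G a finite group and ρ a representation of G on V; form the semidirect product V ⋊ G. For g ∈ G of order k, the coset Vg contains an element of order pk if and only if the minimal polynomial of ρ(g) does not divide 1 + X + ⋯ + X^(k−1). -/
theorem result {F : Type*} [Field F] (p : ℕ) [Fact p.Prime] [CharP F p] {V : Type*} [AddCommGroup V] [Module F V] [FiniteDimensional F V] [Nontrivial V]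
    {G : Type*} [Group G] [Finite G] (ρ : Representation F G V) (g : G) :
    (∃ x : Multiplicative V ⋊[(MulAutMultiplicative V).symm.toMonoidHom.comp
        ((DistribMulAction.toAddAut ((V →ₗ[F] V)ˣ) V).comp ρ.asGroupHom)] G,
        x.right = g ∧ orderOf x = p * orderOf g) ↔
      ¬ (minpoly F (ρ g) ∣ ∑ i ∈ Finset.range (orderOf g), (Polynomial.X : Polynomial F) ^ i) := by
  set φ := (MulAutMultiplicative V).symm.toMonoidHom.comp
        ((DistribMulAction.toAddAut ((V →ₗ[F] V)ˣ) V).comp ρ.asGroupHom) with hφ
  have hφ' : ∀ (a : G) (v : Multiplicative V), (φ a v).toAdd = ρ a v.toAdd := fun a v => rfl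
  have hpow : ∀ (x : Multiplicative V ⋊[φ] G) (n : ℕ),
      (x ^ n).left.toAdd = ∑ i ∈ Finset.range n, (ρ x.right ^ i) x.left.toAdd := by
    intro x n
    induction n with
    | zero => simp
    | succ n ih =>
      have e : (x ^ n).right = x.right ^ n := map_pow SemidirectProduct.rightHom x n
      rw [pow_succ, SemidirectProduct.mul_left, toAdd_mul, ih, Finset.sum_range_succ, hφ', e, map_pow]
  have hn := orderOf_pos g
  have hp := (Fact.out : p.Prime)
  have key : ∀ x : Multiplicative V ⋊[φ] G, x.right = g → (orderOf x = p * orderOf g ↔ x ^ orderOf g ≠ 1) := by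
    intro x hx
    have h1 : orderOf g ∣ orderOf x := hx ▸ orderOf_map_dvd SemidirectProduct.rightHom x
    have h2 : (x ^ orderOf g).right = 1 := by
      rw [show (x ^ orderOf g).right = x.right ^ orderOf g from map_pow SemidirectProduct.rightHom x _, hx,
        pow_orderOf_eq_one]
    have h3 : (x ^ orderOf g) ^ p = 1 := by
      have : x ^ orderOf g = SemidirectProduct.inl (x ^ orderOf g).left := by ext <;> simp [h2]
      rw [this, ← map_pow]
      have : (x ^ orderOf g).left ^ p = 1 := by
        apply Multiplicative.toAdd.injective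
        rw [toAdd_pow, ← Nat.cast_smul_eq_nsmul F, CharP.cast_eq_zero, zero_smul]; rfl
      rw [this, map_one]
    constructor
    · intro h
      refine pow_ne_one_of_lt_orderOf hn.ne' ?_
      rw [h]; nlinarith [hp.two_le]
    · intro h
      have h4 := orderOf_eq_prime h3 h
      have h5 : orderOf x ≠ 0 := by
        rw [← pow_mul] at h3
        exact (orderOf_pos_iff.2 (isOfFinOrder_iff_pow_eq_one.2 ⟨_, Nat.mul_pos hn hp.pos, h3⟩)).ne'
      rw [orderOf_pow_of_dvd hn.ne' h1] at h4
      rw [← h4, Nat.div_mul_cancel h1]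
  rw [minpoly.dvd_iff]
  have e : Polynomial.aeval (ρ g) (∑ i ∈ Finset.range (orderOf g), (Polynomial.X : Polynomial F) ^ i) =
      ∑ i ∈ Finset.range (orderOf g), ρ g ^ i := by simp
  rw [e]
  constructor
  · rintro ⟨x, hx, h⟩ h0
    refine (key x hx).1 h ?_
    ext
    · apply Multiplicative.toAdd.injective
      rw [hpow, hx, ← LinearMap.sum_apply, h0]; rfl
    · rw [show (x ^ orderOf g).right = x.right ^ orderOf g from map_pow SemidirectProduct.rightHom x _, hx,
        pow_orderOf_eq_one]; rfl
  · intro h
    obtain ⟨v, hv⟩ : ∃ v, (∑ i ∈ Finset.range (orderOf g), ρ g ^ i) v ≠ 0 := by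
      by_contra h'; push Not at h'; exact h (LinearMap.ext h')
    refine ⟨⟨Multiplicative.ofAdd v, g⟩, rfl, (key _ rfl).2 fun h1 => hv ?_⟩
    have := hpow ⟨Multiplicative.ofAdd v, g⟩ (orderOf g)
    rw [h1] at this
    rw [LinearMap.sum_apply]; exact this.symm

end Cfsg.Agent.S2516
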