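import Cfsg.Statements.S2518
import Cfsg.Agent.H8.EG23
import Cfsg.Agent.H8.XG23
import Cfsg.Agent.H8.EL213
import Cfsg.Agent.H8.XL213
-- import your own Cfsg.Agent.* helpers here

set_option autoImplicit false
open Cfsg

namespace Cfsg.Agent.S2518

/-- Let F₃ be the field with 3 elements and F₁₃ the field with 13 elements. The Chevalley group G₂(F₃) and PSL(2, F₁₃) have the same prime graph: the same prime divisors of their orders, and for distinct primes r, s an element of order rs in one iff in the other. -/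
theorem result {F : Type*} [Field F] [Fintype F] (hF : Fintype.card F = 3) {E : Type*} [Field E] [Fintype E] (hE : Fintype.card E = 13) :
    ((∀ r : ℕ, r.Prime → (r ∣ Nat.card ↥(Cfsg.Lie.chevG2.group F) ↔ r ∣ Nat.card (Matrix.ProjectiveSpecialLinearGroup (Fin 2) E))) ∧
      (∀ r s : ℕ, r.Prime → s.Prime → r ≠ s → ((∃ x : ↥(Cfsg.Lie.chevG2.group F), orderOf x = r * s) ↔ (∃ y : (Matrix.ProjectiveSpecialLinearGroup (Fin 2) E), orderOf y = r * s)))) := by
  obtain ⟨e⟩ := H8.G23.iso hF
  obtain ⟨e'⟩ := H8.L213.iso hE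
  haveI := Finite.of_equiv _ e.symm.toEquiv
  exact (H8.G23.gk.congr e).pge ((H8.L213.spec.congr e').gk (by decide +kernel))

end Cfsg.Agent.S2518
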