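import Cfsg.Statements.S2521


set_option autoImplicit false
open Cfsg

namespace Cfsg.Agent.S2521

/-- Let B be a finite group that is the semidirect product of a nilpotent normal subgroup U by an abelian subgroup T (U ∩ T = 1, UT = B), and let t ∈ T have centralizer exactly T. Then every element of the coset tU is conjugate to t in B: for each u ∈ U there is b ∈ B with b t b⁻¹ = t u. -/
theorem result {B : Type*} [Group B] [Finite B] (U T : Subgroup B) [U.Normal] (hU : Group.IsNilpotent ↥U) (hT : IsMulCommutative ↥T)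
    (hcompl : Subgroup.IsComplement' U T) (t : B) (ht : t ∈ T) (hreg : Subgroup.centralizer ({t} : Set B) = T) (u : B) (hu : u ∈ U) :
    ∃ b : B, b * t * b⁻¹ = t * u := by
  have hinj : Function.Injective (fun b : U => (⟨t⁻¹ * b * t * (b : B)⁻¹, U.mul_mem (by
      simpa using Subgroup.Normal.conj_mem inferInstance _ b.2 t⁻¹) (U.inv_mem b.2)⟩ : U)) := by
    intro a b h
    have h1 : t⁻¹ * a * t * (a : B)⁻¹ = t⁻¹ * b * t * (b : B)⁻¹ := congrArg Subtype.val h
    have h2 : (b : B)⁻¹ * a ∈ Subgroup.centralizer ({t} : Set B) := by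
      intro y hy
      rw [hy]
      simp only [mul_assoc, mul_right_inj] at h1
      calc t * ((b : B)⁻¹ * a) = (b : B)⁻¹ * (b * (t * (b : B)⁻¹)) * a := by simp [mul_assoc]
        _ = _ := by rw [← h1]; simp [mul_assoc]
    rw [hreg] at h2
    have := hcompl.disjoint.le_bot ⟨U.mul_mem (U.inv_mem b.2) a.2, h2⟩
    exact Subtype.ext (inv_mul_eq_one.1 (Subgroup.mem_bot.1 this)).symm
  obtain ⟨b, hb⟩ := Finite.injective_iff_surjective.1 hinj ⟨u, hu⟩
  refine ⟨b, ?_⟩
  have h1 : t⁻¹ * b * t * (b : B)⁻¹ = u := congrArg Subtype.val hb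
  rw [← h1]; simp [mul_assoc]

end Cfsg.Agent.S2521
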