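import Cfsg.Statements.S2553
import Cfsg.Agent.H8.LA5
-- import your own Cfsg.Agent.* helpers here

set_option autoImplicit false
set_option maxRecDepth 200000
open Cfsg

namespace Cfsg.Agent.S2553

/-- Let H be a nontrivial subgroup of GL(4,2) (a group isomorphic to the alternating group of degree 8) whose largest normal 2-subgroup and largest normal subgroup of odd order are both trivial. Then H is isomorphic to an alternating group of degree n for some 5 ≤ n ≤ 8, to the symmetric group of degree 5 or 6, or to GL(3,2). -/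
theorem result (H : Subgroup (GL (Fin 4) (ZMod 2))) (hH : H ≠ ⊥) (hO : Cfsg.pPrimeCore 2 ↥H = ⊥) (hO2 : Cfsg.pCore 2 ↥H = ⊥) :
    (∃ n : ℕ, 5 ≤ n ∧ n ≤ 8 ∧ Nonempty (↥H ≃* alternatingGroup (Fin n))) ∨
    Nonempty (↥H ≃* Equiv.Perm (Fin 5)) ∨ Nonempty (↥H ≃* Equiv.Perm (Fin 6)) ∨ Nonempty (↥H ≃* GL (Fin 3) (ZMod 2)) := by
  rcases H8.LA.all (H8.MG.gl42ch H8.fm2 (ZMod.card 2)) H hH with ⟨p, hp, P, h1, h2, h3⟩ | h
  · haveI := Fact.mk hp
    by_cases e : p = 2
    · exact absurd (le_bot_iff.1 (hO2 ▸ le_sSup (show P ∈ {N : Subgroup H | N.Normal ∧ IsPGroup 2 N} from ⟨h1, e ▸ h3⟩))) h2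
    · obtain ⟨i, hi⟩ := IsPGroup.iff_card.1 h3
      exact absurd (le_bot_iff.1 (hO ▸ le_sSup (show P ∈ {N : Subgroup H | N.Normal ∧ (Nat.card N).Coprime 2} from
        ⟨h1, hi ▸ ((Nat.coprime_primes hp Nat.prime_two).2 e).pow_left i⟩))) h2
  · exact h

end Cfsg.Agent.S2553
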