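import Cfsg.Statements.S2648
import Cfsg.Agent.H5.Wt
import Cfsg.Agent.S0244

set_option autoImplicit false
open Cfsg

namespace Cfsg.Agent.S2648

open H5 Matrix

/-- Let q be odd, F a field with q elements and n ≥ 1. A Sylow 2-subgroup R of the symplectic group Sp_{2n}(F) has derived length exactly k + 1, where 2^k ≤ 2n < 2^{k+1}: the (k+1)-st term of its derived series is trivial and the k-th is not. -/
theorem result {F : Type*} [Field F] [Fintype F] [DecidableEq F] (q : ℕ) (hF : Fintype.card F = q) (hq : Odd q) (n : ℕ) (hn : 1 ≤ n) (R : Sylow 2 ↥(Matrix.symplecticGroup (Fin n) F)) : derivedSeries ↥(R : Subgroup ↥(Matrix.symplecticGroup (Fin n) F)) (Nat.log 2 (2 * n) + 1) = ⊥ ∧ derivedSeries ↥(R : Subgroup ↥(Matrix.symplecticGroup (Fin n) F)) (Nat.log 2 (2 * n)) ≠ ⊥ := by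
  have h2 : (2 : F) ≠ 0 := fun c => by
    have := (CharP.charP_iff_prime_eq_zero Nat.prime_two).2 c
    exact (Nat.not_even_iff_odd.2 hq) (hF ▸ FiniteField.even_card_of_char_two (ringChar.eq F 2) |> Nat.even_iff.2)
  refine ⟨by simpa [two_mul] using ds_gl R.2 (Emb.trans ⟨_, R.1.subtype_injective⟩ ⟨spToGL n, fun a b e => Subtype.ext (congrArg Units.val e)⟩), ?_⟩
  rw [mul_comm, Nat.log_mul_base one_lt_two (by omega), ← congrArg (Nat.log 2) (Nat.div_one n)]
  obtain ⟨x, y, h⟩ : ∃ x y : F, x ^ 2 + y ^ 2 = -1 := by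
    have := NeZero.mk (CharP.ringChar_ne_zero_of_finite F)
    obtain ⟨a, b, h⟩ := CharP.sq_add_sq F (ringChar F) (-1)
    exact ⟨a, b, by simpa using h⟩

  refine DLg.sylow (DLg.iter (fun n => symplecticGroup (Fin n) F) sp_emb (fun a h => by
    exact sp_wr (F := F) (Q := Multiplicative (ZMod 2)) h) one_pos hn (DLg.one (m := 2)
      (a := ⟨fromBlocks 0 (-1) 1 0, SymplecticGroup.J_mem _ _⟩) (b := ⟨fromBlocks (scalar _ x) (scalar _ y) (scalar _ y) (scalar _ (-x)), ?_⟩) ?_ ?_ ?_ ?_)) R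
  · simp [SymplecticGroup.mem_iff, J, fromBlocks_transpose, fromBlocks_multiply, ← Matrix.ext_iff, Fin.forall_fin_one]
    grind
  · refine Subtype.ext ?_
    simp [pow_succ, fromBlocks_multiply]
  · refine Subtype.ext ?_
    simp [pow_succ, fromBlocks_multiply, ← Matrix.ext_iff, Fin.forall_fin_one]
    grind
  · refine ⟨3, eq_mul_inv_of_mul_eq (Subtype.ext ?_)⟩
    simp [zpow_ofNat, pow_succ, fromBlocks_multiply]
  · intro c
    have := congrArg Subtype.val c
    simp [fromBlocks_multiply, ← Matrix.ext_iff, Fin.forall_fin_one] at this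
    grind


end Cfsg.Agent.S2648
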