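import Cfsg.Statements.S2896
import Cfsg.Agent.H9.LE1

set_option autoImplicit false
open Cfsg

namespace Cfsg.Agent.S2896

/-- Let p be a prime dividing the order of the finite group G, S a Sylow p-subgroup of G and X a subgroup of S. (i) If some nontrivial element z of the centre of X has F*(C_G(z)) = O_p(C_G(z)), then F*(N_G(X)) = O_p(N_G(X)). (ii) G has parabolic characteristic p if and only if F*(C_G(z)) = O_p(C_G(z)) for every nontrivial z ∈ Ω₁(Z(S)). (iii) If F*(C_G(z)) = O_p(C_G(z)) for every element z of S of order p, then G has local characteristic p. -/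
theorem result {G : Type*} [Group G] [Finite G] {p : ℕ} [Fact p.Prime] (hdiv : p ∣ Nat.card G) (S : Sylow p G) (X : Subgroup G) (hX : X ≤ (S : Subgroup G)) : (∀ z : G, z ≠ 1 → z ∈ X → (∀ x ∈ X, x * z = z * x) → Cfsg.generalizedFittingSubgroup ↥(Subgroup.centralizer ({z} : Set G)) = Cfsg.pCore p ↥(Subgroup.centralizer ({z} : Set G)) → Cfsg.generalizedFittingSubgroup ↥(Subgroup.normalizer (X : Set G)) = Cfsg.pCore p ↥(Subgroup.normalizer (X : Set G))) ∧ (Cfsg.IsOfParabolicCharacteristic p G ↔ ∀ z : G, z ≠ 1 → z ∈ Cfsg.omegaOne p ((S : Subgroup G) ⊓ Subgroup.centralizer ((S : Subgroup G) : Set G)) → Cfsg.generalizedFittingSubgroup ↥(Subgroup.centralizer ({z} : Set G)) = Cfsg.pCore p ↥(Subgroup.centralizer ({z} : Set G))) ∧ ((∀ z : G, z ∈ (S : Subgroup G) → orderOf z = p → Cfsg.generalizedFittingSubgroup ↥(Subgroup.centralizer ({z} : Set G)) = Cfsg.pCore p ↥(Subgroup.centralizer ({z} : Set G))) → Cfsg.IsOfLocalCharacteristic p G) := by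
  open H9 Subgroup in open scoped commutatorElement in
  have hS := syl_top_of_sylow S
  simp only [← Fst_eq_Op_iff, ← chp_iff_Fst]
  refine ⟨fun z _ h2 h3 h => h.of_mem (hS.isP.to_le hX) h2 h3, (par_iff hS).trans
    (forall_congr' fun z => forall_comm), fun h => ⟨hdiv, fun T h1 h2 => chp_iff.2 ?_⟩⟩
  obtain ⟨z, hz, ho⟩ := exists_orderOf_eq_of_isPGroup (h1.to_le inf_le_left)
    (inf_centralizer_ne_bot_of_p h1 h1 le_normalizer h2)
  obtain ⟨g, -, e⟩ := hS.exists_cj_le h1 le_top
  have := (h _ (e (conj_mem_cj hz.1)) (by rwa [orderOf_conj])).cj g⁻¹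
  rw [← cj_centralizer_singleton, cj_inv_cj] at this
  exact this.of_mem h1 hz.1 hz.2

end Cfsg.Agent.S2896
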