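import Cfsg.Statements.S2898
import Cfsg.Agent.H9.LE1
import Cfsg.Agent.H1.Invol

set_option autoImplicit false
open Cfsg

namespace Cfsg.Agent.S2898

/-- Let G be a finite group of even order with parabolic characteristic 2. If the centre of G ⧸ O(G) is trivial, then O(G) = 1. -/
theorem result {G : Type*} [Group G] [Finite G] (h2 : 2 ∣ Nat.card G) (hG : Cfsg.IsOfParabolicCharacteristic 2 G) [hN : (Cfsg.oddCore G).Normal] (hZ : Subgroup.center (G ⧸ Cfsg.oddCore G) = ⊥) : Cfsg.oddCore G = ⊥ := by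
  open H9 Subgroup in open scoped commutatorElement in
  obtain ⟨S, hS⟩ := exists_syl (p := 2) (⊤ : Subgroup G)
  have h0 := pPrimeCore_cop (G := G) 2
  have h1 : ∀ z ∈ OZ 2 S, z ≠ 1 → ∀ k ∈ oddCore G, z * k * z⁻¹ = k⁻¹ := fun z hz z1 k hk =>
    H1.conj_eq_inv_of_fpf (le_normalizer_of_normal (mem_top z)) (eq_bot_iff.2 (((par_iff hS).1 hG z hz z1).Op'_eq_bot ▸
      le_Op' inf_le_right (normalizer_inf le_normalizer_of_normal le_normalizer) (cop_of_le h0 inf_le_left)))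
      (by rw [← sq, (mem_OZ.1 hz).2.2]; exact one_mem _) hk
  have h2' : ∀ V ≤ S, S ≤ normalizer (V : Set G) → V ≠ ⊥ → ∃ z ∈ V, z ∈ OZ 2 S ∧ z ≠ 1 := fun V a1 a2 a3 => by
    obtain ⟨z, hz, ho⟩ := exists_orderOf_eq_of_isPGroup ((hS.isP.to_le a1).to_le inf_le_left)
      (inf_centralizer_ne_bot_of_p (hS.isP.to_le a1) hS.isP a2 a3)
    exact ⟨z, hz.1, mem_OZ.2 ⟨a1 hz.1, hz.2, ho ▸ pow_orderOf_eq_one z⟩, H1.two_ne ho⟩
  by_contra e
  have h3 : centralizer (oddCore G : Set G) ≤ oddCore G := by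
    refine le_pPrimeCore ((hS.inf_normal le_top le_normalizer_of_normal).eq_bot_iff.1 (by_contra fun e' => ?_))
    obtain ⟨z, a1, a2, a3⟩ := h2' _ inf_le_left (normalizer_inf le_normalizer le_normalizer_of_normal) e'
    refine e (eq_bot_of_p_p' (isPGroup_of_elem fun k hk => ?_) h0)
    have := h1 z a2 a3 k hk
    rw [← comm_of_mem_centralizer a1.2 hk, mul_inv_cancel_right] at this
    rw [sq]; exact mul_eq_one_iff_eq_inv.2 this
  obtain ⟨z, -, a2, a3⟩ := h2' S le_rfl le_normalizer (hS.ne_bot (by rwa [card_top]))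
  have : (z : G ⧸ oddCore G) ∈ center _ := mem_center_iff.2 fun g => by
    obtain ⟨g, rfl⟩ := QuotientGroup.mk_surjective g
    rw [← QuotientGroup.mk_mul, ← QuotientGroup.mk_mul, QuotientGroup.eq]
    refine h3 fun k hk => ?_
    have b1 := h1 z a2 a3 _ (hN.conj_mem _ hk g)
    have b2 := h1 z a2 a3 _ (hN.conj_mem _ (inv_mem hk) z⁻¹)
    have b3 := h1 z a2 a3 _ hk
    have b4 : z⁻¹ * k⁻¹ * z = k := by rw [← b3]; group
    symm
    calc (g * z)⁻¹ * (z * g) * k = z⁻¹ * g⁻¹ * (z * (g * k * g⁻¹) * z⁻¹) * z * g := by group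
      _ = z⁻¹ * k⁻¹ * z * (z⁻¹ * g⁻¹ * z * g) := by rw [b1]; group
      _ = k * ((g * z)⁻¹ * (z * g)) := by rw [b4]; group
  rw [hZ, mem_bot, QuotientGroup.eq_one_iff] at this
  exact a3 (H2.eq_one_of_coprime_of_mem hS.isP (mem_OZ.1 a2).1 (h0.coprime_dvd_left (orderOf_dvd_card_of_mem this)))

end Cfsg.Agent.S2898
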