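import Cfsg.Statements.S2905
import Cfsg.Agent.H9.LE1

set_option autoImplicit false
open Cfsg

namespace Cfsg.Agent.S2905

/-- Let P be a finite p-minimal group (a Sylow p-subgroup S is not normal and lies in a unique maximal subgroup M of P) and let F be the normal core of M. Then: every subnormal subgroup N of P contained in M satisfies N ∩ S ≤ O_p(P); if O^p(P) has a normal Sylow p-subgroup then the order of P has at most two prime divisors; every normal subgroup N of P either contains O^p(P) or is contained in F; and O^p(P)F ⧸ F is a minimal normal subgroup of P ⧸ F. -/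
theorem result {P : Type*} [Group P] [Finite P] {p : ℕ} [Fact p.Prime] (hP : Cfsg.IsPMinimal p P) (S : Sylow p P) (M : Subgroup P) (hM : IsCoatom M) (hSM : (S : Subgroup P) ≤ M) [hF : M.normalCore.Normal] : (∀ N : Subgroup P, N.IsSubnormal → N ≤ M → N ⊓ (S : Subgroup P) ≤ Cfsg.pCore p P) ∧ ((∀ T : Sylow p ↥(Cfsg.pResidual p P), (T : Subgroup ↥(Cfsg.pResidual p P)).Normal) → (Nat.card P).primeFactors.card ≤ 2) ∧ (∀ N : Subgroup P, N.Normal → Cfsg.pResidual p P ≤ N ∨ N ≤ M.normalCore) ∧ (∀ N : Subgroup P, N.Normal → M.normalCore ≤ N → N ≤ Cfsg.pResidual p P ⊔ M.normalCore → N = M.normalCore ∨ N = Cfsg.pResidual p P ⊔ M.normalCore) ∧ M.normalCore < Cfsg.pResidual p P ⊔ M.normalCore := by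
  open H9 Subgroup in open scoped commutatorElement in
  have hS := syl_top_of_sylow S
  obtain ⟨M', h1⟩ := um_top_iff.1 (hP S).2
  obtain rfl := h1.eq_of_coatom hM hSM
  have h3 : ∀ N : Subgroup P, N.Normal → pResidual p P ≤ N ∨ N ≤ M'.normalCore := fun N _ =>
    or_iff_not_imp_left.2 fun e => normal_le_normalCore.2
      (h1.le_of_not_Ores_le hS le_top le_normalizer_of_normal (by rwa [Ores_top]))
  refine ⟨fun N a1 a2 => ?_, fun h => ?_, h3, fun N a1 a2 a3 => ?_, lt_of_le_not_ge le_sup_right fun e => ?_⟩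
  · rw [← Op_top]
    exact (h1.pcl hS le_rfl M'.normalCore_le le_normalizer_of_normal).le_Op_of_sn (SN.of_normal_top _)
      (inf_le_left.trans ((sn_top_iff.2 a1).le_normalCore hM a2)) (hS.isP.to_le inf_le_right)
  · let f := QuotientGroup.mk' (pCore p P)
    have hf : Function.Surjective f := QuotientGroup.mk'_surjective _
    have hk : f.ker = Op p ⊤ := by rw [QuotientGroup.ker_mk', Op_top]
    have a1 := h1.map f (by rw [hk]; exact inf_le_left.trans (hS.Op_le.trans hSM))
    have a2 := hS.map f
    rw [map_top_of_surjective f hf] at a1 a2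
    have a3 : Ores p (⊤ : Subgroup (P ⧸ pCore p P)) = (Ores p ⊤).map f := by
      rw [Ores_top, Ores_top, H2.map_pResidual_of_surjective p f hf]
    obtain ⟨T⟩ : Nonempty (Sylow p (pResidual p P)) := inferInstance
    have a4 := syl_of_sylow T
    have := h T
    obtain ⟨q, hq, a5⟩ := a1.exists_q a2 (by
      rw [a3, Ores_top, ← (a4.map f).eq_bot_iff, Subgroup.map_eq_bot_iff, hk]
      exact ((SN.of_normal a4.le (map_subtype_le_normalizer _)).trans (SN.of_normal_top _)).le_Op a4.isP)
    obtain ⟨a, ha⟩ := _root_.L.exists_card_eq_pow a5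
    obtain ⟨b, hb⟩ := _root_.L.exists_card_eq_pow a2.isP
    obtain ⟨c, hc⟩ := _root_.L.exists_card_eq_pow (pCore_p (G := P) p)
    have a6 := card_sup_dvd (a2.le.trans (le_normalizer_Ores p ⊤))
    rw [sup_comm, a2.Ores_sup, card_top, ha, hb] at a6
    refine (Finset.card_le_card (t := {p, q}) fun r hr => ?_).trans Finset.card_le_two
    have hr' := Nat.prime_of_mem_primeFactors hr
    have := Nat.dvd_of_mem_primeFactors hr
    rw [card_eq_card_quotient_mul_card_subgroup (pCore p P), hc] at this
    have e : ∀ s k : ℕ, s.Prime → r ∣ s ^ k → r = s := fun s k hs h =>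
      (Nat.prime_dvd_prime_iff_eq hr' hs).1 (hr'.dvd_of_dvd_pow h)
    rcases hr'.dvd_mul.1 this with h | h
    · rcases hr'.dvd_mul.1 (h.trans a6) with h | h
      exacts [by simp [e _ _ Fact.out h], by simp [e _ _ hq.out h]]
    · simp [e _ _ Fact.out h]
  · exact (h3 N a1).symm.imp (le_antisymm · a2) fun h => le_antisymm a3 (sup_le h a2)
  · refine h1.lt.not_ge (hS.Ores_sup.ge.trans (sup_le ?_ hSM))
    rw [Ores_top]; exact (le_sup_left.trans e).trans M'.normalCore_le

end Cfsg.Agent.S2905
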