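import Cfsg.Statements.S2906
import Cfsg.Agent.H9.LE1

set_option autoImplicit false
open Cfsg

namespace Cfsg.Agent.S2906

/-- Let P be a finite p-minimal group with O_p(P) = 1, S a Sylow p-subgroup of P and K a component of P. Then O^p(P) = F*(P) = E(P) is generated by the S-conjugates of K, and the subgroup K·N_S(K) is again p-minimal. -/
theorem result {P : Type*} [Group P] [Finite P] {p : ℕ} [Fact p.Prime] (hP : Cfsg.IsPMinimal p P) (hOp : Cfsg.pCore p P = ⊥) (S : Sylow p P) (K : Subgroup P) (hK : Cfsg.IsComponent K) : Cfsg.pResidual p P = Cfsg.generalizedFittingSubgroup P ∧ Cfsg.generalizedFittingSubgroup P = Cfsg.layer P ∧ Cfsg.layer P = ⨆ s : ↥(S : Subgroup P), K.map (MulAut.conj (s : P)).toMonoidHom ∧ Cfsg.IsPMinimal p ↥(K ⊔ ((S : Subgroup P) ⊓ Subgroup.normalizer (K : Set P))) := by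
  open H9 Subgroup in open scoped commutatorElement in
  have hS := syl_top_of_sylow S
  obtain ⟨M, h1⟩ := um_top_iff.1 (hP S).2
  rw [← Op_top] at hOp
  replace hK := comp_top_iff.2 hK
  have h2 : ∀ N : Subgroup P, N.Normal → K ≤ N → Ores p ⊤ ≤ N := fun N _ a1 => by_contra fun e => by
    have a2 := h1.le_of_not_Ores_le hS le_top le_normalizer_of_normal e
    have a3 := hS.inf_normal (N := N) le_top le_normalizer_of_normal
    have a4 := a3.eq_bot_iff.1 (eq_bot_iff.2 (hOp ▸ (h1.pcl hS le_rfl a2 le_normalizer_of_normal).le_Op_of_sn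
      (SN.of_normal_top N) a3.le a3.isP))
    have a5 := le_frattini_of_cop a4 hS fun X b1 b2 => h1.eq_of_not_le b1 le_top fun e' =>
      h1.lt.not_ge (b2 ▸ sup_le e' a2)
    have := frattini_nilpotent (G := P)
    exact hK.qs.not_le_solvable (inferInstance : Group.IsSolvable (frattini P)) (a1.trans a5)
  have h3 := h2 _ (normal_of_top_le (le_normalizer_Lay ⊤)) hK.le_Lay
  have h4 := Fst_le_Ores hOp
  have h5 : Lay ⊤ ≤ ncl K S := h4.trans' (Lay_le_Fst ⊤) |>.trans (h2 _ (normal_of_top_le (by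
    rw [← hS.Ores_sup]
    exact sup_le (h3.trans (normalizer_iSup fun s =>
      (hK.cj_of_mem (le_normalizer (mem_top (s : P)))).Lay_le_normalizer)) (le_normalizer_ncl _ _))) (le_ncl _ _))
  rw [← Ores_top, ← Fst_top, ← Lay_top]
  refine ⟨le_antisymm (h3.trans (Lay_le_Fst ⊤)) h4, le_antisymm (h4.trans h3) (Lay_le_Fst ⊤), le_antisymm
    (h5.trans (ncl_le_iff.2 fun s hs => le_iSup (fun s : (S : Subgroup P) => cj (s : P) K) ⟨s, hs⟩))
    (iSup_le fun s => (hK.cj_of_mem (le_normalizer (mem_top (s : P)))).le_Lay), ?_⟩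
  obtain ⟨S₀, hS₀⟩ : ∃ S₀, (S : Subgroup P) ⊓ normalizer (K : Set P) = S₀ := ⟨_, rfl⟩
  subst hS₀
  set S₀ := (S : Subgroup P) ⊓ normalizer (K : Set P)
  have a0 := hS.inf_sn hK.sn
  have a1 : (S : Subgroup P) ⊓ K ≤ S₀ := inf_le_inf_left _ le_normalizer
  have a2 : Syl p S₀ (K ⊔ S₀) := ⟨le_sup_right, hS.isP.to_le inf_le_left, by
    rw [sup_comm, H2.relIndex_sup_of_le_normalizer' inf_le_right]
    exact fun e => a0.not_dvd (e.trans (relIndex_dvd_of_le_left K a1))⟩
  refine (pmin_iff a2).2 (a2.mn (M := M ⊓ (K ⊔ S₀)) ⟨le_inf (inf_le_left.trans h1.le) le_sup_right,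
    lt_of_le_not_ge inf_le_right fun e => ?_, fun X b1 b2 => le_inf ?_ b2.le⟩ fun e => ?_)
  · refine h1.lt.not_ge (hS.Ores_sup.ge.trans (sup_le ((h3.trans h5).trans (ncl_le_iff.2 fun s hs => ?_)) h1.le))
    exact cj_le_of_mem (h1.le hs) (le_sup_left.trans (e.trans inf_le_left))
  · have c1 : S₀ ⊔ (K ⊓ X) = X := by
      have := dedekind (A := S₀) (B := K) (C := X) b1 (.inl inf_le_right)
      rw [sup_comm S₀ K, inf_eq_right.2 b2.le] at this
      exact this.symm
    have c2 : S₀ ≤ normalizer ((K ⊓ X : Subgroup P) : Set P) := normalizer_inf inf_le_right (b1.trans le_normalizer)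
    suffices c7 : ncl (K ⊓ X) (S : Subgroup P) ⊔ (S : Subgroup P) ≠ ⊤ by
      have c8 : ncl (K ⊓ X) (S : Subgroup P) ⊔ (S : Subgroup P) ≤ M := h1.max _ le_sup_right (lt_top_iff_ne_top.2 c7)
      have c9 : K ⊓ X ≤ M := ((le_ncl (K ⊓ X) (S : Subgroup P)).trans le_sup_left).trans c8
      rw [← c1]
      exact sup_le (inf_le_left.trans h1.le) c9
    intro e
    refine b2.not_ge (sup_le ?_ b1)
    have c3 := (hK.le_Lay.trans ((Lay_le_Fst ⊤).trans h4)).trans
      (Ores_le_of_sup hS.isP (le_normalizer_ncl _ _) e.ge)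
    have c4 : ncl (K ⊓ X) S ≤ (K ⊓ X) ⊔ centralizer (K : Set P) := ncl_le_iff.2 fun s hs => by
      rcases (hK.cj_of_mem (le_normalizer (mem_top s))).eq_or_comm hK with e' | e'
      · rw [mem_normalizer_iff_cj.1 (c2 ⟨hs, mem_normalizer_iff_cj.2 e'⟩)]; exact le_sup_left
      · exact ((cj_mono s inf_le_left).trans (le_centralizer_iff'.2 e')).trans le_sup_right
    have c5 : centralizer (K : Set P) ≤ normalizer ((K ⊓ X : Subgroup P) : Set P) :=
      (centralizer_anti inf_le_left).trans (centralizer_le_normalizer' _)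
    have c6 := (le_inf (c3.trans c4) le_rfl).trans (dedekind (A := K ⊓ X) (C := K) inf_le_left (.inr c5)).le
    exact (le_of_perfect_of_le_sup hK.qs.perfect (inf_le_left.trans c5) (isSolvable_of_comm'
      (inf_comm K _ ▸ _root_.L.isMulCommutative_inf_centralizer K)) c6).trans inf_le_right
  · have c1 := a0.eq_bot_iff.1 (eq_bot_iff.2 (hOp ▸ (le_inf (a1.trans (a2.eq_Op e).le) inf_le_right).trans
      ((Op_inf_le le_sup_left).trans hK.sn.Op_le_Op)))
    obtain ⟨q, _, c2⟩ := h1.exists_q hS (cop_of_le (Op'_cop p ⊤) ((h3.trans h5).trans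
      (ncl_le (hK.sn.le_Op' c1) (le_top.trans (le_normalizer_Op' p ⊤)))))
    exact hK.qs.not_le_solvable (isSolvable_of_isPGroup c2) (hK.le_Lay.trans ((Lay_le_Fst ⊤).trans h4))

end Cfsg.Agent.S2906
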