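import Cfsg.Statements.S2907
import Cfsg.Agent.H9.LE1

set_option autoImplicit false
open Cfsg

namespace Cfsg.Agent.S2907

/-- Let X be a finite semi-extraspecial p-group and x an element of X outside the centre. Then the index of C_X(x) in X equals the order of Z(X), and the commutators [x, y], y ∈ X, form exactly the centre Z(X). -/
theorem result {X : Type*} [Group X] [Finite X] {p : ℕ} [Fact p.Prime] (hX : Cfsg.IsSemiExtraspecial p X) (x : X) (hx : x ∉ Subgroup.center X) : (Subgroup.centralizer ({x} : Set X)).index = Nat.card ↥(Subgroup.center X) ∧ {z : X | ∃ y : X, z = x * y * x⁻¹ * y⁻¹} = (Subgroup.center X : Set X) := by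
  open H9 Subgroup in open scoped commutatorElement in
  obtain ⟨⟨h1, -, h2⟩, h3⟩ := hX
  have hc : ∀ y : X, x * y * x⁻¹ * y⁻¹ ∈ center X := fun y =>
    h2 ▸ commutator_mem_commutator (mem_top x) (mem_top y)
  let φ : X →* X := MonoidHom.mk' (fun y => x * y * x⁻¹ * y⁻¹) fun a b => by
    rw [show x * (a * b) * x⁻¹ * (a * b)⁻¹ = x * a * x⁻¹ * (x * b * x⁻¹ * b⁻¹) * a⁻¹ by group, mul_assoc _ _ a⁻¹,
      ← mem_center_iff.1 (hc b)]
    group
  have h4 : φ.range ≤ center X := by rintro _ ⟨y, rfl⟩; exact hc y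
  have h5 : φ.range = center X := by
    by_contra e
    obtain ⟨Y, a1, a2⟩ := (eq_top_or_exists_le_coatom (φ.range.subgroupOf (center X))).resolve_left fun e' =>
      e (le_antisymm h4 (subgroupOf_eq_top.1 e'))
    obtain ⟨_, a3, a4⟩ := h3 (Y.map (center X).subtype) (map_subtype_le Y) (by rwa [subgroupOf_map_subtype'])
    let f := QuotientGroup.mk' (Y.map (center X).subtype)
    have hf : Function.Surjective f := QuotientGroup.mk'_surjective _
    have a5 : f x ∈ center _ := mem_center_iff.2 fun g => by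
      obtain ⟨g, rfl⟩ := hf g
      have : f (φ g) = 1 := (QuotientGroup.eq_one_iff _).2 ⟨⟨_, hc g⟩, a2 ⟨g, rfl⟩, rfl⟩
      simp only [φ, MonoidHom.mk'_apply, map_mul, map_inv] at this
      rw [← mul_inv_eq_one, ← inv_eq_one, ← this]; group
    rw [← a3.2.2, commutator_def, ← map_top_of_surjective f hf, ← map_commutator, ← commutator_def, h2,
      ← mem_comap, comap_map_eq, QuotientGroup.ker_mk', sup_eq_left.2 (map_subtype_le Y)] at a5
    exact hx a5
  refine ⟨?_, by rw [← h5]; exact Set.ext fun z => exists_congr fun y => eq_comm⟩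
  rw [← h5, ← index_ker]
  congr 1
  ext y
  rw [mem_centralizer_singleton_iff, MonoidHom.mem_ker]
  simp only [φ, MonoidHom.mk'_apply]
  rw [mul_inv_eq_one, mul_inv_eq_iff_eq_mul, eq_comm]

end Cfsg.Agent.S2907
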