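import Cfsg.Statements.S2909
import Cfsg.Agent.H9.LE1

set_option autoImplicit false
open Cfsg

namespace Cfsg.Agent.S2909

/-- Let p be a prime, E a normal p-subgroup of the finite group G, and U a non-cyclic elementary abelian p-subgroup of G such that either C_E(U) = C_E(u) for every nontrivial u ∈ U, or [E, U] = [E, ⟨u⟩] for every nontrivial u ∈ U. If R is a subgroup of order prime to p normalized by U, then [R, U] centralizes E. -/
theorem result {G : Type*} [Group G] [Finite G] {p : ℕ} [Fact p.Prime] (E : Subgroup G) [E.Normal] (hE : IsPGroup p ↥E) (U : Subgroup G) (hU : Cfsg.IsElementaryAbelian p U) (hnc : ¬ IsCyclic ↥U) (hcond : (∀ u ∈ U, u ≠ 1 → E ⊓ Subgroup.centralizer (U : Set G) = E ⊓ Subgroup.centralizer ({u} : Set G)) ∨ (∀ u ∈ U, u ≠ 1 → ⁅E, U⁆ = ⁅E, Subgroup.zpowers u⁆)) (R : Subgroup G) (hR : ¬ p ∣ Nat.card ↥R) (hRU : U ≤ Subgroup.normalizer (R : Set G)) : ⁅R, U⁆ ≤ Subgroup.centralizer (E : Set G) := by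
  open H9 Subgroup in open scoped commutatorElement in
  have hR' := cop_iff.2 hR
  have hUp := isPGroup_of_elem hU.2
  rw [← H1.iSup_centralizer_eq hU.1 hnc hRU (card_cop_of_p hUp hR')]
  refine commutator_iSup_le (fun _ => le_normalizer_of_normal) fun u =>
    commutator_iSup_le (fun _ => le_normalizer_of_normal) fun hu => ?_
  have a1 : U ≤ centralizer {u} := le_centralizer_singleton_iff.2 (L.le_centralizer_of_comm hU.1 hu.1)
  have a2 : ⁅R ⊓ centralizer {u}, U⁆ ≤ R ⊓ centralizer {u} :=
    commutator_le_left' (normalizer_inf hRU (normalizer_centralizer_singleton a1))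
  have a3 := cop_of_le hR' (a2.trans inf_le_left)
  have a4 := isPGroup_zpowers_of_mem hUp hu.1
  have a5 : ⁅R ⊓ centralizer {u}, U⁆ ≤ centralizer (zpowers u : Set G) := by
    rw [centralizer_zpowers]; exact a2.trans inf_le_right
  rcases hcond with h | h
  · refine le_centralizer_iff.1 (a_times_b a4 a3 hE a5 le_normalizer_of_normal le_normalizer_of_normal ?_)
    rw [centralizer_zpowers, le_centralizer_iff]
    refine (commutator_mono le_rfl ?_).trans (commutator_le_right' (normalizer_centralizer
      (normalizer_inf le_normalizer_of_normal (normalizer_centralizer_singleton inf_le_right))))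
    rw [← h u hu.1 hu.2, le_centralizer_iff]; exact inf_le_right
  · have n : centralizer {u} ≤ normalizer ((⁅E, zpowers u⁆ : Subgroup G) : Set G) :=
      normalizer_commutator le_normalizer_of_normal (by rw [← centralizer_zpowers]; exact centralizer_le_normalizer' _)
    refine le_centralizer_iff''.2 (commutator_eq_bot_of_le_commutator hE a4 a3 le_normalizer_of_normal
      le_normalizer_of_normal (le_centralizer_iff''.1 a5) ?_)
    rw [commutator_comm]
    refine three_subgroups (inf_le_right.trans n) (a1.trans n) (le_normalizer_commutator_left _ _) ?_ ?_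
    · rw [commutator_comm U, h u hu.1 hu.2]; exact commutator_le_left' (inf_le_right.trans n)
    · rw [← h u hu.1 hu.2]; exact commutator_mono (commutator_le_left _ _) le_rfl

end Cfsg.Agent.S2909
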