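import Cfsg.Statements.S2910
import Cfsg.Agent.H9.LE1

set_option autoImplicit false
open Cfsg

namespace Cfsg.Agent.S2910

/-- Let p be an odd prime dividing the order of the finite group G and P a Sylow p-subgroup of G. If Ω₁(P) (generated by the elements of order dividing p) is contained in the centre of G, then G has a normal p-complement. In particular, if G is quasisimple then Ω₁(P) is not central in G. -/
theorem result {G : Type*} [Group G] [Finite G] {p : ℕ} [Fact p.Prime] (hp : p ≠ 2) (hdiv : p ∣ Nat.card G) (P : Sylow p G) (hZ : Cfsg.omegaOne p (P : Subgroup G) ≤ Subgroup.center G) : Cfsg.HasNormalPComplement p G ∧ ¬ Cfsg.IsQuasisimple G := by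
  open H9 Subgroup in open scoped commutatorElement in
  have h : HasNormalPComplement p G := H2.frobenius P fun Q hQ g hg hc => zpowers_le.1 (le_centralizer_iff.1
    (L.le_centralizer_of_omega_odd hp (by rwa [Nat.card_zpowers]) (P.isPGroup'.to_le hQ) (zpowers_le.2 hg)
      (((L.omegaOne_mono p hQ).trans hZ).trans (center_le_centralizer _))))
  refine ⟨h, fun hq => ?_⟩
  have := H2.hasNormalPComplement_iff_coprime.1 h
  rw [← Ores_top, Ores_eq_of_perfect p (qs_top_iff.2 hq).perfect, card_top] at this
  exact cop_iff.1 this hdiv

end Cfsg.Agent.S2910
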