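import Cfsg.Statements.S2912
import Cfsg.Agent.H1.Q5
import Cfsg.Agent.H1.Q1
import Cfsg.Agent.H1.Q4

set_option autoImplicit false
open Cfsg

namespace Cfsg.Agent.S2912

open scoped commutatorElement
open H1
open Subgroup H9 FT
open scoped commutatorElement

section
variable {G : Type*} [Group G] [Finite G] {p r : ℕ} [hp : Fact p.Prime] [hr : Fact r.Prime] {Q A : Subgroup G} {x y z : G}

theorem c1 (h : WS p Q z) (h0 : A ⊓ centralizer {z} = ⊥) {w : G} (hw : w ∈ zpowers z) (w1 : w ≠ 1) :
    A ⊓ centralizer {w} = ⊥ := by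
  rcases L.eq_or_eq_of_relIndex_prime (N := ⊥) (by rw [relIndex_bot_left, h.card_zp]; exact hp.out) bot_le
    (zpowers_le.2 hw) with e | e
  · exact absurd (zpowers_eq_bot.1 e) w1
  · rwa [← H9.centralizer_zpowers, e, H9.centralizer_zpowers]

theorem pw (hpr : p ≠ r) (h : WS p Q z) (hQ : IsPGroup p Q) (hA : IsElementaryAbelian r A)
    (hn : Q ≤ normalizer (A : Set G)) (h0 : A ⊓ centralizer {z} = ⊥) (hx : x ∈ Q) (hy : y ∈ Q) (e : ⁅x, y⁆ = z) :
    Nat.card (A ⊓ centralizer {x} : Subgroup G) ^ p ≤ Nat.card A := by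
  have cz := h.cen
  have cd : ∀ i : ℕ, Nat.card (A ⊓ centralizer {x * z ^ i} : Subgroup G) = Nat.card (A ⊓ centralizer {x} : Subgroup G) := by
    intro i
    induction i with
    | zero => rw [pow_zero, mul_one]
    | succ i ih =>
      rw [← ih, ← card_cj y, cj_inf, mem_normalizer_iff_cj.1 (hn hy), cj_centralizer_singleton]
      have e2 : x * y = z * y * x := by rw [← e]; group
      rw [show y * (x * z ^ (i + 1)) * y⁻¹ = x * z ^ i from
        calc _ = (y * x * z) * (z ^ i * y⁻¹) := by rw [pow_succ']; group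
          _ = _ := by
            rw [((cz y hy).mul_left (cz x hx)).eq, ← mul_assoc z, ← e2, ← ((cz y hy).inv_left.pow_right i).eq]; group]
  have m : ∀ i : ℕ, x * z ^ i ∈ Q := fun i => Q.mul_mem hx (Q.pow_mem h.mem i)
  have nm : ∀ i j : ℕ, zpowers (x * z ^ j) ≤ normalizer ((A ⊓ centralizer {x * z ^ i} : Subgroup G) : Set G) :=
    fun i j => normalizer_inf ((zpowers_le.2 (m j)).trans hn) (normalizer_centralizer_singleton (zpowers_le.2
      (mem_centralizer_singleton_iff.2 (((Commute.refl x).mul_right ((cz x hx).pow_right i)).mul_left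
        (((cz x hx).symm.pow_left j).mul_right (Commute.pow_pow_self z j i))).eq)))
  have key : ∀ k ≤ p, ∃ T ≤ A, (∀ j : ℕ, zpowers (x * z ^ j) ≤ normalizer (T : Set G)) ∧
      Nat.card T = Nat.card (A ⊓ centralizer {x} : Subgroup G) ^ k ∧
      ∀ j, k ≤ j → j < p → T ⊓ centralizer {x * z ^ j} = ⊥ := by
    intro k hk
    induction k with
    | zero => exact ⟨⊥, bot_le, fun j => nrm _ _, by simp, fun _ _ _ => bot_inf_eq _⟩
    | succ k ih =>
      obtain ⟨T, t1, t2, t3, t4⟩ := ih (by omega)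
      have n := le_normalizer_of_le_comm hA.1 t1 (inf_le_left (b := centralizer {x * z ^ k}))
      refine ⟨T ⊔ (A ⊓ centralizer {x * z ^ k}), sup_le t1 inf_le_left, fun j => normalizer_sup (t2 j) (nm k j), ?_,
        fun j h1 h2 => ?_⟩
      · rw [card_sup_of_disjoint n (le_bot_iff.1 ((inf_le_inf_left _ inf_le_right).trans (t4 k le_rfl hk).le)), t3, cd,
          pow_succ]
      have f := ((fac_of_normalizer (.inl n)).fixed (hQ.to_le (zpowers_le.2 (m j))) (cop_of_le
        (cop_of_isPGroup_ne hpr.symm (elem_isP hA)) (sup_le t1 inf_le_left)) (t2 j) (nm k j)).sup_eq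
      rw [H9.centralizer_zpowers, t4 j (by omega) h2, bot_sup_eq] at f
      refine f.symm.trans (le_bot_iff.1 (le_trans (fun a ha => mem_inf.2 ⟨ha.1.1, ?_⟩)
        (c1 h h0 (npow_mem_zpowers z (j - k)) fun t => ?_).le))
      · rw [show z ^ (j - k) = (x * z ^ k)⁻¹ * (x * z ^ j) by
          rw [mul_inv_rev, mul_assoc, inv_mul_cancel_left, eq_inv_mul_iff_mul_eq, ← pow_add]; congr 1; omega]
        exact mem_centralizer_singleton_iff.2 ((Commute.inv_right (mem_centralizer_singleton_iff.1 ha.1.2)).mul_right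
          (mem_centralizer_singleton_iff.1 ha.2)).eq
      · have := Nat.le_of_dvd (by omega) (h.ord ▸ orderOf_dvd_of_pow_eq_one t)
        omega
  obtain ⟨T, t1, -, t3, -⟩ := key p le_rfl
  exact t3 ▸ card_le_of_le t1

theorem main (hpr : p ≠ r) {n : ℕ} (hmin : ∀ k : ℕ, 1 ≤ k → p ∣ r ^ k - 1 → n ≤ k) (m : ℕ) : ∀ {Q A : Subgroup G},
    XP p m Q z → IsElementaryAbelian r A → Q ≤ normalizer (A : Set G) → A ⊓ centralizer {z} = ⊥ → A ≠ ⊥ →
    r ^ (n * p ^ m) ≤ Nat.card A := by
  induction m with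
  | zero =>
    intro Q A h hA hn h0 h1
    obtain ⟨k, hk⟩ := L.exists_card_eq_pow (elem_isP hA)
    have := card_modEq_card_inf_centralizer (L.isPGroup_of_card (n := 1) (by rw [h.card_zp, pow_one])) (h.zle.trans hn)
    rw [H9.centralizer_zpowers, h0, card_bot, hk] at this
    rw [hk, pow_zero, mul_one]
    refine Nat.pow_le_pow_right hr.out.pos (hmin k (Nat.pos_of_ne_zero ?_)
      ((Nat.modEq_iff_dvd' (Nat.one_le_pow _ _ hr.out.pos)).1 this.symm))
    rintro rfl
    exact h1 (eq_bot_of_card_eq _ hk)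
  | succ m ih =>
    intro Q A h hA hn h0 h1
    have hQ : IsPGroup p Q := L.isPGroup_of_card h.cd
    by_cases c : ∃ x ∈ Q, x ∉ zpowers z ∧ x ^ p = 1
    · obtain ⟨x, hx, x1, x2⟩ := c
      have l := sup_le h.zle (zpowers_le.2 hx)
      have xc : x ∈ centralizer (zpowers z : Set G) := by
        rw [H9.centralizer_zpowers]; exact mem_centralizer_singleton_iff.2 (h.cen x hx).eq
      have cm := L.isMulCommutative_sup_zpowers (L.isMulCommutative_zpowers z) xc
      have hB : IsElementaryAbelian p (zpowers z ⊔ zpowers x) := ⟨cm, fun g hg => L.omegaOne_exp_of_comm cm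
        (sup_le (zpowers_le.2 (L.mem_omegaOne (mem_sup_left (mem_zpowers z)) h.zp))
          (zpowers_le.2 (L.mem_omegaOne (mem_sup_right (mem_zpowers x)) x2)) hg)⟩
      obtain ⟨b, hb, b1, b2⟩ : ∃ b ∈ zpowers z ⊔ zpowers x, b ≠ 1 ∧ A ⊓ centralizer {b} ≠ ⊥ := by
        by_contra t
        push Not at t
        refine h1 (le_bot_iff.1 (gen_pt hB (l.trans hn) (cop_of_isPGroup_ne hpr.symm (elem_isP hA)) ?_
          fun b hb b1 => (t b hb b1).le))
        rw [card_sup_zp hQ h.zle hx (Subgroup.centralizer_le_normalizer _ xc) (x2 ▸ one_mem _) x1, h.card_zp, sq]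
      obtain ⟨y, hy, e⟩ := h.pair' (l hb) fun t => b2 (c1 h.toWS h0 t b1)
      have := ih (h.CC (l hb) hy e) (el_le hA inf_le_left) (normalizer_inf ((inf_le_left.trans inf_le_left).trans hn)
        (normalizer_centralizer_singleton (inf_le_left.trans inf_le_right)))
        (le_bot_iff.1 ((inf_le_inf_right _ inf_le_left).trans h0.le)) b2
      rw [pow_succ p, ← mul_assoc, pow_mul]
      exact (Nat.pow_le_pow_left this p).trans (pw hpr h.toWS hQ hA hn h0 (l hb) hy e)
    push Not at c
    obtain ⟨x, hx, x1⟩ := h.exists_nc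
    obtain ⟨y, hy, e⟩ := h.pair' hx x1
    have nc : ¬ Commute x y := fun t => h.ne (e ▸ commutatorElement_eq_one_iff_commute.2 t)
    obtain rfl : p = 2 := by
      by_contra t
      have := isCyclic_of_rk_le_one hQ (.inl t) (rk_le_iff'.2 fun B b1 b2 => by
        rw [pow_one, ← h.card_zp]
        exact card_le_of_le fun g hg => by_contra fun s => c g (b1 hg) s (b2.2 g hg))
      exact nc (ab_comm IsCyclic.isMulCommutative hx hy)
    have sq' : ∀ g ∈ Q, g ∉ zpowers z → g * g = z := fun g hg g1 => by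
      classical
      obtain ⟨k, hk, e⟩ := mem_zpowers_iff_mem_range_orderOf.1 (h.pow h.nd hg) |> Finset.mem_image.1
      rw [h.ord, Finset.mem_range] at hk
      rw [← _root_.sq, ← e]
      interval_cases k
      · exact absurd (e.symm.trans (pow_zero z)) (c g hg g1)
      · exact pow_one z
    obtain rfl : m = 0 := by
      by_contra t
      obtain ⟨m, rfl⟩ := Nat.exists_eq_succ_of_ne_zero t
      obtain ⟨u, hu, u1⟩ := (h.CC hx hy e).exists_nc
      obtain ⟨u2, u3, u4⟩ := mem_CC.1 hu
      refine c (x * u) (Q.mul_mem hx u2) (fun s => nc ?_) ?_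
      · rw [show x = x * u * u⁻¹ by group]
        exact (cm_of_zp (h.cen y hy) s).symm.mul_left u4.inv_left
      · rw [u3.symm.mul_pow, _root_.sq, _root_.sq, sq' x hx x1, sq' u u2 u1, ← _root_.sq, h.zp]
    have n1 := hmin 1 le_rfl (by rw [pow_one]; exact (hr.out.even_sub_one hpr.symm).two_dvd)
    obtain ⟨k, hk⟩ := L.exists_card_eq_pow (elem_isP hA)
    rw [hk]
    refine Nat.pow_le_pow_right hr.out.pos (le_trans (by omega) (show 2 ≤ k from not_lt.1 fun t => h1 ?_))
    have : IsCyclic A := isCyclic_of_card_dvd_prime (p := r) (by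
      rw [hk]; exact (pow_dvd_pow r (Nat.le_of_lt_succ t)).trans (pow_one r).dvd)
    obtain ⟨a, -, rfl⟩ := exists_eq_zpowers_of_isCyclic this
    obtain ⟨i, hi⟩ := L.exists_conj_eq_zpow (hn hx)
    obtain ⟨j, hj⟩ := L.exists_conj_eq_zpow (hn hy)
    have e1 := L.conj_mul_of hi hj
    rw [mul_comm, ← L.conj_mul_of hj hi] at e1
    refine le_bot_iff.1 ((le_inf le_rfl (zpowers_le.2 (mem_centralizer_singleton_iff.2 ?_))).trans h0.le)
    have e2 : x * y = y * x * z := by rw [← ((h.cen y hy).mul_left (h.cen x hx)).symm.eq, ← e]; group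
    rw [e2] at e1
    calc a * z = (y * x)⁻¹ * (y * x * a * (y * x)⁻¹) * (y * x) * z := by group
      _ = _ := by rw [← e1]; group

end

/-- Let p and r be distinct primes, let E be an extraspecial subgroup of order p^(2w+1) of a finite group, and let A be an elementary abelian r-subgroup normalized by E on which E acts faithfully (C_E(A) = 1). If n ≥ 1 is least with p dividing rⁿ − 1 (the smallest dimension of a faithful representation of a group of order p over the field with r elements), then the order of A is at least r^(n·p^w). -/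
theorem result {G : Type*} [Group G] [Finite G] {p r : ℕ} [Fact p.Prime] [hr : Fact r.Prime] (hpr : p ≠ r) (E A : Subgroup G) (w : ℕ) (hE : Cfsg.IsExtraspecial p ↥E) (hEcard : Nat.card ↥E = p ^ (2 * w + 1)) (hA : Cfsg.IsElementaryAbelian r A) (hnorm : E ≤ Subgroup.normalizer (A : Set G)) (hfaith : E ⊓ Subgroup.centralizer (A : Set G) = ⊥) (n : ℕ) (hn : 1 ≤ n) (hdiv : p ∣ r ^ n - 1) (hmin : ∀ k : ℕ, 1 ≤ k → p ∣ r ^ k - 1 → n ≤ k) : r ^ (n * p ^ w) ≤ Nat.card ↥A := by
  obtain ⟨m, z, h⟩ := xp_of hE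
  obtain rfl : w = m + 1 := by
    have := Nat.pow_right_injective (Fact.out : p.Prime).two_le (hEcard.symm.trans h.cd)
    omega
  have n2 : E ≤ normalizer ((⁅A, zpowers z⁆ : Subgroup G) : Set G) := normalizer_commutator hnorm (h.norm h.zle (mem_zpowers z))
  have l : ⁅A, zpowers z⁆ ≤ A := commutator_le_left' (h.zle.trans hnorm)
  refine (main hpr hmin _ h (el_le hA l) n2 ?_ fun t => h.ne (mem_bot.1 (hfaith.le ⟨h.mem, ?_⟩))).trans (card_le_of_le l)
  · refine le_bot_iff.1 (le_trans ?_ (cop_abelian_inf hA.1 (h.zle.trans hnorm) ?_).le)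
    · rw [H9.centralizer_zpowers]
      exact le_inf (inf_le_inf_right _ l) inf_le_left
    · rw [h.card_zp]; exact (cop_of_isPGroup_ne hpr.symm (elem_isP hA)).symm
  · exact zpowers_le.1 (le_centralizer_iff.1 (commutator_eq_bot_iff_le_centralizer.1 t))

end Cfsg.Agent.S2912
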