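import Cfsg.Statements.S2922
import Cfsg.Agent.H9.LE1

set_option autoImplicit false
open Cfsg

namespace Cfsg.Agent.S2922

/-- Let p be a prime, X a finite group, B a p-subgroup of X and C a normal subgroup of B. If N_X(C) has characteristic p (its generalized Fitting subgroup is O_p(N_X(C))), then N_X(B) and C_X(B) have characteristic p. -/
theorem result {X : Type*} [Group X] [Finite X] {p : ℕ} [Fact p.Prime] (B C : Subgroup X) (hB : IsPGroup p ↥B) (hCB : C ≤ B) (hCn : (C.subgroupOf B).Normal) (hC : Cfsg.generalizedFittingSubgroup ↥(Subgroup.normalizer (C : Set X)) = Cfsg.pCore p ↥(Subgroup.normalizer (C : Set X))) : Cfsg.generalizedFittingSubgroup ↥(Subgroup.normalizer (B : Set X)) = Cfsg.pCore p ↥(Subgroup.normalizer (B : Set X)) ∧ Cfsg.generalizedFittingSubgroup ↥(Subgroup.centralizer (B : Set X)) = Cfsg.pCore p ↥(Subgroup.centralizer (B : Set X)) := by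
  open H9 Subgroup in open scoped commutatorElement in
  have h3 := (chp_iff_Fst.2 (Fst_eq_Op_iff.2 hC)).centralizer hB ((normal_subgroupOf_iff_le_normalizer hCB).1 hCn)
  rw [inf_eq_right.2 ((centralizer_anti hCB).trans (centralizer_le_normalizer' C))] at h3
  exact ⟨Fst_eq_Op_iff.1 (chp_iff_Fst.1 (h3.normalizer_of_centralizer hB)), Fst_eq_Op_iff.1 (chp_iff_Fst.1 h3)⟩

end Cfsg.Agent.S2922
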