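import Cfsg.Statements.S2924
import Cfsg.Agent.H9.ZC1
import Cfsg.Agent.H9.LB3
import Cfsg.Agent.H1.Frob

set_option autoImplicit false
open Cfsg

namespace Cfsg.Agent.S2924

section
open H9 Subgroup
open scoped commutatorElement
theorem pl {G : Type*} [Group G] [Finite G] {x z : G} (c : z ∈ centralizer ({x} : Set G)) (z2 : orderOf z = 2)
    (hx : IsPGroup 2 (zpowers x)) (h : Chp 2 (centralizer ({z} : Set G))) (e : Lay (centralizer ({x} : Set G)) = ⊥) :
    PLay 2 (centralizer ({x} : Set G)) = ⊥ ∧ Group.IsSolvable (Op' 2 (centralizer ({x} : Set G))) := by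
  have h1 := h.centralizer hx (zpowers_le_of_mem (ZC.cs c))
  rw [inf_comm, centralizer_zpowers, ← centralizer_zpowers z] at h1
  set C := centralizer ({x} : Set G)
  have n := le_normalizer_Op' 2 C
  have iv : ∀ y ∈ Op' 2 C, z * y * z⁻¹ = y⁻¹ := fun y hy => H1.conj_eq_inv_of_fpf (n c) (eq_bot_iff.2 ((le_inf
    inf_le_left (le_inf (inf_le_left.trans (Op'_le _ _)) (inf_le_right.trans (centralizer_zpowers z).ge))).trans
      ((Op'_inf_le inf_le_left).trans h1.Op'_eq_bot.le))) (by rw [← sq, ZC.sq2 z2]; exact one_mem _) hy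
  have zc := zpowers_le_of_mem c
  have nD : C ≤ normalizer ((C ⊓ centralizer (Op' 2 C : Set G) : Subgroup G) : Set G) :=
    normalizer_inf le_normalizer (normalizer_centralizer n)
  have k : ⁅zpowers z, C⁆ ≤ C ⊓ centralizer (Op' 2 C : Set G) := le_inf (commutator_le_of_le zc le_rfl)
    (commutator_le.2 fun a ha g hg y hy => by
      rcases (H1.mem_zpowers_two z2).1 ha with rfl | rfl
      · simp
      have e1 := iv _ (inv_mem (conj_mem_of_le_normalizer' n hg hy))
      have e2 := iv _ (inv_mem hy)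
      refine (mul_inv_eq_iff_eq_mul.1 ?_).symm
      calc _ = a * g * a⁻¹ * (g⁻¹ * y * g)⁻¹⁻¹ * a * g⁻¹ * a⁻¹ := by rw [commutatorElement_def]; group
        _ = a * y⁻¹ * a⁻¹ := by rw [← e1]; group
        _ = y := by rw [e2, inv_inv])
  refine ⟨PLay_eq_bot_iff'.2 fun K hK => ?_, isSolvable_of_comm' (H1.isMulCommutative_of_conj_eq_inv iv)⟩
  · rcases hK.le_or_comm (U := C ⊓ centralizer (Op' 2 C : Set G) ⊔ zpowers z) (.of_normal (sup_le inf_le_left zc)
      (le_normalizer_of_commutator_le (commutator_sup_le (le_sup_left.trans le_normalizer) (le_sup_right.trans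
        le_normalizer) ((commutator_le_left' nD).trans le_sup_left) (k.trans le_sup_left)) le_rfl)) with l | l
    · have l := le_of_perfect_of_le_sup hK.pqs.perfect (zc.trans nD)
        (isSolvable_of_isPGroup (isPGroup_zpowers_of_orderOf z2)) l
      have s := SN.of_normal inf_le_left nD
      exact hK.pqs.ne_bot (eq_bot_iff.2 ((hK.mono l inf_le_left).le_PLay.trans ((PLay_le_Lay (inf_le_right.trans
        (centralizer_anti s.Op'_le_Op'))).trans (s.Lay_le_Lay.trans e.le))))
    · obtain ⟨L, l, -⟩ := exists_cover hK (isPGroup_zpowers_of_orderOf z2) zc ((commutator_mono le_rfl le_sup_right).trans l)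
      exact PLay_eq_bot_iff'.1 (Fst_eq_Op_iff''.1 (chp_iff_Fst.1 h1)).1 L l
end

/-- Let X be a finite group and Y an elementary abelian 2-subgroup of X of order at least 8 such that C_X(x) has no components (E(C_X(x)) = 1) for every nontrivial x ∈ Y, and F*(C_X(z)) = O₂(C_X(z)) for some nontrivial z ∈ Y. Then the subgroup generated by the cores O(C_X(y)), y ∈ Y nontrivial, has odd order and is normalized by N_X(Y). -/
theorem result {X : Type*} [Group X] [Finite X] (Y : Subgroup X) (hY : Cfsg.IsElementaryAbelian 2 Y) (h8 : 8 ≤ Nat.card ↥Y) (hE : ∀ x ∈ Y, x ≠ 1 → Cfsg.layer ↥(Subgroup.centralizer ({x} : Set X)) = ⊥) (hz : ∃ z ∈ Y, z ≠ 1 ∧ Cfsg.generalizedFittingSubgroup ↥(Subgroup.centralizer ({z} : Set X)) = Cfsg.pCore 2 ↥(Subgroup.centralizer ({z} : Set X))) : Odd (Nat.card ↥(⨆ y : {y : X // y ∈ Y ∧ y ≠ 1}, (Cfsg.oddCore ↥(Subgroup.centralizer ({(y : X)} : Set X))).map (Subgroup.centralizer ({(y : X)} : Set X)).subtype)) ∧ Subgroup.normalizer (Y : Set X)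 ≤ Subgroup.normalizer ((⨆ y : {y : X // y ∈ Y ∧ y ≠ 1}, (Cfsg.oddCore ↥(Subgroup.centralizer ({(y : X)} : Set X))).map (Subgroup.centralizer ({(y : X)} : Set X)).subtype : Subgroup X) : Set X) := by
  open H9 Subgroup in open scoped commutatorElement in
  obtain ⟨z, z1, z2, z3⟩ := hz
  have s : H1.SF 2 Y ZC.th := H1.sf_core hY fun a a1 a2 => pl (ZC.c1 (le_centralizer_iff_isMulCommutative.2 hY.1 z1) a1)
    (H1.elem_orderOf hY z1 z2) (isPGroup_zpowers_of_mem (elem_isP hY) a1) (chp_iff_Fst.2 (Fst_eq_Op_iff.2 z3))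
    (Lay_eq_bot_iff.2 (hE a a1 a2))
  simp only [Op'_eq]
  exact ⟨Nat.coprime_two_right.1 ((s.compl h8).mem s).cop, fun g n => mem_normalizer_iff_cj.2
    ((H1.cj_clo fun _ _ _ => ZC.th_cj).trans (by rw [mem_normalizer_iff_cj.1 n]; rfl))⟩

end Cfsg.Agent.S2924
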