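import Cfsg.Statements.S2925
import Cfsg.Agent.H9.LE1

set_option autoImplicit false
open Cfsg

namespace Cfsg.Agent.S2925

/-- Let K be a component of the finite group X and T a Sylow 2-subgroup of X. If some abelian normal subgroup Y of T does not normalize K, then K ⧸ Z(K) has abelian Sylow 2-subgroups. -/
theorem result {X : Type*} [Group X] [Finite X] (K : Subgroup X) (hK : Cfsg.IsComponent K) (T : Sylow 2 X) (Y : Subgroup X) (hYT : Y ≤ (T : Subgroup X)) (hYn : (Y.subgroupOf (T : Subgroup X)).Normal) (hYab : IsMulCommutative ↥Y) (hnot : ¬ Y ≤ Subgroup.normalizer (K : Set X)) (P : Sylow 2 (↥K ⧸ Subgroup.center ↥K)) : IsMulCommutative ↥(P : Subgroup (↥K ⧸ Subgroup.center ↥K)) := by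
  open H9 Subgroup in open scoped commutatorElement in
  replace hK := comp_top_iff.2 hK
  obtain ⟨y, hy, h1⟩ := SetLike.not_le_iff_exists.1 hnot
  have h2 := ((hK.cj_of_mem (le_normalizer (mem_top y))).eq_or_comm hK).resolve_left
    fun e => h1 (mem_normalizer_iff_cj.2 e)
  have hT := (syl_top_of_sylow T).inf_sn hK.sn
  have hn := (normal_subgroupOf_iff_le_normalizer hYT).1 hYn
  have h3 : ⁅(T : Subgroup X) ⊓ K, (T : Subgroup X) ⊓ K⁆ ≤ centralizer (K : Set X) := commutator_le.2 fun r hr s hs => by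
    have a : ∀ r ∈ (T : Subgroup X) ⊓ K, r * (y * r⁻¹ * y⁻¹) ∈ Y := fun r hr => by
      simpa [mul_assoc] using mul_mem (conj_mem_of_le_normalizer hn hr.1 hy) (inv_mem hy)
    have b : ∀ r ∈ K, ∀ s ∈ K, Commute (y * r⁻¹ * y⁻¹) s := fun r hr s hs =>
      _root_.L.commute_of_commutator_eq_bot h2 (conj_mem_cj (inv_mem hr)) hs
    have c := comm_of_mem_centralizer (_root_.L.le_centralizer_of_comm hYab (a r hr)) (a s hs)
    have d : ⁅r, s⁆ ∈ cj y K := by
      have e1 := (b r hr.2 s hs.2).eq
      have e2 := (b s hs.2 r hr.2).eq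
      have m1 : y * r⁻¹ * y⁻¹ ∈ cj y K := conj_mem_cj (inv_mem hr.2)
      have m2 : y * s⁻¹ * y⁻¹ ∈ cj y K := conj_mem_cj (inv_mem hs.2)
      generalize y * r⁻¹ * y⁻¹ = r' at *
      generalize y * s⁻¹ * y⁻¹ = s' at *
      have e3 : s * r * (s' * r') = r * s * (r' * s') := by
        calc s * r * (s' * r') = s * (r * s') * r' := by group
          _ = s * s' * (r * r') := by rw [← e2]; group
          _ = r * (r' * s) * s' := by rw [c]; group
          _ = _ := by rw [e1]; group
      have e4 : (s * r)⁻¹ * (r * s) ∈ cj y K := by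
        rw [show (s * r)⁻¹ * (r * s) = (s' * r') * (r' * s')⁻¹ by
          rw [inv_mul_eq_iff_eq_mul, ← mul_assoc, e3]; group]
        exact mul_mem (mul_mem m2 m1) (inv_mem (mul_mem m1 m2))
      have := conj_mem_of_le_normalizer ((le_centralizer_iff''.2 h2).trans (centralizer_le_normalizer' _))
        (mul_mem hs.2 hr.2) e4
      rwa [show s * r * ((s * r)⁻¹ * (r * s)) * (s * r)⁻¹ = ⁅r, s⁆ by group] at this
    exact le_centralizer_iff'.2 h2 d
  obtain ⟨R, hR⟩ := hT.exists_sylow
  let f := QuotientGroup.mk' (center K)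
  have h4 := (syl_top_of_sylow R).map f
  rw [map_top_of_surjective f (QuotientGroup.mk'_surjective _)] at h4
  obtain ⟨g, -, e⟩ := h4.conj (syl_top_of_sylow P)
  rw [← _root_.L.commutator_eq_bot_iff_comm, ← e, ← cj_commutator, cj_eq_bot_iff, ← map_commutator,
    Subgroup.map_eq_bot_iff, QuotientGroup.ker_mk', ← map_le_map_iff_of_injective K.subtype_injective,
    map_center_subtype, map_commutator, hR]
  exact le_inf (commutator_le_of_le inf_le_right inf_le_right) h3

end Cfsg.Agent.S2925
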