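import Cfsg.Statements.S2929
import Mathlib
import Cfsg.Agent.H9.Comp
import Cfsg.Agent.H3.Galois
import Cfsg.Agent.H4.Cov

set_option autoImplicit false
open Cfsg

namespace Cfsg.Agent.S2929

open scoped Pointwise
open Equiv Subgroup
open scoped commutatorElement

lemma dich {G : Type*} [Group G] {L T : Subgroup G} (hL : H9.QS L) (h1 : L ≤ normalizer (T : Set G)) (h2 : T ≤ normalizer (L : Set G)) :
    L ≤ T ∨ T ≤ centralizer (L : Set G) := by
  have a1 : ⁅L, T⁆ ≤ L := commutator_le.2 fun l hl t ht => by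
    have := (mem_normalizer_iff.1 (h2 ht) l⁻¹).1 (L.inv_mem hl)
    have := L.mul_mem hl this
    simpa [commutatorElement_def, mul_assoc] using this
  have a2 : ⁅L, T⁆ ≤ T := commutator_le.2 fun l hl t ht => by
    have := (mem_normalizer_iff.1 (h1 hl) t).1 ht
    exact T.mul_mem this (T.inv_mem ht)
  rcases hL.normal _ a1 (normalizer_commutator_ge_left _ _) with h | h
  · exact Or.inl (h ▸ a2)
  · right
    have b1 : ⁅⁅L, T⁆, L⁆ = ⊥ := commutator_eq_bot_iff_le_centralizer.2 h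
    have b2 : ⁅⁅T, L⁆, L⁆ = ⊥ := by rw [commutator_comm T L]; exact b1
    have b3 := commutator_commutator_eq_bot_of_rotate b1 b2
    rw [hL.perfect, commutator_comm] at b3
    exact commutator_eq_bot_iff_le_centralizer.1 b3

variable {Ω : Type} [Fintype Ω] [DecidableEq Ω]

lemma nocent {L : Subgroup (Perm Ω)} (hL : H9.QS L) {t : Perm Ω} (ht : t.IsThreeCycle) (h1 : t ∈ L) (h2 : t ∈ centralizer (L : Set (Perm Ω))) : False := by
  obtain ⟨x, hx, hc⟩ := ht.isCycle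
  have hcm : ∀ l ∈ L, ∀ (i : ℤ) y, l ((t ^ i) y) = (t ^ i) (l y) := fun l hl i y =>
    congrArg (fun f : Perm Ω => f y) (Commute.zpow_right (show Commute l t from mem_centralizer_iff.1 h2 l hl) i).eq
  have hp : ∀ l ∈ L, ∃ i : ℤ, (t ^ i) x = l x := fun l hl => hc (fun e => hx (l.injective (by
    have := hcm l hl 1 x
    rw [zpow_one] at this
    rw [this, e])))
  have : ⁅L, L⁆ ≤ MulAction.stabilizer (Perm Ω) x := commutator_le.2 fun a ha b hb => by
    obtain ⟨i, hi⟩ := hp a ha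
    obtain ⟨j, hj⟩ := hp b hb
    have e1 : a⁻¹ x = (t ^ (-i)) x := by
      rw [Perm.inv_eq_iff_eq, hcm a ha, ← hi, ← Perm.mul_apply, ← zpow_add]; simp
    have e2 : b⁻¹ x = (t ^ (-j)) x := by
      rw [Perm.inv_eq_iff_eq, hcm b hb, ← hj, ← Perm.mul_apply, ← zpow_add]; simp
    show a (b (a⁻¹ (b⁻¹ x))) = x
    rw [e2, hcm _ (L.inv_mem ha), e1, hcm b hb, hcm b hb, ← hj, hcm a ha, hcm a ha, hcm a ha, ← hi]
    simp only [← Perm.mul_apply, ← zpow_add]
    rw [show -j + (-i + (j + i)) = 0 by ring]; rfl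
  rw [hL.perfect] at this
  exact hx (this h1)

def AA (Δ : Finset Ω) : Subgroup (Perm Ω) := (alternatingGroup Δ).map (Perm.ofSubtype : Perm Δ →* Perm Ω)

lemma mem_AA {Δ : Finset Ω} {g : Perm Ω} : g ∈ AA Δ ↔ (∀ x, g x ≠ x → x ∈ Δ) ∧ Perm.sign g = 1 := by
  rw [AA, alternatingGroup.map_ofSubtype, mem_inf, Perm.mem_range_ofSubtype_iff, Perm.mem_alternatingGroup]
  refine and_congr_left fun _ => ⟨fun h x hx => h (Finset.mem_coe.2 (Perm.mem_support.2 hx)), fun h x hx => h x (Perm.mem_support.1 (Finset.mem_coe.1 hx))⟩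

lemma form {t : Perm Ω} (ht : t.IsThreeCycle) {x : Ω} (hx : t x ≠ x) :
    ∃ y z, x ≠ y ∧ x ≠ z ∧ y ≠ z ∧ t = swap x y * swap x z := by
  have h3 : ∀ p, t (t (t p)) = p := fun p => by
    have := pow_orderOf_eq_one t
    rw [ht.orderOf] at this
    simpa [pow_succ] using congrArg (· p) this
  have h2 : t (t x) ≠ x := fun e => hx (by have := h3 x; rwa [e] at this)
  have := (ht.eq_swap_mul_swap_iff_mem_support (a := t (t x))).2 (by simpa using hx)
  rw [h3, swap_comm] at this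
  exact ⟨_, _, h2.symm, hx.symm, fun e => hx (t.injective e), this⟩

omit [Fintype Ω] in
lemma sw5 {x u y z : Ω} (n1 : x ≠ u) (e1 : x ≠ y) (e2 : x ≠ z) (m1 : y ≠ u) (m3 : z ≠ u) (e3 : y ≠ z) :
    (swap u y * swap u z)⁻¹ * (swap x y * swap x z) = swap x y * swap x u := by
  ext w
  simp only [mul_inv_rev, swap_inv, Perm.mul_apply, swap_apply_def]
  grind

lemma cls (H : Subgroup (Perm Ω)) {t0 : Perm Ω} (ht0 : t0.IsThreeCycle) (h0 : t0 ∈ H) :
    ∃ Δ : Finset Ω, t0 ∈ AA Δ ∧ AA Δ ≤ H ∧ ∀ t ∈ H, t.IsThreeCycle → ∀ x ∈ Δ, t x ≠ x → t ∈ AA Δ := by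
  classical
  obtain ⟨a, ha, -⟩ := ht0.isCycle
  obtain ⟨b, c, hab, hac, hbc, rfl⟩ := form ht0 ha
  let R : Ω → Ω → Prop := fun x y => x = y ∨ swap x y * swap a b ∈ H
  have Rs : ∀ x y, R x y → R y x := fun x y h => h.imp Eq.symm (by rw [swap_comm y x]; exact id)
  have hm : ∀ s s' : Perm Ω, s' * s' = 1 → s * swap a b ∈ H → s' * swap a b ∈ H → s * s' ∈ H := fun s s' e h h' => by
    have := H.mul_mem h (H.inv_mem h')
    rwa [mul_inv_rev, mul_assoc, mul_inv_cancel_left, inv_eq_of_mul_eq_one_right e] at this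
  have Rt : ∀ x y z, R x y → R y z → R x z := by
    rintro x y z (rfl | h1) h2
    · exact h2
    rcases h2 with rfl | h2
    · exact Or.inr h1
    by_cases e : x = z
    · exact Or.inl e
    by_cases e1 : x = y
    · rw [e1]; exact Or.inr h2
    right
    have := H.mul_mem (hm _ _ (swap_mul_self _ _) h2 h1) h2
    rwa [← mul_assoc, swap_comm x y, swap_comm y z, swap_mul_swap_mul_swap e1 e |> fun _ => (by
      have := swap_apply_apply (swap z y) y x
      rw [swap_apply_right, swap_apply_of_ne_of_ne e e1, swap_inv] at this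
      rw [← this, swap_comm] : swap z y * swap y x * swap z y = swap x z)] at this
  let Δ := Finset.univ.filter (R a)
  have hΔ : ∀ x, x ∈ Δ ↔ R a x := fun x => by simp [Δ]
  have hR : ∀ x ∈ Δ, ∀ y ∈ Δ, x ≠ y → swap x y * swap a b ∈ H := fun x hx y hy e =>
    (Rt _ _ _ (Rs _ _ ((hΔ x).1 hx)) ((hΔ y).1 hy)).resolve_left e
  have haΔ : a ∈ Δ := (hΔ a).2 (Or.inl rfl)
  have hbΔ : b ∈ Δ := (hΔ b).2 (Or.inr (by rw [swap_mul_self]; exact H.one_mem))
  have hcΔ : c ∈ Δ := (hΔ c).2 (Or.inr (by simpa using H.inv_mem h0))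
  have hin : ∀ x ∈ Δ, ∀ y ∈ Δ, ∀ z ∈ Δ, x ≠ y → x ≠ z → swap x y * swap x z ∈ AA Δ := by
    intro x hx y hy z hz e1 e2
    refine mem_AA.2 ⟨fun u hu => ?_, by rw [map_mul, Perm.sign_swap e1, Perm.sign_swap e2]; simp⟩
    by_contra hn
    have n1 : u ≠ x := by rintro rfl; exact hn hx
    have n2 : u ≠ y := by rintro rfl; exact hn hy
    have n3 : u ≠ z := by rintro rfl; exact hn hz
    exact hu (by rw [Perm.mul_apply, swap_apply_of_ne_of_ne n1 n3, swap_apply_of_ne_of_ne n1 n2])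
  have hH : ∀ x ∈ Δ, ∀ y ∈ Δ, ∀ z ∈ Δ, x ≠ y → x ≠ z → swap x y * swap x z ∈ H := fun x hx y hy z hz e1 e2 =>
    hm _ _ (swap_mul_self _ _) (hR x hx y hy e1) (hR x hx z hz e2)
  have hext : ∀ x ∈ Δ, ∀ z ∈ Δ, ∀ y, x ≠ z → swap x y * swap x z ∈ H → y ∈ Δ := by
    intro x hx z hz y e h
    have := H.mul_mem h (hR x hx z hz e)
    rw [mul_assoc, ← mul_assoc (swap x z), swap_mul_self, one_mul] at this
    exact (hΔ y).2 (Rt _ _ _ ((hΔ x).1 hx) (Or.inr this))
  refine ⟨Δ, hin a haΔ b hbΔ c hcΔ hab hac, ?_, ?_⟩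
  · rw [AA, ← Perm.closure_three_cycles_eq_alternating, MonoidHom.map_closure, closure_le]
    rintro _ ⟨σ, hσ, rfl⟩
    have h3 : (Perm.ofSubtype σ).IsThreeCycle := by
      show _ = _
      rw [Perm.cycleType_ofSubtype]; exact hσ
    have hs : ∀ x, Perm.ofSubtype σ x ≠ x → x ∈ Δ := fun x hx => by
      by_contra hn; exact hx (Perm.ofSubtype_apply_of_not_mem (p := (· ∈ Δ)) σ hn)
    obtain ⟨x, hx, -⟩ := h3.isCycle
    obtain ⟨y, z, e1, e2, e3, e⟩ := form h3 hx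
    have hy : y ∈ Δ := hs y (by rw [e]; simp [swap_apply_of_ne_of_ne e1.symm e3, e1])
    have hz : z ∈ Δ := hs z (by rw [e]; simp [e3])
    show _ ∈ H
    rw [e]; exact hH x (hs x hx) y hy z hz e1 e2
  · intro t htH ht x hx hxt
    obtain ⟨y, z, e1, e2, e3, rfl⟩ := form ht hxt
    have hy : y ∈ Δ := by
      by_contra hy
      have hz : z ∉ Δ := fun hz => hy (hext x hx z hz y e2 htH)
      obtain ⟨u, hu, v, hv, n1, n2, n3⟩ : ∃ u ∈ Δ, ∃ v ∈ Δ, x ≠ u ∧ x ≠ v ∧ u ≠ v := by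
        by_cases c1 : x = a
        · exact ⟨b, hbΔ, c, hcΔ, c1 ▸ hab, c1 ▸ hac, hbc⟩
        by_cases c2 : x = b
        · exact ⟨a, haΔ, c, hcΔ, c1, c2 ▸ hbc, hac⟩
        · exact ⟨a, haΔ, b, hbΔ, c1, c2, hab⟩
      have hs := hH x hx v hv u hu n2 n1
      have m1 : y ≠ u := by rintro rfl; exact hy hu
      have m2 : y ≠ v := by rintro rfl; exact hy hv
      have m3 : z ≠ u := by rintro rfl; exact hz hu
      have m4 : z ≠ v := by rintro rfl; exact hz hv
      have hconj : swap u y * swap u z ∈ H := by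
        have := H.mul_mem (H.mul_mem hs htH) (H.inv_mem hs)
        have e4 : ∀ w, w ≠ x → w ≠ u → w ≠ v → swap u w = (swap x v * swap x u) * swap x w * (swap x v * swap x u)⁻¹ := by
          intro w w1 w2 w3
          rw [← swap_apply_apply]
          simp [swap_apply_of_ne_of_ne n1.symm n3, swap_apply_of_ne_of_ne w1 w2, swap_apply_of_ne_of_ne w1 w3]
        rw [e4 y e1.symm m1 m2, e4 z e2.symm m3 m4]
        convert this using 1
        group
      have h5 := H.mul_mem (H.inv_mem hconj) htH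
      rw [sw5 n1 e1 e2 m1 m3 e3] at h5
      exact hy (hext x hx u hu y n1 h5)
    have hz : z ∈ Δ := hext x hx y hy z e1 (by simpa using H.inv_mem htH)
    exact hin x hx y hy z hz e1 e2

lemma key (H L : Subgroup (Perm Ω)) (hL : H9.QS L) (h1 : L ≤ H) (h2 : H ≤ normalizer (L : Set (Perm Ω))) (h3 : H ⊓ centralizer (L : Set (Perm Ω)) ≤ L)
    {t0 : Perm Ω} (ht0 : t0.IsThreeCycle) (h0 : t0 ∈ H) :
    ∃ Δ : Finset Ω, t0 ∈ AA Δ ∧ AA Δ ≤ H ∧ (∀ t ∈ H, t.IsThreeCycle → ∀ x ∈ Δ, t x ≠ x → t ∈ AA Δ) ∧ L ≤ AA Δ := by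
  obtain ⟨Δ, a1, a2, a3⟩ := cls H ht0 h0
  refine ⟨Δ, a1, a2, a3, ?_⟩
  let T := closure {t : Perm Ω | t ∈ H ∧ t.IsThreeCycle}
  have hTH : T ≤ H := (closure_le _).2 fun t ht => ht.1
  have hN : L ≤ normalizer (T : Set (Perm Ω)) := by
    intro l hl
    refine mem_normalizer_fintype (fun g hg => ?_)
    induction hg using closure_induction with
    | mem s hs => exact subset_closure ⟨H.mul_mem (H.mul_mem (h1 hl) hs.1) (H.inv_mem (h1 hl)), by
        show _ = _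
        rw [Perm.cycleType_conj]; exact hs.2⟩
    | one => simp
    | mul a b ha hb iha ihb =>
      have := mul_mem iha ihb
      rwa [show l * a * l⁻¹ * (l * b * l⁻¹) = l * (a * b) * l⁻¹ by group] at this
    | inv a ha iha =>
      have := inv_mem iha
      rwa [show (l * a * l⁻¹)⁻¹ = l * a⁻¹ * l⁻¹ by group] at this
  have hLT : L ≤ T := (dich hL hN (hTH.trans h2)).resolve_right fun h =>
    nocent hL ht0 (h3 ⟨h0, h (subset_closure ⟨h0, ht0⟩)⟩) (h (subset_closure ⟨h0, ht0⟩))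
  have hpres : ∀ g ∈ T, ∀ x, x ∈ Δ ↔ g x ∈ Δ := by
    intro g hg
    induction hg using closure_induction with
    | mem s hs =>
      intro x
      by_cases e : s x = x
      · rw [e]
      have e' : s (s x) ≠ s x := fun e' => e (s.injective e')
      exact ⟨fun h => (mem_AA.1 (a3 s hs.1 hs.2 x h e)).1 _ e', fun h => (mem_AA.1 (a3 s hs.1 hs.2 _ h e')).1 _ e⟩
    | one => intro x; rfl
    | mul a b ha hb iha ihb => intro x; exact (ihb x).trans (iha _)
    | inv a ha iha => intro x; simpa using (iha (a⁻¹ x)).symm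
  have hNA : L ≤ normalizer (AA Δ : Set (Perm Ω)) := by
    intro l hl
    refine mem_normalizer_fintype (fun g hg => ?_)
    obtain ⟨b1, b2⟩ := mem_AA.1 hg
    refine mem_AA.2 ⟨fun x hx => ?_, by simp [b2]⟩
    rw [hpres _ (T.inv_mem (hLT hl))]
    exact b1 _ (fun e => hx (by rw [Perm.mul_apply, Perm.mul_apply, e]; simp))
  exact (dich hL hNA (a2.trans h2)).resolve_right fun h => nocent hL ht0 (h3 ⟨h0, h a1⟩) (h a1)

lemma conj_in {G : Type*} [Group G] [Finite G] (P : Sylow 3 G) (K : Subgroup G) (hK : (P : Subgroup G) ≤ K) (c : G) (hc : c ∈ K) (h3 : c ^ 3 = 1) :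
    ∃ k ∈ K, k⁻¹ * c * k ∈ (P : Subgroup G) := by
  haveI : Fact (Nat.Prime 3) := ⟨Nat.prime_three⟩
  obtain ⟨R, hR⟩ := (H4.Cov.pz (x := (⟨c, hc⟩ : K)) (p := 3) (k := 1) (Subtype.ext h3)).exists_le_sylow
  obtain ⟨k, rfl⟩ := MulAction.exists_smul_eq K (P.subtype hK) R
  exact ⟨k, k.2, (H4.Cov.mem_smul _ k _).1 (hR (mem_zpowers _))⟩

lemma main (h5 : 5 ≤ Fintype.card Ω) (H L : Subgroup (Perm Ω)) (hL : H9.QS L) (h1 : L ≤ H) (h2 : H ≤ normalizer (L : Set (Perm Ω))) (h3 : H ⊓ centralizer (L : Set (Perm Ω)) ≤ L)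
    (P : Sylow 3 (Perm Ω)) (hP : (P : Subgroup (Perm Ω)) ≤ H) : ∃ Δ : Finset Ω, Fintype.card Ω ≤ Δ.card + 2 ∧ L = AA Δ := by
  have c3 : ∀ c : Perm Ω, c.IsThreeCycle → c ^ 3 = 1 := fun c hc => by rw [← hc.orderOf, pow_orderOf_eq_one]
  have cj : ∀ c k : Perm Ω, c.IsThreeCycle → (k⁻¹ * c * k).IsThreeCycle := fun c k hc => by
    show _ = _
    have := Perm.cycleType_conj (σ := c) (τ := k⁻¹)
    rw [inv_inv] at this
    rw [this]; exact hc
  obtain ⟨a, b, c, -, -, -, e1, e2, e3⟩ := (Finset.two_lt_card_iff (s := (Finset.univ : Finset Ω))).1 (by rw [Finset.card_univ]; omega)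
  have hc0 := Perm.isThreeCycle_swap_mul_swap_same e1 e2 e3
  obtain ⟨k0, -, hk0⟩ := conj_in P ⊤ le_top _ (mem_top _) (c3 _ hc0)
  obtain ⟨Δ, a1, a2, a3, a4⟩ := key H L hL h1 h2 h3 (cj _ k0 hc0) (hP hk0)
  obtain ⟨⟨l, hl⟩, hl1⟩ := ne_bot_iff_exists_ne_one.1 hL.ne_bot
  obtain ⟨x, hx⟩ : ∃ x, l x ≠ x := by
    by_contra h; push Not at h; exact hl1 (Subtype.ext (Equiv.ext h))
  have hxΔ := (mem_AA.1 (a4 hl)).1 x hx
  have big : ∀ Γ : Finset Ω, L ≤ AA Γ → 5 ≤ Γ.card := by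
    intro Γ hΓ
    by_contra hn
    refine hL.not_le_solvable (H3.burnside_paqb (p := 2) (q := 3) (a := 3) (b := 1) Nat.prime_two Nat.prime_three ?_) hΓ
    rw [AA, card_map_of_injective Perm.ofSubtype_injective]
    refine (card_subgroup_dvd_card _).trans ?_
    rw [Nat.card_eq_fintype_card, Fintype.card_perm, Fintype.card_coe]
    exact Nat.factorial_dvd_factorial (n := 4) (by omega)
  have tri : ∀ Γ : Finset Ω, 5 ≤ Γ.card → AA Γ ≤ H → ∀ u ∈ Γ, ∀ y ∈ Γ, u ≠ y → ∃ s ∈ H, s.IsThreeCycle ∧ s u ≠ u ∧ s y ≠ y := by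
    intro Γ hΓ hH u hu y hy e
    obtain ⟨z, hz, hz'⟩ : ∃ z ∈ Γ, z ∉ ({u, y} : Finset Ω) := Finset.exists_mem_notMem_of_card_lt_card (by
      have := Finset.card_le_two (a := u) (b := y); omega)
    simp only [Finset.mem_insert, Finset.mem_singleton, not_or] at hz'
    refine ⟨swap u y * swap u z, hH (mem_AA.2 ⟨fun w hw => ?_, by rw [map_mul, Perm.sign_swap e, Perm.sign_swap (Ne.symm hz'.1)]; simp⟩),
      Perm.isThreeCycle_swap_mul_swap_same e (Ne.symm hz'.1) (Ne.symm hz'.2), ?_, ?_⟩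
    · by_contra hn
      have n1 : w ≠ u := by rintro rfl; exact hn hu
      have n2 : w ≠ y := by rintro rfl; exact hn hy
      have n3 : w ≠ z := by rintro rfl; exact hn hz
      exact hw (by rw [Perm.mul_apply, swap_apply_of_ne_of_ne n1 n3, swap_apply_of_ne_of_ne n1 n2])
    · simp [swap_apply_of_ne_of_ne hz'.1 hz'.2, hz'.1]
    · simp [swap_apply_of_ne_of_ne e.symm (Ne.symm hz'.2), e]
  have all : ∀ t ∈ H, t.IsThreeCycle → ∀ y, t y ≠ y → y ∈ Δ := by
    intro t ht ht3 y hy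
    obtain ⟨Γ, b1, b2, -, b4⟩ := key H L hL h1 h2 h3 ht3 ht
    have hxΓ := (mem_AA.1 (b4 hl)).1 x hx
    by_cases e : x = y
    · exact e ▸ hxΔ
    obtain ⟨s, s1, s2, s3, s4⟩ := tri Γ (big Γ b4) b2 x hxΓ y ((mem_AA.1 b1).1 y hy) e
    exact (mem_AA.1 (a3 s s1 s2 x hxΔ s3)).1 y s4
  have hbig := big Δ a4
  refine ⟨Δ, ?_, ?_⟩
  · by_contra hn
    have hcc := Finset.card_compl Δ
    obtain ⟨u, v, w, hu, hv, hw, f1, f2, f3⟩ := (Finset.two_lt_card_iff (s := Δᶜ)).1 (by omega)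
    rw [Finset.mem_compl] at hu hv hw
    let K : Subgroup (Perm Ω) :=
      { carrier := {g | ∀ y, y ∈ Δ ↔ g y ∈ Δ}
        mul_mem' := fun ha hb y => (hb y).trans (ha _)
        one_mem' := fun _ => Iff.rfl
        inv_mem' := fun {g} hg y => by simpa using (hg (g⁻¹ y)).symm }
    have hf : ∀ h ∈ H, ∀ y ∈ Δ, h y ∈ Δ := by
      intro h hh y hy
      obtain ⟨y', hy', hne⟩ : ∃ z ∈ Δ, z ∉ ({y} : Finset Ω) := Finset.exists_mem_notMem_of_card_lt_card (by simp; omega)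
      obtain ⟨s, s1, s2, s3, -⟩ := tri Δ hbig a2 y hy y' hy' (fun e => hne (by simp [e]))
      refine all _ (H.mul_mem (H.mul_mem (H.inv_mem (H.inv_mem hh)) s1) (H.inv_mem hh)) (cj s h⁻¹ s2) _ ?_
      simpa using s3
    have hHK : H ≤ K := fun h hh y => ⟨hf h hh y, fun e => by simpa using hf _ (H.inv_mem hh) _ e⟩
    have hc1 := Perm.isThreeCycle_swap_mul_swap_same f1 f2 f3
    have hcK : swap u v * swap u w ∈ K := by
      intro y
      simp only [Perm.mul_apply, swap_apply_def]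
      split_ifs <;> simp_all
    obtain ⟨k, hk, hkP⟩ := conj_in P K (hP.trans hHK) _ hcK (c3 _ hc1)
    have := all _ (hP hkP) (cj _ k hc1) (k⁻¹ u) (by simp [swap_apply_of_ne_of_ne f2.symm f3.symm, f2.symm])
    rw [hk] at this
    exact hu (by simpa using this)
  · haveI : IsSimpleGroup (alternatingGroup Δ) := alternatingGroup.isSimpleGroup (by simpa using hbig)
    haveI : IsSimpleGroup (AA Δ) := ((alternatingGroup Δ).equivMapOfInjective _ Perm.ofSubtype_injective).symm.isSimpleGroup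
    have hn : (L.subgroupOf (AA Δ)).Normal := (normal_subgroupOf_iff_le_normalizer a4).2 (a2.trans h2)
    rcases hn.eq_bot_or_eq_top with h | h
    · have b1 : (⟨l, a4 hl⟩ : AA Δ) ∈ L.subgroupOf (AA Δ) := hl
      rw [h, mem_bot] at b1
      have b2 : l = 1 := congrArg Subtype.val b1
      exact absurd (by rw [b2]; rfl) hx
    · exact le_antisymm a4 (subgroupOf_eq_top.1 h)

/-- Let n ≥ 5 and let H be a subgroup of the symmetric group of degree n whose generalized Fitting subgroup F*(H) is quasisimple. If H contains a Sylow 3-subgroup of the symmetric group, then F*(H) is isomorphic to an alternating group of degree m for some m ∈ {n − 2, n − 1, n}. -/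
theorem result (n : ℕ) (hn : 5 ≤ n) (H : Subgroup (Equiv.Perm (Fin n))) (hF : Cfsg.IsQuasisimple ↥(Cfsg.generalizedFittingSubgroup ↥H)) (hS : ∃ P : Sylow 3 (Equiv.Perm (Fin n)), (P : Subgroup (Equiv.Perm (Fin n))) ≤ H) : ∃ m : ℕ, (m = n - 2 ∨ m = n - 1 ∨ m = n) ∧ Nonempty (↥(Cfsg.generalizedFittingSubgroup ↥H) ≃* ↥(alternatingGroup (Fin m))) := by
  obtain ⟨P, hP⟩ := hS
  have hq : H9.QS (H9.Fst H) := by
    rw [← H9.Fst_eq]
    exact (H9.qs_map_iff H.subtype_injective).2 (H9.qs_iff.2 hF)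
  obtain ⟨Δ, h1, h2⟩ := main (by simpa using hn) H _ hq (H9.Fst_le H) (H9.le_normalizer_Fst H) (H9.centralizer_Fst_le H) P hP
  have h3 := Finset.card_le_univ Δ
  rw [Fintype.card_fin] at h1 h3
  refine ⟨Δ.card, by omega, ⟨?_⟩⟩
  exact (((Cfsg.generalizedFittingSubgroup H).equivMapOfInjective _ H.subtype_injective).trans (MulEquiv.subgroupCongr ((H9.Fst_eq H).trans h2))).trans
    (((alternatingGroup Δ).equivMapOfInjective _ Equiv.Perm.ofSubtype_injective).symm.trans (Equiv.altCongrHom Δ.equivFin))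

end Cfsg.Agent.S2929
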