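import Cfsg.Statements.S2931
import Cfsg.Agent.H8.Or3
import Cfsg.Agent.H8.XS43
-- import your own Cfsg.Agent.* helpers here

set_option autoImplicit false
set_option maxRecDepth 200000
open Cfsg

namespace Cfsg.Agent.S2931

/-- The Sylow 2-subgroups of the alternating group of degree 8 and of PSp₄(3) are isomorphic, and so are the Sylow 2-subgroups of the symmetric group of degree 8 and of the full isometry group of a non-degenerate quadratic form of minus type in dimension 6 over the field with 2 elements. -/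
theorem result (F : Type) [Field F] [Fintype F] (hF : Fintype.card F = 3) (K : Type) [Field K] [Fintype K] (hK : Fintype.card K = 2) (a b : K) (hab : ∀ z₁ z₂ : K, z₁ ^ 2 + a * z₁ * z₂ + b * z₂ ^ 2 = 0 → z₁ = 0 ∧ z₂ = 0) (P : Sylow 2 ↥(alternatingGroup (Fin 8))) (Q : Sylow 2 (Cfsg.PSp 2 F)) (P' : Sylow 2 (Equiv.Perm (Fin 8))) (Q' : Sylow 2 ↥(Cfsg.isometryGroup K (Cfsg.quadFormMinus 2 K a b))) : Nonempty (↥(P : Subgroup ↥(alternatingGroup (Fin 8))) ≃* ↥(Q : Subgroup (Cfsg.PSp 2 F))) ∧ Nonempty (↥(P' : Subgroup (Equiv.Perm (Fin 8))) ≃* ↥(Q' : Subgroup ↥(Cfsg.isometryGroup K (Cfsg.quadFormMinus 2 K a b)))) := by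
  have t : (1 : K) + 1 = 0 := by
    have : CharP K 2 := H8.charP_of_card (k := 1) (by norm_num) hK
    exact CharTwo.add_self_eq_zero 1
  obtain rfl : b = 1 := (H8.f2 hK b).resolve_left fun e => one_ne_zero (hab 0 1 (by simp [e])).2
  obtain rfl : a = 1 := (H8.f2 hK a).resolve_left fun e => one_ne_zero (hab 1 1 (by simp [e, t])).2
  obtain ⟨e⟩ := H8.S43.iso hF
  refine ⟨?_, H8.Or3.k hK P' Q'⟩
  exact ⟨(H8.Or3.l P (Q.mapSurjective (f := e.toMonoidHom) e.surjective)).some.trans (Q.1.equivMapOfInjective _ e.injective).symm⟩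

end Cfsg.Agent.S2931
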