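import Cfsg.Statements.S2939
import Cfsg.Agent.H2.SC

set_option autoImplicit false
open Cfsg

namespace Cfsg.Agent.S2939

open H9 H2SC Subgroup Relation

theorem cr_iff {G : Type*} [Group G] {w : G} {A : Set G} {K : Subgroup G} :
    conjRight w A ⊆ K ↔ A ⊆ cj w K := by
  unfold conjRight
  rw [Set.image_subset_iff]
  refine forall₂_congr fun a _ => ?_
  have := conj_mem_cj_iff (g := w) (x := w⁻¹ * a * w) (H := K)
  rw [show w * (w⁻¹ * a * w) * w⁻¹ = a by group] at this
  exact this.symm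

/-- Let p be a prime dividing the order of the finite group G and 𝓕 a family of subgroups of G closed under conjugation, with conjugates taken as X^g = g⁻¹Xg. Then 𝓕 controls Sylow p-intersections in G (any two distinct Sylow p-subgroups S and T with S ∩ T ≠ 1 are joined by a chain S = S₀, S₁, …, Sₙ = T of Sylow p-subgroups where, for each i, some member Xᵢ of 𝓕 meets both S_{i-1} and Sᵢ in Sylow p-subgroups of Xᵢ, satisfies S ∩ T ≤ Sᵢ ∩ Xᵢ, and contains an element xᵢ with Sᵢ^{xᵢ} = S_{i-1}) if and only if 𝓕 strongly controls p-fusion in G (whenever A is a subset of a Sylow p-subgroup S, A contains an element other than 1, and A^g ⊆ S, the element g factorises as g = y₁⋯yₙy with y ∈ N_G(S) and each yᵢ in a member Yᵢ of 𝓕 that meets S in a Sylow p-subgroup of Yᵢ, with A^{y₁⋯yᵢ} ⊆ S ∩ Yᵢ for each i). -/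
theorem result {G : Type*} [Group G] [Finite G] {p : ℕ} [Fact p.Prime] (hdiv : p ∣ Nat.card G) (𝓕 : Set (Subgroup G)) (h𝓕 : Cfsg.IsNormalSet 𝓕) : Cfsg.ControlsSylowIntersections p 𝓕 ↔ Cfsg.FamilyStronglyControlsFusion p 𝓕 := by
  rw [ctrl_iff]
  constructor
  · intro h S A g h1 ⟨a, ha, ha1⟩ h2
    have hS := syl_top_of_sylow S
    have hA : A ⊆ ((S : Subgroup G) ⊓ cj g S : Subgroup G) := fun x hx => ⟨h1 hx, cr_iff.1 h2 hx⟩
    have h3 := h S (cj g S) hS (hS.cj_of_mem (le_normalizer (mem_top g))) fun e => ha1 (by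
      have := hA ha
      rwa [e] at this)
    have h4 : ∀ U, ReflTransGen (St p 𝓕 ((S : Subgroup G) ⊓ cj g S)) S U → ∃ w, cj w S = U ∧
        ReflTransGen (fun u v : G => ∃ Y ∈ sylowMembers p 𝓕 (S : Subgroup G), u⁻¹ * v ∈ Y ∧
          conjRight v A ⊆ (S : Set G) ∩ Y) 1 w := fun U k => by
      induction k with
      | refl => exact ⟨1, cj_eq_of_mem (one_mem _), .refl⟩
      | tail _ k ih =>
        obtain ⟨w, rfl, k2⟩ := ih
        obtain ⟨X, a, b, c, x, d, e, f⟩ := k
        have b' := b.cj w⁻¹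
        rw [cj_inf, ← cj_mul, inv_mul_cancel, cj_eq_of_mem (one_mem _)] at b'
        refine ⟨x * w, by rw [cj_mul, e], k2.tail ⟨cj w⁻¹ X, mem_sm.2 ⟨normalSet_cj h𝓕 _ X a, b'⟩, ?_, ?_⟩⟩
        · simpa [mul_assoc] using (conj_mem_cj_iff (g := w⁻¹)).2 d
        · have : conjRight (x * w) A ⊆ ((S : Subgroup G) ⊓ cj w⁻¹ X : Subgroup G) := by
            rw [cr_iff, cj_inf, cj_mul, e, ← cj_mul, mul_inv_cancel_right, cj_eq_of_mem d]
            exact hA.trans f
          exact this
    obtain ⟨w, e, h5⟩ := h4 _ h3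
    obtain ⟨n, c, c0, c1, h6⟩ := chain_iff.2 h5
    choose Y y1 y2 y3 using h6
    have key : ∀ k (hk : k ≤ n), ((List.ofFn fun i : Fin n => (c i.castSucc)⁻¹ * c i.succ).take k).prod =
        c ⟨k, Nat.lt_succ_of_le hk⟩ := fun k hk => by
      induction k with
      | zero => exact c0.symm
      | succ k ih =>
        rw [List.prod_take_succ _ _ (by simpa using hk), ih (by omega), List.getElem_ofFn]
        exact mul_inv_cancel_left _ _
    refine ⟨n, Y, fun i => (c i.castSucc)⁻¹ * c i.succ, w⁻¹ * g, ?_, fun i => ⟨y1 i, y2 i⟩, ?_, fun i => ?_⟩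
    · exact mem_normalizer_iff_cj.2 (by rw [cj_mul, ← e, ← cj_mul, inv_mul_cancel, cj_eq_of_mem (one_mem _)])
    · have := key n le_rfl
      rw [List.take_of_length_le (by simp)] at this
      rw [this, ← c1]
      exact (mul_inv_cancel_left _ _).symm
    · rw [key _ i.2]
      exact y3 i
  · intro h S T hS hT h0
    obtain ⟨g, -, rfl⟩ := hS.conj hT
    obtain ⟨S, rfl⟩ := hS.exists_sylow_top
    obtain ⟨a, ha⟩ := ne_bot_iff_exists_ne_one.1 h0
    obtain ⟨n, Y, y, y₀, h1, h2, h3, h4⟩ := h S ((S : Subgroup G) ⊓ cj g S : Subgroup G) g (fun x hx => hx.1)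
      ⟨a, a.2, fun e => ha (Subtype.ext e)⟩ (cr_iff.2 fun x hx => hx.2)
    refine chain_iff.1 ⟨n, fun i => cj ((List.ofFn y).take i).prod S, cj_eq_of_mem (one_mem _), ?_, fun i => ?_⟩
    · show cj ((List.ofFn y).take n).prod S = _
      rw [List.take_of_length_le (by simp), h3, cj_mul, mem_normalizer_iff_cj.1 h1]
    · have e : ((List.ofFn y).take (i + 1)).prod = ((List.ofFn y).take i).prod * y i := by
        rw [List.prod_take_succ _ _ (by simp), List.getElem_ofFn]
      have h5 := h4 i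
      show St p 𝓕 _ (cj ((List.ofFn y).take i).prod S) (cj ((List.ofFn y).take (i + 1)).prod S)
      rw [e] at h5 ⊢
      set w := ((List.ofFn y).take i).prod
      obtain ⟨a, b⟩ := mem_sm.1 (h2 i).1
      have e2 : cj (w * y i) (Y i) = cj w (Y i) := by rw [cj_mul, cj_eq_of_mem (h2 i).2]
      refine ⟨cj w (Y i), normalSet_cj h𝓕 _ _ a, cj_inf w _ _ ▸ b.cj w, ?_, w * y i * w⁻¹,
        conj_mem_cj_iff.2 (h2 i).2, by rw [← cj_mul, inv_mul_cancel_right], ?_⟩
      · rw [← e2, ← cj_inf]; exact b.cj _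
      · rw [← e2, ← cj_inf]
        exact cr_iff.1 (show conjRight (w * y i) _ ⊆ ((S : Subgroup G) ⊓ Y i : Subgroup G) from h5)

end Cfsg.Agent.S2939
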