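import Cfsg.Statements.S2940
import Cfsg.Agent.H9.LE1

set_option autoImplicit false
open Cfsg

namespace Cfsg.Agent.S2940

/-- Let S be a Sylow p-subgroup of the finite group G and G₁, G₂ subgroups containing S with G = G₁G₂. Then for every g ∈ G there is a Sylow p-subgroup U of G with S ∩ S^g ≤ U ≤ G₁ ∩ G₂^g (conjugates taken as X^g = g⁻¹Xg). -/
theorem result {G : Type*} [Group G] [Finite G] {p : ℕ} [Fact p.Prime] (S : Sylow p G) (G₁ G₂ : Subgroup G) (h1 : (S : Subgroup G) ≤ G₁) (h2 : (S : Subgroup G) ≤ G₂) (hfact : ∀ g : G, ∃ g₁ ∈ G₁, ∃ g₂ ∈ G₂, g = g₁ * g₂) (g : G) : ∃ U : Sylow p G, (S : Subgroup G) ⊓ Cfsg.subgroupConjRight g (S : Subgroup G) ≤ (U : Subgroup G) ∧ (U : Subgroup G) ≤ G₁ ⊓ Cfsg.subgroupConjRight g G₂ := by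
  open H9 Subgroup in open scoped commutatorElement in
  obtain ⟨a, ha, b, hb, e⟩ := hfact g⁻¹
  have hS := syl_top_of_sylow S
  obtain ⟨U, h3, h4⟩ := exists_syl_ge (H := G₁ ⊓ cj g⁻¹ G₂) (hS.isP.to_le inf_le_left)
    (inf_le_inf h1 (cj_mono g⁻¹ h2))
  have h5 : Syl p U ⊤ := syl_of_card_le h3.isP le_top hS (by
    rw [← card_cj a]
    exact h3.card_le (isPGroup_cj a hS.isP) (le_inf (cj_le_of_mem ha h1) (by
      rw [e, cj_mul, cj_eq_of_mem hb]; exact cj_mono a h2)))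
  obtain ⟨U, rfl⟩ := h5.exists_sylow_top
  exact ⟨U, h4, h3.le⟩

end Cfsg.Agent.S2940
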