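import Cfsg.Statements.S2955
import Cfsg.Agent.H2.SC

set_option autoImplicit false
open Cfsg

namespace Cfsg.Agent.S2955

open H9 H2SC Subgroup Relation

/-- Let p be a prime dividing the order of the finite group G and 𝓕 a conjugation-closed family of subgroups that controls Sylow p-intersections in G. Suppose the Sylow p-subgroups of G are chain-connected: any two of them are joined by a chain of Sylow p-subgroups, consecutive ones distinct with nontrivial intersection, all containing the intersection of the two ends (equivalently, the graph on the Sylow p-subgroups whose edges are the distinct pairs meeting nontrivially is connected). Then for every Sylow p-subgroup S, G is generated by N_G(S) together with the members of 𝓕 that meet S in a Sylow p-subgroup of themselves. -/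
theorem result {G : Type*} [Group G] [Finite G] (p : ℕ) [Fact p.Prime] (hdiv : p ∣ Nat.card G)
    (𝓕 : Set (Subgroup G)) (h𝓕 : Cfsg.IsNormalSet 𝓕) (hc : Cfsg.ControlsSylowIntersections p 𝓕)
    (hconn : Cfsg.IsSylowChainConnected p G) (S : Sylow p G) :
    (⨆ X ∈ Cfsg.sylowMembers p 𝓕 (S : Subgroup G), X) ⊔ Subgroup.normalizer ((S : Subgroup G) : Set G) = ⊤ := by
  set H := (⨆ X ∈ Cfsg.sylowMembers p 𝓕 (S : Subgroup G), X) ⊔ normalizer ((S : Subgroup G) : Set G) with hH
  have k1 : ∀ D U V : Subgroup G, ReflTransGen (St p 𝓕 D) U V → (∃ h ∈ H, cj h S = U) → ∃ h ∈ H, cj h S = V := by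
    intro D U V k hU
    induction k with
    | refl => exact hU
    | tail _ k ih =>
      obtain ⟨h, h1, rfl⟩ := ih
      obtain ⟨X, a, b, -, x, d, e, -⟩ := k
      have b' := b.cj h⁻¹
      rw [cj_inf, ← cj_mul, inv_mul_cancel, cj_eq_of_mem (one_mem _)] at b'
      have h2 : cj h⁻¹ X ≤ H := le_trans (le_iSup₂_of_le (f := fun X (_ : X ∈ Cfsg.sylowMembers p 𝓕 (S : Subgroup G)) => X)
        _ (mem_sm.2 ⟨normalSet_cj h𝓕 _ X a, b'⟩) le_rfl) le_sup_left
      refine ⟨h * (h⁻¹ * x * h⁻¹⁻¹), mul_mem h1 (h2 (conj_mem_cj_iff.2 d)), ?_⟩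
      rw [← e, ← cj_mul]
      congr 1
      group
  rw [eq_top_iff]
  intro g _
  obtain ⟨T, hT⟩ := ((syl_top_of_sylow S).cj_of_mem (le_normalizer (mem_top g))).exists_sylow_top
  obtain ⟨n, c, h0, h1, -, h2⟩ := hconn S T
  have k2 : ∀ i : Fin (n + 1), ∃ h ∈ H, cj h S = c i := fun i => by
    induction i using Fin.induction with
    | zero => exact ⟨1, one_mem _, by rw [h0, cj_eq_of_mem (one_mem _)]⟩
    | succ i ih =>
      exact k1 _ _ _ (ctrl_iff.1 hc _ _ (syl_top_of_sylow _) (syl_top_of_sylow _) (h2 i).2) ih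
  obtain ⟨h, h3, h4⟩ := k2 (Fin.last n)
  rw [h1, hT] at h4
  have h5 : h⁻¹ * g ∈ H := le_sup_right (a := ⨆ X ∈ Cfsg.sylowMembers p 𝓕 (S : Subgroup G), X)
    (mem_normalizer_iff_cj.2 (by rw [cj_mul, ← h4, ← cj_mul, inv_mul_cancel, cj_eq_of_mem (one_mem _)]))
  simpa using mul_mem h3 h5

end Cfsg.Agent.S2955
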