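import Cfsg.Statements.S2956
import Cfsg.Agent.H2.SC

set_option autoImplicit false
open Cfsg

namespace Cfsg.Agent.S2956

open H9 H2SC Subgroup Relation

theorem exists_max {G : Type*} [Group G] [Finite G] {p : ℕ} {N : Subgroup G} (h : IsPLocal p N) :
    ∃ M, IsMaximalPLocal p M ∧ N ≤ M := by
  obtain ⟨M, h1, h2⟩ := Finite.exists_le_maximal (p := fun M : Subgroup G => IsPLocal p M) h
  exact ⟨M, ⟨h2.1, fun K hK hle => le_antisymm (h2.2 hK hle) hle⟩, h1⟩

/-- Let p be a prime dividing the order of the finite group G, and f an assignment to every p-subgroup P of a set f(P) of subgroups of P, each normalized by N_G(P), compatible with conjugation, such that for P ≠ 1 the members of f(P) are nontrivial. Let 𝓕 be the family of the normalizers N_G(F) of the members F of f(S) over the Sylow p-subgroups S of G, and 𝓕' the family of the maximal p-local subgroups M of G that are singular for f (the corresponding family of normalizers inside M does not control Sylow p-intersections in M). Then 𝓕 ∪ 𝓕'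 controls Sylow p-intersections in G. -/
theorem result {G : Type*} [Group G] [Finite G] (p : ℕ) [Fact p.Prime] (hdiv : p ∣ Nat.card G)
    (f : Subgroup G → Set (Subgroup G)) (hf : Cfsg.IsNormalizerFunctor p f)
    (hf1 : ∀ P : Subgroup G, IsPGroup p ↥P → P ≠ ⊥ → ∀ F ∈ f P, F ≠ ⊥)
    (𝓕 𝓕' : Set (Subgroup G)) (h𝓕 : 𝓕 = Cfsg.functorFamily p f ⊤)
    (h𝓕' : 𝓕' = {M | Cfsg.IsMaximalPLocal p M ∧ ¬ Cfsg.IsFunctorRegular p f M}) :
    Cfsg.ControlsSylowIntersections p (𝓕 ∪ 𝓕') := by
  subst h𝓕 h𝓕'
  set 𝓖 := functorFamily p f ⊤ ∪ {M | IsMaximalPLocal p M ∧ ¬ IsFunctorRegular p f M} with h𝓖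
  have main : ∀ (k : ℕ) (D : Subgroup G), Nat.card G - Nat.card D = k → D ≠ ⊥ → ∀ S T, Syl p S ⊤ → Syl p T ⊤ →
      D ≤ S → D ≤ T → ReflTransGen (St p 𝓖 D) S T := by
    intro k
    induction k using Nat.strong_induction_on with
    | _ k ih =>
    intro D hk h0
    have ih' : ∀ U : Subgroup G, Nat.card D < Nat.card U → ∀ S T, Syl p S ⊤ → Syl p T ⊤ → D ≤ S → D ≤ T →
        U ≤ S → U ≤ T → ReflTransGen (St p 𝓖 D) S T := fun U hU S T hS hT h1 h2 h3 h4 => by
      have l1 : Nat.card U ≤ Nat.card (S ⊓ T : Subgroup G) := card_le_of_le (le_inf h3 h4)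
      have l2 : Nat.card (S ⊓ T : Subgroup G) ≤ Nat.card G := card_le_card_group _
      exact rt_mono (ih _ (by omega) (S ⊓ T) rfl (fun e => h0 (eq_bot_iff.2 (e ▸ le_inf h1 h2))) S T hS hT
        inf_le_left inf_le_right) subset_rfl (le_inf h1 h2)
    have inner : ∀ (j : ℕ) (M P : Subgroup G), Nat.card G - Nat.card P = j → IsMaximalPLocal p M →
        Syl p P M → Nat.card D < Nat.card P → D ≤ P → ∀ Q, Syl p Q M → D ≤ Q → ∀ S T, Syl p S ⊤ → Syl p T ⊤ →
        P ≤ S → Q ≤ T → ReflTransGen (St p 𝓖 D) S T := by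
      intro j
      induction j using Nat.strong_induction_on with
      | _ j ih2 =>
      intro M P hj hM hP hDP h1 Q hQ h2 S T hS hT h3 h4
      by_cases hr : IsFunctorRegular p f M
      · have c1 := rt_mono (reg_iff.1 hr P Q hP hQ fun e => h0 (eq_bot_iff.2 (e ▸ le_inf h1 h2))) subset_rfl
          (le_inf h1 h2)
        by_cases hs : Syl p P ⊤
        · have hQ' : Syl p Q ⊤ := syl_of_card_le hQ.isP le_top hs (hP.card_eq_card hQ).le
          rw [hs.maximal hS.isP le_top h3, hQ'.maximal hT.isP le_top h4]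
          exact rt_mono (rt_up hf c1 hP hs).1 Set.subset_union_left le_rfl
        have key : ∀ V, ReflTransGen (St p (functorFamily p f M) D) P V → Syl p V M ∧ D ≤ V ∧
            ∀ T, Syl p T ⊤ → V ≤ T → ReflTransGen (St p 𝓖 D) S T := fun V k => by
          induction k with
          | refl => exact ⟨hP, h1, fun T hT h => ih' P hDP S T hS hT (h1.trans h3) (h1.trans h) h3 h⟩
          | @tail V W _ k ih3 =>
            obtain ⟨hW, hD, R, F, hR, hF, n1, n2, -⟩ := k.lift hf ih3.1
            refine ⟨hW, hD, fun T hT hWT => ?_⟩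
            have cR := hP.card_eq_card hR
            have hR0 : R ≠ ⊥ := fun e => by
              rw [e, card_bot] at cR
              have : 0 < Nat.card D := Nat.card_pos
              have : Nat.card D = 1 := by omega
              exact h0 (card_eq_one.1 this)
            obtain ⟨M', hM', hle⟩ := exists_max (N := normalizer (F : Set G))
              ⟨F, hR.isP.to_le ((hf R hR.isP).1 F hF).1, hf1 R hR.isP hR0 F hF, rfl⟩
            obtain ⟨V', hV', v1⟩ := exists_syl_ge ih3.1.isP (n1.trans hle)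
            obtain ⟨W', hW', w1⟩ := exists_syl_ge hW.isP (n2.trans hle)
            obtain ⟨V₂, hV₂, v2⟩ := exists_syl_ge hV'.isP le_top
            obtain ⟨W₂, hW₂, w2⟩ := exists_syl_ge hW'.isP le_top
            have big : Nat.card P < Nat.card V' := by
              obtain ⟨R₂, hR₂, r2⟩ := exists_syl_ge hR.isP le_top
              have hlt : R < R₂ := lt_of_le_of_ne r2 fun e => hs
                (syl_of_card_le hP.isP le_top hR₂ (by rw [← e, cR]))
              have h5 := lt_inf_normalizer_of_p hR₂.isP hlt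
              have h6 := hV'.card_le (hR₂.isP.to_le (inf_le_left : R₂ ⊓ normalizer (R : Set G) ≤ R₂))
                (inf_le_right.trans (((hf R hR.isP).1 F hF).2.trans hle))
              have h7 : Nat.card R < Nat.card (R₂ ⊓ normalizer (R : Set G) : Subgroup G) :=
                lt_of_le_of_ne (card_le_of_le h5.le) fun e => h5.ne (eq_of_le_of_card_ge h5.le e.ge)
              omega
            have l2 : Nat.card V' ≤ Nat.card G := card_le_card_group _
            have c2 := ih2 _ (by omega) M' V' rfl hM' hV' (by omega) (ih3.2.1.trans v1) W' hW' (hD.trans w1)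
              V₂ W₂ hV₂ hW₂ v2 w2
            refine ((ih3.2.2 V₂ hV₂ (v1.trans v2)).trans c2).trans ?_
            exact ih' W (by rw [← hP.card_eq_card hW]; exact hDP) W₂ T hW₂ hT (hD.trans (w1.trans w2))
              (hD.trans hWT) (w1.trans w2) hWT
        exact (key Q c1).2.2 T hT h4
      · obtain ⟨x, hx, e⟩ := hP.conj hQ
        have hS' := hS.cj_of_mem (le_normalizer (mem_top x))
        have h5 : Q ≤ cj x S := e ▸ cj_mono x h3
        have e1 : S ⊓ M = P := hP.maximal (hS.isP.to_le inf_le_left) inf_le_right (le_inf h3 hP.le)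
        have e2 : cj x S ⊓ M = Q := hQ.maximal (hS'.isP.to_le inf_le_left) inf_le_right (le_inf h5 hQ.le)
        refine ReflTransGen.head ⟨M, Or.inr ⟨hM, hr⟩, e1 ▸ hP, e2 ▸ hQ, x, hx, rfl, e2 ▸ h2⟩ ?_
        exact ih' Q (by rw [← hP.card_eq_card hQ]; exact hDP) _ T hS' hT (h2.trans h5) (h2.trans h4) h5 h4
    intro S T hS hT h1 h2
    by_cases e : S = T
    · rw [e]
    have l1 : D < S := lt_of_le_of_ne h1 fun e' => e (hS.maximal hT.isP le_top (e' ▸ h2)).symm
    have l2 : D < T := lt_of_le_of_ne h2 fun e' => e (hT.maximal hS.isP le_top (e' ▸ h1))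
    have l3 := lt_inf_normalizer_of_p hS.isP l1
    have l4 := lt_inf_normalizer_of_p hT.isP l2
    have cl : ∀ {U : Subgroup G}, D < U → Nat.card D < Nat.card U := fun h5 =>
      lt_of_le_of_ne (card_le_of_le h5.le) fun e => h5.ne (eq_of_le_of_card_ge h5.le e.ge)
    obtain ⟨M, hM, hle⟩ := exists_max (N := normalizer (D : Set G)) ⟨D, hS.isP.to_le h1, h0, rfl⟩
    obtain ⟨P, hP, p1⟩ := exists_syl_ge (hS.isP.to_le (inf_le_left : S ⊓ normalizer (D : Set G) ≤ S))
      (inf_le_right.trans hle)
    obtain ⟨Q, hQ, q1⟩ := exists_syl_ge (hT.isP.to_le (inf_le_left : T ⊓ normalizer (D : Set G) ≤ T))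
      (inf_le_right.trans hle)
    obtain ⟨S', hS', p2⟩ := exists_syl_ge hP.isP le_top
    obtain ⟨T', hT', q2⟩ := exists_syl_ge hQ.isP le_top
    have c1 := ih' _ (cl l3) S S' hS hS' h1 (l3.le.trans (p1.trans p2)) inf_le_left (p1.trans p2)
    have c2 := inner _ M P rfl hM hP (cl (l3.trans_le p1)) (l3.le.trans p1) Q hQ (l4.le.trans q1) S' T' hS' hT' p2 q2
    have c3 := ih' _ (cl l4) T' T hT' hT (l4.le.trans (q1.trans q2)) h2 (q1.trans q2) inf_le_left
    exact (c1.trans c2).trans c3
  exact ctrl_iff.2 fun S T hS hT h0 => main _ _ rfl h0 S T hS hT inf_le_left inf_le_right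

end Cfsg.Agent.S2956
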