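import Cfsg.Statements.S2957
import Cfsg.Agent.H2.SC

set_option autoImplicit false
open Cfsg

namespace Cfsg.Agent.S2957

open H9 H2SC Subgroup Relation

/-- Let p be a prime dividing the order of the finite group G, f an equivariant assignment of a set of subgroups f(P) of P to every p-subgroup P, each normalized by N_G(P), and S a Sylow p-subgroup. If G = G₁G₂ for subgroups G₁, G₂ both containing S and both regular for f (in each Gᵢ, the family of normalizers in Gᵢ of the members of f(P), P a Sylow p-subgroup of Gᵢ, controls Sylow p-intersections), then G itself is regular for f. -/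
theorem result {G : Type*} [Group G] [Finite G] (p : ℕ) [Fact p.Prime] (hdiv : p ∣ Nat.card G)
    (f : Subgroup G → Set (Subgroup G)) (hf : Cfsg.IsNormalizerFunctor p f) (S : Sylow p G)
    (G₁ G₂ : Subgroup G) (h₁ : (S : Subgroup G) ≤ G₁) (h₂ : (S : Subgroup G) ≤ G₂)
    (hprod : ∀ g : G, ∃ g₁ ∈ G₁, ∃ g₂ ∈ G₂, g = g₁ * g₂)
    (hr₁ : Cfsg.IsFunctorRegular p f G₁) (hr₂ : Cfsg.IsFunctorRegular p f G₂) :
    Cfsg.IsFunctorRegular p f ⊤ := by
  have hS := syl_top_of_sylow S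
  refine reg_iff.2 fun U T hU hT h0 => ?_
  obtain ⟨a, -, rfl⟩ := hS.conj hU
  obtain ⟨b, -, rfl⟩ := hS.conj hT
  obtain ⟨g₁, m1, g₂, m2, e⟩ := hprod (a⁻¹ * b)
  have s1 : Syl p (cj g₁⁻¹ S) G₁ := (hS.mono h₁ le_top).cj_of_mem (le_normalizer (inv_mem m1))
  have s2 : Syl p (cj g₂ S) G₂ := (hS.mono h₂ le_top).cj_of_mem (le_normalizer m2)
  have e1 : cj (a * g₁) (cj g₁⁻¹ (S : Subgroup G)) = cj a S := by rw [← cj_mul, mul_inv_cancel_right]
  have e2 : cj (a * g₁) (cj g₂ (S : Subgroup G)) = cj b S := by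
    rw [← cj_mul, mul_assoc, ← e, mul_inv_cancel_left]
  have hD : cj g₁⁻¹ (S : Subgroup G) ⊓ cj g₂ S ≠ ⊥ := fun e0 => h0 (by
    rw [← e1, ← e2, ← cj_inf, e0, cj_eq_bot_iff])
  obtain ⟨h, hh, hle⟩ := (hS.mono (le_inf h₁ h₂) le_top).exists_le_cj (s1.isP.to_le inf_le_left)
    (inf_le_inf s1.le s2.le)
  have s3 : Syl p (cj h S) G₁ := (hS.mono h₁ le_top).cj_of_mem (le_normalizer (mem_inf.1 hh).1)
  have s4 : Syl p (cj h S) G₂ := (hS.mono h₂ le_top).cj_of_mem (le_normalizer (mem_inf.1 hh).2)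
  have l1 : cj g₁⁻¹ (S : Subgroup G) ⊓ cj g₂ S ≤ cj g₁⁻¹ (S : Subgroup G) ⊓ cj h S := le_inf inf_le_left hle
  have l2 : cj g₁⁻¹ (S : Subgroup G) ⊓ cj g₂ S ≤ cj h (S : Subgroup G) ⊓ cj g₂ S := le_inf hle inf_le_right
  have c1 := (rt_up hf (reg_iff.1 hr₁ _ _ s1 s3 fun e0 => hD (eq_bot_iff.2 (e0 ▸ l1))) s1
    (hS.cj_of_mem (le_normalizer (mem_top _)))).1
  have c2 := (rt_up hf (reg_iff.1 hr₂ _ _ s4 s2 fun e0 => hD (eq_bot_iff.2 (e0 ▸ l2))) s4
    (hS.cj_of_mem (le_normalizer (mem_top _)))).1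
  have c3 := rt_cj ((rt_mono c1 subset_rfl l1).trans (rt_mono c2 subset_rfl l2)) (ff_cj hf (a * g₁))
  rwa [cj_inf, e1, e2] at c3

end Cfsg.Agent.S2957
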