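import Cfsg.Statements.S2958
import Cfsg.Agent.H9.LE1

set_option autoImplicit false
open Cfsg

namespace Cfsg.Agent.S2958

/-- Let X, A, B be subgroups of a group G such that G is generated by the conjugates of X and every conjugate of X is contained in A or in B. Then A = G or B = G. -/
theorem result {G : Type*} [Group G] (X A B : Subgroup G) (hgen : (⨆ g : G, X.map (MulAut.conj g).toMonoidHom) = ⊤) (hcover : ∀ g : G, X.map (MulAut.conj g).toMonoidHom ≤ A ∨ X.map (MulAut.conj g).toMonoidHom ≤ B) : A = ⊤ ∨ B = ⊤ := by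
  open H9 Subgroup in open scoped commutatorElement in
  simp only [cj_def'] at hgen hcover
  by_contra! h
  obtain ⟨g, hg⟩ : ∃ g, ¬ cj g X ≤ A := by
    by_contra! e
    exact h.1 (top_le_iff.1 (hgen ▸ iSup_le e))
  set B₀ := sSup {Y | (∃ k, Y = cj k X) ∧ ¬ Y ≤ A}
  have h1 : A ≤ normalizer (B₀ : Set G) := normalizer_sSup_of_cj fun a ha Y ⟨⟨k, e⟩, hY⟩ =>
    ⟨⟨a * k, by rw [e, cj_mul]⟩, fun e' => hY (by rwa [cj_le_iff, cj_eq_of_mem (inv_mem ha)] at e')⟩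
  have h2 : ⊤ ≤ normalizer (B₀ : Set G) := hgen ▸ iSup_le fun k => by
    by_cases e : cj k X ≤ A
    exacts [e.trans h1, (le_sSup ⟨⟨k, rfl⟩, e⟩ : _ ≤ B₀).trans le_normalizer]
  have h3 : B₀ ≤ B := sSup_le fun Y ⟨⟨k, e⟩, hY⟩ => e ▸ (hcover k).resolve_left (e ▸ hY)
  refine h.2 (top_le_iff.1 (hgen ▸ iSup_le fun k => le_trans ?_ h3))
  have := cj_mono (k * g⁻¹) (le_sSup ⟨⟨g, rfl⟩, hg⟩ : cj g X ≤ B₀)
  rwa [← cj_mul, inv_mul_cancel_right, mem_normalizer_iff_cj.1 (h2 (mem_top _))] at this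

end Cfsg.Agent.S2958
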