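import Cfsg.Statements.S2962
import Cfsg.Agent.H9.LE3

set_option autoImplicit false
open Cfsg

namespace Cfsg.Agent.S2962

/-- Let G be a finite group with G = QN, where N is a normal subgroup of G and Q is a non-abelian 2-subgroup with Q ∩ N = 1. Suppose that some nontrivial element t of Z(Q) ∩ [Q, Q] satisfies C_N(Q) = C_N(t). Then [N, Q] is solvable of odd order. -/
theorem result {G : Type*} [Group G] [Finite G] (N Q : Subgroup G) [N.Normal] (hG : Q ⊔ N = ⊤) (hQ : IsPGroup 2 ↥Q) (hQna : ¬ IsMulCommutative ↥Q) (hdisj : Q ⊓ N = ⊥) (t : G) (ht1 : t ≠ 1) (htZ : t ∈ Q ⊓ Subgroup.centralizer (Q : Set G)) (htQ : t ∈ ⁅Q, Q⁆) (hC : N ⊓ Subgroup.centralizer (Q : Set G) = N ⊓ Subgroup.centralizer ({t} : Set G)) : Group.IsSolvable ↥⁅N, Q⁆ ∧ Odd (Nat.card ↥⁅N, Q⁆) := by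
  open H9 Subgroup in open scoped commutatorElement in
  have h : (Nat.card (⁅N, Q⁆ : Subgroup G)).Coprime 2 :=
    cop_of_le (Op'_cop 2 ⊤) (odd_commutator_of_iso hG hQ hdisj htZ htQ hC)
  have h2 := Nat.coprime_two_right.1 h
  exact ⟨FT.feit_thompson _ h2, h2⟩

end Cfsg.Agent.S2962
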