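import Cfsg.Statements.S2963
import Cfsg.Agent.H2.Half

set_option autoImplicit false
open Cfsg

namespace Cfsg.Agent.S2963

open MulAction Equiv Subgroup Pointwise in

/-- Let n be odd. If the symmetric group of degree n is a minimal parabolic group for the prime 2, that is, a Sylow 2-subgroup is not normal and lies in exactly one maximal subgroup, then n = 2^m + 1 for some natural number m. -/
theorem result (n : ℕ) (hn : Odd n) (h : Cfsg.IsPMinimal 2 (Equiv.Perm (Fin n))) : ∃ m : ℕ, n = 2 ^ m + 1 := by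
  classical
  obtain ⟨S⟩ : Nonempty (Sylow 2 (Perm (Fin n))) := inferInstance
  obtain ⟨h1, M, -, h2⟩ := h S
  obtain ⟨x, hx⟩ := S.2.nonempty_fixed_point_of_prime_not_dvd_card (Fin n)
    (by rw [Nat.card_fin]; exact Nat.two_dvd_ne_zero.2 (Nat.odd_iff.1 hn))
  haveI : Nontrivial (Fin n) := by
    by_contra h
    rw [not_nontrivial_iff_subsingleton] at h
    exact h1 (by rw [Subsingleton.elim (S : Subgroup (Perm (Fin n))) ⊥]; infer_instance)
  obtain ⟨y, hy⟩ := exists_ne x
  have hxO : x ∉ orbit (S : Subgroup (Perm (Fin n))) y := by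
    rintro ⟨g, hg⟩
    have := hx g⁻¹
    rw [← show g • y = x from hg, inv_smul_smul] at this
    exact hy (this.trans hg)
  by_cases hall : ∀ z, z ≠ x → z ∈ orbit (S : Subgroup (Perm (Fin n))) y
  · obtain ⟨m, hm⟩ := S.2.card_orbit y
    refine ⟨m, ?_⟩
    have e : orbit (S : Subgroup (Perm (Fin n))) y = {x}ᶜ := Set.ext fun z =>
      ⟨fun hz e => hxO (e ▸ hz), hall z⟩
    rw [e] at hm
    have := Set.ncard_add_ncard_compl ({x} : Set (Fin n))
    rw [Nat.card_fin, Set.ncard_singleton] at this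
    have e' : ({x}ᶜ : Set (Fin n)).ncard = 2 ^ m := hm
    omega
  exfalso
  push Not at hall
  obtain ⟨z, hz, hzO⟩ := hall
  have c1 : IsCoatom (stabilizer (Perm (Fin n)) x) := (isCoatom_stabilizer_iff_preprimitive _ x).2 inferInstance
  have e1 := h2 _ ⟨c1, fun g hg => hx ⟨g, hg⟩⟩
  have hne : stabilizer (Perm (Fin n)) (orbit (S : Subgroup (Perm (Fin n))) y)ᶜ ≠ ⊤ := by
    intro e
    have := H2H.mem_stab.1 (e ▸ mem_top (swap x y)) x
    rw [swap_apply_left] at this
    exact this.2 hxO (mem_orbit_self y)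
  obtain ⟨K, c2, h3⟩ := (eq_top_or_exists_le_coatom _).resolve_left hne
  have e2 := h2 K ⟨c2, le_trans (fun g hg => ?_) h3⟩
  · have : swap x z ∈ stabilizer (Perm (Fin n)) x := by
      rw [e1, ← e2]; exact h3 (H2H.swap_mem hxO hzO)
    exact hz (by simpa using this)
  · rw [stabilizer_compl]
    exact smul_orbit (⟨g, hg⟩ : (S : Subgroup (Perm (Fin n)))) y

end Cfsg.Agent.S2963
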