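import Cfsg.Statements.S2989
import Cfsg.Agent.H9.PU3

set_option autoImplicit false
open Cfsg

namespace Cfsg.Agent.S2989

/-- Let G be a finite group and S a Sylow p-subgroup of G in the basic pushing-up situation (G ≠ 1, C_G(O_p(G)) ≤ O_p(G), S lies in a unique maximal subgroup of G, and some quotient of G is isomorphic to PSL₂ over a field of order a power of p), and suppose that S centralizes Z(J(S)), where J(S) is generated by the abelian subgroups of S of largest order (that is, J̃(S) = C_S(Z(J(S))) = S). Call a subgroup R of S centrally large if |R|·|Z(R)| is as large as possible among subgroups of S, and let S_Φ be the subgroup generated by the Frattini subgroups Φ(Q) of those minimal centrally large subgroups Q of S whose Ω₁(Z(Q)) has the largest order among minimal centrally large subgroups. Then Z(S) or S_Φ is normal in G; and if S_Φ = 1, the minimal centrally large subgroups of S are exactly the abelian subgroups of S of largest order, and at least one of them is elementary abelian. -/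
theorem result {G : Type*} [Group G] [Finite G] {p : ℕ} [Fact p.Prime] (S : Subgroup G) (hE : Cfsg.IsPushingUpSituation p S) (hJ : S ≤ Subgroup.centralizer (Cfsg.centerThompsonAOf S : Set G)) : ((S ⊓ Subgroup.centralizer (S : Set G)).Normal ∨ ((Cfsg.frattiniOfMinimalCLJoin p ↥S).map S.subtype).Normal) ∧ (Cfsg.frattiniOfMinimalCLJoin p ↥S = ⊥ → (∀ Q : Subgroup ↥S, Cfsg.IsMinimalCentrallyLarge Q ↔ Q ∈ Cfsg.maxAbelianSubgroups ↥S) ∧ ∃ A ∈ Cfsg.maxAbelianSubgroups ↥S, Cfsg.IsElementaryAbelian p A) := by
  open H9 Subgroup in open scoped commutatorElement in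
  open H9 H9.PU Subgroup in
  have r := r1_of' hE
  refine ⟨?_, fun e => ?_⟩
  · rcases r.ff' (ZA_eq S ▸ hJ) with c | f
    · exact .inl (c _ le_rfl)
    · exact .inr (map_phiJoin (p := p) (S := S) ▸ f.phi_normal)
  · obtain ⟨Q, hQ⟩ := exists_mg (p := p) (G := S)
    have l : L.Phi Q ≤ ⊥ := e ▸ le_iSup_of_le ⟨Q, mg_iff.2 hQ⟩ le_rfl
    have pQ := r.syl.isP.to_subgroup Q
    have a := le_centralizer_iff_isMulCommutative.1 (commutator_eq_bot_iff_le_centralizer.1
      (le_bot_iff.1 ((H1.commutator_le_map_frattini pQ.isNilpotent).trans l)))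
    have h := mc_top.1 hQ.1
    exact ⟨fun R => mcl_iff.trans (MA_top (G := S) ▸ h.iff_ma a), Q, MA_top (G := S) ▸ h.1.ma_of_comm a, a,
      fun x hx => l (H1.pow_mem_map_frattini pQ hx)⟩

end Cfsg.Agent.S2989
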