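import Cfsg.Statements.S2998
import Cfsg.Agent.H9.LE1

set_option autoImplicit false
open Cfsg

namespace Cfsg.Agent.S2998

/-- Let G be a finite group, p a prime, P a Sylow p-subgroup of G and x ∈ P an element such that N_G(R) ≤ C_G(x) for every nontrivial subgroup R of P. Then P ≤ C_G(x); every G-conjugate of x lying in P equals x (so g ∈ C_G(x) whenever g x g⁻¹ ∈ P); and for every normal subgroup N of G, the image of x in G ⧸ N has the same property with respect to the image of P: the normalizer of every nontrivial subgroup of the image of P centralizes the image of x. -/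
theorem result {G : Type*} [Group G] [Finite G] {p : ℕ} [Fact p.Prime] (P : Sylow p G) (x : G) (hxP : x ∈ (P : Subgroup G)) (hlc : ∀ R : Subgroup G, R ≤ (P : Subgroup G) → R ≠ ⊥ → Subgroup.normalizer (R : Set G) ≤ Subgroup.centralizer ({x} : Set G)) : (P : Subgroup G) ≤ Subgroup.centralizer ({x} : Set G) ∧ (∀ g : G, g * x * g⁻¹ ∈ (P : Subgroup G) → g * x * g⁻¹ = x) ∧ ∀ (N : Subgroup G) [N.Normal], ∀ R : Subgroup (G ⧸ N), R ≤ (P : Subgroup G).map (QuotientGroup.mk' N) → R ≠ ⊥ → Subgroup.normalizer (R : Set (G ⧸ N)) ≤ Subgroup.centralizer ({(QuotientGroup.mk x : G ⧸ N)} : Set (G ⧸ N)) := by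
  open H9 Subgroup in open scoped commutatorElement in
  have hP := syl_top_of_sylow P
  have h1 : (P : Subgroup G) ≤ centralizer {x} := by
    by_cases e : (P : Subgroup G) = ⊥
    exacts [e ▸ bot_le, le_normalizer.trans (hlc P le_rfl e)]
  refine ⟨h1, fun g hg => ?_, fun N _ R a1 a2 g hg => ?_⟩
  · by_cases e : x = 1
    · simp [e]
    refine mul_inv_eq_iff_eq_mul.2 (mem_centralizer_singleton_iff.1 ?_)
    by_cases e' : centralizer {x} = (⊤ : Subgroup G)
    · exact e' ▸ mem_top g
    exact (spe_of_syl (lt_top_iff_ne_top.2 e') hP (fun e' => e (mem_bot.1 (e' ▸ hxP))) fun A b1 b2 =>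
      inf_le_right.trans (hlc A b1 b2)).mem_of_le trivial (isPGroup_zpowers_of_mem hP.isP hxP)
        (by rwa [Ne, zpowers_eq_bot]) (zpowers_le.2 (h1 hxP)) (by rw [cj_zpowers, zpowers_le]; exact h1 hg)
  · obtain ⟨g, rfl⟩ := QuotientGroup.mk'_surjective N g
    have b1 := syl_inf_comap _ hP a1
    have b2 : ((P : Subgroup G) ⊓ R.comap (QuotientGroup.mk' N)).map (QuotientGroup.mk' N) = R := by
      rw [inf_comm]; exact map_comap_inf _ a1
    obtain ⟨k, hk, n, hn, rfl⟩ := b1.frattini' (le_normalizer_comap _ hg)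
    have key : ∀ y ∈ centralizer {x}, QuotientGroup.mk' N y ∈ centralizer {(x : G ⧸ N)} := fun y hy =>
      mem_centralizer_singleton_iff.2 (by simpa using congrArg (QuotientGroup.mk' N) (mem_centralizer_singleton_iff.1 hy))
    rw [map_mul]
    refine mul_mem ?_ (key n (hlc _ inf_le_left (fun e => a2 (by rw [← b2, e, Subgroup.map_bot])) hn))
    obtain ⟨y, c1, c2⟩ := a1 hk
    exact c2 ▸ key y (h1 c1)

end Cfsg.Agent.S2998
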