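import Cfsg.Statements.S3003
import Cfsg.Agent.H9.LE2
import Cfsg.Agent.H1.Generation
import Cfsg.Agent.H1.Misc3

set_option autoImplicit false
open Cfsg

namespace Cfsg.Agent.S3003

/-- Let G be a finite group, p a prime and Q a large p-subgroup of G: C_G(Q) ≤ Q and N_G(U) ≤ N_G(Q) for every nontrivial subgroup U of C_G(Q). Let Q ≤ G₁ ≤ G, let R be a subgroup of order prime to p normalized by G₁, and let U ≤ G₁ be a p-subgroup. If U contains a nontrivial element which is G₁-conjugate to an element of Z(Q), then C_R(U) = 1. In particular, if U is elementary abelian of order at least p² and every maximal subgroup of U contains a nontrivial element G₁-conjugate into Z(Q), then R = 1. -/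
theorem result {G : Type*} [Group G] [Finite G] {p : ℕ} [Fact p.Prime] (Q : Subgroup G) (hQp : IsPGroup p ↥Q) (hlarge : Cfsg.IsLarge Q) (G₁ : Subgroup G) (hQG : Q ≤ G₁) (R : Subgroup G) (hR : (Nat.card ↥R).Coprime p) (hGR : G₁ ≤ Subgroup.normalizer (R : Set G)) (U : Subgroup G) (hUG : U ≤ G₁) (hUp : IsPGroup p ↥U) : ((∃ x ∈ U, x ≠ 1 ∧ ∃ g ∈ G₁, g * x * g⁻¹ ∈ Q ⊓ Subgroup.centralizer (Q : Set G)) → R ⊓ Subgroup.centralizer (U : Set G) = ⊥) ∧ (Cfsg.IsElementaryAbelian p U → p ^ 2 ≤ Nat.card ↥U → (∀ U₀ : Subgroup G, U₀ ≤ U → IsCoatom (U₀.subgroupOf U) → ∃ x ∈ U₀, x ≠ 1 ∧ ∃ g ∈ G₁, g * x * g⁻¹ ∈ Q ⊓ Subgroup.centralizer (Q : Set G)) → R = ⊥) := by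
  open H9 Subgroup in open scoped commutatorElement in
  have key : ∀ U₀ : Subgroup G, (∃ x ∈ U₀, x ≠ 1 ∧ ∃ g ∈ G₁, g * x * g⁻¹ ∈ Q ⊓ centralizer (Q : Set G)) →
      R ⊓ centralizer (U₀ : Set G) = ⊥ := by
    rintro U₀ ⟨x, h1, h2, g, h3, h4⟩
    have a1 : R ⊓ centralizer (zpowers (g * x * g⁻¹) : Set G) ≤ normalizer (Q : Set G) := inf_le_right.trans
      ((centralizer_le_normalizer' _).trans (hlarge.2 _ (zpowers_le.2 h4.2) (by simpa using h2)))
    have a2 : ⁅R ⊓ centralizer (zpowers (g * x * g⁻¹) : Set G), Q⁆ = ⊥ := eq_bot_iff.2 ((le_inf (commutator_le_right' a1)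
      ((commutator_mono inf_le_left le_rfl).trans (commutator_le_left' (hQG.trans hGR)))).trans
        (inf_eq_bot_of_p_p' hQp hR).le)
    have a3 := (le_inf ((le_centralizer_iff'.2 a2).trans hlarge.1) inf_le_left).trans (inf_eq_bot_of_p_p' hQp hR).le
    rw [← cj_zpowers, ← cj_centralizer, ← mem_normalizer_iff_cj.1 (hGR h3), ← cj_inf, le_bot_iff, cj_eq_bot_iff] at a3
    exact eq_bot_iff.2 ((inf_le_inf_left _ (centralizer_anti (zpowers_le.2 h1))).trans a3.le)
  refine ⟨key U, fun h1 h2 h3 => eq_bot_iff.2 (H1.le_of_centralizer_hyperplane_le h1.1 h1.2 (hUG.trans hGR)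
    (card_cop_of_p hUp hR) fun B b1 b2 => ?_)⟩
  have b3 : ∀ X : Subgroup G, X ≤ U → X.relIndex U = p → R ⊓ centralizer (X : Set G) = ⊥ := fun X c1 c2 =>
    key X (h3 X c1 (H1.isCoatom_of_index_prime (by rw [← relIndex, c2]; exact Fact.out)))
  rcases (Nat.dvd_prime Fact.out).1 b2 with e | e
  · have : Nontrivial U := Finite.one_lt_card_iff_nontrivial.1
      ((Nat.one_lt_pow two_ne_zero (Fact.out : p.Prime).one_lt).trans_le h2)
    obtain ⟨X, c, -⟩ := (eq_top_or_exists_le_coatom (⊥ : Subgroup U)).resolve_left bot_ne_top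
    exact (inf_le_inf_left _ (centralizer_anti ((map_subtype_le X).trans (relIndex_eq_one.1 e)))).trans
      (key _ (h3 _ (map_subtype_le X) (by rwa [subgroupOf_map_subtype']))).le
  · exact (b3 B b1 e).le

end Cfsg.Agent.S3003
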