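import Cfsg.Statements.S3008
import Cfsg.Agent.H9.CD

set_option autoImplicit false
open Cfsg

namespace Cfsg.Agent.S3008

/-- Let P be a finite p-group, with J(P) generated by its abelian subgroups of largest order and J̃(P) = C_P(Z(J(P))); call R ≤ P centrally large if |R|·|Z(R)| is as large as possible, and let P_MCL be generated by the minimal centrally large subgroups. Then: for every centrally large Q, Q·J(P) ⊇ J̃(P); some minimal centrally large subgroup of P is normalized by both J(P) and P_MCL; if P = J(P) and d(P)² = |P|·|Z(P)|, where d(P) is the largest order of an abelian subgroup, then every minimal centrally large subgroup of P is abelian; and if every minimal centrally large subgroup is abelian then J̃(P) = J(P). -/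
theorem result {p : ℕ} [Fact p.Prime] (P : Type*) [Group P] [Finite P] (hP : IsPGroup p P) : (∀ Q : Subgroup P, Cfsg.IsCentrallyLarge Q → Subgroup.centralizer ((Cfsg.thompsonSubgroupA P ⊓ Subgroup.centralizer (Cfsg.thompsonSubgroupA P : Set P) : Subgroup P) : Set P) ≤ Q ⊔ Cfsg.thompsonSubgroupA P) ∧ (∃ Q : Subgroup P, Cfsg.IsMinimalCentrallyLarge Q ∧ Cfsg.thompsonSubgroupA P ≤ Subgroup.normalizer (Q : Set P) ∧ Cfsg.minimalCentrallyLargeJoin P ≤ Subgroup.normalizer (Q : Set P)) ∧ (Cfsg.thompsonSubgroupA P = ⊤ → (∀ A ∈ Cfsg.maxAbelianSubgroups P, Nat.card ↥A ^ 2 = Nat.card P * Nat.card ↥(Subgroup.center P)) → ∀ Q : Subgroup P, Cfsg.IsMinimalCentrallyLarge Q → IsMulCommutative ↥Q) ∧ ((∀ Q : Subgroup P, Cfsg.IsMinimalCentrallyLarge Q → IsMulCommutative ↥Q) → Subgroup.centralizer ((Cfsg.thompsonSubgroupA P ⊓ Subgroup.centralizer (Cfsg.thompsonSubgroupA P : Set P) : Subgroup P) : Set P) = Cfsg.thompsonSubgroupA P) := by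
  open H9 Subgroup in open scoped commutatorElement in
  have := hP.isNilpotent
  simp only [mcl_iff, cl_iff, minimalCentrallyLargeJoin, ← JA_top, ← MA_top]
  obtain ⟨Q, h1, h2, h3⟩ := exists_mcl_normalized (G := P)
  refine ⟨fun Q h => h.jt_le, ⟨Q, h1, h2, sSup_le h3⟩, fun a b R hR => ?_, fun h => le_antisymm
    (h1.1.jt_le.trans (sup_le (le_JA (h1.1.ma_of_comm (h Q h1))) le_rfl)) (le_centralizer_iff.1 inf_le_right)⟩
  obtain ⟨A, hA⟩ := exists_MA (⊤ : Subgroup P)
  have c := hR.1.sup_JA
  rw [a, sup_top_eq] at c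
  have d : CL A := ⟨c.1.of_le (by
    unfold cm
    rw [ma_cent hA, ← sq, b A hA, card_top, coe_top, centralizer_univ]), (ma_cent hA).le⟩
  exact comm_iff_commutator.2 (eq_bot_iff.2 ((hR.commutator_le d).trans (comm_iff_commutator.1 hA.2.1).le))

end Cfsg.Agent.S3008
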