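import Cfsg.Statements.S3011
import Cfsg.Agent.H9.LE2
import Cfsg.Agent.S0200

set_option autoImplicit false
open Cfsg

namespace Cfsg.Agent.S3011

/-- Let G be a finite group and V a nontrivial elementary abelian 2-subgroup of G of order at most 4 such that, whenever an element of V inverts an element h of G of odd order, some nontrivial element of V commutes with h. Then V meets O₂(G) nontrivially. (The case of order at most 4 has a short argument from the Baer–Suzuki theorem.) -/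
theorem result {G : Type*} [Group G] [Finite G] (V : Subgroup G) (hV : Cfsg.IsElementaryAbelian 2 V) (hV1 : V ≠ ⊥) (hS : Cfsg.IsSidkiPair V) (h4 : Nat.card V ≤ 4) : V ⊓ Cfsg.pCore 2 G ≠ ⊥ := by
  open H9 Subgroup in open scoped commutatorElement in
  intro h0
  have sq : ∀ v ∈ V, v * v = 1 := fun v hv => by rw [← pow_two]; exact hV.2 v hv
  have cm : ∀ {v w}, v ∈ V → w ∈ V → v * w = w * v := ab_comm hV.1
  have k1 : ∀ v ∈ V, v ≠ 1 → ∃ x : G, x ≠ 1 ∧ Odd (orderOf x) ∧ v * x * v⁻¹ = x⁻¹ ∧ ∃ w ∈ V, w ≠ 1 ∧ Commute w x :=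
    fun v hv h1 => by
      obtain ⟨x, a1, a2, a3⟩ := Cfsg.Agent.S0200.result v (H1.two_of (sq v hv) h1) fun N _ a b =>
        h1 (mem_bot.1 (h0 ▸ ⟨hv, le_pCore a b⟩))
      exact ⟨x, a1, a2, a3, hS x v hv a2 a3⟩
  have k2 : ∀ {v x : G}, x ≠ 1 → Odd (orderOf x) → v * x * v⁻¹ = x⁻¹ → ¬ Commute v x := fun a b c d =>
    inv_ne_of_odd b a (by rw [← c, d.eq, mul_inv_cancel_right])
  obtain ⟨⟨v, hv⟩, v1⟩ := ne_bot_iff_exists_ne_one.1 hV1
  obtain ⟨x, x1, x2, x3, c, hc, c1, c2⟩ := k1 v hv (by simpa using v1)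
  obtain ⟨y, y1, y2, y3, b, hb, b1, b2⟩ := k1 c hc c1
  have bc : b ≠ c := by rintro rfl; exact k2 y1 y2 y3 b2
  have all : ∀ w ∈ V, w = 1 ∨ w = b ∨ w = c ∨ w = b * c := fun w hw => by
    by_contra! e
    classical
    have a : ({w, 1, b, c, b * c} : Finset G).card = 5 := by
      have : b * c ≠ 1 := fun e' => bc (mul_right_cancel (e'.trans (sq c hc).symm))
      rw [Finset.card_insert_of_notMem (by simp [e]), Finset.card_insert_of_notMem (by simp [b1.symm, c1.symm, this.symm]),
        Finset.card_insert_of_notMem (by simp [bc, c1]), Finset.card_pair (by simp [b1])]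
    have := Set.ncard_le_ncard (s := (({w, 1, b, c, b * c} : Finset G) : Set G)) (t := V) (by
      simp [Set.insert_subset_iff, hw, hb, hc, mul_mem hb hc])
    rw [Set.ncard_coe_finset, a, ← Nat.card_coe_set_eq] at this
    exact absurd (this.trans h4) (by decide)
  have x4 : b * x * b⁻¹ = x⁻¹ := by
    rcases all v hv with e | e | e | e
    · exact absurd (Subtype.ext e) v1
    · exact e ▸ x3
    · exact absurd c2 (k2 x1 x2 (e ▸ x3))
    · rw [← x3, e, mul_assoc b c x, c2.eq]; group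
  have y5 : ∀ z : G, c * z * c⁻¹ = z⁻¹ → Commute b z → Commute x (z * z) ∨ Commute x (z * z * (b * c)) := by
    intro z z1 z2
    have a1 : b * (z⁻¹ * x * z) * b⁻¹ = (z⁻¹ * x * z)⁻¹ := by
      rw [show b * (z⁻¹ * x * z) * b⁻¹ = b * z⁻¹ * b⁻¹ * (b * x * b⁻¹) * (b * z * b⁻¹) by group, x4, z2.eq, z2.inv_right.eq]
      group
    have a2 : Odd (orderOf (z⁻¹ * x * z)) := by rwa [orderOf_conj']
    have a3 : ∀ w, Commute w (z⁻¹ * x * z) → Commute x (z * w * z⁻¹) := fun w h => by
      have := (commute_map_iff (MulAut.conj z).injective).2 h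
      simpa [mul_assoc] using this.symm
    have a4 : z * c * z⁻¹ = z * z * c := by
      rw [← z1, inv_eq_of_mul_eq_one_right (sq c hc), ← mul_assoc, ← mul_assoc, mul_assoc z c c, sq c hc, mul_one]
    obtain ⟨w, w1, w2, w3⟩ := hS _ b hb a2 a1
    rcases all w w1 with e | e | e | e <;> rw [e] at w2 w3
    · exact absurd rfl w2
    · exact absurd w3 (k2 (fun e => x1 (orderOf_eq_one_iff.1 (by rw [← orderOf_conj' z x, e, orderOf_one]))) a2 a1)
    · left
      have := (a3 _ w3).mul_right c2.symm.inv_right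
      rwa [a4, mul_inv_cancel_right] at this
    · right
      have := a3 _ w3
      rwa [← mul_assoc, ← z2.eq, mul_assoc b, mul_assoc b, a4, ← mul_assoc, (z2.mul_right z2).eq, mul_assoc _ b c] at this
  have xy : Commute x y := by
    rcases y5 _ y3 b2 with a | a
    · exact commute_of_two_pow y2 1 (by simpa [pow_two] using a)
    rcases y5 y⁻¹ (by rw [← conj_inv, y3]) b2.inv_right with a' | a'
    · exact commute_of_two_pow y2 1 (by simpa [pow_two] using a'.inv_right)
    · exact commute_of_two_pow y2 2 (by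
        have := a.mul_right a'.inv_right
        rwa [show y * y * (b * c) * (y⁻¹ * y⁻¹ * (b * c))⁻¹ = y ^ 2 ^ 2 by group] at this)
  have p1 : b * (x * y) * b⁻¹ = x⁻¹ * y := by rw [← x4, ← mul_assoc, mul_assoc _ y, ← b2.inv_left.eq]; group
  have p2 : c * (x * y) * c⁻¹ = x * y⁻¹ := by rw [← y3, ← mul_assoc, c2.eq]; group
  have p3 : b * c * (x * y) * (b * c)⁻¹ = (x * y)⁻¹ := by
    rw [show b * c * (x * y) * (b * c)⁻¹ = b * (c * (x * y) * c⁻¹) * b⁻¹ by group, p2, xy.eq, mul_inv_rev, ← x4,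
      ← mul_assoc, mul_assoc _ y⁻¹, ← b2.inv_inv.eq]
    group
  have p4 : Odd (orderOf (x * y)) := (x2.mul y2).of_dvd_nat xy.orderOf_mul_dvd_mul_orderOf
  obtain ⟨w, w1, w2, w3⟩ := hS _ _ (mul_mem hb hc) p4 p3
  have q1 : ¬ Commute b (x * y) := fun h => inv_ne_of_odd x2 x1 (mul_right_cancel (p1.symm.trans (by
    rw [h.eq, mul_inv_cancel_right])))
  rcases all w w1 with e | e | e | e <;> rw [e] at w2 w3
  · exact w2 rfl
  · exact q1 w3
  · exact inv_ne_of_odd y2 y1 (mul_left_cancel (p2.symm.trans (by rw [w3, mul_inv_cancel_right])))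
  · exact k2 (fun e => q1 (by rw [e]; exact Commute.one_right b)) p4 p3 w3

end Cfsg.Agent.S3011
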