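import Cfsg.Statements.S3012
import Cfsg.Agent.H9.LE2

set_option autoImplicit false
open Cfsg

namespace Cfsg.Agent.S3012

/-- Let G be a finite group, V a nontrivial elementary abelian 2-subgroup of G satisfying the Sidki pair condition (every odd-order element inverted by an element of V commutes with a nontrivial element of V), and K a normal subgroup of G with V ∩ K = 1. Then the image of V in G/K satisfies the Sidki pair condition in G/K. -/
theorem result {G : Type*} [Group G] [Finite G] (V K : Subgroup G) [K.Normal] (hV : Cfsg.IsElementaryAbelian 2 V) (hV1 : V ≠ ⊥) (hS : Cfsg.IsSidkiPair V) (hVK : V ⊓ K = ⊥) : Cfsg.IsSidkiPair (V.map (QuotientGroup.mk' K)) := by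
  open H9 Subgroup in open scoped commutatorElement in
  rintro y _ ⟨v, hv, rfl⟩ h1 h2
  obtain ⟨h, rfl⟩ := QuotientGroup.mk'_surjective K y
  have vv : v⁻¹ = v := inv_eq_of_mul_eq_one_right (by rw [← pow_two]; exact hV.2 v hv)
  obtain ⟨k, hk⟩ := exists_odd_pow (h * (v * h⁻¹ * v⁻¹))
  obtain ⟨w, a1, a2, a3⟩ := hS _ v hv hk (by
    rw [← conj_pow, ← inv_pow]
    congr 1
    rw [show v * (h * (v * h⁻¹ * v⁻¹)) * v⁻¹ = v * h * v * h⁻¹ * (v * v)⁻¹ by group, ← pow_two, hV.2 v hv]
    nth_rw 2 [← vv]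
    group)
  refine ⟨_, mem_map_of_mem _ a1, fun e => a2 (mem_bot.1 (hVK ▸ ⟨a1, (QuotientGroup.eq_one_iff w).1 e⟩)),
    commute_of_two_pow h1 (k + 1) ?_⟩
  have := congrArg (QuotientGroup.mk' K) a3
  simp only [map_mul, map_pow, map_inv] at this
  rw [← conj_inv, h2, inv_inv, ← sq, ← pow_mul, ← pow_succ'] at this
  exact this

end Cfsg.Agent.S3012
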