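import Cfsg.Statements.S3013
import Cfsg.Agent.H9.LE2

set_option autoImplicit false
open Cfsg

namespace Cfsg.Agent.S3013

/-- Let G be a finite group and V a nontrivial elementary abelian 2-subgroup of G satisfying the Sidki pair condition. Let v ∈ V and let x be an element of odd order inverted by v, and put C = C_G(v) ∩ C_G(x), the centralizer of the dihedral subgroup generated by v and x. Then C ∩ V is nontrivial and satisfies the Sidki pair condition inside C: every odd-order element of C inverted by an element of C ∩ V commutes with a nontrivial element of C ∩ V. -/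
theorem result {G : Type*} [Group G] [Finite G] (V : Subgroup G) (hV : Cfsg.IsElementaryAbelian 2 V) (hV1 : V ≠ ⊥) (hS : Cfsg.IsSidkiPair V) (v x : G) (hv : v ∈ V) (hx : Odd (orderOf x)) (hinv : v * x * v⁻¹ = x⁻¹) (C : Subgroup G) (hC : C = Subgroup.centralizer ({v} : Set G) ⊓ Subgroup.centralizer ({x} : Set G)) : C ⊓ V ≠ ⊥ ∧ Cfsg.IsSidkiPair ((C ⊓ V).subgroupOf C) := by
  open H9 Subgroup in open scoped commutatorElement in
  subst hC
  simp only [← bot_lt_iff_ne_bot]
  have cm : ∀ {w}, w ∈ V → w ∈ centralizer ({v} : Set G) := fun hw => mem_centralizer_singleton_iff.2 (ab_comm hV.1 hw hv)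
  constructor
  · obtain ⟨w, a1, a2, a3⟩ := hS x v hv hx hinv
    exact bot_lt_iff_ne_bot.2 fun e => a2 (mem_bot.1 (e ▸ ⟨⟨cm a1, mem_centralizer_singleton_iff.2 a3⟩, a1⟩))
  rintro ⟨h, h0⟩ ⟨u, u0⟩ ⟨⟨-, u1⟩, u2⟩ a1 a2
  obtain ⟨h1, h2⟩ := mem_inf.1 h0
  replace h1 : Commute h v := mem_centralizer_singleton_iff.1 h1
  have h3 : Commute h x := mem_centralizer_singleton_iff.1 h2
  replace u1 : Commute u x := mem_centralizer_singleton_iff.1 u1
  rw [orderOf_mk] at a1
  replace a2 : u * h * u⁻¹ = h⁻¹ := congrArg Subtype.val a2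
  obtain ⟨w, b1, b2, b3⟩ := hS (h * x) (u * v) (mul_mem u2 hv) ((a1.mul hx).of_dvd_nat h3.orderOf_mul_dvd_mul_orderOf) (by
    rw [show u * v * (h * x) * (u * v)⁻¹ = u * (v * h * v⁻¹) * u⁻¹ * (u * (v * x * v⁻¹) * u⁻¹) by group, hinv,
      ← h1.eq, mul_inv_cancel_right, a2, u1.inv_right.eq, mul_inv_cancel_right, h3.eq, mul_inv_rev])
  replace b3 : Commute w (h * x) := b3
  have b4 : Commute w v := ab_comm hV.1 b1 hv
  have b5 : Commute w (h * x⁻¹) := by
    have := (b4.mul_right b3).mul_right b4.inv_right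
    rwa [show v * (h * x) * v⁻¹ = v * h * v⁻¹ * (v * x * v⁻¹) by group, hinv, ← h1.eq, mul_inv_cancel_right] at this
  have b6 : Commute w x := commute_of_two_pow hx 1 (by
    have := b5.inv_right.mul_right b3
    rwa [show (h * x⁻¹)⁻¹ * (h * x) = x ^ 2 ^ 1 by rw [pow_one, sq]; group] at this)
  exact ⟨⟨w, cm b1, mem_centralizer_singleton_iff.2 b6⟩, ⟨⟨cm b1, mem_centralizer_singleton_iff.2 b6⟩, b1⟩,
    fun e => b2 (congrArg Subtype.val e), Subtype.ext (by simpa using (b3.mul_right b6.inv_right).eq)⟩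

end Cfsg.Agent.S3013
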