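import Cfsg.Statements.S3014
import Cfsg.Agent.H9.LE2

set_option autoImplicit false
open Cfsg

namespace Cfsg.Agent.S3014

/-- Let G be a finite group and H ≤ M ≤ G subgroups such that for every g ∈ G the subgroup generated by H and g H g⁻¹ meets M exactly in H. If H is a maximal subgroup of M and M is a maximal subgroup of G, then the normal closure of H in G meets M exactly in H. -/
theorem result {G : Type*} [Group G] [Finite G] (H M : Subgroup G) (hHM : H ≤ M) (hcl : ∀ g : G, (H ⊔ H.map (MulAut.conj g).toMonoidHom) ⊓ M = H) (hmaxH : IsCoatom (H.subgroupOf M)) (hmaxM : IsCoatom M) : Subgroup.normalClosure (H : Set G) ⊓ M = H := by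
  open H9 Subgroup in open scoped commutatorElement in
  simp only [cj_def'] at hcl
  have h1 : M ≤ normalizer (H : Set G) := fun g hg =>
    mem_normalizer_of_cj_le ((le_inf le_sup_right (cj_le_of_mem hg hHM)).trans (hcl g).le)
  obtain ⟨h2, h3⟩ := max_of_coatom hHM hmaxH
  have h4 : ∀ N : Subgroup G, N.Normal → N ⊓ M = H → normalClosure (H : Set G) ⊓ M = H := fun N _ e => le_antisymm
    ((inf_le_inf_right _ (normalClosure_le_normal (e.ge.trans inf_le_left))).trans e.le) (le_inf le_normalClosure hHM)
  by_cases e : ∀ a ∉ M, M ⊓ cj a M ≤ H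
  · obtain ⟨N, a, b, -⟩ := wielandt_max h2 h1 h3 e
    exact h4 N a b
  push Not at e
  obtain ⟨a, a1, a2⟩ := e
  have a3 : M ≤ normalizer ((H ⊔ cj a H : Subgroup G) : Set G) := by
    rw [← (h3 (H ⊔ M ⊓ cj a M) le_sup_left (sup_le hHM inf_le_left)).resolve_left fun e => a2 (le_sup_right.trans e.le)]
    exact sup_le (le_sup_left.trans le_normalizer) (normalizer_sup (inf_le_left.trans h1)
      (inf_le_right.trans (by rw [← cj_normalizer]; exact cj_mono a h1)))
  rcases hmaxM.le_iff.1 a3 with e | e
  · exact h4 _ (normal_of_top_le e.ge) (hcl a)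
  · have a4 := mem_normalizer_of_cj_le ((le_inf le_sup_right (le_sup_right.trans (le_normalizer.trans e.le))).trans (hcl a).le)
    rcases hmaxM.le_iff.1 h1 with e' | e'
    · exact h4 _ (normal_of_top_le e'.ge) (inf_eq_left.2 hHM)
    · exact absurd (e'.le a4) a1

end Cfsg.Agent.S3014
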