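import Cfsg.Statements.S3015
import Cfsg.Agent.H9.LE2

set_option autoImplicit false
open Cfsg

namespace Cfsg.Agent.S3015

/-- Let G be a finite non-abelian simple group, M a maximal subgroup of G and H a normal subgroup of M of prime index in M. Then G is generated by H together with one of its conjugates. -/
theorem result {G : Type*} [Group G] [Finite G] [IsSimpleGroup G] (hG : ¬ IsMulCommutative G) (M H : Subgroup G) (hmaxM : IsCoatom M) (hHM : H ≤ M) (hHn : (H.subgroupOf M).Normal) (hidx : (H.relIndex M).Prime) : ∃ g : G, H ⊔ H.map (MulAut.conj g).toMonoidHom = ⊤ := by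
  open H9 Subgroup in open scoped commutatorElement in
  simp only [cj_def']
  by_contra! h0
  have := Fact.mk hidx
  have h1 : M ≤ normalizer (H : Set G) := (normal_subgroupOf_iff_le_normalizer hHM).1 hHn
  have h2 : H < M := lt_of_le_not_ge hHM fun e => hidx.one_lt.ne' (relIndex_eq_one.2 e)
  have h3 : ∀ X, H ≤ X → X ≤ M → X = H ∨ X = M := fun X => _root_.L.eq_or_eq_of_relIndex_prime hidx
  have h4 : ∀ X ≤ M, X ≠ ⊥ → M ≤ normalizer (X : Set G) → normalizer (X : Set G) = M := fun X a b c =>
    (hmaxM.le_iff.1 c).resolve_left fun e => ((normal_of_top_le e.ge).eq_bot_or_eq_top).elim b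
      fun e' => hmaxM.1 (eq_top_iff.2 (e' ▸ a))
  have h5 : M ≠ ⊥ := h2.ne_bot
  have h6 := h4 M le_rfl h5 le_normalizer
  have h7 : ∀ a, cj a H ≤ M → H ≠ ⊥ → a ∈ M := fun a a1 a2 => by
    have b1 : Ores (H.relIndex M) M ≤ H := (Ores_le_iff_relIndex h1).2 ⟨1, (pow_one _).symm⟩
    have b2 : Ores (H.relIndex M) M ≤ Ores (H.relIndex M) H := (Ores_Ores _ M).ge.trans (Ores_mono b1)
    have b3 : cj a (Ores (H.relIndex M) M) = Ores (H.relIndex M) M := by
      refine mem_normalizer_iff_cj.1 (mem_normalizer_of_cj_le ((cj_mono a b2).trans ?_))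
      rw [cj_Ores]; exact Ores_mono a1
    have b4 : SN (cj a H) M := sn_of_Ores_le (b3.ge.trans (cj_mono a b1)) a1
    have b5 : (cj a H).relIndex M = H.relIndex M := Nat.eq_of_mul_eq_mul_right Nat.card_pos
      ((relIndex_mul_card a1).trans (by rw [card_cj, relIndex_mul_card hHM]))
    obtain ⟨N, c1, c2, c3⟩ := b4.exists_lt_normal fun e => hidx.one_lt.ne' (by rw [← b5, e, relIndex_self])
    rw [(_root_.L.eq_or_eq_of_relIndex_prime (b5 ▸ hidx) c1.le c2.le).resolve_right c2.ne, ← cj_normalizer,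
      h4 H hHM a2 h1] at c3
    exact h6.le (mem_normalizer_iff_cj.2 (eq_of_le_of_card_ge c3 (card_cj a M).le).symm)
  obtain ⟨N, -, b, c⟩ := wielandt_max h2 h1 h3 fun a a1 => by_contra fun a2 => by
    have a3 := (h3 (H ⊔ M ⊓ cj a M) le_sup_left (sup_le hHM inf_le_left)).resolve_left fun e => a2 (le_sup_right.trans e.le)
    by_cases e : H = ⊥
    · rw [e, bot_sup_eq, inf_eq_left] at a3
      exact a1 (h6.le (mem_normalizer_iff_cj.2 (eq_of_le_of_card_ge a3 (card_cj a M).le).symm))
    have a4 : M ≤ normalizer ((H ⊔ cj a H : Subgroup G) : Set G) := by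
      rw [← a3]
      exact sup_le (le_sup_left.trans le_normalizer) (normalizer_sup (inf_le_left.trans h1)
        (inf_le_right.trans (by rw [← cj_normalizer]; exact cj_mono a h1)))
    rcases hmaxM.le_iff.1 a4 with e' | e'
    · exact ((normal_of_top_le e'.ge).eq_bot_or_eq_top).elim (fun c => e (eq_bot_iff.2 (le_sup_left.trans c.le))) (h0 a)
    · exact a1 (h7 a (le_sup_right.trans (le_normalizer.trans e'.le)) e)
  rw [commutator_eq_top_of_simple hG, top_le_iff] at c
  exact h2.ne (by simpa [c] using b.symm)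

end Cfsg.Agent.S3015
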