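import Cfsg.Statements.S3021
import Cfsg.Agent.H9.LE2

set_option autoImplicit false
open Cfsg

namespace Cfsg.Agent.S3021

/-- Let G be a finite group, p a prime and H a p-subgroup of G that is extremely closed (for every g, the subgroup generated by H and g H g⁻¹ meets N_G(H) exactly in H). Then every p-subgroup Q of G containing H has N_G(Q) ≤ N_G(H); in particular every Sylow p-subgroup P of G containing H normalizes H, and H is strongly closed in P with respect to G. -/
theorem result {G : Type*} [Group G] [Finite G] {p : ℕ} [Fact p.Prime] (H : Subgroup G) (hHp : IsPGroup p H) (hcl : Cfsg.IsExtremelyClosed H) : (∀ Q : Subgroup G, IsPGroup p Q → H ≤ Q → Subgroup.normalizer (Q : Set G) ≤ Subgroup.normalizer (H : Set G)) ∧ ∀ P : Sylow p G, H ≤ (P : Subgroup G) → (P : Subgroup G) ≤ Subgroup.normalizer (H : Set G) ∧ Cfsg.IsStronglyClosed H (P : Subgroup G) := by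
  open H9 Subgroup in open scoped commutatorElement in
  have h1 : ∀ Q : Subgroup G, IsPGroup p Q → H ≤ Q → normalizer (Q : Set G) ≤ normalizer (H : Set G) := fun Q a b g hg => by
    refine mem_normalizer_of_cj_le (le_sup_right.trans (eq_of_le_of_not_lt (le_sup_left : H ≤ H ⊔ cj g H) fun e => ?_).ge)
    exact (lt_normalizer_of_nilpotent (a.to_le (sup_le b (cj_le_of_nm hg b))).isNilpotent e).ne
      ((hcl g).symm.trans (inf_comm _ _))
  exact ⟨h1, fun P hP => ⟨le_normalizer.trans (h1 P P.isPGroup' hP), hP, fun x hx g hg =>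
    (hcl g).le ⟨mem_sup_right (conj_mem_cj hx), h1 P P.isPGroup' hP (le_normalizer hg)⟩⟩⟩

end Cfsg.Agent.S3021
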