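import Cfsg.Statements.S3017
import Cfsg.Agent.H9.EC
import Cfsg.Agent.S3021

set_option autoImplicit false
open Cfsg

namespace Cfsg.Agent.S3017

/-- Let G be a finite group and H an abelian 2-subgroup of G that is extremely closed (for every g, the subgroup generated by H and g H g⁻¹ meets N_G(H) exactly in H). Then G = N_G(H) O(G), where O(G) is the largest normal subgroup of odd order. For H of order 2 this is Glauberman's Z*-statement. -/
theorem result {G : Type*} [Group G] [Finite G] (H : Subgroup G) (hH2 : IsPGroup 2 H) (hHab : IsMulCommutative H) (hcl : Cfsg.IsExtremelyClosed H) : Subgroup.normalizer (H : Set G) ⊔ Cfsg.oddCore G = ⊤ := by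
  open H9 Subgroup in open scoped commutatorElement in
  have h : EC H := ⟨hHab, fun g => by
    have h1 : Syl 2 H (H ⊔ cj g H) := Syl.of_normalizer (by rw [cj_def, hcl g]; exact syl_self hH2)
    exact ⟨npc_of_central_syl h1 ((hcl g).le.trans (le_centralizer_of_le_comm hHab le_rfl le_rfl)), h1⟩⟩
  obtain ⟨S, hS, l⟩ := exists_syl_ge hH2 (EC.main G H h)
  have n := (S3021.result H hH2 hcl).1 S hS.isP l
  rw [eq_top_iff, ← hS.frattini le_top (le_normalizer_Opp 2 ⊤), ← Opp_eq_sup hS, Op'_top]
  exact sup_le (sup_le le_sup_right (le_sup_of_le_left (le_normalizer.trans n)))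
    (le_sup_of_le_left (inf_le_right.trans n))

end Cfsg.Agent.S3017
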