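import Cfsg.Statements.S3025
import Cfsg.Agent.H9.SPE

set_option autoImplicit false
open Cfsg

namespace Cfsg.Agent.S3025

open H9 FT Subgroup

/-- Let F be a finite group and H a nontrivial subgroup of F that is contained in every nontrivial subgroup of F which H normalizes. Then F has a nontrivial normal subgroup N contained in every nontrivial normal subgroup of F (a unique minimal normal subgroup), N is simple, and one of the following holds: C_F(N) = 1; or H = N has prime order p, C_F(N) is cyclic of order a power of p, and F/C_F(N) is cyclic of order dividing p − 1; or H = N has order 2, N is central in F, and F is a generalized quaternion group. -/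
theorem result {F : Type*} [Group F] [Finite F] (H : Subgroup F) (hH : H ≠ ⊥)
    (hmin : ∀ R : Subgroup F, R ≠ ⊥ → H ≤ Subgroup.normalizer (R : Set F) → H ≤ R) :
    ∃ N : Subgroup F, N.Normal ∧ N ≠ ⊥ ∧ (∀ M : Subgroup F, M.Normal → M ≠ ⊥ → N ≤ M) ∧ IsSimpleGroup ↥N ∧
      (Subgroup.centralizer (N : Set F) = ⊥ ∨
       (H = N ∧ (Nat.card N).Prime ∧ IsCyclic ↥(Subgroup.centralizer (N : Set F)) ∧
          (∃ k : ℕ, 1 ≤ k ∧ Nat.card ↥(Subgroup.centralizer (N : Set F)) = Nat.card N ^ k) ∧
          (∃ g : F, Subgroup.centralizer (N : Set F) ⊔ Subgroup.zpowers g = ⊤) ∧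
          (Subgroup.centralizer (N : Set F)).index ∣ Nat.card N - 1) ∨
       (H = N ∧ Nat.card N = 2 ∧ Subgroup.centralizer (N : Set F) = ⊤ ∧
          ∃ k : ℕ, 1 ≤ k ∧ Nonempty (F ≃* QuaternionGroup (2 ^ k)))) := by
  obtain ⟨N, -, hN⟩ := Finite.exists_le_minimal (p := fun N : Subgroup F => N.Normal ∧ N ≠ ⊥) (a := ⊤)
    ⟨inferInstance, fun e => hH (eq_bot_iff.2 (e ▸ le_top))⟩
  haveI := hN.1.1
  have hHN : ∀ M : Subgroup F, M.Normal → M ≠ ⊥ → H ≤ M := fun M h1 h2 => hmin M h2 le_normalizer_of_normal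
  have huniq : ∀ M : Subgroup F, M.Normal → M ≠ ⊥ → N ≤ M := fun M h1 h2 =>
    (hN.2 (y := N ⊓ M) ⟨inferInstance, fun e => hH (eq_bot_iff.2 (e ▸ le_inf (hHN N hN.1.1 hN.1.2) (hHN M h1 h2)))⟩
      inf_le_left).trans inf_le_right
  have hHle := hHN N hN.1.1 hN.1.2
  have hs : IsSimpleGroup N := by
    haveI : Nontrivial N := (nontrivial_iff_ne_bot N).2 hN.1.2
    refine ⟨fun M hM => or_iff_not_imp_left.2 fun h0 => ?_⟩
    have h1 : H ≤ (M.map N.subtype).normalCore := fun h hh g => by
      have h2 := hmin (cj g⁻¹ (M.map N.subtype)) (by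
        rwa [Ne, cj_eq_bot_iff, Subgroup.map_eq_bot_iff_of_injective _ N.subtype_injective]) (by
        rw [← cj_normalizer]
        exact hHle.trans ((cj_eq_of_normal g⁻¹ N).ge.trans (cj_mono _ (map_subtype_le_normalizer M)))) hh
      have := (conj_mem_cj_iff (g := g⁻¹) (x := g * h * g⁻¹) (H := M.map N.subtype)).1
        (by simpa [mul_assoc] using h2)
      exact this
    have h2 := (huniq _ inferInstance fun e => hH (eq_bot_iff.2 (e ▸ h1))).trans (normalCore_le _)
    rw [eq_top_iff]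
    intro x _
    obtain ⟨y, hy, e⟩ := h2 x.2
    rwa [← Subtype.ext e]
  refine ⟨N, hN.1.1, hN.1.2, huniq, hs, or_iff_not_imp_left.2 fun hC => ?_⟩
  have hNC : N ≤ centralizer (N : Set F) := huniq _ inferInstance hC
  haveI : IsMulCommutative N := ⟨⟨fun a b => Subtype.ext (hNC b.2 a a.2)⟩⟩
  have hp : (Nat.card N).Prime := by
    letI : CommGroup N := { (inferInstance : Group N) with mul_comm := fun a b => Subtype.ext (hNC b.2 a a.2) }
    exact IsSimpleGroup.prime_card
  haveI := Fact.mk hp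
  have hHe : H = N := by
    refine eq_of_le_of_card_ge hHle (le_of_eq ?_)
    rcases (Nat.dvd_prime hp).1 (card_dvd_of_le hHle) with h | h
    · exact absurd (card_eq_one.1 h) hH
    · exact h.symm
  have hall : ∀ R ≤ centralizer (N : Set F), R ≠ ⊥ → N ≤ R := fun R h1 h2 =>
    hHe ▸ hmin R h2 (hHe ▸ (le_centralizer_iff.1 h1).trans (centralizer_le_normalizer' R))
  have hCp : IsPGroup (Nat.card N) (centralizer (N : Set F)) := by
    by_contra hc
    obtain ⟨q, hq, h1, h2⟩ : ∃ q, q.Prime ∧ q ∣ Nat.card (centralizer (N : Set F)) ∧ q ≠ Nat.card N := by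
      by_contra hh
      push Not at hh
      exact hc (IsPGroup.of_card (Nat.eq_prime_pow_of_unique_prime_dvd Nat.card_pos.ne' fun h1 h2 => hh _ h1 h2))
    haveI := Fact.mk hq
    obtain ⟨A, hA⟩ := exists_el_one h1
    have := card_dvd_of_le (hall A hA.le hA.ne_bot)
    rw [hA.card_one] at this
    exact h2 ((Nat.prime_dvd_prime_iff_eq hp hq).1 this).symm
  have hrk : rk (Nat.card N) (centralizer (N : Set F)) ≤ 1 := by
    by_contra hc
    obtain ⟨A, hA⟩ := le_rk_iff.1 (not_le.1 hc)
    have hNA := hall A hA.le hA.ne_bot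
    have hlt : N < A := lt_of_le_of_ne hNA fun e => by
      have := hA.card
      rw [← e] at this
      have h1 := hp.one_lt
      change _ = _ ^ 2 at this
      nlinarith
    obtain ⟨x, hx, hxN⟩ := SetLike.exists_of_lt hlt
    have hx1 : x ≠ 1 := fun e => hxN (e ▸ one_mem _)
    have h2 := hall (zpowers x) (zpowers_le_of_mem (hA.le hx)) (by rwa [Ne, zpowers_eq_bot])
    have h3 : N = zpowers x := eq_of_le_of_card_ge h2 (by rw [Nat.card_zpowers, hA.orderOf_eq hx hx1])
    exact hxN (h3 ▸ mem_zpowers x)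
  haveI : IsCyclic N := isCyclic_of_prime_card rfl
  have hi : (centralizer (N : Set F)).index ∣ Nat.card N - 1 := by
    have := H1.relIndex_centralizer_dvd_card_mulAut N (L := ⊤) le_normalizer_of_normal
    rwa [relIndex_top_right, IsCyclic.card_mulAut, Nat.totient_prime hp] at this
  rcases cyclic_or_quat hCp hrk with h | ⟨h, n, ⟨e⟩⟩
  · refine Or.inl ⟨hHe, hp, h, ?_, ?_, hi⟩
    · obtain ⟨k, hk⟩ := IsPGroup.iff_card.1 hCp
      refine ⟨k, Nat.pos_of_ne_zero fun e => hC (card_eq_one.1 (by rw [hk, e, pow_zero])), hk⟩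
    · haveI : IsCyclic (MulAut N) :=
        isCyclic_of_surjective (IsCyclic.mulAutMulEquiv N).symm (IsCyclic.mulAutMulEquiv N).symm.surjective
      obtain ⟨g, -, hg⟩ := H1.exists_le_sup_zpowers_of_isCyclic_map (MulAut.conjNormal (H := N)) (T := ⊤)
        inferInstance
      refine ⟨g, eq_top_iff.2 (hg.trans (sup_le_sup_right (fun x hx y hy => ?_) _))⟩
      have := congrArg Subtype.val (DFunLike.congr_fun (MonoidHom.mem_ker.1 hx) ⟨y, hy⟩)
      exact (mul_inv_eq_iff_eq_mul.1 this).symm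
  · have hT : centralizer (N : Set F) = ⊤ := by
      rw [h] at hi
      exact index_eq_one.1 (Nat.dvd_one.1 hi)
    have e' : F ≃* QuaternionGroup (2 ^ n) := (topEquiv.symm.trans (MulEquiv.subgroupCongr hT.symm)).trans e
    by_cases hn : n = 0
    · subst hn
      haveI : IsCyclic (QuaternionGroup (2 ^ 0)) := QuaternionGroup.quaternionGroup_one_isCyclic
      haveI : IsCyclic (centralizer (N : Set F)) := isCyclic_of_surjective e.symm e.symm.surjective
      refine Or.inl ⟨hHe, hp, this, ⟨2, by norm_num, ?_⟩, ⟨1, by rw [hT, top_sup_eq]⟩, hi⟩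
      rw [Nat.card_congr e.toEquiv, h, Nat.card_eq_fintype_card, QuaternionGroup.card]
      rfl
    · exact Or.inr ⟨hHe, h, hT, n, Nat.pos_of_ne_zero hn, ⟨e'⟩⟩

end Cfsg.Agent.S3025
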