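import Cfsg.Statements.S3027
import Cfsg.Agent.H9.LE2

set_option autoImplicit false
open Cfsg

namespace Cfsg.Agent.S3027

/-- Let G be a finite group and D a normal subgroup of G such that G/D is perfect (that is, G = G′D). Then among the subnormal subgroups B of G with BD = G there is a least one, and it is normal in G. -/
theorem result {G : Type*} [Group G] [Finite G] (D : Subgroup G) [D.Normal] (hperf : ⁅(⊤ : Subgroup G), (⊤ : Subgroup G)⁆ ⊔ D = ⊤) :
    ∃ B : Subgroup G, B.Normal ∧ B ⊔ D = ⊤ ∧ ∀ B' : Subgroup G, B'.IsSubnormal → B' ⊔ D = ⊤ → B ≤ B' := by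
  open H9 Subgroup in open scoped commutatorElement in
  have key : ∀ A B : Subgroup G, A ≤ normalizer (B : Set G) → B ≤ normalizer (A : Set G) → A ⊔ D = ⊤ → B ⊔ D = ⊤ →
      A ⊓ B ⊔ D = ⊤ := fun A B a1 a2 a3 a4 => by
    let f := QuotientGroup.mk' D
    have e : ∀ X : Subgroup G, X ⊔ D = ⊤ ↔ X.map f = ⊤ := fun X => by
      rw [← map_top_of_surjective f (QuotientGroup.mk'_surjective D), map_eq_map_iff, QuotientGroup.ker_mk', top_sup_eq]
    rw [e] at *
    rw [map_commutator, map_top_of_surjective f (QuotientGroup.mk'_surjective D)] at hperf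
    refine eq_top_iff.2 (le_trans ?_ (map_mono (le_inf (commutator_le_left' a2) (commutator_le_right' a1))))
    rw [map_commutator, a3, a4, hperf]
  obtain ⟨B, -, hB⟩ := Finite.exists_le_minimal (p := fun B : Subgroup G => B.Normal ∧ B ⊔ D = ⊤) (a := ⊤)
    ⟨inferInstance, top_sup_eq D⟩
  have := hB.1.1
  have h1 : ∀ X ≤ B, B ≤ normalizer (X : Set G) → X ⊔ D = ⊤ → B ≤ X := fun X a b c => by
    obtain ⟨Y, d, hY⟩ := Finite.exists_le_minimal
      (p := fun X : Subgroup G => X ≤ B ∧ B ≤ normalizer (X : Set G) ∧ X ⊔ D = ⊤) ⟨a, b, c⟩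
    refine (hB.2 ⟨normal_of_top_le fun g _ => inv_mem_iff.1 (mem_normalizer_of_cj_le (le_cj_iff.1 ?_)), hY.1.2.2⟩ hY.1.1).trans d
    have c1 : B ≤ normalizer (cj g Y : Set G) := by
      rw [← cj_normalizer, ← cj_eq_of_normal g B]; exact cj_mono g hY.1.2.1
    exact (hY.2 ⟨inf_le_left.trans hY.1.1, normalizer_inf hY.1.2.1 c1, key _ _ (hY.1.1.trans c1)
      ((cj_le_of_normal g hY.1.1).trans hY.1.2.1) hY.1.2.2 (by
        rw [← cj_eq_of_normal g D, ← cj_sup, hY.1.2.2, cj_top])⟩ inf_le_left).trans inf_le_right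
  refine ⟨B, this, hB.1.2, fun B' a => ?_⟩
  refine SN.ind (motive := fun H _ => H ⊔ D = ⊤ → B ≤ H) (fun _ => le_top) (fun H K a1 a2 _ ih e => ?_) (sn_top_iff.2 a)
  have b := (ih (eq_top_iff.2 (e.ge.trans (sup_le_sup_right a1 D)))).trans a2
  exact (h1 _ inf_le_left (normalizer_inf le_normalizer b) (key _ _ b le_normalizer_of_normal hB.1.2 e)).trans inf_le_right

end Cfsg.Agent.S3027
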