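import Cfsg.Statements.S3035
import Cfsg.Agent.H3.Dih
import Cfsg.Agent.S0255

set_option autoImplicit false
open Cfsg

namespace Cfsg.Agent.S3035

/-- Let G be a finite group with an involution z whose centralizer is dihedral of order 8. Then G = C_G(z) O(G) with O(G) the largest normal subgroup of odd order, or G is isomorphic to the symmetric group of degree 4, the symmetric group of degree 5, the group SL₃(2), or the alternating group of degree 6. -/
theorem result {G : Type*} [Group G] [Finite G] (z : G) (hz : orderOf z = 2)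
    (hC : Nonempty (↥(Subgroup.centralizer ({z} : Set G)) ≃* DihedralGroup 4)) :
    Subgroup.centralizer ({z} : Set G) ⊔ Cfsg.oddCore G = ⊤ ∨ Nonempty (G ≃* Equiv.Perm (Fin 4)) ∨ Nonempty (G ≃* Equiv.Perm (Fin 5)) ∨
      Nonempty (G ≃* Matrix.SpecialLinearGroup (Fin 3) (ZMod 2)) ∨ Nonempty (G ≃* ↥(alternatingGroup (Fin 6))) := by
  obtain h | (h | h) | h | ⟨F, _, _, c, ⟨f⟩⟩ := H3.d8_main hz hC.some
  · exact Or.inl h
  · exact Or.inr (Or.inl h)
  · exact Or.inr (Or.inr (Or.inl h))
  · exact Or.inr (Or.inr (Or.inr (Or.inr h)))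
  · refine Or.inr (Or.inr (Or.inr (Or.inl ⟨(f.trans (Cfsg.Agent.S0255.result c (ZMod.card 2)).some).trans ?_⟩)))
    refine (QuotientGroup.quotientMulEquivOfEq (Subgroup.card_eq_one.1 ?_)).trans QuotientGroup.quotientBot
    rw [H5.card_center_SL]; simp

end Cfsg.Agent.S3035
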