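import Cfsg.Statements.S3053
import Cfsg.Agent.H9.Qd
import Cfsg.Agent.H9.LE2

set_option autoImplicit false
open Cfsg

namespace Cfsg.Agent.S3053

section
open H9 Subgroup
open scoped commutatorElement
theorem hz_pow {F : Type*} [Field F] {Δ : Type*} [Group Δ] (D : QdD F Δ) (a c b : F) (n : ℕ) :
    D.hz a c b ^ n = D.hz (n * a + (n.choose 2 : ℕ) * (b * c)) (n * c) (n * b) := by
  induction n with
  | zero => simp [D.hz_zero]
  | succ n ih =>
    rw [pow_succ, ih, D.hz_mul, Nat.choose_succ_succ' n 1, D.hz_eq_iff]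
    refine ⟨?_, ?_, ?_⟩ <;> simp <;> ring
end

/-- Let p be an odd prime and G a finite group with a Sylow p-subgroup P that is extraspecial of order p³ and exponent p². Then the centre of P is strongly closed in P with respect to G: a G-conjugate of an element of Z(P) that lies in P already lies in Z(P). In particular a nontrivial central element of P is conjugate in G to no noncentral element of P. -/
theorem result {G : Type*} [Group G] [Finite G]
    {p : ℕ} [Fact p.Prime] (hp : p ≠ 2) (P : Sylow p G) (hE : Cfsg.IsExtraspecial p ↥P)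
    (hcard : Nat.card P = p ^ 3) (hexp : Monoid.exponent ↥P = p ^ 2) :
    Cfsg.IsStronglyClosed ((Subgroup.center ↥P).map (P : Subgroup G).subtype) (P : Subgroup G) := by
  open H9 Subgroup in open scoped commutatorElement in
  have hP := syl_top_of_sylow P
  have hp1 := (Fact.out : p.Prime).one_lt
  have hq : ¬ Sect (qd p) (⊤ : Subgroup G) := by
    rintro ⟨L, -, f, hf⟩
    let D := qdD p
    obtain ⟨T, h1, h2⟩ := Syl.exists_of_im f le_rfl ((im_self f hf).symm ▸ D.syl_S p)
    obtain ⟨g, -, hg⟩ := hP.exists_cj_le h1.2 le_top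
    have c1 : p ^ 3 ≤ Nat.card D.S := by
      have := Nat.card_le_card_of_injective (fun x : ZMod p × ZMod p × ZMod p => (⟨_, D.hz_mem x.1 x.2.1 x.2.2⟩ : D.S))
        fun x y h => by
          obtain ⟨a, b, c⟩ := D.hz_eq_iff.1 (congrArg Subtype.val h)
          exact Prod.ext a (Prod.ext b c)
      simpa [pow_succ, mul_assoc] using this
    have c2 := card_eq_card_im_mul f h1.1
    have c3 := card_le_of_le' hg
    rw [card_cj, hcard] at c3
    rw [h2] at c2
    have c4 : Nat.card (kr f ⊓ T : Subgroup G) = 1 := by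
      have : 0 < Nat.card (kr f ⊓ T : Subgroup G) := Nat.card_pos
      have : 0 < p ^ 3 := by positivity
      nlinarith
    have c5 : cj g T = P := eq_of_le_of_card_le hg (by rw [card_cj, hcard, c2, c4, mul_one]; exact c1)
    have c6 : Monoid.exponent P ∣ p := by
      refine Monoid.exponent_dvd_of_forall_pow_eq_one fun x => Subtype.ext ?_
      have a1 : g⁻¹ * x * g ∈ T := mem_cj.1 (c5.symm ▸ x.2)
      obtain ⟨a, c, b, e⟩ := D.mem_S.1 (h2 ▸ mem_im_of_mem f (x := ⟨_, h1.1 a1⟩) a1)
      have a2 : f (⟨_, h1.1 a1⟩ ^ p) = 1 := by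
        rw [map_pow, e, hz_pow, ← D.hz_zero, D.hz_eq_iff,
          (ZMod.natCast_eq_zero_iff _ _).2 ((Fact.out : p.Prime).dvd_choose_self two_ne_zero (by omega))]
        simp
      have a3 : (g⁻¹ * x * g) ^ p ∈ kr f ⊓ T := ⟨(coe_mem_kr f (x := ⟨_, h1.1 a1⟩ ^ p)).2 a2, pow_mem a1 p⟩
      rw [card_eq_one.1 c4, mem_bot, ← inv_inv g, inv_inv g⁻¹, conj_pow] at a3
      simpa [conj_eq_one_iff, mul_assoc, inv_mul_eq_iff_eq_mul] using a3
    erw [hexp] at c6
    exact absurd (Nat.le_of_dvd (by omega) c6) (by nlinarith)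
  have hZ : Nat.card (Zc (P : Subgroup G)) = p := by
    rw [Zc, ← map_center_subtype, card_map_subtype]; exact hE.2
  have hlt : ∀ B ≤ (P : Subgroup G), IsMulCommutative B → Nat.card B ≤ p ^ 2 := fun B h1 h2 => by
    obtain ⟨k, hk, e⟩ := (Nat.dvd_prime_pow Fact.out).1 (hcard ▸ card_dvd_of_le h1)
    rw [e]
    refine Nat.pow_le_pow_right (by omega) (by_contra fun h => ?_)
    obtain rfl : B = P := eq_of_le_of_card_le h1 (by rw [hcard, e]; exact Nat.pow_le_pow_right (by omega) (by omega))
    rw [Zc, inf_eq_left.2 (le_centralizer _), hcard] at hZ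
    exact absurd hZ (by nlinarith [Nat.pow_lt_pow_right hp1 (show 1 < 3 by omega)])
  have hJ : JA (P : Subgroup G) = P := le_antisymm (JA_le _) fun x hx => by
    by_cases h : x ∈ Zc (P : Subgroup G)
    · exact (Zc_le_ZA _ h).1
    · have a1 : Zc (P : Subgroup G) ⊔ zpowers x ≤ P := sup_le inf_le_left (zpowers_le.2 hx)
      have a2 : IsMulCommutative (Zc (P : Subgroup G) ⊔ zpowers x : Subgroup G) := by
        rw [← le_centralizer_iff_isMulCommutative, centralizer_sup]
        refine le_inf (le_centralizer_iff.1 (inf_le_right.trans (centralizer_anti a1)))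
          (sup_le (inf_le_right.trans (centralizer_anti (zpowers_le.2 hx))) (le_centralizer _))
      refine le_JA (A := Zc (P : Subgroup G) ⊔ zpowers x) ⟨a1, a2, fun B b1 b2 => (hlt B b1 b2).trans ?_⟩
        (mem_sup_right (mem_zpowers x))
      obtain ⟨k, hk, e⟩ := (Nat.dvd_prime_pow Fact.out).1 (hcard ▸ card_dvd_of_le a1)
      rw [e]
      refine Nat.pow_le_pow_right (by omega) (by_contra fun h' => h ?_)
      rw [eq_of_le_of_card_le (le_sup_left : Zc (P : Subgroup G) ≤ _ ⊔ zpowers x) (by
        rw [e, hZ]; simpa using Nat.pow_le_pow_right (n := p) (by omega) (show k ≤ 1 by omega))]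
      exact mem_sup_right (mem_zpowers x)
  have key := cf_ZA hp hq
  rw [iW_single, cf_single_iff'] at key
  erw [map_center_subtype (P : Subgroup G)]
  refine ⟨inf_le_left, fun x hx g hg => ?_⟩
  obtain ⟨n, a, b⟩ := key P hP (zpowers x) (zpowers_le.2 hx.1) g (mem_top g) (by rw [cj_zpowers]; exact zpowers_le.2 hg)
  rw [iF_fZA, hJ] at a
  rw [← conj_eq_iff_mem_centralizer.1 b x (mem_zpowers x)]
  exact conj_mem_of_le_normalizer le_rfl a.2 hx

end Cfsg.Agent.S3053
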