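import Cfsg.Statements.S3054
import Cfsg.Agent.H1.PX3
import Cfsg.Agent.FT.Pi
import Cfsg.Agent.L.PG1

set_option autoImplicit false
open Cfsg

namespace Cfsg.Agent.S3054

open H1
open Subgroup H9 H1.PX

/-- Let p be an odd prime and G a finite group with a Sylow p-subgroup P that is extraspecial of order p³ and exponent p. Suppose P contains three distinct subgroups A of order p² (each is elementary abelian of rank 2) such that every automorphism of A of order p is induced by conjugation by an element of G; equivalently the automorphism group induced on A by its normalizer contains the special linear group of A. Then p ≤ 13. -/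
theorem result {G : Type*} [Group G] [Finite G]
    {p : ℕ} [Fact p.Prime] (hp : p ≠ 2) (P : Sylow p G) (hE : Cfsg.IsExtraspecial p ↥P)
    (hcard : Nat.card P = p ^ 3) (hexp : Monoid.exponent ↥P = p)
    (A : Fin 3 → Subgroup G) (hA : Function.Injective A) (hAP : ∀ i, A i ≤ (P : Subgroup G))
    (hAcard : ∀ i, Nat.card ↥(A i) = p ^ 2)
    (hSL : ∀ i, ∀ φ : MulAut ↥(A i), orderOf φ = p → ∃ g : G, ∀ a : ↥(A i), (φ a : G) = g * (a : G) * g⁻¹) :
    p ≤ 13 := by
  obtain ⟨m, z, h⟩ := xp_of hE
  obtain rfl : m = 0 := by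
    have := Nat.pow_right_injective (Fact.out : p.Prime).two_le (h.cd.symm.trans hcard)
    omega
  have he : ∀ x ∈ (P : Subgroup G), x ^ p = 1 := fun x hx =>
    congrArg Subtype.val (hexp ▸ Monoid.pow_exponent_eq_one (⟨x, hx⟩ : P))
  obtain ⟨W, q, h1, h2, h3, -⟩ := core (syl_top_of_sylow P) h he
  have pp := (Fact.out : p.Prime)
  have lt : ∀ {X Y : Subgroup G} {k}, Nat.card X = p ^ k → Nat.card Y = p ^ (k + 1) → ¬ Y ≤ X := fun a b c =>
    (card_le_of_le c).not_gt (by rw [a, b]; exact Nat.pow_lt_pow_right pp.one_lt (Nat.lt_succ_self _))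
  have cz : Nat.card (zpowers z) = p ^ 1 := h.card_zp.trans (pow_one p).symm
  have up : ∀ a ∈ (P : Subgroup G), Nat.card (zpowers z ⊔ zpowers a : Subgroup G) ≤ p ^ 2 := fun a ha =>
    (card_sup_zp_le pp (h.norm h.zle (mem_zpowers z) ha) (by rw [he a ha]; exact one_mem _)).trans
      (by rw [h.card_zp, pow_two])
  have k : ∀ i, ∃ a : P, a.1 ∉ zpowers z ∧ Rad z a.1 ∧ zpowers z ⊔ zpowers a.1 = A i := fun i => by
    have pA : IsPGroup p (A i) := IsPGroup.of_card (hAcard i)
    have cA : IsMulCommutative (A i) := IsPGroup.isMulCommutative_of_card_eq_prime_sq (hAcard i)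
    have zA : z ∈ A i := by
      by_contra c
      have l := L.mul_card_le_of_lt (P.2.to_le (sup_le (hAP i) h.zle)) (left_lt_sup.2 (mt zpowers_le.1 c))
      have e : A i ⊔ zpowers z = P := eq_of_le_of_card_ge (sup_le (hAP i) h.zle)
        (by rw [hAcard, ← pow_succ'] at l; exact hcard.le.trans l)
      have : A i ≤ zpowers z := fun a ha => h.nd a (hAP i ha) fun y hy => commute_of_mem_sup
        (fun b hb => congrArg Subtype.val (cA.1.1 ⟨a, ha⟩ ⟨b, hb⟩)) (fun b hb => cm_of_zp (h.cen a (hAP i ha)) hb)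
        (e.ge hy)
      exact lt cz (hAcard i) this
    obtain ⟨a, a1, a2⟩ := SetLike.not_le_iff_exists.1 (lt cz (hAcard i))
    letI : CommGroup (A i) := { (inferInstance : Group (A i)) with mul_comm := cA.1.1 }
    let a' : A i := ⟨a, a1⟩
    have oa : Nat.card (zpowers a') = p := by
      rw [Nat.card_zpowers]
      exact orderOf_eq_prime (Subtype.ext (he a (hAP i a1))) fun e => a2 (by
        rw [show a = 1 from congrArg Subtype.val e]; exact one_mem _)
    have e : (A i ⧸ zpowers a') ≃* zpowers a' := mulEquivOfPrimeCardEq (by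
      have := card_eq_card_quotient_mul_card_subgroup (zpowers a')
      rw [hAcard, oa, pow_two] at this
      exact (Nat.eq_of_mul_eq_mul_right pp.pos this).symm) oa
    let χ : A i →* A i := (zpowers a').subtype.comp (e.toMonoidHom.comp (QuotientGroup.mk' _))
    have c1 : ∀ x, χ x ∈ zpowers a' := fun x => (e _).2
    have c2 : ∀ x, χ x = 1 ↔ x ∈ zpowers a' := fun x => by simp [χ]
    have c3 : ∀ x, χ (χ x) = 1 := fun x => (c2 _).2 (c1 x)
    let φ : MulAut (A i) := ⟨⟨fun x => x * χ x, fun x => x * (χ x)⁻¹, fun x => by simp [c3], fun x => by simp [c3]⟩,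
      fun x y => by simp only [map_mul]; exact mul_mul_mul_comm _ _ _ _⟩
    have f1 : ∀ x, φ x = x * χ x := fun x => rfl
    have f2 : ∀ (n : ℕ) x, (φ ^ n) x = x * χ x ^ n := fun n x => by
      induction n with
      | zero => simp
      | succ n ih => rw [pow_succ', MulAut.mul_apply, ih, f1, map_mul, map_pow, c3, one_pow, mul_one, pow_succ,
          mul_assoc]
    have z0 : χ ⟨z, zA⟩ ≠ 1 := fun c => a2 (by
      have l : zpowers z ≤ zpowers a := by
        obtain ⟨j, hj⟩ := (c2 _).1 c
        exact zpowers_le.2 ⟨j, congrArg Subtype.val hj⟩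
      rw [eq_of_le_of_card_ge l (by
        rw [h.card_zp, ← oa, Nat.card_zpowers, Nat.card_zpowers]; exact (orderOf_coe a').le)]
      exact mem_zpowers a)
    obtain ⟨g, hg⟩ := hSL i φ (orderOf_eq_prime (MulEquiv.ext fun x => by
      rw [f2, show χ x ^ p = 1 from Subtype.ext (he _ (hAP i (χ x).2)), mul_one]; rfl) fun c => z0 (by
      have := f1 ⟨z, zA⟩
      rw [c] at this
      exact left_eq_mul.1 this))
    have n1 : (χ ⟨z, zA⟩ : G) ∉ zpowers z := fun c => z0 (by
      by_contra d
      obtain ⟨j, hj⟩ := mem_zpowers_iff.1 ((FT.eq_zpowers_of_card_prime (oa ▸ pp) (c1 _) d).ge (mem_zpowers a'))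
      exact a2 (by rw [show a = _ from (congrArg Subtype.val hj).symm]; exact zpow_mem c j))
    refine ⟨⟨χ ⟨z, zA⟩, hAP i (χ _).2⟩, n1, ⟨g, ?_, ?_⟩, ?_⟩
    · rw [← hg, f1, c3, mul_one]
    · exact (hg ⟨z, zA⟩).symm
    · have l : zpowers z ⊔ zpowers (χ ⟨z, zA⟩ : G) ≤ A i := sup_le (zpowers_le.2 zA) (zpowers_le.2 (χ _).2)
      refine eq_of_le_of_card_ge l ?_
      have := L.mul_card_le_of_lt (pA.to_le l) (left_lt_sup.2 (mt zpowers_le.1 n1))
      rwa [h.card_zp, ← pow_two, ← hAcard i] at this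
  choose a a1 a2 a3 using k
  refine (fin3 h1 (x := fun i => q (a i)) (fun i j e => hA ?_) fun i => h2 _ (a1 i) (a2 i)).1
  refine (eq_of_le_of_card_ge ?_ (by rw [hAcard, hAcard])).symm
  rw [← a3, ← a3]
  exact sup_le le_sup_left (zpowers_le.2 (h3 _ _ (a1 i) e))

end Cfsg.Agent.S3054
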