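import Cfsg.Statements.S3055
import Cfsg.Agent.H1.PX3
import Cfsg.Agent.FT.Pi

set_option autoImplicit false
open Cfsg

namespace Cfsg.Agent.S3055

open H1
open Subgroup H9 H1.PX

/-- Let p be an odd prime and G a finite group with a Sylow p-subgroup P that is extraspecial of order p³ and exponent p. If all nonidentity elements of P are conjugate in G, then p ≤ 7. -/
theorem result {G : Type*} [Group G] [Finite G]
    {p : ℕ} [Fact p.Prime] (hp : p ≠ 2) (P : Sylow p G) (hE : Cfsg.IsExtraspecial p ↥P)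
    (hcard : Nat.card P = p ^ 3) (hexp : Monoid.exponent ↥P = p)
    (hconj : ∀ x y : ↥P, x ≠ 1 → y ≠ 1 → ∃ g : G, g * (x : G) * g⁻¹ = (y : G)) :
    p ≤ 7 := by
  obtain ⟨m, z, h⟩ := xp_of hE
  obtain rfl : m = 0 := by
    have := Nat.pow_right_injective (Fact.out : p.Prime).two_le (h.cd.symm.trans hcard)
    omega
  have he : ∀ x ∈ (P : Subgroup G), x ^ p = 1 := fun x hx =>
    congrArg Subtype.val (hexp ▸ Monoid.pow_exponent_eq_one (⟨x, hx⟩ : P))
  obtain ⟨W, q, h1, h2, -, h4⟩ := core (syl_top_of_sylow P) h he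
  refine finAll h1 fun x => ?_
  obtain ⟨a, a1, a2⟩ := h4 x
  have a0 : a ≠ 1 := fun e => a1 (by rw [e]; exact one_mem _)
  rw [← a2 a (mem_zpowers a) a0]
  refine h2 a a1 ?_
  obtain ⟨g, hg⟩ := hconj a ⟨z, h.mem⟩ a0 fun e => h.ne (congrArg Subtype.val e)
  have l : (P : Subgroup G) ≤ centralizer {z} := fun x hx => mem_centralizer_singleton_iff.2 (h.cen x hx)
  obtain ⟨c, c1, c2⟩ := ((syl_top_of_sylow P).mono l le_top).exists_cj_le
    (isPGroup_zpowers_of_pow (x := g * z * g⁻¹) (k := 1) (by rw [pow_one, conj_pow, h.zp]; group))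
    (zpowers_le.2 (mem_centralizer_singleton_iff.2 (by
      calc _ = g * z * g⁻¹ * (g * a * g⁻¹) := by rw [hg]
        _ = g * (z * a) * g⁻¹ := by group
        _ = g * a * g⁻¹ * (g * z * g⁻¹) := by rw [← (h.cen _ a.2).eq]; group
        _ = _ := by rw [hg])))
  rw [cj_zpowers, zpowers_le] at c2
  have e1 : c * g * a * (c * g)⁻¹ = z := by
    rw [show c * g * a * (c * g)⁻¹ = c * (g * a * g⁻¹) * c⁻¹ by group, hg, mem_centralizer_singleton_iff.1 c1,
      mul_inv_cancel_right]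
  rw [show c * (g * z * g⁻¹) * c⁻¹ = c * g * z * (c * g)⁻¹ by group] at c2
  generalize c * g = n at e1 c2
  have w1 : n * z * n⁻¹ ∉ zpowers z := fun d => a1 (by
    replace d : n * z * n⁻¹ ∈ zpowers (n * a * n⁻¹) := by rwa [e1]
    rw [← cj_zpowers, conj_mem_cj_iff] at d
    refine (FT.eq_zpowers_of_card_prime ?_ d h.ne).ge (mem_zpowers _)
    rw [Nat.card_zpowers, orderOf_eq_prime (he _ a.2) fun e => a0 (Subtype.ext e)]
    exact Fact.out)
  obtain ⟨y, y1, y2⟩ := h.pair' c2 w1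
  have k := (h.cen _ (inv_mem y1)).eq
  refine ⟨n⁻¹ * y⁻¹ * n, ?_, ?_⟩
  · calc _ = n⁻¹ * (y⁻¹ * (n * a * n⁻¹)) * y * n := by group
      _ = _ := by rw [e1, k, ← e1]; group
  · have k2 := (h.cen _ c2).eq
    rw [commutatorElement_def] at y2
    calc _ = n⁻¹ * (y⁻¹ * (n * z * n⁻¹ * y * (n * z * n⁻¹)⁻¹ * y⁻¹)) * (y * (n * z * n⁻¹)) * n := by group
      _ = n⁻¹ * (z * (n * z * n⁻¹)) * n := by rw [y2, k]; group
      _ = n⁻¹ * (n * z * n⁻¹ * (n * a * n⁻¹)) * n := by rw [← k2, e1]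
      _ = _ := by group

end Cfsg.Agent.S3055
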