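import Cfsg.Statements.S3057
import Cfsg.Agent.H9.SPE

set_option autoImplicit false
open Cfsg

namespace Cfsg.Agent.S3057

/-- Let p be a prime and G a finite p-solvable group of order divisible by p, with Sylow p-subgroup P. Then the Sylow p-subgroups of G fail to be chain-connected through nontrivial intersections (equivalently, G has a strongly p-embedded subgroup) if and only if O_p(G) = 1 and P is cyclic or, for p = 2, generalized quaternion. -/
theorem result {G : Type*} [Group G] [Finite G]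
    (p : ℕ) [Fact p.Prime] (hdiv : p ∣ Nat.card G) (hsol : Cfsg.IsPSolvable p G) (P : Sylow p G) :
    ¬ Cfsg.IsSylowChainConnected p G ↔
      Cfsg.pCore p G = ⊥ ∧ (IsCyclic ↥P ∨ (p = 2 ∧ ∃ n : ℕ, Nonempty (↥P ≃* QuaternionGroup (2 ^ n)))) := by
  open H9 Subgroup in open scoped commutatorElement in
  have hP := syl_top_of_sylow P
  rw [not_chain_iff]
  constructor
  · rintro ⟨H, h⟩
    refine ⟨by rw [← Op_top, h.Op_eq_bot], cyclic_or_quat P.isPGroup' ?_⟩
    rw [FT.rk_eq_of_syl hP]
    exact h.rk_le_one (PLay_eq_bot_of_psol (psol_of_isPSolvable hsol))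
  · rintro ⟨h1, h2⟩
    refine ⟨_, spe_of_u1 hP (hP.ne_bot (by rwa [card_top])) ?_ (by rwa [Op_top])⟩
    rcases h2 with h | ⟨-, n, ⟨e⟩⟩
    exacts [u1_of_rk P.isPGroup' (FT.rk_le_one_of_cyclic h), u1_of_quat P.isPGroup' e]

end Cfsg.Agent.S3057
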