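import Cfsg.Statements.S3058
import Cfsg.Agent.H9.SPE

set_option autoImplicit false
open Cfsg

namespace Cfsg.Agent.S3058

/-- Let p be a prime and G a finite group whose Sylow p-subgroups are not chain-connected through nontrivial intersections (so G has a strongly p-embedded subgroup). If N and M are normal subgroups of G whose orders are both divisible by p, then the order of N ∩ M is divisible by p. Consequently, among the normal subgroups of G whose order is divisible by p there is a smallest one (the intersection of all of them). -/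
theorem result {G : Type*} [Group G] [Finite G]
    (p : ℕ) [Fact p.Prime] (hG : ¬ Cfsg.IsSylowChainConnected p G)
    (N M : Subgroup G) [N.Normal] [M.Normal] (hN : p ∣ Nat.card N) (hM : p ∣ Nat.card M) :
    p ∣ Nat.card ↥(N ⊓ M) := by
  open H9 Subgroup in open scoped commutatorElement in
  obtain ⟨H, h⟩ := not_chain_iff.1 hG
  by_contra e
  have hc : (Nat.card (N ⊓ M : Subgroup G)).Coprime p := cop_iff.2 e
  obtain ⟨S, c1, c2, -⟩ := h.exists_syl
  have a1 := c1.inf_normal (N := N) le_top le_normalizer_of_normal
  have a2 := c1.inf_normal (N := M) le_top le_normalizer_of_normal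
  have a3 : ∀ X : Subgroup G, X ≤ S → X ≤ N ⊓ M → X = ⊥ := fun X b1 b2 =>
    eq_bot_of_p_p' (c1.isP.to_le b1) (cop_of_le hc b2)
  have a4 := FT.add_rk_le (p := p) (le_centralizer_iff'.2 (a3 _ (commutator_le_of_le inf_le_left inf_le_left)
    ((commutator_mono inf_le_right inf_le_right).trans (commutator_le_inf N M))))
    (a3 _ (inf_le_left.trans inf_le_left) (inf_le_inf inf_le_right inf_le_right))
  have a5 := h.Op'_le (by
    have := FT.rk_mono (p := p) ((sup_le inf_le_left inf_le_left : (S ⊓ N) ⊔ (S ⊓ M) ≤ S).trans c2)
    rw [FT.rk_eq_of_syl a1, FT.rk_eq_of_syl a2] at a4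
    have := FT.rk_pos_iff.2 hN
    have := FT.rk_pos_iff.2 hM
    omega)
  let f := QuotientGroup.mk' (N ⊓ M)
  have b1 : M.map f ≤ centralizer (((S ⊓ N).map f : Subgroup _) : Set _) :=
    map_le_centralizer_of_commutator_le_ker f (by
      rw [QuotientGroup.ker_mk', inf_comm N]
      exact (commutator_mono le_rfl inf_le_right).trans (commutator_le_inf M N))
  have b2 := cop_map_centralizer f (A := S ⊓ N) (K := M) le_normalizer_of_normal (copA_of_p a1.isP (by
    rw [QuotientGroup.ker_mk']; exact cop_of_le hc inf_le_left))
  rw [inf_eq_left.2 b1] at b2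
  have b3 := (inf_le_inf_right _ le_top : M ⊓ _ ≤ _).trans (h.cle (inf_le_left.trans c2) a1.isP (a1.ne_bot hN))
  have b4 := le_sup_ker_of_map_le f inf_le_left b2.ge
  rw [QuotientGroup.ker_mk'] at b4
  exact h.not_le_of_normal le_normalizer_of_normal hM (b4.le.trans (sup_le b3 (inf_le_left.trans
    ((le_Op' le_top le_normalizer_of_normal hc).trans a5))))

end Cfsg.Agent.S3058
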