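import Cfsg.Statements.S3060
import Cfsg.Agent.H9.LE2

set_option autoImplicit false
open Cfsg

namespace Cfsg.Agent.S3060

/-- The D*-Theorem. For a finite p-group S let D*(S) be the subgroup generated by the abelian subgroups A of S such that every x ∈ S with ⟨A, x⟩ of nilpotency class at most two centralizes A. Let p be an odd prime and H a finite p-stable group with Sylow p-subgroup S. Here H is p-stable in the following sense: the largest normal p-subgroup O_p(H) contains its centralizer in H, and for every normal p-subgroup P of H, every element acting quadratically on P has image in O_p(H/C_H(P)). Then D*(S) is a normal subgroup of H. -/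
theorem result {G : Type*} [Group G] [Finite G] {p : ℕ} [Fact p.Prime] (hp : p ≠ 2)
    (hc : Subgroup.centralizer (Cfsg.pCore p G : Set G) ≤ Cfsg.pCore p G)
    (hst : ∀ (P : Subgroup G) [P.Normal], IsPGroup p P → Cfsg.IsPStableOn p P) (S : Sylow p G) :
    (Cfsg.dStarOf (S : Subgroup G)).Normal := by
  open H9 Subgroup in open scoped commutatorElement in
  have hS := syl_top_of_sylow S
  have h1 := sSup_DF_mem hS.isP.isNilpotent
  have h2 := normalizer_DS (le_normalizer (H := (S : Subgroup G)))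
  rw [dStarOf_eq]
  generalize hD : sSup (DF (S : Subgroup G)) = D at *
  rw [← Op_top] at hc
  have hst' := pstN_iff.2 hst
  have h3 := le_Op_of_stable hS h2 h1.2.1 hc (hst' _ (normal_of_top_le (le_normalizer_Op p ⊤)) (Op_p p ⊤))
  have h4 : ∀ g, cj g D ≤ Op p ⊤ := fun g => cj_le_of_nm (le_normalizer_Op p ⊤ (mem_top g)) h3
  have h5 : ∀ g, cj g D ≤ centralizer (D : Set G) := fun g =>
    DF.le_centralizer' h1 ((h4 g).trans hS.Op_le) ((h4 g).trans (hS.Op_le.trans h2))
      (h3.trans ((hS.cj_of_mem (le_normalizer (mem_top g))).Op_le.trans (by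
        rw [← cj_normalizer]; exact cj_mono g h2))) (comm_map _ h1.2.1)
  have h6 : (ncl D ⊤).Normal := normal_of_top_le (le_normalizer_ncl D ⊤)
  have h7 : ncl D ⊤ ≤ Op p ⊤ := ncl_le_iff.2 fun g _ => h4 g
  suffices h : ncl D ⊤ ∈ DF (S : Subgroup G) by
    rwa [← le_antisymm ((le_sSup h).trans hD.le) (le_ncl D ⊤)]
  refine ⟨h7.trans hS.Op_le, comm_iff_commutator.2 (le_centralizer_iff'.1 (ncl_le_centralizer (le_centralizer_iff.1
    (ncl_le_iff.2 fun g _ => h5 g)) le_normalizer_of_normal)), fun x hx e => ?_⟩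
  have a1 := hst' _ h6 ((Op_p p ⊤).to_le h7) x (mem_top x) (eq_bot_iff.2 ((commutator_mono
    (commutator_mono le_sup_left le_sup_right) le_sup_right).trans e.le))
  refine zpowers_le.1 (le_centralizer_iff.1 (ncl_le_iff.2 fun g _ => ?_))
  obtain ⟨c, hc, n, hn, rfl⟩ : ∃ c ∈ centralizer (ncl D ⊤ : Set G), ∃ n ∈ normalizer
      (((S : Subgroup G) ⊓ Opm p ⊤ (centralizer (ncl D ⊤ : Set G)) : Subgroup G) : Set G), g = n * c := by
    obtain ⟨d, hd, n, hn, e⟩ := (hS.inf_normal le_top (le_normalizer_Opm _ _)).frattini'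
      (g := g⁻¹) (le_normalizer_Opm (p := p) _ (centralizer (ncl D ⊤ : Set G)) (mem_top _))
    have b := Opm_le_sup (hS.inf_normal le_top (le_normalizer_Opm _ _)) (le_Opm le_rfl le_normalizer
        (Ores_Opm_le _ _) (inv_mem hd))
    rw [sup_comm] at b
    obtain ⟨s, hs, c, hc, b⟩ := (mem_sup_of_le_normalizer (normalizer_centralizer le_normalizer_of_normal)).1 b
    exact ⟨c, hc, n⁻¹ * s, mul_mem (inv_mem hn) (le_normalizer hs), by rw [mul_assoc, b, ← inv_inv g, e]; group⟩
  rw [cj_mul, mem_normalizer_iff_cj.1 ((centralizer_anti (le_ncl D ⊤)).trans (centralizer_le_normalizer' D) hc),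
    cj_le_iff, cj_centralizer, cj_zpowers]
  refine le_centralizer_iff.1 (zpowers_le.2 (h1.2.2 _ (conj_mem_of_le_normalizer le_rfl (inv_mem hn) ⟨hx, a1⟩).1 ?_))
  have a2 : D ⊔ zpowers (n⁻¹ * x * n⁻¹⁻¹) ≤ cj n⁻¹ (ncl D ⊤ ⊔ zpowers x) := by
    rw [cj_sup, cj_eq_of_normal, cj_zpowers]; exact sup_le_sup_right (le_ncl D ⊤) _
  refine eq_bot_iff.2 ((commutator_mono (commutator_mono a2 a2) a2).trans ?_)
  rw [← cj_commutator, ← cj_commutator, e, cj_bot]

end Cfsg.Agent.S3060
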