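import Cfsg.Statements.S3062
import Cfsg.Agent.H9.CD

set_option autoImplicit false
open Cfsg

namespace Cfsg.Agent.S3062

/-- Let S be a finite p-group, J(S) the subgroup generated by the abelian subgroups of S of largest order and Z(J(S)) its centre. Then Z(S) ≤ D*(S) ≤ Z(J(S)), and every maximal normal abelian subgroup of S contains D*(S). -/
theorem result {S : Type*} [Group S] [Finite S] {p : ℕ} [Fact p.Prime]
    (hS : IsPGroup p S) :
    Subgroup.center S ≤ Cfsg.dStar S ∧
    Cfsg.dStar S ≤ Cfsg.thompsonSubgroupA S ⊓ Subgroup.centralizer (Cfsg.thompsonSubgroupA S : Set S) ∧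
    ∀ A : Subgroup S, A.Normal → IsMulCommutative A →
      (∀ B : Subgroup S, B.Normal → IsMulCommutative B → A ≤ B → B = A) → Cfsg.dStar S ≤ A := by
  open H9 Subgroup in open scoped commutatorElement in
  have h1 := sSup_DF_mem (S := (⊤ : Subgroup S)) (hS.to_subgroup ⊤).isNilpotent
  have h2 := normalizer_DS (le_normalizer (H := (⊤ : Subgroup S)))
  rw [dStar, ← DF_top, ← Zc_top, ← JA_top]
  refine ⟨le_sSup (Zc_mem_DF ⊤), ?_, fun A _ a1 a2 => ?_⟩
  · refine le_trans (le_sInf fun U hU => by_contra fun e => ?_) (sInf_MA ⊤).le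
    obtain ⟨A, a1, -, a2, a3⟩ := MA.exists_normalized (hS.to_subgroup ⊤) le_rfl le_normalizer le_top h2 (fun _ => h1.2.1) hU
      ((comm_iff_commutator.1 h1.2.1).le.trans bot_le) e
    exact a2 ((le_centralizer_iff.1 (DF.le_centralizer' h1 le_top (le_top.trans h2) a3 a1.2.1)).trans (ma_cent a1).le)
  · have := normal_of_top_le h2
    exact le_sup_right.trans (a2 _ inferInstance (comm_sup a1 h1.2.1 (DF.le_centralizer' h1 le_top (le_top.trans h2)
      le_normalizer_of_normal a1)) le_sup_left).le

end Cfsg.Agent.S3062
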