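import Cfsg.Statements.S3063
import Cfsg.Agent.H9.LE2

set_option autoImplicit false
open Cfsg

namespace Cfsg.Agent.S3063

/-- A weak replacement Theorem for metabelian p-groups: let S be a finite p-group whose derived subgroup is abelian and A an abelian subgroup of S of largest possible order. Then the normal closure of A in S contains an abelian subgroup B of the same order as A that is normal in S. -/
theorem result {S : Type*} [Group S] [Finite S] {p : ℕ} [Fact p.Prime]
    (hS : IsPGroup p S) (hmeta : IsMulCommutative ↥(commutator S))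
    (A : Subgroup S) (hA : A ∈ Cfsg.maxAbelianSubgroups S) :
    ∃ B ∈ Cfsg.maxAbelianSubgroups S, B.Normal ∧ B ≤ Subgroup.normalClosure (A : Set S) := by
  open H9 Subgroup in open scoped commutatorElement in
  have := hS.isNilpotent
  rw [← MA_top] at hA ⊢
  obtain ⟨B, h1, h2⟩ := exists_extremal (𝓕 := {B | B ∈ MA (⊤ : Subgroup S) ∧ B ≤ normalClosure (A : Set S)})
    ⟨A, hA, le_normalClosure⟩ fun B h => h.1.2.1
  exact ⟨B, h1.1, normal_of_top_le fun a _ => h2 a ⟨MaxF.of_card h1.1 le_top (rep_comm h1.1.2.1 (comm_of_le hmeta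
    ((cA_le_commutator (mem_top a)).trans (commutator_mono le_rfl le_top)))) (card_le_rep h1.1.2.1 a),
    (rep_le B a).trans (sup_le h1.2 (cj_le_of_normal _ h1.2))⟩, h1.2⟩

end Cfsg.Agent.S3063
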