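import Cfsg.Statements.S3064
import Cfsg.Agent.H9.LE1

set_option autoImplicit false
open Cfsg

namespace Cfsg.Agent.S3064

/-- Let S be a Sylow p-subgroup of the finite group G and x an element of S such that (i) x is the only G-conjugate of x lying in S, and (ii) x centralizes every subgroup of order prime to p that it normalizes. Then x lies in the centre of G. -/
theorem result {G : Type*} [Group G] [Finite G] {p : ℕ} [Fact p.Prime]
    (S : Sylow p G) (x : G) (hx : x ∈ S)
    (hU : ∀ g : G, g⁻¹ * x * g ∈ S → g⁻¹ * x * g = x)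
    (hb : ∀ H : Subgroup G, (Nat.card H).Coprime p → (∀ h ∈ H, x * h * x⁻¹ ∈ H) → ∀ h ∈ H, x * h = h * x) :
    x ∈ Subgroup.center G := by
  open H9 Subgroup in open scoped commutatorElement in
  refine shult_aux (p := p) _ G (Nat.lt_succ_self _) x (isPGroup_zpowers_of_mem S.isPGroup' hx)
    (iso_of_syl (syl_top_of_sylow S) hx fun g hg => by simpa using hU g⁻¹ (by rwa [inv_inv])) fun H h1 h2 y hy =>
      mem_centralizer_singleton_iff.2 (hb H h1 (fun h => conj_mem_of_le_normalizer le_rfl h2) y hy).symm

end Cfsg.Agent.S3064
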