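import Cfsg.Statements.S3065
import Cfsg.Agent.H9.LB2

set_option autoImplicit false
open Cfsg

namespace Cfsg.Agent.S3065

/-- Let G be a finite non-abelian simple group with a nontrivial Sylow 2-subgroup S (that is, G has even order). If the automorphism group of S is solvable, then the outer automorphism group Out(G) = Aut(G)/Inn(G) is solvable. -/
theorem result {G : Type*} [Group G] [Finite G] [IsSimpleGroup G]
    (hG : ¬ IsMulCommutative G) (S : Sylow 2 G) (hS1 : (S : Subgroup G) ≠ ⊥) (hS : Group.IsSolvable (MulAut ↥S)) :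
    Group.IsSolvable (Cfsg.Out G) := by
  open H9 Subgroup in open scoped commutatorElement in
  have hZ : center G = ⊥ := (center G).normal_of_characteristic.eq_bot_or_eq_top.resolve_right fun e =>
    hG ⟨⟨fun a b => (mem_center_iff.1 (e ▸ mem_top b : b ∈ center G) a)⟩⟩
  have inj : Function.Injective (MulAut.conj : G →* MulAut G) := (injective_iff_map_eq_one _).2 fun g hg => by
    rw [← mem_bot, ← hZ, mem_center_iff]
    exact fun x => (mul_inv_eq_iff_eq_mul.1 (MulEquiv.congr_fun hg x)).symm
  have hL : QS (Inn G) := by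
    rw [Inn, MonoidHom.range_eq_map, qs_map_iff inj]
    exact ⟨commutator_eq_top_of_simple hG, top_ne_bot, fun N _ h => (normal_of_top_le h).eq_bot_or_eq_top.symm.imp id
      fun e => e.le.trans bot_le⟩
  have hC : centralizer (Inn G : Set (MulAut G)) ≤ ⊥ := fun φ h => mem_bot.2 (MulEquiv.ext fun x => inj (by
    have := h _ ⟨x, rfl⟩
    ext y
    simpa using (MulEquiv.congr_fun this (φ⁻¹ y)).symm))
  have hT := (syl_top_of_sylow S).map (MulAut.conj : G →* MulAut G)
  rw [← MonoidHom.range_eq_map] at hT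
  have e := (S : Subgroup G).equivMapOfInjective _ inj
  obtain ⟨T, hT'⟩ : ∃ T, T = (S : Subgroup G).map (MulAut.conj : G →* MulAut G) := ⟨_, rfl⟩
  rw [← hT'] at hT e
  have h1 : Group.IsSolvable (centralizer (T : Set (MulAut G))) := by
    obtain ⟨A, hA⟩ : ∃ A, A = centralizer (T : Set (MulAut G)) := ⟨_, rfl⟩
    obtain ⟨P, hP⟩ := exists_syl (p := 2) ⁅A, A⁆
    have a1 := glaub_aut hT le_normalizer_of_normal hA.le hP.le hP.isP
    have a2 := (hL.sn_eq_or (sn_Op' 2 _)).resolve_left fun e => hL.not_cop_two (e ▸ Op'_cop 2 _)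
    have a3 := hP.eq_bot_iff.1 (le_bot_iff.1 ((le_centralizer_iff.1 (le_centralizer_iff'.2
        (le_bot_iff.1 (a1.trans (a2.trans hC))))).trans hC))
    have a4 := FT.feit_thompson _ (Nat.coprime_two_right.1 a3)
    rw [← hA]
    obtain ⟨Γ, _, _, f, -, hk, -⟩ := exists_quot (commutator_le_of_le le_rfl le_rfl : ⁅A, A⁆ ≤ A)
      (normalizer_commutator le_normalizer le_normalizer)
    exact isSolvable_of_im f le_rfl (isSolvable_of_comm' (L.comm_of_le_centralizer
      ((im_le_centralizer_iff f le_rfl le_rfl).2 hk.ge))) (isSolvable_of_le a4 (hk ▸ inf_le_left))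
  have h2 : Group.IsSolvable (normalizer (T : Set (MulAut G))) := isSolvable_of_im T.normalizerMonoidHom le_rfl
    (have := Group.isSolvable_of_surjective (f := (MulAut.congr e).toMonoidHom) (MulAut.congr e).surjective; inferInstance)
    (isSolvable_of_le h1 (kr_nmh T ▸ inf_le_left))
  have h3 := isSolvable_map (QuotientGroup.mk' (Inn G)) h2
  have h4 := congrArg (map (QuotientGroup.mk' (Inn G))) (hT.frattini le_top le_normalizer_of_normal)
  rw [Subgroup.map_sup, top_inf_eq, (Subgroup.map_eq_bot_iff _).2 (QuotientGroup.ker_mk' _).ge, bot_sup_eq,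
    map_top_of_surjective _ (QuotientGroup.mk'_surjective _)] at h4
  rw [h4] at h3
  exact Group.isSolvable_of_surjective (f := (⊤ : Subgroup (Out G)).subtype) fun x => ⟨⟨x, mem_top x⟩, rfl⟩

end Cfsg.Agent.S3065
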