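import Cfsg.Statements.S3071
import Cfsg.Agent.H9.Qd

set_option autoImplicit false
open Cfsg

namespace Cfsg.Agent.S3071

/-- Let p be an odd prime and S a Sylow p-subgroup of the finite group G such that, for every subgroup P with Z(S) ≤ P ≤ S, the normalizer N_G(P) has no section isomorphic to SL₂(p). Let J(S) be the subgroup generated by the abelian subgroups of S of largest order. Then two elements of S are conjugate in G if and only if they are conjugate in N_G(Z(J(S))). -/
theorem result {G : Type*} [Group G] [Finite G] {p : ℕ} [Fact p.Prime]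
    (hp : p ≠ 2) (S : Sylow p G)
    (hfree : ∀ P : Subgroup G, (S : Subgroup G) ⊓ Subgroup.centralizer ((S : Subgroup G) : Set G) ≤ P → P ≤ S →
      ¬ ∃ (H K : Subgroup G) (hK : (K.subgroupOf H).Normal), H ≤ Subgroup.normalizer (P : Set G) ∧
        Nonempty ((H ⧸ K.subgroupOf H) ≃* Matrix.SpecialLinearGroup (Fin 2) (ZMod p))) :
    ∀ x ∈ S, ∀ y ∈ S, (∃ g : G, g * x * g⁻¹ = y) ↔
      ∃ n ∈ Subgroup.normalizer (Cfsg.centerThompsonAOf (S : Subgroup G) : Set G), n * x * n⁻¹ = y := by
  open H9 Subgroup in open scoped commutatorElement in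
  have hS := syl_top_of_sylow S
  rw [ZA_eq]
  have key : RAll (Fz (normalizer (Zc (JA (S : Subgroup G)) : Set G) : Subgroup G) (S : Subgroup G)) (S : Subgroup G) ⊤ := by
    refine local_global hS (frel_Fz _ _ _) (fun A _ c _ h => Fz.cent h) (𝓦 := iW {fZA} G)
      (cf_iW (single_char char_fZA)) (Z := Zc (S : Subgroup G)) le_rfl ?_ ?_ ?_
    · intro W hW P _ h
      rw [iW_single] at hW
      rw [hW, iF_fZA]
      exact h.trans (Zc_le_ZA P)
    · intro T hT _ hZ hF h
      refine CF.bind ?_ hF (frel_Fz _ _ ⊤) (fun A _ c _ h => Fz.cent h) inf_le_left le_top h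
      refine CF.of_subgroup (single_char char_fZA) (cf_ZA hp fun h => hfree T hZ hT ?_)
      obtain ⟨K, L, a, b, c⟩ := sect_iff.1 (Sect.of_coe h).sl2_of_qd
      exact ⟨K, L, a, b.trans inf_le_right, c⟩
    · intro W hW A _ g hg h
      rw [iW_single] at hW
      rw [hW, iF_fZA] at hg
      exact Fz.single hg.2 h
  intro x hx y hy
  refine ⟨fun ⟨g, hg⟩ => ?_, fun ⟨n, _, h⟩ => ⟨n, h⟩⟩
  have h1 : cj g (zpowers x) ≤ S := by rw [cj_zpowers, hg]; exact zpowers_le.2 hy
  obtain ⟨n, a, b⟩ := (fz_subgroup_iff h1).1 (key _ (zpowers_le.2 hx) g (mem_top g) h1)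
  exact ⟨n, a, (conj_eq_iff_mem_centralizer.1 b x (mem_zpowers x)).trans hg⟩

end Cfsg.Agent.S3071
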