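import Cfsg.Statements.S3073
import Cfsg.Agent.H9.LE2
import Cfsg.Agent.H9.Glb2
import Cfsg.Agent.H9.MS1

set_option autoImplicit false
universe u
open Cfsg

namespace Cfsg.Agent.S3073

/-- For an odd prime p, every finite p-group S has a characteristic subgroup K with C_S(K) ≤ K such that, whenever S is (isomorphic to) a Sylow p-subgroup of a finite group G, G has a normal p-complement if and only if N_G(K)/C_G(K) is a p-group, i.e. every element of N_G(K) of order prime to p centralizes K (K transported into G along the isomorphism). -/
theorem result (p : ℕ) [Fact p.Prime] (hp : p ≠ 2)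
    (S : Type u) [Group S] [Finite S] (hS : IsPGroup p S) :
    ∃ K : Subgroup S, K.Characteristic ∧ Subgroup.centralizer (K : Set S) ≤ K ∧
      ∀ (G : Type u) [Group G] [Finite G] (P : Sylow p G) (e : ↥(P : Subgroup G) ≃* S),
        Cfsg.HasNormalPComplement p G ↔
          ∀ g ∈ Subgroup.normalizer (((K.comap (e : ↥(P : Subgroup G) →* S)).map (P : Subgroup G).subtype : Subgroup G) : Set G),
            (orderOf g).Coprime p →
              g ∈ Subgroup.centralizer (((K.comap (e : ↥(P : Subgroup G) →* S)).map (P : Subgroup G).subtype : Subgroup G) : Set G) := by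
  open H9 Subgroup in open scoped commutatorElement in
  refine ⟨kInfLower S, ?_, ?_, fun G _ _ P e => ?_⟩
  · exact characteristic_iff_map_eq.2 fun φ => (char_kInfLower (p := p)).2 S S hS φ
  · have := centralizer_KL_le (S := (⊤ : Subgroup S)) (hS.to_subgroup ⊤)
    rwa [KL_top, top_inf_eq] at this
  · have h0 : (kInfLower S).comap (e : P →* S) = kInfLower P := by
      rw [← (char_kInfLower (p := p)).2 P S P.isPGroup' e]
      exact comap_map_eq_self_of_injective e.injective _
    have h1 : ((kInfLower S).comap (e : P →* S)).map (P : Subgroup G).subtype = KL (P : Subgroup G) := by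
      rw [h0, ← iF_KL]; rfl
    rw [h1, ← npc_top_iff, ← Ores_le_iff']
    have hP := syl_top_of_sylow P
    have hK := KL_le (P : Subgroup G)
    have hPN : (P : Subgroup G) ≤ normalizer (KL (P : Subgroup G) : Set G) := normalizer_KL le_normalizer
    constructor
    · intro h
      rw [← commutator_eq_bot_iff_le_centralizer]
      have h2 : Ores p (normalizer (KL (P : Subgroup G) : Set G)) ≤ Ores p ⊤ := Ores_mono le_top
      have h3 : (Ores p (⊤ : Subgroup G)).Normal := normal_of_top_le (normalizer_Ores (top_le_normalizer _))
      refine le_bot_iff.1 ((le_inf ((commutator_mono h2 le_rfl).trans (commutator_le_left _ _))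
        (commutator_le_right' (Ores_le p _))).trans ((inf_comm _ _).trans (inf_eq_bot_of_p_p' (hP.2.to_le hK) h)).le)
    · intro h
      refine det_K hp (Or.inl rfl) G P hP ?_
      rw [iF_KL]
      have h2 := (hP.mono hPN le_top).inf_normal (centralizer_le_normalizer' _) (normalizer_centralizer le_rfl)
      have h3 : NPC p (centralizer (KL (P : Subgroup G) : Set G)) := npc_of_central_syl h2
        (inf_le_left.trans (centralizer_anti (centralizer_KL_le hP.2)))
      exact cop_of_le h3 ((Ores_Ores p _).ge.trans (Ores_mono h))

end Cfsg.Agent.S3073
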