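import Cfsg.Statements.S3074
import Cfsg.Agent.H1.Heis
import Cfsg.Agent.H9.Qd

set_option autoImplicit false
open Cfsg

namespace Cfsg.Agent.S3074

open H1

/-- Let p be an odd prime. A Sylow p-subgroup of Qd(p), the split extension of an elementary abelian group of order p² by SL₂(p) acting naturally, is extraspecial of order p³ and exponent p. -/
theorem result (p : ℕ) [Fact p.Prime] (hp : p ≠ 2) (P : Sylow p ↥(Cfsg.qd p)) :
    Cfsg.IsExtraspecial p ↥P ∧ Nat.card P = p ^ 3 ∧ Monoid.exponent ↥P = p := by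
  open Subgroup in
  let D := H9.qdD p
  obtain ⟨h1, h2⟩ := heis (m := 1) (Q := D.S) (fun a b c => D.hz c (b 0) (a 0))
    (fun a b c a' b' c' => by rw [D.hz_mul]; simp [dotProduct])
    (fun a b c a' b' c' e => by
      obtain ⟨e1, e2, e3⟩ := D.hz_eq_iff.1 e
      exact ⟨funext fun i => by rw [Subsingleton.elim i 0, e3],
        funext fun i => by rw [Subsingleton.elim i 0, e2], e1⟩)
    fun g => D.mem_S.trans ⟨fun ⟨a, c, b, e⟩ => ⟨fun _ => b, fun _ => c, a, e⟩,
      fun ⟨a, b, c, e⟩ => ⟨_, _, _, e⟩⟩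
  have h3 := D.syl_S p
  obtain ⟨g, -, hg⟩ := (⟨h3.le, h3.isP, h3.not_dvd⟩ : IsSylowIn p D.S ⊤).conj (isSylowIn_top P)
  have h4 := h1.map (f := (MulAut.conj g).toMonoidHom) (MulEquiv.injective _)
  have h5 : ∀ x ∈ D.S.map (MulAut.conj g).toMonoidHom, x ^ p = 1 := by
    rintro _ ⟨x, hx, rfl⟩
    rw [← map_pow, h2 hp x hx, map_one]
  rw [show D.S.map (MulAut.conj g).toMonoidHom = P from hg] at h4 h5
  refine ⟨h4.extra h4.nd h4.ne_zp, h4.cd, Nat.dvd_antisymm (Monoid.exponent_dvd_of_forall_pow_eq_one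
    fun x => Subtype.ext (h5 x x.2)) ?_⟩
  have := Monoid.order_dvd_exponent (⟨_, h4.mem⟩ : P)
  rwa [orderOf_mk, h4.ord] at this

end Cfsg.Agent.S3074
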