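import Cfsg.Statements.S3075
import Cfsg.Agent.H9.Qd

set_option autoImplicit false
open Cfsg

namespace Cfsg.Agent.S3075

open Subgroup
theorem cyc_comm {N : Type*} [Group N] (B : Subgroup N) [B.Normal] [IsCyclic B] (g h : N) {x : N} (hx : x ∈ B) :
    g * h * x * (g * h)⁻¹ = h * g * x * (h * g)⁻¹ := by
  obtain ⟨⟨b, hb⟩, hg⟩ := IsCyclic.exists_generator (α := B)
  obtain ⟨m, hm⟩ := hg ⟨g * b * g⁻¹, Normal.conj_mem inferInstance b hb g⟩
  obtain ⟨n, hn⟩ := hg ⟨h * b * h⁻¹, Normal.conj_mem inferInstance b hb h⟩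
  obtain ⟨k, hk⟩ := hg ⟨x, hx⟩
  have hm' : b ^ m = g * b * g⁻¹ := by simpa using congrArg Subtype.val hm
  have hn' : b ^ n = h * b * h⁻¹ := by simpa using congrArg Subtype.val hn
  have hk' : b ^ k = x := by simpa using congrArg Subtype.val hk
  calc g * h * x * (g * h)⁻¹ = g * (h * b ^ k * h⁻¹) * g⁻¹ := by rw [hk']; group
    _ = b ^ (m * (n * k)) := by rw [← conj_zpow, ← hn', ← zpow_mul, ← conj_zpow, ← hm', ← zpow_mul]
    _ = b ^ (n * (m * k)) := by rw [mul_left_comm]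
    _ = h * (g * b ^ k * g⁻¹) * h⁻¹ := by rw [← conj_zpow, ← hm', ← zpow_mul, ← conj_zpow, ← hn', ← zpow_mul]
    _ = _ := by rw [hk']; group

/-- Let p be an odd prime and N a finite group with a normal elementary abelian subgroup A of order p² that is its own centralizer in N, such that N/A is isomorphic to SL₂(p) (over any field F with p elements). Then N splits over A: some subgroup U of N satisfies A ∩ U = 1 and AU = N. -/
theorem result {N : Type*} [Group N] [Finite N] {p : ℕ} [Fact p.Prime] (hp : p ≠ 2)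
    (A : Subgroup N) [A.Normal] (hAcomm : IsMulCommutative A) (hAcard : Nat.card A = p ^ 2) (hAexp : Monoid.exponent ↥A = p)
    (hAself : Subgroup.centralizer (A : Set N) = A)
    {F : Type*} [Field F] [Fintype F] (hF : Fintype.card F = p) (e : N ⧸ A ≃* Matrix.SpecialLinearGroup (Fin 2) F) :
    ∃ U : Subgroup N, A ⊓ U = ⊥ ∧ A ⊔ U = ⊤ := by
  classical
  have hpp : p.Prime := Fact.out
  obtain ⟨r, hr⟩ : Odd p := hpp.odd_of_ne_two hp
  let θ : N →* Matrix.SpecialLinearGroup (Fin 2) F := e.toMonoidHom.comp (QuotientGroup.mk' A)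
  have hs : Function.Surjective θ := e.surjective.comp (QuotientGroup.mk'_surjective _)
  have hk : ∀ g, θ g = 1 ↔ g ∈ A := fun g => by
    show e (QuotientGroup.mk g) = 1 ↔ _
    rw [map_eq_one_iff _ e.injective, QuotientGroup.eq_one_iff]
  have hcm : ∀ a ∈ A, ∀ b ∈ A, a * b = b * a := fun a ha b hb =>
    congrArg Subtype.val (hAcomm.is_comm.comm ⟨a, ha⟩ ⟨b, hb⟩)
  have hex : ∀ a ∈ A, a ^ p = 1 := fun a ha => by
    have := Monoid.pow_exponent_eq_one (⟨a, ha⟩ : A)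
    rw [hAexp] at this
    exact congrArg Subtype.val this
  have hroot : ∀ a ∈ A, a ^ (r + 1) * a ^ (r + 1) = a := fun a ha => by
    rw [← pow_add, show r + 1 + (r + 1) = p + 1 by omega, pow_succ, hex a ha, one_mul]
  have hN : ∀ a ∈ A, ∀ g : N, g * a * g⁻¹ ∈ A := fun a ha g => Normal.conj_mem inferInstance a ha g
  have h2 : (2 : F) ≠ 0 := by
    intro h
    have := FiniteField.cast_card_eq_zero F
    rw [hF, hr] at this
    push_cast at this
    rw [h] at this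
    simp at this
  obtain ⟨t, ht⟩ := hs (-1)
  have htA : t ∉ A := by
    rw [← hk, ht]
    intro h
    have := congrArg (fun M : Matrix.SpecialLinearGroup (Fin 2) F => M.1 0 0) h
    simp at this
    exact h2 (by linear_combination -this)
  have htt : t * t ∈ A := by rw [← hk, map_mul, ht]; simp
  have hg : ∀ g : N, g * t * g⁻¹ * t⁻¹ ∈ A := fun g => by
    rw [← hk]; simp [ht]
  have hact : ∀ g : N, ∀ a ∈ A, t * (g * a * g⁻¹) * t⁻¹ = g * (t * a * t⁻¹) * g⁻¹ := by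
    intro g a ha
    have h1 := hcm _ (hg g⁻¹) _ (hN a ha t)
    calc t * (g * a * g⁻¹) * t⁻¹ = g * ((g⁻¹ * t * g⁻¹⁻¹ * t⁻¹) * (t * a * t⁻¹) * (g⁻¹ * t * g⁻¹⁻¹ * t⁻¹)⁻¹) * g⁻¹ := by group
      _ = _ := by rw [h1]; group
  let A0 : Subgroup N :=
    { carrier := {a | a ∈ A ∧ t * a * t⁻¹ = a}
      one_mem' := ⟨one_mem _, by simp⟩
      mul_mem' := fun {a b} ha hb => ⟨mul_mem ha.1 hb.1, by rw [← conj_mul, ha.2, hb.2]⟩
      inv_mem' := fun {a} ha => ⟨inv_mem ha.1, by rw [show t * a⁻¹ * t⁻¹ = (t * a * t⁻¹)⁻¹ by group, ha.2]⟩ }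
  let A1 : Subgroup N :=
    { carrier := {a | a ∈ A ∧ t * a * t⁻¹ = a⁻¹}
      one_mem' := ⟨one_mem _, by simp⟩
      mul_mem' := fun {a b} ha hb => ⟨mul_mem ha.1 hb.1, by rw [← conj_mul, ha.2, hb.2, hcm a ha.1 b hb.1, mul_inv_rev]⟩
      inv_mem' := fun {a} ha => ⟨inv_mem ha.1, by rw [show t * a⁻¹ * t⁻¹ = (t * a * t⁻¹)⁻¹ by group, ha.2]⟩ }
  haveI n0 : A0.Normal := ⟨fun a ha g => ⟨hN a ha.1 g, by rw [hact g a ha.1, ha.2]⟩⟩
  haveI n1 : A1.Normal := ⟨fun a ha g => ⟨hN a ha.1 g, by rw [hact g a ha.1, ha.2]; group⟩⟩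
  have hdec : ∀ a ∈ A, ∃ x ∈ A0, ∃ y ∈ A1, a = x * y := by
    intro a ha
    have hb : a ^ (r + 1) ∈ A := pow_mem ha _
    have hr' := hroot a ha
    generalize a ^ (r + 1) = b at hb hr'
    have hb' := hN b hb t
    have htb : t * (t * b * t⁻¹) * t⁻¹ = b := by
      calc _ = (t * t) * b * (t * t)⁻¹ := by group
        _ = b := by rw [hcm _ htt _ hb]; group
    refine ⟨b * (t * b * t⁻¹), ⟨mul_mem hb hb', ?_⟩, (t * b * t⁻¹)⁻¹ * b, ⟨mul_mem (inv_mem hb') hb, ?_⟩, ?_⟩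
    · rw [← conj_mul, htb, hcm _ hb _ hb']
    · calc t * ((t * b * t⁻¹)⁻¹ * b) * t⁻¹ = (t * (t * b * t⁻¹) * t⁻¹)⁻¹ * (t * b * t⁻¹) := by
            simp only [mul_inv_rev, inv_inv, mul_assoc, inv_mul_cancel_left]
        _ = _ := by rw [htb]; group
    · rw [← hr']; group
  have hcyc : ∀ B : Subgroup N, B ≤ A → B ≠ A → IsCyclic B := by
    intro B h1 h2
    have hd : Nat.card B ∣ p ^ 2 := hAcard ▸ card_dvd_of_le h1
    obtain ⟨i, hi, e⟩ := (Nat.dvd_prime_pow hpp).mp hd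
    have : i ≠ 2 := by
      rintro rfl
      exact h2 (eq_of_le_of_card_ge h1 (by rw [e, hAcard]))
    exact isCyclic_of_card_dvd_prime (p := p) (e ▸ (pow_dvd_pow p (show i ≤ 1 by omega)).trans (by simp))
  have hA0 : A0 ≠ A := by
    intro h
    apply htA
    rw [← hAself]
    intro a ha
    have : a ∈ A0 := h ▸ ha
    exact (mul_inv_eq_iff_eq_mul.mp this.2).symm
  have hA1 : A1 = A := by
    by_contra h
    haveI := hcyc A0 (fun _ h => h.1) hA0
    haveI := hcyc A1 (fun _ h => h.1) h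
    have hc : ∀ g h : N, θ g * θ h = θ h * θ g := by
      intro g h
      have : (h * g)⁻¹ * (g * h) ∈ A := by
        rw [← hAself]
        intro a ha
        obtain ⟨x, hx, y, hy, rfl⟩ := hdec a ha
        have e1 := cyc_comm A0 g h hx
        have e2 := cyc_comm A1 g h hy
        have e3 : g * h * (x * y) * (g * h)⁻¹ = h * g * (x * y) * (h * g)⁻¹ := by rw [← conj_mul, e1, e2, conj_mul]
        calc x * y * ((h * g)⁻¹ * (g * h)) = (h * g)⁻¹ * (h * g * (x * y) * (h * g)⁻¹) * (g * h) := by group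
          _ = _ := by rw [← e3]; group
      rw [← hk, map_mul, map_inv, inv_mul_eq_one, map_mul, map_mul] at this
      exact this.symm
    obtain ⟨g, hg⟩ := hs ⟨!![1, 1; 0, 1], by simp⟩
    obtain ⟨h, hh⟩ := hs ⟨!![1, 0; 1, 1], by simp⟩
    have h5 := congrArg Subtype.val (hc g h)
    rw [Matrix.SpecialLinearGroup.coe_mul, Matrix.SpecialLinearGroup.coe_mul, hg, hh] at h5
    have h6 : (!![1, 1; 0, 1] * !![1, 0; 1, 1] : Matrix (Fin 2) (Fin 2) F) 0 0 =
      (!![1, 0; 1, 1] * !![1, 1; 0, 1] : Matrix (Fin 2) (Fin 2) F) 0 0 := congrFun (congrFun h5 0) 0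
    simp at h6
  have hinv : ∀ a ∈ A, t * a * t⁻¹ = a⁻¹ := fun a ha => (show a ∈ A1 from hA1 ▸ ha).2
  refine ⟨centralizer {t}, eq_bot_iff.2 fun a ⟨ha, hc⟩ => ?_, eq_top_iff.2 fun g _ => ?_⟩
  · have h1 : a * t = t * a := mem_centralizer_singleton_iff.mp hc
    have h2 : a = a⁻¹ := by rw [← hinv a ha, ← h1]; group
    have h3 : a ^ 2 = 1 := by rw [pow_two]; nth_rewrite 2 [h2]; exact mul_inv_cancel a
    rw [mem_bot, ← hex a ha, hr, pow_succ, pow_mul, h3, one_pow, one_mul]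
  · have hb : (g * t * g⁻¹ * t⁻¹) ^ (r + 1) ∈ A := pow_mem (hg g) _
    have hr' := hroot _ (hg g)
    generalize (g * t * g⁻¹ * t⁻¹) ^ (r + 1) = b at hb hr'
    have : b⁻¹ * g ∈ centralizer {t} := by
      rw [mem_centralizer_singleton_iff]
      have h1 := hinv _ (inv_mem hb)
      calc b⁻¹ * g * t = b⁻¹ * (g * t * g⁻¹ * t⁻¹) * t * g := by group
        _ = b⁻¹⁻¹ * t * g := by rw [← hr']; group
        _ = _ := by rw [← h1]; group
    have h3 := mul_mem (mem_sup_left (S := A) (T := centralizer {t}) hb) (mem_sup_right this)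
    simpa using h3

end Cfsg.Agent.S3075
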