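import Cfsg.Statements.S3076
import Cfsg.Agent.H2.AG

set_option autoImplicit false
open Cfsg

namespace Cfsg.Agent.S3076

open Subgroup H9 H2G

/-- Let P be a Sylow p-subgroup of the finite group G and H ≤ P a subgroup with N_P(H) a Sylow p-subgroup of N_G(H). Let N be the preimage in N_G(H) of O_p(N_G(H)/C_G(H)). Then H is a Sylow p-subgroup of N if and only if C_P(H) ≤ H and O_{p',p}(N_G(H)) = H·C_G(H). -/
theorem result {G : Type*} [Group G] [Finite G] {p : ℕ} [Fact p.Prime]
    (P : Sylow p G) (H : Subgroup G) (hHP : H ≤ (P : Subgroup G))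
    (hSyl : ¬ p ∣ ((P : Subgroup G) ⊓ Subgroup.normalizer (H : Set G)).relIndex (Subgroup.normalizer (H : Set G)))
    [hC : ((Subgroup.centralizer (H : Set G)).subgroupOf (Subgroup.normalizer (H : Set G))).Normal] :
    (H ≤ ((Cfsg.pCore p (↥(Subgroup.normalizer (H : Set G)) ⧸
              (Subgroup.centralizer (H : Set G)).subgroupOf (Subgroup.normalizer (H : Set G)))).comap
            (QuotientGroup.mk' _)).map (Subgroup.normalizer (H : Set G)).subtype ∧
      ¬ p ∣ H.relIndex (((Cfsg.pCore p (↥(Subgroup.normalizer (H : Set G)) ⧸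
              (Subgroup.centralizer (H : Set G)).subgroupOf (Subgroup.normalizer (H : Set G)))).comap
            (QuotientGroup.mk' _)).map (Subgroup.normalizer (H : Set G)).subtype)) ↔
    ((P : Subgroup G) ⊓ Subgroup.centralizer (H : Set G) ≤ H ∧
      (Cfsg.pPrimePCore p ↥(Subgroup.normalizer (H : Set G))).map (Subgroup.normalizer (H : Set G)).subtype =
        H ⊔ Subgroup.centralizer (H : Set G)) := by
  have hP := syl_top_of_sylow P
  have hH := hP.isP.to_le hHP
  have hfn : Syl p ((P : Subgroup G) ⊓ normalizer (H : Set G)) (normalizer (H : Set G)) :=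
    ⟨inf_le_right, hP.isP.to_le inf_le_left, hSyl⟩
  have e : ((Cfsg.pCore p (↥(Subgroup.normalizer (H : Set G)) ⧸
      (Subgroup.centralizer (H : Set G)).subgroupOf (Subgroup.normalizer (H : Set G)))).comap
      (QuotientGroup.mk' _)).map (Subgroup.normalizer (H : Set G)).subtype =
      Opm p (normalizer (H : Set G)) (centralizer (H : Set G)) := by
    have := fun a : normalizer (H : Set G) => mem_Opm_map_iff (p := p) (normalizer (H : Set G)).subtype (H := ⊤)
      (C := centralizer (H : Set G)) (a := a) (mem_top a)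
    rw [map_top_subtype] at this
    ext x
    constructor
    · rintro ⟨a, ha, rfl⟩
      exact (this a).2 ((mk_mem_pCore_iff (C := (centralizer (H : Set G)).subgroupOf (normalizer (H : Set G)))).1 ha)
    · intro hx
      exact ⟨⟨x, Opm_le _ _ _ hx⟩, (mk_mem_pCore_iff (C := (centralizer (H : Set G)).subgroupOf (normalizer (H : Set G)))).2
        ((this ⟨x, Opm_le _ _ _ hx⟩).1 hx), rfl⟩
  rw [e, Opp_eq]
  constructor
  · rintro ⟨h1, h2⟩
    have hs : Syl p H (Opm p (normalizer (H : Set G)) (centralizer (H : Set G))) := ⟨h1, hH, h2⟩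
    have h3 : (P : Subgroup G) ⊓ Opm p (normalizer (H : Set G)) (centralizer (H : Set G)) ≤ H :=
      (hs.maximal (hP.isP.to_le inf_le_left) inf_le_right (le_inf hHP h1)).le
    exact ⟨rad_cent h3, (rad_Opp hHP hP.isP hfn h3).trans (Opm_eq_of_syl hs)⟩
  · rintro ⟨h1, h2⟩
    have h3 := le_antisymm (Opp_le_Opm hH) (Opm_le_Opp hfn h1)
    have h4 : (P : Subgroup G) ⊓ Opm p (normalizer (H : Set G)) (centralizer (H : Set G)) ≤ H := by
      rw [← h3, h2, inf_comm, dedekind hHP (Or.inr (centralizer_le_normalizer _))]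
      exact sup_le le_rfl (by rwa [inf_comm])
    have := rad_syl hHP hP.isP hfn h4
    exact ⟨this.le, this.not_dvd⟩

end Cfsg.Agent.S3076
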