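import Cfsg.Statements.S3078
import Cfsg.Agent.H9.ZJ
import Cfsg.Agent.H9.Quad
import Cfsg.Agent.FT.Rank

set_option autoImplicit false
open Cfsg

namespace Cfsg.Agent.S3078

open H9 FT Subgroup

/-- A replacement Theorem for abelian subgroups of p-groups, p odd. Let G be a finite p-group with p odd, A an abelian subgroup of G, and B a subgroup of nilpotency class at most 2 with [B, B] ≤ A, such that A normalizes B but B does not normalize A. Then there is an abelian subgroup A* of G of the same order as A with A ∩ B strictly contained in A* ∩ B, A* contained in N_G(A) and in the normal closure of A, the exponent of A* dividing the exponent of A, and with the subgroup generated by the elements of order dividing p in A of order at most that of the corresponding subgroup of A* (the rank of A is at most the rank of A*). -/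
theorem result {G : Type*} [Group G] [Finite G] {p : ℕ} [Fact p.Prime] (hp : p ≠ 2) (hG : IsPGroup p G) (A B : Subgroup G) (hA : IsMulCommutative A) (hB2 : ⁅⁅B, B⁆, B⁆ = ⊥) (hBA : ⁅B, B⁆ ≤ A) (hAB : A ≤ Subgroup.normalizer (B : Set G)) (hBnA : ¬ B ≤ Subgroup.normalizer (A : Set G)) : ∃ Astar : Subgroup G, IsMulCommutative Astar ∧ Nat.card Astar = Nat.card A ∧ A ⊓ B < Astar ⊓ B ∧ Astar ≤ Subgroup.normalizer (A : Set G) ∧ Astar ≤ Subgroup.normalClosure (A : Set G) ∧ Monoid.exponent Astar ∣ Monoid.exponent A ∧ Nat.card (Cfsg.omegaOne p A) ≤ Nat.card (Cfsg.omegaOne p Astar) := by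
  have hp' : Fact p.Prime := inferInstance
  have hS : IsPGroup p (A ⊔ B : Subgroup G) := hG.to_subgroup _
  have hn : A ⊔ B ≤ normalizer (B : Set G) := sup_le hAB le_normalizer
  obtain ⟨b, hb, h3, h4⟩ := exists_rep_elt hS le_sup_right hn hBnA
  have hAN : A ≤ (A ⊔ B) ⊓ normalizer (A : Set G) := le_inf le_sup_left le_normalizer
  have hNB := inf_le_left.trans hn (a := (A ⊔ B) ⊓ normalizer (A : Set G))
  obtain ⟨e1, e2, e3, e4, e5, -, -, e8⟩ := star_spec hA hAN inf_le_right h3 hBA hb hNB
    (cA_comm hA hAN inf_le_right h3 hBA hb hNB (hG.to_subgroup B) fun h => absurd h hp)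
  refine ⟨star A b, e2, e1, lt_of_le_of_ne (le_inf e4 inf_le_right) fun e => h4 (e8 ((le_inf le_sup_right
    ((cA_le_commutator hb).trans (commutator_le_left' hAB))).trans (e.ge.trans inf_le_left))),
    e5.trans inf_le_right, (star_le_sup A b).trans (sup_le le_normalClosure ?_), ?_, ?_⟩
  · rw [← cj_eq_of_normal b⁻¹ (normalClosure (A : Set G))]
    exact cj_mono _ le_normalClosure
  · have ho : Odd (Monoid.exponent A) := by
      obtain ⟨k, hk⟩ := IsPGroup.iff_card.1 (hG.to_subgroup A)
      refine Odd.of_dvd_nat (m := Monoid.exponent A) ?_ Group.exponent_dvd_nat_card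
      rw [hk]
      exact (hp'.out.odd_of_ne_two hp).pow
    rw [Monoid.exponent_dvd_iff_forall_pow_eq_one]
    intro x
    exact Subtype.ext (star_pow hA hAN inf_le_right h3 ho
      (fun a ha => congrArg Subtype.val (Monoid.pow_exponent_eq_one (⟨a, ha⟩ : A))) x x.2)
  · have hE := el_omegaOne_of_comm (p := p) hA
    have hN0 : (A ⊔ B) ⊓ normalizer (A : Set G) ≤ normalizer (omegaOne p A : Set G) :=
      L.normalizer_omegaOne inf_le_right
    have k1 := star_pow hE.comm (hE.le.trans hAN) hN0 h3 (hp'.out.odd_of_ne_two hp) hE.elem.2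
    have k2 := card_sup_mul_card_inf (A := omegaOne p (star A b)) (B := omegaOne p A)
      (((L.omegaOne_le _ _).trans e5).trans hN0)
    have k3 := card_mul_card_le (omegaOne p A) (cj b⁻¹ (omegaOne p A))
    rw [card_cj] at k3
    have k4 : omegaOne p A ⊓ cj b⁻¹ (omegaOne p A) ≤ omegaOne p (star A b) ⊓ omegaOne p A := fun x hx =>
      ⟨subset_closure ⟨mem_sup_left ⟨hE.le hx.1, cj_mono _ hE.le hx.2⟩, hE.elem.2 x hx.1⟩, hx.1⟩
    have k5 : omegaOne p A ⊔ cj b⁻¹ (omegaOne p A) ≤ omegaOne p (star A b) ⊔ omegaOne p A := by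
      refine sup_le le_sup_right fun x hx => ?_
      have h16 := mem_cj.1 hx
      have : x = b⁻¹ * (b⁻¹⁻¹ * x * b⁻¹) * b * (b⁻¹⁻¹ * x * b⁻¹)⁻¹ * (b⁻¹⁻¹ * x * b⁻¹) := by group
      rw [this]
      exact mul_mem (mem_sup_left (subset_closure ⟨mem_sup_right (mem_cA (hE.le h16)),
        k1 _ (mem_sup_right (mem_cA h16))⟩)) (mem_sup_right h16)
    have k6 := Nat.mul_le_mul (card_le_of_le k5) (card_le_of_le k4)
    rw [k2] at k6
    exact Nat.le_of_mul_le_mul_right (k3.trans ((Nat.mul_comm _ _).le.trans k6)) Nat.card_pos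

end Cfsg.Agent.S3078
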