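import Cfsg.Statements.S3082
import Cfsg.Agent.H9.SCZ

set_option autoImplicit false
open Cfsg

namespace Cfsg.Agent.S3082

/-- The Glauberman–Thompson normal p-complement criterion for strongly closed subgroups, p odd. Let G be a finite group, P a Sylow p-subgroup and D a subgroup of P strongly closed in P with respect to G. If N_G(Z(J(D))) has a normal p-complement (J(D) generated by the abelian subgroups of D of largest order), or N_G(Ω₁(Z(J_e(D)))) has one (J_e(D) generated by the elementary abelian subgroups of largest order), then G has a normal p-complement. -/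
theorem result {G : Type*} [Group G] [Finite G] {p : ℕ} [Fact p.Prime] (hp : p ≠ 2) (P : Sylow p G) (D : Subgroup G) (hD : Cfsg.IsStronglyClosed D (P : Subgroup G)) (h : Cfsg.HasNormalPComplement p ↥(Subgroup.normalizer ((Cfsg.centerThompsonAOf D) : Set G)) ∨ Cfsg.HasNormalPComplement p ↥(Subgroup.normalizer ((Cfsg.omegaOne p (Cfsg.centerThompsonOf p D)) : Set G))) : Cfsg.HasNormalPComplement p G := by
  open H9 Subgroup in open scoped commutatorElement in
  have hS := syl_top_of_sylow P
  have h1 := scl_top_iff.2 hD
  have a := scd_all hp char_fZA (scn_fZA hp) G _ _ hS h1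
  have b := scd_all hp char_fOE (scn_fOE hp) G _ _ hS h1
  rw [iF_fZA] at a
  rw [iF_fOE] at b
  rw [ZA_eq, ZE_eq, ← npc_iff, ← npc_iff] at h
  exact npc_top_iff.1 (h.elim a b)

end Cfsg.Agent.S3082
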