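import Cfsg.Statements.S3117
import Cfsg.Agent.H1.Gs
import Cfsg.Agent.S1949
import Cfsg.Agent.H3.Galois

set_option autoImplicit false
open Cfsg

namespace Cfsg.Agent.S3117

open scoped commutatorElement
open H1
open Subgroup
open scoped commutatorElement

theorem z22 : ∀ a b c : ZMod 2 × ZMod 2, a + (c + b) + a + b = c := by decide

theorem fixlem {X : Type*} [Group X] {α : MulAut X} {r : ℕ} (hr : Odd r) (h : α ^ r = 1) {x : X}
    (h1 : α (x⁻¹ * α x) = x⁻¹ * α x) (h4 : (x⁻¹ * α x) ^ 4 = 1) : α x = x := by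
  set y := x⁻¹ * α x with hy
  have e : α x = x * y := by rw [hy]; group
  have k : ∀ n : ℕ, (α ^ n) x = x * y ^ n := by
    intro n
    induction n with
    | zero => simp
    | succ n ih => rw [pow_succ', MulAut.mul_apply, ih, map_mul, map_pow, h1, e, pow_succ', mul_assoc]
  have := k r
  rw [h, MulAut.one_apply, left_eq_mul] at this
  have c : r.Coprime 4 := (Nat.coprime_two_right.2 hr).pow_right 2
  have : y = 1 := orderOf_eq_one_iff.1 (Nat.eq_one_of_dvd_coprimes c (orderOf_dvd_of_pow_eq_one this)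
    (orderOf_dvd_of_pow_eq_one h4))
  rw [e, this, mul_one]

theorem exists_V {X : Type*} [Group X] [Finite X] (h2 : IsPGroup 2 X)
    (h3 : Nat.card {x : X // orderOf x = 2} = 3) :
    ∃ V : Subgroup X, (∀ x, x ∈ V ↔ x * x = 1) ∧ Nat.card V = 4 := by
  classical
  haveI : Fact (Nat.Prime 2) := ⟨Nat.prime_two⟩
  letI := Fintype.ofFinite X
  set I : Finset X := {x | orderOf x = 2} with hI
  have hc : I.card = 3 := by rw [← h3, Nat.card_eq_fintype_card, Fintype.card_subtype]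
  have mI : ∀ x, x ∈ I ↔ x * x = 1 ∧ x ≠ 1 := fun x => by
    rw [hI, Finset.mem_filter, orderOf_eq_prime_iff, pow_two]; simp
  obtain ⟨y, hy⟩ : I.Nonempty := Finset.card_pos.1 (by omega)
  haveI : Nontrivial X := ⟨⟨y, 1, ((mI y).1 hy).2⟩⟩
  haveI := h2.center_nontrivial
  obtain ⟨z, hz, hzo⟩ := H9.exists_orderOf_eq_of_isPGroup (h2.to_subgroup (center X))
    ((nontrivial_iff_ne_bot _).1 inferInstance)
  have zI : z ∈ I := Finset.mem_filter.2 ⟨Finset.mem_univ _, hzo⟩
  have zc : ∀ g, g * z = z * g := mem_center_iff.1 hz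
  obtain ⟨t, ht, htz⟩ := Finset.exists_mem_ne (by omega : 1 < I.card) z
  have z2 := (mI z).1 zI
  have t2 := (mI t).1 ht
  have ztI : z * t ∈ I := (mI _).2 ⟨by rw [mul_assoc, ← mul_assoc t, zc t, mul_assoc, t2.1, mul_one, z2.1],
    fun e => htz (mul_left_cancel (e.trans z2.1.symm))⟩
  have eI : ({z, t, z * t} : Finset X) = I := by
    refine Finset.eq_of_subset_of_card_le (by simp [Finset.insert_subset_iff, zI, ht, ztI]) ?_
    rw [hc, Finset.card_eq_three.2 ⟨z, t, z * t, htz.symm, by simpa using t2.2, by simpa using z2.2, rfl⟩]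
  have cs : ∀ x, x * x = 1 → x = 1 ∨ x = z ∨ x = t ∨ x = z * t := fun x hx => by
    by_cases e : x = 1
    · exact Or.inl e
    · have := (mI x).2 ⟨hx, e⟩
      rw [← eI] at this
      exact Or.inr (by simpa using this)
  have cm : ∀ x : X, x * x = 1 → ∀ y : X, y * y = 1 → Commute x y := by
    have c1 : ∀ g, Commute g z := zc
    intro x hx y hy
    rcases cs x hx with a | a | a | a <;> rcases cs y hy with b | b | b | b <;> rw [a, b] <;>
      first
      | exact Commute.one_left _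
      | exact Commute.one_right _
      | exact Commute.refl _
      | exact c1 _
      | exact (c1 _).symm
      | exact (c1 _).mul_right (Commute.refl _)
      | exact ((c1 _).mul_right (Commute.refl _)).symm
  let V : Subgroup X :=
    { carrier := {x | x * x = 1}
      mul_mem' := fun {a b} ha hb => by
        show a * b * (a * b) = 1
        rw [mul_assoc, ← mul_assoc b, ← (cm a ha b hb).eq, mul_assoc, hb, mul_one, ha]
      one_mem' := mul_one 1
      inv_mem' := fun {a} ha => by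
        show a⁻¹ * a⁻¹ = 1
        rw [← mul_inv_rev, ha, inv_one] }
  refine ⟨V, fun x => Iff.rfl, ?_⟩
  rw [Nat.card_eq_fintype_card, Fintype.card_subtype,
    show ({x | x ∈ V} : Finset X) = insert 1 I from Finset.ext fun x => by
      rw [Finset.mem_filter, Finset.mem_insert, mI]
      show _ ∧ x * x = 1 ↔ _
      by_cases e : x = 1 <;> simp [e],
    Finset.card_insert_of_notMem (by simp [mI]), hc]

/-- If X is a finite 2-group containing exactly three involutions, then the automorphism group of X is solvable. -/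
theorem result {X : Type*} [Group X] [Finite X] (h2 : IsPGroup 2 X) (h3 : Nat.card {x : X // orderOf x = 2} = 3) : Group.IsSolvable (MulAut X) := by
  classical
  haveI : Fact (Nat.Prime 2) := ⟨Nat.prime_two⟩
  obtain ⟨V, hV, hV4⟩ := exists_V h2 h3
  have aV : ∀ (α : MulAut X), ∀ x ∈ V, α x ∈ V := fun α x hx => by rw [hV, ← map_mul, (hV x).1 hx, map_one]
  haveI : V.Normal := ⟨fun x hx g => aV (MulAut.conj g) x hx⟩
  haveI kV := isKleinFour_of hV4 fun x hx => (hV x).1 hx
  obtain ⟨e⟩ := IsKleinFour.nonempty_mulEquiv (G₁ := V) (G₂ := Multiplicative (ZMod 2 × ZMod 2))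
  let ε : X → ZMod 2 × ZMod 2 := fun y => if h : y ∈ V then Multiplicative.toAdd (e ⟨y, h⟩) else 0
  have ε1 : ∀ a ∈ V, ∀ b ∈ V, ε (a * b) = ε a + ε b := fun a ha b hb => by
    simp only [ε, dif_pos ha, dif_pos hb, dif_pos (mul_mem ha hb)]
    rw [← toAdd_mul, ← map_mul]; rfl
  have ε2 : ∀ a ∈ V, ε a = 0 ↔ a = 1 := fun a ha => by
    simp only [ε, dif_pos ha, toAdd_eq_zero, map_eq_one_iff e e.injective, Subtype.ext_iff, coe_one]
  obtain ⟨D, d1, -, d3, d4, d5, -⟩ := Cfsg.Agent.S1949.result h2 ⊤ le_top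
  have d4' : ∀ d ∈ D, d ^ 4 = 1 := fun d hd => by
    rcases d3 d hd with h | h
    · rw [show 4 = 2 * 2 from rfl, pow_mul, h, one_pow]
    · exact h.2
  have aD : ∀ (α : MulAut X), ∀ x ∈ D, α x ∈ D := fun α x hx => d1 α trivial ▸ mem_map_of_mem α.toMonoidHom hx
  set E := D ⊓ centralizer (V : Set X) with hE
  have sqV : ∀ x ∈ D, x * x ∈ V := fun x hx => by
    rw [hV, ← d4' x hx]; simp only [pow_succ, pow_zero, one_mul, mul_assoc]
  have cV : ∀ x ∈ E, ∀ y ∈ E, ⁅x, y⁆ ∈ V := fun x hx y hy => by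
    have a := (d4 (commutator_mem_commutator hx.1 (mem_top y))).2 x hx.1
    have b := hy.2 _ (sqV x hx.1)
    rw [hV]
    calc ⁅x, y⁆ * ⁅x, y⁆ = (x * ⁅x, y⁆) * x⁻¹ * ⁅x, y⁆ := by rw [a]; group
      _ = (x * x * y) * (x * x)⁻¹ * y⁻¹ := by simp only [commutatorElement_def]; group
      _ = 1 := by rw [b]; group
  let π := QuotientGroup.mk' V
  let W := E.map π
  let s : W → ZMod 2 × ZMod 2 := fun w => ε ((w : X ⧸ V).out * (w : X ⧸ V).out)
  have hs : ∀ x (hx : x ∈ E), s ⟨π x, mem_map_of_mem π hx⟩ = ε (x * x) := fun x hx => by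
    obtain ⟨v, hv⟩ := QuotientGroup.mk_out_eq_mul V x
    show ε ((QuotientGroup.mk x : X ⧸ V).out * (QuotientGroup.mk x : X ⧸ V).out) = _
    rw [hv, mul_assoc, ← mul_assoc (v : X), hx.2 v v.2, mul_assoc, (hV v).1 v.2, mul_one]
  have sm : ∀ x ∈ E, ∀ y ∈ E, ε (x * y * (x * y)) + ε (x * x) + ε (y * y) = ε ⁅x⁻¹, y⁆ := fun x hx y hy => by
    rw [show x * y * (x * y) = x * x * (⁅x⁻¹, y⁆ * (y * y)) by simp only [commutatorElement_def]; group,
      ε1 _ (sqV x hx.1) _ (mul_mem (cV _ (inv_mem hx) y hy) (sqV y hy.1)),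
      ε1 _ (cV _ (inv_mem hx) y hy) _ (sqV y hy.1)]
    generalize ε (x * x) = a, ε (y * y) = b, ε ⁅x⁻¹, y⁆ = c
    exact z22 a b c
  have aq : AQ s := by
    refine ⟨?_, ?_, ?_⟩
    · rintro ⟨_, x, hx, rfl⟩
      exact Subtype.ext ((QuotientGroup.eq_one_iff (x * x)).2 (sqV x hx.1))
    · rintro ⟨_, x, hx, rfl⟩ ⟨_, y, hy, rfl⟩ ⟨_, z, hz, rfl⟩
      have a1 := hs _ (mul_mem hx (mul_mem hy hz))
      have a2 := hs _ (mul_mem hy hz)
      have a3 := hs _ (mul_mem hx hy)
      have a4 := hs _ (mul_mem hx hz)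
      refine (congrArg₂ _ (congrArg₂ _ a1 (hs x hx)) a2).trans (Eq.trans ?_
        (congrArg₂ _ (congrArg₂ _ (congrArg₂ _ a3 (hs x hx)) (hs y hy))
          (congrArg₂ _ (congrArg₂ _ a4 (hs x hx)) (hs z hz))).symm)
      rw [sm x hx _ (mul_mem hy hz), sm x hx y hy, sm x hx z hz,
        ← ε1 _ (cV _ (inv_mem hx) y hy) _ (cV _ (inv_mem hx) z hz)]
      congr 1
      calc ⁅x⁻¹, y * z⁆ = ⁅x⁻¹, y⁆ * (y * ⁅x⁻¹, z⁆) * y⁻¹ := by simp only [commutatorElement_def]; group
        _ = _ := by rw [← hy.2 _ (cV _ (inv_mem hx) z hz)]; group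
    · rintro ⟨_, x, hx, rfl⟩
      rw [hs x hx, ε2 _ (sqV x hx.1), ← hV, Subtype.ext_iff]
      exact (QuotientGroup.eq_one_iff x).symm
  letI := Fintype.ofFinite W
  have key : ∀ (α : MulAut X) (r : ℕ), r.Prime → r ≠ 2 → orderOf α = r → (∀ v ∈ V, α v = v) →
      ∃ f : W →* W, (∀ w, f^[r] w = w) ∧ (∀ w, s (f w) = s w) ∧ ∃ w, f w ≠ w := by
    intro α r hr hr2 ho hα
    have hr1 : α ^ r = 1 := ho ▸ pow_orderOf_eq_one α
    have cE : ∀ x, x⁻¹ * α x ∈ centralizer (V : Set X) := fun x v hv => by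
      have := hα _ (Normal.conj_mem inferInstance v hv x)
      rw [map_mul, map_mul, hα v hv, map_inv] at this
      calc v * (x⁻¹ * α x) = x⁻¹ * (x * v * x⁻¹) * α x := by group
        _ = _ := by rw [← this]; group
    have aE : ∀ x ∈ E, α x ∈ E := fun x hx => ⟨aD α x hx.1, by
      have := mul_mem hx.2 (cE x)
      rwa [mul_inv_cancel_left] at this⟩
    let g := QuotientGroup.map V V α.toMonoidHom fun x hx => aV α x hx
    let f : W →* W := (g.comp W.subtype).codRestrict W (by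
      rintro ⟨_, x, hx, rfl⟩; exact ⟨α x, aE x hx, rfl⟩)
    have it : ∀ (n : ℕ) x (hx : x ∈ E), (f^[n] ⟨π x, mem_map_of_mem π hx⟩ : W).1 = π ((α ^ n) x) := by
      intro n
      induction n with
      | zero => intro x hx; rfl
      | succ n ih => intro x hx; rw [Function.iterate_succ_apply, pow_succ]; exact ih _ (aE x hx)
    refine ⟨f, ?_, ?_, ?_⟩
    · rintro ⟨_, x, hx, rfl⟩
      exact Subtype.ext (by rw [it r x hx, hr1]; rfl)
    · rintro ⟨_, x, hx, rfl⟩
      refine (hs _ (aE x hx)).trans ?_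
      rw [hs x hx, ← map_mul, hα _ (sqV x hx.1)]
    · by_contra hc
      push Not at hc
      have od := hr.odd_of_ne_two hr2
      have f1 : ∀ x ∈ E, α x = x := fun x hx => by
        have : x⁻¹ * α x ∈ V :=
          QuotientGroup.eq.1 (congrArg Subtype.val (hc ⟨π x, mem_map_of_mem π hx⟩)).symm
        exact fixlem od hr1 (hα _ this) (d4' _ (mul_mem (inv_mem hx.1) (aD α x hx.1)))
      have := d5 α trivial (ho ▸ Nat.coprime_two_right.2 od) fun x hx =>
        fixlem od hr1 (f1 _ (mem_inf.2 ⟨mul_mem (inv_mem hx) (aD α x hx), cE x⟩)) (d4' _ (mul_mem (inv_mem hx) (aD α x hx)))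
      rw [this, orderOf_one] at ho
      exact hr.ne_one ho.symm
  let φ : MulAut X →* Equiv.Perm {x : X // orderOf x = 2} := MonoidHom.mk'
    (fun α => Equiv.Perm.subtypePerm α.toEquiv fun x => by
      show orderOf (α x) = 2 ↔ _
      rw [MulEquiv.orderOf_eq]) fun _ _ => rfl
  haveI : Group.IsSolvable (Equiv.Perm {x : X // orderOf x = 2}) :=
    H3.burnside_paqb (a := 1) (b := 1) Nat.prime_two Nat.prime_three (by rw [Nat.card_perm, h3]; decide)
  have fix : ∀ α ∈ φ.ker, ∀ v ∈ V, α v = v := fun α hα v hv => by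
    by_cases h : v = 1
    · rw [h, map_one]
    · exact congrArg Subtype.val (Equiv.congr_fun (MonoidHom.mem_ker.1 hα)
        ⟨v, orderOf_eq_prime (by rw [pow_two]; exact (hV v).1 hv) h⟩)
  have pr : ∀ r, r.Prime → r ≠ 2 → r ∣ Nat.card φ.ker →
      ∃ f : W →* W, (∀ w, f^[r] w = w) ∧ (∀ w, s (f w) = s w) ∧ ∃ w, f w ≠ w := fun r hr h2 hd => by
    haveI := Fact.mk hr
    obtain ⟨α, hα, ho⟩ := H9.exists_orderOf_eq_of_dvd hd
    exact key α r hr h2 ho (fix α hα)
  have n0 : Nat.card φ.ker ≠ 0 := Nat.card_pos.ne'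
  have big : ∀ r, r.Prime → r ≠ 2 → r ≠ 3 → r ∣ Nat.card φ.ker → r = 5 ∧ ¬ 3 ∣ Nat.card φ.ker := by
    intro r hr a b hd
    obtain ⟨f, f1, f2, w, f3⟩ := pr r hr a hd
    obtain ⟨c1, c2, c3⟩ := aq.big f hr (hr.five_le_of_ne_two_of_ne_three a b) f1 f2 f3
    refine ⟨c1, fun h => ?_⟩
    obtain ⟨g, g1, g2, w, g3⟩ := pr 3 Nat.prime_three (by decide) h
    exact g3 (aq.three c2 c3 g g1 g2 w)
  haveI : Group.IsSolvable φ.ker := by
    have fin : ∀ q, q.Prime → (∀ r, r.Prime → r ≠ 2 → r ∣ Nat.card φ.ker → r = q) → Group.IsSolvable φ.ker := by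
      intro q hq h
      refine H3.burnside_paqb Nat.prime_two hq (a := Nat.card φ.ker) (b := Nat.card φ.ker) ?_
      rw [← mul_pow, Nat.dvd_pow_self_iff n0 (mul_ne_zero two_ne_zero hq.ne_zero)]
      intro r hr
      have hr' := Nat.prime_of_mem_primeFactors hr
      refine Nat.mem_primeFactors.2 ⟨hr', ?_, mul_ne_zero two_ne_zero hq.ne_zero⟩
      by_cases e : r = 2
      · rw [e]; exact Dvd.intro _ rfl
      · rw [h r hr' e (Nat.dvd_of_mem_primeFactors hr)]; exact Dvd.intro_left _ rfl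
    by_cases h : 3 ∣ Nat.card φ.ker
    · exact fin 3 Nat.prime_three fun r hr a hd => by
        by_contra b
        exact (big r hr a b hd).2 h
    · exact fin 5 Nat.prime_five fun r hr a hd => (big r hr a (fun b => h (b ▸ hd)) hd).1
  exact solvable_of_ker_le_range φ.ker.subtype φ (by rw [range_subtype])

end Cfsg.Agent.S3117
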