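import Cfsg.Statements.S3153
import Cfsg.Agent.H9.LB3

set_option autoImplicit false
open Cfsg

namespace Cfsg.Agent.S3153

/-- Let X be a finite group and P a standard subgroup of X whose centralizer has 2-rank at most 1 and whose centre has odd order. Let S be a Sylow 2-subgroup of N_X(P) and t an involution of S centralizing P. Suppose some element g of X normalizes S, does not lie in S, has its square in S, and conjugates t into P·C_X(P). Then P commutes elementwise with the largest normal odd-order subgroup O(X) of X; consequently every t-invariant 2-component of X containing P is quasisimple. -/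
theorem result {X : Type*} [Group X] [Finite X] (P : Subgroup X) (hP : Cfsg.IsStandardSubgroup P)
    (hr : Cfsg.PRankLE 2 1 ↥(Subgroup.centralizer (P : Set X))) (hZ : Odd (Nat.card ↥(Subgroup.center ↥P)))
    (S : Sylow 2 ↥(Subgroup.normalizer (P : Set X))) (t : X) (ht : orderOf t = 2) (htS : t ∈ (S : Subgroup ↥(Subgroup.normalizer (P : Set X))).map (Subgroup.normalizer (P : Set X)).subtype)
    (htP : t ∈ Subgroup.centralizer (P : Set X))
    (g : X) (hgN : ∀ s ∈ (S : Subgroup ↥(Subgroup.normalizer (P : Set X))).map (Subgroup.normalizer (P : Set X)).subtype, g * s * g⁻¹ ∈ (S : Subgroup ↥(Subgroup.normalizer (P : Set X))).map (Subgroup.normalizer (P : Set X)).subtype)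
    (hgS : g ∉ (S : Subgroup ↥(Subgroup.normalizer (P : Set X))).map (Subgroup.normalizer (P : Set X)).subtype) (hg2 : g ^ 2 ∈ (S : Subgroup ↥(Subgroup.normalizer (P : Set X))).map (Subgroup.normalizer (P : Set X)).subtype)
    (hgt : g * t * g⁻¹ ∈ P ⊔ Subgroup.centralizer (P : Set X)) :
    ⁅P, Cfsg.oddCore X⁆ = ⊥ ∧
      ∀ L : Subgroup X, Cfsg.IsPComponent 2 L → P ≤ L → (∀ l ∈ L, t * l * t⁻¹ ∈ L) → Cfsg.IsQuasisimple ↥L := by
  open H9 Subgroup in open scoped commutatorElement in
  have hS := syl_of_sylow S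
  obtain ⟨T, hT⟩ : ∃ T, T = (S : Subgroup (normalizer (P : Set X))).map (normalizer (P : Set X)).subtype := ⟨_, rfl⟩
  rw [← hT] at hS htS hgN hgS hg2
  have q := std_qs hP
  have gT : g ∈ normalizer (T : Set X) := mem_normalizer_of_cj_le fun z hz => by
    obtain ⟨w, hw, rfl⟩ := hz; exact hgN w hw
  have nC : T ≤ normalizer ((T ⊓ centralizer (P : Set X) : Subgroup X) : Set X) :=
    normalizer_inf le_normalizer (normalizer_centralizer hS.le)
  obtain ⟨z, hz, o⟩ := exists_orderOf_eq_of_isPGroup (hS.isP.to_le (inf_le_left.trans inf_le_left))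
    (inf_centralizer_ne_bot_of_p (hS.isP.to_le inf_le_left) hS.isP nC fun e =>
      H1.two_ne ht (mem_bot.1 (e ▸ ⟨htS, htP⟩)))
  obtain rfl := two_eq_of_rank hr ht o (hz.2 t htS) htP hz.1.2
  have o1 : orderOf (g * t * g⁻¹) = 2 := (orderOf_conj g t).trans ht
  have c : Commute t (g * t * g⁻¹) := (hz.2 _ (hgN t htS)).symm
  have ne : t ≠ g * t * g⁻¹ := fun e => hgS (by
    have a : g ∈ normalizer (P : Set X) := std_le hP ht htP (mem_centralizer_singleton_iff.2
      (mul_inv_eq_iff_eq_mul.1 e.symm))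
    obtain ⟨k, hk⟩ := hS.isP ⟨_, hg2⟩
    exact hS.le_of_le_normalizer (isPGroup_zpowers_of_pow (k := k + 1) (by
      rw [pow_succ', pow_mul]; exact congrArg Subtype.val hk)) (zpowers_le.2 a) (Or.inl (zpowers_le.2 gT)) (mem_zpowers g))
  have nO := fun {Y : Subgroup X} => (le_top : Y ≤ ⊤).trans (le_normalizer_Op' 2 (⊤ : Subgroup X))
  have b1 := std_odd_le hP ht htP nO (Op'_cop 2 ⊤)
  have b2 : Op' 2 ⊤ ⊓ centralizer {t} ≤ centralizer {g * t * g⁻¹} := by
    obtain ⟨a, ha, d, hd, e⟩ := (mem_sup_of_le_normalizer ((le_centralizer_iff.1 le_rfl).trans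
      (centralizer_le_normalizer' _))).1 hgt
    have c1 : Commute a d := hd a ha
    have e2 : a * a * (d * d) = 1 := by rw [c1.mul_mul_mul_comm, e, H1.two_sq o1]
    have m : d * d ∈ (center P).map P.subtype := map_center_subtype P ▸ mem_inf.2
      ⟨eq_inv_of_mul_eq_one_right e2 ▸ inv_mem (mul_mem ha ha), mul_mem hd hd⟩
    rw [← card_map_subtype] at hZ
    have e3 := orderOf_dvd_iff_pow_eq_one.1 (orderOf_dvd_card_of_mem m)
    obtain ⟨n, hn⟩ : ∃ n, n = Nat.card ((center P).map P.subtype) := ⟨_, rfl⟩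
    rw [← hn] at hZ e3
    have e4 : g * t * g⁻¹ = a ^ n * d ^ n := by
      obtain ⟨k, rfl⟩ := hZ
      rw [← c1.mul_pow, e, pow_succ, pow_mul, pow_two, H1.two_sq o1, one_pow, one_mul]
    have e5 : Commute t (d ^ n) := by
      simpa [e4] using (show Commute t (a ^ n) from (htP _ (pow_mem ha n)).symm).inv_right.mul_right c
    have e6 : d ^ n ∈ zpowers t := (H1.mem_zpowers_two ht).2 (or_iff_not_imp_left.2 fun h => (two_eq_of_rank hr ht
      (H1.two_of (by rw [← (Commute.refl d).mul_pow, e3]) h) e5 htP (pow_mem hd n)).symm)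
    rw [e4, le_centralizer_singleton_iff]
    exact mul_mem (le_centralizer_iff.1 b1 (pow_mem ha n))
      (le_centralizer_iff.1 (centralizer_zpowers t ▸ inf_le_right) e6)
  have b3 := cj_mono g b2
  rw [cj_inf, cj_centralizer_singleton, cj_centralizer_singleton, mem_normalizer_iff_cj.1 (nO (mem_top g)),
    show g * (g * t * g⁻¹) * g⁻¹ = t by
      rw [show g * (g * t * g⁻¹) * g⁻¹ = g ^ 2 * t * (g ^ 2)⁻¹ by rw [pow_two]; group, hz.2 _ hg2,
        mul_inv_cancel_right]] at b3
  have k : ∀ {Y : Subgroup X}, Y ≤ centralizer {t} → Y ≤ centralizer {g * t * g⁻¹} →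
      Y ≤ centralizer {t * (g * t * g⁻¹)} := fun a b => le_centralizer_singleton_iff.2
    (mul_mem (le_centralizer_singleton_iff.1 a) (le_centralizer_singleton_iff.1 b))
  have b4 := odd_le_of_four ht o1 c ne (nO (mem_top _)) (nO (mem_top _)) (Op'_cop 2 ⊤) (k inf_le_right b2)
    (k b3 inf_le_right) inf_le_right
  have b5 : P ≤ centralizer (Op' 2 (⊤ : Subgroup X) : Set X) := q.le_centralizer_of_mem nO
    (hS.le (mul_mem htS (hgN t htS))) (fun h => ne (two_eq_of_rank hr ht o1 c htP
      (by simpa using mul_mem (inv_mem htP) h))) ((commutator_mono le_rfl (zpowers_le.2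
        (le_centralizer_singleton_iff.1 b4))).trans (commutator_le_right' (normalizer_centralizer nO)))
  refine ⟨by rw [oddCore, ← Op'_top]; exact le_centralizer_iff'.1 b5, fun L hL h1 _ => ?_⟩
  have hL' := pcomp_top_iff.2 hL
  have h2 := le_inf h1 (b5.trans (centralizer_anti hL'.sn.Op'_le_Op'))
  refine qs_iff.1 (hL'.pqs.qs (le_centralizer_iff.1 ((hL'.pqs.sn_eq_or (SN.of_normal inf_le_left (normalizer_inf
    le_normalizer (normalizer_centralizer (le_normalizer_Op' 2 L))))).elim (fun e => e.ge.trans inf_le_right) fun e => ?_)))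
  exact absurd (cop_of_le (Op'_cop 2 L) (q.perfect.ge.trans ((commutator_mono h2 h1).trans e))) q.not_cop_two

end Cfsg.Agent.S3153
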