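import Cfsg.Statements.S3155
import Cfsg.Agent.H1.Basic

set_option autoImplicit false
open Cfsg

namespace Cfsg.Agent.S3155

open scoped Pointwise
open H1

/-- Let B be the direct product of three cyclic groups of order 4. Then the automorphism of B inverting every element is not the square of any automorphism of B. -/
theorem result {B : Type*} [CommGroup B] [Finite B] (hB : Nonempty (B ≃* Multiplicative (ZMod 4 × ZMod 4 × ZMod 4)))
    (τ : B ≃* B) : τ.trans τ ≠ MulEquiv.inv B := by
  obtain ⟨e⟩ := hB
  intro h
  let σ : (ZMod 4 × ZMod 4 × ZMod 4) →+ (ZMod 4 × ZMod 4 × ZMod 4) :=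
    MonoidHom.toAdditive ((e.symm.trans τ).trans e).toMonoidHom
  have h1 : ∀ v, σ (σ v) = -v := fun v => by
    have := MulEquiv.congr_fun h (e.symm (Multiplicative.ofAdd v))
    change e (τ (e.symm (e (τ (e.symm (Multiplicative.ofAdd v)))))) = Multiplicative.ofAdd (-v)
    rw [e.symm_apply_apply]
    simp only [MulEquiv.trans_apply, MulEquiv.inv_apply] at this
    rw [this]; simp
  have h2 : σ.toZModLinearMap 4 * σ.toZModLinearMap 4 = (-1 : ZMod 4) • LinearMap.id := by
    refine LinearMap.ext fun v => ?_
    simpa using h1 v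
  have : Fact (1 < 4) := ⟨by norm_num⟩
  have h3 := congrArg LinearMap.det h2
  rw [map_mul, LinearMap.det_smul, LinearMap.det_id, Module.finrank_prod, Module.finrank_prod,
    Module.finrank_self] at h3
  have : ∀ a : ZMod 4, a * a ≠ (-1) ^ (1 + (1 + 1)) * 1 := by decide
  exact this _ h3

end Cfsg.Agent.S3155
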