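import Cfsg.Statements.S3156
import Cfsg.Agent.H4.SU2

set_option autoImplicit false
open Cfsg

namespace Cfsg.Agent.S3156

open scoped Pointwise
open H4.SU2

section
variable {F : Type} [Field F] [Fintype F] {D : Dt F} (hF : Fintype.card F = (2 ^ 2) ^ 2) (hD : ∀ x, D.σ x = x ^ 2 ^ 2)
include hD

lemma tri (c d : F) (hd : d ≠ 0) (h1 : D.σ c * c = D.σ d * d) (h2 : D.σ (c + d) * (c + d) = D.σ d * d) : False := by
  have t := D.two
  simp only [hD] at h1 h2
  have h3 : d * d⁻¹ = 1 := mul_inv_cancel₀ hd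
  grind

include hF
lemma ind (α : MulAut (UU D)) : ∃ (A : F →+ F), (∀ x : UU D, (α x).a = A x.a) ∧ ∀ c, ∃ x : UU D, x.a = c := by
  obtain ⟨c1, c2⟩ := cnt (by norm_num) hF hD
  have hz := center_iff (ex_nonfix (by norm_num) hF hD) c2
  choose β hβ using c2
  have hc : ∀ x y : UU D, x.a = y.a → (α x).a = (α y).a := by
    intro x y h
    have h1 : x⁻¹ * y ∈ Subgroup.center (UU D) := (hz _).2 (by simp [h]; linear_combination y.a * D.two)
    have h2 : α (x⁻¹ * y) ∈ Subgroup.center (UU D) := by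
      rw [Subgroup.mem_center_iff] at h1 ⊢
      intro g
      obtain ⟨g, rfl⟩ := α.surjective g
      rw [← map_mul, h1, map_mul]
    have h3 := (hz _).1 h2
    rw [map_mul, map_inv, mul_a, inv_a] at h3
    linear_combination h3 - (α y).a * D.two
  refine ⟨AddMonoidHom.mk' (fun c => (α ⟨c, β c, hβ c⟩).a) (fun c d => ?_), fun x => hc _ _ rfl, fun c => ⟨⟨c, β c, hβ c⟩, rfl⟩⟩
  rw [← mul_a, ← map_mul]
  exact hc _ _ rfl

lemma inv2 (α : MulAut (UU D)) (h : α * α = 1) (z : UU D) (hz : z.a = 0) : α z = z := by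
  classical
  by_contra hne
  obtain ⟨A, hA, hs⟩ := ind hF hD α
  have t2 := D.two
  have uq : ∀ x y : UU D, x.a = 0 → y.a = 0 → x.b ≠ 0 → y.b ≠ 0 → α x = x → α y = y → x.b = y.b := by
    intro x y xa ya xb yb hx hy
    by_contra hxy
    have f0 := fix_of z hz
    have f1 := fix_of x xa
    have f2 := fix_of y ya
    rw [hD] at f0 f1 f2
    have : z.b = 0 ∨ z.b = x.b ∨ z.b = y.b ∨ z.b = x.b + y.b := by grind
    apply hne
    rcases this with h | h | h | h
    · have : z = 1 := UU.ext hz h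
      rw [this, map_one]
    · rw [show z = x from UU.ext (hz.trans xa.symm) h, hx]
    · rw [show z = y from UU.ext (hz.trans ya.symm) h, hy]
    · rw [show z = x * y from UU.ext (by simp [hz, xa, ya]) (by simp [h, ya]), map_mul, hx, hy]
  have hAA : ∀ c, A (A c) = c := by
    intro c
    obtain ⟨x, rfl⟩ := hs c
    rw [← hA, ← hA, ← MulAut.mul_apply, h]; rfl
  let t : F →+ F := AddMonoidHom.id F + A
  have ht : ∀ b, t b = b + A b := fun b => rfl
  have hr : t.range ≤ t.ker := by
    rintro _ ⟨b, rfl⟩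
    rw [AddMonoidHom.mem_ker, ht, ht, map_add, hAA]
    linear_combination (b + A b) * t2
  have e2 : Nat.card F = Nat.card t.range * Nat.card t.ker := by
    rw [AddSubgroup.card_eq_card_quotient_mul_card_addSubgroup t.ker, Nat.card_congr (QuotientAddGroup.quotientKerEquivRange t).toEquiv]
  have e3 := AddSubgroup.card_le_of_le hr
  rw [Nat.card_eq_fintype_card, hF] at e2
  have e4 : 2 < Nat.card t.ker := by nlinarith
  rw [Nat.card_eq_fintype_card] at e4
  obtain ⟨a, b, c, -, -, -, e1, e5, e6⟩ := (Finset.two_lt_card_iff (s := (Finset.univ : Finset t.ker))).1 (by rwa [Finset.card_univ])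
  have nm : ∀ u v : t.ker, u ≠ 0 → v ≠ 0 → D.σ u * u = D.σ v * v := by
    have k : ∀ u : t.ker, u ≠ 0 → ∃ x : UU D, x.a = 0 ∧ x.b = D.σ u * u ∧ x.b ≠ 0 ∧ α x = x := by
      intro u hu
      obtain ⟨x, hx⟩ := hs u
      have hu' : (u : F) ≠ 0 := fun e => hu (Subtype.ext e)
      have a1 : A u = u := by
        have := AddMonoidHom.mem_ker.1 u.2
        rw [ht] at this
        linear_combination this - (u : F) * t2
      have b1 : (x * x).b = D.σ u * u := by rw [mul_b, hx]; linear_combination x.b * t2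
      refine ⟨x * x, by rw [mul_a]; linear_combination x.a * t2, b1, b1 ▸ mul_ne_zero ((map_ne_zero _).2 hu') hu', ?_⟩
      rw [map_mul]
      refine UU.ext (by rw [mul_a, mul_a, hA, hx, a1]) ?_
      rw [b1, mul_b, hA, hx, a1]; linear_combination (α x).b * t2
    intro u v hu hv
    obtain ⟨x, a1, a2, a3, a4⟩ := k u hu
    obtain ⟨y, b1, b2, b3, b4⟩ := k v hv
    rw [← a2, ← b2]; exact uq x y a1 b1 a3 b3 a4 b4
  have n1 : a - c ≠ 0 := sub_ne_zero.2 e5
  have n2 : b - c ≠ 0 := sub_ne_zero.2 e6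
  have n3 : (a - c) + (b - c) ≠ 0 := fun e => e1 (Subtype.ext (by
    have := congrArg Subtype.val e
    simp only [AddSubgroup.coe_add, AddSubgroup.coe_sub, AddSubgroup.coe_zero] at this
    linear_combination this + ((c : F) - b) * t2))
  exact tri hD _ _ (fun e => n2 (Subtype.ext e)) (nm _ _ n1 n2) (nm _ _ n3 n2)

lemma ord3 (ρ : MulAut (UU D)) (h : ρ * ρ * ρ = 1) (hz : ∀ z : UU D, z.a = 0 → ρ z = z) : ρ = 1 := by
  obtain ⟨A, hA, hs⟩ := ind hF hD ρ
  have t2 := D.two
  have h3 : ∀ x, ρ (ρ (ρ x)) = x := fun x => by rw [← MulAut.mul_apply, ← MulAut.mul_apply, h]; rfl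
  have hA3 : ∀ c, A (A (A c)) = c := by
    intro c
    obtain ⟨x, rfl⟩ := hs c
    rw [← hA, ← hA, ← hA, h3]
  have hN : ∀ c, D.σ (A c) * A c = D.σ c * c := by
    intro c
    obtain ⟨x, rfl⟩ := hs c
    have := congrArg UU.b (hz (x * x) (by rw [mul_a]; linear_combination x.a * t2))
    rw [map_mul, mul_b, mul_b, hA] at this
    linear_combination this + (x.b - (ρ x).b) * t2
  have hid : ∀ c, A c = c := by
    intro c
    by_contra hc
    have w0 : c + A c ≠ 0 := fun e => hc (by linear_combination e - c * t2)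
    refine tri hD (A (c + A c)) (c + A c) w0 (hN _) ?_
    have : A (c + A c) + (c + A c) = A (A (c + A c)) := by
      simp only [map_add, hA3]; linear_combination A c * t2
    rw [this, hN, hN]
  ext1 x
  have za : (x⁻¹ * ρ x).a = 0 := by rw [mul_a, inv_a, hA, hid]; linear_combination x.a * t2
  have e1 : ρ x = x * (x⁻¹ * ρ x) := by group
  have z2 := (H4.SU2.sq _).2 za
  have zf := hz _ za
  generalize x⁻¹ * ρ x = z at e1 z2 zf
  have := h3 x
  rw [e1, map_mul, zf, e1, map_mul, map_mul, zf, e1, mul_assoc, mul_assoc, z2, mul_one] at this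
  rw [e1, this]; rfl
end

/-- If a finite group T is isomorphic to a Sylow 2-subgroup of the projective special unitary group of dimension 3 with parameter 4 (realised over the field with 16 elements), then no subgroup of the automorphism group of T is isomorphic to the symmetric group of degree 3. -/
theorem result {T : Type*} [Group T] [Finite T] (hT : (∃ (F : Type) (_ : Field F) (_ : Fintype F), Fintype.card F = 16 ∧ ∃ S : Sylow 2 (Cfsg.PSU 3 F 4), Nonempty (T ≃* ↥(S : Subgroup (Cfsg.PSU 3 F 4))))) (H : Subgroup (MulAut T)) : ¬ Nonempty (↥H ≃* Equiv.Perm (Fin 3)) := by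
  obtain ⟨F, _, _, hF, S, ⟨e⟩⟩ := hT
  have hF' : Fintype.card F = (2 ^ 2) ^ 2 := hF
  obtain ⟨D, hD⟩ := exD (by omega) hF'
  obtain ⟨e'⟩ := sylow_PSU (D := D) (n := 2) (by omega) hF' hD S
  rintro ⟨f⟩
  let φ : Equiv.Perm (Fin 3) →* MulAut (UU D) := (MulAut.congr (e.trans e')).toMonoidHom.comp (H.subtype.comp f.symm.toMonoidHom)
  have hφ : Function.Injective φ := (MulAut.congr (e.trans e')).injective.comp (Subtype.val_injective.comp f.symm.injective)
  have a1 := inv2 hF' hD (φ (Equiv.swap 0 1)) (by rw [← map_mul, Equiv.swap_mul_self, map_one])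
  have a2 := inv2 hF' hD (φ (Equiv.swap 1 2)) (by rw [← map_mul, Equiv.swap_mul_self, map_one])
  have a3 := ord3 hF' hD (φ (Equiv.swap 0 1 * Equiv.swap 1 2)) (by rw [← map_mul, ← map_mul, ← map_one φ]; congr 1; decide)
    (fun z hz => by rw [map_mul, MulAut.mul_apply, a2 z hz, a1 z hz])
  have := hφ (a3.trans (map_one φ).symm)
  revert this; decide

end Cfsg.Agent.S3156
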