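import Cfsg.Statements.S3157
import Cfsg.Agent.S0243

set_option autoImplicit false
open Cfsg

namespace Cfsg.Agent.S3157

open Subgroup
open scoped commutatorElement

section
variable {T : Type*} [Group T]

theorem p3 [Finite T] (σ : MulAut T) (h3 : ∀ y, σ (σ (σ y)) = y) (hf : ∀ y, σ y = y → y = 1) (y : T) :
    y * σ y * σ (σ y) = 1 := by
  obtain ⟨g, rfl⟩ := MonoidHom.FixedPointFree.commutatorMap_surjective (φ := σ) hf y
  simp [div_eq_mul_inv, h3]

theorem card3 [Finite T] (σ : MulAut T) (h3 : ∀ y, σ (σ (σ y)) = y) (hf : ∀ y, σ y = y → y = 1) (H : Subgroup T)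
    (hH : ∀ t ∈ H, σ t ∈ H) : Nat.card H % 3 = 1 := by
  classical
  have := Fintype.ofFinite H
  have : Fact (Nat.Prime 3) := ⟨Nat.prime_three⟩
  let f : Function.End H := fun t => ⟨σ t, hH t t.2⟩
  have h := Equiv.Perm.card_fixedPoints_modEq (f := f) (p := 3) (n := 1) (funext fun t => Subtype.ext (h3 t))
  have e : Fintype.card f.fixedPoints = 1 := Fintype.card_eq_one_iff.2
    ⟨⟨1, Subtype.ext (map_one σ)⟩, fun t => Subtype.ext (Subtype.ext (hf _ (congrArg Subtype.val t.2)))⟩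
  rw [e] at h
  rw [Nat.card_eq_fintype_card]; exact h

theorem cls2 [Finite T] (hT : Nat.card T = 64) (σ : MulAut T) (h3 : ∀ y, σ (σ (σ y)) = y) (hf : ∀ y, σ y = y → y = 1)
    (hc : ∀ y, y * σ y = σ y * y) (x y : T) : ⁅x, y⁆ ∈ center T := by
  have hp : IsPGroup 2 T := IsPGroup.of_card (n := 6) (by rw [hT]; norm_num)
  have hz : ∀ t ∈ center T, σ t ∈ center T := fun t ht => mem_center_iff.2 fun g => by
    obtain ⟨g, rfl⟩ := σ.surjective g
    rw [← map_mul, ← map_mul, mem_center_iff.1 ht]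
  let π := QuotientGroup.mk' (center T)
  let K : T → Subgroup T := fun y => (centralizer {π y}).comap π
  have mK : ∀ y t, t ∈ K y ↔ ⁅y, t⁆ ∈ center T := fun y t => by
    rw [mem_comap, mem_centralizer_singleton_iff, ← QuotientGroup.eq_one_iff]
    show _ ↔ π ⁅y, t⁆ = 1
    rw [map_commutatorElement, commutatorElement_eq_one_iff_mul_comm, eq_comm]
  have iK : ∀ y t, t ∈ K y → σ t ∈ K (σ y) := fun y t h => by
    rw [mK] at h ⊢
    have := hz _ h
    rwa [map_commutatorElement] at this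
  let Z2 : Subgroup T := (center (T ⧸ center T)).comap π
  have mZ : ∀ t, t ∈ Z2 ↔ ∀ y, t ∈ K y := fun t => by
    rw [mem_comap, mem_center_iff]
    refine ⟨fun h y => mem_comap.2 (mem_centralizer_singleton_iff.2 (h _).symm), fun h g => ?_⟩
    obtain ⟨y, rfl⟩ := QuotientGroup.mk'_surjective _ g
    exact (mem_centralizer_singleton_iff.1 (mem_comap.1 (h y))).symm
  have iZ : ∀ t ∈ Z2, σ t ∈ Z2 := fun t ht => (mZ _).2 fun y => by
    obtain ⟨y, rfl⟩ := σ.surjective y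
    exact iK _ _ ((mZ t).1 ht y)
  have cd : ∀ H : Subgroup T, (∀ t ∈ H, σ t ∈ H) → Nat.card H = 1 ∨ Nat.card H = 4 ∨ Nat.card H = 16 ∨ Nat.card H = 64 :=
    fun H hH => by
      have a := card3 σ h3 hf H hH
      have b : Nat.card H ∣ 2 ^ 6 := by rw [show 2 ^ 6 = 64 by norm_num, ← hT]; exact card_subgroup_dvd_card H
      obtain ⟨k, hk, e⟩ := (Nat.dvd_prime_pow Nat.prime_two).1 b
      rw [e] at a ⊢
      interval_cases k <;> simp_all
  have lt : ∀ H H' : Subgroup T, H < H' → Nat.card H < Nat.card H' := fun H H' h =>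
    lt_of_le_of_ne (card_le_of_le h.le) fun e => h.ne (eq_of_le_of_card_ge h.le e.ge)
  by_contra hn
  have : Nontrivial T := Finite.one_lt_card_iff_nontrivial.1 (by rw [hT]; norm_num)
  have h1 : ⊥ < center T := bot_lt_iff_ne_bot.2 ((nontrivial_iff_ne_bot _).1 hp.center_nontrivial)
  have : Nontrivial (T ⧸ center T) := QuotientGroup.nontrivial_iff.2 fun e => hn (e ▸ mem_top _)
  have h2 : center T < Z2 := by
    have := (hp.to_quotient (center T)).center_nontrivial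
    obtain ⟨⟨g, hg⟩, g1⟩ := exists_ne (1 : center (T ⧸ center T))
    obtain ⟨t, rfl⟩ := QuotientGroup.mk'_surjective _ g
    refine lt_of_le_of_ne (fun t ht => mem_comap.2 ?_) fun e => g1 (Subtype.ext ?_)
    · rw [show π t = 1 from (QuotientGroup.eq_one_iff t).2 ht]; exact one_mem _
    · exact (QuotientGroup.eq_one_iff t).2 (e ▸ (hg : t ∈ Z2))
  let K' := K x ⊓ K (σ x) ⊓ K (σ (σ x))
  have h4 : Z2 < K' := by
    refine lt_of_le_of_ne (fun t ht => ⟨⟨(mZ t).1 ht _, (mZ t).1 ht _⟩, (mZ t).1 ht _⟩) fun e => hn ?_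
    have o : ∀ s, s * x = x * s → x ∈ K s := fun s h => by
      rw [mK, commutatorElement_eq_one_iff_mul_comm.2 h]; exact one_mem _
    have : x ∈ Z2 := e ▸ ⟨⟨o _ rfl, o _ (hc x).symm⟩, o _ (by have := hc (σ (σ x)); rwa [h3] at this)⟩
    rw [← commutatorElement_inv]
    exact inv_mem ((mK _ _).1 ((mZ x).1 this y))
  have iK' : ∀ t ∈ K', σ t ∈ K' := fun t ht =>
    ⟨⟨by have := iK _ _ ht.2; rwa [h3] at this, iK _ _ ht.1.1⟩, iK _ _ ht.1.2⟩
  have a1 := lt _ _ h1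
  have a2 := lt _ _ h2
  have a3 := lt _ _ h4
  have b1 := cd _ hz
  have b2 := cd _ iZ
  have b3 := cd _ iK'
  rw [card_bot] at a1
  have : K' = ⊤ := eq_top_of_card_eq _ (by omega)
  exact hn ((mK _ _).1 (show y ∈ K' from this ▸ mem_top y).1.1)

variable (hK : ∀ x y : T, ⁅x, y⁆ ∈ center T)
include hK

theorem Kl (x y z : T) : ⁅x * y, z⁆ = ⁅x, z⁆ * ⁅y, z⁆ := by
  have : ⁅x * y, z⁆ = x * ⁅y, z⁆ * x⁻¹ * ⁅x, z⁆ := by simp [commutatorElement_def, mul_assoc]
  rw [this, mem_center_iff.1 (hK y z) x, mul_inv_cancel_right, mem_center_iff.1 (hK y z)]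

theorem Kr (x y z : T) : ⁅x, y * z⁆ = ⁅x, y⁆ * ⁅x, z⁆ := by
  have : ⁅x, y * z⁆ = ⁅x, y⁆ * (y * ⁅x, z⁆ * y⁻¹) := by simp [commutatorElement_def, mul_assoc]
  rw [this, mem_center_iff.1 (hK x z) y, mul_inv_cancel_right]

theorem Kri (x y : T) : ⁅x, y⁻¹⁆ = ⁅x, y⁆⁻¹ :=
  eq_inv_of_mul_eq_one_left (by rw [← Kr hK, inv_mul_cancel, commutatorElement_one_right])

theorem Kρ (σ : MulAut T) (h3 : ∀ y, σ (σ (σ y)) = y) (h1 : ∀ y, y * σ y * σ (σ y) = 1) (hc : ∀ y, y * σ y = σ y * y) (s t : T) :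
    ⁅s, σ t⁆ = σ (σ ⁅s, t⁆) ∧ ⁅σ s, t⁆ = σ (σ ⁅s, t⁆) := by
  have o : ∀ y, ⁅y, σ y⁆ = 1 := fun y => commutatorElement_eq_one_iff_mul_comm.2 (hc y)
  have a := o (s * t)
  rw [map_mul, Kl hK, Kr hK, Kr hK, o, o, one_mul, mul_one, mul_eq_one_iff_eq_inv, commutatorElement_inv] at a
  have b : σ ⁅s, σ t⁆ = (⁅s, σ t⁆ * σ ⁅s, t⁆)⁻¹ := by
    rw [map_commutatorElement, eq_inv_of_mul_eq_one_right (h1 t), Kri hK, Kr hK, ← a, map_commutatorElement]
  have c := h1 ⁅s, σ t⁆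
  have d : σ (σ ⁅s, σ t⁆) = σ ⁅s, t⁆ := by
    rw [eq_inv_of_mul_eq_one_right c, b, mul_inv_rev, inv_inv, ← mem_center_iff.1 (hK s (σ t)), mul_inv_cancel_right]
  have e : ⁅s, σ t⁆ = σ (σ ⁅s, t⁆) := (h3 _).symm.trans (congrArg σ d)
  exact ⟨e, a ▸ e⟩

theorem inj8 {u w : T} (hc : ⁅u, w⁆ ≠ 1) :
    Function.Injective fun p : ZMod 2 × ZMod 2 × ZMod 2 => u ^ p.1.val * w ^ p.2.1.val * ⁅u, w⁆ ^ p.2.2.val := by
  have z2 : ∀ i : ZMod 2, i.val = 0 ∨ i.val = 1 := by decide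
  have h0 : ∀ i i' : ZMod 2, ⁅u, w⁆ ^ i.val = ⁅u, w⁆ ^ i'.val → i = i' := fun i i' h => by
    apply ZMod.val_injective
    rcases z2 i with a | a <;> rcases z2 i' with b | b <;> rw [a, b] at h ⊢ <;> simp_all [eq_comm]
  have c1 : ∀ g : T, ⁅⁅u, w⁆, g⁆ = 1 := fun g => commutatorElement_eq_one_iff_mul_comm.2 (mem_center_iff.1 (hK u w) g).symm
  have c2 : ∀ g : T, ⁅g, ⁅u, w⁆⁆ = 1 := fun g => commutatorElement_eq_one_iff_mul_comm.2 (mem_center_iff.1 (hK u w) g)
  have h1 : ∀ i j k : ZMod 2, ⁅u ^ i.val * w ^ j.val * ⁅u, w⁆ ^ k.val, w⁆ = ⁅u, w⁆ ^ i.val ∧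
      ⁅u, u ^ i.val * w ^ j.val * ⁅u, w⁆ ^ k.val⁆ = ⁅u, w⁆ ^ j.val := fun i j k => by
    rcases z2 i with a | a <;> rcases z2 j with b | b <;> rcases z2 k with c | c <;> rw [a, b, c] <;>
      simp [Kl hK, Kr hK, c1, c2]
  rintro ⟨i, j, k⟩ ⟨i', j', k'⟩ h
  simp only at h
  obtain rfl := h0 i i' (by rw [← (h1 i j k).1, h, (h1 i' j' k').1])
  obtain rfl := h0 j j' (by rw [← (h1 i j k).2, h, (h1 i j' k').2])
  obtain rfl := h0 k k' (mul_left_cancel h)
  rfl

theorem small {H : Type} [Group H] [Finite H] (h8 : Nat.card H = 8) {u w : T} (hc : ⁅u, w⁆ ≠ 1) (hcc : ⁅u, w⁆ * ⁅u, w⁆ = 1)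
    (s : ZMod 2) (hu : u * u = ⁅u, w⁆ ^ s.val) (hw : w * w = ⁅u, w⁆ ^ s.val) (f : H → ZMod 2 × ZMod 2 × ZMod 2)
    (hf : Function.Injective f)
    (hm : ∀ g h, f (g * h) = ((f g).1 + (f h).1, (f g).2.1 + (f h).2.1,
      (f g).2.2 + (f h).2.2 + (f g).2.1 * (f h).1 + s * ((f g).1 * (f h).1 + (f g).2.1 * (f h).2.1)))
    (C : Subgroup T) [Finite C] (hC : Nat.card C ≤ 8) (uC : u ∈ C) (wC : w ∈ C) : Nonempty (C ≃* H) := by
  have cC : ⁅u, w⁆ ∈ C := C.mul_mem (C.mul_mem (C.mul_mem uC wC) (C.inv_mem uC)) (C.inv_mem wC)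
  have i8 := inj8 hK hc
  have cz := mem_center_iff.1 (hK u w)
  have r0 : w * u = u * (w * ⁅u, w⁆) := by
    rw [← mul_assoc, cz, ← inv_eq_of_mul_eq_one_right hcc, commutatorElement_inv]; simp [commutatorElement_def, mul_assoc]
  generalize ⁅u, w⁆ = c at *
  have r1 : ∀ x, w * (u * x) = u * (w * (c * x)) := fun x => by rw [← mul_assoc, r0]; simp only [mul_assoc]
  have r2 : ∀ x, c * (u * x) = u * (c * x) := fun x => by rw [← mul_assoc, ← cz, mul_assoc]
  have r3 : ∀ x, c * (w * x) = w * (c * x) := fun x => by rw [← mul_assoc, ← cz, mul_assoc]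
  have r4 : ∀ x, c * (c * x) = x := fun x => by rw [← mul_assoc, hcc, one_mul]
  have r5 : ∀ x, u * (u * x) = c ^ s.val * x := fun x => by rw [← mul_assoc, hu]
  have r6 : ∀ x, w * (w * x) = c ^ s.val * x := fun x => by rw [← mul_assoc, hw]
  have r7 := (cz u).symm
  have r8 := (cz w).symm
  have z2 : ∀ i : ZMod 2, i = 0 ∨ i = 1 := by decide
  have v1 : (1 : ZMod 2).val = 1 := rfl
  have v2 : (1 + 1 : ZMod 2) = 0 := rfl
  have key : ∀ i j k i' j' k' : ZMod 2, u ^ (i + i').val * w ^ (j + j').val * c ^ (k + k' + j * i' + s * (i * i' + j * j')).val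
      = u ^ i.val * w ^ j.val * c ^ k.val * (u ^ i'.val * w ^ j'.val * c ^ k'.val) := fun i j k i' j' k' => by
    rcases z2 s with rfl | rfl <;> rcases z2 i with rfl | rfl <;> rcases z2 j with rfl | rfl <;>
      rcases z2 k with rfl | rfl <;> rcases z2 i' with rfl | rfl <;> rcases z2 j' with rfl | rfl <;>
      rcases z2 k' with rfl | rfl <;>
      simp only [v1, v2, ZMod.val_zero, add_zero, zero_add, mul_zero, zero_mul, mul_one, one_mul, pow_zero, pow_one,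
        mul_assoc, r0, r1, r2, r3, r4, r5, r6, r7, r8, hu, hw, hcc] 
  let φ : H →* C := MonoidHom.mk' (fun g => ⟨u ^ (f g).1.val * w ^ (f g).2.1.val * c ^ (f g).2.2.val,
    C.mul_mem (C.mul_mem (C.pow_mem uC _) (C.pow_mem wC _)) (C.pow_mem cC _)⟩) fun g h =>
      Subtype.ext (by simp only [hm]; exact key _ _ _ _ _ _)
  have hi : Function.Injective φ := fun g h e => hf (i8 (congrArg Subtype.val e))
  exact ⟨(MulEquiv.ofBijective φ ((Nat.bijective_iff_injective_and_card φ).2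
    ⟨hi, le_antisymm (Nat.card_le_card_of_injective φ hi) (h8 ▸ hC)⟩)).symm⟩
end

instance : Fact (∀ r : ZMod 2, r ^ 2 ≠ 1 + 1 * r) := ⟨by decide⟩
abbrev F4 : Type := QuadraticAlgebra (ZMod 2) 1 1
instance : Fintype F4 := Fintype.ofEquiv _ (QuadraticAlgebra.equivProd (1 : ZMod 2) 1).symm
theorem cardF : Fintype.card F4 = 4 := by rw [Fintype.ofEquiv_card]; rfl

@[ext] structure U where
  a : F4
  b : F4
  c : F4

instance : Mul U := ⟨fun x y => ⟨x.a + y.a, x.b + y.b, x.c + y.c + x.a * y.b⟩⟩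
instance : One U := ⟨⟨0, 0, 0⟩⟩
instance : Inv U := ⟨fun x => ⟨-x.a, -x.b, x.a * x.b - x.c⟩⟩
theorem ma (x y : U) : (x * y).a = x.a + y.a := rfl
theorem mb (x y : U) : (x * y).b = x.b + y.b := rfl
theorem mc (x y : U) : (x * y).c = x.c + y.c + x.a * y.b := rfl
instance : Group U := Group.ofLeftAxioms
  (fun x y z => U.ext (by simp only [ma]; ring) (by simp only [mb]; ring) (by simp only [ma, mb, mc]; ring))
  (fun x => U.ext (zero_add _) (zero_add _) (by show 0 + x.c + 0 * x.b = x.c; ring))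
  (fun x => U.ext (neg_add_cancel _) (neg_add_cancel _) (by show x.a * x.b - x.c + x.c + -x.a * x.b = 0; ring))

theorem cardU : Nat.card U = 64 := by
  have : U ≃ F4 × F4 × F4 := ⟨fun x => (x.a, x.b, x.c), fun p => ⟨p.1, p.2.1, p.2.2⟩, fun _ => rfl, fun _ => rfl⟩
  rw [Nat.card_congr this]; simp [cardF]

def θ0 : U →* Matrix.SpecialLinearGroup (Fin 3) F4 :=
  MonoidHom.mk' (fun x => ⟨!![1, x.a, x.c; 0, 1, x.b; 0, 0, 1], by simp [Matrix.det_fin_three]⟩) fun x y => by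
    apply Subtype.ext
    show !![1, (x * y).a, (x * y).c; 0, 1, (x * y).b; 0, 0, 1] =
      !![1, x.a, x.c; 0, 1, x.b; 0, 0, 1] * !![1, y.a, y.c; 0, 1, y.b; 0, 0, (1 : F4)]
    ext1 i j
    fin_cases i <;> fin_cases j <;> simp [Matrix.mul_apply, Fin.sum_univ_three, ma, mb, mc] <;> ring

theorem sylU : ∃ S : Sylow 2 (Matrix.ProjectiveSpecialLinearGroup (Fin 3) F4),
    Nonempty (U ≃* (S : Subgroup (Matrix.ProjectiveSpecialLinearGroup (Fin 3) F4))) := by
  let θ : U →* Matrix.ProjectiveSpecialLinearGroup (Fin 3) F4 := (QuotientGroup.mk' _).comp θ0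
  have hi : Function.Injective θ := (injective_iff_map_eq_one θ).2 fun x h => by
    obtain ⟨r, -, e⟩ := Matrix.SpecialLinearGroup.mem_center_iff.1 ((QuotientGroup.eq_one_iff (θ0 x)).1 h)
    have a := congrFun (congrFun e 0) 1
    have b := congrFun (congrFun e 1) 2
    have c := congrFun (congrFun e 0) 2
    simp [θ0] at a b c
    exact U.ext a.symm b.symm c.symm
  have hc : Nat.card θ.range = 64 := by rw [← cardU]; exact (Nat.card_congr (MonoidHom.ofInjective hi).toEquiv).symm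
  have h := Cfsg.Agent.S0243.result cardF 3 (by norm_num)
  rw [Fin.prod_univ_three] at h
  have h' : Nat.card (Matrix.ProjectiveSpecialLinearGroup (Fin 3) F4) = 20160 := by
    have e : Nat.gcd 3 (4 - 1) = 3 := by norm_num
    rw [e] at h
    simp only [Fin.val_zero, Fin.val_one, Fin.val_two] at h
    omega
  have h2 := θ.range.card_mul_index
  have hp : IsPGroup 2 θ.range := IsPGroup.of_card (n := 6) (by rw [hc]; norm_num)
  exact ⟨hp.toSylow (by rw [hc, h'] at h2; omega), ⟨MonoidHom.ofInjective hi⟩⟩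

section
variable {T : Type*} [Group T]
def E (p q : T) (α : F4) : T := p ^ α.re.val * q ^ α.im.val

theorem E_add {p q : T} (hp : p * p = 1) (hq : q * q = 1) (h : q * p = p * q) (α β : F4) :
    E p q (α + β) = E p q α * E p q β := by
  have z2 : ∀ i : ZMod 2, i = 0 ∨ i = 1 := by decide
  have v1 : (1 : ZMod 2).val = 1 := rfl
  have v2 : (1 + 1 : ZMod 2) = 0 := rfl
  have r1 : ∀ x, p * (p * x) = x := fun x => by rw [← mul_assoc, hp, one_mul]
  have r2 : ∀ x, q * (q * x) = x := fun x => by rw [← mul_assoc, hq, one_mul]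
  have r3 : ∀ x, q * (p * x) = p * (q * x) := fun x => by rw [← mul_assoc, h, mul_assoc]
  obtain ⟨a, b⟩ := α
  obtain ⟨c, d⟩ := β
  show p ^ (a + c).val * q ^ (b + d).val = p ^ a.val * q ^ b.val * (p ^ c.val * q ^ d.val)
  rcases z2 a with rfl | rfl <;> rcases z2 b with rfl | rfl <;> rcases z2 c with rfl | rfl <;>
    rcases z2 d with rfl | rfl <;>
    simp only [v1, v2, ZMod.val_zero, add_zero, zero_add, mul_one, one_mul, pow_zero, pow_one, mul_assoc, r1, r2, r3, hp, hq, h]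

theorem big [Finite T] (hT : Nat.card T = 64) (hK : ∀ x y : T, ⁅x, y⁆ ∈ center T) (σ : MulAut T)
    (h3 : ∀ y, σ (σ (σ y)) = y) (h1 : ∀ y, y * σ y * σ (σ y) = 1) (hc : ∀ y, y * σ y = σ y * y) {a b : T}
    (ha : a * a = 1) (hb : b * b = 1) (hn : ⁅a, b⁆ ≠ 1) : Nonempty (T ≃* U) := by
  have sq : ∀ {y : T}, y * y = 1 → σ y * σ y = 1 := fun h => by rw [← map_mul, h, map_one]
  have cc : ⁅a, b⁆ * ⁅a, b⁆ = 1 := by rw [← Kl hK, ha, commutatorElement_one_left]
  obtain ⟨k1, k2⟩ := Kρ hK σ h3 h1 hc a b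
  have k3 : ⁅σ a, σ b⁆ = ⁅a, b⁆ * σ (σ ⁅a, b⁆) := by
    have := h1 ⁅a, b⁆
    rw [hc, mul_assoc, mul_eq_one_iff_eq_inv', inv_eq_of_mul_eq_one_right (sq cc)] at this
    rw [this, map_commutatorElement]
  have lz : σ (σ ⁅a, b⁆) ∈ center T := k1 ▸ hK _ _
  have cz := hK a b
  have ll := sq (sq cc)
  have ne : σ (σ ⁅a, b⁆) ≠ 1 := fun e => hn (σ.injective (σ.injective (e.trans (by simp only [map_one]))))
  have ne2 : ⁅a, b⁆ * σ (σ ⁅a, b⁆) ≠ 1 := fun e => hn (by
    rw [← k3, ← map_commutatorElement] at e; exact σ.injective (e.trans (map_one σ).symm))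
  obtain ⟨c, hc0⟩ : ∃ c, c = ⁅a, b⁆ := ⟨_, rfl⟩
  rw [← hc0] at k1 k2 k3 lz cz ll ne ne2 cc hn
  generalize σ (σ c) = l at *
  have cl : l * c = c * l := mem_center_iff.1 cz l
  have z2 : ∀ i : ZMod 2, i = 0 ∨ i = 1 := by decide
  have v1 : (1 : ZMod 2).val = 1 := rfl
  have v2 : (1 + 1 : ZMod 2) = 0 := rfl
  have r1 : ∀ x, c * (c * x) = x := fun x => by rw [← mul_assoc, cc, one_mul]
  have r2 : ∀ x, l * (l * x) = x := fun x => by rw [← mul_assoc, ll, one_mul]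
  have r3 : ∀ x, l * (c * x) = c * (l * x) := fun x => by rw [← mul_assoc, cl, mul_assoc]
  have bil : ∀ α β, ⁅E a (σ a) α, E b (σ b) β⁆ = E c l (α * β) := by
    rintro ⟨i, j⟩ ⟨i', j'⟩
    show ⁅a ^ i.val * σ a ^ j.val, b ^ i'.val * σ b ^ j'.val⁆ =
      c ^ (i * i' + 1 * j * j').val * l ^ (i * j' + j * i' + 1 * j * j').val
    rcases z2 i with rfl | rfl <;> rcases z2 j with rfl | rfl <;> rcases z2 i' with rfl | rfl <;>
      rcases z2 j' with rfl | rfl <;>
      simp only [v1, v2, ZMod.val_zero, add_zero, zero_add, mul_zero, zero_mul, mul_one, one_mul, pow_zero, pow_one,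
        Kl hK, Kr hK, ← hc0, k1, k2, k3, mul_assoc, r1, r2, r3, cc, ll, cl, commutatorElement_one_left,
        commutatorElement_one_right]
  have Ez : ∀ γ, E c l γ ∈ center T := fun γ => mul_mem (pow_mem cz _) (pow_mem lz _)
  have E0 : ∀ γ, E c l γ = 1 → γ = 0 := by
    rintro ⟨i, j⟩ h
    change c ^ i.val * l ^ j.val = 1 at h
    rcases z2 i with rfl | rfl <;> rcases z2 j with rfl | rfl <;>
      simp only [v1, ZMod.val_zero, mul_one, one_mul, pow_zero, pow_one] at h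
    exacts [rfl, absurd h ne, absurd h hn, absurd h ne2]
  let φ : U →* T := MonoidHom.mk' (fun x => E b (σ b) x.b * E a (σ a) x.a * E c l x.c) fun x y => by
    simp only [ma, mb, mc, E_add ha (sq ha) (hc a).symm, E_add hb (sq hb) (hc b).symm, E_add cc ll cl, ← bil]
    have e : E a (σ a) x.a * E b (σ b) y.b = E b (σ b) y.b * E a (σ a) x.a * ⁅E a (σ a) x.a, E b (σ b) y.b⁆ := by
      rw [mem_center_iff.1 (hK _ _)]; simp [commutatorElement_def, mul_assoc]
    have z1 := mem_center_iff.1 (Ez x.c)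
    have z3 := mem_center_iff.1 (hK (E a (σ a) x.a) (E b (σ b) y.b))
    generalize ⁅E a (σ a) x.a, E b (σ b) y.b⁆ = k at e z3 ⊢
    generalize E a (σ a) x.a = A at e ⊢
    generalize E b (σ b) y.b = B' at e ⊢
    generalize E c l x.c = Z at z1 ⊢
    generalize E b (σ b) x.b = B
    generalize E a (σ a) y.a = A'
    generalize E c l y.c = Z'
    calc B * B' * (A * A') * (Z * Z' * k) = B * (B' * A * (A' * (Z * Z') * k)) := by simp only [mul_assoc]
      _ = B * ((B' * A * k) * (A' * Z) * Z') := by rw [z3]; simp only [mul_assoc]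
      _ = B * (A * ((B' * A') * Z) * Z') := by rw [← e]; simp only [mul_assoc]
      _ = _ := by rw [z1]; simp only [mul_assoc]
  have zl : ∀ γ (g : T), ⁅E c l γ, g⁆ = 1 := fun γ g =>
    commutatorElement_eq_one_iff_mul_comm.2 (mem_center_iff.1 (Ez γ) g).symm
  have zr : ∀ γ (g : T), ⁅g, E c l γ⁆ = 1 := fun γ g =>
    commutatorElement_eq_one_iff_mul_comm.2 (mem_center_iff.1 (Ez γ) g)
  have e1 : ∀ p q : T, E p q 1 = p := fun p q => by show p ^ 1 * q ^ 0 = p; simp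
  have e0 : ∀ p q : T, E p q 0 = 1 := fun p q => by show p ^ 0 * q ^ 0 = 1; simp
  have cm : ∀ {p : T}, p * p = 1 → ∀ α β, ⁅E p (σ p) α, E p (σ p) β⁆ = 1 := fun {p} h α β => by
    rw [commutatorElement_eq_one_iff_mul_comm, ← E_add h (sq h) (hc p).symm, ← E_add h (sq h) (hc p).symm, add_comm]
  have hi : Function.Injective φ := (injective_iff_map_eq_one φ).2 fun x h => by
    change E b (σ b) x.b * E a (σ a) x.a * E c l x.c = 1 at h
    have a1 := congrArg (⁅·, E b (σ b) 1⁆) h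
    have a2 := congrArg (⁅E a (σ a) 1, ·⁆) h
    simp only [Kl hK, Kr hK, zl, zr, cm ha, cm hb, bil, mul_one, one_mul, commutatorElement_one_left,
      commutatorElement_one_right] at a1 a2
    have b1 := E0 _ a1
    have b2 := E0 _ a2
    rw [b1, b2, e0, e0, one_mul, one_mul] at h
    exact U.ext b1 b2 (E0 _ h)
  have : Finite U := Nat.finite_of_card_ne_zero (by rw [cardU]; norm_num)
  exact ⟨(MulEquiv.ofBijective φ ((Nat.bijective_iff_injective_and_card φ).2 ⟨hi, by rw [cardU, hT]⟩)).symm⟩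
end

def fD : DihedralGroup 4 → ZMod 2 × ZMod 2 × ZMod 2
  | .r n => ((n.val : ℕ), (n.val : ℕ), (n.val / 2 : ℕ))
  | .sr n => ((n.val + 1 : ℕ), (n.val : ℕ), (n.val / 2 : ℕ))
def fQ : QuaternionGroup 2 → ZMod 2 × ZMod 2 × ZMod 2
  | .a n => ((n.val : ℕ), 0, (n.val / 2 : ℕ))
  | .xa n => ((n.val : ℕ), 1, ((n.val + 1) / 2 : ℕ))

/-- Let T be a non-abelian group of order 64 admitting automorphisms ρ of order 3 and x of order 2 with x ρ x⁻¹ = ρ⁻¹ (so they generate a symmetric group of degree 3), where ρ fixes only the identity. Then T is isomorphic to a Sylow 2-subgroup of the projective special linear group of dimension 3 over the field with 4 elements, and the subgroup of fixed points of x is dihedral of order 8 or quaternion of order 8. -/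
theorem result {T : Type*} [Group T] [Finite T] (hT : Nat.card T = 64) (hna : ¬ IsMulCommutative T) (ρ x : MulAut T) (hρ : orderOf ρ = 3) (hx : orderOf x = 2)
    (hxr : x * ρ * x⁻¹ = ρ⁻¹) (hfp : ∀ y : T, ρ y = y → y = 1) (C : Subgroup T) (hC : ∀ y : T, y ∈ C ↔ x y = y) :
    (∃ (F : Type) (_ : Field F) (_ : Fintype F), Fintype.card F = 4 ∧
        ∃ S : Sylow 2 (Matrix.ProjectiveSpecialLinearGroup (Fin 3) F), Nonempty (T ≃* ↥(S : Subgroup (Matrix.ProjectiveSpecialLinearGroup (Fin 3) F)))) ∧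
      (Nonempty (↥C ≃* DihedralGroup 4) ∨ Nonempty (↥C ≃* QuaternionGroup 2)) := by
  have h3 : ∀ y, ρ (ρ (ρ y)) = y := fun y => by
    have := congrArg (fun f : MulAut T => f y) (hρ ▸ pow_orderOf_eq_one ρ)
    simpa [pow_succ] using this
  have xx : ∀ y, x (x y) = y := fun y => by
    have := congrArg (fun f : MulAut T => f y) (hx ▸ pow_orderOf_eq_one x)
    simpa [pow_succ] using this
  have xr : ∀ y, x (ρ y) = ρ (ρ (x y)) := fun y => by
    have := congrArg (fun f : MulAut T => ρ (f (x y))) hxr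
    simp only [MulAut.mul_apply, MulAut.inv_apply_self, MulAut.apply_inv_self] at this
    rw [← this, h3]
  have h1 := p3 ρ h3 hfp
  have h1' := p3 (ρ * ρ) (fun y => by simp only [MulAut.mul_apply, h3])
    (fun y h => hfp y (by rw [MulAut.mul_apply] at h; rw [← h, h3, h]))
  have hc : ∀ y, y * ρ y = ρ y * y := fun y => by
    have a := h1' y
    simp only [MulAut.mul_apply, h3] at a
    rw [mul_eq_one_comm, ← mul_assoc] at a
    exact mul_right_cancel ((h1 y).trans a.symm)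
  have hK := cls2 hT ρ h3 hfp hc
  have hC8 : Nat.card C ≤ 8 := by
    have := Nat.card_le_card_of_injective (fun p : C × C => (p.1 : T) * ρ p.2) (by
      rintro ⟨s, t⟩ ⟨s', t'⟩ e
      simp only at e
      have e1 : (s' : T)⁻¹ * s = ρ (t' * (t : T)⁻¹) := by
        rw [map_mul, map_inv, inv_mul_eq_iff_eq_mul, ← mul_assoc, ← e, mul_inv_cancel_right]
      have e2 := (hC _).1 (C.mul_mem (C.inv_mem s'.2) s.2)
      rw [e1, xr, (hC _).1 (C.mul_mem t'.2 (C.inv_mem t.2))] at e2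
      have e3 := hfp _ (ρ.injective e2)
      rw [e3, map_one, inv_mul_eq_one] at e1
      rw [mul_inv_eq_one] at e3
      exact Prod.ext (Subtype.ext e1.symm) (Subtype.ext e3.symm))
    rw [Nat.card_prod, hT] at this
    nlinarith
  have zl : ∀ {z : T}, z ∈ center T → ∀ g : T, ⁅z, g⁆ = 1 := fun h g =>
    commutatorElement_eq_one_iff_mul_comm.2 (mem_center_iff.1 h g).symm
  have zr : ∀ {z : T}, z ∈ center T → ∀ g : T, ⁅g, z⁆ = 1 := fun h g =>
    commutatorElement_eq_one_iff_mul_comm.2 (mem_center_iff.1 h g)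
  have ρz : ∀ {z : T}, z ∈ center T → ρ z ∈ center T := fun {t} ht => mem_center_iff.2 fun g => by
    obtain ⟨g, rfl⟩ := ρ.surjective g
    rw [← map_mul, ← map_mul, mem_center_iff.1 ht]
  have st : ∀ y, ∃ s ∈ C, ∃ z ∈ center T, y * x y = s * z := fun y => by
    have ez := hK (x y) y
    have e1 : x (y * x y) = y * x y * ⁅x y, y⁆ := by
      rw [mem_center_iff.1 ez, map_mul, xx]; simp [commutatorElement_def, mul_assoc]
    have e2 : x ⁅x y, y⁆ = ⁅x y, y⁆⁻¹ := by rw [map_commutatorElement, xx, commutatorElement_inv]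
    refine ⟨y * x y * (ρ ⁅x y, y⁆)⁻¹, (hC _).2 ?_, _, ρz ez, (inv_mul_cancel_right _ _).symm⟩
    rw [map_mul, e1, map_inv, xr, e2, map_inv, map_inv, inv_inv, mul_assoc (y * x y)]
    congr 1
    have := h1 ⁅x y, y⁆
    rw [mem_center_iff.1 (ρz ez), mul_assoc] at this
    exact eq_inv_of_mul_eq_one_right this
  obtain ⟨u, uC, w, wC, hn⟩ : ∃ u ∈ C, ∃ w ∈ C, ⁅u, w⁆ ≠ 1 := by
    by_contra! hh
    have A : ∀ g : T, (∀ s ∈ C, ⁅s, g⁆ = 1 ∧ ⁅ρ s, g⁆ = 1 ∧ ⁅ρ (ρ s), g⁆ = 1) → ∀ y : T, ⁅y, g⁆ = 1 := fun g hg y => by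
      obtain ⟨s0, a0, z0, b0, e0⟩ := st y
      obtain ⟨s1, a1, z1, b1, e1⟩ := st (ρ (ρ y))
      obtain ⟨s2, a2, z2, b2, e2⟩ := st (ρ y)
      have f0 := congrArg (⁅·, g⁆) e0
      have f1 := congrArg (fun t => ⁅ρ t, g⁆) e1
      have f2 := congrArg (fun t => ⁅ρ (ρ t), g⁆) e2
      have f3 := congrArg (⁅·, g⁆) (h1 (x y))
      simp only [map_mul, xr, h3, Kl hK, (hg _ a0).1, (hg _ a1).2.1, (hg _ a2).2.2, zl b0, zl (ρz b1), zl (ρz (ρz b2)),
        mul_one, commutatorElement_one_left] at f0 f1 f2 f3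
      rw [eq_inv_of_mul_eq_one_right f0, eq_inv_of_mul_eq_one_right f1, eq_inv_of_mul_eq_one_right f2] at f3
      have k3 : ⁅y, g⁆ ^ 3 = 1 := by rw [← inv_eq_one, ← inv_pow, ← f3, pow_three']
      have k64 : ⁅y, g⁆ ^ 64 = 1 := hT ▸ pow_card_eq_one'
      rw [show 64 = 3 * 21 + 1 from rfl, pow_succ, pow_mul, k3, one_pow, one_mul] at k64
      exact k64
    have B : ∀ s ∈ C, ∀ t ∈ C, ⁅s, ρ t⁆ = 1 ∧ ⁅ρ s, t⁆ = 1 := fun s a t b => by
      have := Kρ hK ρ h3 h1 hc s t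
      rwa [hh s a t b, map_one, map_one] at this
    have mp : ∀ {s t : T}, ⁅s, t⁆ = 1 → ⁅ρ s, ρ t⁆ = 1 := fun h => by rw [← map_commutatorElement, h, map_one]
    have D : ∀ t ∈ C, ∀ y : T, ⁅y, t⁆ = 1 := fun t b => A t fun s a =>
      ⟨hh s a t b, (B s a t b).2, by have := mp (mp (B s a t b).1); rwa [h3] at this⟩
    have sw : ∀ {s t : T}, ⁅s, t⁆ = 1 → ⁅t, s⁆ = 1 := fun h => by rw [← commutatorElement_inv, h, inv_one]
    refine hna ⟨⟨fun y g => commutatorElement_eq_one_iff_mul_comm.1 (A g (fun s a => ⟨sw (D s a g), ?_, ?_⟩) y)⟩⟩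
    · have := mp (D s a (ρ (ρ g))); rw [h3] at this; exact sw this
    · have := mp (mp (D s a (ρ g))); rw [h3] at this; exact sw this
  have cC : ⁅u, w⁆ ∈ C := C.mul_mem (C.mul_mem (C.mul_mem uC wC) (C.inv_mem uC)) (C.inv_mem wC)
  have cen : ∀ y ∈ C, ⁅y, w⁆ = 1 → ⁅u, y⁆ = 1 → y = 1 ∨ y = ⁅u, w⁆ := fun y hy a b => by
    let F : ZMod 2 × ZMod 2 × ZMod 2 → C := fun p => ⟨u ^ p.1.val * w ^ p.2.1.val * ⁅u, w⁆ ^ p.2.2.val,
        C.mul_mem (C.mul_mem (C.pow_mem uC _) (C.pow_mem wC _)) (C.pow_mem cC _)⟩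
    have hi : Function.Injective F := fun p q e => inj8 hK hn (congrArg Subtype.val e)
    obtain ⟨⟨i, j, k⟩, e⟩ := ((Nat.bijective_iff_injective_and_card F).2
      ⟨hi, le_antisymm (Nat.card_le_card_of_injective _ hi) (by simpa using hC8)⟩).2 ⟨y, hy⟩
    obtain rfl : u ^ i.val * w ^ j.val * ⁅u, w⁆ ^ k.val = y := congrArg Subtype.val e
    clear e
    have z2 : ∀ i : ZMod 2, i.val = 0 ∨ i.val = 1 := by decide
    rcases z2 i with a' | a' <;> rcases z2 j with b' | b' <;> rcases z2 k with c' | c' <;>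
      simp only [a', b', c', pow_zero, pow_one, one_mul, mul_one, Kl hK, Kr hK, zl (hK u w), zr (hK u w),
        commutatorElement_self, true_or, or_true] at a b ⊢ <;>
      first | exact absurd a hn | exact absurd b hn
  have cc : ⁅u, w⁆ * ⁅u, w⁆ = 1 := (cen _ (C.mul_mem cC cC) (zl (mul_mem (hK _ _) (hK _ _)) _)
    (zr (mul_mem (hK _ _) (hK _ _)) _)).resolve_right fun e => hn (mul_eq_left.1 e)
  have fin : Nonempty (T ≃* U) → ∃ (F : Type) (_ : Field F) (_ : Fintype F), Fintype.card F = 4 ∧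
      ∃ S : Sylow 2 (Matrix.ProjectiveSpecialLinearGroup (Fin 3) F),
        Nonempty (T ≃* ↥(S : Subgroup (Matrix.ProjectiveSpecialLinearGroup (Fin 3) F))) := fun ⟨e⟩ =>
    let ⟨S, ⟨e'⟩⟩ := sylU; ⟨F4, inferInstance, inferInstance, cardF, S, ⟨e.trans e'⟩⟩
  have D : ∀ u ∈ C, ∀ w ∈ C, ⁅u, w⁆ ≠ 1 → u * u = 1 → w * w = 1 →
      Nonempty (T ≃* U) ∧ Nonempty (↥C ≃* DihedralGroup 4) := fun u a w b h hu hw =>
    ⟨big hT hK ρ h3 h1 hc hu hw h, small hK (by rw [Nat.card_eq_fintype_card]; rfl) h (by rw [← Kl hK, hu, commutatorElement_one_left]) 0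
      (by simpa using hu) (by simpa using hw) fD (by decide) (by decide) C hC8 a b⟩
  have uw : u * w * (u * w) = u * u * (w * w) * ⁅u, w⁆ := by
    have : w * u = u * w * ⁅u, w⁆ := by
      rw [mem_center_iff.1 (hK u w), ← inv_eq_of_mul_eq_one_right cc, commutatorElement_inv]
      simp [commutatorElement_def, mul_assoc]
    rw [mul_assoc, ← mul_assoc w, this, mul_assoc (u * w), ← mem_center_iff.1 (hK u w)]
    simp only [mul_assoc]
  rcases cen _ (C.mul_mem uC uC) (by rw [Kl hK, cc]) (by simp [Kr hK]) with hu | hu <;>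
    rcases cen _ (C.mul_mem wC wC) (by simp [Kl hK]) (by rw [Kr hK, cc]) with hw | hw
  · exact (D u uC w wC hn hu hw).imp fin Or.inl
  · exact (D u uC _ (C.mul_mem uC wC) (by simpa [Kr hK] using hn) hu (by rw [uw, hu, hw, one_mul, cc])).imp fin Or.inl
  · exact (D _ (C.mul_mem uC wC) w wC (by simpa [Kl hK] using hn) (by rw [uw, hu, hw, mul_one, cc]) hw).imp fin Or.inl
  refine ⟨fin ?_, Or.inr (small hK (by rw [Nat.card_eq_fintype_card]; rfl) hn cc 1 (by rw [hu]; exact (pow_one _).symm)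
    (by rw [hw]; exact (pow_one _).symm) fQ (by decide) (by decide) C hC8 uC wC)⟩
  obtain ⟨k1, k2⟩ := Kρ hK ρ h3 h1 hc u w
  have k3 : ⁅u, ρ (ρ w)⁆ = ρ ⁅u, w⁆ := by
    have := congrArg (fun t => ρ (ρ t)) k2
    simpa only [map_commutatorElement, h3] using this
  have sq : ∀ s t : T, s * t * (s * t) = s * s * (t * t) * ⁅s, t⁆⁻¹ := fun s t => by
    have : t * s = s * t * ⁅s, t⁆⁻¹ := by
      rw [mem_center_iff.1 (inv_mem (hK s t))]; simp [commutatorElement_def, mul_assoc]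
    rw [mul_assoc, ← mul_assoc t, this, mul_assoc (s * t), ← mem_center_iff.1 (inv_mem (hK s t))]
    simp only [mul_assoc]
  have ci : ⁅u, w⁆⁻¹ = ⁅u, w⁆ := inv_eq_of_mul_eq_one_right cc
  refine big hT hK ρ h3 h1 hc (a := u * ρ w) (b := u * ρ (ρ w)) ?_ ?_ ?_
  · rw [sq, hu, ← map_mul, hw, k1, ← map_inv, ← map_inv, ci, h1]
  · rw [sq, hu, ← map_mul, ← map_mul, hw, k3, ← map_inv, ci]
    simpa only [MulAut.mul_apply, h3] using h1' ⁅u, w⁆
  · rw [Kl hK, Kr hK, Kr hK, k3, commutatorElement_self, one_mul, commutatorElement_eq_one_iff_mul_comm.2 (hc (ρ w)),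
      mul_one, ← commutatorElement_inv u, k1, ← map_inv, ← map_inv, ci]
    intro e
    have := h1 ⁅u, w⁆
    rw [mul_assoc, e, mul_one] at this
    exact hn this

end Cfsg.Agent.S3157
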