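import Cfsg.Statements.S3171
import Cfsg.Agent.H7.UT5

set_option autoImplicit false
set_option maxRecDepth 200000
open Cfsg H7 H7.UT5

namespace Cfsg.Agent.S3171

def m (i j : ℕ) : ℕ := Nat.land (mul i j) 511
def cm (i j : ℕ) : Bool := Nat.beq (m i j) (m j i)
def cnt (p : ℕ → Bool) : ℕ := ((Finset.range 512).filter fun i => p i = true).card
def pi (i : ℕ) : ℕ := Nat.land i 38
def chi (a b c d : Bool) (i : ℕ) : Bool :=
  !((a && i.testBit 0) ^^ (b && i.testBit 1) ^^ (c && i.testBit 2) ^^ (d && i.testBit 3))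

theorem m_lt (i j : ℕ) : m i j < 512 := Nat.lt_succ_of_le Nat.and_le_right
theorem pi_lt (i : ℕ) : pi i < 39 := Nat.lt_succ_of_le Nat.and_le_right

structure Md {S : Type} [Group S] (s : ℕ → S) : Prop where
  hm : ∀ i < 512, ∀ j < 512, s i * s j = s (m i j)
  hi : ∀ i < 512, ∀ j < 512, s i = s j → i = j
  hs : ∀ x, ∃ i < 512, s i = x

theorem c1 : ∀ k < 1024, (∀ t < 4, mul k (2 ^ t) = mul (2 ^ t) k) → k = 0 ∨ k = 512 := by decide +kernel
theorem c2 : ∀ j < 1024, mul j 512 = mul 512 j ∧ (j < 512 → 512 ≤ mul j 512) ∧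
    (Nat.land j 511 = j ∨ mul (Nat.land j 511) 512 = j) ∧ (j < 512 → Nat.land j 511 = j) := by decide +kernel
theorem c3 : ∀ i < 1024, ∀ k < 4, m (Nat.land i 511) (2 ^ k) = Nat.land (mul i (2 ^ k)) 511 ∧
    ∀ a b c d, chi a b c d (mul i (2 ^ k)) = (chi a b c d i == chi a b c d (2 ^ k)) := by decide +kernel
theorem c4 : ∀ a b c d, cnt (fun i => chi a b c d i &&
    allLt (fun j => !(chi a b c d j) || cm i j) 512) ≤ 8 := by decide +kernel
theorem c5 : ∀ i < 512, pi i = 0 → m i i = 0 ∧ ∀ j < 512, pi j = 0 → pi (m i j) = 0 ∧ cm i j = true := by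
  decide +kernel
theorem c6 : ∀ i < 512, pi (m (iv (pi i)) i) = 0 ∧ m (pi i) (m (iv (pi i)) i) = i ∧ pi (pi i) = pi i ∧
    pi i ∈ ({0, 2, 4, 6, 32, 34, 36, 38} : Finset ℕ) := by decide +kernel
set_option synthInstance.maxSize 4096 in
set_option synthInstance.maxHeartbeats 400000 in
theorem c7 : ∀ r < 39, pi r = r → r ≠ 0 → cnt (fun e => Nat.beq (pi e) 0 && cm r e) ≤ 16 ∧
    ∀ r' < 39, pi r' = r' → r' ≠ 0 → r' ≠ r → cnt (fun e => Nat.beq (pi e) 0 && (cm r e && cm r' e)) ≤ 8 := by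
  decide +kernel
theorem c8 : ∀ u < 512, pi u = 2 → ∀ v < 512, pi v = 4 → cm u v = false := by decide +kernel
theorem c9 : cnt (fun e => Nat.beq (pi e) 0) = 64 := by decide +kernel
theorem c10 : cnt (fun _ => true) = 512 := by decide +kernel

theorem md (P : Sylow 2 M24) : ∃ s : ℕ → (↥(P : Subgroup M24) ⧸ Subgroup.center ↥(P : Subgroup M24)), Md s := by
  obtain ⟨e, hm, hi, hs⟩ := model P
  have p2 : ∀ k < 4, 2 ^ k < 1024 := by decide
  have z1 : e 512 ∈ Subgroup.center _ := Subgroup.mem_center_iff.2 fun g => by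
    obtain ⟨j, hj, rfl⟩ := hs g
    rw [hm _ hj _ (by norm_num), hm _ (by norm_num) _ hj, (c2 j hj).1]
  have l5 : ∀ i, Nat.land i 511 < 512 := fun i => Nat.lt_succ_of_le Nat.and_le_right
  have red : ∀ i < 1024, (QuotientGroup.mk (e i) : _ ⧸ Subgroup.center ↥(P : Subgroup M24)) =
      QuotientGroup.mk (e (Nat.land i 511)) := fun i h => by
    rcases (c2 i h).2.2.1 with a | a
    · rw [a]
    · symm
      rw [QuotientGroup.eq]
      conv => enter [2, 2]; rw [← a, ← hm _ ((l5 i).trans (by norm_num)) _ (by norm_num)]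
      rwa [inv_mul_cancel_left]
  refine ⟨fun i => QuotientGroup.mk (e i), fun i a j b => ?_, fun i a j b h => ?_, fun x => ?_⟩
  · show _ = QuotientGroup.mk (e (Nat.land _ _))
    rw [← QuotientGroup.mk_mul, hm i (by omega) j (by omega), red _ (mul_lt (by omega) (by omega))]
  · rw [QuotientGroup.eq] at h
    obtain ⟨k, hk, ek⟩ := hs ((e i)⁻¹ * e j)
    rw [← ek, Subgroup.mem_center_iff] at h
    have := c1 k hk fun t ht => hi _ (mul_lt hk (p2 t ht)) _ (mul_lt (p2 t ht) hk)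
      (by rw [← hm _ hk _ (p2 t ht), ← hm _ (p2 t ht) _ hk, h])
    have h2 : mul i k = j := hi _ (mul_lt (by omega) hk) _ (by omega)
      (by rw [← hm i (by omega) k hk, ek, mul_inv_cancel_left])
    rcases this with rfl | rfl
    · rw [← h2, (iv_spec i (by omega)).2.2.2.1]
    · have := (c2 i (by omega)).2.1 a
      omega
  · obtain ⟨x, rfl⟩ := QuotientGroup.mk_surjective x
    obtain ⟨i, a, rfl⟩ := hs x
    exact ⟨_, l5 i, (red i a).symm⟩

section
variable {S : Type} [Group S] {s : ℕ → S} (h : Md s)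
include h

theorem Md.cm_iff {i j : ℕ} (a : i < 512) (b : j < 512) : cm i j = true ↔ s i * s j = s j * s i := by
  rw [cm, Nat.beq_eq, h.hm i a j b, h.hm j b i a]
  exact ⟨fun e => by rw [e], h.hi _ (m_lt _ _) _ (m_lt _ _)⟩

theorem Md.s0 : s 0 = 1 := by
  have := h.hm 0 (by norm_num) 0 (by norm_num)
  rw [show m 0 0 = 0 from rfl] at this
  exact mul_eq_left.1 this

theorem Md.card_le {X : Type} (f : X → S) (hf : Function.Injective f) (p : ℕ → Bool)
    (hp : ∀ x, ∀ i < 512, s i = f x → p i = true) : Nat.card X ≤ cnt p := by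
  choose g hg hg' using fun x => h.hs (f x)
  have := Nat.card_le_card_of_injective (fun x => (⟨g x, Finset.mem_filter.2 ⟨Finset.mem_range.2 (hg x),
    hp x _ (hg x) (hg' x)⟩⟩ : ((Finset.range 512).filter fun i => p i = true)))
    fun x y e => hf (by rw [← hg' x, ← hg' y, show g x = g y from congrArg Subtype.val e])
  rwa [Nat.card_eq_finsetCard] at this

theorem Md.fin : Finite S := Finite.of_surjective (fun i : Fin 512 => s i) fun x =>
  let ⟨i, a, e⟩ := h.hs x; ⟨⟨i, a⟩, e⟩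

theorem Md.le_card (H : Subgroup S) (p : ℕ → Bool) (hp : ∀ i < 512, p i = true → s i ∈ H) : cnt p ≤ Nat.card H := by
  have := h.fin
  have := Nat.card_le_card_of_injective (fun x : ((Finset.range 512).filter fun i => p i = true) =>
    (⟨s x, hp _ (Finset.mem_range.1 (Finset.mem_filter.1 x.2).1) (Finset.mem_filter.1 x.2).2⟩ : H))
    fun x y e => Subtype.ext (h.hi _ (Finset.mem_range.1 (Finset.mem_filter.1 x.2).1) _
      (Finset.mem_range.1 (Finset.mem_filter.1 y.2).1) (congrArg Subtype.val e))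
  rwa [Nat.card_eq_finsetCard] at this

theorem Md.card : Nat.card S = 512 := by
  have a := h.card_le id Function.injective_id (fun _ => true) fun _ _ _ _ => rfl
  have b := h.le_card ⊤ (fun _ => true) fun _ _ _ => trivial
  rw [Subgroup.card_top] at b
  rw [c10] at a b
  omega

theorem Md.index {M : Subgroup S} (hM : IsCoatom M) : M.index = 2 := by
  have := h.fin
  have hp : IsPGroup 2 S := IsPGroup.of_card (n := 9) (by rw [h.card]; norm_num)
  obtain ⟨n, hn⟩ := IsPGroup.iff_card.1 (hp.to_subgroup M)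
  have h1 := M.card_mul_index
  obtain ⟨k, hk⟩ := IsPGroup.index hp M
  have k0 : k ≠ 0 := by rintro rfl; exact hM.1 (Subgroup.index_eq_one.1 hk)
  obtain ⟨K, hK, hle⟩ := Sylow.exists_subgroup_card_pow_succ (p := 2) (n := n) (G := S)
    (by rw [← h1, hn, hk, ← pow_add]; exact pow_dvd_pow _ (by omega)) hn
  have : K = ⊤ := hM.2 K (lt_of_le_of_ne hle (by rintro rfl; rw [hn] at hK; simp at hK))
  rw [this, Subgroup.card_top, ← h1, hn, pow_succ] at hK
  exact Nat.eq_of_mul_eq_mul_left (by positivity) hK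

theorem Md.one {M : Subgroup S} (hM : IsCoatom M) : Nat.card (Subgroup.center M) ≤ 8 := by
  classical
  have h2 := h.index hM
  obtain ⟨χ, hχ⟩ : ∃ χ, χ = chi (decide (s 1 ∉ M)) (decide (s 2 ∉ M)) (decide (s 4 ∉ M)) (decide (s 8 ∉ M)) := ⟨_, rfl⟩
  have g : ∀ k < 4, (s (2 ^ k) ∈ M ↔ χ (2 ^ k) = true) := by
    intro k hk
    have t : ∀ a b c d, chi a b c d 1 = !a ∧ chi a b c d 2 = !b ∧ chi a b c d 4 = !c ∧ chi a b c d 8 = !d := by
      decide +kernel
    interval_cases k <;> simp [hχ, t]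
  have key : ∀ i < 1024, (s (Nat.land i 511) ∈ M ↔ χ i = true) := by
    refine ind ?_ fun i hi k hk ih => ?_
    · rw [show Nat.land 0 511 = 0 from rfl, h.s0, hχ]; simp [chi, M.one_mem]
    · have p2 : ∀ k < 4, 2 ^ k < 512 := by decide
      rw [← (c3 i hi k hk).1, ← h.hm (Nat.land i 511) (Nat.lt_succ_of_le Nat.and_le_right) _ (p2 k hk),
        Subgroup.mul_mem_iff_of_index_two h2, ih, g k hk, hχ, (c3 i hi k hk).2]
      simp only [beq_iff_eq]
      exact Bool.eq_iff_iff.symm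
  have key' : ∀ i < 512, (s i ∈ M ↔ χ i = true) := fun i hi => by
    rw [← key i (by omega), (c2 i (by omega)).2.2.2 hi]
  refine (h.card_le (fun x : Subgroup.center M => ((x : M) : S))
    (Subtype.val_injective.comp Subtype.val_injective) _ fun x i hi e => ?_).trans
    (c4 (decide (s 1 ∉ M)) (decide (s 2 ∉ M)) (decide (s 4 ∉ M)) (decide (s 8 ∉ M)))
  rw [← hχ, Bool.and_eq_true, allLt_iff]
  refine ⟨(key' i hi).1 (e ▸ x.1.2), fun j hj => ?_⟩
  cases hc : χ j
  · rfl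
  · have := congrArg Subtype.val (Subgroup.mem_center_iff.1 x.2 ⟨s j, (key' j hj).2 hc⟩)
    simp only [Bool.not_true, Bool.false_or]
    rw [h.cm_iff hi hj, e]
    exact this.symm

def Md.E : Subgroup S where
  carrier := {x | ∃ i < 512, pi i = 0 ∧ s i = x}
  mul_mem' := by
    rintro _ _ ⟨i, a, a', rfl⟩ ⟨j, b, b', rfl⟩
    exact ⟨_, m_lt i j, ((c5 i a a').2 j b b').1, (h.hm i a j b).symm⟩
  one_mem' := ⟨0, by norm_num, rfl, h.s0⟩
  inv_mem' := by
    rintro _ ⟨i, a, a', rfl⟩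
    exact ⟨i, a, a', eq_inv_of_mul_eq_one_left (by rw [h.hm i a i a, (c5 i a a').1, h.s0])⟩

theorem Md.memE {i : ℕ} (a : i < 512) : s i ∈ h.E ↔ pi i = 0 :=
  ⟨fun ⟨j, b, b', e⟩ => h.hi j b i a e ▸ b', fun b => ⟨i, a, b, rfl⟩⟩

theorem Md.commE {x y : S} (a : x ∈ h.E) (b : y ∈ h.E) : x * y = y * x := by
  obtain ⟨i, a, a', rfl⟩ := a
  obtain ⟨j, b, b', rfl⟩ := b
  exact (h.cm_iff a b).1 ((c5 i a a').2 j b b').2

theorem Md.cardE : Nat.card h.E = 64 := by
  have a := h.card_le (fun x : h.E => (x : S)) Subtype.val_injective (fun e => Nat.beq (pi e) 0)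
    fun x i hi e => by rw [Nat.beq_eq, ← h.memE hi, e]; exact x.2
  have b := h.le_card h.E (fun e => Nat.beq (pi e) 0) fun i hi e => (h.memE hi).2 (by rwa [Nat.beq_eq] at e)
  rw [c9] at a b
  omega

theorem Md.dec {i : ℕ} (a : i < 512) : ∃ x ∈ h.E, s i = s (pi i) * x :=
  ⟨_, (h.memE (m_lt _ _)).2 (c6 i a).1, by
    rw [h.hm _ ((pi_lt i).trans (by norm_num)) _ (m_lt _ _), (c6 i a).2.1]⟩

theorem Md.three {A : Subgroup S} (hA : IsMulCommutative A) (hc : Nat.card A = 64) : A = h.E := by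
  classical
  have := h.fin
  refine Subgroup.eq_of_le_of_card_ge (fun x hx => ?_) (by rw [hc, h.cardE])
  by_contra hn
  obtain ⟨i, hi, rfl⟩ := h.hs x
  rw [h.memE hi] at hn
  have ca : ∀ {x y : S}, x ∈ A → y ∈ A → x * y = y * x := fun {x y} a b =>
    congrArg Subtype.val (hA.is_comm.comm (⟨x, a⟩ : A) ⟨y, b⟩)
  obtain ⟨I, hI⟩ : ∃ I, I = (Finset.range 512).filter fun i => decide (s i ∈ A) = true := ⟨_, rfl⟩
  have mI : ∀ j, j ∈ I ↔ j < 512 ∧ s j ∈ A := fun j => by simp [hI]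
  have h64 : 64 ≤ I.card := by
    rw [← hc, hI]
    exact h.card_le (fun x : A => (x : S)) Subtype.val_injective _ fun x i _ e => by simp [e]
  have cr : ∀ j ∈ I, ∀ e < 512, pi e = 0 → s e ∈ A → cm (pi j) e = true := fun j hj e he e0 eA => by
    obtain ⟨a, b⟩ := (mI j).1 hj
    obtain ⟨y, hy, ey⟩ := h.dec a
    rw [h.cm_iff ((pi_lt j).trans (by norm_num)) he]
    have h1 := ca b eA
    rw [ey, mul_assoc, h.commE hy ((h.memE he).2 e0), ← mul_assoc, ← mul_assoc] at h1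
    exact mul_right_cancel h1
  have fib : ∀ q : ℕ → Bool, (∀ e < 512, pi e = 0 → s e ∈ A → q e = true) →
      I.card ≤ cnt (fun e => Nat.beq (pi e) 0 && q e) * (I.image pi).card := fun q hq => by
    refine Finset.card_le_mul_card_image I _ fun c hc => ?_
    obtain ⟨w, hw, rfl⟩ := Finset.mem_image.1 hc
    obtain ⟨a, b⟩ := (mI w).1 hw
    rw [← Nat.card_eq_finsetCard]
    refine h.card_le (fun z : (I.filter fun x => pi x = pi w) => (s w)⁻¹ * s z) (fun z z' e => ?_) _ fun z e he ee => ?_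
    · exact Subtype.ext (h.hi _ ((mI _).1 (Finset.mem_filter.1 z.2).1).1 _ ((mI _).1 (Finset.mem_filter.1 z'.2).1).1
        (mul_left_cancel e))
    · obtain ⟨z1, z2⟩ := Finset.mem_filter.1 z.2
      obtain ⟨a', b'⟩ := (mI _).1 z1
      obtain ⟨y, hy, ey⟩ := h.dec a
      obtain ⟨y', hy', ey'⟩ := h.dec a'
      have e0 : pi e = 0 := by
        rw [← h.memE he, ee, ey, ey', z2, mul_inv_rev, mul_assoc, inv_mul_cancel_left]
        exact h.E.mul_mem (h.E.inv_mem hy) hy'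
      rw [Bool.and_eq_true, Nat.beq_eq]
      exact ⟨e0, hq e he e0 (ee ▸ A.mul_mem (A.inv_mem b) b')⟩
  have iI : i ∈ I := (mI i).2 ⟨hi, hx⟩
  obtain ⟨k1, k2⟩ := c7 (pi i) (pi_lt i) (c6 i hi).2.2.1 hn
  by_cases hj : ∃ j ∈ I, pi j ≠ 0 ∧ pi j ≠ pi i
  · obtain ⟨j, jI, j1, j2⟩ := hj
    have k3 := k2 (pi j) (pi_lt j) (c6 j ((mI j).1 jI).1).2.2.1 j1 j2
    have f := fib (fun e => cm (pi i) e && cm (pi j) e) fun e he e0 eA => by
      rw [cr i iI e he e0 eA, cr j jI e he e0 eA]; rfl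
    have sub : I.image pi ⊆ {0, 2, 4, 6, 32, 34, 36, 38} := fun c hc => by
      obtain ⟨w, hw, rfl⟩ := Finset.mem_image.1 hc
      exact (c6 w ((mI w).1 hw).1).2.2.2
    have ne : I.image pi ≠ {0, 2, 4, 6, 32, 34, 36, 38} := fun e => by
      obtain ⟨u, hu, u2⟩ := Finset.mem_image.1 (show 2 ∈ I.image pi by rw [e]; decide)
      obtain ⟨v, hv, v4⟩ := Finset.mem_image.1 (show 4 ∈ I.image pi by rw [e]; decide)
      obtain ⟨a, b⟩ := (mI u).1 hu
      obtain ⟨a', b'⟩ := (mI v).1 hv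
      have := (h.cm_iff a a').2 (ca b b')
      rw [c8 u a u2 v a' v4] at this
      exact absurd this (by decide)
    have lt := Finset.card_lt_card (Finset.ssubset_iff_subset_ne.2 ⟨sub, ne⟩)
    rw [show ({0, 2, 4, 6, 32, 34, 36, 38} : Finset ℕ).card = 8 by decide] at lt
    have := Nat.mul_le_mul k3 (Nat.le_of_lt_succ lt)
    omega
  · have f := fib (fun e => cm (pi i) e) (cr i iI)
    have sub : I.image pi ⊆ {0, pi i} := fun c hc => by
      obtain ⟨w, hw, rfl⟩ := Finset.mem_image.1 hc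
      by_contra hh
      simp only [Finset.mem_insert, Finset.mem_singleton, not_or] at hh
      exact hj ⟨w, hw, hh⟩
    have := Nat.mul_le_mul k1 ((Finset.card_le_card sub).trans Finset.card_le_two)
    omega
end


/-- Let P be a Sylow 2-subgroup of the Mathieu group of degree 24 and S the quotient of P by its centre. Then the centre of every maximal subgroup of S has order at most 8; S has an elementary abelian subgroup of order 64; and S has only one abelian subgroup of order 64. -/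
theorem result (P : Sylow 2 ↥Cfsg.M24) :
    (∀ M : Subgroup (↥(P : Subgroup ↥Cfsg.M24) ⧸ Subgroup.center ↥(P : Subgroup ↥Cfsg.M24)), IsCoatom M →
        Nat.card ↥(Subgroup.center ↥M) ≤ 8) ∧
      (∃ A : Subgroup (↥(P : Subgroup ↥Cfsg.M24) ⧸ Subgroup.center ↥(P : Subgroup ↥Cfsg.M24)),
        Cfsg.IsElementaryAbelian 2 A ∧ Nat.card ↥A = 64) ∧
      ∀ A B : Subgroup (↥(P : Subgroup ↥Cfsg.M24) ⧸ Subgroup.center ↥(P : Subgroup ↥Cfsg.M24)),
        IsMulCommutative ↥A → Nat.card ↥A = 64 → IsMulCommutative ↥B → Nat.card ↥B = 64 → A = B := by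
  obtain ⟨s, h⟩ := md P
  refine ⟨fun M hM => h.one hM, ⟨h.E, ⟨⟨⟨fun x y => Subtype.ext (h.commE x.2 y.2)⟩⟩, ?_⟩, h.cardE⟩,
    fun A B a a' b b' => (h.three a a').trans (h.three b b').symm⟩
  rintro _ ⟨i, a, a', rfl⟩
  rw [pow_two, h.hm i a i a, (c5 i a a').1, h.s0]

end Cfsg.Agent.S3171
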