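import Cfsg.Statements.S3178
import Cfsg.Agent.H1.WR

set_option autoImplicit false
open Cfsg

namespace Cfsg.Agent.S3178

open H1

/-- Groups with a modular Sylow 2-subgroup have a normal 2-complement. Let S, of order 2^(n+1) with n ≥ 3, be a Sylow 2-subgroup of a finite group G, and suppose S contains an element a of order 2^n and an involution b with b a b⁻¹ = a^(2^(n-1) + 1); so S is the non-abelian 2-group with a cyclic subgroup of index 2 that is neither dihedral, semidihedral nor generalized quaternion. Then G has a normal 2-complement. -/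
theorem result {G : Type*} [Group G] [Finite G]
    (S : Sylow 2 G) (n : ℕ) (hn : 3 ≤ n) (hS : Nat.card ↥(S : Subgroup G) = 2 ^ (n + 1))
    (a b : G) (ha : a ∈ (S : Subgroup G)) (hb : b ∈ (S : Subgroup G))
    (hao : orderOf a = 2 ^ n) (hbo : orderOf b = 2) (hrel : b * a * b⁻¹ = a ^ (2 ^ (n - 1) + 1)) :
    Cfsg.HasNormalPComplement 2 G := by
  open Subgroup in
  obtain ⟨m, rfl⟩ : ∃ m, n = m + 3 := ⟨n - 3, by omega⟩
  have hrel' : b * a * b⁻¹ = a ^ ((2 ^ (m + 2) + 1 : ℕ) : ℤ) := by rw [zpow_natCast]; exact hrel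
  have oz : orderOf (a ^ 2 ^ (m + 2)) = 2 := L.orderOf_pow_two_pow hao
  have hnc : ¬ Commute b a := fun e => two_ne oz (by
    have := hrel
    rw [e.eq, mul_inv_cancel_right, pow_succ] at this
    simpa using this.symm)
  have hba : b ∉ zpowers a := fun e => hnc (L.commute_of_mem_zpowers e)
  have hi : (zpowers a).relIndex S = 2 := by
    have := card_mul_relIndex (zpowers_le.2 ha)
    rw [hS, Nat.card_zpowers, hao, pow_succ 2 (m + 3)] at this
    exact Nat.eq_of_mul_eq_mul_left (by positivity) this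
  have hsup := L.sup_zpowers_eq_of_relIndex_prime (by rw [hi]; exact Nat.prime_two)
    (zpowers_le.2 ha) hb hba
  have hb2 : b ^ 2 = 1 := by rw [sq, two_sq hbo]
  obtain ⟨h1, -⟩ := L.omegaOne_modular (p := 2) hao hba hb2 (Or.inr ⟨by omega, fun _ => by omega,
    by rw [add_comm]; exact hrel⟩)
  rw [hsup] at h1
  have hc : Commute b (a ^ 2) := by
    rw [← zpow_ofNat, L.commute_zpow_iff_dvd hao hrel']
    exact ⟨1, by push_cast; ring⟩
  have hZ : (S : Subgroup G) ≤ centralizer (zpowers (a ^ 2) : Set G) := by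
    rw [centralizer_zpowers, ← hsup]
    exact sup_le (zpowers_le.2 (mem_centralizer_singleton_iff.2 (Commute.self_pow a 2)))
      (zpowers_le.2 (mem_centralizer_singleton_iff.2 hc))
  have hzZ : ∀ k, a ^ 2 ^ (k + 1) ∈ zpowers (a ^ 2) := fun k => by
    rw [pow_succ' 2, pow_mul]; exact pow_mem (mem_zpowers _) _
  have hbz : Commute (a ^ 2 ^ (m + 2)) b := hZ hb _ (hzZ _)
  have inv : ∀ s ∈ (S : Subgroup G), orderOf s = 2 → s ≠ a ^ 2 ^ (m + 2) →
      s = b ∨ s = a ^ 2 ^ (m + 2) * b := fun s hs os e =>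
    (((mem_sup_two oz hbo hbz).1 (h1.le (subset_closure ⟨hs, by
      rw [sq, two_sq os]⟩))).resolve_left (two_ne os)).resolve_left e
  have inv' : ∀ s ∈ (S : Subgroup G), ∀ v ∈ (S : Subgroup G), orderOf s = 2 → orderOf v = 2 →
      s ≠ a ^ 2 ^ (m + 2) → v ≠ a ^ 2 ^ (m + 2) → s = v ∨ s = v * a ^ 2 ^ (m + 2) := by
    intro s hs v hv os ov s0 v0
    rcases inv s hs os s0 with rfl | rfl <;> rcases inv v hv ov v0 with rfl | rfl
    · exact Or.inl rfl
    · right; rw [hbz.eq, mul_assoc, two_sq oz, mul_one]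
    · exact Or.inr hbz.eq
    · exact Or.inl rfl
  have hsq : ∀ s ∈ (S : Subgroup G), s ^ 2 ∈ zpowers (a ^ 2) := fun s hs => by
    have key : ∀ i : ℤ, (a ^ i) ^ 2 ∈ zpowers (a ^ 2) := fun i => ⟨i, by
      simp only []; rw [← zpow_natCast, ← zpow_natCast, ← zpow_mul, ← zpow_mul, mul_comm]⟩
    by_cases e : s ∈ zpowers a
    · obtain ⟨i, rfl⟩ := mem_zpowers_iff.1 e
      exact key i
    · obtain ⟨i, hi⟩ := mem_zpowers_iff.1 (L.mul_mem_of_relIndex_two hi hs hb e hba)
      rw [show s = a ^ i * b by rw [hi, mul_assoc, two_sq hbo, mul_one],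
        show (a ^ i * b) ^ 2 = a ^ i * (b * a ^ i * b⁻¹) * b ^ 2 by rw [sq, sq]; group, hb2, mul_one,
        L.conj_zpow_of hrel', ← zpow_add]
      exact ⟨(2 ^ (m + 1) + 1) * i, by
        simp only []; rw [← zpow_natCast, ← zpow_mul]; congr 1; push_cast; ring⟩
  have hbA : b ∉ zpowers (a ^ 2) := fun e => hba (zpowers_pow_le a 2 e)
  have hAS : zpowers (a ^ 2) ⊔ zpowers b ≤ S :=
    sup_le ((zpowers_pow_le a 2).trans (zpowers_le.2 ha)) (zpowers_le.2 hb)
  have hA : (zpowers (a ^ 2) ⊔ zpowers b).relIndex S = 2 := by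
    have := card_mul_relIndex hAS
    rw [card_sup_zpowers (centralizer_le_normalizer _ (hZ hb)) (hsq b hb) hbA, Nat.card_zpowers,
      orderOf_pow_of_dvd two_ne_zero (by rw [hao]; exact dvd_pow_self 2 (by omega)), hao, hS,
      pow_succ 2 (m + 2), Nat.mul_div_cancel _ two_pos, pow_succ 2 (m + 3), pow_succ 2 (m + 2)] at this
    exact Nat.eq_of_mul_eq_mul_left (by positivity) this
  have hAc : IsMulCommutative (zpowers (a ^ 2) ⊔ zpowers b : Subgroup G) :=
    isMulCommutative_of_le_sup_zpowers inferInstance (hZ hb) le_rfl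
  refine (H2.hasNormalPComplement_iff_inf S).2 (eq_bot_iff.2 (hyperfocal_centric S
    le_normalizer_of_normal fun R hR hc ⟨g, hg, ho, hn⟩ => absurd ?_ hn))
  have hZR : zpowers (a ^ 2) ≤ R := fun u hu =>
    hc ⟨hAS (mem_sup_left hu), fun s hs => (hZ (hR hs) u hu).symm⟩
  have gz : g * a ^ 2 ^ (m + 2) * g⁻¹ = a ^ 2 ^ (m + 2) := by
    refine two_eq_of_mem_zpowers ?_ (hzZ _) (by rw [orderOf_conj, oz]) oz
    rw [pow_succ 2 (m + 1), pow_mul, ← conj_pow]
    exact hsq _ (hR (conj_mem_of_mem_normalizer hg (hZR (hzZ m))))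
  have pR := S.isPGroup'.to_le hR
  by_cases hbR : b ∈ R
  · have hAR : zpowers (a ^ 2) ⊔ zpowers b ≤ R := sup_le hZR (zpowers_le.2 hbR)
    have gb := conj_mem_of_mem_normalizer hg hbR
    have gb' : g * b * g⁻¹ = b ∨ g * b * g⁻¹ = a ^ 2 ^ (m + 2) * b := inv _ (hR gb)
      (by rwa [orderOf_conj]) fun e => hbA (by
        rw [← gz] at e; rw [show b = a ^ 2 ^ (m + 2) by simpa using e]; exact hzZ _)
    have hCb : ∀ u ∈ (S : Subgroup G), Commute u b → u ∈ zpowers (a ^ 2) ⊔ zpowers b :=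
      fun u hu h2 => by_contra fun e => by
        by_cases e' : a ∈ zpowers (a ^ 2) ⊔ zpowers b
        · exact hnc (comm_of_mem hAc (mem_sup_right (mem_zpowers b)) e')
        have h3 : Commute (a * u) b := comm_of_mem hAc (L.mul_mem_of_relIndex_two hA ha hu e' e)
          (mem_sup_right (mem_zpowers b))
        exact hnc (by simpa using (h3.mul_left h2.inv_left).symm)
    have gA : g⁻¹ ∈ normalizer ((zpowers (a ^ 2) ⊔ zpowers b : Subgroup G) : Set G) :=
      mem_normalizer_iff_conj_mem.2 fun u hu => hCb _ (hR (conj_mem_of_mem_normalizer (inv_mem hg)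
        (hAR hu))) (by
        have h4 : Commute u (g * b * g⁻¹) := by
          refine comm_of_mem hAc hu ?_
          rcases gb' with e | e <;> rw [e]
          exacts [mem_sup_right (mem_zpowers b),
            mul_mem (mem_sup_left (hzZ _)) (mem_sup_right (mem_zpowers b))]
        simpa [mul_assoc] using h4.map (MulAut.conj g⁻¹))
    rw [inv_mem_iff] at gA
    refine cent_of_section (pR.to_le hAR) ho (cent_of_fix (pR.to_le hAR) hAc gA ho oz gz
      fun s hs v hv => inv' s (hAS hs) v (hAS hv)) hg fun u hu => ?_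
    have h2 := conj_mem_of_mem_normalizer hg hu
    by_cases e : u ∈ zpowers (a ^ 2) ⊔ zpowers b
    · exact mul_mem (conj_mem_of_mem_normalizer gA e) (inv_mem e)
    · refine L.mul_mem_of_relIndex_two hA (hR h2) (inv_mem (hR hu)) (fun e' => e ?_)
        (by simpa using e)
      simpa [mul_assoc] using conj_mem_of_mem_normalizer' gA e'
  · refine cent_of_fix pR (isMulCommutative_of_comm fun u hu v hv => ?_) hg ho oz gz
      fun s hs v hv => inv' s (hR hs) v (hR hv)
    have h2 : ∀ u ∈ R, u ∈ zpowers (a ^ 2) ⊔ zpowers b → u ∈ zpowers (a ^ 2) := fun u hu e =>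
      ((mem_sup_zpowers_of_sq (centralizer_le_normalizer _ (hZ hb)) (hsq b hb)).1 e).resolve_right
        fun e => hbR (by simpa using mul_mem (inv_mem (hZR e)) hu)
    by_cases e : u ∈ zpowers (a ^ 2) ⊔ zpowers b
    · exact hZ (hR hv) u (h2 u hu e)
    by_cases e' : v ∈ zpowers (a ^ 2) ⊔ zpowers b
    · exact (hZ (hR hu) v (h2 v hv e')).symm
    have := hZ (hR hv) _ (h2 _ (mul_mem hu hv) (L.mul_mem_of_relIndex_two hA (hR hu) (hR hv) e e'))
    rw [← mul_assoc] at this
    exact mul_right_cancel this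

end Cfsg.Agent.S3178
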