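import Cfsg.Statements.S3183
import Cfsg.Agent.H9.Syl
import Cfsg.Agent.H1.SylowIn

set_option autoImplicit false
open Cfsg

namespace Cfsg.Agent.S3183

open H9 Subgroup

/-- Let G be a finite group in which the intersection of any two distinct Sylow 2-subgroups is contained in the centre of some Sylow 2-subgroup, and let S be a Sylow 2-subgroup. Then for every x in S the centralizer of x in S is a Sylow 2-subgroup of the centralizer of x in G (no 2-subgroup centralizing x is larger), and for every other Sylow 2-subgroup T the intersection S ∩ T lies in both the centre of S and the centre of T. -/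
theorem result {G : Type*} [Group G] [Finite G]
    (hCI : ∀ S T : Sylow 2 G, S ≠ T → ∃ U : Sylow 2 G,
      (S : Subgroup G) ⊓ (T : Subgroup G) ≤ (Subgroup.center ↥(U : Subgroup G)).map (U : Subgroup G).subtype)
    (S : Sylow 2 G) :
    (∀ x ∈ (S : Subgroup G), ∀ P : Subgroup G, IsPGroup 2 ↥P → P ≤ Subgroup.centralizer ({x} : Set G) →
        Nat.card ↥P ≤ Nat.card ↥((S : Subgroup G) ⊓ Subgroup.centralizer ({x} : Set G))) ∧
    (∀ T : Sylow 2 G, T ≠ S →
        (S : Subgroup G) ⊓ (T : Subgroup G) ≤
          (Subgroup.center ↥(S : Subgroup G)).map (S : Subgroup G).subtype ⊓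
            (Subgroup.center ↥(T : Subgroup G)).map (T : Subgroup G).subtype) := by
  simp only [map_center_subtype] at hCI ⊢
  have key : ∀ S T : Sylow 2 G, S ≠ T → ∀ x ∈ (S : Subgroup G) ⊓ T, (S : Subgroup G) ≤ centralizer {x} := by
    intro S T hST x hx
    obtain ⟨U, hU⟩ := hCI S T hST
    have hUx : (U : Subgroup G) ≤ centralizer {x} := le_centralizer_singleton_iff.2 (hU hx).2
    obtain ⟨c, hc, hle⟩ := ((syl_top_of_sylow U).mono hUx le_top).exists_le_cj
      (S.isPGroup'.to_inf_left (K := centralizer {x})) inf_le_right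
    obtain ⟨U', hU'⟩ := ((syl_top_of_sylow U).cj_of_mem (le_normalizer (mem_top c))).exists_sylow_top
    have h1 : (U' : Subgroup G) ≤ centralizer {x} := by
      rw [hU', ← cj_eq_of_mem hc]; exact cj_mono c hUx
    by_cases h : S = U'
    · rwa [h]
    obtain ⟨V, hV⟩ := hCI S U' h
    have hR := (le_inf inf_le_left (hle.trans hU'.ge)).trans hV
    by_contra hn
    have hlt := H1.lt_normalizer_inf_of_isPGroup S.isPGroup'
      (lt_of_le_of_ne (inf_le_left (b := centralizer {x})) fun h => hn (h.ge.trans inf_le_right))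
    have hVC := le_centralizer_iff.1 (hR.trans inf_le_right)
    obtain ⟨n, hn', hle'⟩ := ((syl_top_of_sylow V).mono (hVC.trans (centralizer_le_normalizer' _)) le_top).exists_le_cj
      (S.isPGroup'.to_inf_right (H := normalizer (((S : Subgroup G) ⊓ centralizer {x} : Subgroup G) : Set G))) inf_le_left
    refine hlt.not_ge (le_inf inf_le_right (hle'.trans ((cj_mono n hVC).trans ?_)))
    rw [cj_centralizer, mem_normalizer_iff_cj.1 hn']
    exact centralizer_le (Set.singleton_subset_iff.2 ⟨hx.1, mem_centralizer_singleton_iff.2 rfl⟩)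
  refine ⟨fun x hx P hP hPx => ?_, fun T hT x hx => ⟨⟨hx.1, le_centralizer_singleton_iff.1 (key S T hT.symm x hx)⟩,
    hx.2, le_centralizer_singleton_iff.1 (key T S hT x ⟨hx.2, hx.1⟩)⟩⟩
  have hx' : IsPGroup 2 (zpowers x) := S.isPGroup'.to_le (zpowers_le.2 hx)
  obtain ⟨T, hT⟩ := (hP.to_sup_of_normal_right' hx'
    ((le_centralizer_iff.1 (zpowers_le_centralizer_iff.2 hPx)).trans (centralizer_le_normalizer' _))).exists_le_sylow
  by_cases h : S = T
  · subst h
    exact card_le_of_le (le_inf (le_sup_left.trans hT) hPx)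
  · rw [inf_eq_left.2 (key S T h x ⟨hx, hT (mem_sup_right (mem_zpowers x))⟩)]
    exact (syl_top_of_sylow S).card_le hP le_top

end Cfsg.Agent.S3183
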