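import Cfsg.Statements.S3184
import Cfsg.Agent.H4.Inv2

set_option autoImplicit false
open Cfsg

namespace Cfsg.Agent.S3184

open H4 H1 MonoidAlgebra
open scoped Pointwise


/-- Let G be a finite group in which the intersection of any two distinct Sylow 2-subgroups is contained in the centre of some Sylow 2-subgroup, and let S be a Sylow 2-subgroup. If C is a nontrivial cyclic characteristic subgroup of S, then the involution of C is central modulo the largest normal subgroup of odd order of G: each of its conjugates has the same image in G/O(G). -/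
theorem result {G : Type*} [Group G] [Finite G]
    (hCI : ∀ S T : Sylow 2 G, S ≠ T → ∃ U : Sylow 2 G,
      (S : Subgroup G) ⊓ (T : Subgroup G) ≤ (Subgroup.center ↥(U : Subgroup G)).map (U : Subgroup G).subtype)
    (S : Sylow 2 G) (C : Subgroup ↥(S : Subgroup G)) (hC : C ≠ ⊥) (hCc : IsCyclic ↥C) (hCh : C.Characteristic)
    (c : ↥(S : Subgroup G)) (hc : c ∈ C) (hc2 : orderOf c = 2) :
    ∀ g : G, (QuotientGroup.mk (s := Cfsg.oddCore G) (g * (c : G) * g⁻¹)) =
      QuotientGroup.mk (s := Cfsg.oddCore G) (c : G) := by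
  have h0 : ∀ n ∈ NS (S : Subgroup G), n * c * n⁻¹ = c := fun n hn => by
    have := two_eq_of_cyclic hCc ((hCh.fixed (Subgroup.normalizerMonoidHom _ ⟨n, hn⟩)).ge hc) hc
      (by rw [MulEquiv.toMonoidHom_eq_coe, MonoidHom.coe_coe, MulEquiv.orderOf_eq, hc2]) hc2
    exact congrArg Subtype.val this
  have hS := isSylowIn_top S
  have h1 : ∀ x y : G, MulAut.conj x • (S : Subgroup G) = MulAut.conj y • (S : Subgroup G) →
      x * c * x⁻¹ = y * c * y⁻¹ := fun x y h => by
    have := h0 (y⁻¹ * x) (H2.cj_eq_iff.1 (by rw [H2.cj_mul, ← H2.smul_eq_cj x, h, H2.smul_eq_cj, H2.cj_inv_cj]))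
    conv_rhs => rw [← this]
    group
  have h3 : ∀ g : G, MulAut.conj g • (S : Subgroup G) ≤ C1 (g * c * g⁻¹) := fun g => by
    rw [C1_conj, Subgroup.pointwise_smul_le_pointwise_smul_iff]
    exact fun s hs => mem_centralizer_singleton.2 (mul_inv_eq_iff_eq_mul.1 (h0 s (Subgroup.le_normalizer hs))).symm
  have h2 : ∀ (g : G) (U : Subgroup G), IsSylowIn 2 U ⊤ → U ≤ C1 (g * c * g⁻¹) → ∃ x,
      MulAut.conj x • (S : Subgroup G) = U ∧ x * c * x⁻¹ = g * c * g⁻¹ := fun g U hU h => by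
    obtain ⟨w, hw, h4⟩ := ((hS.smul (mem_NS_of_normal ⊤ g)).of_le (h3 g) le_top).conj (hU.of_le h le_top)
    refine ⟨w * g, by rw [map_mul, mul_smul, h4], ?_⟩
    rw [show w * g * c * (w * g)⁻¹ = w * (g * c * g⁻¹) * w⁻¹ by group, ← (mem_centralizer_singleton.1 hw).eq,
      mul_inv_cancel_right]
  have hc' : orderOf (c : G) = 2 := by rwa [Subgroup.orderOf_coe]
  have h : II (c : G) := II.of_sylow hS hc' fun g hg => by
    obtain ⟨T, hT, h4⟩ := exists_isSylowIn_ge (isPGroup_zpowers Nat.prime_two ⟨1, hc'⟩)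
      (Subgroup.zpowers_le.2 (mem_centralizer_singleton.2
        (mul_inv_eq_iff_eq_mul.1 (h0 _ (Subgroup.le_normalizer hg))) : (c : G) ∈ C1 (g * c * g⁻¹)))
    have hT' := hT.trans le_top ((hS.smul (mem_NS_of_normal ⊤ g)).not_dvd_relIndex_of_le (h3 g))
    obtain ⟨x, h5, h6⟩ := h2 g T hT' hT.le
    obtain ⟨T, rfl⟩ := hT'.exists_sylow_top
    by_cases h7 : S = T
    · rw [← h6, h1 x 1 (by rw [h5, h7]; simp)]; simp
    obtain ⟨U, hU⟩ := hCI S T h7
    have h8 : ∀ y ∈ (S : Subgroup G), y ∈ (T : Subgroup G) → (U : Subgroup G) ≤ C1 y := fun y h h' u hu => by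
      obtain ⟨w, hw, rfl⟩ := hU ⟨h, h'⟩
      exact mem_centralizer_singleton.2 (congrArg Subtype.val (Subgroup.mem_center_iff.1 hw ⟨u, hu⟩)).symm
    obtain ⟨y, e1, e2⟩ := h2 g U (isSylowIn_top U) (h8 _ hg (h6 ▸ conj_mem_of_le h5.le c.2))
    obtain ⟨w, e3, e4⟩ := h2 1 U (isSylowIn_top U) (by simpa using h8 _ c.2 (h4 (Subgroup.mem_zpowers _)))
    rw [← e2, h1 y w (e1.trans e3.symm), e4]; simp
  intro g
  rw [QuotientGroup.mk_mul, QuotientGroup.mk_mul, Subgroup.mem_center_iff.1 h.mk_mem_center, QuotientGroup.mk_inv,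
    mul_inv_cancel_right]

end Cfsg.Agent.S3184
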