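import Cfsg.Statements.S3190
import Cfsg.Agent.H1.SD

set_option autoImplicit false
open Cfsg

namespace Cfsg.Agent.S3190

open H1

/-- Let p be an odd prime and, inside a finite group, let P be a p-subgroup normalized by a Klein four-group T. Let R be a subgroup of P, normal in P and normalized by T, such that P is the product of R with the centralizer of T in P. If T centralizes the centre of P, then T centralizes the centre of R. -/
theorem result {X : Type*} [Group X] [Finite X]
    {p : ℕ} (hp : p.Prime) (hodd : Odd p) (P T R : Subgroup X) (hP : IsPGroup p ↥P) (hT : IsKleinFour ↥T)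
    (hTP : T ≤ Subgroup.normalizer (P : Set X)) (hRP : R ≤ P) (hRn : (R.subgroupOf P).Normal)
    (hTR : T ≤ Subgroup.normalizer (R : Set X)) (hfac : R ⊔ (P ⊓ Subgroup.centralizer (T : Set X)) = P)
    (hZ : T ≤ Subgroup.centralizer (((Subgroup.center ↥P).map P.subtype : Subgroup X) : Set X)) :
    T ≤ Subgroup.centralizer (((Subgroup.center ↥R).map R.subtype : Subgroup X) : Set X) := by
  have : Fact p.Prime := ⟨hp⟩
  rw [map_center_eq] at hZ ⊢
  have hc : (Nat.card T).Coprime (Nat.card (R ⊓ Subgroup.centralizer (R : Set X) : Subgroup X)) := by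
    rw [hT.card_four]
    exact (isPGroup_coprime (hP.to_le (inf_le_left.trans hRP)) (Nat.Coprime.pow_left 2
      (Nat.coprime_two_left.2 hodd))).symm
  have h1 : T ≤ Subgroup.normalizer ((R ⊓ Subgroup.centralizer (R : Set X) : Subgroup X) : Set X) :=
    H2.le_normalizer_inf hTR (hTR.trans (H2.normalizer_le_normalizer_centralizer R))
  have h2 := abelian_centralizer_inf_commutator (isMulCommutative_of_comm
    (K := R ⊓ Subgroup.centralizer (R : Set X))
    fun a ha b hb => (Subgroup.mem_inf.1 hb).2 a (Subgroup.mem_inf.1 ha).1) h1 hc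
  have h3 := commutator_le_of_le_normalizer h1
  have hPR : P ≤ Subgroup.normalizer (R : Set X) := Subgroup.le_normalizer_of_normal_subgroupOf hRP
  rw [Subgroup.le_centralizer_iff, ← Subgroup.commutator_eq_bot_iff_le_centralizer]
  by_contra h0
  refine inf_centralizer_ne_bot_of_isPGroup (hP.to_le (h3.trans (inf_le_left.trans hRP))) hP ?_ h0
    (eq_bot_iff.2 (h2 ▸ fun u hu => ⟨⟨h3 hu.1, Subgroup.le_centralizer_iff.1 hZ
      ⟨hRP (h3 hu.1).1, hu.2⟩⟩, hu.1⟩))
  rw [← hfac]
  refine sup_le (le_normalizer_of_le_centralizer (Subgroup.le_centralizer_iff.1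
    (h3.trans inf_le_right))) (le_normalizer_commutator ?_ ?_)
  · exact inf_le_left.trans (H2.le_normalizer_inf hPR
      (hPR.trans (H2.normalizer_le_normalizer_centralizer R)))
  · exact inf_le_right.trans (Subgroup.centralizer_le_normalizer _)

end Cfsg.Agent.S3190
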