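import Cfsg.Statements.S3195
import Cfsg.Agent.H1.CS

set_option autoImplicit false
open Cfsg

namespace Cfsg.Agent.S3195

open H1
open Subgroup

theorem star {G : Type*} [Group G] [Finite G] {A : Subgroup G}
    (k1 : ∀ a ∈ A, a * a = 1) (k2 : ∀ a ∈ A, ∀ b ∈ A, Commute a b)
    (k3 : ∀ x ∈ A, ∀ y ∈ A, ∀ z ∈ A, x ≠ 1 → y ≠ 1 → x ≠ y → z ≠ 1 → z ≠ x → z ≠ y → z = x * y)
    (h : ∀ a ∈ A, a ≠ 1 → ∀ g : G, ∃ u ∈ A, u ≠ 1 ∧ Commute u (g * a * g⁻¹))
    {a : G} (ha : a ∈ A) (a1 : a ≠ 1) (hO : a ∉ pCore 2 G) :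
    ∃ e ∈ A, e ≠ 1 ∧ e ≠ a ∧ (∃ t, Commute e t ∧ ¬ Commute a (t * a * t⁻¹)) ∧
      ∀ g : G, (∃ v ∈ A, a = g * v * g⁻¹) → ∀ u ∈ A, Commute e (g * u * g⁻¹) := by
  obtain ⟨x, x1, ⟨m, hm⟩, hx⟩ := exists_inverted_of_notMem (k1 a ha) hO
  have ai : a⁻¹ = a := inv_eq_of_mul_eq_one_right (k1 a ha)
  have hxm : ∀ k, a * x ^ k * a⁻¹ = (x ^ k)⁻¹ := fun k => by rw [← conj_pow, hx, inv_pow]
  have h2 : x ^ m * x ^ m * x = 1 := by
    rw [← pow_add, ← pow_succ, ← two_mul, ← hm, pow_orderOf_eq_one]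
  have hw : x ^ m * a * (x ^ m)⁻¹ = a * x := by
    have : x ^ m * a = a * (x ^ m)⁻¹ := by rw [← hxm m, ai, ← mul_assoc, ← mul_assoc, k1 a ha, one_mul]
    rw [this, mul_assoc, ← mul_inv_rev, ← eq_inv_of_mul_eq_one_right h2]
  have n4 : x ^ 4 ≠ 1 := fun e => x1 (by
    have := orderOf_dvd_of_pow_eq_one e
    have h3 : (orderOf x).Coprime 4 := by
      rw [show 4 = 2 ^ 2 by norm_num]; exact Nat.Coprime.pow_right _ (Nat.coprime_two_right.2 ⟨m, hm⟩)
    exact orderOf_eq_one_iff.1 (Nat.Coprime.eq_one_of_dvd h3 this))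
  have nc : ¬ Commute a (a * x) := fun e => n4 (by
    have e1 : a * x = x * a := mul_left_cancel (a := a) (by rw [e.eq, mul_assoc])
    rw [e1, mul_inv_cancel_right] at hx
    rw [show x ^ 4 = (x * x) * (x * x) by simp only [pow_succ, pow_zero, one_mul, mul_assoc]]
    nth_rewrite 1 [hx]
    nth_rewrite 4 [hx]
    group)
  obtain ⟨e, he, e1, hc⟩ := h a ha a1 (x ^ m)
  rw [hw] at hc
  have ea : e ≠ a := fun h => nc (h ▸ hc)
  have ex : Commute e x := by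
    have := (k2 e he a ha).inv_right.mul_right hc
    rwa [inv_mul_cancel_left] at this
  refine ⟨e, he, e1, ea, ⟨x ^ m, ex.pow_right m, by rwa [hw]⟩, ?_⟩
  rintro g ⟨v, hv, hav⟩ u hu
  set k := x ^ m * g with hk
  have hw' : a * x = k * v * k⁻¹ := by rw [← hw, hk]; nth_rewrite 1 [hav]; group
  suffices H : Commute e (k * u * k⁻¹) by
    have := ((ex.pow_right m).inv_right.mul_right H).mul_right (ex.pow_right m)
    rwa [hk, show (x ^ m)⁻¹ * (x ^ m * g * u * (x ^ m * g)⁻¹) * x ^ m = g * u * g⁻¹ by group] at this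
  have tr : ∀ y z : G, Commute y (k⁻¹ * z * k⁻¹⁻¹) → Commute z (k * y * k⁻¹) := fun y z h => by
    have := h.symm.map (MulAut.conj k)
    simpa [mul_assoc] using this
  have cm : ∀ y ∈ A, ∀ z ∈ A, Commute (k * y * k⁻¹) (k * z * k⁻¹) := fun y hy z hz => by
    simpa using (k2 y hy z hz).map (MulAut.conj k)
  have c1 : a * e ≠ 1 := fun h => ea (by rw [eq_inv_of_mul_eq_one_right h, ai])
  obtain ⟨p, hp, p1, hpa⟩ := h a ha a1 k⁻¹
  obtain ⟨q, hq, q1, hqc⟩ := h (a * e) (A.mul_mem ha he) c1 k⁻¹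
  replace hpa := tr _ _ hpa
  replace hqc := tr _ _ hqc
  have v1 : v ≠ 1 := fun h => a1 (by rw [hav, h]; group)
  have pv : p ≠ v := fun h => nc (by rwa [hw', ← h])
  have qv : q ≠ v := fun h => nc (by
    rw [h, ← hw'] at hqc
    have := hqc.mul_left hc.inv_left
    rwa [mul_inv_cancel_right] at this)
  by_cases hpq : p = q
  · subst hpq
    have h3 : Commute e (k * p * k⁻¹) := by
      have := hpa.inv_left.mul_left hqc
      rwa [inv_mul_cancel_left] at this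
    rw [hw'] at hc
    by_cases u1 : u = 1
    · rw [u1]; simp
    by_cases up : u = p
    · rwa [up]
    by_cases uv : u = v
    · rwa [uv]
    rw [k3 p hp v hv u hu p1 v1 pv u1 up uv,
      show k * (p * v) * k⁻¹ = (k * p * k⁻¹) * (k * v * k⁻¹) by group]
    exact h3.mul_right hc
  · exfalso
    have h3 : Commute (a * (a * x) * a⁻¹) (k * p * k⁻¹) :=
      (hpa.mul_left (by rw [hw']; exact cm v hv p hp)).mul_left hpa.inv_left
    have h4 : Commute (a * e * (a * x) * (a * e)⁻¹) (k * q * k⁻¹) :=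
      (hqc.mul_left (by rw [hw']; exact cm v hv q hq)).mul_left hqc.inv_left
    rw [mul_assoc a e, hc.eq, show a * (a * x * e) * (a * e)⁻¹ = a * (a * x) * a⁻¹ by group] at h4
    have h5 := h3.mul_right h4
    rw [show k * p * k⁻¹ * (k * q * k⁻¹) = k * (p * q) * k⁻¹ by group,
      ← k3 p hp q hq v hv p1 q1 hpq v1 pv.symm qv.symm, ← hw', ← mul_assoc, k1 a ha, one_mul,
      ai] at h5
    have h6 := h5.eq
    rw [show x * a * (a * x) = x * (a * a) * x by group, k1 a ha,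
      show a * x * (x * a) = a * x ^ 2 * a by rw [sq]; group] at h6
    nth_rewrite 2 [← ai] at h6
    rw [hxm] at h6
    exact n4 (by rw [show x ^ 4 = x ^ 2 * (x * 1 * x) by
      simp only [pow_succ, pow_zero, one_mul, mul_assoc], h6, mul_inv_cancel])

/-- Let A be a Klein four-subgroup of a finite group G. If every G-conjugate of every involution of A commutes with some involution of A (its centralizer meets A nontrivially), then A meets the largest normal 2-subgroup O₂(G) nontrivially. -/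
theorem result {G : Type*} [Group G] [Finite G]
    (A : Subgroup G) (hA : IsKleinFour ↥A)
    (h : ∀ a ∈ A, a ≠ 1 → ∀ g : G, A ⊓ Subgroup.centralizer ({g * a * g⁻¹} : Set G) ≠ ⊥) :
    A ⊓ Cfsg.pCore 2 G ≠ ⊥ := by
  intro h0
  have k1 : ∀ a ∈ A, a * a = 1 := fun a ha =>
    congrArg Subtype.val (IsKleinFour.mul_self (⟨a, ha⟩ : A))
  have k2 : ∀ a ∈ A, ∀ b ∈ A, Commute a b := fun a ha b hb =>
    congrArg Subtype.val (mul_comm_of_exponent_two hA.exponent_two (⟨a, ha⟩ : A) ⟨b, hb⟩)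
  have k3 : ∀ x ∈ A, ∀ y ∈ A, ∀ z ∈ A, x ≠ 1 → y ≠ 1 → x ≠ y → z ≠ 1 → z ≠ x → z ≠ y →
      z = x * y := fun x hx y hy z hz a b c d e f => by
    classical
    exact congrArg Subtype.val (IsKleinFour.eq_mul_of_ne_all (x := (⟨x, hx⟩ : A)) (y := ⟨y, hy⟩)
      (z := ⟨z, hz⟩) (by simpa) (by simpa) (by simpa) (by simpa) (by simpa) (by simpa))
  have h' : ∀ a ∈ A, a ≠ 1 → ∀ g : G, ∃ u ∈ A, u ≠ 1 ∧ Commute u (g * a * g⁻¹) := fun a ha a1 g => by
    obtain ⟨⟨u, hu⟩, u1⟩ := ne_bot_iff_exists_ne_one.1 (h a ha a1 g)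
    exact ⟨u, hu.1, by simpa using u1, mem_centralizer_singleton_iff.1 hu.2⟩
  have hO : ∀ a ∈ A, a ≠ 1 → a ∉ pCore 2 G := fun a ha a1 h => a1 (by
    rw [← mem_bot, ← h0]; exact ⟨ha, h⟩)
  obtain ⟨⟨a, ha⟩, a1⟩ := ne_bot_iff_exists_ne_one.1 (show A ≠ ⊥ from fun e => by
    have := hA.card_four
    rw [e, card_bot] at this; omega)
  replace a1 : a ≠ 1 := by simpa using a1
  obtain ⟨e, he, e1, ea, ⟨t, ht, nc⟩, -⟩ := star k1 k2 k3 h' ha a1 (hO a ha a1)
  obtain ⟨f, hf, f1, fe, -, H⟩ := star k1 k2 k3 h' he e1 (hO e he e1)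
  have h1 := H t ⟨e, he, by rw [← ht.eq, mul_inv_cancel_right]⟩ a ha
  by_cases fa : f = a
  · exact nc (fa ▸ h1)
  rw [k3 a ha e he f hf a1 e1 ea.symm f1 fa fe] at h1
  have h2 : Commute e (t * a * t⁻¹) := (ht.mul_right (k2 e he a ha)).mul_right ht.inv_right
  have := h1.mul_left h2.inv_left
  rw [mul_inv_cancel_right] at this
  exact nc this

end Cfsg.Agent.S3195
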