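import Cfsg.Statements.S3196
import Cfsg.Agent.L.PG1
import Cfsg.Agent.H1.Generation

set_option autoImplicit false
open Cfsg

namespace Cfsg.Agent.S3196

open H1
open Subgroup

section
variable {G : Type*} [Group G] [Finite G] {p : ℕ} [hp : Fact p.Prime] {D : Set G}

theorem symm_zp {x y : G} (hx : orderOf x = p) (hy : y ≠ 1) (h : y ∈ zpowers x) : x ∈ zpowers y := by
  have h1 : zpowers y ≤ zpowers x := zpowers_le_of_mem h
  have h2 : Nat.card (zpowers y) ∣ p := by rw [← hx, ← Nat.card_zpowers]; exact card_dvd_of_le h1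
  rcases (Nat.dvd_prime hp.out).1 h2 with e | e
  · exact absurd (by rwa [Nat.card_zpowers, orderOf_eq_one_iff] at e) hy
  · rw [eq_of_le_of_card_ge h1 (by rw [e, Nat.card_zpowers, hx])]; exact mem_zpowers x

omit [Finite G] hp in
theorem mem_line {x y v : G} (h : Commute x y) (hv : v ∈ zpowers x ⊔ zpowers y) :
    ∃ i j : ℤ, v = x ^ i * y ^ j := by
  let S : Subgroup G :=
    { carrier := {v | ∃ i j : ℤ, v = x ^ i * y ^ j}
      one_mem' := ⟨0, 0, by simp⟩
      mul_mem' := by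
        rintro _ _ ⟨i, j, rfl⟩ ⟨k, l, rfl⟩
        refine ⟨i + k, j + l, ?_⟩
        rw [zpow_add, zpow_add, (h.zpow_zpow k j).mul_mul_mul_comm]
      inv_mem' := by
        rintro _ ⟨i, j, rfl⟩
        exact ⟨-i, -j, by rw [mul_inv_rev, ← zpow_neg, ← zpow_neg, (h.zpow_zpow _ _).eq]⟩ }
  have : zpowers x ⊔ zpowers y ≤ S := sup_le (zpowers_le_of_mem ⟨1, 0, by simp⟩)
    (zpowers_le_of_mem ⟨0, 1, by simp⟩)
  exact this hv

theorem exch {x y v : G} (hy : orderOf y = p) (h : Commute x y) (hv : v ∈ zpowers x ⊔ zpowers y)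
    (hn : v ∉ zpowers x) : y ∈ zpowers x ⊔ zpowers v := by
  obtain ⟨i, j, rfl⟩ := mem_line h hv
  have h1 : y ^ j ≠ 1 := fun e => hn (by rw [e, mul_one]; exact zpow_mem (mem_zpowers x) i)
  refine zpowers_le_of_mem ?_ (symm_zp hy h1 (zpow_mem (mem_zpowers y) j))
  have := mul_mem (inv_mem (mem_sup_left (T := zpowers (x ^ i * y ^ j)) (zpow_mem (mem_zpowers x) i)))
    (mem_sup_right (S := zpowers x) (mem_zpowers (x ^ i * y ^ j)))
  rwa [inv_mul_cancel_left] at this

omit [Finite G] hp in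
theorem cl {x y v w : G} (hv : v ∈ zpowers x ⊔ zpowers y) (h1 : Commute w x) (h2 : Commute w y) :
    Commute w v := by
  have : zpowers x ⊔ zpowers y ≤ centralizer {w} := sup_le
    (zpowers_le_of_mem (mem_centralizer_singleton_iff.2 h1.symm))
    (zpowers_le_of_mem (mem_centralizer_singleton_iff.2 h2.symm))
  exact (show Commute v w from mem_centralizer_singleton_iff.1 (this hv)).symm

omit [Finite G] hp in
theorem cz {x v w : G} (hv : v ∈ zpowers x) (h1 : Commute w x) : Commute w v :=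
  cl (mem_sup_left hv) h1 h1

theorem lemA (o : ∀ x ∈ D, orderOf x = p)
    (l1 : ∀ x ∈ D, ∀ y ∈ D, Commute x y → y ∉ zpowers x → ∀ w ∈ D,
      ∃ v ∈ D, v ∈ zpowers x ⊔ zpowers y ∧ Commute w v)
    (nr : ∀ v ∈ D, ∃ w ∈ D, ¬ Commute w v) {w b : G} (hw : w ∈ D) (hb : b ∈ D)
    (h1 : b ∉ zpowers w) (h2 : ∀ z ∈ D, Commute z w → Commute z b) : False := by
  have n1 : ∀ x ∈ D, x ≠ 1 := fun x hx e => hp.out.one_lt.ne (by rw [← o x hx, e, orderOf_one])
  have wb := h2 w hw (Commute.refl w)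
  obtain ⟨z, hz, zb⟩ := nr b hb
  obtain ⟨c, hc, c1, zc⟩ := l1 w hw b hb wb h1 z hz
  have h3 : ∀ u ∈ D, Commute u w → Commute u c := fun u hu h => cl c1 h (h2 u hu h)
  obtain ⟨u, hu, uc⟩ := nr c hc
  have bc : Commute b c := cl c1 wb.symm (Commute.refl b)
  obtain ⟨t, ht, t1, ut⟩ := l1 c hc z hz zc.symm (fun h => zb (cz h bc).symm) u hu
  have tc : t ∉ zpowers c := fun h => uc (cz (symm_zp (o c hc) (n1 t ht) h) ut)
  have ct : Commute c t := cl t1 (Commute.refl c) zc.symm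
  have wt : ¬ Commute w t := fun h =>
    zb (h2 z hz (cl (exch (o z hz) zc.symm t1 tc) (h3 w hw (Commute.refl w)) h).symm)
  obtain ⟨v, hv, v1, wv⟩ := l1 t ht u hu ut.symm (fun h => uc (cz h ct).symm) w hw
  have vt : v ∉ zpowers t := fun h => wt (cz (symm_zp (o t ht) (n1 v hv) h) wv)
  exact uc (cl (exch (o u hu) ut.symm v1 vt) ct (h3 v hv wv.symm).symm).symm

theorem main (o : ∀ x ∈ D, orderOf x = p) (cj : ∀ x ∈ D, ∀ g, g * x * g⁻¹ ∈ D)
    (l0 : ∀ x ∈ D, ∀ y ∈ D, Commute x y → y ∉ zpowers x → x * y ∈ D)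
    (l1 : ∀ x ∈ D, ∀ y ∈ D, Commute x y → y ∉ zpowers x → ∀ w ∈ D,
      ∃ v ∈ D, v ∈ zpowers x ⊔ zpowers y ∧ Commute w v)
    {a y : G} (ha : a ∈ D) (hy : y ∈ D) (ay : Commute a y) (ya : y ∉ zpowers a) :
    ∃ v ∈ D, ∀ w ∈ D, Commute w v := by
  by_contra! nr
  have n1 : ∀ x ∈ D, x ≠ 1 := fun x hx e => hp.out.one_lt.ne (by rw [← o x hx, e, orderOf_one])
  obtain ⟨w, hw, wa⟩ := nr a ha
  obtain ⟨b, hb, b1, wb⟩ := l1 a ha y hy ay ya w hw
  have ba : b ∉ zpowers a := fun h => wa (cz (symm_zp (o a ha) (n1 b hb) h) wb)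
  have ab : Commute a b := cl b1 (Commute.refl a) ay
  have hc := l0 a ha b hb ab ba
  have e : a * b * w * (a * b)⁻¹ = a * w * a⁻¹ := by rw [mul_assoc a, ← wb.eq]; group
  have ww : a * w * a⁻¹ ∉ zpowers w := fun h => by
    have h1 : zpowers a ≤ normalizer (zpowers w : Set G) := zpowers_le_of_mem
      (mem_normalizer_fintype (by rintro _ ⟨k, rfl⟩; simpa [conj_zpow] using zpow_mem h k))
    have pa : ∀ x ∈ D, IsPGroup p (zpowers x) := fun x hx =>
      IsPGroup.of_card (n := 1) (by rw [Nat.card_zpowers, o x hx, pow_one])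
    have := L.le_centralizer_of_card_prime ((pa w hw).to_sup_of_normal_left' (pa a ha) h1)
      le_sup_left (sup_le le_normalizer h1) (by rw [Nat.card_zpowers, o w hw]; exact hp.out)
    exact wa (show Commute a w from this (mem_zpowers w) a (mem_sup_right (mem_zpowers a))).symm
  obtain ⟨z, hz, zw, zb⟩ : ∃ z ∈ D, Commute z w ∧ ¬ Commute z b := by
    by_contra! h
    exact lemA o l1 nr hw hb (fun h => wa (cz (symm_zp (o w hw) (n1 b hb) h) ab).symm) h
  have zw' : z ∉ zpowers w := fun h => zb (cz h wb.symm).symm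
  obtain ⟨s, hs, s1, as⟩ := l1 w hw z hz zw.symm zw' a ha
  obtain ⟨t, ht, t1, ct⟩ := l1 w hw z hz zw.symm zw' _ hc
  have sw : s ∉ zpowers w := fun h => wa (cz (symm_zp (o w hw) (n1 s hs) h) as).symm
  have ws : Commute w s := cl s1 (Commute.refl w) zw.symm
  have wt : Commute w t := cl t1 (Commute.refl w) zw.symm
  have zs := exch (o z hz) zw.symm s1 sw
  have ts : t ∉ zpowers s := fun h => by
    have h1 := as.inv_left.mul_left (cz (symm_zp (o s hs) (n1 t ht) h) ct)
    rw [inv_mul_cancel_left] at h1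
    exact zb (cl zs wb.symm h1).symm
  have h1 : Commute (a * w * a⁻¹) s := (as.mul_left ws).mul_left as.inv_left
  have h2 : Commute (a * w * a⁻¹) t := e ▸ (ct.mul_left wt).mul_left ct.inv_left
  have t2 : t ∈ zpowers s ⊔ zpowers w := by
    rw [sup_comm]; exact sup_le le_sup_left (zpowers_le_of_mem zs) t1
  have h3 := cl (exch (o w hw) ws.symm t2 ts) h1 h2
  obtain ⟨v, hv, v1, av⟩ := l1 w hw _ (cj w hw a) h3.symm ww a ha
  have wv : Commute w v := cl v1 (Commute.refl w) h3.symm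
  refine lemA o l1 nr ha hv (fun h => wa (cz (symm_zp (o a ha) (n1 v hv) h) wv)) fun x hx xa => ?_
  by_cases h : x ∈ zpowers a
  · exact (cz h av.symm).symm
  obtain ⟨r, hr, r1, wr⟩ := l1 a ha x hx xa.symm h w hw
  have ar : Commute a r := cl r1 (Commute.refl a) xa.symm
  have ra : r ∉ zpowers a := fun h => wa (cz (symm_zp (o a ha) (n1 r hr) h) wr)
  have rv : Commute r v := cl v1 wr.symm ((ar.mul_left wr).mul_left ar.inv_left).symm
  exact (cl (exch (o x hx) xa.symm r1 ra) av.symm rv.symm).symm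

end

/-- Let p be a prime and K a set of subgroups of order p of a finite group G, closed under conjugation, such that at least two distinct members of K commute elementwise, and whenever two distinct members X, Y of K commute: every subgroup of order p of the group XY they generate belongs to K, and every member W of K has centralizer meeting XY nontrivially. Then some member V of K commutes elementwise with every member of K and lies in O_p(G); in particular G is not simple. -/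
theorem result {G : Type*} [Group G] [Finite G]
    {p : ℕ} (hp : p.Prime) (K : Set (Subgroup G)) (hK : ∀ X ∈ K, Nat.card ↥X = p)
    (hKc : ∀ X ∈ K, ∀ g : G, X.map (MulAut.conj g).toMonoidHom ∈ K)
    (hex : ∃ X ∈ K, ∃ Y ∈ K, X ≠ Y ∧ ∀ x ∈ X, ∀ y ∈ Y, x * y = y * x)
    (ha : ∀ X ∈ K, ∀ Y ∈ K, X ≠ Y → (∀ x ∈ X, ∀ y ∈ Y, x * y = y * x) →
      ∀ Z : Subgroup G, Z ≤ X ⊔ Y → Nat.card ↥Z = p → Z ∈ K)
    (hb : ∀ X ∈ K, ∀ Y ∈ K, X ≠ Y → (∀ x ∈ X, ∀ y ∈ Y, x * y = y * x) →
      ∀ W ∈ K, (X ⊔ Y) ⊓ Subgroup.centralizer (W : Set G) ≠ ⊥) :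
    (∃ V ∈ K, (∀ W ∈ K, ∀ v ∈ V, ∀ w ∈ W, v * w = w * v) ∧ V ≤ Cfsg.pCore p G) ∧ ¬ IsSimpleGroup G := by
  haveI : Fact p.Prime := ⟨hp⟩
  let D : Set G := {g | zpowers g ∈ K}
  have o : ∀ x ∈ D, orderOf x = p := fun x hx => by rw [← Nat.card_zpowers, hK _ hx]
  have gen : ∀ X ∈ K, ∃ x ∈ D, zpowers x = X := fun X hX => by
    obtain ⟨x, -, hx⟩ := exists_eq_zpowers_of_isCyclic (isCyclic_of_prime_card (hK X hX))
    exact ⟨x, show zpowers x ∈ K by rw [hx]; exact hX, hx⟩
  have cm : ∀ x y : G, Commute x y → ∀ a ∈ zpowers x, ∀ b ∈ zpowers y, a * b = b * a :=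
    fun x y h a ha b hb => cz hb (cz ha h.symm).symm
  have ne : ∀ x y : G, y ∉ zpowers x → zpowers x ≠ zpowers y := fun x y h e =>
    h (e ▸ mem_zpowers y)
  have l0 : ∀ x ∈ D, ∀ y ∈ D, Commute x y → y ∉ zpowers x → ∀ v ∈ zpowers x ⊔ zpowers y,
      v ≠ 1 → v ∈ D := fun x hx y hy h h1 v hv v1 => by
    refine ha _ hx _ hy (ne x y h1) (cm x y h) _ (zpowers_le_of_mem hv) ?_
    obtain ⟨i, j, rfl⟩ := mem_line h hv
    rw [Nat.card_zpowers]
    refine orderOf_eq_prime ?_ v1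
    rw [(h.zpow_zpow i j).mul_pow, ← zpow_natCast, ← zpow_natCast, ← zpow_mul, ← zpow_mul,
      mul_comm i, mul_comm j, zpow_mul, zpow_mul, zpow_natCast, zpow_natCast]
    rw [show x ^ p = 1 by rw [← o x hx, pow_orderOf_eq_one],
      show y ^ p = 1 by rw [← o y hy, pow_orderOf_eq_one]]; simp
  have cj : ∀ x ∈ D, ∀ g, g * x * g⁻¹ ∈ D := fun x hx g => by
    have := hKc _ hx g
    rwa [MonoidHom.map_zpowers] at this
  obtain ⟨X, hX, Y, hY, hne, hXY⟩ := hex
  obtain ⟨x, hx, rfl⟩ := gen X hX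
  obtain ⟨y, hy, rfl⟩ := gen Y hY
  have yx : y ∉ zpowers x := fun h => hne (eq_of_le_of_card_ge (zpowers_le_of_mem h)
    (by rw [hK _ hX, hK _ hY])).symm
  obtain ⟨v, hv, H⟩ := main o cj (fun x hx y hy h h1 => l0 x hx y hy h h1 _
    (mul_mem_sup (mem_zpowers x) (mem_zpowers y)) fun e => h1 (by
      rw [eq_inv_of_mul_eq_one_right e]; exact inv_mem (mem_zpowers x)))
    (fun x hx y hy h h1 w hw => by
      obtain ⟨⟨v, hv⟩, v1⟩ := ne_bot_iff_exists_ne_one.1 (hb _ hx _ hy (ne x y h1) (cm x y h) _ hw)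
      exact ⟨v, l0 x hx y hy h h1 v hv.1 (by simpa using v1), hv.1, hv.2 w (mem_zpowers w)⟩)
    hx hy (hXY x (mem_zpowers x) y (mem_zpowers y)) yx
  have hO : zpowers v ≤ pCore p G := by
    refine (zpowers_le_of_mem (subset_normalClosure (Set.mem_singleton v))).trans (le_pCore ?_)
    have hc : ∀ a ∈ Group.conjugatesOfSet ({v} : Set G), ∀ b ∈ Group.conjugatesOfSet ({v} : Set G),
        Commute a b := by
      intro a ha b hb
      obtain ⟨_, rfl, h1⟩ := Group.mem_conjugatesOfSet_iff.1 ha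
      obtain ⟨_, rfl, h2⟩ := Group.mem_conjugatesOfSet_iff.1 hb
      obtain ⟨g, rfl⟩ := isConj_iff.1 h1
      obtain ⟨k, rfl⟩ := isConj_iff.1 h2
      have := (H _ (cj _ (cj _ hv g) k⁻¹)).map (MulAut.conj k)
      simpa [mul_assoc] using this
    rintro ⟨a, ha⟩
    refine ⟨1, Subtype.ext ?_⟩
    rw [pow_one]
    change a ^ p = 1
    induction ha using closure_induction with
    | mem a ha =>
      obtain ⟨_, rfl, h1⟩ := Group.mem_conjugatesOfSet_iff.1 ha
      obtain ⟨g, rfl⟩ := isConj_iff.1 h1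
      rw [← o _ (cj _ hv g), pow_orderOf_eq_one]
    | one => simp
    | mul a b ha hb h1 h2 =>
      have : Commute a b := closure_induction₂ (p := fun a b _ _ => Commute a b)
        (fun a b ha hb => hc a ha b hb)
        (by simp) (by simp) (fun _ _ _ _ _ _ => Commute.mul_left)
        (fun _ _ _ _ _ _ => Commute.mul_right) (fun _ _ _ _ => Commute.inv_left)
        (fun _ _ _ _ => Commute.inv_right) ha hb
      rw [this.mul_pow, h1, h2, one_mul]
    | inv a _ h => rw [inv_pow, h, inv_one]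
  refine ⟨⟨_, hv, fun W hW => ?_, hO⟩, fun hs => ?_⟩
  · obtain ⟨w, hw, rfl⟩ := gen W hW
    exact cm v w (H w hw).symm
  · have h1 : pCore p G = ⊤ := (hs.eq_bot_or_eq_top_of_normal _ inferInstance).resolve_left fun e => by
      have := hK _ hv
      rw [eq_bot_iff.2 (hO.trans e.le), card_bot] at this
      exact hp.one_lt.ne this
    have h3 : center G = ⊤ := (hs.eq_bot_or_eq_top_of_normal _ inferInstance).resolve_left
      (((center G).nontrivial_iff_ne_bot).1 (pCore_eq_top_iff.1 h1).center_nontrivial)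
    have h2 : ∀ z ∈ D, zpowers z = ⊤ := fun z hz =>
      (hs.eq_bot_or_eq_top_of_normal _ ⟨fun n hn g => by
        rwa [mem_center_iff.1 (h3.ge (mem_top n)) g, mul_inv_cancel_right]⟩).resolve_left fun e => by
        have := hK _ hz
        rw [e, card_bot] at this
        exact hp.one_lt.ne this
    exact hne ((h2 x hx).trans (h2 y hy).symm)

end Cfsg.Agent.S3196
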