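import Cfsg.Statements.S3200
import Cfsg.Agent.H1.CS
import Cfsg.Agent.H1.Hall
import Cfsg.Agent.H1.Simp
import Cfsg.Agent.H3.Galois

set_option autoImplicit false
open Cfsg

namespace Cfsg.Agent.S3200

open H1
open Subgroup Pointwise

theorem pow_of {n : ℕ} (h0 : n ≠ 0) (h : IsPiNum ({2}ᶜ)ᶜ n) : ∃ k, n = 2 ^ k :=
  ⟨_, Nat.eq_prime_pow_of_unique_prime_dvd h0 fun hq hd => by simpa using h _ hq hd⟩

theorem compl {G : Type*} [Group G] [Finite G] {D : Subgroup G} (hD : IsPiHall {2}ᶜ D) :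
    ∃ P : Sylow 2 G, IsComplement' (P : Subgroup G) D := by
  haveI : Fact (Nat.Prime 2) := ⟨Nat.prime_two⟩
  obtain ⟨P⟩ : Nonempty (Sylow 2 G) := inferInstance
  obtain ⟨h1, h2⟩ := isPiHall_iff.1 hD
  have h3 : ¬ 2 ∣ Nat.card D := fun h => h1 2 Nat.prime_two h rfl
  have h4 := isPGroup_coprime' P.isPGroup' h3
  refine ⟨P, isComplement'_of_coprime (Nat.dvd_antisymm
    (h4.mul_dvd_of_dvd_of_dvd (card_subgroup_dvd_card _) (card_subgroup_dvd_card _)) ?_) h4⟩
  obtain ⟨k, hk⟩ := pow_of index_ne_zero_of_finite h2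
  rw [← D.index_mul_card, hk, P.card_eq_multiplicity]
  exact Nat.mul_dvd_mul_right (pow_dvd_pow _ ((Nat.prime_two.pow_dvd_iff_le_factorization
    Nat.card_pos.ne').1 (hk ▸ D.index_dvd_card))) _

theorem quot {G : Type*} [Group G] (N : Subgroup G) [N.Normal] {C : Subgroup G}
    (h : IsMulCommutative C ∧ IsPiHall {2}ᶜ C) :
    ∃ D : Subgroup (G ⧸ N), IsMulCommutative D ∧ IsPiHall {2}ᶜ D := by
  have := piHallOf_map (QuotientGroup.mk' N) (isPiHallOf_top.2 h.2)
  rw [map_top_of_surjective _ (QuotientGroup.mk'_surjective N)] at this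
  exact ⟨_, by haveI := h.1; infer_instance, isPiHallOf_top.1 this⟩

/-- Let H be a finite group in which a Sylow 2-subgroup has an abelian complement (an abelian subgroup meeting it trivially whose product with it is all of H). Then H is solvable, and every subgroup and every quotient group of H again has a Sylow 2-subgroup with an abelian complement. -/
theorem result {H : Type*} [Group H] [Finite H]
    (S : Sylow 2 H) (C : Subgroup H) (hC : IsMulCommutative ↥C) (hSC : Subgroup.IsComplement' (S : Subgroup H) C) :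
    Group.IsSolvable H ∧
    (∀ L : Subgroup H, ∃ (P : Sylow 2 ↥L) (D : Subgroup ↥L), IsMulCommutative ↥D ∧ Subgroup.IsComplement' (P : Subgroup ↥L) D) ∧
    (∀ (N : Subgroup H) [N.Normal], ∃ (P : Sylow 2 (H ⧸ N)) (D : Subgroup (H ⧸ N)),
      IsMulCommutative ↥D ∧ Subgroup.IsComplement' (P : Subgroup (H ⧸ N)) D) := by
  haveI : Fact (Nat.Prime 2) := ⟨Nat.prime_two⟩
  have hH : IsPiHall {2}ᶜ C := isPiHall_iff.2 ⟨fun q hq hd e => by
      rw [← hSC.symm.index_eq_card, show q = 2 from e] at hd; exact S.not_dvd_index hd, by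
    rw [hSC.index_eq_card, compl_compl]; exact isPGroup_iff_isPiNum.1 S.isPGroup'⟩
  have hs : Group.IsSolvable H := by
    refine solvable_of_simple (P := fun G _ _ => ∃ C : Subgroup G, IsMulCommutative C ∧ IsPiHall {2}ᶜ C)
      ?_ (fun G _ _ N _ ⟨C, h⟩ => quot N h) ?_ H ⟨C, hC, hH⟩
    · rintro G _ _ N _ ⟨C, h1, h2⟩
      exact ⟨(C ⊓ N).subgroupOf N, by rw [inf_subgroupOf_right]; infer_instance,
        (isPiHallOf_iff.1 (piHallOf_inf_normal (isPiHallOf_top.2 h2) le_top le_normalizer_of_normal)).2⟩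
    · rintro G _ _ _ ⟨C, h1, h2⟩
      obtain ⟨k, hk⟩ := pow_of index_ne_zero_of_finite (isPiHall_iff.1 h2).2
      by_cases h0 : C = ⊥
      · rw [h0, index_bot] at hk
        exact isSolvable_of_isPGroup (IsPGroup.of_card hk)
      obtain ⟨⟨g, hg⟩, g1⟩ := ne_bot_iff_exists_ne_one.1 h0
      have : C ≤ centralizer {g} := fun x hx => mem_centralizer_singleton_iff.2
        (congrArg Subtype.val (h1.is_comm.comm ⟨x, hx⟩ ⟨g, hg⟩))
      obtain ⟨j, -, hj⟩ := (Nat.dvd_prime_pow Nat.prime_two).1 (hk ▸ index_dvd_of_le this)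
      haveI := Fact.mk (H3.burnside_prime_power_class Nat.prime_two (by simpa using g1) hj)
      exact isSolvable_of_isPGroup (IsPGroup.of_card (pow_one _).symm)
  refine ⟨hs, fun L => ?_, fun N _ => ?_⟩
  · obtain ⟨D, hD⟩ := exists_piHall (G := L) (π := {2}ᶜ)
    obtain ⟨P, hP⟩ := compl hD
    refine ⟨P, D, ?_, hP⟩
    obtain ⟨g, hg⟩ := piHall_exists_conj_le hH (K := D.map L.subtype) (by
      rw [card_map_of_injective L.subtype_injective]; exact (isPiHall_iff.1 hD).1)
    refine isMulCommutative_of_comm fun x hx y hy => Subtype.ext ((MulAut.conj g).injective ?_)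
    have := hC.is_comm.comm ⟨_, hg (smul_mem_pointwise_smul _ _ _ (mem_map_of_mem _ hx))⟩
      ⟨_, hg (smul_mem_pointwise_smul _ _ _ (mem_map_of_mem _ hy))⟩
    simpa [mul_assoc] using congrArg Subtype.val this
  · obtain ⟨D, h1, h2⟩ := quot N ⟨hC, hH⟩
    obtain ⟨P, hP⟩ := compl h2
    exact ⟨P, D, h1, hP⟩

end Cfsg.Agent.S3200
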