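import Cfsg.Statements.S3202
import Cfsg.Agent.L.PG4
import Cfsg.Agent.S0016
import Cfsg.Agent.H1.Misc3

set_option autoImplicit false
open Cfsg

namespace Cfsg.Agent.S3202

open Subgroup
open scoped commutatorElement

theorem lift {S : Type*} [Group S] [Finite S] (hS : IsPGroup 2 S) (D : Subgroup S) [D.Normal]
    (h1 : ¬ IsMulCommutative (S ⧸ D)) (h2 : ∃! x : S ⧸ D, orderOf x = 2) : ∃ (n : ℕ) (a b : S), 1 ≤ n ∧
      orderOf (a : S ⧸ D) = 2 ^ (n + 1) ∧ Nat.card (S ⧸ D) = 2 ^ (n + 2) ∧ (b : S ⧸ D) ^ 2 = a ^ 2 ^ n ∧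
      (b : S ⧸ D) * a * (b : S ⧸ D)⁻¹ = (a : S ⧸ D)⁻¹ ∧ ∀ K : Subgroup S, a ∈ K → b ∈ K → D ≤ K → K = ⊤ := by
  obtain ⟨z, hz, hu⟩ := h2
  have nc : ¬ IsCyclic (S ⧸ D) := fun h => h1 h.commutative
  obtain ⟨-, n, ⟨e⟩⟩ := (S0016.result 2 (hS.to_quotient D) fun H K hH hK => by
    have e : ∀ L : Subgroup (S ⧸ D), Nat.card L = 2 → L = zpowers z := fun L hL => by
      obtain ⟨x, hx, ox⟩ := H1.exists_mem_orderOf_eq_prime (H := L) Nat.prime_two hL.symm.dvd
      exact (eq_of_le_of_card_ge (zpowers_le.2 (hu x ox ▸ hx)) (by rw [Nat.card_zpowers, hz, hL])).symm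
    rw [e H hH, e K hK]).resolve_left nc
  rcases n with _ | n
  · have := QuaternionGroup.quaternionGroup_one_isCyclic
    exact absurd (isCyclic_of_surjective e.symm e.symm.surjective) nc
  obtain ⟨m, a, b, a1, -, a2, a3, a4, a5, a6⟩ := L.dqs_of_quaternion (hS.to_quotient D) (Nat.le_self_pow (by omega) 2) e
  obtain ⟨a, rfl⟩ := QuotientGroup.mk_surjective a
  obtain ⟨b, rfl⟩ := QuotientGroup.mk_surjective b
  refine ⟨m, a, b, a1, a2, by rw [← (zpowers (a : S ⧸ D)).card_mul_index, Nat.card_zpowers, a2, a3, ← pow_succ], a5, a6,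
    fun K k1 k2 k3 => ?_⟩
  have : K.map (QuotientGroup.mk' D) = ⊤ := (H1.isCoatom_of_index_prime (a3 ▸ Nat.prime_two)).2 _
    (lt_of_le_of_ne (zpowers_le.2 ⟨a, k1, rfl⟩) fun h => a4 (h.ge ⟨b, k2, rfl⟩))
  rw [← comap_map_eq_self (f := QuotientGroup.mk' D) (H := K) (by rwa [QuotientGroup.ker_mk']), this, comap_top]

/-- Let S be a finite 2-group of 2-rank exactly 2 and D a maximal subgroup of the centre of S such that S/D is a non-abelian group with exactly one involution (a generalized quaternion group). Then S has a nontrivial cyclic characteristic subgroup. -/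
theorem result {S : Type*} [Group S]
    [Finite S] (hS : IsPGroup 2 S) (hr2 : Cfsg.PRankLE 2 2 S) (hr1 : ¬ Cfsg.PRankLE 2 1 S)
    (D : Subgroup ↥(Subgroup.center S)) (hD : IsCoatom D)
    (hq : ∃ (_ : (D.map (Subgroup.center S).subtype).Normal),
      ¬ IsMulCommutative (S ⧸ D.map (Subgroup.center S).subtype) ∧
      ∃! x : S ⧸ D.map (Subgroup.center S).subtype, orderOf x = 2) :
    ∃ C : Subgroup S, C ≠ ⊥ ∧ IsCyclic ↥C ∧ C.Characteristic := by
  obtain ⟨_, h1, h2⟩ := hq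
  set E := D.map (center S).subtype
  have hE : E ≤ center S := map_subtype_le D
  obtain ⟨n, a, b, -, -, -, a1, a2, a3⟩ := lift hS E h1 h2
  have hc : ∀ x : S, (x : S ⧸ E) ∈ zpowers (a : S ⧸ E) → Commute a x := fun x ⟨i, hi⟩ => by
    have := mem_center_iff.1 (hE (QuotientGroup.eq.1 ((QuotientGroup.mk_zpow _ a i).trans hi))) a
    simpa using (Commute.self_zpow a i).mul_right this
  have c1 := hc ⁅a, b⁆ ⟨2, by
    simp only [commutatorElement_def, QuotientGroup.mk_mul, QuotientGroup.mk_inv]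
    rw [mul_assoc, mul_assoc, ← mul_assoc (b : S ⧸ E), ← conj_inv, a2, inv_inv, zpow_two]⟩
  have c2 := hc (b ^ 2) (by rw [QuotientGroup.mk_pow, a1]; exact pow_mem (mem_zpowers _) _)
  have nn : ∀ g : S, g * ⁅a, b⁆ * g⁻¹ ∈ zpowers ⁅a, b⁆ → g ∈ normalizer (zpowers ⁅a, b⁆ : Set S) := fun g hg =>
    H1.mem_normalizer_iff_conj_mem.2 (by rintro _ ⟨i, rfl⟩; rw [← conj_zpow]; exact zpow_mem hg i)
  haveI : (zpowers ⁅a, b⁆).Normal := normalizer_eq_top_iff.1 (a3 _ (nn _ (by rw [c1.eq, mul_inv_cancel_right]; simp))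
    (nn _ (by
      have : b * ⁅a, b⁆ * b⁻¹ = ⁅a, b⁆⁻¹ := by
        calc _ = b * a * b⁻¹ * (b ^ 2 * a⁻¹) * (b ^ 2)⁻¹ := by rw [commutatorElement_def, sq]; group
          _ = _ := by rw [← c2.inv_left.eq, commutatorElement_def]; group
      rw [this]; exact inv_mem (mem_zpowers _)))
    fun g hg => nn _ (by rw [← mem_center_iff.1 (hE hg), mul_inv_cancel_right]; simp))
  have h3 : _root_.commutator S ≤ zpowers ⁅a, b⁆ := by
    refine Normal.quotient_commutative_iff_commutator_le.1 ⟨⟨fun x y => ?_⟩⟩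
    have ab : Commute (a : S ⧸ zpowers ⁅a, b⁆) b := commutatorElement_eq_one_iff_commute.1
      ((QuotientGroup.eq_one_iff ⁅a, b⁆).2 (mem_zpowers _))
    have k : ∀ u : S, Commute (a : S ⧸ zpowers ⁅a, b⁆) u → Commute (b : S ⧸ zpowers ⁅a, b⁆) u →
        (u : S ⧸ zpowers ⁅a, b⁆) ∈ center _ := fun u u1 u2 => mem_center_iff.2 fun g => by
      obtain ⟨g, rfl⟩ := QuotientGroup.mk_surjective g
      exact mem_centralizer_singleton_iff.1 ((a3 ((centralizer {(u : S ⧸ zpowers ⁅a, b⁆)}).comap (QuotientGroup.mk' _))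
        (mem_centralizer_singleton_iff.2 u1) (mem_centralizer_singleton_iff.2 u2) fun d hd =>
        mem_centralizer_singleton_iff.2 (congrArg (QuotientGroup.mk' _) (mem_center_iff.1 (hE hd) u).symm)).ge (mem_top g))
    obtain ⟨y, rfl⟩ := QuotientGroup.mk_surjective y
    exact mem_center_iff.1 ((a3 ((center _).comap (QuotientGroup.mk' _)) (k a (Commute.refl _) ab.symm)
      (k b ab (Commute.refl _)) fun d hd => k d (congrArg (QuotientGroup.mk' _) (mem_center_iff.1 (hE hd) a))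
      (congrArg (QuotientGroup.mk' _) (mem_center_iff.1 (hE hd) b))).ge (mem_top y)) x
  exact ⟨_root_.commutator S, fun h => h1 (Normal.quotient_commutative_iff_commutator_le.2 (h.le.trans bot_le)),
    isCyclic_of_le h3, inferInstance⟩

end Cfsg.Agent.S3202
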