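import Cfsg.Statements.S3201
import Cfsg.Agent.S3202
import Cfsg.Agent.H5.Dih
import Cfsg.Agent.H1.Frattini

set_option autoImplicit false
open Cfsg

namespace Cfsg.Agent.S3201

open Subgroup

/-- Let S be a finite 2-group whose centre Z(S) has n ≥ 2 distinct maximal subgroups C₁, …, Cₙ with trivial intersection such that each quotient S/Cᵢ is a non-abelian group with exactly one involution (a generalized quaternion group). Then S is the internal direct product of an elementary abelian subgroup and a non-abelian subgroup with exactly one involution. -/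
theorem result {S : Type*} [Group S] [Finite S]
    (hS : IsPGroup 2 S) (n : ℕ) (hn : 2 ≤ n) (C : Fin n → Subgroup ↥(Subgroup.center S))
    (hCmax : ∀ i, IsCoatom (C i)) (hCinj : Function.Injective C) (hCint : ⨅ i, C i = ⊥)
    (hCq : ∀ i, ∃ (_ : ((C i).map (Subgroup.center S).subtype).Normal),
      ¬ IsMulCommutative (S ⧸ (C i).map (Subgroup.center S).subtype) ∧
      ∃! x : S ⧸ (C i).map (Subgroup.center S).subtype, orderOf x = 2) :
    ∃ E Q : Subgroup S, Cfsg.IsInternalDirectProduct E Q ⊤ ∧ Cfsg.IsElementaryAbelian 2 E ∧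
      ¬ IsMulCommutative ↥Q ∧ ∃! x : ↥Q, orderOf x = 2 := by
  have i0 : Fin n := ⟨0, by omega⟩
  haveI : Group.IsNilpotent (center S) := (hS.to_subgroup _).isNilpotent
  have ci : ∀ i, (C i).index = 2 := fun i => by
    haveI := H1.normal_of_coatom_of_nilpotent (hCmax i)
    have h := H1.prime_index_of_normal_coatom (hCmax i)
    obtain ⟨k, hk⟩ := (hS.to_subgroup _).index (C i)
    exact ((Nat.prime_dvd_prime_iff_eq Nat.prime_two h).1 (hk ▸ dvd_pow_self 2 (by
      rintro rfl; exact h.one_lt.ne' hk))).symm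
  have e1 : ∀ z : center S, (∀ i, z ∈ C i) → z = 1 := fun z h => mem_bot.1 (hCint.le (mem_iInf.2 h))
  have e2 : ∀ z ∈ center S, z * z = 1 := fun z hz => congrArg Subtype.val (e1 (⟨z, hz⟩ * ⟨z, hz⟩) fun i =>
    mul_self_mem_of_index_two (ci i) _)
  have mE : ∀ i (z : center S), (z : S) ∈ (C i).map (center S).subtype ↔ z ∈ C i := fun i z =>
    mem_map_iff_mem (center S).subtype_injective
  have inv : ∀ i (_ : ((C i).map (center S).subtype).Normal), (∃! x : S ⧸ (C i).map (center S).subtype, orderOf x = 2) →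
      ∀ u : S, u * u ∈ (C i).map (center S).subtype ↔ u ∈ center S := fun i _ ⟨x, _, hx⟩ u => by
    refine ⟨fun h => ?_, fun h => e2 u h ▸ one_mem _⟩
    by_cases h1 : u ∈ (C i).map (center S).subtype
    · exact map_subtype_le _ h1
    obtain ⟨z, hz⟩ := H1.exists_notMem (hCmax i).1
    have := QuotientGroup.eq.1 ((hx z (orderOf_eq_prime (by rw [sq, ← QuotientGroup.mk_mul, e2 _ z.2]; rfl) fun h =>
      hz ((mE i z).1 ((QuotientGroup.eq_one_iff _).1 h)))).trans (hx u (orderOf_eq_prime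
      (by rw [sq]; exact (QuotientGroup.eq_one_iff (u * u)).2 h) fun h => h1 ((QuotientGroup.eq_one_iff _).1 h))).symm)
    simpa using mul_mem z.2 (map_subtype_le _ this)
  have e3 : ∀ u v : S, u ∉ center S → v ∉ center S → u * u ∈ center S → v * v ∈ center S → u * u = v * v :=
    fun u v u1 v1 u2 v2 => by
      have := e1 (⟨_, u2⟩ * ⟨_, v2⟩) fun i => by
        obtain ⟨_, -, h⟩ := hCq i
        exact (mul_mem_iff_of_index_two (ci i)).2 (iff_of_false (fun h' => u1 ((inv i _ h u).1 ((mE i _).2 h')))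
          fun h' => v1 ((inv i _ h v).1 ((mE i _).2 h')))
      exact (eq_inv_of_mul_eq_one_left (congrArg Subtype.val this : u * u * (v * v) = 1)).trans
        (inv_eq_of_mul_eq_one_right (e2 _ v2))
  obtain ⟨_, h1, h2⟩ := hCq i0
  have inv0 := inv i0 _ h2
  set E := (C i0).map (center S).subtype
  have hE : E ≤ center S := map_subtype_le _
  obtain ⟨m, a, b, hm, a0, a1, a2, a3, a4⟩ := S3202.lift hS E h1 h2
  obtain ⟨m, rfl⟩ := Nat.exists_eq_add_of_le' hm
  have t1 : (a : S ⧸ E) ^ 2 ^ (m + 1) ≠ 1 := fun h => absurd ((Nat.pow_dvd_pow_iff_le_right one_lt_two).1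
    (a0 ▸ orderOf_dvd_of_pow_eq_one h)) (by omega)
  have key : ∀ u : S, (u : S ⧸ E) * u = a ^ 2 ^ (m + 1) → u ∉ center S ∧ u * u ∈ center S := fun u h =>
    ⟨fun h' => t1 (h.symm.trans ((QuotientGroup.eq_one_iff (u * u)).2 ((inv0 u).2 h'))), (inv0 _).1
      ((QuotientGroup.eq_one_iff _).1 (by
        rw [QuotientGroup.mk_mul, QuotientGroup.mk_mul, h, ← sq, ← pow_mul, ← pow_succ, ← a0, pow_orderOf_eq_one]))⟩
  have k1 := key b (by rw [← sq, a2])
  have k2 := key (a ^ 2 ^ m) (by rw [QuotientGroup.mk_pow, ← sq, ← pow_mul, ← pow_succ])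
  have k3 := key (b * a) (by
    rw [QuotientGroup.mk_mul, ← a2, sq]
    calc _ = (b : S ⧸ E) * a * (b : S ⧸ E)⁻¹ * ((b : S ⧸ E) ^ 2 * a) := by rw [sq]; group
      _ = _ := by rw [a3, a2, ← (Commute.self_pow _ _).eq, inv_mul_cancel_left, ← a2, sq])
  have r1 := e3 _ _ k1.1 k2.1 k1.2 k2.2
  have r2 : b * a * b⁻¹ = a⁻¹ := by
    calc _ = b * a * (b * a) * a⁻¹ * (b * b)⁻¹ := by group
      _ = _ := by rw [e3 _ _ k3.1 k1.1 k3.2 k1.2, ← mem_center_iff.1 k1.2, mul_inv_cancel_right]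
  rw [← sq (a ^ _), ← pow_mul, ← pow_succ] at r1
  have oa : orderOf a = 2 * 2 ^ (m + 1) := by
    rw [← pow_succ']
    exact orderOf_eq_prime_pow (fun h => t1 (by rw [← QuotientGroup.mk_pow, h]; rfl)) (by
      rw [pow_succ, pow_mul, ← r1, sq, e2 _ k1.2])
  obtain ⟨e⟩ := H5.quat_equiv_closure (by positivity) a b oa r1 r2 fun ⟨i, hi⟩ => by
    rw [← hi, (Commute.zpow_self a i).eq, mul_inv_cancel_right, eq_inv_iff_mul_eq_one, ← sq] at r2
    have := Nat.le_of_dvd two_pos (oa ▸ orderOf_dvd_of_pow_eq_one r2)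
    have := Nat.one_lt_two_pow (n := m + 1) (by omega)
    omega
  set Q := closure ({a, b} : Set S)
  have hs := a4 (E ⊔ Q) (mem_sup_right (subset_closure (by simp))) (mem_sup_right (subset_closure (by simp))) le_sup_left
  haveI : NeZero (2 ^ (m + 1)) := ⟨by positivity⟩
  have hb : Function.Bijective ((QuotientGroup.mk' E).comp Q.subtype) := (Nat.bijective_iff_surjective_and_card _).2
    ⟨fun y => by
      obtain ⟨y, rfl⟩ := QuotientGroup.mk_surjective y
      obtain ⟨u, hu, w, hw, rfl⟩ := mem_sup_of_normal_left.1 (hs.ge (mem_top y))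
      exact ⟨⟨w, hw⟩, by simp [(QuotientGroup.eq_one_iff u).2 hu]⟩, by
      rw [a1, Nat.card_congr e.toEquiv, Nat.card_eq_fintype_card, QuaternionGroup.card]; ring⟩
  let f := MulEquiv.ofBijective _ hb
  refine ⟨E, Q, ⟨le_top, le_top, fun x hx y _ => (mem_center_iff.1 (hE hx) y).symm, eq_bot_iff.2 fun x hx =>
    congrArg Subtype.val (hb.1 (a₁ := ⟨x, hx.2⟩) (a₂ := 1) (by simpa using hx.1)), hs⟩,
    ⟨H1.isMulCommutative_of_comm fun x hx y _ => (mem_center_iff.1 (hE hx) y).symm, fun x hx => by rw [sq, e2 x (hE hx)]⟩,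
    fun h => h1 ⟨⟨fun x y => f.symm.injective (by rw [map_mul, map_mul, h.is_comm.comm])⟩⟩, ?_⟩
  obtain ⟨x, hx, hu⟩ := h2
  exact ⟨f.symm x, (f.symm.orderOf_eq x).trans hx, fun y hy => f.eq_symm_apply.2 (hu _ ((f.orderOf_eq y).trans hy))⟩

end Cfsg.Agent.S3201
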