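import Cfsg.Statements.S3208
import Cfsg.Agent.H1.Tr2

set_option autoImplicit false
open Cfsg

namespace Cfsg.Agent.S3208

open H1

/-- Let j be an involution of a finite group G, H a subgroup of G, and T a Sylow 2-subgroup of H ∩ C_G(j) containing j such that ⟨j⟩ is a characteristic subgroup of T. Then T is a Sylow 2-subgroup of H. -/
theorem result {G : Type*} [Group G] [Finite G]
    (j : G) (hj : orderOf j = 2) (H T : Subgroup G) (hT : T ≤ H ⊓ Subgroup.centralizer ({j} : Set G)) (h2 : IsPGroup 2 ↥T)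
    (hSyl : ¬ 2 ∣ T.relIndex (H ⊓ Subgroup.centralizer ({j} : Set G))) (hjT : j ∈ T)
    (hchar : ((Subgroup.zpowers j).subgroupOf T).Characteristic) :
    ¬ 2 ∣ T.relIndex H := by
  have : Fact (Nat.Prime 2) := ⟨Nat.prime_two⟩
  have h1 : IsSylowIn 2 T (H ⊓ Subgroup.centralizer ({j} : Set G)) := ⟨hT, h2, hSyl⟩
  refine (isSylowIn_of_normalizer (hT.trans inf_le_left) (h1.of_le
    (le_inf Subgroup.le_normalizer (hT.trans inf_le_left)) fun g hg => ⟨hg.2, ?_⟩)).not_dvd
  have h3 := map_char_le_normalizer T ((Subgroup.zpowers j).subgroupOf T) hg.1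
  rw [Subgroup.subgroupOf_map_subtype, inf_eq_left.2 (Subgroup.zpowers_le.2 hjT)] at h3
  refine Subgroup.mem_centralizer_singleton_iff.2 (mul_inv_eq_iff_eq_mul.1 ?_)
  exact ((mem_zpowers_two hj).1 (conj_mem_of_mem_normalizer h3
    (Subgroup.mem_zpowers j))).resolve_left (by simpa using two_ne hj)

end Cfsg.Agent.S3208
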