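import Cfsg.Statements.S3209
import Cfsg.Agent.H5.SL2Tor
import Cfsg.Agent.H5.SL2Cl
import Cfsg.Agent.H1.Coprime

set_option autoImplicit false
open Cfsg

namespace Cfsg.Agent.S3209

open Subgroup

theorem sl {G F : Type*} [Group G] [Field F] [Fintype F] (hF : Odd (Fintype.card F)) {L : Subgroup G}
    (e : L ≃* Matrix.SpecialLinearGroup (Fin 2) F) {j : G} (hj : orderOf j = 2) (hL : j ∈ L) :
    (∀ a ∈ L, a * a = 1 → a = 1 ∨ a = j) ∧ (∃ a ∈ L, a * a = j) ∧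
      ∀ a ∈ L, ∀ b ∈ L, a * a = j → b * b = j → ∃ g ∈ L, g * a * g⁻¹ = b := by
  have h2 : (2 : F) ≠ 0 := Ring.two_ne_zero fun h => by
    have := FiniteField.even_card_of_char_two h
    rw [Nat.odd_iff] at hF; omega
  have h3 : e ⟨j, hL⟩ = -1 := (H5.sl2_sq_eq_one h2 (by
    rw [← map_mul, ← map_one e]; exact congrArg e (Subtype.ext (by rw [coe_mul, ← sq, ← hj, pow_orderOf_eq_one]; rfl)))).resolve_left
    fun h => by rw [show j = 1 from congrArg Subtype.val (e.injective (h.trans (map_one e).symm))] at hj; simp at hj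
  have tr : ∀ a : H5.SL2 F, a * a = -1 → a.1.trace = 0 := fun a h => by
    have h4 : a⁻¹ = -a := inv_eq_of_mul_eq_one_right (by rw [mul_neg, h, neg_neg])
    have := congrArg (fun x : H5.SL2 F => x.1 0 0) h4
    rw [Matrix.trace_fin_two]
    simp [Matrix.SpecialLinearGroup.SL2_inv_expl] at this
    rw [this, add_neg_cancel]
  refine ⟨fun a ha h => (H5.sl2_sq_eq_one (g := e ⟨a, ha⟩) h2 (by
    rw [← map_mul, ← map_one e]; exact congrArg e (Subtype.ext h))).imp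
    (fun h => congrArg Subtype.val (e.injective (h.trans (map_one e).symm)))
    fun h => congrArg Subtype.val (e.injective (h.trans h3.symm)), ?_, fun a ha b hb a1 b1 => ?_⟩
  · obtain ⟨a, -, h, -⟩ := H5.exists_Q8 h2
    exact ⟨_, (e.symm a).2, congrArg Subtype.val (show e.symm a * e.symm a = ⟨j, hL⟩ by
      rw [← map_mul, h, ← h3, e.symm_apply_apply])⟩
  · have t1 := tr (e ⟨a, ha⟩) (by rw [← map_mul, ← h3]; exact congrArg e (Subtype.ext a1))
    have t2 := tr (e ⟨b, hb⟩) (by rw [← map_mul, ← h3]; exact congrArg e (Subtype.ext b1))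
    obtain ⟨g, hg⟩ := isConj_iff.1 (e.symm.toMonoidHom.map_isConj (H5.isConj_of_trace (t1.trans t2.symm) (by
      rw [t1, show (4 : F) = 2 * 2 by norm_num, zero_pow two_ne_zero]; exact (mul_ne_zero h2 h2).symm)))
    exact ⟨g, g.2, by simpa using congrArg Subtype.val hg⟩

/-- Let L₁ ≅ SL₂(q₁) and L₂ ≅ SL₂(q₂), q₁ and q₂ odd, be elementwise-commuting subgroups of a finite group meeting in ⟨j⟩ for an involution j. Then L₁L₂ has exactly two conjugacy classes of involutions: the central involution j, and one further class (there is an involution x ≠ j in L₁L₂, and every involution of L₁L₂ other than j is conjugate to x by an element of L₁L₂). -/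
theorem result {G : Type*} [Group G] [Finite G]
    {F₁ : Type*} [Field F₁] [Fintype F₁] {F₂ : Type*} [Field F₂] [Fintype F₂]
    (hF₁ : Odd (Fintype.card F₁)) (hF₂ : Odd (Fintype.card F₂)) (L₁ L₂ : Subgroup G)
    (e₁ : ↥L₁ ≃* Matrix.SpecialLinearGroup (Fin 2) F₁) (e₂ : ↥L₂ ≃* Matrix.SpecialLinearGroup (Fin 2) F₂)
    (hc : ∀ x ∈ L₁, ∀ y ∈ L₂, x * y = y * x) (j : G) (hj : orderOf j = 2) (hm : L₁ ⊓ L₂ = Subgroup.zpowers j) :
    ∃ x ∈ L₁ ⊔ L₂, orderOf x = 2 ∧ x ≠ j ∧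
      ∀ y ∈ L₁ ⊔ L₂, orderOf y = 2 → y = j ∨ ∃ g ∈ L₁ ⊔ L₂, g * x * g⁻¹ = y := by
  have j1 : j ∈ L₁ := (hm.ge (mem_zpowers j)).1
  have j2 : j ∈ L₂ := (hm.ge (mem_zpowers j)).2
  obtain ⟨a1, ⟨a, ha, a2⟩, a3⟩ := sl hF₁ e₁ hj j1
  obtain ⟨b1, ⟨b, hb, b2⟩, b3⟩ := sl hF₂ e₂ hj j2
  have jj : j * j = 1 := by rw [← sq, ← hj, pow_orderOf_eq_one]
  have j0 : j ≠ 1 := fun h => by simp [h] at hj
  have sq2 : ∀ x ∈ L₁, ∀ y ∈ L₂, x * y * (x * y) = x * x * (y * y) := fun x hx y hy => by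
    rw [mul_assoc, ← mul_assoc y, ← hc x hx y hy]; group
  have zz : ∀ x ∈ L₁, x ∈ L₂ → x * x = 1 := fun x h1 h2 => by
    obtain ⟨i, rfl⟩ := hm.le ⟨h1, h2⟩
    rw [← (Commute.refl j).mul_zpow, jj, one_zpow]
  have nm : a * b ∉ L₁ := fun h => j0 (b2.symm.trans (zz b (by simpa using L₁.mul_mem (L₁.inv_mem ha) h) hb))
  refine ⟨a * b, mul_mem_sup ha hb, orderOf_eq_prime (by rw [sq, sq2 a ha b hb, a2, b2, jj]) fun h => nm (h ▸ one_mem _),
    fun h => nm (h ▸ j1), fun y hy oy => ?_⟩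
  obtain ⟨u, hu, v, hv, rfl⟩ := (H1.mem_sup_of_le_normalizer_right (H1.le_normalizer_of_le_centralizer
    fun x hx y hy => (hc x hx y hy).symm)).1 hy
  have h1 : u * u * (v * v) = 1 := by rw [← sq2 u hu v hv, ← sq, ← oy, pow_orderOf_eq_one]
  have h2 := eq_inv_of_mul_eq_one_left h1
  rcases a1 _ (L₁.mul_mem hu hu) (zz _ (L₁.mul_mem hu hu) (h2 ▸ L₂.inv_mem (L₂.mul_mem hv hv))) with h | h
  · rw [h, one_mul] at h1
    rcases a1 u hu h with rfl | rfl <;> rcases b1 v hv h1 with rfl | rfl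
    · simp at oy
    · exact .inl (one_mul _)
    · exact .inl (mul_one _)
    · rw [jj] at oy; simp at oy
  rw [h, ← jj, mul_right_inj] at h1
  obtain ⟨g, hg, e1⟩ := a3 a ha u hu a2 h
  obtain ⟨k, hk, e2⟩ := b3 b hb v hv b2 h1
  refine .inr ⟨g * k, mul_mem_sup hg hk, ?_⟩
  calc _ = g * (k * a) * b * k⁻¹ * g⁻¹ := by group
    _ = g * a * ((k * b * k⁻¹) * g⁻¹) := by rw [← hc a ha k hk]; group
    _ = _ := by rw [e2, ← hc _ (L₁.inv_mem hg) v hv, ← mul_assoc, e1]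

end Cfsg.Agent.S3209
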