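import Cfsg.Statements.S3210
import Cfsg.Agent.H5.Iso1
import Cfsg.Agent.H5.PGL2
import Cfsg.Agent.H2.Basic
import Cfsg.Agent.H1.Basic

set_option autoImplicit false
open Cfsg

namespace Cfsg.Agent.S3210

open Subgroup

theorem psl_ind {F : Type*} [Field F] (A B : Subgroup (H5.PSL2 F)) [A.Normal] [B.Normal] (h : A ⊔ B = ⊤)
    (c : ∀ a ∈ A, ∀ b ∈ B, a * b = b * a) : A = ⊥ ∨ B = ⊥ := by
  by_contra k
  push Not at k
  have iw : ∀ N : Subgroup (H5.PSL2 F), N.Normal → N ≠ ⊥ → _root_.commutator _ ≤ N := fun N hN n =>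
    PSL2.Iwasawa.commutator_le N fun e => n (N.eq_bot_iff_forall.2 fun x hx =>
      FaithfulSMul.eq_of_smul_eq_smul (α := Projectivization F (Fin 2 → F)) fun p => by
        rw [one_smul]; exact Set.eq_univ_iff_forall.1 e p ⟨x, hx⟩)
  have z : center (H5.PSL2 F) = ⊥ := H5.center_quot_SL2
  have : _root_.commutator (H5.PSL2 F) ≤ center _ := fun x hx => mem_center_iff.2 fun g => by
    obtain ⟨a, ha, b, hb, rfl⟩ := mem_sup_of_normal_right.1 (h ▸ mem_top g)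
    rw [mul_assoc, ← c x (iw A ‹_› k.1 hx) b hb, ← mul_assoc, c a ha x (iw B ‹_› k.2 hx), mul_assoc]
  rw [z, le_bot_iff, commutator_eq_bot_iff_center_eq_top, z] at this
  exact bot_ne_top this

structure PI {G : Type*} [Group G] (A : Subgroup G) (j : G) : Prop where
  c1 : ∀ x ∈ A, (∀ y ∈ A, x * y * x⁻¹ * y⁻¹ ∈ zpowers j) → x ∈ zpowers j
  c2 : ∀ U V : Subgroup G, A ≤ normalizer (U : Set G) → A ≤ normalizer (V : Set G) →
    (∀ a ∈ A, ∃ u ∈ A ⊓ U, ∃ v ∈ A ⊓ V, u * v = a) → (∀ u ∈ U, ∀ v ∈ V, u * v = v * u) →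
    A ⊓ U ≤ zpowers j ∨ A ⊓ V ≤ zpowers j
  c3 : ¬ A ≤ zpowers j

theorem pi_of {G : Type*} [Group G] {F : Type*} [Field F] {A : Subgroup G} (e : A ≃* H5.SL2 F) {j : G}
    (hj : j ∈ A) (j1 : j ≠ 1) (c : A ≤ centralizer {j}) : PI A j := by
  let f : A →* H5.PSL2 F := (QuotientGroup.mk' _).comp e.toMonoidHom
  have sj : Function.Surjective f := (QuotientGroup.mk'_surjective _).comp e.surjective
  have ce : ∀ x : A, (x : G) ∈ zpowers j → e x ∈ center (H5.SL2 F) := fun x hx => mem_center_iff.2 fun g => by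
    obtain ⟨y, rfl⟩ := e.surjective g
    obtain ⟨k, hk⟩ := hx
    rw [← map_mul, ← map_mul]
    congr 1
    refine Subtype.ext ?_
    rw [coe_mul, coe_mul, ← hk]
    exact (show Commute (y : G) j from mem_centralizer_singleton_iff.1 (c y.2)).zpow_right k
  have ej : e ⟨j, hj⟩ = -1 := (H5.mem_center_SL2.1 (ce _ (mem_zpowers j))).resolve_left fun k =>
    j1 (congrArg Subtype.val (e.map_eq_one_iff.1 k))
  have one : ∀ x : A, f x = 1 ↔ (x : G) ∈ zpowers j := fun x => by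
    refine (QuotientGroup.eq_one_iff _).trans ⟨fun k => ?_, ce x⟩
    rcases H5.mem_center_SL2.1 k with k | k
    · rw [show x = 1 from e.map_eq_one_iff.1 k]; exact one_mem _
    · rw [show x = ⟨j, hj⟩ from e.injective (k.trans ej.symm)]; exact mem_zpowers j
  have z : center (H5.PSL2 F) = ⊥ := H5.center_quot_SL2
  refine ⟨fun x hx k => (one ⟨x, hx⟩).1 (mem_bot.1 (z ▸ mem_center_iff.2 fun g => ?_)),
    fun U V hU hV h1 h2 => ?_, fun k => ?_⟩
  · obtain ⟨y, rfl⟩ := sj g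
    have := (one (⟨x, hx⟩ * y * (⟨x, hx⟩ : A)⁻¹ * y⁻¹)).2 (k y y.2)
    simp only [map_mul, map_inv] at this
    rw [mul_inv_eq_one, mul_inv_eq_iff_eq_mul] at this
    exact this.symm
  · haveI := (normal_subgroupOf_of_le_normalizer hU).map f sj
    haveI := (normal_subgroupOf_of_le_normalizer hV).map f sj
    refine (psl_ind ((U.subgroupOf A).map f) ((V.subgroupOf A).map f) (eq_top_iff.2 fun g _ => ?_) ?_).imp
      (fun k x hx => (one ⟨x, hx.1⟩).1 (mem_bot.1 (k.le (mem_map_of_mem f hx.2))))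
      fun k x hx => (one ⟨x, hx.1⟩).1 (mem_bot.1 (k.le (mem_map_of_mem f hx.2)))
    · obtain ⟨y, rfl⟩ := sj g
      obtain ⟨u, hu, v, hv, e⟩ := h1 y y.2
      rw [show y = ⟨u, hu.1⟩ * ⟨v, hv.1⟩ from Subtype.ext e.symm, map_mul]
      exact mul_mem (mem_sup_left (mem_map_of_mem f hu.2)) (mem_sup_right (mem_map_of_mem f hv.2))
    · rintro _ ⟨u, hu, rfl⟩ _ ⟨v, hv, rfl⟩
      rw [← map_mul, ← map_mul]
      congr 1
      exact Subtype.ext (h2 _ hu _ hv)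
  · obtain ⟨g, hg⟩ := exists_ne (1 : H5.PSL2 F)
    obtain ⟨y, rfl⟩ := sj g
    exact hg ((one y).2 (k y.2))

theorem nrm {G : Type*} [Group G] {A B : Subgroup G} (c : ∀ x ∈ A, ∀ y ∈ B, x * y = y * x) :
    A ≤ normalizer (B : Set G) := fun x hx => centralizer_le_normalizer _ fun y hy => (c x hx y hy).symm

theorem split {G : Type*} [Group G] {A B N M : Subgroup G} {j : G} (hA : PI A j) (hB : PI B j) (jA : j ∈ A)
    (c : ∀ x ∈ A, ∀ y ∈ B, x * y = y * x) (d : ∀ x ∈ N, ∀ y ∈ M, x * y = y * x) (e : A ⊔ B = N ⊔ M)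
    (i : N ⊓ M = zpowers j) : A ≤ N ∨ A ≤ M := by
  have dec : ∀ x ∈ A ⊔ B, ∃ u ∈ N, ∃ v ∈ M, u * v = x := fun x hx =>
    (H2.mem_sup_of_le_normalizer (nrm d)).1 (e ▸ hx)
  have key : ∀ a ∈ A, ∃ u ∈ A ⊓ N, ∃ v ∈ A ⊓ M, u * v = a := fun a ha => by
    obtain ⟨u, hu, v, hv, h1⟩ := dec a (mem_sup_left ha)
    obtain ⟨a1, ha1, b1, hb1, h2⟩ := (H2.mem_sup_of_le_normalizer (nrm c)).1 (e.ge (mem_sup_left hu))
    have : b1 ∈ zpowers j := hB.c1 b1 hb1 fun b hb => by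
      obtain ⟨u', hu', v', hv', h3⟩ := dec b (mem_sup_right hb)
      have e1 : b1 * b * b1⁻¹ * b⁻¹ = u * b * u⁻¹ * b⁻¹ := by
        rw [← h2]
        calc b1 * b * b1⁻¹ * b⁻¹ = b1 * b * b1⁻¹ * a1 * a1⁻¹ * b⁻¹ := by group
          _ = _ := by
            rw [← c a1 ha1 _ (B.mul_mem (B.mul_mem hb1 hb) (B.inv_mem hb1))]; group
      have e2 : u * b * u⁻¹ * b⁻¹ = u * u' * u⁻¹ * u'⁻¹ := by
        rw [← h3]
        calc u * (u' * v') * u⁻¹ * (u' * v')⁻¹ = u * u' * (v' * u⁻¹) * v'⁻¹ * u'⁻¹ := by group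
          _ = _ := by rw [← d _ (N.inv_mem hu) _ hv']; group
      have e3 : u * b * u⁻¹ * b⁻¹ = u' * (v⁻¹ * v' * v * v'⁻¹) * u'⁻¹ := by
        have h4 : u = v⁻¹ * a := by rw [← h1, d u hu v hv]; group
        calc u * b * u⁻¹ * b⁻¹ = v⁻¹ * (a * b) * a⁻¹ * v * b⁻¹ := by rw [h4]; group
          _ = v⁻¹ * u' * v' * v * v'⁻¹ * u'⁻¹ := by rw [c a ha b hb, ← h3]; group
          _ = _ := by rw [← d _ hu' _ (M.inv_mem hv)]; group
      rw [← i, e1]
      refine ⟨?_, ?_⟩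
      · rw [e2]; exact N.mul_mem (N.mul_mem (N.mul_mem hu hu') (N.inv_mem hu)) (N.inv_mem hu')
      · rw [e3]
        exact H1.conj_mem_of_mem_normalizer (nrm d hu')
          (M.mul_mem (M.mul_mem (M.mul_mem (M.inv_mem hv) hv') hv) (M.inv_mem hv'))
    have uA : u ∈ A := h2 ▸ A.mul_mem ha1 (zpowers_le.2 jA this)
    exact ⟨u, ⟨uA, hu⟩, v, ⟨(A.mul_mem_cancel_left uA).1 (h1 ▸ ha), hv⟩, h1⟩
  rcases hA.c2 N M (le_sup_left.trans (e.le.trans (sup_le le_normalizer (nrm fun y hy x hx => (d x hx y hy).symm))))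
    (le_sup_left.trans (e.le.trans (sup_le (nrm d) le_normalizer))) key d with k | k
  · refine Or.inr fun a ha => ?_
    obtain ⟨u, hu, v, hv, rfl⟩ := key a ha
    exact M.mul_mem (i.ge (k hu)).2 hv.2
  · refine Or.inl fun a ha => ?_
    obtain ⟨u, hu, v, hv, rfl⟩ := key a ha
    exact N.mul_mem hu.2 (i.ge (k hv)).1

/-- Let G be a finite group with subgroups L₁ ≅ SL₂(q₁) and L₂ ≅ SL₂(q₂), q₁ and q₂ odd prime powers, which commute elementwise and meet in ⟨j⟩ for an involution j, and suppose L₁L₂ has index 2 in C_G(j). Then every element n of C_G(j) outside L₁L₂ either normalizes both L₁ and L₂, or conjugates L₁ onto L₂; in the second case q₁ = q₂ and there is an element n′ of C_G(j) outside L₁L₂ conjugating L₁ onto L₂ with n′² ∈ ⟨j⟩. -/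
theorem result {G : Type*} [Group G] [Finite G]
    {F₁ : Type*} [Field F₁] [Fintype F₁] {F₂ : Type*} [Field F₂] [Fintype F₂]
    (hF₁ : Odd (Fintype.card F₁)) (hF₂ : Odd (Fintype.card F₂)) (L₁ L₂ : Subgroup G)
    (e₁ : ↥L₁ ≃* Matrix.SpecialLinearGroup (Fin 2) F₁) (e₂ : ↥L₂ ≃* Matrix.SpecialLinearGroup (Fin 2) F₂)
    (hc : ∀ x ∈ L₁, ∀ y ∈ L₂, x * y = y * x) (j : G) (hj : orderOf j = 2) (hm : L₁ ⊓ L₂ = Subgroup.zpowers j)
    (hle : L₁ ⊔ L₂ ≤ Subgroup.centralizer ({j} : Set G)) (hi : (L₁ ⊔ L₂).relIndex (Subgroup.centralizer ({j} : Set G)) = 2) (n : G) (hn : n ∈ Subgroup.centralizer ({j} : Set G)) (hn' : n ∉ L₁ ⊔ L₂) :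
    (L₁.map (MulAut.conj n).toMonoidHom = L₁ ∧ L₂.map (MulAut.conj n).toMonoidHom = L₂) ∨
      (L₁.map (MulAut.conj n).toMonoidHom = L₂ ∧ Fintype.card F₁ = Fintype.card F₂ ∧
        ∃ n' ∈ Subgroup.centralizer ({j} : Set G), n' ∉ L₁ ⊔ L₂ ∧ L₁.map (MulAut.conj n').toMonoidHom = L₂ ∧ n' ^ 2 ∈ Subgroup.zpowers j) := by
  have j1 : j ≠ 1 := fun e => by simp [e] at hj
  have jm := hm.ge (mem_zpowers j)
  have p1 := pi_of e₁ jm.1 j1 (le_sup_left.trans hle)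
  have p2 := pi_of e₂ jm.2 j1 (le_sup_right.trans hle)
  have nL : n ∈ normalizer ((L₁ ⊔ L₂ : Subgroup G) : Set G) :=
    (normal_subgroupOf_iff_le_normalizer hle).1 (normal_of_index_eq_two hi) hn
  have nj : n * j * n⁻¹ = j := by rw [mem_centralizer_singleton_iff.1 hn, mul_inv_cancel_right]
  have d : ∀ x ∈ H2.cj n L₁, ∀ y ∈ H2.cj n L₂, x * y = y * x := by
    rintro _ ⟨x, hx, rfl⟩ _ ⟨y, hy, rfl⟩
    rw [← map_mul, ← map_mul, hc x hx y hy]
  have e : L₁ ⊔ L₂ = H2.cj n L₁ ⊔ H2.cj n L₂ := by rw [← H2.cj_sup, H2.cj_eq_iff.2 nL]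
  have i : H2.cj n L₁ ⊓ H2.cj n L₂ = zpowers j := by rw [← H2.cj_inf, hm, H2.cj_zpowers, nj]
  have s1 := split p1 p2 jm.1 hc d e i
  have s2 := split p2 p1 jm.2 (fun x hx y hy => (hc y hy x hx).symm) d (by rw [sup_comm, e]) i
  have eqc : ∀ A : Subgroup G, A ≤ H2.cj n A → H2.cj n A = A := fun A k =>
    (eq_of_le_of_card_ge k (H2.card_cj n A).le).symm
  rcases s1 with s1 | s1
  · refine Or.inl ⟨eqc _ s1, eqc _ (s2.resolve_left fun k => p2.c3 ?_)⟩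
    rw [eqc _ s1] at k
    exact hm ▸ le_inf k le_rfl
  · have s3 : L₂ ≤ H2.cj n L₁ := s2.resolve_right fun k => p1.c3 (by
      rw [eqc _ k] at s1
      exact hm ▸ le_inf le_rfl s1)
    have c1 := card_le_of_le s1
    have c2 := card_le_of_le s3
    rw [H2.card_cj] at c1 c2
    have q1 : H2.cj n L₁ = L₂ := (eq_of_le_of_card_ge s3 (by rwa [H2.card_cj])).symm
    have q2 : H2.cj n L₂ = L₁ := (eq_of_le_of_card_ge s1 (by rwa [H2.card_cj])).symm
    refine Or.inr ⟨q1, ?_, ?_⟩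
    · have := le_antisymm c1 c2
      rw [Nat.card_congr e₁.toEquiv, Nat.card_congr e₂.toEquiv, H5.card_SL2, H5.card_SL2] at this
      have mono : ∀ a b : ℕ, 1 < a → a < b → a * (a - 1) * (a + 1) < b * (b - 1) * (b + 1) := fun a b h1 h2 =>
        Nat.mul_lt_mul'' (Nat.mul_lt_mul'' h2 (by omega)) (by omega)
      rcases lt_trichotomy (Fintype.card F₁) (Fintype.card F₂) with k | k | k
      · exact ((mono _ _ Fintype.one_lt_card k).ne this).elim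
      · exact k
      · exact ((mono _ _ Fintype.one_lt_card k).ne this.symm).elim
    · have nn : n * n ∈ L₁ ⊔ L₂ := mul_self_mem_of_index_two hi ⟨n, hn⟩
      obtain ⟨a, ha, b, hb, e1⟩ := (H2.mem_sup_of_le_normalizer (nrm hc)).1 nn
      have na : n * a * n⁻¹ ∈ L₂ := q1 ▸ H2.conj_mem_cj.2 ha
      have nb : n * b * n⁻¹ ∈ L₁ := q2 ▸ H2.conj_mem_cj.2 hb
      refine ⟨a⁻¹ * n, mul_mem (inv_mem (hle (mem_sup_left ha))) hn,
        fun k => hn' (((L₁ ⊔ L₂).mul_mem_cancel_left (inv_mem (mem_sup_left ha))).1 k), ?_, ?_⟩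
      · change H2.cj (a⁻¹ * n) L₁ = L₂
        rw [H2.cj_mul, q1, H2.cj_eq_iff.2 (nrm hc (inv_mem ha))]
      · have e2 : (a⁻¹ * n) ^ 2 = (n * a * n⁻¹)⁻¹ * b := by
          calc (a⁻¹ * n) ^ 2 = a⁻¹ * (n * a * n⁻¹)⁻¹ * (n * n) := by rw [pow_two]; group
            _ = _ := by rw [← e1, hc _ (inv_mem ha) _ (inv_mem na)]; group
        rw [e2, ← hm]
        refine ⟨?_, L₂.mul_mem (L₂.inv_mem na) hb⟩
        have e3 : (n * a * n⁻¹)⁻¹ * b = n * b * n⁻¹ * a⁻¹ := by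
          calc (n * a * n⁻¹)⁻¹ * b = (n * a * n⁻¹)⁻¹ * (b * a) * a⁻¹ := by group
            _ = (n * a * n⁻¹)⁻¹ * (n * (a * b) * n⁻¹) * a⁻¹ := by rw [← hc a ha b hb, e1]; group
            _ = _ := by group
        rw [e3]
        exact L₁.mul_mem nb (L₁.inv_mem ha)

end Cfsg.Agent.S3210
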