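import Cfsg.Statements.S3211
import Cfsg.Agent.S3209
import Cfsg.Agent.H4.Inv2
import Cfsg.Agent.H2.Basic
import Cfsg.Agent.H2.XS
import Cfsg.Agent.H1.Misc

set_option autoImplicit false
open Cfsg

namespace Cfsg.Agent.S3211

open Subgroup

theorem sl_inv {F : Type*} [Field F] (h2 : (2 : F) ≠ 0) {a w : H5.SL2 F} (h : w * a * w⁻¹ = -a) : w * w = -1 := by
  have e : a⁻¹ * w * a = -w := by
    calc a⁻¹ * w * a = a⁻¹ * (w * a * w⁻¹) * w := by group
      _ = -w := by rw [h]; simp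
  have t : w.1.trace = 0 := by
    have h1 : (a⁻¹ * w * a).1.trace = w.1.trace := by
      rw [Matrix.SpecialLinearGroup.coe_mul, Matrix.trace_mul_comm, ← Matrix.SpecialLinearGroup.coe_mul,
        ← mul_assoc, mul_inv_cancel, one_mul]
    rw [e, Matrix.SpecialLinearGroup.coe_neg, Matrix.trace_neg] at h1
    exact (mul_eq_zero.1 (by linear_combination -h1 : 2 * w.1.trace = 0)).resolve_left h2
  have d := w.det_coe
  rw [Matrix.det_fin_two] at d
  rw [Matrix.trace_fin_two] at t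
  ext i k
  fin_cases i <;> fin_cases k <;> simp [Matrix.mul_apply, Fin.sum_univ_two]
  · linear_combination w.1 0 0 * t - d
  · linear_combination w.1 0 1 * t
  · linear_combination w.1 1 0 * t
  · linear_combination w.1 1 1 * t - d

structure PP {G : Type*} [Group G] (A : Subgroup G) (j : G) (M : ℕ) : Prop where
  u : ∀ a ∈ A, a * a = 1 → a ∈ zpowers j
  c : ∀ a ∈ A, a * a = j → ∀ c ∈ A, c * a * c⁻¹ = a → c ^ M ∈ zpowers j
  e : ∀ a ∈ A, a * a = j → ∃ c ∈ A, c * a * c⁻¹ = a ∧ c ^ M = j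
  i : ∀ a ∈ A, ∀ w ∈ A, w * a * w⁻¹ = a * j → w * w = j
  w : ∀ a ∈ A, a * a = j → ∃ w ∈ A, w * a * w⁻¹ = a * j

theorem PP.cj {G : Type*} [Group G] {A : Subgroup G} {j n : G} {M : ℕ} (h : PP A j M) (hn : n * j * n⁻¹ = j) :
    PP (H2.cj n A) j M := by
  have f : ∀ x : G, MulAut.conj n x = j ↔ x = j := fun x =>
    ⟨fun e => (MulAut.conj n).injective (e.trans hn.symm), fun e => e ▸ hn⟩
  have z : ∀ x ∈ zpowers j, MulAut.conj n x ∈ zpowers j := fun x hx => by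
    have := H2.conj_mem_cj (g := n).2 hx
    rwa [H2.cj_zpowers, hn] at this
  have fj : MulAut.conj n j = j := hn
  refine ⟨?_, ?_, ?_, ?_, ?_⟩
  · rintro _ ⟨a, ha, rfl⟩ e
    exact z a (h.u a ha ((MulAut.conj n).injective (by rw [map_mul, map_one]; exact e)))
  · rintro _ ⟨a, ha, rfl⟩ e _ ⟨c, hc, rfl⟩ e'
    have := z _ (h.c a ha ((f _).1 (by rw [map_mul]; exact e)) c hc ((MulAut.conj n).injective (by
      rw [map_mul, map_mul, map_inv]; exact e')))
    rwa [map_pow] at this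
  · rintro _ ⟨a, ha, rfl⟩ e
    obtain ⟨c, hc, e1, e2⟩ := h.e a ha ((f _).1 (by rw [map_mul]; exact e))
    refine ⟨_, ⟨c, hc, rfl⟩, ?_, ?_⟩
    · have := congrArg (MulAut.conj n) e1
      rwa [map_mul, map_mul, map_inv] at this
    · have := (f _).2 e2
      rwa [map_pow] at this
  · rintro _ ⟨a, ha, rfl⟩ _ ⟨c, hc, rfl⟩ e'
    have := (f _).2 (h.i a ha c hc ((MulAut.conj n).injective (by
      rw [map_mul, map_mul, map_inv, map_mul, fj]; exact e')))
    rwa [map_mul] at this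
  · rintro _ ⟨a, ha, rfl⟩ e
    obtain ⟨c, hc, e1⟩ := h.w a ha ((f _).1 (by rw [map_mul]; exact e))
    refine ⟨_, ⟨c, hc, rfl⟩, ?_⟩
    have := congrArg (MulAut.conj n) e1
    rwa [map_mul, map_mul, map_inv, map_mul, fj] at this

theorem pp {G F : Type*} [Group G] [Finite G] [Field F] [Fintype F] (hF : Odd (Fintype.card F)) {L : Subgroup G}
    (e : L ≃* Matrix.SpecialLinearGroup (Fin 2) F) {j : G} (hj : orderOf j = 2) (hL : j ∈ L)
    (hc : L ≤ centralizer {j}) : ∃ M, PP L j (2 * M) := by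
  obtain ⟨a1, ⟨a, ha, a2⟩, a3⟩ := S3209.sl hF e hj hL
  have jj : j * j = 1 := by rw [← sq, ← hj, pow_orderOf_eq_one]
  have j0 : j ≠ 1 := fun h => by simp [h] at hj
  have cj : ∀ g ∈ L, g * j * g⁻¹ = j := fun g hg => by
    rw [mem_centralizer_singleton_iff.1 (hc hg), mul_inv_cancel_right]
  haveI := Fact.mk Nat.prime_two
  have o4 : orderOf a = 2 ^ 2 := orderOf_eq_prime_pow (by rw [pow_one, pow_two, a2]; exact j0)
    (by rw [show 2 ^ (1 + 1) = 2 * 2 from rfl, pow_mul, pow_two a, a2, pow_two, jj])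
  obtain ⟨M, hM⟩ : 4 ∣ Monoid.exponent ↥(L ⊓ centralizer {a}) := by
    have m : a ∈ L ⊓ centralizer {a} := ⟨ha, mem_centralizer_singleton_iff.2 rfl⟩
    have := Monoid.order_dvd_exponent (⟨a, m⟩ : ↥(L ⊓ centralizer {a}))
    rwa [Subgroup.orderOf_mk, o4] at this
  have M0 : 0 < M := Nat.pos_of_ne_zero fun k => Monoid.exponent_ne_zero_of_finite (by rw [hM, k])
  have p1 : ∀ c ∈ L ⊓ centralizer {a}, c ^ (2 * M) = 1 ∨ c ^ (2 * M) = j := fun c h =>
    a1 _ (pow_mem h.1 _) (by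
      rw [← pow_add, show 2 * M + 2 * M = 4 * M by ring, ← hM]
      exact congrArg Subtype.val (Monoid.pow_exponent_eq_one (⟨c, h⟩ : ↥(L ⊓ centralizer {a}))))
  obtain ⟨c, h1, h2⟩ : ∃ c ∈ L ⊓ centralizer {a}, c ^ (2 * M) = j := by
    by_contra k
    push Not at k
    have := Monoid.exponent_min' (G := ↥(L ⊓ centralizer {a})) (2 * M) (by omega) fun g =>
      Subtype.ext ((p1 g g.2).resolve_right (k g g.2))
    omega
  have two : (2 : F) ≠ 0 := Ring.two_ne_zero fun h => by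
    have := FiniteField.even_card_of_char_two h
    rw [Nat.odd_iff] at hF; omega
  have h3 : e ⟨j, hL⟩ = -1 := (H5.sl2_sq_eq_one two (by
    rw [← map_mul, ← map_one e]; exact congrArg e (Subtype.ext jj))).resolve_left
      fun h => j0 (congrArg Subtype.val (e.map_eq_one_iff.1 h))
  refine ⟨M, fun b hb k => (H2.mem_zp2 jj).2 (a1 b hb k), fun b hb k d hd l => ?_, fun b hb k => ?_,
    fun b hb w hw k => ?_, fun b hb k => a3 b hb _ (L.mul_mem hb hL) k ?_⟩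
  · obtain ⟨g, hg, rfl⟩ := a3 a ha b hb a2 k
    have := p1 (g⁻¹ * d * g⁻¹⁻¹) ⟨L.mul_mem (L.mul_mem (L.inv_mem hg) hd) (L.inv_mem (L.inv_mem hg)),
      mem_centralizer_singleton_iff.2 (by
        calc g⁻¹ * d * g⁻¹⁻¹ * a = g⁻¹ * (d * (g * a * g⁻¹) * d⁻¹) * d * g := by group
          _ = _ := by rw [l]; group)⟩
    rw [conj_pow] at this
    rw [show d ^ (2 * M) = g * (g⁻¹ * d ^ (2 * M) * g⁻¹⁻¹) * g⁻¹ by group, H2.mem_zp2 jj]
    exact this.imp (fun k => by rw [k]; group) fun k => by rw [k, cj g hg]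
  · obtain ⟨g, hg, rfl⟩ := a3 a ha b hb a2 k
    refine ⟨g * c * g⁻¹, L.mul_mem (L.mul_mem hg h1.1) (L.inv_mem hg), ?_, by rw [conj_pow, h2, cj g hg]⟩
    calc _ = g * (c * a) * c⁻¹ * g⁻¹ := by group
      _ = _ := by rw [mem_centralizer_singleton_iff.1 h1.2]; group
  · have := sl_inv two (a := e ⟨b, hb⟩) (w := e ⟨w, hw⟩) (by
      rw [← map_inv, ← map_mul, ← map_mul, ← mul_neg_one, ← h3, ← map_mul]
      exact congrArg e (Subtype.ext k))
    rw [← map_mul, ← h3] at this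
    exact congrArg Subtype.val (e.injective this)
  · calc b * j * (b * j) = b * j * b⁻¹ * (b * b) * j := by group
      _ = j := by rw [cj b hb, k, jj, one_mul]

/-- Let G be a finite group with subgroups L₁ ≅ SL₂(q₁) and L₂ ≅ SL₂(q₂), q₁ and q₂ odd prime powers, which commute elementwise and meet in ⟨j⟩ for an involution j, and suppose L₁L₂ has index 2 in C_G(j). If some n ∈ C_G(j) with n² = j interchanges L₁ and L₂ under conjugation (so that C_G(j) = L₁L₂⟨n⟩), then G = C_G(j)O(G). -/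
theorem result {G : Type*} [Group G] [Finite G]
    {F₁ : Type*} [Field F₁] [Fintype F₁] {F₂ : Type*} [Field F₂] [Fintype F₂]
    (hF₁ : Odd (Fintype.card F₁)) (hF₂ : Odd (Fintype.card F₂)) (L₁ L₂ : Subgroup G)
    (e₁ : ↥L₁ ≃* Matrix.SpecialLinearGroup (Fin 2) F₁) (e₂ : ↥L₂ ≃* Matrix.SpecialLinearGroup (Fin 2) F₂)
    (hc : ∀ x ∈ L₁, ∀ y ∈ L₂, x * y = y * x) (j : G) (hj : orderOf j = 2) (hm : L₁ ⊓ L₂ = Subgroup.zpowers j)
    (hle : L₁ ⊔ L₂ ≤ Subgroup.centralizer ({j} : Set G)) (hi : (L₁ ⊔ L₂).relIndex (Subgroup.centralizer ({j} : Set G)) = 2) (n : G) (hn : n ∈ Subgroup.centralizer ({j} : Set G))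
    (hn2 : n ^ 2 = j) (hswap : L₁.map (MulAut.conj n).toMonoidHom = L₂) :
    Subgroup.centralizer ({j} : Set G) ⊔ Cfsg.oddCore G = ⊤ := by
  have jm := hm.ge (mem_zpowers j)
  have jj : j * j = 1 := by rw [← sq, ← hj, pow_orderOf_eq_one]
  have j0 : j ≠ 1 := fun h => by simp [h] at hj
  have nj : n * j * n⁻¹ = j := by rw [mem_centralizer_singleton_iff.1 hn, mul_inv_cancel_right]
  obtain ⟨M, p1⟩ := pp hF₁ e₁ hj jm.1 (le_sup_left.trans hle)
  have q1 : H2.cj n L₁ = L₂ := hswap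
  have p2 : PP L₂ j (2 * M) := q1 ▸ p1.cj nj
  have q2 : H2.cj n L₂ = L₁ := by rw [← q1, ← H2.cj_mul, ← pow_two, hn2, H2.cj_of_mem jm.1]
  have dec : ∀ x ∈ L₁ ⊔ L₂, ∃ a ∈ L₁, ∃ b ∈ L₂, a * b = x := fun x hx =>
    (H2.mem_sup_of_le_normalizer fun x hx => centralizer_le_normalizer _ fun y hy => (hc x hx y hy).symm).1 hx
  have zp : ∀ x ∈ L₁, x ∈ L₂ → x = 1 ∨ x = j := fun x h1 h2 => (H2.mem_zp2 jj).1 (hm.le ⟨h1, h2⟩)
  have c1 : ∀ x ∈ L₁, x * j = j * x := fun x hx => hc x hx j jm.2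
  have c2 : ∀ x ∈ L₂, x * j = j * x := fun x hx => (hc j jm.1 x hx).symm
  have nL : n ∉ L₁ ⊔ L₂ := fun k => by
    have e : L₁ = L₂ := by
      rw [← q1, H2.cj_eq_iff.2 ((sup_le le_normalizer fun x hx =>
        centralizer_le_normalizer _ fun y hy => hc y hy x hx : L₁ ⊔ L₂ ≤ normalizer (L₁ : Set G)) k)]
    obtain ⟨-, ⟨a, ha, a2⟩, -⟩ := S3209.sl hF₁ e₁ hj jm.1
    rcases zp a ha (e ▸ ha) with k | k
    · exact j0 (by rw [← a2, k, one_mul])
    · exact j0 (by rw [← a2, k, jj])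
  have inv : ∀ y : G, y * j = j * y → y * y = 1 → y ∈ L₁ ⊔ L₂ := fun y hy y2 => by
    by_contra k
    have : y * n⁻¹ ∈ L₁ ⊔ L₂ := (mul_mem_iff_of_index_two hi (a := ⟨y, mem_centralizer_singleton_iff.2 hy⟩)
      (b := ⟨n⁻¹, inv_mem hn⟩)).2 (iff_of_false k fun l => nL (inv_mem_iff.1 l))
    obtain ⟨a, ha, b, hb, e⟩ := dec _ this
    have na : n * a * n⁻¹ ∈ L₂ := q1 ▸ H2.conj_mem_cj.2 ha
    have nb : n * b * n⁻¹ ∈ L₁ := q2 ▸ H2.conj_mem_cj.2 hb
    have e1 : a * (n * b * n⁻¹) * (b * (n * a * n⁻¹)) * j = 1 := by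
      rw [← y2, mul_inv_eq_iff_eq_mul.1 e.symm, ← hn2, pow_two, mul_assoc a, hc _ nb _ (L₂.mul_mem hb na)]
      group
    have e2 : b * (n * (a * (n * b * n⁻¹)) * n⁻¹) * b⁻¹ = b * (n * a * n⁻¹) := by
      calc _ = b * (n * a * n⁻¹) * (n * n * b * (n * n)⁻¹) * b⁻¹ := by group
        _ = _ := by rw [← pow_two, hn2, ← c2 b hb]; group
    rw [← e2] at e1
    rcases zp _ (L₁.mul_mem ha nb) ((eq_inv_of_mul_eq_one_left ((mul_assoc _ _ _).symm.trans e1)) ▸
      L₂.inv_mem (L₂.mul_mem (e2 ▸ L₂.mul_mem hb na) jm.2)) with l | l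
    · rw [l] at e1
      exact j0 (by simpa using e1)
    · rw [l, nj, c2 b hb, mul_inv_cancel_right, jj, one_mul] at e1
      exact j0 e1
  have xs : ∀ x : G, x * j = j * x → orderOf x = 2 → x ≠ j →
      ∃ a ∈ L₁, ∃ b ∈ L₂, a * b = x ∧ a * a = j ∧ b * b = j := fun x hx o n => by
    have x2 : x * x = 1 := by rw [← sq, ← o, pow_orderOf_eq_one]
    obtain ⟨a, ha, b, hb, rfl⟩ := dec x (inv x hx x2)
    have e : a * a * (b * b) = 1 := by rw [← x2, mul_assoc a b, ← mul_assoc b, ← hc a ha b hb]; group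
    rcases zp _ (L₁.mul_mem ha ha) (eq_inv_of_mul_eq_one_left e ▸ L₂.inv_mem (L₂.mul_mem hb hb)) with k | k
    · rw [k, one_mul] at e
      rcases (H2.mem_zp2 jj).1 (mul_mem (p1.u a ha k) (p2.u b hb e)) with l | l
      · rw [l] at o; simp at o
      · exact (n l).elim
    · refine ⟨a, ha, b, hb, rfl, k, ?_⟩
      rwa [k, ← jj, mul_right_inj] at e
  have pw : ∀ x : G, x * j = j * x → orderOf x = 2 → x ≠ j → ∀ y ∈ L₁ ⊔ L₂, y * x = x * y →
      y ^ (2 * M) ∈ zpowers j := fun x hx o n y hy l => by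
    obtain ⟨a, ha, b, hb, rfl, a2, b2⟩ := xs x hx o n
    obtain ⟨c, hc', d, hd, rfl⟩ := dec y hy
    have e : c * a * c⁻¹ * (d * b * d⁻¹) = a * b := by
      calc c * a * c⁻¹ * (d * b * d⁻¹) = c * (a * d) * b * d⁻¹ * c⁻¹ := by
            rw [mul_assoc (c * a), hc _ (inv_mem hc') _ (L₂.mul_mem (L₂.mul_mem hd hb) (inv_mem hd))]; group
        _ = c * d * (a * b) * (c * d)⁻¹ := by rw [hc a ha d hd]; group
        _ = _ := by rw [l]; group
    have e' : a⁻¹ * (c * a * c⁻¹) = b * (d * b * d⁻¹)⁻¹ := by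
      calc _ = a⁻¹ * (c * a * c⁻¹ * (d * b * d⁻¹)) * (d * b * d⁻¹)⁻¹ := by group
        _ = _ := by rw [e]; group
    rcases zp _ (L₁.mul_mem (inv_mem ha) (L₁.mul_mem (L₁.mul_mem hc' ha) (inv_mem hc')))
      (e' ▸ L₂.mul_mem hb (inv_mem (L₂.mul_mem (L₂.mul_mem hd hb) (inv_mem hd)))) with k | k
    · have k1 := (inv_mul_eq_one.1 k).symm
      rw [k1, mul_right_inj] at e
      rw [(show Commute c d from hc c hc' d hd).mul_pow]
      exact mul_mem (p1.c a ha a2 c hc' k1) (p2.c b hb b2 d hd e)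
    · have k1 := inv_mul_eq_iff_eq_mul.1 k
      have k2 : d * b * d⁻¹ = b * j := by
        rw [k1, mul_assoc, mul_right_inj] at e
        rw [c2 b hb]
        exact eq_inv_mul_of_mul_eq e |>.trans (by rw [inv_eq_of_mul_eq_one_right jj])
      rw [pow_mul, (show Commute c d from hc c hc' d hd).mul_pow, pow_two, pow_two, p1.i a ha c hc' k1,
        p2.i b hb d hd k2, jj, one_pow]
      exact one_mem _
  have iso : H4.II j := ⟨hj, fun g hg => by
    by_contra ne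
    obtain ⟨a, ha, b, hb, e, a2, b2⟩ := xs _ hg.eq.symm (by rw [H1.orderOf_conj, hj]) ne
    obtain ⟨c, hc', k1, k2⟩ := p1.e a ha a2
    obtain ⟨u, hu, u1⟩ := p1.w a ha a2
    obtain ⟨v, hv, v1⟩ := p2.w b hb b2
    have back : ∀ s ∈ L₁, s * a * s⁻¹ = a * j → g⁻¹ * (s * v) * g ∈ L₁ ⊔ L₂ := fun s hs l => inv _ (by
      have : s * v * (a * b) * (s * v)⁻¹ = a * b := by
        calc _ = s * (v * a) * b * v⁻¹ * s⁻¹ := by group
          _ = s * a * ((v * b * v⁻¹) * s⁻¹) := by rw [← hc a ha v hv]; group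
          _ = s * a * s⁻¹ * (b * j) := by rw [v1, ← hc _ (inv_mem hs) _ (L₂.mul_mem hb jm.2)]; group
          _ = _ := by rw [l, c2 b hb, mul_assoc, ← mul_assoc j, jj, one_mul]
      calc g⁻¹ * (s * v) * g * j = g⁻¹ * (s * v * (g * j * g⁻¹) * (s * v)⁻¹) * (s * v) * g := by group
        _ = _ := by rw [← e, this, e]; group) (by
      calc _ = g⁻¹ * (s * (v * s) * v) * g := by group
        _ = g⁻¹ * (s * s * (v * v)) * g := by rw [← hc s hs v hv]; group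
        _ = 1 := by rw [p1.i a ha s hs l, p2.i b hb v hv v1, jj]; group)
    have h1 := mul_mem (back (c * u) (L₁.mul_mem hc' hu) (by
      calc _ = c * (u * a * u⁻¹) * c⁻¹ := by group
        _ = c * a * c⁻¹ * (c * j * c⁻¹) := by rw [u1]; group
        _ = _ := by rw [k1, c1 c hc', mul_inv_cancel_right])) (inv_mem (back u hu u1))
    rw [show g⁻¹ * (c * u * v) * g * (g⁻¹ * (u * v) * g)⁻¹ = g⁻¹ * c * g⁻¹⁻¹ by group] at h1
    have ne' : g⁻¹ * j * g⁻¹⁻¹ ≠ j := fun k => ne (by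
      calc g * j * g⁻¹ = g * (g⁻¹ * j * g⁻¹⁻¹) * g⁻¹ := by rw [k]
        _ = j := by group)
    have h2 := pw (g⁻¹ * j * g⁻¹⁻¹) (by
      calc g⁻¹ * j * g⁻¹⁻¹ * j = g⁻¹ * (j * (g * j * g⁻¹)) * g := by group
        _ = _ := by rw [hg.eq]; group) (by rw [H1.orderOf_conj, hj]) ne' _ h1 (by
      calc _ = g⁻¹ * (c * j) * g := by group
        _ = _ := by rw [c1 c hc']; group)
    rw [conj_pow, k2] at h2
    rcases (H2.mem_zp2 jj).1 h2 with k | k
    · exact j0 (conj_eq_one_iff.1 k)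
    · exact ne' k⟩
  refine eq_top_iff.2 fun g _ => ?_
  obtain ⟨o, ho, c, hc, rfl⟩ := iso.exists_mul g
  exact mul_mem (mem_sup_right ho) (mem_sup_left hc)

end Cfsg.Agent.S3211
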