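import Cfsg.Statements.S3213
import Mathlib

set_option autoImplicit false
open Cfsg

namespace Cfsg.Agent.S3213

open scoped Pointwise
abbrev Z5 := ZMod 5
abbrev T4 := Z5 × Z5 × Z5 × Z5
def mm (x y : T4) : T4 := (x.1 * y.1 + x.2.1 * y.2.2.1, x.1 * y.2.1 + x.2.1 * y.2.2.2, x.2.2.1 * y.1 + x.2.2.2 * y.2.2.1, x.2.2.1 * y.2.1 + x.2.2.2 * y.2.2.2)
def II : T4 := (1,0,0,1)

set_option synthInstance.maxSize 2000 in
set_option synthInstance.maxHeartbeats 200000 in
lemma dec1 : ∀ a b c d : Z5, a * d - b * c = 1 → mm (a,b,c,d) (mm (a,b,c,d) (a,b,c,d)) = II → (a,b,c,d) ≠ II →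
    ∃ t : Z5, ∀ P : T4, P = mm (a,b,c,d) (mm (mm (1,t,0,1) (a,b,c,d)) (1,-t,0,1)) → P.1 + P.2.2.2 = -2 ∧ P ≠ (-1,0,0,-1) := by
  simp only [forall_eq]
  decide +kernel

lemma dec2 : ∀ a b c d : Z5, a * d - b * c = 1 → a + d = -2 → (a,b,c,d) ≠ ((-1,0,0,-1) : T4) →
    ∀ Q : T4, Q = mm (a,b,c,d) (a,b,c,d) → Q ≠ II ∧ mm Q (mm Q (mm Q (mm Q Q))) = II := by
  simp only [forall_eq]
  decide +kernel

lemma exy {K : Type*} [Field K] [Fintype K] (hK : Fintype.card K = 5)
    (x : Matrix.SpecialLinearGroup (Fin 2) K) (hx : orderOf x = 3) :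
    ∃ h : Matrix.SpecialLinearGroup (Fin 2) K, (x * (h * x * h⁻¹))^2 ≠ 1 ∧ ((x * (h * x * h⁻¹))^2)^5 = 1 := by
  let e : K ≃+* ZMod 5 := (ZMod.ringEquivOfPrime K (by norm_num) hK).symm
  let T : Matrix.SpecialLinearGroup (Fin 2) K → T4 := fun g => (e (g 0 0), e (g 0 1), e (g 1 0), e (g 1 1))
  have hm : ∀ g h, T (g * h) = mm (T g) (T h) := by
    intro g h
    simp [T, mm, Matrix.mul_apply, Fin.sum_univ_two]
  have hinj : ∀ g h, T g = T h → g = h := by
    intro g h hgh
    simp only [T, Prod.mk.injEq, EmbeddingLike.apply_eq_iff_eq] at hgh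
    ext i j
    fin_cases i <;> fin_cases j <;> simp [hgh]
  have h1 : T 1 = II := by simp [T, II]
  have hdet : ∀ g, (T g).1 * (T g).2.2.2 - (T g).2.1 * (T g).2.2.1 = 1 := by
    intro g
    have := g.det_coe
    rw [Matrix.det_fin_two] at this
    simp only [T]
    rw [← map_mul, ← map_mul, ← map_sub, ← map_one e]
    congr 1
  have hx3 : x * (x * x) = 1 := by
    have := pow_orderOf_eq_one x
    rw [hx] at this
    rw [← this]; simp [pow_succ, mul_assoc]
  have hx1 : x ≠ 1 := by rintro rfl; simp at hx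
  obtain ⟨t, ht⟩ := dec1 (T x).1 (T x).2.1 (T x).2.2.1 (T x).2.2.2 (hdet x)
    (by show mm (T x) (mm (T x) (T x)) = II; rw [← hm, ← hm, hx3, h1]) (fun h => hx1 (hinj _ _ (by rw [h1]; exact h)))
  let u : Matrix.SpecialLinearGroup (Fin 2) K := ⟨!![1, e.symm t; 0, 1], by simp [Matrix.det_fin_two]⟩
  have hu : T u = (1, t, 0, 1) := by simp [T, u]
  have hu' : T u⁻¹ = (1, -t, 0, 1) := by
    rw [Matrix.SpecialLinearGroup.SL2_inv_expl]
    simp [T, u]
  refine ⟨u, ?_⟩
  have hP := ht (T (x * (u * x * u⁻¹))) (by rw [hm, hm, hm, hu, hu'])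
  generalize x * (u * x * u⁻¹) = P at hP ⊢
  have hQ := dec2 (T P).1 (T P).2.1 (T P).2.2.1 (T P).2.2.2 (hdet P) hP.1 hP.2 (T (P^2)) (by rw [pow_two, hm])
  generalize P ^ 2 = Q at hQ ⊢
  refine ⟨fun h => hQ.1 (by rw [h, h1]), hinj _ _ ?_⟩
  rw [h1, ← hQ.2, ← hm, ← hm, ← hm, ← hm]
  congr 1
  simp [pow_succ, mul_assoc]

lemma fix5 {F : Type*} [Field F] [Fintype F] (hF : Fintype.card F = 3)
    (A : Module.End F (Fin 2 ⊕ Fin 2 → F)) (h5 : A ^ 5 = 1) (h1 : A ≠ 1) :
    LinearMap.ker (A - 1) = ⊥ := by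
  classical
  haveI : Fact (Nat.Prime 5) := ⟨by norm_num⟩
  let f : Function.End (Fin 2 ⊕ Fin 2 → F) := fun v => A v
  have hf : f ^ 5 ^ 1 = 1 := by
    funext v
    have : (A ^ 5) v = v := by rw [h5]; rfl
    rw [Module.End.pow_apply] at this
    exact this
  have hmod := Equiv.Perm.card_fixedPoints_modEq hf
  have hc : Fintype.card (Function.fixedPoints f) = 3 ^ Module.finrank F (LinearMap.ker (A - 1)) := by
    rw [← hF, ← Module.card_eq_pow_finrank (K := F) (V := LinearMap.ker (A - 1))]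
    refine Fintype.card_congr (Equiv.subtypeEquivRight ?_)
    intro v
    simp [Function.fixedPoints, Function.IsFixedPt, f, sub_eq_zero]
  have hV : Module.finrank F (Fin 2 ⊕ Fin 2 → F) = 4 := by simp
  have hle := Submodule.finrank_le (LinearMap.ker (A - 1))
  rw [hV] at hle
  rw [hc, Fintype.card_fun, hF] at hmod
  simp only [Fintype.card_sum, Fintype.card_fin] at hmod
  have h04 : Module.finrank F (LinearMap.ker (A - 1)) = 0 ∨ Module.finrank F (LinearMap.ker (A - 1)) = 4 := by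
    generalize Module.finrank F (LinearMap.ker (A - 1)) = c at *
    interval_cases c <;> simp_all [Nat.ModEq]
  rcases h04 with h | h
  · exact Submodule.finrank_eq_zero.1 h
  · exfalso
    have := Submodule.eq_top_of_finrank_eq (h.trans hV.symm)
    exact h1 (sub_eq_zero.1 (LinearMap.ker_eq_top.1 this))

lemma nil3 {F V : Type*} [Field F] [AddCommGroup V] [Module F V] [FiniteDimensional F V] (N : Module.End F V) (h : N ^ 3 = 0) :
    Module.finrank F V ≤ 3 * Module.finrank F (LinearMap.ker N) := by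
  have key : ∀ M : Module.End F V, Module.finrank F (LinearMap.ker (N * M)) ≤ Module.finrank F (LinearMap.ker M) + Module.finrank F (LinearMap.ker N) := by
    intro M
    let W := LinearMap.ker (N * M)
    let g : W →ₗ[F] LinearMap.ker N := (M.domRestrict W).codRestrict (LinearMap.ker N) (fun w => w.2)
    have h1 := g.finrank_range_add_finrank_ker
    have h2 := Submodule.finrank_le (LinearMap.range g)
    have h3 : Module.finrank F (LinearMap.ker g) ≤ Module.finrank F (LinearMap.ker M) := by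
      let k : LinearMap.ker g →ₗ[F] LinearMap.ker M := (W.subtype.domRestrict (LinearMap.ker g)).codRestrict _ (fun w => by
        have := congrArg Subtype.val (LinearMap.mem_ker.1 w.2)
        exact this)
      refine LinearMap.finrank_le_finrank_of_injective (f := k) ?_
      intro a b hab
      have hab' : ((k a : LinearMap.ker M) : V) = (k b : LinearMap.ker M) := congrArg Subtype.val hab
      exact Subtype.ext (Subtype.ext hab')
    show Module.finrank F W ≤ _
    omega
  have a1 := key N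
  have a2 := key (N * N)
  have : N * (N * N) = 0 := by rw [← h]; simp [pow_succ, mul_assoc]
  rw [this] at a2
  have e : LinearMap.ker (0 : Module.End F V) = ⊤ := LinearMap.ker_zero
  rw [e, finrank_top] at a2
  omega

/-- Let F be the field with 3 elements and K the field with 5 elements. For every injective homomorphism φ from SL₂(K) into the symplectic group Sp₄(F) (4 × 4 matrices g with g J gᵀ = J for the standard alternating matrix J) and every element x of order 3 of SL₂(K), the vectors of F⁴ fixed by φ(x) form a 2-dimensional subspace that is totally isotropic for the alternating form defined by J. -/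
theorem result {F : Type*} [Field F] [Fintype F] (hF : Fintype.card F = 3)
    {K : Type*} [Field K] [Fintype K] (hK : Fintype.card K = 5)
    (φ : Matrix.SpecialLinearGroup (Fin 2) K →* ↥(Matrix.symplecticGroup (Fin 2) F)) (hφ : Function.Injective φ)
    (x : Matrix.SpecialLinearGroup (Fin 2) K) (hx : orderOf x = 3) :
    Module.finrank F ↥(LinearMap.ker (Matrix.toLin' ((φ x : Matrix (Fin 2 ⊕ Fin 2) (Fin 2 ⊕ Fin 2) F)) - LinearMap.id)) = 2 ∧
      ∀ v w : Fin 2 ⊕ Fin 2 → F, (φ x : Matrix (Fin 2 ⊕ Fin 2) (Fin 2 ⊕ Fin 2) F).mulVec v = v →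
        (φ x : Matrix (Fin 2 ⊕ Fin 2) (Fin 2 ⊕ Fin 2) F).mulVec w = w →
          dotProduct v ((Matrix.J (Fin 2) F).mulVec w) = 0 := by
  classical
  obtain ⟨h, hy1, hy5⟩ := exy hK x hx
  let ρ : Matrix.SpecialLinearGroup (Fin 2) K →* Module.End F (Fin 2 ⊕ Fin 2 → F) :=
    (Matrix.toLinAlgEquiv' (R := F) (n := Fin 2 ⊕ Fin 2)).toMonoidHom.comp ((Matrix.symplecticGroup (Fin 2) F).subtype.comp φ)
  have hρ : ∀ g, ρ g = Matrix.toLin' (φ g : Matrix (Fin 2 ⊕ Fin 2) (Fin 2 ⊕ Fin 2) F) := fun g => rfl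
  have hρi : Function.Injective ρ := by
    intro a b hab
    rw [hρ, hρ] at hab
    exact hφ (Subtype.ext (Matrix.toLin'.injective hab))
  have hV : Module.finrank F (Fin 2 ⊕ Fin 2 → F) = 4 := by simp
  haveI : CharP F 3 := charP_of_card_eq_prime hF
  have h3 : (3 : F) = 0 := by exact_mod_cast CharP.cast_eq_zero F 3
  have hx3 : ρ x ^ 3 = 1 := by rw [← map_pow, ← hx, pow_orderOf_eq_one, map_one]
  have hN : (ρ x - 1) ^ 3 = 0 := by
    have : (ρ x - 1) ^ 3 = ρ x ^ 3 - 1 - (3 : F) • (ρ x ^ 2 - ρ x) := by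
      have : (3 : F) • (ρ x ^ 2 - ρ x) = (ρ x ^ 2 - ρ x) + (ρ x ^ 2 - ρ x) + (ρ x ^ 2 - ρ x) := by
        rw [show (3 : F) = 1 + 1 + 1 by norm_num, add_smul, add_smul, one_smul]
      rw [this]
      simp only [pow_succ, pow_zero, one_mul, mul_sub, sub_mul, mul_one, mul_assoc]
      abel
    rw [this, hx3, h3]; simp
  have hlow := nil3 _ hN
  rw [hV] at hlow
  have hbot := fix5 hF (ρ ((x * (h * x * h⁻¹))^2)) (by rw [← map_pow, hy5, map_one]) (fun e => hy1 (hρi (by rw [e, map_one])))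
  let W := LinearMap.ker (ρ x - 1)
  have hW : ∀ v, v ∈ W ↔ ρ x v = v := by intro v; simp [W, sub_eq_zero]
  have hinjh : Function.Injective (ρ h) := by
    intro a b hab
    have := congrArg (ρ h⁻¹) hab
    rwa [← Module.End.mul_apply, ← Module.End.mul_apply, ← map_mul, inv_mul_cancel, map_one] at this
  have hW2 : Module.finrank F (W.map (ρ h)) = Module.finrank F W := (Submodule.equivMapOfInjective _ hinjh W).finrank_eq.symm
  have hdis : W ⊓ W.map (ρ h) = ⊥ := by
    rw [eq_bot_iff, ← hbot]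
    rintro v ⟨hv1, w, hw, rfl⟩
    have a1 := (hW _).1 hv1
    have a2 := (hW _).1 hw
    have a3 : ρ (x * (h * x * h⁻¹)) (ρ h w) = ρ h w := by
      rw [← Module.End.mul_apply, ← map_mul, show x * (h * x * h⁻¹) * h = x * (h * x) by group, map_mul, map_mul, Module.End.mul_apply, Module.End.mul_apply, a2, a1]
    rw [LinearMap.mem_ker, LinearMap.sub_apply, pow_two, map_mul, Module.End.mul_apply, a3, a3]; simp
  have hsum := Submodule.finrank_sup_add_finrank_inf_eq W (W.map (ρ h))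
  have hle := Submodule.finrank_le (W ⊔ W.map (ρ h))
  rw [hdis, finrank_bot, hW2] at hsum
  have hW2' : Module.finrank F W = 2 := by
    have : Module.finrank F W = Module.finrank F (LinearMap.ker (ρ x - 1)) := rfl
    omega
  refine ⟨hW2', ?_⟩
  set A : Matrix (Fin 2 ⊕ Fin 2) (Fin 2 ⊕ Fin 2) F := (φ x : Matrix (Fin 2 ⊕ Fin 2) (Fin 2 ⊕ Fin 2) F) with hA
  have hAx : ∀ v, ρ x v = A.mulVec v := fun v => by rw [hρ]; rfl
  have hsym : A.transpose * Matrix.J (Fin 2) F * A = Matrix.J (Fin 2) F := SymplecticGroup.mem_iff'.1 (φ x).2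
  let B : (Fin 2 ⊕ Fin 2 → F) → (Fin 2 ⊕ Fin 2 → F) → F := fun v w => dotProduct v ((Matrix.J (Fin 2) F).mulVec w)
  have hB : ∀ v w, B (A.mulVec v) (A.mulVec w) = B v w := by
    intro v w
    simp only [B]
    conv_rhs => rw [← hsym]
    rw [← Matrix.mulVec_mulVec, ← Matrix.mulVec_mulVec, Matrix.dotProduct_mulVec v, Matrix.vecMul_transpose]
  have hBf : ∀ v w, B v w = v (Sum.inr 0) * w (Sum.inl 0) + v (Sum.inr 1) * w (Sum.inl 1) - v (Sum.inl 0) * w (Sum.inr 0) - v (Sum.inl 1) * w (Sum.inr 1) := by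
    intro v w
    simp [B, dotProduct, Matrix.mulVec, Matrix.J, Fintype.sum_sum_type, Fin.sum_univ_two, Matrix.one_apply]
    ring
  have hr : ∃ r u, r ≠ 0 ∧ r ∈ W ∧ r = (ρ x - 1) u := by
    by_cases h2 : (ρ x - 1) * (ρ x - 1) = 0
    · have hne : ρ x - 1 ≠ 0 := by
        intro e
        have : x = 1 := hρi (by rw [map_one]; exact sub_eq_zero.1 e)
        rw [this] at hx; simp at hx
      obtain ⟨u, hu⟩ : ∃ u, (ρ x - 1) u ≠ 0 := by
        by_contra hc; push Not at hc; exact hne (LinearMap.ext hc)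
      refine ⟨_, u, hu, ?_, rfl⟩
      rw [LinearMap.mem_ker, ← Module.End.mul_apply, h2]; rfl
    · obtain ⟨u, hu⟩ : ∃ u, ((ρ x - 1) * (ρ x - 1)) u ≠ 0 := by
        by_contra hc; push Not at hc; exact h2 (LinearMap.ext hc)
      refine ⟨_, (ρ x - 1) u, hu, ?_, rfl⟩
      rw [LinearMap.mem_ker, ← Module.End.mul_apply, show (ρ x - 1) * ((ρ x - 1) * (ρ x - 1)) = (ρ x - 1) ^ 3 by simp [pow_succ, mul_assoc], hN]; rfl
  obtain ⟨r, u, hr0, hrW, hru⟩ := hr
  have hperp : ∀ v, A.mulVec v = v → B v r = 0 := by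
    intro v hv
    have a1 := hB v u
    rw [hv] at a1
    rw [hru, LinearMap.sub_apply, hAx]
    simp only [B, Module.End.one_apply, Matrix.mulVec_sub, dotProduct_sub] at a1 ⊢
    rw [a1, sub_self]
  intro v w hv hw
  have hvW : v ∈ W := (hW v).2 (by rw [hAx, hv])
  have hwW : w ∈ W := (hW w).2 (by rw [hAx, hw])
  have hdep : ¬ LinearIndependent F (![⟨v, hvW⟩, ⟨w, hwW⟩, ⟨r, hrW⟩] : Fin 3 → W) := by
    intro hli
    have := hli.fintype_card_le_finrank
    rw [hW2'] at this
    simp at this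
  rw [Fintype.not_linearIndependent_iff] at hdep
  obtain ⟨c, hc, i, hi⟩ := hdep
  have hc' : c 0 • v + c 1 • w + c 2 • r = 0 := by
    have := congrArg Subtype.val hc
    simpa [Fin.sum_univ_three] using this
  have p1 := hperp v hv
  have p2 := hperp w hw
  have q := fun j => congrFun hc' j
  simp only [Pi.add_apply, Pi.smul_apply, smul_eq_mul, Pi.zero_apply] at q
  show B v w = 0
  rw [hBf] at p1 p2 ⊢
  by_cases c0 : c 0 = 0
  · by_cases c1 : c 1 = 0
    · exfalso
      have c2 : c 2 ≠ 0 := by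
        fin_cases i
        · exact absurd c0 hi
        · exact absurd c1 hi
        · exact hi
      rw [c0, c1, zero_smul, zero_smul, zero_add, zero_add] at hc'
      exact hr0 ((smul_eq_zero.1 hc').resolve_left c2)
    · apply mul_left_cancel₀ c1
      linear_combination v (Sum.inr 0) * q (Sum.inl 0) + v (Sum.inr 1) * q (Sum.inl 1) - v (Sum.inl 0) * q (Sum.inr 0) - v (Sum.inl 1) * q (Sum.inr 1) - c 2 * p1
  · apply mul_left_cancel₀ c0
    linear_combination w (Sum.inl 0) * q (Sum.inr 0) + w (Sum.inl 1) * q (Sum.inr 1) - w (Sum.inr 0) * q (Sum.inl 0) - w (Sum.inr 1) * q (Sum.inl 1) + c 2 * p2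

end Cfsg.Agent.S3213
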