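import Cfsg.Statements.S3215
import Cfsg.Agent.FT.B3a
import Cfsg.Agent.H1.Gaschutz
import Cfsg.Agent.H1.Misc3

set_option autoImplicit false
open Cfsg

namespace Cfsg.Agent.S3215

open Subgroup H1
open scoped Pointwise commutatorElement

/-- Let H be a finite solvable group with no nontrivial normal subgroup of odd order in which the centralizer of every involution has a normal 2-complement. Let X be a Hall 2'-subgroup of H (odd order, index a power of 2) and Y = O₂(H). Then no non-identity element of X commutes with a non-identity element of Y (so for X ≠ 1 the group XY is a Frobenius group with kernel Y), every Sylow subgroup of X is cyclic, XY is normal in H, and H/XY is a cyclic 2-group. -/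
theorem result {H : Type*} [Group H] [Finite H] (hsol : Group.IsSolvable H)
    (hO : Cfsg.oddCore H = ⊥)
    (hI : ∀ t : H, orderOf t = 2 → Cfsg.HasNormalPComplement 2 ↥(Subgroup.centralizer ({t} : Set H)))
    (X : Subgroup H) (hXodd : Odd (Nat.card X)) (hXidx : ∃ k : ℕ, X.index = 2 ^ k) :
    (∀ x ∈ X, x ≠ 1 → ∀ y ∈ Cfsg.pCore 2 H, y ≠ 1 → x * y ≠ y * x) ∧
      (∀ (p : ℕ) [Fact p.Prime] (P : Sylow p ↥X), IsCyclic ↥(P : Subgroup ↥X)) ∧
      (X ⊔ Cfsg.pCore 2 H).Normal ∧
      ∀ hN : (X ⊔ Cfsg.pCore 2 H).Normal, IsCyclic (H ⧸ (X ⊔ Cfsg.pCore 2 H)) ∧ IsPGroup 2 (H ⧸ (X ⊔ Cfsg.pCore 2 H)) := by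
  set Y := pCore 2 H
  have hY : IsPGroup 2 Y := pCore_isPGroup
  have hC : centralizer (Y : Set H) ≤ Y := centralizer_pCore_le hO
  have o1 : ∀ x ∈ Y, Odd (orderOf x) → x = 1 := fun x hx h => by
    obtain ⟨k, hk⟩ := exists_orderOf_eq_pow hY hx
    rcases k with _ | k
    · exact orderOf_eq_one_iff.1 hk
    · exact absurd (hk ▸ h) (Nat.not_odd_iff_even.2 (even_two.pow_of_ne_zero (by omega)))
  have key : ∀ t x y, orderOf t = 2 → Odd (orderOf x) → Commute x t → y ∈ Y → Commute y t → Commute x y :=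
    fun t x y ht hx h1 hy h2 => by
      obtain ⟨P, N, hN, hc⟩ := hI t ht
      obtain ⟨k, hk⟩ := P.isPGroup'.exists_card_eq
      set a : centralizer {t} := ⟨x, mem_centralizer_singleton_iff.2 h1⟩
      set b : centralizer {t} := ⟨y, mem_centralizer_singleton_iff.2 h2⟩
      have h3 : a ∈ N := mem_of_coprime_index (by
        rw [hc.symm.index_eq_card, hk, ← orderOf_coe]; exact (Nat.coprime_two_right.2 hx).pow_right k)
      have h4 : ⁅a, b⁆ ∈ N := by
        simpa [commutatorElement_def, mul_assoc] using N.mul_mem h3 (hN.conj_mem _ (N.inv_mem h3) b)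
      refine commutatorElement_eq_one_iff_commute.1 (o1 _ (Y.mul_mem (Normal.conj_mem inferInstance _ hy x) (Y.inv_mem hy)) ?_)
      have := N.orderOf_dvd_natCard h4
      rw [← hc.index_eq_card, ← orderOf_coe] at this
      exact Nat.odd_iff.2 (Nat.two_dvd_ne_zero.1 fun h => P.not_dvd_index (h.trans this))
  have inv : ∀ {T : Subgroup H}, IsPGroup 2 T → ∀ y ∈ T, y ≠ 1 → ∃ t ∈ zpowers y, orderOf t = 2 := fun hT y hy y1 => by
    obtain ⟨k, hk⟩ := exists_orderOf_eq_pow hT hy
    exact exists_pow_orderOf_eq (hk ▸ dvd_pow_self 2 fun e => y1 (orderOf_eq_one_iff.1 (by rw [hk, e, pow_zero])))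
  have inv' : ∀ {T : Subgroup (H ⧸ Y)}, IsPGroup 2 T → ∀ y ∈ T, y ≠ 1 → ∃ t ∈ zpowers y, orderOf t = 2 := fun hT y hy y1 => by
    obtain ⟨k, hk⟩ := exists_orderOf_eq_pow hT hy
    exact exists_pow_orderOf_eq (hk ▸ dvd_pow_self 2 fun e => y1 (orderOf_eq_one_iff.1 (by rw [hk, e, pow_zero])))
  have zc : ∀ {x y t : H}, t ∈ zpowers y → x * y = y * x → Commute x t := fun ⟨i, hi⟩ h => hi ▸ Commute.zpow_right h i
  have fp : ∀ R : Subgroup H, Odd (Nat.card R) → Fpf R Y := fun R hR => fpf_iff.2 fun x hx y hy h => by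
    by_contra h0
    push Not at h0
    have ox := hR.of_dvd_nat (R.orderOf_dvd_natCard hx)
    obtain ⟨t, ht, ot⟩ := inv hY y hy h0.2
    refine h0.1 (o1 x (hC (zpowers_le.1 (p_times_q (P := zpowers t) (Q := zpowers x) (hY.to_le (zpowers_le.2
      (zpowers_le.2 hy ht))) (by rw [Nat.card_zpowers]; exact Nat.coprime_two_right.2 ox) hY ?_ le_normalizer_of_normal
      le_normalizer_of_normal fun u hu => ?_))) ox)
    · rw [centralizer_zpowers]; exact zpowers_le.2 (mem_centralizer_singleton_iff.2 (zc ht h).symm)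
    · rw [centralizer_zpowers, mem_centralizer_singleton_iff]
      exact (key t x u ot ox (zc ht h) hu.1 (hu.2 t (mem_zpowers t)).symm).symm
  have cyc : ∀ R : Subgroup H, Odd (Nat.card R) → Group.IsNilpotent R → IsCyclic R := fun R h1 h2 => by
    rcases eq_or_ne Y ⊥ with h | h
    · haveI : Subsingleton H := ⟨fun a b => by
        have : ∀ a : H, a = 1 := fun a => mem_bot.1 (h.le (hC (by rw [h]; simp [mem_centralizer_iff])))
        rw [this a, this b]⟩
      infer_instance
    · exact FT.t3_9_nil le_normalizer_of_normal (fp R h1) h h1 h2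
  let π := QuotientGroup.mk' Y
  have kπ : π.ker = Y := QuotientGroup.ker_mk' Y
  set F := fittingSubgroup (H ⧸ Y)
  have hF : (Nat.card F).Coprime 2 := pPrimeCore_coprime.coprime_dvd_left (card_dvd_of_le
    ((fitting_le_pCore_sup_pPrimeCore 2).trans (by rw [pCore_quotient_pCore, bot_sup_eq])))
  have yF : Y ≤ F.comap π := kπ.ge.trans (ker_le_comap π F)
  have mF : (F.comap π).map π = F := map_comap_eq_self_of_surjective (QuotientGroup.mk'_surjective Y) F
  have rF : Y.relIndex (F.comap π) = Nat.card F := by rw [← card_map_mk', mF]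
  obtain ⟨k0, hk0⟩ := hY.exists_card_eq
  obtain ⟨A, a1, a2, a3, a4⟩ := exists_complement_rel yF le_normalizer_of_normal (by
    rw [rF, hk0]; exact hF.symm.pow_left _)
  rw [rF] at a4
  have aO : Odd (Nat.card A) := a4 ▸ Nat.coprime_two_right.1 hF
  have mA : A.map π = F := by rw [← mF, ← a3, Subgroup.map_sup, (map_eq_bot_iff Y).2 kπ.ge, sup_bot_eq]
  have aC : IsCyclic A := cyc A aO (by
    haveI : Group.IsNilpotent (A.map π) := mA ▸ fitting_isNilpotent
    refine Group.nilpotent_of_mulEquiv (MulEquiv.ofBijective (π.subgroupMap A)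
      ((Nat.bijective_iff_surjective_and_card _).2 ⟨π.subgroupMap_surjective A, by rw [mA, a4]⟩)).symm)
  have fC : IsCyclic F := mA ▸ isCyclic_of_surjective _ (π.subgroupMap_surjective A)
  have cF : centralizer (F : Set (H ⧸ Y)) ≤ F := centralizer_fitting_le
  have dF : ⁅(⊤ : Subgroup (H ⧸ Y)), ⊤⁆ ≤ F := (commutator_le_centralizer_of_isCyclic fC le_normalizer_of_normal).trans cF
  obtain ⟨k, hk⟩ := hXidx
  have xi : (X.map π).index ∣ 2 ^ k := hk ▸ index_map_dvd X (QuotientGroup.mk'_surjective Y)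
  have fX : F ≤ X.map π := by
    have h1 := card_sup_mul_card_inf (H := X.map π) (K := F) le_normalizer_of_normal
    rw [← card_mul_relIndex (le_sup_left : X.map π ≤ X.map π ⊔ F), mul_assoc] at h1
    exact le_sup_right.trans (relIndex_eq_one.1 (Nat.eq_one_of_dvd_coprimes (hF.pow_right k)
      ⟨_, (Nat.eq_of_mul_eq_mul_left Nat.card_pos h1).symm⟩ ((relIndex_dvd_index_of_le le_sup_left).trans xi)))
  have eX : X ⊔ Y = (X.map π).comap π := by rw [comap_map_eq, kπ]
  have nX : (X.map π).Normal := ⟨fun n hn g => by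
    have : ⁅g, n⁆ * n ∈ X.map π := mul_mem (fX (dF (commutator_mem_commutator (mem_top _) (mem_top _)))) hn
    simpa [commutatorElement_def, mul_assoc] using this⟩
  refine ⟨fun x hx x1 y hy y1 h => (fpf_iff.1 (fp X hXodd) x hx y hy h).elim x1 y1, fun p _ P => ?_, eX ▸ nX.comap π, fun hN => ?_⟩
  · have := cyc ((P : Subgroup X).map X.subtype) (hXodd.of_dvd_nat (card_dvd_of_le (map_subtype_le _))) (P.isPGroup'.map _).isNilpotent
    exact isCyclic_of_surjective _ (equivMapOfInjective _ _ X.subtype_injective).symm.surjective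
  have q2 : IsPGroup 2 (H ⧸ (X ⊔ Y)) := by
    obtain ⟨j, -, hj⟩ := (Nat.dvd_prime_pow Nat.prime_two).1 (hk ▸ index_dvd_of_le (le_sup_left : X ≤ X ⊔ Y))
    exact IsPGroup.of_card hj
  refine ⟨?_, q2⟩
  obtain ⟨T⟩ : Nonempty (Sylow 2 (H ⧸ Y)) := inferInstance
  obtain ⟨kt, hkt⟩ := T.isPGroup'.exists_card_eq
  have tC : IsCyclic T := by
    rcases eq_or_ne F ⊥ with h | h
    · haveI : Subsingleton (H ⧸ Y) := ⟨fun a b => by
        have : ∀ a : H ⧸ Y, a = 1 := fun a => mem_bot.1 (h.le (cF (by rw [h]; simp [mem_centralizer_iff])))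
        rw [this a, this b]⟩
      infer_instance
    have y0 : Y ≠ ⊥ := fun e => h (by
      have : (⊤ : Subgroup H) ≤ Y := le_trans (fun a _ => by rw [e]; simp [mem_centralizer_iff]) hC
      rw [← mF]; exact (Subgroup.map_eq_bot_iff _).2 (le_top.trans (this.trans kπ.ge)))
    have tf : (T : Subgroup (H ⧸ Y)) ⊓ F = ⊥ := disjoint_iff.1 (disjoint_of_coprime_natCard (by rw [hkt]; exact hF.symm.pow_left _))
    refine isCyclic_of_fpf' (K := F) ?_ h le_normalizer_of_normal (fpf_iff.2 fun t ht f hf e => ?_)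
    · exact le_centralizer_iff_isMulCommutative.1 (commutator_eq_bot_iff_le_centralizer.1 (le_bot_iff.1 (tf ▸ le_inf
        (commutator_le_of_le_normalizer le_normalizer) ((commutator_mono le_top le_top).trans dF))))
    obtain ⟨a, ha, rfl⟩ := mA.ge hf
    by_contra h0
    push Not at h0
    have oa := aO.of_dvd_nat (A.orderOf_dvd_natCard ha)
    have h1 := centralizer_map_mk' (A := zpowers a) (K := ⊤) (N := Y) le_top (by
      rw [Nat.card_zpowers, hk0]; exact (Nat.coprime_two_right.2 oa).pow_right _) (Or.inl inferInstance)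
    obtain ⟨c, ⟨-, hc⟩, rfl⟩ := h1.le (x := t) ⟨by rw [map_top_of_surjective _ (QuotientGroup.mk'_surjective Y)]; trivial, by
      rw [MonoidHom.map_zpowers, centralizer_zpowers]; exact mem_centralizer_singleton_iff.2 e⟩
    obtain ⟨s, hs, os⟩ := inv' T.isPGroup' _ ht h0.1
    obtain ⟨u, hu, ou⟩ : ∃ u ∈ zpowers c, orderOf u = 2 := exists_pow_orderOf_eq (os ▸ ((orderOf_dvd_of_mem_zpowers hs).trans (orderOf_map_dvd π c)))
    have cu : Commute a u := zc hu (hc a (mem_zpowers a))
    have pu : IsPGroup 2 (zpowers u) := IsPGroup.of_card (n := 1) (by rw [Nat.card_zpowers, ou, pow_one])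
    obtain ⟨⟨y, hy, hy2⟩, y1⟩ := ne_bot_iff_exists_ne_one.1 (inf_centralizer_ne_bot_of_isPGroup hY pu le_normalizer_of_normal y0)
    rcases fpf_iff.1 (fp A aO) a ha y hy (key u a y ou oa cu hy (hy2 u (mem_zpowers u)).symm) with h2 | h2
    · exact h0.2 (by rw [h2, map_one])
    · exact y1 (Subtype.ext h2)
  let φ : H ⧸ Y →* H ⧸ (X ⊔ Y) := QuotientGroup.map Y (X ⊔ Y) (MonoidHom.id H) le_sup_right
  have sφ : Function.Surjective φ := fun x => by
    obtain ⟨x, rfl⟩ := QuotientGroup.mk_surjective x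
    exact ⟨x, rfl⟩
  have e : (T : Subgroup (H ⧸ Y)).map φ = ⊤ := by
    have := (T.mapSurjective sφ).3 (q2.to_subgroup ⊤) le_top
    exact this.symm
  refine isCyclic_of_surjective (φ.comp (T : Subgroup (H ⧸ Y)).subtype) fun x => ?_
  obtain ⟨y, hy, rfl⟩ := e.ge (mem_top x)
  exact ⟨⟨y, hy⟩, rfl⟩

end Cfsg.Agent.S3215
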