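import Cfsg.Statements.S3225
import Cfsg.Agent.H1.Tr2

set_option autoImplicit false
open Cfsg

namespace Cfsg.Agent.S3225

open scoped commutatorElement
open H1

/-- Let G be a finite group of even order with no subgroup of index 2, S a Sylow 2-subgroup of G and M a subgroup of index 2 in S such that, for some n ≥ 1, every element of S outside M has order greater than 2^(n−1). Then every element of S of order 2ⁿ is conjugate in G to an element of M. -/
theorem result {G : Type*} [Group G] [Finite G] (hev : Even (Nat.card G))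
    (hG : ∀ H : Subgroup G, H.index ≠ 2) (S : Sylow 2 G) (M : Subgroup G) (hMS : M ≤ (S : Subgroup G)) (hM : M.relIndex (S : Subgroup G) = 2)
    (n : ℕ) (hn : 1 ≤ n) (hord : ∀ y ∈ (S : Subgroup G), y ∉ M → 2 ^ (n - 1) < orderOf y)
    (x : G) (hx : x ∈ (S : Subgroup G)) (hxn : orderOf x = 2 ^ n) :
    ∃ g : G, g * x * g⁻¹ ∈ M := by
  by_contra hcon
  push Not at hcon
  have hmul : ∀ a ∈ (S : Subgroup G), ∀ b ∈ (S : Subgroup G), (a * b ∈ M ↔ (a ∈ M ↔ b ∈ M)) :=
    fun a ha b hb => Subgroup.mul_mem_iff_of_index_two hM (a := ⟨a, ha⟩) (b := ⟨b, hb⟩)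
  have hc : ⁅(S : Subgroup G), (S : Subgroup G)⁆ ≤ M := by
    rw [Subgroup.commutator_le]
    intro a ha b hb
    rw [commutatorElement_def, hmul _ (mul_mem (mul_mem ha hb) (inv_mem ha)) _ (inv_mem hb),
      hmul _ (mul_mem ha hb) _ (inv_mem ha), hmul _ ha _ hb, inv_mem_iff, inv_mem_iff]
    tauto
  obtain ⟨N, hN, -, h3, -, h4⟩ := H2.exists_transfer_kernel hc
  have hodd : ∀ k, Odd k → ∀ a, a * x ^ k * a⁻¹ ∉ M := fun k hk a h => hcon a (L.mem_of_pow_mem
    (m := k) (by rwa [conj_pow]) (by
      rw [orderOf_conj, hxn]; exact (Nat.coprime_two_left.2 hk).pow_left n))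
  have h5 := h4 x hx (fun k a ha => by
    rw [hmul _ ha _ (inv_mem (pow_mem hx k)), inv_mem_iff]
    rcases Nat.even_or_odd k with ⟨j, rfl⟩ | hk
    · have : orderOf (x ^ (j + j)) ≤ 2 ^ (n - 1) := Nat.le_of_dvd (by positivity) (by
        rw [orderOf_dvd_iff_pow_eq_one, ← pow_mul, ← two_mul, mul_right_comm, ← pow_succ',
          Nat.sub_add_cancel hn, pow_mul, ← hxn, pow_orderOf_eq_one, one_pow])
      exact iff_of_true (by_contra fun e => by
        have := hord _ ha e; rw [orderOf_conj] at this; omega)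
        (by_contra fun e => by have := hord _ (pow_mem hx _) e; omega)
    · exact iff_of_false (hodd k hk a) (by simpa using hodd k hk 1))
  have h6 : x ∉ N := fun h => hodd _ (Nat.not_even_iff_odd.1 (fun h => S.not_dvd_index
    (even_iff_two_dvd.1 h))) 1 (by simpa using h5.1 h)
  rw [hM] at h3
  rcases (Nat.dvd_prime Nat.prime_two).1 h3 with h | h
  · exact h6 (by rw [Subgroup.index_eq_one.1 h]; trivial)
  · exact hG N h

end Cfsg.Agent.S3225
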