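import Cfsg.Statements.S3246
import Cfsg.Agent.H1.Loc

set_option autoImplicit false
open Cfsg

namespace Cfsg.Agent.S3246

open H1

/-- Let G be a finite group whose Sylow 2-subgroup S has a self-centralizing normal subgroup of rank at least 3. Suppose that either every maximal 2-local subgroup of G is 2-constrained with no nontrivial normal subgroup of odd order, or the centralizer of every involution of G is 2-constrained with no nontrivial normal subgroup of odd order. Then S normalizes no nontrivial subgroup of G of odd order and every 2-local subgroup of G is 2-constrained. -/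
theorem result {G : Type*} [Group G] [Finite G]
    (S : Sylow 2 G) (A : Subgroup G) (hA : Cfsg.IsSCN (S : Subgroup G) A) (hA3 : ¬ Cfsg.PRankLE 2 2 ↥A)
    (h : (∀ M : Subgroup G, Cfsg.IsMaximalTwoLocal M → Cfsg.IsPConstrained 2 ↥M ∧ Cfsg.oddCore ↥M = ⊥) ∨
      (∀ t : G, orderOf t = 2 → Cfsg.IsPConstrained 2 ↥(Subgroup.centralizer ({t} : Set G)) ∧
        Cfsg.oddCore ↥(Subgroup.centralizer ({t} : Set G)) = ⊥)) :
    (∀ X : Subgroup G, Odd (Nat.card ↥X) → (S : Subgroup G) ≤ Subgroup.normalizer (X : Set G) → X = ⊥) ∧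
      (∀ T : Subgroup G, IsPGroup 2 ↥T → T ≠ ⊥ → Cfsg.IsPConstrained 2 ↥(Subgroup.normalizer (T : Set G))) := by
  have k : ∀ t : G, orderOf t = 2 → H9.Chp 2 (Subgroup.centralizer ({t} : Set G)) := fun t o => by
    refine H9.chp_iff_Fst.2 (h.elim (fun h => ?_) fun h => H9.Fst_eq_Op_iff''.2
      ⟨H9.isPConstrained_iff.1 (h t o).1, H9.Op'_eq_bot_iff.2 (h t o).2⟩)
    have pt := H9.isPGroup_zpowers_of_orderOf o
    obtain ⟨M, h1, h2, hm⟩ := exists_maximal_ge_of_wellFoundedGT (fun M : Subgroup G => IsTwoLocal M) _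
      ⟨_, pt, fun e => by rw [Subgroup.zpowers_eq_bot.1 e, orderOf_one] at o; omega, rfl⟩
    have h3 := h M ⟨h2, fun N a b => le_antisymm (hm a b) b⟩
    have := H9.Fst_centralizer_eq_Op (H9.Fst_eq_Op_iff''.2 ⟨H9.isPConstrained_iff.1 h3.1, H9.Op'_eq_bot_iff.2 h3.2⟩) pt
      (Subgroup.le_normalizer.trans h1)
    rwa [inf_eq_right.2 ((H9.centralizer_le_normalizer' _).trans h1), H9.centralizer_zpowers] at this
  refine ⟨fun X hX hn => ?_, fun T hT h0 => H9.isPConstrained_iff.2 (play_of_cent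
    (fun x o => (H9.Fst_eq_Op_iff''.1 (H9.chp_iff_Fst.1 (k x o))).1) hT h0)⟩
  have c := Nat.coprime_two_right.2 hX
  obtain ⟨U, h1, h2, h3, h4⟩ := L.exists_normal_elem_two S.isPGroup' hA.1 hA.2.1 (fun e => hA3
    (FT.rk_le_iff.1 ((FT.rk_le_one_of_cyclic e).trans (by norm_num))))
    (.inr (L.comm_of_le_centralizer (hA.2.2.ge.trans inf_le_right)))
  have l := h1.trans hA.1
  refine le_bot_iff.1 (gen_pt h3 (l.trans hn) c h4.ge fun u hu u1 => (eq_bot_of_index
    (T := (S : Subgroup G) ⊓ Subgroup.centralizer (U : Set G)) (k u (orderOf_eq_prime (h3.2 u hu) u1))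
    (H9.cop_of_le c inf_le_left) inf_le_right (S.isPGroup'.to_le inf_le_left) (inf_le_right.trans (cent_le_cent1 hu))
    (H9.normalizer_inf (inf_le_left.trans hn) ((inf_le_right.trans (cent_le_cent1 hu)).trans Subgroup.le_normalizer))
    (H9.syl_top_of_sylow S) ?_).le)
  rw [← H9.relIndex_mul_card_inf (Subgroup.centralizer (U : Set G)) (S : Subgroup G), inf_comm (Subgroup.centralizer (U : Set G)) (S : Subgroup G)]
  exact Nat.mul_le_mul_right _ (L.relIndex_centralizer_le_pow S.isPGroup' 2 l h2 h4)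

end Cfsg.Agent.S3246
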