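import Cfsg.Statements.S3247
import Cfsg.Agent.H1.Loc

set_option autoImplicit false
open Cfsg

namespace Cfsg.Agent.S3247

open H1

/-- Let G be a finite group and p a prime; here a p-local subgroup means the normalizer of a nontrivial p-subgroup, other than G itself. If every p-local subgroup of G that is maximal among p-local subgroups is p-constrained, or if the centralizer of every element of order p of G is p-constrained, then every p-local subgroup of G is p-constrained. -/
theorem result {G : Type*} [Group G] [Finite G] (p : ℕ) [hp : Fact p.Prime]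
    (h : (∀ M : Subgroup G, (∃ T : Subgroup G, IsPGroup p ↥T ∧ T ≠ ⊥ ∧ M = Subgroup.normalizer (T : Set G)) → M ≠ ⊤ →
        (∀ M' : Subgroup G, (∃ T' : Subgroup G, IsPGroup p ↥T' ∧ T' ≠ ⊥ ∧ M' = Subgroup.normalizer (T' : Set G)) → M' ≠ ⊤ → M ≤ M' → M = M') →
        Cfsg.IsPConstrained p ↥M) ∨
      (∀ x : G, orderOf x = p → Cfsg.IsPConstrained p ↥(Subgroup.centralizer ({x} : Set G))))
    (T : Subgroup G) (hT : IsPGroup p ↥T) (hT1 : T ≠ ⊥) (hTG : Subgroup.normalizer (T : Set G) ≠ ⊤) :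
    Cfsg.IsPConstrained p ↥(Subgroup.normalizer (T : Set G)) := by
  refine H9.isPConstrained_iff.2 (h.elim (fun h => ?_) fun h =>
    play_of_cent (fun x o => H9.isPConstrained_iff.1 (h x o)) hT hT1)
  obtain ⟨M, h1, ⟨h2, h3⟩, hm⟩ := exists_maximal_ge_of_wellFoundedGT (fun M : Subgroup G =>
    (∃ T : Subgroup G, IsPGroup p ↥T ∧ T ≠ ⊥ ∧ M = Subgroup.normalizer (T : Set G)) ∧ M ≠ ⊤) _ ⟨⟨T, hT, hT1, rfl⟩, hTG⟩
  have := (H9.local_of_PLay_eq_bot (H9.isPConstrained_iff.1 (h M h2 h3 fun M' a b c => le_antisymm c (hm ⟨a, b⟩ c))) hT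
    (Subgroup.le_normalizer.trans h1)).1
  rwa [inf_eq_right.2 h1] at this

end Cfsg.Agent.S3247
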