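import Cfsg.Statements.S3261
import Cfsg.Agent.H3.Dih

set_option autoImplicit false
open Cfsg

namespace Cfsg.Agent.S3261

open Equiv Equiv.Perm Subgroup in
theorem aux (x : alternatingGroup (Fin 6)) (h : orderOf x = 2) (hs : (x : Perm (Fin 6)).support.card = 4) :
    Nonempty (centralizer ({x} : Set (alternatingGroup (Fin 6))) ≃* DihedralGroup 4) := by
  have o : orderOf (x : Perm (Fin 6)) = 2 := by rwa [orderOf_coe]
  obtain ⟨n, e⟩ := cycleType_prime_order (o ▸ Nat.prime_two)
  have := sum_cycleType (x : Perm (Fin 6))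
  rw [e, hs, o, Multiset.sum_replicate, smul_eq_mul] at this
  rw [show n = 1 by omega, o] at e
  obtain ⟨g, c⟩ := isConj_iff.1 (isConj_iff_cycleType_eq.2 ((show (swap 0 1 * swap 2 3 : Perm (Fin 6)).cycleType = _ by decide).trans e.symm))
  have c1 : Nat.card (centralizer ({x} : Set (alternatingGroup (Fin 6)))) ∣ 16 := by
    have := nat_card_centralizer (x : Perm (Fin 6))
    rw [e] at this
    rw [← H9.card_map_subtype, show 16 = Nat.card (centralizer {(x : Perm (Fin 6))}) by rw [this]; decide]
    exact card_dvd_of_le (map_le_iff_le_comap.2 fun y hy => mem_centralizer_singleton_iff.2 (congrArg Subtype.val (mem_centralizer_singleton_iff.1 hy)))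
  have c2 := card_subgroup_dvd_card (centralizer ({x} : Set (alternatingGroup (Fin 6))))
  rw [nat_card_alternatingGroup, Nat.card_eq_fintype_card (α := Fin 6), Fintype.card_fin] at c2
  have m : ∀ y : Perm (Fin 6), sign y = 1 → y * (swap 0 1 * swap 2 3) = (swap 0 1 * swap 2 3) * y →
      ∃ z : centralizer ({x} : Set (alternatingGroup (Fin 6))), z.1.1 = g * y * g⁻¹ := fun y a b =>
    ⟨⟨⟨g * y * g⁻¹, (alternatingGroup.normal).conj_mem y (mem_alternatingGroup.2 a) g⟩, mem_centralizer_singleton_iff.2 (Subtype.ext (by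
      simp only [Subgroup.coe_mul, ← c, conj_mul, b]))⟩, rfl⟩
  obtain ⟨r, hr⟩ := m (swap 0 3 * swap 0 1 * swap 0 2 * swap 4 5) (by decide) (by decide)
  obtain ⟨s, hs⟩ := m (swap 0 1 * swap 4 5) (by decide) (by decide)
  have o4 : orderOf r = 4 := by
    rw [← orderOf_coe, ← orderOf_coe, hr, H1.orderOf_conj]
    exact orderOf_eq_prime_pow (p := 2) (n := 1) (by decide) (by decide)
  have ns : s ∉ zpowers r := fun d => by
    have := congrArg (fun z => z.1.1) (H1.comm_of_mem (inferInstance : IsMulCommutative (zpowers r)) d (mem_zpowers r))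
    simp only [Subgroup.coe_mul, hr, hs, conj_mul, mul_left_inj, mul_right_inj] at this
    revert this; decide
  refine H5.dih_equiv_of_card (by norm_num) r s o4 (Subtype.ext (Subtype.ext ?_)) (Subtype.ext (Subtype.ext ?_)) ns ?_
  · simp only [Subgroup.coe_mul, hs, conj_mul, Subgroup.coe_one]; rw [show (swap 0 1 * swap 4 5 * (swap 0 1 * swap 4 5) : Perm (Fin 6)) = 1 by decide]; simp
  · simp only [Subgroup.coe_mul, Subgroup.coe_inv, hs, hr, conj_inv, conj_mul, mul_left_inj, mul_right_inj]; decide
  · have c3 := H9.card_lt_of_lt (lt_top_iff_ne_top.2 fun d : zpowers r = ⊤ => ns (d.ge trivial))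
    rw [card_top, Nat.card_zpowers, o4] at c3
    have c4 := Nat.dvd_gcd c1 c2
    have := Nat.le_of_dvd (by decide) c4
    norm_num [Nat.factorial] at c4 this
    interval_cases Nat.card (centralizer ({x} : Set (alternatingGroup (Fin 6)))) <;> simp_all

/-- Let α̃ be an involution of the alternating group A₆ that is a product of two disjoint transpositions (it lies in the centre of a Sylow 2-subgroup of A₆; its centralizer is dihedral of order 8). Let G be a finite group that has no subgroup of index 2 and contains an involution α, central in some Sylow 2-subgroup of G, with C_G(α) ≅ C_{A₆}(α̃). Then G is isomorphic to A₆ or to PSL₂(7). -/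
theorem result {G : Type*} [Group G] [Finite G]
    (hG : ∀ H : Subgroup G, H.index ≠ 2)
    (αt : ↥(alternatingGroup (Fin 6))) (hαt : orderOf αt = 2) (hsupp : (αt : Equiv.Perm (Fin 6)).support.card = 4)
    (α : G) (hα : orderOf α = 2) (S : Sylow 2 G) (hαS : α ∈ (S : Subgroup G)) (hαc : ∀ s ∈ (S : Subgroup G), s * α = α * s)
    (e : ↥(Subgroup.centralizer ({α} : Set G)) ≃* ↥(Subgroup.centralizer ({αt} : Set ↥(alternatingGroup (Fin 6))))) :
    Nonempty (G ≃* ↥(alternatingGroup (Fin 6))) ∨
      (∃ (F : Type) (_ : Field F) (_ : Fintype F), Fintype.card F = 7 ∧ Nonempty (G ≃* Matrix.ProjectiveSpecialLinearGroup (Fin 2) F)) := by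
  exact H3.psl_of_d8 hα (e.trans (aux αt hαt hsupp).some) hG

end Cfsg.Agent.S3261
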