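import Cfsg.Statements.S3266
import Cfsg.Agent.H5.SL2X

set_option autoImplicit false
open Cfsg

namespace Cfsg.Agent.S3266

open H5

variable {F : Type*} [Field F]

theorem Zex {X Y : SL2 F} (hX : X.1.trace = 0) (hY : Y.1.trace = 0) (hs : (X * Y).1.trace ^ 2 ≠ 4) {s1 s2 t : F}
    (h : t ^ 2 = 4 - (X * Y).1.trace ^ 2 - s1 ^ 2 - s2 ^ 2 - (X * Y).1.trace * s1 * s2) :
    ∃ Z : SL2 F, Z.1.trace = 0 ∧ (X * Z).1.trace = s1 ∧ (Y * Z).1.trace = s2 := by
  obtain ⟨a, b, c, d, h1, rfl⟩ := exists_sl2 X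
  obtain ⟨a', b', c', d', h2, rfl⟩ := exists_sl2 Y
  simp only [sl2_mul, sl2_coe, Matrix.trace_fin_two_of] at *
  obtain rfl : d = -a := by linear_combination hX
  obtain rfl : d' = -a' := by linear_combination hY
  generalize hs' : a * a' + b * c' + (c * b' + -a * -a') = s at *
  obtain ⟨e, he⟩ : ∃ e, e * (4 - s ^ 2) = 1 := ⟨(4 - s ^ 2)⁻¹, inv_mul_cancel₀ (sub_ne_zero.2 hs.symm)⟩
  refine ⟨sl2 (e * ((-2 * s1 - s * s2) * a + (-2 * s2 - s * s1) * a' + t * (b * c' - b' * c)))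
    (e * ((-2 * s1 - s * s2) * b + (-2 * s2 - s * s1) * b' + t * (2 * (a * b' - a' * b))))
    (e * ((-2 * s1 - s * s2) * c + (-2 * s2 - s * s1) * c' + t * (2 * (c * a' - c' * a))))
    (-(e * ((-2 * s1 - s * s2) * a + (-2 * s2 - s * s1) * a' + t * (b * c' - b' * c)))) (by grind), by simp, ?_, ?_⟩ <;>
  simp only [sl2_mul, sl2_coe, Matrix.trace_fin_two_of] <;> grind

theorem exm [Fintype F] (hF : 4 ≤ Fintype.card F) (h2 : (2 : F) ≠ 0) (h1 : ¬ IsSquare (-1 : F)) {s : F}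
    (hs : ¬ IsSquare (s ^ 2 - 4)) : ∃ m n t : F, m ≠ 0 ∧ n ≠ 0 ∧ IsSquare (m * n) ∧
      t ^ 2 = -((m ^ 2 + s * m + 1) * (n ^ 2 + s * n + 1)) := by
  have h3 : ∀ a : F, ∃ e : F, (e = 1 ∨ e = -1) ∧ IsSquare (e * a) := fun a => by
    by_cases h : IsSquare a
    exacts [⟨1, Or.inl rfl, by simpa⟩, ⟨-1, Or.inr rfl, isSquare_mul_of_not h1 h⟩]
  obtain ⟨r, hr⟩ := isSquare_mul_of_not h1 hs
  have h4 : s ^ 2 ≠ 4 * 1 := fun e => hs (by simp [e])
  by_cases h : IsSquare (2 + s)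
  · obtain ⟨a, b, e⟩ := exists_binary_eq h4 (δ := -1) (by simp)
    have ha : a ≠ 0 := by rintro rfl; exact h1 ⟨b, by linear_combination -e⟩
    have hb : b ≠ 0 := by rintro rfl; exact h1 ⟨a, by linear_combination -e⟩
    obtain ⟨w, hw⟩ := h
    obtain ⟨m, rfl | rfl, hm⟩ := h3 (a / b)
    · exact ⟨1, a / b, w / b, by simp, by simp [ha, hb], hm, by field_simp; grind⟩
    · have : w ≠ 0 := by rintro rfl; exact h4 (by grind)
      exact ⟨-1, a / b, r / w / b, by simp, by simp [ha, hb], hm, by field_simp; grind⟩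
  · obtain ⟨w, hw⟩ := isSquare_mul_of_not h1 h
    have hw0 : w ≠ 0 := by rintro rfl; exact h4 (by grind)
    obtain ⟨m, k, hm, hk⟩ : ∃ m k : F, m ≠ 0 ∧ m ^ 2 + s * m + 1 = k ^ 2 := by
      by_cases h0 : s = 0
      · classical
        obtain ⟨z, -, hz⟩ := Finset.exists_mem_notMem_of_card_lt_card (s := {0, 1, (-1 : F)}) (t := Finset.univ)
          (Finset.card_le_three.trans_lt (by simp; omega))
        simp only [Finset.mem_insert, Finset.mem_singleton, not_or] at hz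
        have := hz.1
        exact ⟨(z ^ 2 - 1) / (2 * z), (z ^ 2 + 1) / (2 * z), by grind, by rw [h0]; field_simp; ring⟩
      · exact ⟨-s, 1, by simpa, by ring⟩
    obtain ⟨n, rfl | rfl, hn⟩ := h3 m
    · exact ⟨1, m, w * k, by simp, hm, hn, by grind⟩
    · exact ⟨-1, m, r / w * k, by simp, hm, hn, by field_simp; grind⟩

theorem key [Fintype F] (hF : 4 ≤ Fintype.card F) {X Y : SL2 F} (hX : X.1.trace = 0) (hY : Y.1.trace = 0) (hX1 : mkS X ≠ 1)
    (hY1 : mkS Y ≠ 1) : ∃ Z : SL2 F, Z.1.trace = 0 ∧ mkS Z ≠ 1 ∧ Odd (orderOf (mkS (X * Z))) ∧ Odd (orderOf (mkS (Y * Z))) := by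
  have k0 : Odd (orderOf (mkS (X * Y))) → ∃ Z : SL2 F, Z.1.trace = 0 ∧ mkS Z ≠ 1 ∧ Odd (orderOf (mkS (X * Z))) ∧
      Odd (orderOf (mkS (Y * Z))) := fun h => ⟨Y, hY, hY1, h, by rw [(sq_eq_neg_one_iff hY1).2 hY, mkS_neg]; simp⟩
  by_cases h2 : (2 : F) = 0
  · have : CharP F 2 := CharTwo.of_one_ne_zero_of_two_eq_zero one_ne_zero h2
    have he := even_iff_two_eq_zero.2 h2
    have k1 : ∀ g : SL2 F, g.1.trace ≠ 0 → Odd (orderOf (mkS g)) := fun g hg => by
      rcases orderOf_PG 2 (mkS g) with h | h | h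
      · exact (hg (trace_zero_of_orderOf h)).elim
      · exact Odd.of_dvd_nat (Nat.Even.sub_odd (by omega) he odd_one) h
      · exact Odd.of_dvd_nat he.add_one h
    by_cases h : (X * Y).1.trace = 0
    · obtain ⟨a, b, c, d, h1, rfl⟩ := exists_sl2 X
      obtain ⟨a', b', c', d', h1', rfl⟩ := exists_sl2 Y
      simp only [sl2_mul, sl2_coe, Matrix.trace_fin_two_of, mkS_sl2, ne_eq, pg_eq_one_iff] at hX hY hX1 hY1 h
      by_cases hb : b = 0
      · refine ⟨up 1, by rw [trace_up, h2], by simp [mkS_up, aff_eq_one], k1 _ ?_, k1 _ ?_⟩ <;>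
        simp only [sl2_mul, sl2_coe, Matrix.trace_fin_two_of] <;> grind
      · refine ⟨sl2 1 0 1 1 (by simp), by simp; grind, by simp [mkS_sl2, pg_eq_one_iff], k1 _ ?_, k1 _ ?_⟩ <;>
        simp only [sl2_mul, sl2_coe, Matrix.trace_fin_two_of] <;> grind
    · exact k0 (k1 _ h)
  obtain ⟨p, hp⟩ := CharP.exists F
  have : Fact p.Prime := ⟨CharP.char_is_prime F p⟩
  have ho : Odd (Fintype.card F) := Nat.not_even_iff_odd.1 (mt even_iff_two_eq_zero.1 h2)
  have k1 : ∀ g : SL2 F, g.1.trace = 2 → Odd (orderOf (mkS g)) := fun g hg => by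
    obtain ⟨x, hx⟩ := exists_US_of_trace hg
    exact Odd.of_dvd_nat ((Fact.out : p.Prime).odd_of_ne_two ((char_ne_two p).2 h2))
      (orderOf_dvd_of_pow_eq_one (pow_char_UP p (mkS_mem_UP hx)))
  have k2 : ∀ Z : SL2 F, Z.1.trace = 0 → mkS Z ≠ 1 := fun Z h => mkS_ne_one (by simpa [h] using (four_ne_zero' h2).symm)
  by_cases hs : (X * Y).1.trace ^ 2 = 4
  · rcases sq_eq_sq_iff_eq_or_eq_neg.1 (hs.trans (by norm_num : (4 : F) = 2 ^ 2)) with h | h
    · exact k0 (k1 _ h)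
    · exact k0 (mkS_neg (X * Y) ▸ k1 _ (by rw [trace_neg_SL, h, neg_neg]))
  by_cases h1 : IsSquare (-1 : F)
  · obtain ⟨i, hi⟩ := h1
    obtain ⟨Z, a, b, c⟩ := Zex hX hY hs (s1 := 2) (s2 := 2) (t := i * ((X * Y).1.trace + 2)) (by grind)
    exact ⟨Z, a, k2 Z a, k1 _ b, k1 _ c⟩
  have h3 : Fintype.card F % 4 = 3 := by simpa [FiniteField.isSquare_neg_one_iff] using h1
  have k3 : ∀ (g : SL2 F) c, c ^ 2 - g.1.trace * c + 1 = 0 → Odd (orderOf (mkS g)) := fun g c hc => by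
    obtain ⟨x, hx⟩ := (root_of_fix (g := toG g)).2 ⟨c, by
      change c ^ 2 - g.1.trace * c + g.1.det = 0; rw [g.2]; exact hc⟩
    refine Odd.of_dvd_nat ?_ (Subgroup.orderOf_dvd_natCard (MulAction.stabilizer (PG F) x ⊓ PS F) ⟨hx, mkS_mem_PS g⟩)
    have h4 := card_stab_PS x
    obtain ⟨k, hk⟩ : 2 ∣ Fintype.card F - 1 := by omega
    rw [gcd_two_of_odd ho, hk, mul_left_comm] at h4
    rw [Nat.eq_of_mul_eq_mul_left two_pos h4]
    exact ho.mul (Nat.odd_iff.2 (by omega))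
  by_cases h4 : IsSquare ((X * Y).1.trace ^ 2 - 4)
  · obtain ⟨r, hr⟩ := h4
    exact k0 (k3 _ (((X * Y).1.trace + r) / 2) (by field_simp; grind))
  obtain ⟨m, n, t, hm, hn, ⟨u, hu⟩, ht⟩ := exm hF h2 h1 h4
  have hu0 : u ≠ 0 := by rintro rfl; simp [hm, hn] at hu
  obtain ⟨Z, a, b, c⟩ := Zex hX hY hs (s1 := u + u⁻¹) (s2 := m / u + u / m) (t := t / u) (by field_simp; grind)
  exact ⟨Z, a, k2 Z a, k3 _ u (by rw [b]; field_simp; ring), k3 _ (m / u) (by rw [c]; field_simp; ring)⟩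

/-- Let F be a finite field with at least 4 elements and let X be a conjugacy class of involutions of PSL(2, F). The graph on X joining two distinct involutions whose product has odd order is connected and has diameter exactly 2. -/
theorem result {F : Type*} [Field F] [Fintype F] (hF : 4 ≤ Fintype.card F)
    (t : Matrix.ProjectiveSpecialLinearGroup (Fin 2) F) (ht : orderOf t = 2) :
    (SimpleGraph.fromRel fun x y : {x : Matrix.ProjectiveSpecialLinearGroup (Fin 2) F // IsConj t x} =>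
        Odd (orderOf (x.1 * y.1))).Connected ∧
      (SimpleGraph.fromRel fun x y : {x : Matrix.ProjectiveSpecialLinearGroup (Fin 2) F // IsConj t x} =>
        Odd (orderOf (x.1 * y.1))).diam = 2 := by
  have hc : ∀ x : PSL2 F, IsConj t x ↔ orderOf x = 2 := fun x =>
    ⟨fun h => by obtain ⟨c, rfl⟩ := isConj_iff.1 h; rwa [orderOf_conj'], isConj_invol ht⟩
  have hc' : ∀ x : SL2 F, IsConj t x ↔ x.1.trace = 0 ∧ mkS x ≠ 1 := fun x => by
    rw [hc, ← orderOf_psl, psl_mk]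
    refine ⟨fun h => ⟨trace_zero_of_orderOf h, fun e => by simp [e] at h⟩, fun ⟨h1, h2⟩ => orderOf_eq_prime ?_ h2⟩
    rw [sq, ← map_mul, (sq_eq_neg_one_iff h2).2 h1, mkS_neg, map_one]
  generalize hG : SimpleGraph.fromRel _ = G
  have h1 : ∀ x y, G.edist x y ≤ 1 ↔ Odd (orderOf (x.1 * y.1)) := fun x y => by
    rw [SimpleGraph.edist_le_one_iff_adj_or_eq, ← hG, SimpleGraph.fromRel_adj]
    constructor
    · rintro (⟨-, h | h⟩ | rfl)
      · exact h
      · rwa [← orderOf_conj' y.1, ← mul_assoc, mul_assoc _ y.1, mul_inv_cancel, mul_one]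
      · rw [← sq, orderOf_dvd_iff_pow_eq_one.1 ((hc _).1 x.2).dvd]; simp
    · tauto
  obtain ⟨a, b, a1, a2, a3⟩ : ∃ a b : SL2 F, IsConj t a ∧ IsConj t b ∧ IsConj t ↑(a * b) := by
    simp only [hc']
    by_cases h2 : (2 : F) = 0
    · obtain ⟨c, c0, c1⟩ := exists_ne_zero_one (F := F) (by omega)
      refine ⟨up 1, up c, ?_, ?_, ?_⟩ <;> simp [sl2_mul, mkS_sl2, pg_eq_one_iff] <;> grind
    · obtain ⟨a, b, ha, hb, h⟩ := exists_Q8 h2
      have k : ∀ a : SL2 F, a * a = -1 → a.1.trace = 0 ∧ mkS a ≠ 1 := fun a ha => by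
        have : mkS a ≠ 1 := fun e => h2 (H5.neg_one_eq_one_iff.1 (by
          rcases mkS_eq_one_iff.1 e with rfl | rfl <;> simpa using ha.symm))
        exact ⟨(sq_eq_neg_one_iff this).1 ha, this⟩
      exact ⟨a, b, k a ha, k b hb, k _ (by
        calc a * b * (a * b) = (a * b * a⁻¹) * (a * a) * b := by group
          _ = -1 := by rw [h, ha]; simp)⟩
  have h2 : G.ediam = 2 := by
    refine le_antisymm (SimpleGraph.ediam_le_of_edist_le ?_) (le_trans ?_ (G.edist_le_ediam (u := ⟨a, a1⟩) (v := ⟨b, a2⟩)))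
    · rintro ⟨x, hx⟩ ⟨y, hy⟩
      obtain ⟨x, rfl⟩ := QuotientGroup.mk_surjective x
      obtain ⟨y, rfl⟩ := QuotientGroup.mk_surjective y
      obtain ⟨z, z1, z2, z3, z4⟩ := key hF ((hc' x).1 hx).1 ((hc' y).1 hy).1 ((hc' x).1 hx).2 ((hc' y).1 hy).2
      refine (G.edist_triangle (v := ⟨z, (hc' z).2 ⟨z1, z2⟩⟩)).trans ?_
      rw [G.edist_comm (v := ⟨y, hy⟩)]
      exact (add_le_add ((h1 _ _).2 (by rwa [← orderOf_psl])) ((h1 _ _).2 (by rwa [← orderOf_psl]))).trans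
        (le_of_eq one_add_one_eq_two)
    · refine one_add_one_eq_two.symm.le.trans (Order.add_one_le_of_lt (not_le.1 fun h => ?_))
      have := (h1 _ _).1 h
      change Odd (orderOf ((a * b : SL2 F) : PSL2 F)) at this
      rw [(hc _).1 a3] at this
      exact absurd this (by decide)
  have : Nonempty {x : PSL2 F // IsConj t x} := ⟨⟨a, a1⟩⟩
  exact ⟨SimpleGraph.connected_of_ediam_ne_top (by rw [h2]; simp), by rw [SimpleGraph.diam, h2]; rfl⟩


end Cfsg.Agent.S3266
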