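import Cfsg.Statements.S3269
import Cfsg.Agent.H9.LB3

set_option autoImplicit false
open Cfsg

namespace Cfsg.Agent.S3269

/-- Let G be a finite group whose Sylow 2-subgroup S is an internal direct product Q × R with Q generalized quaternion (of order at least 8) and R a subgroup all of whose involutions are central in R. Then G is not simple. In particular no finite simple group has a Sylow 2-subgroup that is a direct product of one or more generalized quaternion groups. -/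
theorem result {G : Type*} [Group G] [Finite G]
    (S : Sylow 2 G) (Q R : Subgroup G) (hQR : Cfsg.IsInternalDirectProduct Q R (S : Subgroup G))
    (n : ℕ) (hn : 1 ≤ n) (eQ : ↥Q ≃* QuaternionGroup (2 ^ n))
    (hR : ∀ r ∈ R, orderOf r = 2 → ∀ s ∈ R, r * s = s * r) :
    ¬ IsSimpleGroup G := by
  open H9 Subgroup in open scoped commutatorElement in
  classical
  intro hs
  obtain ⟨h1, h2, h3, h4, h5⟩ := hQR
  have hS := syl_top_of_sylow S
  have u := u1_of_quat (hS.isP.to_le h1) eQ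
  have c : Q ≤ centralizer (R : Set G) := fun a ha b hb => (h3 a ha b hb).symm
  have nc : ⁅Q, Q⁆ ≠ ⊥ := fun e => by
    have := congrArg eQ (Subtype.ext (le_centralizer_iff'.2 e (eQ.symm (.a 1)).2 _ (eQ.symm (.xa 0)).2) :
      eQ.symm (.xa 0) * eQ.symm (.a 1) = eQ.symm (.a 1) * eQ.symm (.xa 0))
    simp only [map_mul, MulEquiv.apply_symm_apply, QuaternionGroup.xa_mul_a, QuaternionGroup.a_mul_xa, zero_add,
      zero_sub, QuaternionGroup.xa.injEq] at this
    have h : ((2 : ℕ) : ZMod (2 * 2 ^ n)) = 0 := by push_cast; linear_combination this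
    have := Nat.le_of_dvd two_pos ((ZMod.natCast_eq_zero_iff _ _).1 h)
    have := Nat.one_lt_two_pow_iff.2 (show n ≠ 0 by omega)
    omega
  have le : ⁅Q, Q⁆ ≤ Q := commutator_le_of_le le_rfl le_rfl
  obtain ⟨z, hz, o⟩ := exists_orderOf_eq_of_isPGroup ((hS.isP.to_le h1).to_le le) nc
  have uq : ∀ y ∈ Q, orderOf y = 2 → y = z := fun y hy e => ((H1.mem_zpowers_two o).1 (u z (le hz) y hy o
    (e ▸ pow_orderOf_eq_one y))).resolve_left (H1.two_ne e)
  have nQ : (S : Subgroup G) ≤ normalizer (Q : Set G) := h5 ▸ sup_le le_normalizer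
    ((le_centralizer_iff.1 c).trans (centralizer_le_normalizer' _))
  have nR : (S : Subgroup G) ≤ normalizer (R : Set G) := h5 ▸ sup_le (c.trans (centralizer_le_normalizer' _)) le_normalizer
  have zc : z ∈ centralizer ((S : Subgroup G) : Set G) := fun s hs' =>
    mul_inv_eq_iff_eq_mul.1 (uq _ (conj_mem_of_le_normalizer nQ hs' (le hz)) ((orderOf_conj s z).trans o))
  have inv : ∀ y ∈ (S : Subgroup G), orderOf y = 2 → y ∈ centralizer ((S : Subgroup G) : Set G) := fun y hy e => by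
    rw [← h5] at hy
    obtain ⟨a, ha, b, hb, rfl⟩ := (mem_sup_of_le_normalizer (c.trans (centralizer_le_normalizer' _))).1 hy
    have e2 : a * a * (b * b) = 1 := by rw [(show Commute a b from h3 a ha b hb).mul_mul_mul_comm, H1.two_sq e]
    have e3 : b * b = 1 := mem_bot.1 (h4 ▸ mem_inf.2 ⟨eq_inv_of_mul_eq_one_right e2 ▸ inv_mem (mul_mem ha ha), mul_mem hb hb⟩)
    rw [e3, mul_one] at e2
    refine mul_mem ?_ ?_
    · by_cases h : a = 1
      · exact h ▸ one_mem _
      exact uq a ha (H1.two_of e2 h) ▸ zc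
    · by_cases h : b = 1
      · exact h ▸ one_mem _
      rw [← h5, centralizer_sup]
      exact ⟨le_centralizer_iff.1 c hb, fun s hs' => (hR b hb (H1.two_of e3 h) s hs').symm⟩
  have key : ∀ g ∈ normalizer ((S : Subgroup G) : Set G), g * z * g⁻¹ ∈ R ∨ g * z * g⁻¹ = z := fun g hg => by
    refine or_iff_not_imp_left.2 fun h => uq _ ?_ ((orderOf_conj g z).trans o)
    have eg := mem_normalizer_iff_cj.1 hg
    have a1 : cj g Q ≤ S := eg ▸ cj_mono g h1
    have a2 : cj g Q ⊓ R = ⊥ := by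
      by_contra e
      obtain ⟨y, hy, o2⟩ := exists_orderOf_eq_of_isPGroup (hS.isP.to_le (inf_le_right.trans h2)) e
      exact h (by rw [← uq _ (mem_cj.1 hy.1) ((orderOf_conj' g y).trans o2)]; simpa [mul_assoc] using hy.2)
    have a3 : cj g Q ≤ centralizer (R : Set G) := le_centralizer_iff'.2 (le_bot_iff.1 (a2 ▸ commutator_le_inf'
      (a1.trans nR) (h2.trans (eg ▸ cj_le_normalizer g nQ))))
    have a4 := le_inf (a1.trans h5.ge) a3
    rw [dedekind c (Or.inl (c.trans (centralizer_le_normalizer' _)))] at a4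
    have a5 := commutator_mono a4 a4
    rw [← cj_commutator, commutator_sup_central (by
      rw [centralizer_sup]
      exact le_inf (inf_le_left.trans (le_centralizer_iff.1 c)) (inf_le_right.trans (centralizer_anti inf_le_left)))] at a5
    exact le (a5 (conj_mem_cj hz))
  obtain ⟨Z, hZ⟩ : ∃ Z, Z = (S : Subgroup G) ⊓ centralizer ((S : Subgroup G) : Set G) := ⟨_, rfl⟩
  have nZ : normalizer ((S : Subgroup G) : Set G) ≤ normalizer (Z : Set G) :=
    hZ ▸ normalizer_inf le_rfl (normalizer_centralizer le_rfl)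
  have cZ : IsMulCommutative Z := hZ ▸ L.isMulCommutative_inf_centralizer _
  have zZ : z ∈ Z := hZ ▸ ⟨h1 (le hz), zc⟩
  let _ : CommGroup Z := { (inferInstance : Group Z) with mul_comm := cZ.1.1 }
  have := Fintype.ofFinite Z
  obtain ⟨O, hO⟩ : ∃ O : Finset Z, ∀ y, y ∈ O ↔ ∃ g ∈ normalizer ((S : Subgroup G) : Set G), (y : G) = g * z * g⁻¹ :=
    ⟨Finset.univ.filter _, fun y => Finset.mem_filter.trans (and_iff_right (Finset.mem_univ y))⟩
  have zO : ⟨z, zZ⟩ ∈ O := (hO _).2 ⟨1, one_mem _, by simp⟩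
  obtain ⟨w, hw⟩ : ∃ w : Z, w = ∏ y ∈ O, y := ⟨_, rfl⟩
  have w1 : (w : G) ≠ 1 := fun e => by
    have a : ∏ y ∈ O.erase ⟨z, zZ⟩, y ∈ R.subgroupOf Z := prod_mem fun y hy => by
      obtain ⟨g, hg, b⟩ := (hO y).1 (Finset.mem_of_mem_erase hy)
      exact mem_subgroupOf.2 (b ▸ (key g hg).resolve_right fun d => Finset.ne_of_mem_erase hy (Subtype.ext (b.trans d)))
    rw [hw, ← Finset.mul_prod_erase O _ zO, coe_mul, mul_eq_one_iff_eq_inv] at e
    exact H1.two_ne o (mem_bot.1 (h4 ▸ mem_inf.2 ⟨le hz, (show z = _ from e) ▸ inv_mem (mem_subgroupOf.1 a)⟩))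
  have w2 : orderOf (w : G) = 2 := H1.two_of (by
    rw [← coe_mul, hw, ← Finset.prod_mul_distrib, Finset.prod_eq_one, coe_one]
    intro y hy
    obtain ⟨g, -, b⟩ := (hO y).1 hy
    exact Subtype.ext (H1.two_sq (b ▸ (orderOf_conj g z).trans o))) w1
  have w3 : ∀ g ∈ normalizer ((S : Subgroup G) : Set G), g * w * g⁻¹ = w := fun g hg => by
    obtain ⟨f, hf⟩ : ∃ f : Z ≃* Z, ∀ y, (f y : G) = g * y * g⁻¹ := ⟨Z.normalizerMonoidHom ⟨g, nZ hg⟩, fun _ => rfl⟩
    rw [← hf, hw, map_prod]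
    congr 1
    refine Finset.prod_equiv f.toEquiv (fun y => ?_) fun _ _ => rfl
    simp only [hO, MulEquiv.toEquiv_eq_coe, EquivLike.coe_coe, hf]
    exact ⟨fun ⟨k, hk, b⟩ => ⟨g * k, mul_mem hg hk, by rw [b]; group⟩, fun ⟨k, hk, b⟩ => ⟨g⁻¹ * k,
      mul_mem (inv_mem hg) hk, by
        rw [show g⁻¹ * k * z * (g⁻¹ * k)⁻¹ = g⁻¹ * (k * z * k⁻¹) * g by group, ← b]; group⟩⟩
  have wS : (w : G) ∈ (S : Subgroup G) := (hZ ▸ inf_le_left : Z ≤ _) w.2
  have a := inZ_iff.1 (zstar_elt G w (iso_of_syl hS wS fun g hg => by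
    obtain ⟨k, hk, b⟩ := S.conj_eq_normalizer_conj_of_mem_centralizer w g⁻¹ (inv _ wS w2)
      (by simpa using inv _ hg ((orderOf_conj g _).trans w2))
    simpa [w3 _ (inv_mem hk)] using b.trans (by simpa using w3 _ (inv_mem hk))) (isPGroup_zpowers_of_orderOf w2))
  have a2 : Op' 2 (⊤ : Subgroup G) = ⊥ := (normal_of_top_le (le_normalizer_Op' 2 ⊤)).eq_bot_or_eq_top.resolve_right
    fun e => cop_iff.1 (Op'_cop 2 ⊤) (w2 ▸ orderOf_dvd_card_of_mem (e ▸ mem_top (w : G)))
  have a3 := le_centralizer_iff.1 (le_centralizer_iff'.2 (le_bot_iff.1 (a.trans a2.le))) (mem_zpowers _)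
  rcases (normal_of_top_le (normalizer_centralizer (le_normalizer (H := (⊤ : Subgroup G))))).eq_bot_or_eq_top with e | e
  · exact w1 (mem_bot.1 (e ▸ a3))
  · exact nc (le_centralizer_iff'.1 (le_top.trans (e.ge.trans (centralizer_anti le_top))))

end Cfsg.Agent.S3269
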