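import Cfsg.Statements.S3276
import Cfsg.Agent.H1.Invol
import Cfsg.Agent.L.PG1
import Cfsg.Agent.H9.Basic

set_option autoImplicit false
open Cfsg

namespace Cfsg.Agent.S3276

open H9 Subgroup
open scoped commutatorElement

/-- Let x and y be commuting, non-conjugate involutions of a finite group G, and suppose that for every involution u commuting with x, each conjugate of y that commutes with u also commutes with y. Then the normal closure of y is a proper, normal, elementary abelian 2-subgroup of G; and if y is the only involution of that normal closure commuting with x, it has order at most 4. -/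
theorem result {G : Type*} [Group G] [Finite G] (x y : G) (hx : orderOf x = 2) (hy : orderOf y = 2)
    (hxy : Commute x y) (hnc : ¬ IsConj x y)
    (hstar : ∀ u : G, orderOf u = 2 → Commute u x → ∀ g : G, Commute (g * y * g⁻¹) u → Commute (g * y * g⁻¹) y) :
    Subgroup.normalClosure ({y} : Set G) ≠ ⊤ ∧ Cfsg.IsElementaryAbelian 2 (Subgroup.normalClosure ({y} : Set G)) ∧
      ((∀ u ∈ Subgroup.normalClosure ({y} : Set G), orderOf u = 2 → Commute u x → u = y) →
        Nat.card ↥(Subgroup.normalClosure ({y} : Set G)) ≤ 4) := by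
  have hxx : x * x = 1 := by rw [← pow_two, ← hx, pow_orderOf_eq_one]
  have hyy : y * y = 1 := by rw [← pow_two, ← hy, pow_orderOf_eq_one]
  have h1 : ∀ g : G, Commute (g * y * g⁻¹) y := fun g => by
    obtain ⟨z, -, hz, h1, h2⟩ := H1.pair_not_isConj hxx (y := g * y * g⁻¹)
      (by rw [conj_mul, hyy]; simp) fun h => hnc (h.trans (isConj_iff.2 ⟨g, rfl⟩).symm)
    exact hstar z hz h1 g h2.symm
  have hc : IsMulCommutative (normalClosure ({y} : Set G)) := by
    refine L.comm_of_le_centralizer (normalClosure_le_normal (Set.singleton_subset_iff.2 ?_))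
    refine le_centralizer_singleton_iff.1 ((closure_le _).2 fun a ha => ?_)
    obtain ⟨b, rfl, hb⟩ := Group.mem_conjugatesOfSet_iff.1 ha
    obtain ⟨g, rfl⟩ := isConj_iff.1 hb
    exact mem_centralizer_singleton_iff.2 (h1 g)
  have he : ∀ a ∈ normalClosure ({y} : Set G), a ^ 2 = 1 := fun a ha => by
    refine L.omegaOne_exp_of_comm hc ((closure_le (omegaOne 2 (normalClosure ({y} : Set G)))).2 (fun a ha => ?_) ha)
    refine L.mem_omegaOne (subset_closure ha) ?_
    obtain ⟨b, rfl, hb⟩ := Group.mem_conjugatesOfSet_iff.1 ha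
    obtain ⟨g, rfl⟩ := isConj_iff.1 hb
    rw [conj_pow, pow_two, hyy]; simp
  refine ⟨fun h => ?_, ⟨hc, he⟩, fun h => ?_⟩
  · have hy' : (zpowers y).Normal := ⟨fun a ha g => by
      have : Commute g a := comm_of_mem_centralizer (L.le_centralizer_of_comm hc (h ▸ mem_top a)) (h ▸ mem_top g)
      rwa [this.eq, mul_inv_cancel_right]⟩
    have : x ∈ zpowers y := normalClosure_le_normal (Set.singleton_subset_iff.2 (mem_zpowers y)) (h ▸ mem_top x)
    rcases (H1.mem_zpowers_two hy).1 this with rfl | rfl
    · simp at hx
    · exact hnc (IsConj.refl _)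
  · have h2 : normalClosure ({y} : Set G) ⊓ centralizer {x} ≤ zpowers y := fun u hu => by
      by_cases h0 : u = 1
      · rw [h0]; exact one_mem _
      rw [h u hu.1 (orderOf_eq_prime (he u hu.1) h0) (mem_centralizer_singleton_iff.1 hu.2)]
      exact mem_zpowers y
    have h3 := L.relIndex_centralizer_le (L := normalClosure ({y} : Set G)) (N := zpowers y) (x := x) fun g hg => by
      have hm : x * g * x⁻¹ ∈ normalClosure ({y} : Set G) := Normal.conj_mem inferInstance g hg x
      refine h2 ⟨Subgroup.mul_mem _ hm (Subgroup.inv_mem _ hg), mem_centralizer_singleton_iff.2 ?_⟩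
      have e1 : g⁻¹ = g := inv_eq_of_mul_eq_one_right (by rw [← pow_two, he g hg])
      have e2 : x⁻¹ = x := inv_eq_of_mul_eq_one_right hxx
      have := comm_of_mem_centralizer (L.le_centralizer_of_comm hc hm) hg
      rw [commutatorElement_def, e1, ← mul_assoc, ← mul_assoc, ← mul_assoc, hxx, one_mul, ← this, e2]
      simp [mul_assoc, hxx]
    have h4 := card_le_of_le h2
    rw [← H1.card_inf_mul_relIndex (centralizer {x}), inf_comm]
    rw [Nat.card_zpowers, hy] at h3 h4
    exact Nat.mul_le_mul h4 h3

end Cfsg.Agent.S3276
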