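import Cfsg.Statements.S3277
import Cfsg.Agent.H3.K4

set_option autoImplicit false
open Cfsg

namespace Cfsg.Agent.S3277

open H3 Subgroup

/-- Let G be a finite group containing an involution whose centralizer is elementary abelian of order 4. If G has no normal 2-complement and no normal elementary abelian 2-subgroup of order 2 or 4, then G is isomorphic to the alternating group of degree 5 (that is, to PSL(2, 5)). -/
theorem result {G : Type*} [Group G] [Finite G] (x : G) (hx : orderOf x = 2)
    (hC4 : Nat.card ↥(Subgroup.centralizer ({x} : Set G)) = 4) (hCe : ∀ c ∈ Subgroup.centralizer ({x} : Set G), c ^ 2 = 1)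
    (hnc : ¬ Cfsg.HasNormalPComplement 2 G)
    (hne : ∀ E : Subgroup G, E.Normal → Cfsg.IsElementaryAbelian 2 E → Nat.card ↥E ≠ 2 ∧ Nat.card ↥E ≠ 4) :
    Nonempty (G ≃* ↥(alternatingGroup (Fin 5))) := by
  have hK := H1.isKleinFour_of hC4 fun c hc => by rw [← sq]; exact hCe c hc
  have hxc : x ∈ centralizer {x} := mem_centralizer_singleton_iff.2 rfl
  obtain ⟨S, hS, e | ⟨n, a, b, h, h'⟩⟩ := k4_syl le_rfl hK (by simp) hxc
  · have ho := od_of_not_npc S (e ▸ hK) hnc
    refine (alt_of_klein hx hK (e ▸ H9.syl_top_of_sylow S) (e ▸ ho)).resolve_right fun ⟨f⟩ => ?_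
    have hc : Nat.card G = 12 := by
      rw [Nat.card_congr f.toEquiv]; exact alternatingGroup.card_of_card_eq_four (by simp)
    haveI := alternatingGroup.normal_kleinFour (α := Fin 4) (by simp)
    have k := alternatingGroup.kleinFour_isKleinFour (α := Fin 4) (by simp)
    refine (hne ((alternatingGroup.kleinFour (Fin 4)).comap f.toMonoidHom) inferInstance
      ⟨H1.isMulCommutative_of_comm fun u hu v hv => f.injective ?_, fun u hu => f.injective ?_⟩).2 ?_
    · rw [map_mul, map_mul]; exact H1.comm_of_mem (H1.klein_comm k) hu hv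
    · rw [map_pow, map_one, sq]; exact H1.klein_sq k hu
    · have := ((alternatingGroup.kleinFour (Fin 4)).comap f.toMonoidHom).card_mul_index
      have h2 := (alternatingGroup.kleinFour (Fin 4)).card_mul_index
      rw [index_comap_of_surjective _ f.surjective, hc] at this
      rw [k.card_four, ← Nat.card_congr f.toEquiv, hc] at h2
      rw [show (alternatingGroup.kleinFour (Fin 4)).index = 3 by omega] at this
      omega
  exfalso
  set z := a ^ 2 ^ n with hz
  have oz := h.oz
  have xS := hS hxc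
  have xa : x ∉ zpowers a := fun e => h' (h.eq_z e hx ▸ IsConj.refl x)
  have xz : x ≠ z := fun e => xa (e ▸ H1.MC.z_mem)
  have zc : z ∈ centralizer {x} := mem_centralizer_singleton_iff.2 (h.z_comm xS).eq.symm
  have hV := fun y => H1.klein_mem hK zc hxc (H1.two_ne oz) (H1.two_ne hx) xz.symm (x := y)
  obtain ⟨c, -, hc⟩ := h.conj_out xS xa h.z_mem_sq
  have cz : IsConj x (z * x) := isConj_iff.2 ⟨c, hc⟩
  have k1 : ∀ y, IsConj z y → y ∈ centralizer {x} → y = z := fun y hy hc => by
    rcases hV y hc with e | e | e | e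
    · rw [e] at hy; exact absurd (isConj_one_left.1 hy) (H1.two_ne oz)
    · exact e
    · exact absurd (e ▸ hy.symm) h'
    · exact absurd (cz.trans (e ▸ hy.symm)) h'
  have hC2 : centralizer {x} = centralizer {z * x} := by
    refine H1.eq_of_le_of_card_eq (fun y hy => mem_centralizer_singleton_iff.2
      (H1.comm_of_mem (H1.klein_comm hK) hy (mul_mem zc hxc))) ?_
    rw [← hc]; exact (H4.C1_conj c x ▸ H1.card_conj_smul c _).symm
  have k2 : ∀ y, IsConj z y → Commute y z := fun y hy => by
    have oy : orderOf y = 2 := by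
      obtain ⟨g, rfl⟩ := isConj_iff.1 hy
      exact ((MulAut.conj g).orderOf_eq z).trans oz
    obtain ⟨w, -, ow, w1, w2⟩ := H1.pair_not_isConj (H1.two_sq hx) (H1.two_sq oy) fun e => h' (e.trans hy.symm)
    rcases hV w (mem_centralizer_singleton_iff.2 w1) with e | e | e | e
    · exact absurd e (H1.two_ne ow)
    · exact e ▸ w2.symm
    · rw [k1 y hy (mem_centralizer_singleton_iff.2 (e ▸ w2.symm.eq))]
    · rw [k1 y hy (hC2 ▸ mem_centralizer_singleton_iff.2 (e ▸ w2.symm.eq))]
  set E := normalClosure ({z} : Set G)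
  have k3 : ∀ y ∈ Group.conjugatesOfSet ({z} : Set G), ∀ y' ∈ Group.conjugatesOfSet ({z} : Set G), y * y' = y' * y := by
    intro y hy y' hy'
    simp only [Group.mem_conjugatesOfSet_iff, Set.mem_singleton_iff, exists_eq_left] at hy hy'
    obtain ⟨g, rfl⟩ := isConj_iff.1 hy'
    have := (k2 (g⁻¹ * y * g) (hy.trans (isConj_iff.2 ⟨g⁻¹, by group⟩))).eq
    calc _ = g * (g⁻¹ * y * g * z) * g⁻¹ := by group
      _ = _ := by rw [this]; group
  have hE : IsMulCommutative E := isMulCommutative_closure k3
  have hE2 : ∀ y ∈ E, y ^ 2 = 1 := fun y hy => by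
    induction hy using closure_induction with
    | mem y hy =>
      simp only [Group.mem_conjugatesOfSet_iff, Set.mem_singleton_iff, exists_eq_left] at hy
      obtain ⟨g, rfl⟩ := isConj_iff.1 hy
      rw [conj_pow, ← oz, pow_orderOf_eq_one]; group
    | one => simp
    | mul u v hu hv a b => rw [Commute.mul_pow (H1.comm_of_mem hE hu hv), a, b, one_mul]
    | inv u _ a => rw [inv_pow, a, inv_one]
  have hp : IsPGroup 2 E := fun y => ⟨1, Subtype.ext (hE2 y y.2)⟩
  have ES : E ≤ S := (H1.le_pCore hp).trans (H1.pCore_le_sylow S)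
  have zE : z ∈ E := subset_normalClosure rfl
  have k4 : E ⊓ zpowers a = zpowers z := by
    refine le_antisymm (fun y hy => h.mem_z.2 ?_) (zpowers_le.2 ⟨zE, H1.MC.z_mem⟩)
    by_cases e : y = 1
    · exact Or.inl e
    · exact Or.inr (h.eq_z hy.2 (H1.two_of (by rw [← sq]; exact hE2 y hy.1) e))
  have k5 := H1.card_mul_relIndex (inf_le_left : E ⊓ zpowers a ≤ E)
  obtain ⟨n1, n2⟩ := hne E inferInstance ⟨hE, hE2⟩
  by_cases e : E ≤ zpowers a
  · rw [inf_eq_left.2 e] at k4
    exact n1 (by rw [k4, Nat.card_zpowers, oz])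
  · obtain ⟨t, t1, t2⟩ := SetLike.not_le_iff_exists.1 e
    rw [h.inf_relIndex ES t1 t2, k4, Nat.card_zpowers, oz] at k5
    exact n2 k5.symm

end Cfsg.Agent.S3277
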