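import Cfsg.Statements.S3278
import Cfsg.Agent.H3.K4
import Cfsg.Agent.H5.SmallGp

set_option autoImplicit false
open Cfsg

namespace Cfsg.Agent.S3278

open H3 Subgroup

/-- Let G be a finite simple group with an involution x such that a Sylow 2-subgroup of C_G(x) is a Klein four-group which is normal in C_G(x). Then G is isomorphic to the alternating group of degree 5 (that is, to PSL(2, 5)). -/
theorem result {G : Type*} [Group G] [Finite G] [IsSimpleGroup G] (x : G) (hx : orderOf x = 2)
    (S₀ : Subgroup G) (hle : S₀ ≤ Subgroup.centralizer ({x} : Set G)) (hK : IsKleinFour ↥S₀)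
    (hodd : ¬ 2 ∣ S₀.relIndex (Subgroup.centralizer ({x} : Set G))) (hn : (S₀.subgroupOf (Subgroup.centralizer ({x} : Set G))).Normal) :
    Nonempty (G ≃* ↥(alternatingGroup (Fin 5))) := by
  have hx2 : IsPGroup 2 (zpowers x) := IsPGroup.of_card (n := 1) (by rw [Nat.card_zpowers, hx]; rfl)
  have hN : centralizer {x} ≤ normalizer (S₀ : Set G) := (normal_subgroupOf_iff_le_normalizer hle).1 hn
  have hV : H1.IsSylowIn 2 S₀ (centralizer {x}) := ⟨hle, H1.klein_pg hK, hodd⟩
  have hxc : x ∈ centralizer {x} := mem_centralizer_singleton_iff.2 rfl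
  have hxV : x ∈ S₀ := hV.le_of_le_normalizer hx2 (zpowers_le.2 hxc) (zpowers_le.2 (hN hxc)) (mem_zpowers x)
  have h4 : 4 ∣ Nat.card G := hK.card_four ▸ card_subgroup_dvd_card S₀
  have hnc : ¬ IsMulCommutative G := fun h => by
    have : (Nat.card G).Prime := by
      letI : CommGroup G := { mul_comm := h.1.1 }
      exact IsSimpleGroup.prime_card
    rcases (Nat.dvd_prime this).1 h4 with e | e
    · omega
    · rw [← e] at this; exact absurd this (by norm_num)
  obtain ⟨a, -, -⟩ := simple_facts hnc hx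
  obtain ⟨S, -, rfl | ⟨n, c, d, h, h'⟩⟩ := k4_syl hle hK hodd hxV
  swap
  · exact absurd (mc_conj h (H9.syl_top_of_sylow S) a hx) h'
  have ho := od_of_not_npc S hK fun h => hnc ⟨⟨H1.comm_of_simple_of_isPGroup
    (H1.isPGroup_of_hasNPC_of_simple h (Dvd.dvd.trans (by norm_num) h4))⟩⟩
  have hone : ∀ s t : G, orderOf s = 2 → orderOf t = 2 → IsConj s t := fun s t hs ht => by
    obtain ⟨s', a1, a2, a3⟩ := H1.exists_isConj_mem S (k := 1) hs
    obtain ⟨t', b1, b2, b3⟩ := H1.exists_isConj_mem S (k := 1) ht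
    exact a2.trans ((H1.klein_od_conj hK ho a1 b1 (H1.two_ne a3) (H1.two_ne b3)).trans b2.symm)
  have hC : centralizer {x} = centralizer ((S : Subgroup G) : Set G) := by
    refine le_antisymm ((H2.IsSylowIn.Op_sup ⟨hV.1, hV.2, hV.3⟩).ge.trans (sup_le ?_ ?_))
      (centralizer_le (Set.singleton_subset_iff.2 hxV))
    · refine H2.Op_le_iff.2 fun g hg ho => by_contra fun hc => H1.klein_not_fix hK (hN hg) ho hc hxV
        (H1.two_ne hx) ?_
      rw [mem_centralizer_singleton_iff.1 hg, mul_inv_cancel_right]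
    · exact le_centralizer_iff_isMulCommutative.2 (H1.klein_comm hK)
  obtain ⟨h5, hG⟩ := k4_le S hK hone hx hC
  have hne : normalizer ((S : Subgroup G) : Set G) ≠ ⊤ := fun e => by
    rcases (normalizer_eq_top_iff.1 e).eq_bot_or_eq_top with e | e
    · rw [e] at hxV; exact H1.two_ne hx hxV
    · exact hnc ⟨⟨fun a b => H1.comm_of_mem (H1.klein_comm hK) (e ▸ mem_top a) (e ▸ mem_top b)⟩⟩
  have h6 := H1.card_dvd_factorial_index hne
  have h7 := S.not_dvd_index
  have h8 := S.1.card_mul_index
  have h9 : ¬ 2 ∣ (normalizer ((S : Subgroup G) : Set G)).index := fun e =>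
    h7 (e.trans (index_dvd_of_le le_normalizer))
  have h10 : 4 ∣ Nat.card (centralizer ((S : Subgroup G) : Set G)) := by
    rw [← hK.card_four, ← hC]; exact card_dvd_of_le hle
  rw [hK.card_four] at h8
  refine H5.simple_sixty ?_
  generalize (normalizer ((S : Subgroup G) : Set G)).index = n at *
  have := Nat.le_of_dvd n.factorial_pos h6
  have := h4.trans h6
  interval_cases n <;> simp only [Nat.factorial] at * <;> omega

end Cfsg.Agent.S3278
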