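import Cfsg.Statements.S3279
import Cfsg.Agent.H3.Dih

set_option autoImplicit false
open Cfsg

namespace Cfsg.Agent.S3279

/-- Let G be a finite simple group and x an involution of G whose centralizer contains at most three involutions. Then C_G(x) contains a Sylow 2-subgroup of G, and all involutions of G are conjugate. -/
theorem result {G : Type*} [Group G] [Finite G] [IsSimpleGroup G] (x : G) (hx : orderOf x = 2)
    (h3 : Nat.card {u : ↥(Subgroup.centralizer ({x} : Set G)) // orderOf u = 2} ≤ 3) :
    (∃ S : Sylow 2 G, (S : Subgroup G) ≤ Subgroup.centralizer ({x} : Set G)) ∧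
      ∀ u v : G, orderOf u = 2 → orderOf v = 2 → IsConj u v := by
  by_cases c : IsMulCommutative G
  · obtain ⟨S⟩ : Nonempty (Sylow 2 G) := inferInstance
    refine ⟨⟨S, fun y _ => Subgroup.mem_centralizer_singleton_iff.2 (c.1.1 _ _)⟩, fun u v a b => ?_⟩
    have : Subgroup.zpowers u = ⊤ := ((Subgroup.zpowers u).normal_of_isMulCommutative.eq_bot_or_eq_top).resolve_left (by simpa using H1.two_ne a)
    rw [((H1.mem_zpowers_two a).1 (this.ge (Subgroup.mem_top v))).resolve_left (H1.two_ne b)]
  obtain ⟨a, b, d⟩ := H3.simple_facts c hx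
  have h := fun R e f u => H3.comm_of_three (R := R) (u := u) h3 e f
  obtain ⟨S, s, e⟩ := H3.three_cent a b d hx h
  obtain ⟨T, f⟩ := s.exists_sylow_top
  exact ⟨⟨T, f ▸ e⟩, fun u v c1 c2 => (H3.three_conj b d hx s e h c1).symm.trans (H3.three_conj b d hx s e h c2)⟩

end Cfsg.Agent.S3279
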