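import Cfsg.Statements.S3282
import Cfsg.Agent.H3.BSW2

set_option autoImplicit false
open Cfsg

namespace Cfsg.Agent.S3282

/-- The abstract form of the Brauer–Suzuki–Wall Theorem. Let G be a finite group with an involution t and an abelian subgroup K of H = C_G(t) containing t, such that H = K⟨s⟩ for an involution s ∉ K with C_K(s) = ⟨t⟩ and s inverting every element of K, K ∩ K^g = 1 for every g outside H, and all involutions of G conjugate. Then G has a subgroup Q, of order q say, with |G| = q(q+1)(q−1)/2, C_G(x) = Q for every non-identity x ∈ Q, N_G(Q) = QD for an abelian subgroup D of order (q−1)/2 meeting Q trivially, and for every nontrivial subgroup X of D, N_G(X) = N_G(D) = D⟨u⟩ for some involution u ∉ D inverting D. -/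
theorem result {G : Type*} [Group G] [Finite G] (t : G) (ht : orderOf t = 2)
    (K : Subgroup G) (hKab : IsMulCommutative ↥K) (hKH : K ≤ Subgroup.centralizer ({t} : Set G)) (htK : t ∈ K)
    (s : G) (hs : orderOf s = 2) (hsH : s ∈ Subgroup.centralizer ({t} : Set G)) (hsK : s ∉ K)
    (hH : K ⊔ Subgroup.zpowers s = Subgroup.centralizer ({t} : Set G)) (hCK : K ⊓ Subgroup.centralizer ({s} : Set G) = Subgroup.zpowers t)
    (hinv : ∀ x ∈ K, s * x * s⁻¹ = x⁻¹)
    (hTI : ∀ g : G, g ∉ Subgroup.centralizer ({t} : Set G) → K ⊓ K.map (MulAut.conj g).toMonoidHom = ⊥)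
    (hconj : ∀ x y : G, orderOf x = 2 → orderOf y = 2 → IsConj x y) :
    ∃ Q D : Subgroup G, 2 * Nat.card G = Nat.card ↥Q * (Nat.card ↥Q + 1) * (Nat.card ↥Q - 1) ∧
      (∀ x ∈ Q, x ≠ 1 → Subgroup.centralizer ({x} : Set G) = Q) ∧
      IsMulCommutative ↥D ∧ 2 * Nat.card ↥D + 1 = Nat.card ↥Q ∧ Q ⊓ D = ⊥ ∧
      Subgroup.normalizer (Q : Set G) = Q ⊔ D ∧
      ∀ X : Subgroup G, X ≤ D → X ≠ ⊥ →
        Subgroup.normalizer (X : Set G) = Subgroup.normalizer (D : Set G) ∧
        ∃ u : G, orderOf u = 2 ∧ u ∉ D ∧ (∀ d ∈ D, u * d * u⁻¹ = d⁻¹) ∧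
          Subgroup.normalizer (D : Set G) = D ⊔ Subgroup.zpowers u := by
  classical
  have := Fintype.ofFinite G
  have ss := H4.mul_self_of_two hs
  have n : Subgroup.zpowers s ≤ Subgroup.normalizer (K : Set G) :=
    Subgroup.zpowers_le_of_mem (H1.mem_normalizer_iff_conj_mem.2 fun x b => (hinv x b).symm ▸ inv_mem b)
  have h : H3.BSW t s K := ⟨ht, fun _ a _ => H1.comm_of_mem hKab a, htK, ss, hsK, fun {g} => ⟨fun a => ?_, fun a => ?_⟩, hinv,
    fun x a b => ?_, fun g x a b c => by_contra fun d => b ?_, fun u => hconj t u ht⟩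
  · obtain ⟨Q, D, u, c, -⟩ := h.main
    exact ⟨Q, D, c.card, c.cc, ⟨⟨fun a b => Subtype.ext (c.comm _ a.2 _ b.2)⟩⟩, c.cardD, c.inf, c.norm, fun X a b =>
      have e := c.sub D le_rfl fun e => b (le_bot_iff.1 (e ▸ a))
      ⟨(c.sub X a b).trans e.symm, u, c.ord, c.nmem, c.inv, e⟩⟩
  · obtain ⟨y, b, z, c, rfl⟩ := (H1.mem_sup_of_le_normalizer_left n).1 (hH.ge (Subgroup.mem_centralizer_singleton_iff.2 a))
    rcases (H4.mem_zpowers_two hs).1 c with rfl | rfl
    · exact Or.inl (by simpa using b)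
    · exact Or.inr (by rwa [mul_assoc, ss, mul_one])
  · refine Subgroup.mem_centralizer_singleton_iff.1 (a.elim (hKH ·) fun a => ?_)
    simpa using mul_mem (hKH a) (inv_mem hsH)
  · refine (H4.mem_zpowers_two ht).1 (hCK.le ⟨a, Subgroup.mem_centralizer_singleton_iff.2 ?_⟩)
    rw [eq_comm, ← mul_inv_eq_iff_eq_mul, hinv x a, inv_eq_of_mul_eq_one_left b]
  · have := (hTI g fun e => d (Subgroup.mem_centralizer_singleton_iff.1 e)).le (Subgroup.mem_inf.2 ⟨c, x, a, rfl⟩)
    simpa using this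

end Cfsg.Agent.S3282
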