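import Cfsg.Statements.S3303
import Cfsg.Agent.H1.Btw
import Cfsg.Agent.H1.Fitting

set_option autoImplicit false
open Cfsg

namespace Cfsg.Agent.S3303

open H1
open Subgroup

/-- Let G be a finite solvable group in which the intersection of any two distinct Sylow 2-subgroups is cyclic. Then G/O(G) has a normal Sylow 2-subgroup, where O(G) is the largest normal subgroup of odd order. -/
theorem result {G : Type*} [Group G] [Finite G] (hs : Group.IsSolvable G)
    (hC : ∀ S T : Sylow 2 G, S ≠ T → IsCyclic ↥((S : Subgroup G) ⊓ (T : Subgroup G))) :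
    ∃ P : Sylow 2 (G ⧸ Cfsg.oddCore G), (P : Subgroup (G ⧸ Cfsg.oddCore G)).Normal := by
  haveI : Fact (Nat.Prime 2) := ⟨Nat.prime_two⟩
  set Q := G ⧸ Cfsg.oddCore G
  obtain ⟨S⟩ : Nonempty (Sylow 2 Q) := inferInstance
  refine ⟨S, ?_⟩
  by_contra hn
  obtain ⟨T, hT⟩ : ∃ T : Sylow 2 Q, S ≠ T := by
    by_contra! h
    exact hn (normalizer_eq_top_iff.1 (eq_top_iff.2 fun g _ =>
      Sylow.smul_eq_iff_mem_normalizer.1 (h _).symm))
  obtain ⟨S', T', e1, e2, e3⟩ := sylow_inter_lift (QuotientGroup.mk'_surjective (oddCore G)) S T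
  have h1 := hC S' T' fun e => hT (Sylow.ext (by rw [← e1, ← e2, e]))
  have h2 : IsCyclic ↥((S : Subgroup Q) ⊓ T) := by
    rw [← e3]; exact isCyclic_of_surjective _ (MonoidHom.subgroupMap_surjective _ _)
  have h3 : IsCyclic (pCore 2 Q) := isCyclic_of_le (le_inf (pCore_le_sylow S) (pCore_le_sylow T))
  have h4 : centralizer (pCore 2 Q : Set Q) ≤ pCore 2 Q := by
    rw [← fitting_eq_pCore pPrimeCore_quotient_pPrimeCore]; exact centralizer_fitting_le
  have h5 : IsPGroup 2 Q := isPGroup_iff_isPiNum.2 fun q hq hd => by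
    by_contra h
    haveI : Fact q.Prime := ⟨hq⟩
    obtain ⟨x, ho⟩ := exists_prime_orderOf_dvd_card' q hd
    have hc : (orderOf x).Coprime 2 := by rw [ho]; exact (Nat.coprime_primes hq Nat.prime_two).2 h
    have := h4 (cent_of_isCyclic_two pCore_isPGroup h3 (le_normalizer_of_normal (K := ⊤) trivial) hc)
    obtain ⟨k, hk⟩ := pCore_isPGroup ⟨x, this⟩
    rw [H2.eq_one_of_pow_of_coprime (x := x) (congrArg Subtype.val hk) hc, orderOf_one] at ho
    exact hq.one_lt.ne ho
  exact hT (Sylow.ext (((isSylowIn_top S).eq_of_isPGroup (h5.to_subgroup ⊤)).trans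
    ((isSylowIn_top T).eq_of_isPGroup (h5.to_subgroup ⊤)).symm))

end Cfsg.Agent.S3303
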