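import Cfsg.Statements.S3742
import Mathlib

set_option autoImplicit false
open Cfsg

namespace Cfsg.Agent.S3742

open QuaternionGroup

def tab : Fin 4 → Fin 4 → Fin 4 → QuaternionGroup 2 × QuaternionGroup 2
  | 0, 1, 2 => (.a 1, .xa 0)
  | 0, 1, 3 => (.a 3, .xa 1)
  | 0, 2, 1 => (.xa 2, .a 3)
  | 0, 2, 3 => (.xa 0, .xa 3)
  | 0, 3, 1 => (.xa 3, .a 1)
  | 0, 3, 2 => (.xa 1, .xa 2)
  | 1, 0, 2 => (.a 3, .xa 3)
  | 1, 0, 3 => (.a 1, .xa 2)
  | 1, 2, 0 => (.xa 1, .a 1)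
  | 1, 2, 3 => (.xa 3, .xa 0)
  | 1, 3, 0 => (.xa 0, .a 3)
  | 1, 3, 2 => (.xa 2, .xa 1)
  | 2, 0, 1 => (.xa 0, .xa 1)
  | 2, 0, 3 => (.xa 2, .a 1)
  | 2, 1, 0 => (.xa 3, .xa 2)
  | 2, 1, 3 => (.xa 1, .a 3)
  | 2, 3, 0 => (.a 3, .xa 0)
  | 2, 3, 1 => (.a 1, .xa 3)
  | 3, 0, 1 => (.xa 1, .xa 0)
  | 3, 0, 2 => (.xa 3, .a 3)
  | 3, 1, 0 => (.xa 2, .xa 3)
  | 3, 1, 2 => (.xa 0, .a 1)
  | 3, 2, 0 => (.a 1, .xa 1)
  | 3, 2, 1 => (.a 3, .xa 2)
  | _, _, _ => (.a 1, .xa 0)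

def F (p : QuaternionGroup 2 × QuaternionGroup 2) : QuaternionGroup 2 → QuaternionGroup 2
  | .a i => p.1 ^ i.val
  | .xa i => p.2 * p.1 ^ i.val

def g (σ : Equiv.Perm (Fin 4)) := tab (σ 0) (σ 1) (σ 2)

theorem h1 : ∀ σ τ : Equiv.Perm (Fin 4), ∀ x, F (g (σ * τ)) x = F (g σ) (F (g τ) x) := by
  decide +kernel
theorem h2 : ∀ x, F (g 1) x = x := by decide +kernel
theorem h3 : ∀ σ : Equiv.Perm (Fin 4), ∀ x y, F (g σ) (x * y) = F (g σ) x * F (g σ) y := by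
  decide +kernel
theorem h4 : ∀ σ : Equiv.Perm (Fin 4), F (g σ) (.a 1) = .a 1 → F (g σ) (.xa 0) = .xa 0 → σ = 1 := by
  decide +kernel
theorem h5 : ∀ u v : QuaternionGroup 2, u * u ≠ 1 → v * v ≠ 1 → v * u ≠ u * v →
    ∃ σ, g σ = (u, v) := by
  decide +kernel
theorem h6 : ∀ x, F (.a 1, .xa 0) x = x := by decide +kernel

def Φ : Equiv.Perm (Fin 4) →* MulAut (QuaternionGroup 2) := MonoidHom.mk'
  (fun σ => { toFun := F (g σ), invFun := F (g σ⁻¹),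
              left_inv := fun x => by rw [← h1, inv_mul_cancel, h2],
              right_inv := fun x => by rw [← h1, mul_inv_cancel, h2],
              map_mul' := h3 σ })
  (fun σ τ => MulEquiv.ext (h1 σ τ))


/-- The automorphism group of the quaternion group of order 8 is isomorphic to the symmetric group of degree 4. -/
theorem result : Nonempty (MulAut (QuaternionGroup 2) ≃* Equiv.Perm (Fin 4)) := by
  refine ⟨(MulEquiv.ofBijective Φ ⟨?_, fun α => ?_⟩).symm⟩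
  · rw [injective_iff_map_eq_one]
    intro σ h
    exact h4 σ (DFunLike.congr_fun h (.a 1)) (DFunLike.congr_fun h (.xa 0))
  · obtain ⟨σ, hσ⟩ := h5 (α (.a 1)) (α (.xa 0))
      (by rw [← map_mul, Ne, map_eq_one_iff _ α.injective]; decide)
      (by rw [← map_mul, Ne, map_eq_one_iff _ α.injective]; decide)
      (by rw [← map_mul, ← map_mul, Ne, α.injective.eq_iff]; decide)
    refine ⟨σ, MulEquiv.ext fun x => ?_⟩
    change F (g σ) x = α x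
    rw [hσ]
    conv_rhs => rw [← h6 x]
    cases x <;> simp only [F, map_mul, map_pow]

end Cfsg.Agent.S3742
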