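import Cfsg.Statements.S3304
import Cfsg.Agent.S0016
import Cfsg.Agent.S3742
import Cfsg.Agent.H1.DI

set_option autoImplicit false
open Cfsg

namespace Cfsg.Agent.S3304

open Subgroup H1 Cfsg.Agent.S3742
open scoped Pointwise

abbrev Q := QuaternionGroup 2
abbrev D := DihedralGroup 3
abbrev Mt := Matrix (Fin 2) (Fin 2) (ZMod 3)
def c0 : Equiv.Perm (Fin 4) := Equiv.swap 0 2 * Equiv.swap 0 1
def s0 : Equiv.Perm (Fin 4) := Equiv.swap 0 1
def io : D → Equiv.Perm (Fin 4)
  | .r i => c0 ^ i.val
  | .sr i => s0 * c0 ^ i.val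
def ι : D →* Equiv.Perm (Fin 4) := MonoidHom.mk' io (by decide +kernel)
abbrev M := Q ⋊[Φ.comp ι] D
def mA : Q → Mt
  | .a i => !![0, 2; 1, 0] ^ i.val
  | .xa i => !![1, 1; 1, 2] * !![0, 2; 1, 0] ^ i.val
def mB : D → Mt
  | .r i => !![0, 2; 1, 2] ^ i.val
  | .sr i => !![0, 1; 1, 0] * !![0, 2; 1, 2] ^ i.val
theorem m1 : ∀ q : Q, ∀ k : D, ∀ q' : Q, ∀ k' : D, mA (q * F (g (io k)) q') * mB (k * k') = mA q * mB k * (mA q' * mB k') := by
  decide +kernel
theorem m2 : ∀ q : Q, ∀ k : D, mA q * mB k = 1 → q = 1 ∧ k = 1 := by decide +kernel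
theorem m3 : ∀ q : Q, ∀ k : D, (∀ y, F (g (io k)) y = q⁻¹ * y * q) → k = 1 := by decide +kernel
theorem m4 : ∀ τ : Equiv.Perm (Fin 4), τ * τ = 1 → (∃ q : Q, ∀ y, F (g τ) y = q * y * q⁻¹) ∨ ∃ γ, γ * τ * γ⁻¹ = s0 := by
  decide +kernel
theorem cardM : Nat.card M = 48 := by
  rw [Nat.card_congr SemidirectProduct.equivProd, Nat.card_prod, Nat.card_eq_fintype_card, Nat.card_eq_fintype_card]; rfl
instance : Finite M := Nat.finite_of_card_ne_zero (by rw [cardM]; norm_num)

theorem isoM : Nonempty (M ≃* GL (Fin 2) (ZMod 3)) := by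
  let φ : M →* Mt :=
    { toFun := fun x => mA x.left * mB x.right
      map_one' := by decide +kernel
      map_mul' := fun x y => m1 _ _ _ _ }
  have hi : Function.Injective φ.toHomUnits := (injective_iff_map_eq_one _).2 fun x h =>
    let ⟨a, b⟩ := m2 _ _ (congrArg Units.val h); SemidirectProduct.ext a b
  refine ⟨MulEquiv.ofBijective _ ((Nat.bijective_iff_injective_and_card _).2 ⟨hi, ?_⟩)⟩
  rw [cardM, Matrix.card_GL_field]; simp [Fin.prod_univ_two]

theorem bijΦ : Function.Bijective Φ := by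
  obtain ⟨e⟩ := Cfsg.Agent.S3742.result
  have : Finite (MulAut Q) := Finite.of_equiv _ e.toEquiv.symm
  refine (Nat.bijective_iff_injective_and_card _).2 ⟨(injective_iff_map_eq_one _).2 fun σ h => ?_, (Nat.card_congr e.toEquiv).symm⟩
  exact h4 σ (congrArg (fun f : MulAut Q => f (.a 1)) h) (congrArg (fun f : MulAut Q => f (.xa 0)) h)

theorem core {X : Type*} [Group X] [Finite X] (R : Subgroup X) [R.Normal] (e : R ≃* Q)
    (hC : centralizer (R : Set X) ≤ R) (hn : ∀ P : Sylow 2 X, ¬ (P : Subgroup X).Normal) :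
    Nonempty (X ≃* GL (Fin 2) (ZMod 3)) ∨
    (Nat.card X = 48 ∧ Nat.card ↥(center X) = 2 ∧ Nonempty (X ⧸ center X ≃* Equiv.Perm (Fin 4)) ∧
      ∀ P : Sylow 2 X, Nonempty (↥(P : Subgroup X) ≃* QuaternionGroup 4)) := by
  let f : X →* Equiv.Perm (Fin 4) := (MulEquiv.ofBijective Φ bijΦ).symm.toMonoidHom.comp
    ((MulAut.congr e).toMonoidHom.comp MulAut.conjNormal)
  have hf : ∀ x y, (e.symm (F (g (f x)) y) : X) = x * e.symm y * x⁻¹ := fun x y => by
    have : Φ (f x) = MulAut.congr e (MulAut.conjNormal x) := (MulEquiv.ofBijective Φ bijΦ).apply_symm_apply _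
    have h := congrArg (fun α : MulAut Q => (e.symm (α y) : X)) this
    show (e.symm (Φ (f x) y) : X) = _
    simpa using h
  obtain ⟨z, hz⟩ : ∃ z : X, z = e.symm (.a 2) := ⟨_, rfl⟩
  have zz : z * z = 1 := by rw [hz, ← coe_mul, ← map_mul, show (QuaternionGroup.a 2 * .a 2 : Q) = 1 from rfl]; simp
  have z1 : z ≠ 1 := by rw [hz]; simp; decide
  have k1 : ∀ x, f x = 1 → x = 1 ∨ x = z := fun x h => by
    have c : ∀ y, x * e.symm y * x⁻¹ = e.symm y := fun y => by rw [← hf, h, h2]
    have xR : x ∈ R := hC fun r hr => by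
      have := c (e ⟨r, hr⟩); rw [e.symm_apply_apply, mul_inv_eq_iff_eq_mul] at this; exact this.symm
    have d : ∀ q : Q, (∀ y, q * y * q⁻¹ = y) → q = 1 ∨ q = .a 2 := by decide +kernel
    have := d (e ⟨x, xR⟩) fun y => e.symm.injective (Subtype.ext (by simpa using c y))
    refine this.imp (fun h => ?_) fun h => ?_
    · simpa using h
    · rw [hz, ← h]; simp
  have zc : z ∈ center X := mem_center_iff.2 fun x => by
    have d : ∀ σ, F (g σ) (.a 2) = .a 2 := by decide +kernel
    have := hf x (.a 2)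
    rw [d, ← hz, eq_mul_inv_iff_mul_eq] at this
    exact this.symm
  have kc : center X = f.ker := le_antisymm (fun x hx => bijΦ.1 (MulEquiv.ext fun y => e.symm.injective (Subtype.ext (by
      show (e.symm (F (g (f x)) y) : X) = _
      rw [hf, ← mem_center_iff.1 hx, mul_inv_cancel_right, map_one]; rfl))))
    fun x hx => by rcases k1 x hx with rfl | rfl; exacts [one_mem _, zc]
  have c2 : Nat.card (center X) = 2 := (Nat.card_eq_two_iff' 1).2 ⟨⟨z, zc⟩, fun h => z1 (congrArg Subtype.val h),
    fun y hy => Subtype.ext ((k1 y (kc ▸ y.2 : y.1 ∈ f.ker)).resolve_left fun h => hy (Subtype.ext h))⟩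
  have c8 : Nat.card R = 8 := by rw [Nat.card_congr e.toEquiv, Nat.card_eq_fintype_card]; rfl
  have hR : IsPGroup 2 R := IsPGroup.of_card (n := 3) c8
  have a1 := f.ker.card_mul_index
  have a2 := R.card_mul_index
  have a3 := card_subgroup_dvd_card f.range
  rw [← kc, c2, kc, index_ker] at a1
  rw [Nat.card_perm, Nat.card_eq_fintype_card (α := Fin 4), Fintype.card_fin, show Nat.factorial 4 = 24 from rfl] at a3
  have c24 : Nat.card f.range = 24 := by
    by_contra h
    have n2 : 2 ∣ R.index := by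
      by_contra h'; exact hn (hR.toSylow h') (inferInstanceAs R.Normal)
    have : Nat.card X = 2 ^ 4 := by
      have := Nat.le_of_dvd (by norm_num) a3
      rw [c8] at a2
      interval_cases Nat.card f.range <;> omega
    exact hn ((IsPGroup.of_card (n := 4) (card_top.trans this)).toSylow (by simp)) (normal_top)
  have fs : Function.Surjective f := MonoidHom.range_eq_top.1 (eq_top_of_card_eq _ (by
    rw [c24, Nat.card_perm, Nat.card_eq_fintype_card (α := Fin 4), Fintype.card_fin]; rfl))
  have c48 : Nat.card X = 48 := by omega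
  by_cases hI : ∀ t : X, t * t = 1 → t ∈ R
  · refine Or.inr ⟨c48, c2, ⟨(QuotientGroup.quotientMulEquivOfEq kc).trans
      (QuotientGroup.quotientKerEquivOfSurjective f fs)⟩, fun P => ?_⟩
    have u : ∀ H : Subgroup P, Nat.card H = 2 → ∀ x, x ∈ H ↔ (x : X) = 1 ∨ (x : X) = z := fun H hH => by
      obtain ⟨⟨t, ht⟩, t1, tu⟩ := (Nat.card_eq_two_iff' (1 : H)).1 hH
      have tt : t * t = 1 := by
        have := pow_card_eq_one' (x := (⟨t, ht⟩ : H)); rw [hH, pow_two] at this; exact congrArg Subtype.val this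
      have tR := hI t (congrArg Subtype.val tt)
      have d : ∀ q : Q, q * q = 1 → q = 1 ∨ q = .a 2 := by decide +kernel
      have tz : (t : X) = z := by
        rcases d (e ⟨t, tR⟩) (by rw [← map_mul, ← map_one e]; exact congrArg e (Subtype.ext (congrArg (fun y : P => (y : X)) tt))) with h | h
        · exact absurd (Subtype.ext (Subtype.ext (by simpa using h))) t1
        · rw [hz, ← h]; simp
      refine fun x => ⟨fun hx => ?_, ?_⟩
      · by_cases h : (⟨x, hx⟩ : H) = 1
        · exact Or.inl (congrArg (fun y : H => (y : X)) h)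
        · exact Or.inr ((congrArg (fun y : H => (y : X)) (tu _ h)).trans tz)
      · rintro (h | h)
        · rw [show x = 1 from Subtype.ext h]; exact one_mem _
        · rw [show x = t from Subtype.ext (h.trans tz.symm)]; exact ht
    have cP : Nat.card P = 16 := by rw [P.card_eq_multiplicity, c48]; decide +kernel
    rcases Cfsg.Agent.S0016.result 2 P.2 (fun H K a b => Subgroup.ext fun x => (u H a x).trans (u K b x).symm) with
      h | ⟨-, n, ⟨h⟩⟩
    · exfalso
      have le := hR.le_sylow_of_normal P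
      have := congrArg Subtype.val (h.isMulCommutative.is_comm.comm (⟨_, le (e.symm (.a 1)).2⟩ : P) ⟨_, le (e.symm (.xa 0)).2⟩)
      have h' : e.symm (.a 1 * .xa 0) = e.symm (.xa 0 * .a 1) := by rw [map_mul, map_mul]; exact Subtype.ext this
      exact absurd (e.symm.injective h') (by decide)
    · have : NeZero (2 ^ n) := ⟨by positivity⟩
      rw [Nat.card_congr h.toEquiv, Nat.card_eq_fintype_card, QuaternionGroup.card] at cP
      have h4 : 2 ^ n = 4 := by omega
      rw [h4] at h
      exact ⟨h⟩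
  left
  push Not at hI
  obtain ⟨t0, tt0, tR0⟩ := hI
  obtain ⟨t, tt, ft⟩ : ∃ t : X, t * t = 1 ∧ f t = s0 := by
    rcases m4 (f t0) (by rw [← map_mul, tt0, map_one]) with ⟨q, hq⟩ | ⟨γ, h⟩
    · refine absurd ?_ tR0
      have : (e.symm q : X)⁻¹ * t0 ∈ R := hC fun r hr => by
        have := hf t0 (e ⟨r, hr⟩)
        rw [hq, map_mul, map_mul, map_inv, e.symm_apply_apply] at this
        simp only [coe_mul, coe_inv] at this
        rw [eq_mul_inv_iff_mul_eq] at this
        rw [mul_assoc, ← this]; group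
      simpa using R.mul_mem (e.symm q).2 this
    · obtain ⟨x, rfl⟩ := fs γ
      exact ⟨x * t0 * x⁻¹, by simp [mul_assoc, ← mul_assoc t0, tt0], by rw [map_mul, map_mul, map_inv, h]⟩
  obtain ⟨d, dd, fd⟩ : ∃ d : X, d ^ 3 = 1 ∧ f d = c0 := by
    obtain ⟨d, hd⟩ := fs c0
    refine ⟨d ^ 4, ?_, by rw [map_pow, hd]; decide⟩
    rw [← pow_mul, mul_comm, pow_mul]
    rcases k1 (d ^ 3) (by rw [map_pow, hd]; decide) with h | h <;> rw [h]
    · simp
    · rw [show 4 = 2 * 2 from rfl, pow_mul, pow_two z, zz, one_pow]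
  have td : d * t = t * (d * d) := by
    have h3 : (t * d * t) ^ 3 = 1 := by
      nth_rw 2 [eq_inv_of_mul_eq_one_left tt]; rw [conj_pow, dd]; simp
    rcases k1 (t * d * t * d) (by simp only [map_mul, ft, fd]; decide) with h | h
    · have : d⁻¹ = d * d := inv_eq_of_mul_eq_one_right (by rw [← dd, pow_three])
      rw [← this, ← eq_inv_of_mul_eq_one_left h, mul_assoc, ← mul_assoc t t, tt, one_mul]
    · exfalso
      rw [← eq_mul_inv_iff_mul_eq] at h
      rw [h, (show Commute z d⁻¹ from (mem_center_iff.1 zc _).symm).mul_pow, inv_pow, dd, pow_three, zz] at h3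
      exact z1 (by simpa using h3)
  have r1 : ∀ x, d * (t * x) = t * (d * (d * x)) := fun x => by rw [← mul_assoc, td]; simp only [mul_assoc]
  have r2 : ∀ x, t * (t * x) = x := fun x => by rw [← mul_assoc, tt, one_mul]
  have r3 : d * (d * d) = 1 := by rw [← dd, pow_three]
  have r4 : ∀ x, d * (d * (d * x)) = x := fun x => by rw [← mul_assoc d d x, ← mul_assoc, r3, one_mul]
  let fg0 : D → X := fun k => match k with
    | .r i => d ^ i.val
    | .sr i => t * d ^ i.val
  have z3 : ∀ i : ZMod 3, i = 0 ∨ i = 1 ∨ i = 2 := by decide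
  have hm : ∀ a b, fg0 (a * b) = fg0 a * fg0 b := by
    rintro (i | i) (j | j) <;> rcases z3 i with rfl | rfl | rfl <;> rcases z3 j with rfl | rfl | rfl <;>
      first
      | (show d ^ 0 = _; simp only [fg0, show (1 : ZMod 3).val = 1 from rfl, show (2 : ZMod 3).val = 2 from rfl, ZMod.val_zero,
          pow_zero, pow_one, pow_two, mul_one, one_mul, mul_assoc, r1, r2, r3, r4, td, tt]; done)
      | (show d ^ 1 = _; simp only [fg0, show (1 : ZMod 3).val = 1 from rfl, show (2 : ZMod 3).val = 2 from rfl, ZMod.val_zero,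
          pow_zero, pow_one, pow_two, mul_one, one_mul, mul_assoc, r1, r2, r3, r4, td, tt]; done)
      | (show d ^ 2 = _; simp only [fg0, show (1 : ZMod 3).val = 1 from rfl, show (2 : ZMod 3).val = 2 from rfl, ZMod.val_zero,
          pow_zero, pow_one, pow_two, mul_one, one_mul, mul_assoc, r1, r2, r3, r4, td, tt]; done)
      | (show t * d ^ 0 = _; simp only [fg0, show (1 : ZMod 3).val = 1 from rfl, show (2 : ZMod 3).val = 2 from rfl, ZMod.val_zero,
          pow_zero, pow_one, pow_two, mul_one, one_mul, mul_assoc, r1, r2, r3, r4, td, tt]; done)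
      | (show t * d ^ 1 = _; simp only [fg0, show (1 : ZMod 3).val = 1 from rfl, show (2 : ZMod 3).val = 2 from rfl, ZMod.val_zero,
          pow_zero, pow_one, pow_two, mul_one, one_mul, mul_assoc, r1, r2, r3, r4, td, tt]; done)
      | (show t * d ^ 2 = _; simp only [fg0, show (1 : ZMod 3).val = 1 from rfl, show (2 : ZMod 3).val = 2 from rfl, ZMod.val_zero,
          pow_zero, pow_one, pow_two, mul_one, one_mul, mul_assoc, r1, r2, r3, r4, td, tt]; done)
  let fg : D →* X := MonoidHom.mk' fg0 hm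
  have ff : ∀ k, f (fg k) = io k := by
    rintro (i | i)
    · show f (d ^ i.val) = _; rw [map_pow, fd]; rfl
    · show f (t * d ^ i.val) = _; rw [map_mul, map_pow, fd, ft]; rfl
  let ψ : M →* X := SemidirectProduct.lift (R.subtype.comp e.symm.toMonoidHom) fg fun k => MonoidHom.ext fun y => by
    have := hf (fg k) y
    rw [ff] at this
    exact this
  have hi : Function.Injective ψ := (injective_iff_map_eq_one _).2 fun x h => by
    change (e.symm x.left : X) * fg x.right = 1 at h
    have b := m3 x.left x.right fun y => e.symm.injective (Subtype.ext (by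
      rw [← ff, hf, eq_inv_of_mul_eq_one_right h]; simp))
    rw [b, map_one, mul_one] at h
    exact SemidirectProduct.ext (by simpa using h) b
  obtain ⟨e'⟩ := isoM
  exact ⟨(MulEquiv.ofBijective ψ ((Nat.bijective_iff_injective_and_card _).2 ⟨hi, by rw [cardM, c48]⟩)).symm.trans e'⟩


/-- Let G be a finite solvable group in which the intersection of any two distinct Sylow 2-subgroups has 2-rank at most 1 (contains no Klein four-group). Write Q = G/O(G), O(G) the largest normal subgroup of odd order. Then Q has a normal Sylow 2-subgroup; or Q is isomorphic to GL(2,3); or Q has order 48, centre of order 2 with central quotient isomorphic to the symmetric group of degree 4, and generalized quaternion Sylow 2-subgroups of order 16 (the binary octahedral group). The last two are the two representation groups of the symmetric group of degree 4. -/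
theorem result {G : Type*} [Group G] [Finite G] (hs : Group.IsSolvable G)
    (hI : ∀ S T : Sylow 2 G, S ≠ T → Cfsg.PRankLE 2 1 ↥((S : Subgroup G) ⊓ (T : Subgroup G))) :
    (∃ P : Sylow 2 (G ⧸ Cfsg.oddCore G), (P : Subgroup (G ⧸ Cfsg.oddCore G)).Normal) ∨
    Nonempty ((G ⧸ Cfsg.oddCore G) ≃* GL (Fin 2) (ZMod 3)) ∨
    (Nat.card (G ⧸ Cfsg.oddCore G) = 48 ∧ Nat.card ↥(Subgroup.center (G ⧸ Cfsg.oddCore G)) = 2 ∧
      Nonempty ((G ⧸ Cfsg.oddCore G) ⧸ Subgroup.center (G ⧸ Cfsg.oddCore G) ≃* Equiv.Perm (Fin 4)) ∧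
      ∀ P : Sylow 2 (G ⧸ Cfsg.oddCore G), Nonempty (↥(P : Subgroup (G ⧸ Cfsg.oddCore G)) ≃* QuaternionGroup 4)) := by
  by_contra hh
  simp only [not_or, not_exists] at hh
  obtain ⟨hn, hh⟩ := hh
  have hC := centralizer_pCore_le (G := G ⧸ oddCore G) (p := 2) pPrimeCore_quotient_pPrimeCore
  obtain ⟨R, hR⟩ : ∃ R, R = pCore 2 (G ⧸ oddCore G) := ⟨_, rfl⟩
  have nR : R.Normal := hR ▸ inferInstance
  have pR : IsPGroup 2 R := hR ▸ pCore_isPGroup
  rw [← hR] at hC
  let π := QuotientGroup.mk' (oddCore G)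
  have πs : Function.Surjective π := QuotientGroup.mk'_surjective _
  have rk : PRankLE 2 1 R := by
    obtain ⟨Q0⟩ : Nonempty (Sylow 2 (R.comap π)) := inferInstance
    have fr := Sylow.normalizer_sup_eq_top Q0
    have p0 : IsPGroup 2 ((Q0 : Subgroup (R.comap π)).map (R.comap π).subtype) := Q0.2.map _
    obtain ⟨S, hS⟩ := p0.exists_le_sylow
    obtain ⟨g, g1, g2⟩ : ∃ g ∈ normalizer (((Q0 : Subgroup (R.comap π)).map (R.comap π).subtype : Subgroup G) : Set G), g • S ≠ S := by
      by_contra! h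
      refine hn (S.mapSurjective πs) (normalizer_eq_top_iff.1 (eq_top_iff.2 ?_))
      rw [← map_top_of_surjective π πs, ← fr, Subgroup.map_sup, map_comap_eq_self_of_surjective πs]
      refine sup_le ?_ ((pR.le_sylow_of_normal _).trans le_normalizer)
      exact (map_mono fun g hg => Sylow.smul_eq_iff_mem_normalizer.1 (h g hg)).trans (le_normalizer_map π)
    have le : (Q0 : Subgroup (R.comap π)).map (R.comap π).subtype ≤ ((g • S : Sylow 2 G) : Subgroup G) ⊓ S := le_inf (fun x hx => by
      rw [Sylow.coe_subgroup_smul, mem_pointwise_smul_iff_inv_smul_mem]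
      exact hS (by simpa using (mem_normalizer_iff''.1 g1 x).1 hx)) hS
    intro A hA hA2
    let ρ : R.comap π →* R := (π.comp (R.comap π).subtype).codRestrict R fun x => x.2
    have ρs : Function.Surjective ρ := fun y => let ⟨x, hx⟩ := πs y; ⟨⟨x, by rw [mem_comap, hx]; exact y.2⟩, Subtype.ext hx⟩
    have top : (Q0 : Subgroup (R.comap π)).map ρ = ⊤ := ((Q0.mapSurjective ρs).is_maximal' (pR.of_equiv topEquiv.symm) le_top).symm
    let μ : (Q0 : Subgroup (R.comap π)) →* R := ρ.comp (Q0 : Subgroup (R.comap π)).subtype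
    have μb : Function.Bijective μ := ⟨(injective_iff_map_eq_one _).2 fun s hs => Subtype.ext (Subtype.ext (by
        have : (s.1.1 : G) ∈ (S : Subgroup G) ⊓ pPrimeCore 2 G :=
          ⟨hS ⟨s, s.2, rfl⟩, (QuotientGroup.eq_one_iff _).1 (congrArg Subtype.val hs)⟩
        rwa [H2.inf_eq_bot_of_coprime_card S.isPGroup' pPrimeCore_coprime] at this)),
      fun y => by obtain ⟨x, hx, rfl⟩ := (top ▸ mem_top y : y ∈ (Q0 : Subgroup (R.comap π)).map ρ); exact ⟨⟨x, hx⟩, rfl⟩⟩
    let ν : R →* ↥(((g • S : Sylow 2 G) : Subgroup G) ⊓ S) :=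
      (((R.comap π).subtype.comp (Q0 : Subgroup (R.comap π)).subtype).codRestrict _ fun x => le ⟨x, x.2, rfl⟩).comp
        (MulEquiv.ofBijective μ μb).symm.toMonoidHom
    have νi : Function.Injective ν := fun x y h => (MulEquiv.ofBijective μ μb).symm.injective
      (Subtype.ext (Subtype.ext (congrArg (fun y : ↥(((g • S : Sylow 2 G) : Subgroup G) ⊓ S) => (y : G)) h)))
    rw [← card_map_of_injective (K := A) νi]
    exact hI _ _ g2 (A.map ν) inferInstance (by rintro _ ⟨a, ha, rfl⟩; rw [← map_pow, hA2 a ha, map_one])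
  have od : Od R := by
    by_contra o
    have : IsPGroup 2 (G ⧸ oddCore G) := fun g => by
      obtain ⟨k, hk⟩ := H2.exists_pow_coprime 2 g
      exact ⟨k, H2.eq_one_of_coprime_of_mem pR (hC
        (by_contra fun e => o ⟨_, by rw [Subgroup.normalizer_eq_top]; trivial, hk, e⟩)) hk⟩
    exact hn ((this.of_equiv topEquiv.symm).toSylow (by simp)) normal_top
  have nk : ¬ IsKleinFour R := fun k => by
    have := rk ⊤ ⟨⟨fun a b => Subtype.ext (k.isMulCommutative.is_comm.comm _ _)⟩⟩ fun a _ => by
      rw [pow_two, IsKleinFour.mul_self]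
    rw [card_top, k.card_four] at this
    omega
  have uq : ∀ H K : Subgroup R, Nat.card H = 2 → Nat.card K = 2 → H = K := by
    obtain ⟨g, -, -, g3⟩ := od
    have : Nontrivial R := (nontrivial_iff_ne_bot _).2 fun e => g3 (by rw [e]; intro x hx; rw [mem_bot.1 hx]; simp)
    have := pR.center_nontrivial
    obtain ⟨z, hz⟩ := exists_prime_orderOf_dvd_card' (G := center R) 2
      ((pR.to_subgroup _).card_eq_or_dvd.resolve_left Finite.one_lt_card.ne')
    have key : ∀ H : Subgroup R, Nat.card H = 2 → H = zpowers (z : R) := fun H hH => by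
      have c1 : Nat.card (zpowers (z : R)) = 2 := by rw [Nat.card_zpowers, orderOf_coe, hz]
      have sq : ∀ (L : Subgroup R), Nat.card L = 2 → ∀ a ∈ L, a ^ 2 = 1 := fun L hL a ha => by
        have := pow_card_eq_one' (x := (⟨a, ha⟩ : L)); rw [hL] at this; exact congrArg Subtype.val this
      obtain ⟨⟨t, ht⟩, t1, tu⟩ := (Nat.card_eq_two_iff' (1 : H)).1 hH
      have ot : orderOf t = 2 := orderOf_eq_prime (sq H hH t ht) fun e => t1 (Subtype.ext e)
      have eH : zpowers t = H := eq_of_le_of_card_ge (zpowers_le.2 ht) (by rw [hH, Nat.card_zpowers, ot])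
      have cm : ∀ a ∈ ({t, (z : R)} : Set R), ∀ b ∈ ({t, (z : R)} : Set R), a * b = b * a := by
        rintro a (rfl | rfl) b (rfl | rfl)
        exacts [rfl, mem_center_iff.1 z.2 _, (mem_center_iff.1 z.2 _).symm, rfl]
      have cc := isMulCommutative_closure cm
      have := rk (closure {t, (z : R)}) cc fun a ha => by
        induction ha using closure_induction with
        | mem x hx => rcases hx with rfl | rfl; exacts [sq H hH _ ht, sq _ c1 _ (mem_zpowers _)]
        | one => simp
        | mul x y hx hy a b =>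
          rw [(show Commute x y from congrArg Subtype.val (cc.is_comm.comm (⟨x, hx⟩ : Subgroup.closure _) ⟨y, hy⟩)).mul_pow, a, b, one_mul]
        | inv x _ a => rw [inv_pow, a, inv_one]
      have a := eq_of_le_of_card_ge (H := H) (K := closure {t, (z : R)})
        (eH ▸ zpowers_le.2 (subset_closure (by simp))) (by omega)
      have b := eq_of_le_of_card_ge (H := zpowers (z : R)) (K := closure {t, (z : R)})
        (zpowers_le.2 (subset_closure (by simp))) (by omega)
      exact a.trans b.symm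
    exact fun H K a b => (key H a).trans (key K b).symm
  rcases Cfsg.Agent.S0016.result 2 pR uq with h | ⟨-, n, ⟨e⟩⟩
  · exact not_od_of_isCyclic pR h od
  rcases n with _ | n
  · have : IsCyclic (QuaternionGroup (2 ^ 0)) := QuaternionGroup.quaternionGroup_one_isCyclic
    exact not_od_of_isCyclic pR (isCyclic_of_surjective e.symm e.symm.surjective) od
  obtain ⟨m, a, b, h, -⟩ := mc_of_quaternion pR (Nat.one_lt_two_pow (by omega)) e
  obtain ⟨e'⟩ := ((h.od_cases le_rfl od).resolve_left nk).equiv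
  exact (core R e' hC hn).elim hh.1 hh.2

end Cfsg.Agent.S3304
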