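import Cfsg.Statements.S3305
import Cfsg.Agent.H1.Tr2

set_option autoImplicit false
open Cfsg

namespace Cfsg.Agent.S3305

open H1

/-- If any two distinct Sylow 2-subgroups of the finite group G intersect in a cyclic group, then the same holds in every quotient group G/H, H a normal subgroup of G. -/
theorem result {G : Type*} [Group G] [Finite G]
    (hC : ∀ S T : Sylow 2 G, S ≠ T → IsCyclic ↥((S : Subgroup G) ⊓ (T : Subgroup G))) (H : Subgroup G) [H.Normal] :
    ∀ S T : Sylow 2 (G ⧸ H), S ≠ T → IsCyclic ↥((S : Subgroup (G ⧸ H)) ⊓ (T : Subgroup (G ⧸ H))) := by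
  intro S T hST
  let f := QuotientGroup.mk' H
  have hf : Function.Surjective f := QuotientGroup.mk'_surjective H
  obtain ⟨P, hP⟩ := exists_isSylowIn (p := 2) (((S : Subgroup (G ⧸ H)) ⊓ T).comap f)
  have key : ∀ S : Sylow 2 (G ⧸ H), P ≤ (S : Subgroup (G ⧸ H)).comap f →
      ∃ S₁ : Sylow 2 G, P ≤ S₁ ∧ (S₁ : Subgroup G).map f = S := fun S h => by
    obtain ⟨Q, hQ, h1⟩ := H2.exists_sylowIn hP.isPGroup h
    have h2 : H2.IsSylowIn 2 Q ⊤ := ⟨le_top, hQ.pgroup, by
      rw [← Subgroup.relIndex_mul_relIndex _ _ _ hQ.le le_top, Subgroup.relIndex_top_right,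
        Subgroup.index_comap_of_surjective _ hf]
      exact Nat.prime_two.not_dvd_mul hQ.not_dvd S.not_dvd_index⟩
    refine ⟨h2.toSylowTop, h1, ?_⟩
    have h3 := hQ.map f
    rw [Subgroup.map_comap_eq_self_of_surjective hf] at h3
    exact (h3.eq_of_le S.isPGroup' le_rfl h3.le).symm
  obtain ⟨S₁, h1, h2⟩ := key S (hP.le.trans (Subgroup.comap_mono inf_le_left))
  obtain ⟨T₁, h3, h4⟩ := key T (hP.le.trans (Subgroup.comap_mono inf_le_right))
  have h5 := hC S₁ T₁ fun e => hST (Sylow.ext (by rw [← h2, ← h4, e]))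
  have h6 := H2.IsSylowIn.map ⟨hP.le, hP.isPGroup, hP.not_dvd⟩ f
  rw [Subgroup.map_comap_eq_self_of_surjective hf] at h6
  rw [h6.eq_of_le (S.isPGroup'.to_le inf_le_left) le_rfl h6.le]
  have := Subgroup.isCyclic_of_le (le_inf h1 h3)
  exact isCyclic_of_surjective _ (f.subgroupMap_surjective P)

end Cfsg.Agent.S3305
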