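import Cfsg.Statements.S3306
import Cfsg.Agent.H2.CI
import Cfsg.Agent.S3305

set_option autoImplicit false
open Cfsg

namespace Cfsg.Agent.S3306

open Subgroup H1

/-- Let G be a finite nonsolvable group in which any two distinct Sylow 2-subgroups intersect in a cyclic group, and let N be a solvable normal subgroup of G. Then the image of N in G/O(G) is a cyclic 2-group contained in the centre of G/O(G) (O(G) the largest normal subgroup of odd order). In other words the solvable radical of G is V·O(G) with V a cyclic 2-group central modulo O(G). -/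
theorem result {G : Type*} [Group G] [Finite G] (hns : ¬ Group.IsSolvable G)
    (hC : ∀ S T : Sylow 2 G, S ≠ T → IsCyclic ↥((S : Subgroup G) ⊓ (T : Subgroup G)))
    (N : Subgroup G) [N.Normal] (hN : Group.IsSolvable ↥N) :
    IsCyclic ↥(N.map (QuotientGroup.mk' (Cfsg.oddCore G))) ∧ IsPGroup 2 ↥(N.map (QuotientGroup.mk' (Cfsg.oddCore G))) ∧
      N.map (QuotientGroup.mk' (Cfsg.oddCore G)) ≤ Subgroup.center (G ⧸ Cfsg.oddCore G) := by
  let π := QuotientGroup.mk' (Cfsg.oddCore G)
  have hC' := Cfsg.Agent.S3305.result hC (Cfsg.oddCore G)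
  have hO : pPrimeCore 2 (G ⧸ Cfsg.oddCore G) = ⊥ := pPrimeCore_quotient_pPrimeCore
  have hns' : ¬ Group.IsSolvable (G ⧸ Cfsg.oddCore G) := fun h => by
    haveI := FT.feit_thompson (Cfsg.oddCore G) (Nat.coprime_two_right.1 pPrimeCore_coprime)
    exact hns (solvable_of_ker_le_range (Cfsg.oddCore G).subtype π (by simp [π]))
  have hV := (H2.CI.cyc hns' hC').2
  haveI : (N.map π).Normal := Normal.map inferInstance _ (QuotientGroup.mk'_surjective _)
  have hs : Group.IsSolvable (N.map π) := solvable_of_surjective (π.subgroupMap_surjective N)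
  have h1 := H2.CI.le_pCore_of_solvable hO hV (N.map π) hs
  exact ⟨Subgroup.isCyclic_of_le h1, pCore_isPGroup.to_le h1,
    h1.trans (H2.CI.pCore_le_center hO hns' hC')⟩

end Cfsg.Agent.S3306
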