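import Cfsg.Statements.S3349
import Cfsg.Agent.H1.Basic

set_option autoImplicit false
open Cfsg

namespace Cfsg.Agent.S3349

/-- Let Q be a finite extraspecial p-group and α an automorphism of Q fixing every element of some maximal abelian subgroup of Q. Then the order of α is a power of p. -/
theorem result {Q : Type*} [Group Q] [Finite Q]
    (p : ℕ) [Fact p.Prime] (hQ : Cfsg.IsExtraspecial p Q) (α : MulAut Q)
    (A : Subgroup Q) (hA : IsMulCommutative A) (hmax : ∀ B : Subgroup Q, A ≤ B → IsMulCommutative B → B = A)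
    (hfix : ∀ a ∈ A, α a = a) :
    ∃ k : ℕ, orderOf α = p ^ k := by
  have hC : ∀ c : Q, (∀ a ∈ A, a * c = c * a) → c ∈ A := fun c hc => by
    have h1 : IsMulCommutative (Subgroup.closure ((A : Set Q) ∪ {c})) := by
      refine Subgroup.isMulCommutative_closure ?_
      rintro x (hx | rfl) y (hy | rfl)
      exacts [H1.comm_of_mem hA hx hy, hc x hx, (hc y hy).symm, rfl]
    rw [← hmax _ (fun a ha => Subgroup.subset_closure (Or.inl ha)) h1]
    exact Subgroup.subset_closure (Or.inr rfl)
  have hN : ∀ x : Q, ∀ a ∈ A, x * a * x⁻¹ ∈ A := fun x a ha => by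
    have h1 : x * a * x⁻¹ * a⁻¹ ∈ commutator Q := Subgroup.commutator_mem_commutator (Subgroup.mem_top x) (Subgroup.mem_top a)
    rw [hQ.1.2.2] at h1
    have h2 := hC _ fun b _ => Subgroup.mem_center_iff.1 h1 b
    have := A.mul_mem h2 ha
    rwa [inv_mul_cancel_right] at this
  have hx : ∀ x : Q, x⁻¹ * α x ∈ A := fun x => hC _ fun a ha => by
    have h1 := hfix _ (hN x a ha)
    rw [map_mul, map_mul, hfix a ha, map_inv] at h1
    calc a * (x⁻¹ * α x) = x⁻¹ * (x * a * x⁻¹) * α x := by group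
      _ = _ := by rw [← h1]; group
  have hn : ∀ (n : ℕ) (x : Q), (α ^ n) x = x * (x⁻¹ * α x) ^ n := fun n x => by
    induction n with
    | zero => simp
    | succ n ih =>
      rw [pow_succ', MulAut.mul_apply, ih, map_mul, hfix _ (A.pow_mem (hx x) n), pow_succ', ← mul_assoc, mul_inv_cancel_left]
  obtain ⟨k, hk⟩ := IsPGroup.iff_card.1 hQ.1.1
  have : α ^ (p ^ k) = 1 := by
    ext x; rw [hn, ← hk, pow_card_eq_one']; simp
  obtain ⟨j, -, hj⟩ := (Nat.dvd_prime_pow (Fact.out : p.Prime)).1 (orderOf_dvd_of_pow_eq_one this)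
  exact ⟨j, hj⟩

end Cfsg.Agent.S3349
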