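import Cfsg.Statements.S3376
import Cfsg.Agent.H3.Cx

set_option autoImplicit false
open Cfsg

namespace Cfsg.Agent.S3376

open Subgroup

theorem ct3 {σ : Equiv.Perm (Fin 9)} (h : σ ^ 3 = 1) (hf : ∀ x, σ x ≠ x) : σ.cycleType = Multiset.replicate 3 3 := by
  have h1 := Equiv.Perm.cycleType_of_pow_prime_eq_one (p := 3) h
  have h2 := σ.sum_cycleType
  rw [show σ.support = Finset.univ from Finset.eq_univ_of_forall fun x => Equiv.Perm.mem_support.2 (hf x), h1] at h2
  simp only [Multiset.sum_replicate, smul_eq_mul, Finset.card_univ, Fintype.card_fin] at h2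
  rw [h1, show σ.cycleType.card = 3 by omega]

theorem embed {G : Type*} [Group G] [Finite G] (hG : Nat.card G = 162) (K : Subgroup G) (hK : K.index = 9)
    (hc : K.normalCore = ⊥) {z : G} (hz : z ∈ center G) (hz3 : z ^ 3 = 1) (hzK : z ∉ K) (τ : Equiv.Perm (Fin 9))
    (h : τ ^ 3 = 1) (hf : ∀ x, τ x ≠ x) : Nonempty (G ≃* centralizer ({τ} : Set (Equiv.Perm (Fin 9)))) := by
  obtain ⟨e⟩ : Nonempty ((G ⧸ K) ≃ Fin 9) := ⟨Finite.equivFinOfCardEq hK⟩
  let f : G →* Equiv.Perm (Fin 9) := e.permCongrHom.toMonoidHom.comp (MulAction.toPermHom G (G ⧸ K))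
  have hfi : Function.Injective f := e.permCongrHom.injective.comp
    ((MonoidHom.ker_eq_bot_iff _).1 (by rw [← normalCore_eq_ker, hc]))
  have hσ : ∀ x, f z x ≠ x := by
    intro x hx
    obtain ⟨y, rfl⟩ := e.surjective x
    induction y using QuotientGroup.induction_on with
    | H g =>
      have h1 : z • (g : G ⧸ K) = g := e.injective (by simpa [f, Equiv.permCongrHom] using hx)
      rw [MulAction.Quotient.smul_coe, smul_eq_mul, eq_comm, QuotientGroup.eq, ← mem_center_iff.1 hz g,
        inv_mul_cancel_left] at h1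
      exact hzK h1
  obtain ⟨c, hc'⟩ := isConj_iff.1 (Equiv.Perm.isConj_iff_cycleType_eq.2
    ((ct3 (by rw [← map_pow, hz3, map_one]) hσ).trans (ct3 h hf).symm))
  let f' : G →* centralizer ({τ} : Set (Equiv.Perm (Fin 9))) :=
    ((MulAut.conj c).toMonoidHom.comp f).codRestrict _ fun g => by
      rw [mem_centralizer_singleton_iff, ← hc']
      change MulAut.conj c (f g) * MulAut.conj c (f z) = MulAut.conj c (f z) * MulAut.conj c (f g)
      rw [← map_mul, ← map_mul, ← map_mul, ← map_mul, mem_center_iff.1 hz g]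
  have hi : Function.Injective f' := fun a b hab => hfi ((MulAut.conj c).injective (congrArg Subtype.val hab))
  refine ⟨MulEquiv.ofBijective f' ((Nat.bijective_iff_injective_and_card f').2 ⟨hi, ?_⟩)⟩
  rw [hG, Equiv.Perm.nat_card_centralizer, ct3 h hf]
  decide

/-- Let G be a group of order 162 = 3⁴·2 with Sylow 3-subgroup S and Sylow 2-subgroup T, having an elementary abelian normal subgroup J of order 27, such that Z = Z(S) has order 3, Z centralizes T, and C_S(T) ≠ S. Then G is isomorphic to the centralizer in Sym(9) of a product of three disjoint 3-cycles. -/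
theorem result {G : Type*} [Group G] [Finite G] (hG : Nat.card G = 162)
    (S : Sylow 3 G) (T : Sylow 2 G) (J : Subgroup G) [hJn : J.Normal] (hJcomm : IsMulCommutative J)
    (hJexp : ∀ a ∈ J, a ^ 3 = 1) (hJcard : Nat.card J = 27)
    (Z : Subgroup G) (hZ : Z = (S : Subgroup G) ⊓ Subgroup.centralizer ((S : Subgroup G) : Set G)) (hZcard : Nat.card Z = 3)
    (hZT : Z ≤ Subgroup.centralizer ((T : Subgroup G) : Set G))
    (hST : (S : Subgroup G) ⊓ Subgroup.centralizer ((T : Subgroup G) : Set G) ≠ S) :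
    Nonempty (G ≃* Subgroup.centralizer ({Equiv.swap (0 : Fin 9) 1 * Equiv.swap 1 2 * Equiv.swap 3 4 * Equiv.swap 4 5 * Equiv.swap 6 7 * Equiv.swap 7 8} : Set (Equiv.Perm (Fin 9)))) := by
  haveI : Fact (Nat.Prime 3) := ⟨Nat.prime_three⟩
  have hS : Nat.card S = 81 := by
    rw [Sylow.card_eq_multiplicity, hG, show 162 = 3 ^ 4 * 2 by norm_num, Nat.factorization_mul (by norm_num) (by norm_num),
      Nat.factorization_pow, Nat.prime_three.factorization, Nat.prime_two.factorization]
    simp
  have hT : Nat.card T = 2 := by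
    rw [Sylow.card_eq_multiplicity, hG, show 162 = 3 ^ 4 * 2 by norm_num, Nat.factorization_mul (by norm_num) (by norm_num),
      Nat.factorization_pow, Nat.prime_three.factorization, Nat.prime_two.factorization]
    simp
  have hSi : (S : Subgroup G).index = 2 := by
    have := (S : Subgroup G).card_mul_index
    rw [hS, hG] at this; omega
  haveI hSn : (S : Subgroup G).Normal := normal_of_index_eq_two hSi
  obtain ⟨⟨t, htT⟩, ht1, htu⟩ := (Nat.card_eq_two_iff' (1 : T)).1 hT
  have ht1' : t ≠ 1 := fun e => ht1 (Subtype.ext e)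
  have hTe : ∀ x ∈ (T : Subgroup G), x = 1 ∨ x = t := fun x hx => by
    by_cases h : x = 1
    · exact Or.inl h
    · exact Or.inr (congrArg Subtype.val (htu ⟨x, hx⟩ fun e => h (congrArg Subtype.val e)))
  have ht2 : t * t = 1 := by
    rcases hTe _ (mul_mem htT htT) with h | h
    · exact h
    · exact absurd (mul_eq_left.1 h) ht1'
  have hord : ∀ x ∈ (S : Subgroup G), x * x = 1 → x = 1 := by
    intro x hx h2
    have h1 : orderOf x ∣ 81 := hS ▸ orderOf_dvd_natCard _ hx
    have h3 : orderOf x ∣ 2 := orderOf_dvd_of_pow_eq_one (by rw [pow_two, h2])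
    exact orderOf_eq_one_iff.1 (Nat.eq_one_of_dvd_coprimes (by norm_num) h1 h3)
  have htS : t ∉ (S : Subgroup G) := fun h => ht1' (hord t h ht2)
  have hdec : ∀ g : G, g ∈ (S : Subgroup G) ∨ g * t ∈ (S : Subgroup G) := fun g => by
    rw [mul_mem_iff_of_index_two hSi]; tauto
  have hZc : Z ≤ center G := by
    intro z hz
    have h1 : ∀ s ∈ (S : Subgroup G), s * z = z * s := fun s hs => (hZ ▸ hz).2 s hs
    have h2 := hZT hz t htT
    rw [mem_center_iff]
    intro g
    rcases hdec g with h | h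
    · exact h1 g h
    · have := h1 _ h
      rw [mul_assoc, h2, ← mul_assoc, ← mul_assoc] at this
      exact mul_right_cancel this
  haveI : Group.IsNilpotent S := S.isPGroup'.isNilpotent
  have hmin : ∀ M : Subgroup G, M.Normal → M ⊓ S ≠ ⊥ → Z ≤ M := by
    intro M hM hne
    have h1 := H3.inf_center_ne_bot' (M.subgroupOf S) (by
      rw [Ne, subgroupOf_eq_bot]; exact fun h => hne h.eq_bot)
    obtain ⟨⟨z, hz1, hz2⟩, hz0⟩ := ne_bot_iff_exists_ne_one.1 h1
    have hzZ : (z : G) ∈ Z := hZ ▸ ⟨z.2, fun s hs => congrArg Subtype.val (mem_center_iff.1 hz2 ⟨s, hs⟩)⟩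
    haveI : Fact (Nat.card Z).Prime := ⟨hZcard ▸ Nat.prime_three⟩
    rcases (M.subgroupOf Z).eq_bot_or_eq_top_of_prime_card with h | h
    · have : (⟨z, hzZ⟩ : Z) ∈ M.subgroupOf Z := hz1
      rw [h, mem_bot] at this
      have e : (z : G) = 1 := congrArg Subtype.val this
      exact absurd (Subtype.ext (Subtype.ext e)) hz0
    · exact subgroupOf_eq_top.1 h
  have hJS : J ≤ S := (IsPGroup.of_card (p := 3) (n := 3) hJcard).le_sylow_of_normal S
  have hZJ : Z ≤ J := hmin J hJn (by
    rw [inf_eq_left.2 hJS, ← one_lt_card_iff_ne_bot, hJcard]; norm_num)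
  obtain ⟨⟨z, hz⟩, hz1⟩ := ne_bot_iff_exists_ne_one.1 ((one_lt_card_iff_ne_bot Z).1 (by rw [hZcard]; norm_num))
  have hz1' : z ≠ 1 := fun e => hz1 (Subtype.ext e)
  letI : CommGroup J := { mul_comm := fun a b => hJcomm.is_comm.comm a b }
  haveI : NeZero (Monoid.exponent J) := ⟨Monoid.exponent_ne_zero_of_finite⟩
  obtain ⟨χ, hχ⟩ := CommGroup.exists_apply_ne_one_of_hasEnoughRootsOfUnity J ℂ (a := ⟨z, hZJ hz⟩)
    fun e => hz1' (congrArg Subtype.val e)
  let ψ : J →* ℂˣ := χ * χ.comp (MulAut.conjNormal t).toMonoidHom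
  have hψ : ∀ a, ψ a = χ a * χ (MulAut.conjNormal t a) := fun _ => rfl
  have h3 : ∀ a : J, a ^ 3 = 1 := fun a => Subtype.ext (hJexp a a.2)
  have hψz : ψ ⟨z, hZJ hz⟩ ≠ 1 := by
    have e : MulAut.conjNormal t (⟨z, hZJ hz⟩ : J) = ⟨z, hZJ hz⟩ := Subtype.ext (by
      rw [MulAut.conjNormal_apply, mem_center_iff.1 (hZc hz) t, mul_inv_cancel_right])
    rw [hψ, e]
    intro h
    apply hχ
    have := congrArg χ (h3 ⟨z, hZJ hz⟩)
    rwa [map_pow, map_one, pow_three, h, mul_one] at this
  have hψt : ∀ a, ψ (MulAut.conjNormal t a) = ψ a := fun a => by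
    rw [hψ, hψ, ← MulAut.mul_apply, ← map_mul MulAut.conjNormal, ht2, map_one, MulAut.one_apply, mul_comm]
  have hU9 : Nat.card ψ.ker = 9 := by
    have h1 : ψ.range ≤ rootsOfUnity 3 ℂ := by
      rintro _ ⟨a, rfl⟩
      rw [mem_rootsOfUnity, ← map_pow, h3, map_one]
    have h2 : Nat.card ψ.range ≤ 3 := (card_le_of_le h1).trans (card_rootsOfUnity ℂ 3)
    have h4 := ψ.ker.card_mul_index
    rw [index_ker, hJcard] at h4
    have h5 : Nat.card ψ.range ≠ 1 := fun e => hψz (by
      rw [card_eq_one] at e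
      exact mem_bot.1 (e ▸ ⟨_, rfl⟩))
    have h6 : 0 < Nat.card ψ.range := Nat.pos_of_ne_zero fun e => by rw [e] at h4; omega
    generalize Nat.card ψ.range = r at *
    interval_cases r <;> omega
  let U : Subgroup G := ψ.ker.map J.subtype
  have hUt : ∀ u ∈ U, t * u * t ∈ U := by
    rintro _ ⟨a, ha, rfl⟩
    refine ⟨MulAut.conjNormal t a, (hψt a).trans ha, ?_⟩
    rw [coe_subtype, MulAut.conjNormal_apply, inv_eq_of_mul_eq_one_right ht2]
  have hUS : U ≤ S := (map_subtype_le _).trans hJS
  have htt : ∀ g, g * t * t = g := fun g => by rw [mul_assoc, ht2, mul_one]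
  have htt' : ∀ g, t * (t * g) = g := fun g => by rw [← mul_assoc, ht2, one_mul]
  let K : Subgroup G :=
    { carrier := {g | g ∈ U ∨ g * t ∈ U}
      one_mem' := Or.inl U.one_mem
      mul_mem' := by
        rintro a b (ha | ha) (hb | hb)
        · exact Or.inl (mul_mem ha hb)
        · exact Or.inr (by rw [mul_assoc]; exact mul_mem ha hb)
        · right
          have := mul_mem ha (hUt b hb)
          rwa [mul_assoc t, mul_assoc, htt', ← mul_assoc] at this
        · left
          have := mul_mem ha (hUt _ hb)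
          rwa [mul_assoc t, htt, mul_assoc, htt'] at this
      inv_mem' := by
        rintro a (ha | ha)
        · exact Or.inl (inv_mem ha)
        · right
          have := hUt _ (inv_mem ha)
          rwa [mul_inv_rev, ← mul_assoc, mul_inv_cancel, one_mul] at this }
  have hKS : K ⊓ S = U := by
    apply le_antisymm
    · rintro g ⟨h | h, hg⟩
      · exact h
      · exact absurd ((Subgroup.mul_mem_cancel_left _ hg).1 (hUS h)) htS
    · exact fun g hg => ⟨Or.inl hg, hUS hg⟩
  have htK : t ∈ K := Or.inr (ht2 ▸ U.one_mem)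
  have hzK : z ∉ K := fun h => by
    obtain ⟨a, ha, e⟩ : z ∈ U := hKS ▸ ⟨h, hJS (hZJ hz)⟩
    obtain rfl : a = ⟨z, hZJ hz⟩ := Subtype.ext e
    exact hψz ha
  have hK18 : Nat.card K = 18 := by
    have h1 : (S : Subgroup G).relIndex K = 2 := by
      have h2 := relIndex_dvd_index_of_normal (S : Subgroup G) K
      rw [hSi, Nat.dvd_prime Nat.prime_two, relIndex_eq_one] at h2
      exact h2.resolve_left fun h => htS (h htK)
    have h2 := ((S : Subgroup G).subgroupOf K).card_mul_index
    rw [← inf_subgroupOf_right, inf_comm, hKS, Nat.card_congr (subgroupOfEquivOfLe (hKS ▸ inf_le_left)).toEquiv,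
      ← hKS, inf_comm, inf_subgroupOf_right, inf_comm, hKS, card_map_of_injective J.subtype_injective, hU9] at h2
    rw [← h2]; change 9 * (S : Subgroup G).relIndex K = 18; rw [h1]
  refine embed hG K ?_ ?_ (hZc hz) (hJexp z (hZJ hz)) hzK _ (by decide) (by decide)
  · have := K.card_mul_index
    rw [hK18, hG] at this; omega
  · by_contra hne
    by_cases h : K.normalCore ⊓ S = ⊥
    · obtain ⟨⟨m, hm⟩, hm1⟩ := ne_bot_iff_exists_ne_one.1 hne
      have hin : ∀ x ∈ K.normalCore, x ∈ (S : Subgroup G) → x = 1 := fun x h1 h2 => mem_bot.1 (h ▸ ⟨h1, h2⟩)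
      have hmS : m ∉ (S : Subgroup G) := fun h => hm1 (Subtype.ext (hin m hm h))
      have hcomm : ∀ s ∈ (S : Subgroup G), Commute m s := fun s hs =>
        commute_of_normal_of_disjoint _ _ inferInstance hSn (disjoint_iff.2 h) m s hm hs
      have hm2 : m * m = 1 := hin _ (mul_mem hm hm) (mul_self_mem_of_index_two hSi m)
      have hmt : m * t ∈ (S : Subgroup G) := (hdec m).resolve_left hmS
      have hc : m * t = t * m := by
        have := (hcomm _ hmt).eq
        rw [mul_assoc] at this
        exact mul_left_cancel this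
      have h1 : m * t = 1 := hord _ hmt (by rw [mul_assoc, ← mul_assoc t, ← hc, htt, hm2])
      have h2 : m = t := by rw [← htt m, h1, one_mul]
      apply hST
      rw [inf_eq_left]
      intro s hs x hx
      rcases hTe x hx with rfl | rfl
      · simp
      · exact (h2 ▸ hcomm s hs).eq
    · exact hzK (K.normalCore_le (hmin _ inferInstance h hz))

end Cfsg.Agent.S3376
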