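import Cfsg.Statements.S3389
import Cfsg.Agent.H9.Syl
import Cfsg.Agent.PM.E
import Cfsg.Agent.PM.D

set_option autoImplicit false
open Cfsg

namespace Cfsg.Agent.S3389

open Subgroup MulAction H9

theorem nrm {G Ω : Type*} [Group G] [MulAction G Ω] {P : Subgroup G} {x : G} (hx : x ∈ normalizer (P : Set G))
    {a : Ω} (ha : P ≤ stabilizer G a) : P ≤ stabilizer G (x • a) := fun g hg => by
  have : (x⁻¹ * g * x) • a = a := ha ((mem_normalizer_iff''.1 hx g).1 hg)
  rw [mem_stabilizer_iff, smul_smul, ← mul_inv_cancel_left x (g * x), mul_smul, ← mul_assoc, this]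

theorem grow {G : Type*} [Group G] [Finite G] {p : ℕ} [Fact p.Prime] {P Q : Subgroup G} (hQ : IsPGroup p Q)
    (h : P < Q) : P < Q ⊓ normalizer (P : Set G) := by
  haveI := hQ.isNilpotent
  have hnc := Group.normalizerCondition_of_isNilpotent (G := Q) (P.subgroupOf Q) (by
    rw [lt_top_iff_ne_top, Ne, subgroupOf_eq_top]; exact h.not_ge)
  obtain ⟨t, ht, ht'⟩ := SetLike.exists_of_lt hnc
  refine lt_of_le_of_ne (le_inf h.le le_normalizer) fun e => ht' ?_
  have : (t : G) ∈ Q ⊓ normalizer (P : Set G) := ⟨t.2, mem_normalizer_of_cj_le fun y hy => by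
    have h1 := mem_cj.1 hy
    have := (mem_normalizer_iff''.1 ht ⟨y, by
      have := Q.mul_mem (Q.mul_mem t.2 (h.le h1)) (Q.inv_mem t.2)
      simpa [mul_assoc] using this⟩).2 h1
    exact this⟩
  exact (e ▸ this : (t : G) ∈ P)

/-- Let G be a finite group acting faithfully and transitively on a finite set Ω with fixity k ≥ 1: every non-identity element fixes at most k points and some non-identity element fixes exactly k points. Then |Z(G)| divides k; if k = 2 then |G| is even; and for every prime p > k dividing |G| and every point α, either p does not divide |G_α| or G_α contains a Sylow p-subgroup of G. -/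
theorem result {G : Type*} [Group G] [Finite G] {Ω : Type*} [Fintype Ω] [MulAction G Ω] [FaithfulSMul G Ω]
    (htr : MulAction.IsPretransitive G Ω) (k : ℕ) (hk : 1 ≤ k)
    (hfix : ∀ g : G, g ≠ 1 → Nat.card (MulAction.fixedBy Ω g) ≤ k) (hex : ∃ g : G, g ≠ 1 ∧ Nat.card (MulAction.fixedBy Ω g) = k) :
    Nat.card (Subgroup.center G) ∣ k ∧ (k = 2 → 2 ∣ Nat.card G) ∧
      ∀ (p : ℕ), p.Prime → k < p → p ∣ Nat.card G → ∀ α : Ω,
        ¬ p ∣ Nat.card (MulAction.stabilizer G α) ∨ ¬ p ∣ (MulAction.stabilizer G α).index := by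
  classical
  obtain ⟨g, hg1, hg⟩ := hex
  refine ⟨?_, ?_, fun p hp hkp hpG α => ?_⟩
  · letI : MulAction (center G) (fixedBy Ω g) :=
      { smul := fun z x => ⟨(z : G) • (x : Ω), by
          have : g • (x : Ω) = x := x.2
          show g • (z : G) • (x : Ω) = _
          rw [smul_smul, mem_center_iff.1 z.2, mul_smul, this]⟩
        one_smul := fun x => Subtype.ext (one_smul _ _)
        mul_smul := fun a b x => Subtype.ext (mul_smul _ _ _) }
    have hs : ∀ x : fixedBy Ω g, stabilizer (center G) x = ⊥ := fun x => eq_bot_iff.2 fun z hz =>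
      mem_bot.2 (Subtype.ext (PM.eq_one_of_comm (N := ⊤) (PM.tr_iff.2 fun a b => by
        obtain ⟨u, hu⟩ := htr.exists_smul_eq a b
        exact ⟨u, trivial, hu⟩) (fun n _ => mem_center_iff.1 z.2 n) (congrArg Subtype.val hz)))
    rw [← hg, Nat.card_congr (selfEquivOrbitsQuotientProd hs), Nat.card_prod]
    exact Dvd.intro_left _ rfl
  · rintro rfl
    obtain ⟨a, b, hab, hu⟩ := Nat.card_eq_two_iff.1 hg
    obtain ⟨r, hr, hrd⟩ := Nat.exists_prime_and_dvd (mt orderOf_eq_one_iff.1 hg1)
    haveI := Fact.mk hr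
    set x := g ^ (orderOf g / r) with hx
    have hxo : orderOf x = r := orderOf_pow_orderOf_div (orderOf_pos g).ne' hrd
    have hx1 : x ≠ 1 := fun h => hr.one_lt.ne' (by rw [← hxo, h, orderOf_one])
    have hxa : x ∈ stabilizer G (a : Ω) := pow_mem (show g ∈ stabilizer G (a : Ω) from a.2) _
    have hxb : x ∈ stabilizer G (b : Ω) := pow_mem (show g ∈ stabilizer G (b : Ω) from b.2) _
    have hab' : (a : Ω) ≠ b := fun h => hab (Subtype.ext h)
    have two : ∀ c : Ω, x • c = c → c = a ∨ c = b := fun c hc => by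
      by_contra h
      push Not at h
      have h3 := hfix x hx1
      have : ({c, (a : Ω), (b : Ω)} : Set Ω).ncard ≤ (fixedBy Ω x).ncard := Set.ncard_le_ncard (by
        rintro y (rfl | rfl | rfl)
        exacts [hc, hxa, hxb])
      rw [Set.ncard_eq_three.2 ⟨c, a, b, h.1, h.2, hab', rfl⟩] at this
      exact absurd (this.trans h3) (by omega)
    have hxp : IsPGroup r (zpowers x) := IsPGroup.of_card (n := 1) (by rw [Nat.card_zpowers, hxo, pow_one])
    obtain ⟨P, hP, hxP⟩ := exists_syl_ge hxp (zpowers_le.2 hxa)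
    have hxP' := hxP (mem_zpowers x)
    have hPb : P ≤ stabilizer G (b : Ω) := by
      by_contra h
      have hlt : P ⊓ stabilizer G (b : Ω) < P := lt_of_le_of_ne inf_le_left fun e => h (e.ge.trans inf_le_right)
      obtain ⟨t, ht, ht'⟩ := SetLike.exists_of_lt (grow hP.isP hlt)
      rcases two _ (nrm ht.2 inf_le_right ⟨hxP', hxb⟩) with h | h
      · exact hab' (smul_left_cancel t ((hP.le ht.1 : t • (a : Ω) = a).trans h.symm))
      · exact ht' ⟨ht.1, h⟩
    obtain ⟨u, hu⟩ := htr.exists_smul_eq (b : Ω) a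
    have h1 : Syl r (cj u P) (stabilizer G (a : Ω)) := syl_of_card_le (isPGroup_cj u hP.isP) (fun y hy => by
      have : (u⁻¹ * y * u) • (b : Ω) = b := hPb (mem_cj.1 hy)
      rw [mem_stabilizer_iff, ← hu, smul_smul, ← mul_inv_cancel_left u (y * u), mul_smul, ← mul_assoc, this])
      hP (card_cj u P).ge
    obtain ⟨v, hv, hv'⟩ := h1.conj hP
    rw [← cj_mul, ← mem_normalizer_iff_cj] at hv'
    have h2 : (v * u) • (b : Ω) = a := by rw [mul_smul, hu, hv]
    have h3 : (v * u) • (a : Ω) = b := (two _ (nrm hv' hP.le hxP')).resolve_left fun h =>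
      hab' (smul_left_cancel _ (h.trans h2.symm))
    by_contra hodd
    have : Odd (orderOf (v * u)) := Nat.odd_iff.2 (Nat.two_dvd_ne_zero.1 fun h => hodd (h.trans (orderOf_dvd_natCard _)))
    obtain ⟨m, hm⟩ := this
    have h4 : (v * u) ^ 2 ∈ stabilizer G (a : Ω) := by rw [mem_stabilizer_iff, sq, mul_smul, h3, h2]
    have h5 : (v * u) ^ (2 * m + 1) • (a : Ω) = b := by
      rw [pow_succ', mul_smul, pow_mul, (pow_mem h4 m : _ • (a : Ω) = a), h3]
    rw [← hm, pow_orderOf_eq_one, one_smul] at h5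
    exact hab' h5
  · by_contra h
    push Not at h
    haveI := Fact.mk hp
    obtain ⟨P, hP⟩ := exists_syl p (stabilizer G α)
    obtain ⟨Q, hQ, hPQ⟩ := exists_syl_ge hP.isP le_top
    have hlt : P < Q := lt_of_le_of_ne hPQ fun e => by
      have := hQ.not_dvd
      rw [← e, relIndex_top_right] at this
      exact this (h.2.trans (index_dvd_of_le hP.le))
    have h1 := grow hQ.isP hlt
    set R := Q ⊓ normalizer (P : Set G)
    have hR : IsPGroup p R := hQ.isP.to_le inf_le_left
    have h2 : R ⊓ stabilizer G α = P := hP.maximal (hR.to_le inf_le_left) inf_le_right (le_inf h1.le hP.le)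
    have h3 := PM.card_orbit_sub R α
    rw [h2] at h3
    have hP1 : P ≠ ⊥ := fun e => (Nat.Prime.coprime_iff_not_dvd hp).1 (hP.eq_bot_iff.1 e).symm h.1
    obtain ⟨⟨y, hy⟩, hy1⟩ := ne_bot_iff_exists_ne_one.1 hP1
    have h4 := hfix y (fun e => hy1 (Subtype.ext e))
    have h5 : Nat.card (orbit R α) ≤ Nat.card (fixedBy Ω y) := Set.ncard_le_ncard (by
      rintro _ ⟨t, rfl⟩
      exact nrm t.2.2 hP.le hy)
    obtain ⟨i, hi⟩ := hR.card_orbit α
    rcases i with _ | i
    · rw [hi, pow_zero, one_mul] at h3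
      exact h1.ne (eq_of_le_of_card_ge h1.le h3.ge)
    · have : p ≤ p ^ (i + 1) := Nat.le_self_pow (by omega) p
      omega

end Cfsg.Agent.S3389
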