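import Cfsg.Statements.S3391
import Cfsg.Agent.H6.Suz4

set_option autoImplicit false
open Cfsg

namespace Cfsg.Agent.S3391

/-- Let q = 2^{2m+1} ≥ 8 and let G be isomorphic to the Suzuki group Sz(q). If G acts faithfully and transitively on a finite set Ω with fixity 2 (every non-identity element fixes at most two points, and some fixes exactly two), then either |Ω| = q² + 1 and the action is 2-transitive, or |Ω| = q²(q² + 1) and the point stabilizers have order q − 1. -/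
theorem result {G : Type*} [Group G] [Finite G] (F : Type) [Field F] [Fintype F] (m : ℕ) (hm : 1 ≤ m) (hF : Fintype.card F = 2 ^ (2 * m + 1))
    (e : G ≃* ↥(Cfsg.Lie.Sz F (2 ^ (m + 1)))) {Ω : Type*} [Fintype Ω] [MulAction G Ω] [FaithfulSMul G Ω] (htr : MulAction.IsPretransitive G Ω)
    (hfix : ∀ g : G, g ≠ 1 → Nat.card (MulAction.fixedBy Ω g) ≤ 2) (hex : ∃ g : G, g ≠ 1 ∧ Nat.card (MulAction.fixedBy Ω g) = 2) :
    (Fintype.card Ω = Fintype.card F ^ 2 + 1 ∧ MulAction.IsMultiplyPretransitive G Ω 2) ∨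
    (Fintype.card Ω = Fintype.card F ^ 2 * (Fintype.card F ^ 2 + 1) ∧ ∀ α : Ω, Nat.card (MulAction.stabilizer G α) = Fintype.card F - 1) := by
  let P := H6.Suz.Par.mk m hm hF
  let X := P.lie.map e.symm
  obtain ⟨g, hg, h2⟩ := hex
  obtain ⟨⟨α, hα⟩⟩ := (Nat.card_ne_zero.1 (h2 ▸ two_ne_zero)).1
  set K := MulAction.stabilizer G α
  have key : ∀ (N : Subgroup G) (x : G), x ≠ 1 → (∀ n ∈ N, n⁻¹ * x * n ∈ K) → K.relIndex N ≤ 2 :=
    fun N x hx h => by
      rw [show K.relIndex N = (MulAction.stabilizer N α).index from rfl, MulAction.index_stabilizer]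
      refine le_trans (Set.ncard_le_ncard ?_) (hfix x hx)
      rintro _ ⟨n, rfl⟩
      change x • (n : G) • α = (n : G) • α
      simpa [K, mul_smul, inv_smul_eq_iff] using h n n.2
  have sq : ∀ (N : Subgroup G) (x : G), x ≠ 1 → (∀ n ∈ N, n⁻¹ * x * n ∈ K) → ∀ n ∈ N, n * n ∈ K :=
    fun N x hx h n hn => by
      have h0 : K.relIndex N ≠ 0 := Subgroup.index_ne_zero_of_finite
      have := key N x hx h
      obtain h | h : K.relIndex N = 1 ∨ K.relIndex N = 2 := by omega
      · exact Subgroup.relIndex_eq_one.1 h (mul_mem hn hn)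
      · exact Subgroup.mul_self_mem_of_index_two h ⟨n, hn⟩
  have hc : Fintype.card Ω * Nat.card K = Nat.card G := by
    rw [← K.index_mul_card, MulAction.index_stabilizer_of_transitive,
      Nat.card_eq_fintype_card (α := Ω)]
  rw [hF]
  by_cases h2K : 2 ∣ Nat.card K
  · obtain ⟨⟨t, ht⟩, e⟩ := exists_prime_orderOf_dvd_card' 2 h2K
    rw [← Subgroup.orderOf_coe] at e
    obtain ⟨S, hS⟩ := (IsPGroup.of_card (p := 2) (G := Subgroup.zpowers t) (n := 1) (by simpa)).exists_le_sylow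
    obtain ⟨Y, hY⟩ := X.exists_U_eq S
    have ht2 := (orderOf_eq_prime_iff.1 e)
    have hZ := H6.Suz.SzS.mem_Z_of_sq (hY ▸ hS (Subgroup.mem_zpowers t)) (by simpa [pow_two] using ht2.1)
    have h1 : Y.Z ≤ K := by
      rintro _ ⟨b, rfl⟩
      obtain ⟨a, rfl⟩ := P.exists_mul_θ b
      exact Y.T_sq a 0 ▸ sq Y.U t ht2.2 (fun n hn => by
        rwa [mul_assoc, ← H6.Suz.SzS.comm_of_mem_Z hZ hn, inv_mul_cancel_left]) _ (Y.T_mem ..)
    have h3 := sq Y.B (Y.T 0 1) (by simp [Y.T_eq_one]) fun n hn =>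
      h1 (by simpa using H6.Suz.SzS.conj_mem_Z (inv_mem hn) (Y.T_mem_Z 1))
    have h4 : Y.H ≤ K := by
      rintro _ ⟨k, rfl⟩
      obtain ⟨z, hz⟩ := P.exists_sq k
      have := h3 _ (Y.D_mem_B (Units.mk0 z (by rintro rfl; exact k.ne_zero (by simp [← hz]))))
      rwa [← map_mul, show Units.mk0 z _ * Units.mk0 z _ = k from Units.ext (by simpa [pow_two] using hz)] at this
    obtain ⟨k, hk⟩ := P.exists_unit_ne
    have h5 := mul_mem (h3 _ (mul_mem (Y.T_mem_B 1 0) (Y.D_mem_B k))) (inv_mem (h4 (Y.D_mem (k * k))))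
    rw [mul_assoc (Y.T 1 0), ← mul_assoc (Y.D k), Y.D_mul_T, mul_assoc _ (Y.D k), ← map_mul, ← mul_assoc,
      mul_inv_cancel_right, Y.T_mul] at h5
    have h6 := H6.Suz.SzS.le_U h4 (fun e => hk (Units.ext (by have := P.two; change (k : F) = 1; grind))) h5
    have h7 : K = Y.B := ((Y.isCoatom_B.le_iff_eq fun e => ?_).1 (by
      rintro _ ⟨a, b, k, rfl⟩; exact mul_mem (h6 (Y.T_mem ..)) (h4 (Y.D_mem k))))
    · have h8 : Y.Pt α := ⟨fun g => h7 ▸ Iff.rfl, fun x => htr.exists_smul_eq α x⟩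
      exact Or.inl ⟨Nat.card_eq_fintype_card.symm.trans h8.card, h8.two_trans⟩
    rw [e, Subgroup.card_top, mul_eq_right₀ Nat.card_pos.ne'] at hc
    have := Nat.card_le_card_of_injective _ (Subtype.val_injective (p := (· ∈ MulAction.fixedBy Ω g)))
    rw [h2, Nat.card_eq_fintype_card] at this
    omega
  have odd : ∀ x ∈ K, x ≠ 1 → Nat.card (Subgroup.centralizer {x}) ∈ P.tori → Subgroup.centralizer {x} ≤ K :=
    fun x hx h1 ht n hn => by
      have := sq _ x h1 (fun n hn => by rwa [mul_assoc, ← H6.Suz.mem_cent.1 hn, inv_mul_cancel_left]) n hn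
      obtain ⟨j, hj⟩ : ∃ j, Nat.card (Subgroup.centralizer {x}) + 1 = 2 * j :=
        Nat.dvd_of_mod_eq_zero (by have := P.odd_tori ht; omega)
      have h := K.pow_mem this j
      rwa [← pow_two, ← pow_mul, ← hj, pow_succ, show n ^ _ = 1 from
        congrArg Subtype.val (pow_card_eq_one' (x := (⟨n, hn⟩ : Subgroup.centralizer {x}))), one_mul] at h
  have nf : ∀ x ∈ K, ¬ X.Fpf x := fun x hx h => by
    have h1 := key (Subgroup.normalizer (Subgroup.centralizer {x} : Set G)) x h.ne_one fun n hn =>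
      odd x hx h.ne_one (Or.inr h.card_cent.1) (H1.conj_mem_of_mem_normalizer' hn (H6.Suz.mem_cent.2 rfl))
    have h3 := H1.card_inf_mul_relIndex K (Subgroup.normalizer (Subgroup.centralizer {x} : Set G))
    have h0 : K.relIndex (Subgroup.normalizer (Subgroup.centralizer {x} : Set G)) ≠ 0 :=
      Subgroup.index_ne_zero_of_finite
    have h4 := mt (Nat.dvd_trans · (Subgroup.card_dvd_of_le (inf_le_left
      (b := Subgroup.normalizer (Subgroup.centralizer {x} : Set G))))) h2K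
    rw [h.card_cent.2] at h3
    generalize K.relIndex _ = j at h0 h1 h3
    interval_cases j <;> omega
  have hK : Nat.card K = 2 ^ (2 * m + 1) - 1 := by
    refine Nat.dvd_antisymm (Nat.Coprime.dvd_of_dvd_mul_left (Nat.Coprime.pow_right 2 (Nat.Coprime.pow_right
      (2 * m + 1) ((Nat.coprime_two_right).2 (Nat.odd_iff.2 (by omega))))) (Nat.Coprime.dvd_of_dvd_mul_right
      (Nat.coprime_of_dvd fun p hp h h' => ?_) (X.card_eq ▸ K.card_subgroup_dvd_card))) ?_
    · have := Fact.mk hp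
      obtain ⟨⟨t, ht⟩, e⟩ := exists_prime_orderOf_dvd_card' p h
      rw [← Subgroup.orderOf_coe] at e
      exact nf t ht (H6.Suz.SzS.fpf_of_dvd (orderOf_eq_prime_iff.1 e).2 (e ▸ h'))
    · obtain h | ⟨Y, h⟩ | ⟨Y, k, hk, rfl⟩ := X.tri' g
      · exact absurd h (nf g hα)
      · obtain ⟨n, hn⟩ := H6.Suz.exists_prime_pow hg
        have := Subgroup.orderOf_dvd_natCard _ (K.pow_mem hα n)
        rw [(Nat.prime_dvd_prime_iff_eq hn Nat.prime_two).1 (hn.dvd_of_dvd_pow (n := 2)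
          (orderOf_dvd_of_pow_eq_one (H6.Suz.SzS.pow_four (Y.U.pow_mem h n))))] at this
        exact absurd this h2K
      · exact Y.card_H ▸ Y.cent_D hk ▸ Subgroup.card_dvd_of_le
          (odd _ hα hg (Y.cent_D hk ▸ Or.inl Y.card_H))
  have h8 : 0 < 2 ^ (2 * m + 1) - 1 := hK ▸ Nat.card_pos
  have hΩ : Fintype.card Ω = (2 ^ (2 * m + 1)) ^ 2 * ((2 ^ (2 * m + 1)) ^ 2 + 1) :=
    Nat.eq_of_mul_eq_mul_right h8 (by rw [← hK, hc, hK, X.card_eq]; ring)
  refine Or.inr ⟨hΩ, fun β => Nat.eq_of_mul_eq_mul_left (Fintype.card_pos_iff.2 ⟨α⟩) ?_⟩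
  rw [← hK, hc, ← (MulAction.stabilizer G β).index_mul_card, MulAction.index_stabilizer_of_transitive,
    Nat.card_eq_fintype_card (α := Ω)]

end Cfsg.Agent.S3391
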