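import Cfsg.Statements.S3488
import Cfsg.Agent.H8.FM

set_option autoImplicit false
open Cfsg

namespace Cfsg.Agent.S3488

open scoped Pointwise
open Polynomial

theorem a6 : ∀ g : Equiv.Perm (Fin 6), Equiv.Perm.sign g = 1 → g ^ 3 = 1 ∨ g ^ 4 = 1 ∨ g ^ 5 = 1 := by
  intro g hs
  have h1 := g.sum_cycleType_le
  have h2 := g.sign_of_cycleType
  have h3 : ∀ a ∈ g.cycleType, 2 ≤ a := fun a => Equiv.Perm.two_le_of_mem_cycleType
  simp only [← orderOf_dvd_iff_pow_eq_one, ← Equiv.Perm.lcm_cycleType, Multiset.lcm_dvd]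
  rw [hs] at h2
  rw [Fintype.card_fin] at h1
  generalize g.cycleType = m at *
  induction m using Quotient.inductionOn with
  | h l =>
  rcases l with _ | ⟨a, _ | ⟨b, _ | ⟨c, _ | ⟨d, l⟩⟩⟩⟩
  · simp
  · simp at h1 h2 h3 ⊢
    interval_cases a <;> revert h2 <;> decide
  · simp at h1 h2 h3 ⊢
    obtain ⟨h3, h4⟩ := h3
    have : a ≤ 4 := by omega
    have : b ≤ 4 := by omega
    interval_cases a <;> interval_cases b <;> revert h1 h2 <;> decide
  · simp at h1 h2 h3 ⊢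
    obtain ⟨h3, h4, h5⟩ := h3
    obtain rfl : a = 2 := by omega
    obtain rfl : b = 2 := by omega
    obtain rfl : c = 2 := by omega
    revert h2; decide
  · simp at h1 h3
    omega

theorem rng {G : Type*} [Group G] (h : ∀ g : G, g ^ 3 = 1 ∨ g ^ 4 = 1 ∨ g ^ 5 = 1)
    (h3 : ∃ g : G, g ^ 3 = 1 ∧ g ≠ 1) (h4 : ∃ g : G, g ^ 4 = 1 ∧ g ^ 2 ≠ 1) (h5 : ∃ g : G, g ^ 5 = 1 ∧ g ≠ 1) :
    Set.range (orderOf : G → ℕ) = {1, 2, 3, 4, 5} := by
  haveI : Fact (Nat.Prime 3) := ⟨Nat.prime_three⟩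
  haveI : Fact (Nat.Prime 5) := ⟨Nat.prime_five⟩
  ext m
  constructor
  · rintro ⟨g, rfl⟩
    simp only [← orderOf_dvd_iff_pow_eq_one] at h
    rcases h g with e | e | e <;> have := Nat.le_of_dvd (by norm_num) e <;> generalize orderOf g = k at * <;>
      interval_cases k <;> simp_all
  · obtain ⟨a, a1, a2⟩ := h3
    obtain ⟨b, b1, b2⟩ := h4
    obtain ⟨c, c1, c2⟩ := h5
    rintro (rfl | rfl | rfl | rfl | rfl)
    · exact ⟨1, orderOf_one⟩
    · exact ⟨b ^ 2, orderOf_eq_prime (by rw [← pow_mul, b1]) b2⟩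
    · exact ⟨a, orderOf_eq_prime a1 a2⟩
    · exact ⟨b, orderOf_eq_prime_pow (p := 2) (n := 1) (by simpa using b2) (by simpa using b1)⟩
    · exact ⟨c, orderOf_eq_prime c1 c2⟩

section
variable {F : Type*} [Field F]

theorem ch (M : Matrix (Fin 3) (Fin 3) F) (h0 : M 2 0 = 0) (h1 : M 2 1 = 0) (h2 : M 2 2 = 1) (hd : M.det = 1) :
    aeval M ((X - 1) * (X ^ 2 - C (M 0 0 + M 1 1) * X + 1) : F[X]) = 0 := by
  have := M.aeval_self_charpoly
  convert this using 2
  rw [Matrix.det_fin_three, h0, h1, h2] at hd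
  have hd' : C (M 0 0) * C (M 1 1) - C (M 0 1) * C (M 1 0) = (1 : F[X]) := by
    rw [← C_mul, ← C_mul, ← C_sub, ← C_1]; congr 1; linear_combination hd
  rw [Matrix.charpoly, Matrix.det_fin_three]
  simp [h0, h1, h2]
  linear_combination (1 - X) * hd'

theorem pw (t2 : (2 : F) = 0) (M : Matrix (Fin 3) (Fin 3) F) (h0 : M 2 0 = 0) (h1 : M 2 1 = 0) (h2 : M 2 2 = 1) (hd : M.det = 1) :
    (M 0 0 + M 1 1 = 1 → M ^ 3 = 1) ∧ (M 0 0 + M 1 1 = 0 → M ^ 4 = 1) ∧
      ((M 0 0 + M 1 1) ^ 2 + (M 0 0 + M 1 1) + 1 = 0 → M ^ 5 = 1) := by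
  have h := ch M h0 h1 h2 hd
  have t2' : (2 : F[X]) = 0 := by rw [← C_ofNat, t2, C_0]
  have key : ∀ (k : ℕ) (q : F[X]), X ^ k - 1 = (X - 1) * (X ^ 2 - C (M 0 0 + M 1 1) * X + 1) * q → M ^ k = 1 := fun k q e => by
    have := congrArg (aeval M) e
    rw [map_mul, h, zero_mul] at this
    simpa [sub_eq_zero] using this
  generalize M 0 0 + M 1 1 = t at *
  refine ⟨fun e => key 3 1 ?_, fun e => key 4 (X + 1) ?_, fun e => key 5 (X ^ 2 - C t ^ 2 * X + 1) ?_⟩
  · rw [e, C_1]; linear_combination (X ^ 2 - X) * t2'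
  · rw [e, C_0]; ring
  · have e' : C t ^ 2 + C t + 1 = (0 : F[X]) := by rw [← C_pow, ← C_1, ← C_add, ← C_add, e, C_0]
    linear_combination (X - 1) * (X ^ 3 + X - (C t - 1) * X ^ 2) * e' - (X - 1) * X ^ 2 * t2'

def S (F : Type*) [Field F] : Subgroup (Matrix.SpecialLinearGroup (Fin 3) F) where
  carrier := {M | (M : Matrix (Fin 3) (Fin 3) F) 2 0 = 0 ∧ (M : Matrix (Fin 3) (Fin 3) F) 2 1 = 0 ∧ (M : Matrix (Fin 3) (Fin 3) F) 2 2 = 1}
  mul_mem' := by
    rintro a b ⟨h1, h2, h3⟩ ⟨h4, h5, h6⟩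
    simp [Matrix.mul_apply, Fin.sum_univ_three, *]
  one_mem' := by simp
  inv_mem' := by
    rintro a ⟨h1, h2, h3⟩
    have h := congrFun (congrArg Subtype.val (mul_inv_cancel a)) 2
    have h' := fun j => congrFun h j
    simp only [Matrix.SpecialLinearGroup.coe_mul, Matrix.mul_apply, Fin.sum_univ_three, h1, h2, h3, zero_mul, one_mul, zero_add] at h'
    exact ⟨h' 0, h' 1, h' 2⟩

def el (a b c d e f : F) (h : a * d - b * c = 1) : S F :=
  ⟨⟨!![a, b, e; c, d, f; 0, 0, 1], by simp [Matrix.det_fin_three, h]⟩, rfl, rfl, rfl⟩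
end

/-- Let F be the field with four elements. The affine group F² ⋊ SL(2,F), realised as the subgroup of SL(3,F) of matrices with last row (0, 0, 1), has exactly the same set of element orders as the alternating group of degree 6 (namely {1, 2, 3, 4, 5}); so the alternating group of degree 6 is not determined by its element orders. -/
theorem result {F : Type*} [Field F] [Fintype F] (hF : Fintype.card F = 4) :
    Set.range (orderOf : Subgroup.closure {M : Matrix.SpecialLinearGroup (Fin 3) F |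
        (M : Matrix (Fin 3) (Fin 3) F) 2 0 = 0 ∧ (M : Matrix (Fin 3) (Fin 3) F) 2 1 = 0 ∧ (M : Matrix (Fin 3) (Fin 3) F) 2 2 = 1} → ℕ) =
      Set.range (orderOf : alternatingGroup (Fin 6) → ℕ) := by
  haveI : CharP F 2 := H8.charP_of_card (k := 2) Nat.prime_two hF
  have t2 : (2 : F) = 0 := CharP.cast_eq_zero F 2
  obtain ⟨ω, hω⟩ := H8.exists_fm4 hF
  have e : Subgroup.closure {M : Matrix.SpecialLinearGroup (Fin 3) F |
        (M : Matrix (Fin 3) (Fin 3) F) 2 0 = 0 ∧ (M : Matrix (Fin 3) (Fin 3) F) 2 1 = 0 ∧ (M : Matrix (Fin 3) (Fin 3) F) 2 2 = 1} = S F :=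
    Subgroup.closure_eq (S F)
  rw [e]
  have P := fun g : S F => pw t2 g.1.1 g.2.1 g.2.2.1 g.2.2.2 g.1.2
  have Q : ∀ (g : S F) (k : ℕ), g ^ k = 1 ↔ g.1.1 ^ k = 1 := fun g k =>
    ⟨fun h => congrArg (fun x : S F => x.1.1) h, fun h => Subtype.ext (Subtype.ext h)⟩
  rw [rng, rng]
  · intro g
    simp only [Subtype.ext_iff, Subgroup.coe_pow, Subgroup.coe_one]
    exact a6 g g.2
  · exact ⟨⟨Equiv.swap 0 1 * Equiv.swap 1 2, by simp [Equiv.Perm.mem_alternatingGroup]⟩, Subtype.ext (by decide), fun h => absurd (congrArg Subtype.val h) (by decide)⟩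
  · exact ⟨⟨Equiv.swap 0 1 * Equiv.swap 1 2 * Equiv.swap 2 3 * Equiv.swap 4 5, by simp [Equiv.Perm.mem_alternatingGroup]⟩,
      Subtype.ext (by decide), fun h => absurd (congrArg Subtype.val h) (by decide)⟩
  · exact ⟨⟨Equiv.swap 0 1 * Equiv.swap 1 2 * Equiv.swap 2 3 * Equiv.swap 3 4, by simp [Equiv.Perm.mem_alternatingGroup]⟩,
      Subtype.ext (by decide), fun h => absurd (congrArg Subtype.val h) (by decide)⟩
  · intro g
    simp only [Q]
    have h4 := FiniteField.pow_card (g.1.1 0 0 + g.1.1 1 1)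
    rw [hF] at h4
    have := P g
    generalize g.1.1 0 0 + g.1.1 1 1 = t at *
    have h5 : t * ((t - 1) * (t ^ 2 + t + 1)) = 0 := by linear_combination h4
    rcases mul_eq_zero.1 h5 with h | h
    · exact Or.inr (Or.inl (this.2.1 h))
    rcases mul_eq_zero.1 h with h | h
    · exact Or.inl (this.1 (sub_eq_zero.1 h))
    · exact Or.inr (Or.inr (this.2.2 h))
  · refine ⟨el 0 (-1) 1 1 0 0 (by simp), (Q _ _).2 ((P _).1 (by simp [el])), fun h => ?_⟩
    simpa [el] using congrArg (fun x : S F => x.1.1 0 0) h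
  · refine ⟨el 1 1 0 1 0 1 (by simp), (Q _ _).2 ((P _).2.1 (by simp [el]; linear_combination t2)), fun h => ?_⟩
    have := congrFun (congrFun ((Q _ _).1 h) 0) 2
    simp [el, pow_two, Matrix.mul_apply, Fin.sum_univ_three] at this
  · refine ⟨el 0 (-1) 1 ω 0 0 (by simp), (Q _ _).2 ((P _).2.2 (by simpa [el] using hω)), fun h => ?_⟩
    simpa [el] using congrArg (fun x : S F => x.1.1 0 0) h

end Cfsg.Agent.S3488
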