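import Cfsg.Statements.S3498
import Cfsg.Agent.H1.Frob

set_option autoImplicit false
open Cfsg

namespace Cfsg.Agent.S3498

open Pointwise in

/-- A maximal subgroup of a finite almost simple group does not have prime order. Here G is almost simple in the sense that it has a non-abelian simple normal subgroup T with trivial centralizer. -/
theorem result {G : Type*} [Group G] [Finite G] (T : Subgroup G) [T.Normal] (hT : IsSimpleGroup T) (hTc : ¬ IsMulCommutative T)
    (hC : Subgroup.centralizer (T : Set G) = ⊥) (H : Subgroup G) (hmax : IsCoatom H) : ¬ (Nat.card H).Prime := by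
  intro hp
  haveI := Fact.mk hp
  have key : ∀ N : Subgroup G, N.Normal → N ≠ ⊥ → T ≤ N := fun N hN h0 => by
    rcases hT.eq_bot_or_eq_top_of_normal (N.subgroupOf T) inferInstance with h | h
    · refine absurd (eq_bot_iff.2 (hC ▸ fun n hn t ht => ?_)) h0
      exact (Subgroup.commute_of_normal_of_disjoint T N inferInstance hN
        (by rw [disjoint_comm]; exact Subgroup.subgroupOf_eq_bot.1 h) t n ht hn).eq
    · exact Subgroup.subgroupOf_eq_top.1 h
  have h0 : H ≠ ⊥ := by rintro rfl; exact hp.one_lt.ne' Subgroup.card_bot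
  have hs : ∀ N : Subgroup G, T ≤ N → Group.IsSolvable N → False := fun N h1 h2 =>
    hTc (by haveI := H1.isSolvable_of_le h1 h2; exact IsSimpleGroup.comm_iff_isSolvable.2 this |> fun h => ⟨⟨h⟩⟩)
  have hn : ¬ H.Normal := fun h => hs H (key H h h0) (by
    haveI := isCyclic_of_prime_card (α := H) rfl; infer_instance)
  have hF : Cfsg.IsFrobeniusComplement H := by
    refine ⟨h0, hmax.1, fun g hg => ?_⟩
    by_contra h
    have h1 : H ⊓ MulAut.conj g • H = H := by
      rcases (Nat.dvd_prime hp).1 (Subgroup.card_dvd_of_le (inf_le_left : H ⊓ MulAut.conj g • H ≤ H)) with h1 | h1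
      exacts [absurd (Subgroup.card_eq_one.1 h1) h, H1.eq_of_le_of_card_eq inf_le_left h1]
    have h2 := H1.conj_smul_eq_self_iff.1 (H1.eq_of_le_of_card_eq (inf_eq_left.1 h1) (H1.card_conj_smul g H).symm).symm
    exact hn (Subgroup.normalizer_eq_top_iff.1 (hmax.2 _ (lt_of_le_of_ne Subgroup.le_normalizer fun e => hg (e ▸ h2))))
  obtain ⟨N, h1, -, -, h4, h5, -⟩ := H1.IsFrob.exists_kernel hF
  obtain ⟨V, e1, e2, e3, e4, -⟩ := H1.exists_invariant_elementary Subgroup.le_normalizer_of_normal
    (h4.coprime Subgroup.le_normalizer_of_normal) (Or.inl (by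
      haveI := isCyclic_of_prime_card (α := H) rfl; infer_instance)) h5
  have h6 : Subgroup.normalizer (V : Set G) = ⊤ := hmax.2 _ (lt_of_le_of_ne e3 fun e => e2 (eq_bot_iff.2
    (h4.inf_eq_bot ▸ le_inf (e ▸ Subgroup.le_normalizer) e1)))
  exact hs V (key V (Subgroup.normalizer_eq_top_iff.1 h6) e2) (isSolvable_of_comm e4.1.1)

end Cfsg.Agent.S3498
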