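import Cfsg.Statements.S3504


set_option autoImplicit false
open Cfsg

namespace Cfsg.Agent.S3504

open scoped Pointwise


/-- For n ≥ 5, the fixed-point-free permutations of prime order in the symmetric group of degree n form a single conjugacy class if and only if n is a prime power. -/
theorem result (n : ℕ) (hn : 5 ≤ n) :
    Nat.card {c : ConjClasses (Equiv.Perm (Fin n)) // ∃ g : Equiv.Perm (Fin n), ConjClasses.mk g = c ∧ (orderOf g).Prime ∧ ∀ i : Fin n, g i ≠ i} = 1 ↔ IsPrimePow n := by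
  classical
  have key : ∀ g : Equiv.Perm (Fin n), (orderOf g).Prime → (∀ i, g i ≠ i) →
      orderOf g ∣ n ∧ g.cycleType = Multiset.replicate (n / orderOf g) (orderOf g) := by
    intro g hg hi
    obtain ⟨m, hm⟩ := Equiv.Perm.cycleType_prime_order hg
    have hs : g.support = Finset.univ := by
      ext i; simp [hi i]
    have h1 := g.sum_cycleType
    rw [hs, hm, Multiset.sum_replicate, Finset.card_univ, Fintype.card_fin, smul_eq_mul] at h1
    refine ⟨Dvd.intro_left _ h1, ?_⟩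
    rw [hm, Nat.div_eq_of_eq_mul_left hg.pos h1.symm]
  have ex : ∀ p : ℕ, p.Prime → p ∣ n → ∃ g : Equiv.Perm (Fin n), orderOf g = p ∧ ∀ i, g i ≠ i := by
    intro p hp hd
    obtain ⟨g, hg⟩ := (Equiv.Perm.exists_with_cycleType_iff (Fin n) (m := Multiset.replicate (n / p) p)).2 ⟨by
      rw [Multiset.sum_replicate, smul_eq_mul, Nat.div_mul_cancel hd, Fintype.card_fin], fun a ha => by
      rw [Multiset.eq_of_mem_replicate ha]; exact hp.two_le⟩
    have hpos : n / p ≠ 0 := (Nat.div_pos (Nat.le_of_dvd (by omega) hd) hp.pos).ne'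
    refine ⟨g, ?_, ?_⟩
    · rw [← Equiv.Perm.lcm_cycleType, hg]
      apply Nat.dvd_antisymm
      · exact Multiset.lcm_dvd.2 fun b hb => by rw [Multiset.eq_of_mem_replicate hb]
      · exact Multiset.dvd_lcm (Multiset.mem_replicate.2 ⟨hpos, rfl⟩)
    · have h1 := g.sum_cycleType
      rw [hg, Multiset.sum_replicate, smul_eq_mul, Nat.div_mul_cancel hd] at h1
      have hs : g.support = Finset.univ := Finset.eq_univ_of_card _ (by rw [← h1, Fintype.card_fin])
      intro i
      exact Equiv.Perm.mem_support.1 (hs ▸ Finset.mem_univ i)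
  rw [isPrimePow_iff_unique_prime_dvd, Nat.card_eq_one_iff_exists]
  constructor
  · rintro ⟨⟨c, g, hg, hp, hi⟩, hu⟩
    refine ⟨orderOf g, ⟨hp, (key g hp hi).1⟩, fun q ⟨hq, hd⟩ => ?_⟩
    obtain ⟨g', h1, h2⟩ := ex q hq hd
    have := congrArg Subtype.val (hu ⟨ConjClasses.mk g', g', rfl, h1 ▸ hq, h2⟩)
    simp only at this
    rw [← hg, ConjClasses.mk_eq_mk_iff_isConj] at this
    obtain ⟨u, hu⟩ := this
    rw [← h1]
    exact hu.orderOf_eq
  · rintro ⟨p, ⟨hp, hd⟩, hu⟩
    obtain ⟨g, h1, h2⟩ := ex p hp hd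
    refine ⟨⟨ConjClasses.mk g, g, rfl, h1 ▸ hp, h2⟩, ?_⟩
    rintro ⟨c, g', rfl, h3, h4⟩
    apply Subtype.ext
    simp only
    rw [ConjClasses.mk_eq_mk_iff_isConj, Equiv.Perm.isConj_iff_cycleType_eq, (key g' h3 h4).2, (key g (h1 ▸ hp) h2).2,
      h1, hu _ ⟨h3, (key g' h3 h4).1⟩]

end Cfsg.Agent.S3504
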