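import Cfsg.Statements.S3508


set_option autoImplicit false
open Cfsg

namespace Cfsg.Agent.S3508

open scoped Pointwise
theorem geom (p : ℕ) [Fact p.Prime] (s : ℕ) :
    ∑ i ∈ Finset.range (p ^ s), (Polynomial.X : Polynomial (ZMod p)) ^ i = (Polynomial.X - 1) ^ (p ^ s - 1) := by
  have h0 : (Polynomial.X - 1 : Polynomial (ZMod p)) ≠ 0 := by simpa using Polynomial.X_sub_C_ne_zero (1 : ZMod p)
  apply mul_right_cancel₀ h0
  rw [geom_sum_mul, ← pow_succ, Nat.sub_add_cancel (Nat.one_le_pow _ _ (Fact.out : p.Prime).pos), sub_pow_char_pow, one_pow]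

theorem lin0 {V : Type*} [AddCommGroup V] [Finite V] (p : ℕ) [hp : Fact p.Prime] [Module (ZMod p) V] {m r s : ℕ}
    (hV : Nat.card V = p ^ m) (φ : Module.End (ZMod p) V) (h1 : φ ^ p ^ r = 1) (hc : m < p ^ s) :
    φ ^ p ^ s = 1 ∧ ∑ i ∈ Finset.range (p ^ s), φ ^ i = 0 := by
  have hev : ∀ s : ℕ, (φ - 1) ^ p ^ s = φ ^ p ^ s - 1 := fun s => by
    have := congrArg (Polynomial.aeval φ) (sub_pow_char_pow (p := p) (n := s) (Polynomial.X : Polynomial (ZMod p)) 1)
    simpa using this
  have hnil : IsNilpotent (φ - 1) := ⟨p ^ r, by rw [hev, h1, sub_self]⟩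
  have hfr : Module.finrank (ZMod p) V = m := by
    have := Module.natCard_eq_pow_finrank (K := ZMod p) (V := V)
    rw [Nat.card_zmod] at this
    exact (Nat.pow_right_injective hp.out.two_le (this.symm.trans hV))
  have h2 : (φ - 1) ^ m = 0 := by
    have := LinearMap.aeval_self_charpoly (φ - 1)
    rw [hnil.charpoly_eq_X_pow_finrank, hfr] at this
    simpa using this
  constructor
  · rw [← sub_eq_zero, ← hev, pow_eq_zero_of_le hc.le h2]
  · have := congrArg (Polynomial.aeval φ) (geom p s)
    simp only [map_sum, map_pow, Polynomial.aeval_X, map_sub, map_one] at this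
    rw [this, pow_eq_zero_of_le (by omega) h2]

theorem lin1 {A : Type*} [CommGroup A] [Finite A] (p : ℕ) [hp : Fact p.Prime] [Module (ZMod p) (Additive A)] {m r s : ℕ}
    (hV : Nat.card A = p ^ m) (φ : MulAut A) (h1 : φ ^ p ^ r = 1) (hc : m < p ^ s) :
    φ ^ p ^ s = 1 ∧ ∀ a, ∏ i ∈ Finset.range (p ^ s), (φ ^ i) a = 1 := by
  let ψ : Module.End (ZMod p) (Additive A) := (MonoidHom.toAdditive φ.toMonoidHom).toZModLinearMap p
  have hψ : ∀ (i : ℕ) (x : A), ((ψ ^ i : Module.End (ZMod p) (Additive A)) (Additive.ofMul x)).toMul = (φ ^ i) x := by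
    intro i x
    induction i with
    | zero => simp
    | succ i ih =>
      rw [pow_succ', Module.End.mul_apply, pow_succ', MulAut.mul_apply, ← ih]
      rfl
  obtain ⟨h3, h4⟩ := lin0 p (V := Additive A) (r := r) hV ψ (by
    ext x
    have := hψ (p ^ r) x.toMul
    rw [h1] at this
    simpa using this) hc
  constructor
  · ext x
    rw [← hψ, h3]; rfl
  · intro a
    have := congrArg (fun f : Module.End (ZMod p) (Additive A) => (f (Additive.ofMul a)).toMul) h4
    simpa [hψ] using this

theorem lin {A : Type*} [CommGroup A] [Finite A] (p : ℕ) [hp : Fact p.Prime] (hA : ∀ a : A, a ^ p = 1) {m r s : ℕ}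
    (hV : Nat.card A = p ^ m) (φ : MulAut A) (h1 : φ ^ p ^ r = 1) (hc : m < p ^ s) :
    φ ^ p ^ s = 1 ∧ ∀ a, ∏ i ∈ Finset.range (p ^ s), (φ ^ i) a = 1 := by
  letI : Module (ZMod p) (Additive A) := AddCommGroup.zmodModule fun x =>
    Additive.toMul.injective (by simpa using hA x.toMul)
  exact lin1 p hV φ h1 hc

theorem pw {G : Type*} [Group G] (n h : G) (q : ℕ) :
    (n * h) ^ q = ((List.range q).map fun i => h ^ i * n * (h ^ i)⁻¹).prod * h ^ q := by
  induction q with
  | zero => simp
  | succ q ih => rw [pow_succ, ih, List.range_succ, List.map_append, List.prod_append]; simp [pow_succ, mul_assoc]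

/-- Let a finite group G act faithfully on a set Ω with p ^ m points (p prime) and have an elementary abelian normal p-subgroup N acting regularly on Ω (so G is a group of affine transformations of an m-dimensional space over the field with p elements). If G contains an element of order p ^ r with r ≥ 1, then p ^ (r − 1) ≤ m. In particular an element of order p ^ m forces m ≤ 2, and m ≤ 1 when p is odd. -/
theorem result {G : Type*} [Group G] [Finite G] {Ω : Type*} [Fintype Ω] [MulAction G Ω] [FaithfulSMul G Ω] (p m : ℕ) (hp : p.Prime) (hcard : Fintype.card Ω = p ^ m)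
    (N : Subgroup G) [N.Normal] (hNc : IsMulCommutative N) (hNp : ∀ n ∈ N, n ^ p = 1)
    (hNtr : MulAction.IsPretransitive N Ω) (hNreg : ∀ ω : Ω, MulAction.stabilizer N ω = ⊥)
    (g : G) (r : ℕ) (hr : 1 ≤ r) (hg : orderOf g = p ^ r) :
    p ^ (r - 1) ≤ m ∧ (r = m → m ≤ 2 ∧ (2 < p → m ≤ 1)) := by
  haveI := Fact.mk hp
  have main : p ^ (r - 1) ≤ m := by
    by_contra hc
    push Not at hc
    haveI : Nonempty Ω := Fintype.card_pos_iff.1 (hcard ▸ pow_pos hp.pos _)
    obtain ⟨ω⟩ := ‹Nonempty Ω›
    have hN : Nat.card N = p ^ m := by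
      rw [← hcard, ← Nat.card_eq_fintype_card, ← MulAction.index_stabilizer_of_transitive N ω, hNreg, Subgroup.index_bot]
    letI : CommGroup N := { (inferInstance : Group N) with mul_comm := hNc.is_comm.comm }
    obtain ⟨n, hn⟩ := hNtr.exists_smul_eq ω (g • ω)
    set h : G := (n : G)⁻¹ * g with hh
    have hg' : g = n * h := by rw [hh]; group
    have hω : h • ω = ω := by rw [hh, mul_smul, ← hn]; exact inv_smul_smul (n : G) ω
    let φ : MulAut N := MulAut.conjNormal (H := N) h
    have hφ : ∀ (i : ℕ) (x : N), (((φ ^ i) x : N) : G) = h ^ i * x * (h ^ i)⁻¹ := by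
      intro i x
      rw [← map_pow]; rfl
    have hcm : ∀ a b : N, (a : G) * b = b * a := fun a b => congrArg Subtype.val (hNc.is_comm.comm a b)
    have hgh : ∀ (i : ℕ) (x : N), g ^ i * x * (g ^ i)⁻¹ = h ^ i * x * (h ^ i)⁻¹ := by
      intro i x
      induction i with
      | zero => simp
      | succ i ih =>
        have e : ∀ y : N, g * y * g⁻¹ = h * y * h⁻¹ := fun y => by
          have := hcm n ⟨_, ‹N.Normal›.conj_mem _ y.2 h⟩
          simp only at this
          rw [hg', mul_inv_rev]
          calc _ = n * (h * y * h⁻¹) * (n : G)⁻¹ := by group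
            _ = _ := by rw [this]; group
        have := e ⟨_, ‹N.Normal›.conj_mem _ x.2 (h ^ i)⟩
        simp only at this
        calc _ = g * (g ^ i * x * (g ^ i)⁻¹) * g⁻¹ := by rw [pow_succ']; group
          _ = _ := by rw [ih, this, pow_succ']; group
    have h1 : φ ^ p ^ r = 1 := by
      ext x
      have := hφ (p ^ r) x
      rw [← hgh, show g ^ p ^ r = 1 by rw [← hg, pow_orderOf_eq_one]] at this
      simpa using this
    obtain ⟨h3, h4⟩ := lin p (A := N) (fun a => Subtype.ext (hNp _ a.2)) hN φ h1 hc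
    have h5 : h ^ p ^ (r - 1) = 1 := by
      apply FaithfulSMul.eq_of_smul_eq_smul (α := Ω)
      intro y
      obtain ⟨x, rfl⟩ := hNtr.exists_smul_eq ω y
      have e := hφ (p ^ (r - 1)) x
      rw [h3] at e
      have e2 : h ^ p ^ (r - 1) * x = x * h ^ p ^ (r - 1) := by
        rw [eq_mul_inv_iff_mul_eq] at e; exact e.symm
      have e3 : (h ^ p ^ (r - 1)) • ω = ω := (MulAction.stabilizer G ω).pow_mem hω _
      rw [one_smul, Subgroup.smul_def, ← mul_smul, e2, mul_smul, e3]
    have h6 : ∀ q : ℕ, ((List.range q).map fun i => h ^ i * n * (h ^ i)⁻¹).prod =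
        ((∏ i ∈ Finset.range q, (φ ^ i) n : N) : G) := by
      intro q
      induction q with
      | zero => simp
      | succ q ih =>
        rw [List.range_succ, List.map_append, List.prod_append, ih, Finset.prod_range_succ]
        rw [show ∀ a b : N, ((a * b : N) : G) = a * b from fun _ _ => rfl, hφ]
        simp
    have h7 : g ^ p ^ (r - 1) = 1 := by
      rw [hg', pw, h6, h4, h5]; simp
    have := Nat.le_of_dvd (pow_pos hp.pos _) (hg ▸ orderOf_dvd_of_pow_eq_one h7)
    have := (Nat.pow_le_pow_iff_right hp.one_lt).1 this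
    omega
  refine ⟨main, ?_⟩
  rintro rfl
  have key : ∀ t : ℕ, t + 3 < 2 ^ (t + 2) ∧ t + 2 < 3 ^ (t + 1) := fun t => by
    induction t with
    | zero => norm_num
    | succ t ih => constructor <;> rw [pow_succ] <;> omega
  constructor
  · by_contra hc
    obtain ⟨t, rfl⟩ : ∃ t, r = t + 3 := ⟨r - 3, by omega⟩
    have := Nat.pow_le_pow_left hp.two_le (t + 2)
    have := (key t).1
    simp only [show t + 3 - 1 = t + 2 from rfl] at main
    omega
  · intro h3
    by_contra hc
    obtain ⟨t, rfl⟩ : ∃ t, r = t + 2 := ⟨r - 2, by omega⟩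
    have := Nat.pow_le_pow_left (show 3 ≤ p from h3) (t + 1)
    have := (key t).2
    simp only [show t + 2 - 1 = t + 1 from rfl] at main
    omega

end Cfsg.Agent.S3508
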