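import Cfsg.Statements.S3511


set_option autoImplicit false
open Cfsg

namespace Cfsg.Agent.S3511

/-- Let a finite group G act faithfully on a set Ω. If every element of G of square-free order has a regular cycle (an orbit of the cyclic group it generates with trivial stabilizer), then every element of G has a regular cycle. -/
theorem result {G : Type*} [Group G] [Finite G] {Ω : Type*} [MulAction G Ω] [FaithfulSMul G Ω]
    (h : ∀ g : G, Squarefree (orderOf g) → ∃ ω : Ω, MulAction.stabilizer (Subgroup.zpowers g) ω = ⊥) (g : G) :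
    ∃ ω : Ω, MulAction.stabilizer (Subgroup.zpowers g) ω = ⊥ := by
  classical
  set n := orderOf g with hn
  have hn0 : n ≠ 0 := (orderOf_pos g).ne'
  set r := UniqueFactorizationMonoid.radical n with hr
  have hrn : r ∣ n := UniqueFactorizationMonoid.radical_dvd_self
  obtain ⟨m, hm⟩ := hrn
  have hm0 : m ≠ 0 := by rintro rfl; exact hn0 (by simpa using hm)
  have ho : orderOf (g ^ m) = r := by
    rw [orderOf_pow_of_dvd hm0 (by rw [← hn, hm]; exact dvd_mul_left _ _), ← hn, hm, Nat.mul_div_cancel _ (Nat.pos_of_ne_zero hm0)]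
  obtain ⟨ω, hω⟩ := h (g ^ m) (ho ▸ UniqueFactorizationMonoid.squarefree_radical)
  refine ⟨ω, ?_⟩
  by_contra hne
  haveI : Nontrivial (MulAction.stabilizer (Subgroup.zpowers g) ω) := (Subgroup.nontrivial_iff_ne_bot _).2 hne
  obtain ⟨p, hp, hpd⟩ := Nat.exists_prime_and_dvd (Finite.one_lt_card (α := MulAction.stabilizer (Subgroup.zpowers g) ω)).ne'
  haveI := Fact.mk hp
  obtain ⟨x, hx⟩ := exists_prime_orderOf_dvd_card' p hpd
  have hx' : orderOf (x.1.1 : G) = p := by rw [Subgroup.orderOf_coe, Subgroup.orderOf_coe, hx]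
  obtain ⟨j, hj⟩ := (mem_zpowers_iff_mem_range_orderOf.1 x.1.2 |> Finset.mem_image.1)
  have h1 : n ∣ j * p := by
    rw [hn, orderOf_dvd_iff_pow_eq_one, pow_mul, hj.2, ← hx', pow_orderOf_eq_one]
  have hpn : p ∣ n := by rw [← hx', hn]; exact orderOf_dvd_of_mem_zpowers x.1.2
  have hpr : p ∣ r := (UniqueFactorizationMonoid.dvd_radical_iff_of_irreducible hp.prime.irreducible hn0).2 hpn
  obtain ⟨s, hs⟩ := hpr
  have h2 : m ∣ j := by
    rw [hm, hs, mul_assoc, mul_comm j] at h1
    exact (dvd_mul_left m s).trans (Nat.dvd_of_mul_dvd_mul_left hp.pos h1)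
  obtain ⟨t, ht⟩ := h2
  have h3 : x.1.1 ∈ Subgroup.zpowers (g ^ m) := by
    rw [← hj.2, ht, pow_mul]; exact Subgroup.npow_mem_zpowers _ _
  have h4 : (⟨x.1.1, h3⟩ : Subgroup.zpowers (g ^ m)) ∈ MulAction.stabilizer (Subgroup.zpowers (g ^ m)) ω := x.2
  rw [hω, Subgroup.mem_bot] at h4
  have h5 : x.1.1 = 1 := congrArg Subtype.val h4
  rw [h5, orderOf_one] at hx'
  exact hp.one_lt.ne hx'

end Cfsg.Agent.S3511
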