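import Cfsg.Statements.S3514
import Cfsg.Agent.H1.Basic

set_option autoImplicit false
open Cfsg

namespace Cfsg.Agent.S3514

open MulAction in

/-- Let p be a prime, V a finite vector space over the field with p elements, and H a group of linear transformations of V all of whose orbits on V have size coprime to p. (i) Every normal subgroup K of H has all its orbits on V of size coprime to p. (ii) If N is a group of linear transformations of V of order coprime to p that is normalized by H, then the group generated by N and H has all its orbits on V of size coprime to p. -/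
theorem result (p : ℕ) [Fact p.Prime] {V : Type*} [AddCommGroup V] [Module (ZMod p) V] [Finite V]
    (H : Subgroup (V ≃ₗ[ZMod p] V)) (hH : ∀ v : V, ¬ p ∣ Nat.card {u : V | ∃ h ∈ H, h v = u}) :
    (∀ K : Subgroup (V ≃ₗ[ZMod p] V), K ≤ H → H ≤ Subgroup.normalizer (K : Set (V ≃ₗ[ZMod p] V)) →
        ∀ v : V, ¬ p ∣ Nat.card {u : V | ∃ k ∈ K, k v = u}) ∧
    (∀ N : Subgroup (V ≃ₗ[ZMod p] V), ¬ p ∣ Nat.card N → H ≤ Subgroup.normalizer (N : Set (V ≃ₗ[ZMod p] V)) →
        ∀ v : V, ¬ p ∣ Nat.card {u : V | ∃ x ∈ N ⊔ H, x v = u}) := by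
  haveI : Finite (V ≃ₗ[ZMod p] V) := Finite.of_injective (fun f => (f : V → V)) DFunLike.coe_injective
  have key : ∀ (K : Subgroup (V ≃ₗ[ZMod p] V)) (v : V), Nat.card {u : V | ∃ k ∈ K, k v = u} =
      (stabilizer (V ≃ₗ[ZMod p] V) v).relIndex K := fun K v => by
    have : {u : V | ∃ k ∈ K, k v = u} = orbit K v := by
      ext u; exact ⟨fun ⟨k, hk, h⟩ => ⟨⟨k, hk⟩, h⟩, fun ⟨k, h⟩ => ⟨k, k.2, h⟩⟩
    rw [this, Nat.card_coe_set_eq, ← index_stabilizer]; rfl
  simp only [key] at hH ⊢
  have hp : p.Prime := Fact.out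
  refine ⟨fun K hK hN v h => hH v (h.trans ?_), fun N hN hHN v h => ?_⟩
  · set S := stabilizer (V ≃ₗ[ZMod p] V) v
    have e1 : S.relIndex K = (S ⊓ H).relIndex ((S ⊓ H) ⊔ K) := by
      have h1 := H1.card_sup_mul_card_inf (H := S ⊓ H) (K := K) (inf_le_right.trans hN)
      have h2 := H1.card_mul_relIndex (H := S ⊓ H) (K := (S ⊓ H) ⊔ K) le_sup_left
      have h3 := H1.card_inf_mul_relIndex S K
      rw [inf_assoc, inf_eq_right.2 hK] at h1
      have h4 : 0 < Nat.card (S ⊓ H : Subgroup _) * Nat.card (S ⊓ K : Subgroup _) := Nat.mul_pos Nat.card_pos Nat.card_pos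
      refine Nat.eq_of_mul_eq_mul_left h4 ?_
      rw [mul_assoc, h3, ← h1, ← h2]; ring
    rw [e1, ← Subgroup.inf_relIndex_right S H]
    exact Dvd.intro _ (Subgroup.relIndex_mul_relIndex _ _ _ le_sup_left (sup_le inf_le_right hK))
  · set S := stabilizer (V ≃ₗ[ZMod p] V) v
    have e1 : S.relIndex (N ⊔ H) ∣ (S ⊓ H).relIndex (N ⊔ H) := Subgroup.relIndex_dvd_of_le_left _ inf_le_left
    rw [← Subgroup.relIndex_mul_relIndex _ H _ inf_le_right le_sup_right, Subgroup.inf_relIndex_right] at e1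
    rcases (Nat.Prime.dvd_mul hp).1 (h.trans e1) with h1 | h1
    · exact hH v h1
    refine hN (h1.trans ?_)
    have h1 := H1.card_sup_mul_card_inf hHN
    have h2 := H1.card_mul_relIndex (H := H) (K := H ⊔ N) le_sup_left
    rw [sup_comm]
    refine ⟨Nat.card (H ⊓ N : Subgroup _), Nat.eq_of_mul_eq_mul_left (Nat.card_pos (α := H)) ?_⟩
    rw [← h1, ← h2]; ring

end Cfsg.Agent.S3514
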