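import Cfsg.Statements.S3515
import Cfsg.Agent.H2.Aff

set_option autoImplicit false
open Cfsg

namespace Cfsg.Agent.S3515

theorem four : ∀ x : Fin 2 → ZMod 2, x = 0 ∨ x = Pi.single 0 1 ∨ x = Pi.single 1 1 ∨ x = 1 := by decide

/-- Every primitive affine permutation group of degree p² is 3-closed. Let p be a prime and G a group of permutations of the plane V = F_p² consisting of affine maps x ↦ Ax + b, containing all translations, and acting primitively on V. Then any permutation σ of V that agrees on every triple of points with some element of G (σ preserves every G-orbit on ordered triples) already lies in G. -/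
theorem result (p : ℕ) [Fact p.Prime] (G : Subgroup (Equiv.Perm (Fin 2 → ZMod p)))
    (haff : (G : Set (Equiv.Perm (Fin 2 → ZMod p))) ⊆ {τ : Equiv.Perm (Fin 2 → ZMod p) | ∃ (A : (Fin 2 → ZMod p) ≃ₗ[ZMod p] (Fin 2 → ZMod p)) (b : Fin 2 → ZMod p), ∀ x, τ x = A x + b})
    (htrans : ∀ b : Fin 2 → ZMod p, ∃ g ∈ G, ∀ x, g x = x + b) (hprim : MulAction.IsPreprimitive G (Fin 2 → ZMod p))
    (σ : Equiv.Perm (Fin 2 → ZMod p)) (hσ : (∀ t : Fin 3 → (Fin 2 → ZMod p), ∃ g ∈ G, ∀ i, σ (t i) = g (t i))) : σ ∈ G := by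
  obtain ⟨g, hg, h⟩ := hσ ![0, Pi.single 0 1, Pi.single 1 1]
  have e0 : σ 0 = g 0 := h 0
  have e1 : σ (Pi.single 0 1) = g (Pi.single 0 1) := h 1
  have e2 : σ (Pi.single 1 1) = g (Pi.single 1 1) := h 2
  suffices σ = g by rw [this]; exact hg
  by_cases hp : p = 2
  · subst hp
    have : (g⁻¹ * σ) 1 = 1 := by
      have h0 : ∀ x, σ x = g x → (g⁻¹ * σ) 1 = x → (g⁻¹ * σ) 1 = 1 := fun x h1 h2 => by
        have : (g⁻¹ * σ) x = x := by simp [h1]
        rw [h2]; exact (g⁻¹ * σ).injective (this.trans h2.symm)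
      rcases four ((g⁻¹ * σ) 1) with h | h | h | h
      exacts [h0 _ e0 h, h0 _ e1 h, h0 _ e2 h, h]
    refine Equiv.ext fun x => ?_
    rcases four x with rfl | rfl | rfl | rfl
    exacts [e0, e1, e2, by simpa [Equiv.symm_apply_eq] using this]
  have h2 : (2 : ZMod p) ≠ 0 := fun h => hp ((Nat.prime_dvd_prime_iff_eq Fact.out Nat.prime_two).1
    ((ZMod.natCast_eq_zero_iff 2 p).1 h))
  obtain ⟨A, b, hA⟩ := H2.affine_of_three h2 σ fun t => by
    obtain ⟨g, hg, h⟩ := hσ t
    obtain ⟨A, b, hA⟩ := haff hg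
    exact ⟨A, b, fun i => (h i).trans (hA _)⟩
  obtain ⟨A', b', hA'⟩ := haff hg
  simp only [hA, hA', map_zero, zero_add] at e0 e1 e2
  subst e0
  refine Equiv.ext fun x => ?_
  have : x = x 0 • Pi.single 0 1 + x 1 • Pi.single 1 1 := by
    ext i; fin_cases i <;> simp
  rw [hA, hA', this, map_add, map_add, map_smul, map_smul, map_smul, map_smul, add_right_cancel e1, add_right_cancel e2]

end Cfsg.Agent.S3515
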