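import Cfsg.Statements.S3516
import Cfsg.Agent.H2.Aff

set_option autoImplicit false
open Cfsg

namespace Cfsg.Agent.S3516

/-- Let p be an odd prime, d ≥ 3, and G a group of affine permutations x ↦ Ax + b of V = F_p^d containing all translations and all maps x ↦ Ax with A of determinant 1. Then the 3-closure of G is the full affine group: a permutation σ of V agrees on every triple of points with some element of G if and only if σ is an affine map. -/
theorem result (p : ℕ) [Fact p.Prime] (hp : p ≠ 2) (d : ℕ) (hd : 3 ≤ d) (G : Subgroup (Equiv.Perm (Fin d → ZMod p)))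
    (haff : (G : Set (Equiv.Perm (Fin d → ZMod p))) ⊆ {τ : Equiv.Perm (Fin d → ZMod p) | ∃ (A : (Fin d → ZMod p) ≃ₗ[ZMod p] (Fin d → ZMod p)) (b : Fin d → ZMod p), ∀ x, τ x = A x + b})
    (htrans : ∀ b : Fin d → ZMod p, ∃ g ∈ G, ∀ x, g x = x + b)
    (hsl : ∀ A : (Fin d → ZMod p) ≃ₗ[ZMod p] (Fin d → ZMod p), LinearMap.det (A : (Fin d → ZMod p) →ₗ[ZMod p] (Fin d → ZMod p)) = 1 → ∃ g ∈ G, ∀ x, g x = A x)
    (σ : Equiv.Perm (Fin d → ZMod p)) :
    (∀ t : Fin 3 → (Fin d → ZMod p), ∃ g ∈ G, ∀ i, σ (t i) = g (t i)) ↔ σ ∈ {τ : Equiv.Perm (Fin d → ZMod p) | ∃ (A : (Fin d → ZMod p) ≃ₗ[ZMod p] (Fin d → ZMod p)) (b : Fin d → ZMod p), ∀ x, τ x = A x + b} := by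
  have h2 : (2 : ZMod p) ≠ 0 := fun h => hp ((Nat.prime_dvd_prime_iff_eq Fact.out Nat.prime_two).1
    ((ZMod.natCast_eq_zero_iff 2 p).1 h))
  refine ⟨fun hσ => H2.affine_of_three h2 σ fun t => ?_, fun ⟨A, b, hA⟩ t => ?_⟩
  · obtain ⟨g, hg, h⟩ := hσ t
    obtain ⟨A, b, hA⟩ := haff hg
    exact ⟨A, b, fun i => (h i).trans (hA _)⟩
  classical
  obtain ⟨A', h1, h3⟩ := H2.exists_det_one A (Submodule.span (ZMod p) (({t 1 - t 0, t 2 - t 0} : Finset _) : Set (Fin d → ZMod p))) fun h => by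
    have := finrank_span_finset_le_card (R := ZMod p) ({t 1 - t 0, t 2 - t 0} : Finset (Fin d → ZMod p))
    rw [Set.finrank, h, finrank_top, Module.finrank_fin_fun] at this
    have := Finset.card_le_two (a := t 1 - t 0) (b := t 2 - t 0)
    omega
  obtain ⟨g1, hg1, e1⟩ := hsl A' h1
  obtain ⟨g2, hg2, e2⟩ := htrans (σ (t 0) - A' (t 0))
  refine ⟨g2 * g1, G.mul_mem hg2 hg1, fun i => ?_⟩
  have : A' (t i - t 0) = A (t i - t 0) := by
    fin_cases i
    · simp
    · exact h3 _ (Submodule.subset_span (by simp))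
    · exact h3 _ (Submodule.subset_span (by simp))
  rw [map_sub, map_sub] at this
  rw [Equiv.Perm.mul_apply, e2, e1, hA, hA]
  linear_combination (exp := 1) -this

end Cfsg.Agent.S3516
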