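import Cfsg.Statements.S3517
import Cfsg.Agent.H2.Aff

set_option autoImplicit false
open Cfsg

namespace Cfsg.Agent.S3517

theorem step {V : Type*} [AddCommGroup V] [Module (ZMod 2) V] (W : Submodule (ZMod 2) V) {u w : V}
    (hu : u ∉ W) (hw : w ∉ W) : ∃ A : V ≃ₗ[ZMod 2] V, A u = w ∧ ∀ x ∈ W, A x = x := by
  obtain ⟨f, hf, hfW⟩ := W.exists_dual_map_eq_bot_of_notMem hu inferInstance
  obtain ⟨g, hg, hgW⟩ := W.exists_dual_map_eq_bot_of_notMem hw inferInstance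
  have h01 : ∀ a : ZMod 2, a ≠ 0 → a = 1 := by decide
  obtain ⟨k, h1, h2, h3⟩ : ∃ k : Module.Dual (ZMod 2) V, k u = 1 ∧ k w = 1 ∧ ∀ x ∈ W, k x = 0 := by
    have e1 : ∀ x ∈ W, f x = 0 := fun x hx => by
      have : f x ∈ W.map f := ⟨x, hx, rfl⟩
      rwa [hfW] at this
    have e2 : ∀ x ∈ W, g x = 0 := fun x hx => by
      have : g x ∈ W.map g := ⟨x, hx, rfl⟩
      rwa [hgW] at this
    by_cases h : f w = 0
    · by_cases h' : g u = 0
      · exact ⟨f + g, by simp [h', h01 _ hf], by simp [h, h01 _ hg], fun x hx => by simp [e1 x hx, e2 x hx]⟩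
      · exact ⟨g, h01 _ h', h01 _ hg, e2⟩
    · exact ⟨f, h01 _ hf, h01 _ h, e1⟩
  refine ⟨LinearEquiv.transvection (f := k) (v := w - u) (by simp [h1, h2]), ?_, fun x hx => ?_⟩
  · simp [LinearMap.transvection.apply, h1]
  · simp [LinearMap.transvection.apply, h3 x hx]

theorem two {V : Type*} [AddCommGroup V] [Module (ZMod 2) V] {u v w z : V} (h1 : u = 0 ↔ w = 0)
    (h2 : v = 0 ↔ z = 0) (h3 : v = u ↔ z = w) : ∃ A : V ≃ₗ[ZMod 2] V, A u = w ∧ A v = z := by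
  obtain ⟨A, hA⟩ : ∃ A : V ≃ₗ[ZMod 2] V, A u = w := by
    by_cases h : u = 0
    · exact ⟨1, by rw [h, h1.1 h]; rfl⟩
    · obtain ⟨A, hA, -⟩ := step ⊥ (u := u) (w := w) h (mt h1.2 h)
      exact ⟨A, hA⟩
  by_cases hv : v = 0
  · exact ⟨A, hA, by rw [hv, h2.1 hv, map_zero]⟩
  by_cases hv' : v = u
  · exact ⟨A, hA, by rw [hv', h3.1 hv', hA]⟩
  have h01 : ∀ a : ZMod 2, a = 0 ∨ a = 1 := by decide
  have key : ∀ x : V, x ≠ 0 → x ≠ w → x ∉ Submodule.span (ZMod 2) {w} := fun x h4 h5 h => by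
    obtain ⟨a, rfl⟩ := Submodule.mem_span_singleton.1 h
    rcases h01 a with rfl | rfl <;> simp at h4 h5
  obtain ⟨B, hB, hB'⟩ := step _ (key (A v) (by simpa using hv) (by rw [← hA]; simpa using hv'))
    (key z (mt h2.2 hv) (mt h3.2 hv'))
  exact ⟨A.trans B, by simp [hA, hB' w (Submodule.mem_span_singleton_self w)], hB⟩

/-- For d ≥ 3, the 3-closure of the affine group AGL_d(2) acting on F_2^d is the full symmetric group: every permutation of F_2^d agrees on every ordered triple of points with some affine map (AGL_d(2) is 3-transitive). -/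
theorem result (d : ℕ) (hd : 3 ≤ d) (σ : Equiv.Perm (Fin d → ZMod 2)) (t : Fin 3 → (Fin d → ZMod 2)) :
    ∃ (A : (Fin d → ZMod 2) ≃ₗ[ZMod 2] (Fin d → ZMod 2)) (b : Fin d → ZMod 2), ∀ i, σ (t i) = A (t i) + b := by
  obtain ⟨A, h1, h2⟩ := two (u := t 1 - t 0) (v := t 2 - t 0) (w := σ (t 1) - σ (t 0)) (z := σ (t 2) - σ (t 0))
    (by simp [sub_eq_zero]) (by simp [sub_eq_zero]) (by simp)
  refine ⟨A, σ (t 0) - A (t 0), fun i => ?_⟩
  rw [map_sub] at h1 h2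
  fin_cases i
  · simp
  · exact (by linear_combination (exp := 1) -h1 : σ (t 1) = A (t 1) + (σ (t 0) - A (t 0)))
  · exact (by linear_combination (exp := 1) -h2 : σ (t 2) = A (t 2) + (σ (t 0) - A (t 0)))

end Cfsg.Agent.S3517
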