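import Cfsg.Statements.S3547
import Cfsg.Agent.H2.Der

set_option autoImplicit false
open Cfsg

namespace Cfsg.Agent.S3547

open H2 MulAction in

/-- Let G act faithfully and transitively on a finite set Ω, let D be the subgroup generated by the derangements, and let r_G and r_D be the numbers of orbits of G and of D on ordered pairs of points (the permutation ranks). Then r_D − 1 = (r_G − 1)·[G : D]. -/
theorem result {G Ω : Type*} [Group G] [Finite G] [MulAction G Ω] [FaithfulSMul G Ω] [Finite Ω]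
    (htrans : MulAction.IsPretransitive G Ω) :
    Nat.card (MulAction.orbitRel.Quotient ↥(Subgroup.closure {g : G | ∀ ω : Ω, g • ω ≠ ω}) (Ω × Ω)) - 1 =
      (Nat.card (MulAction.orbitRel.Quotient G (Ω × Ω)) - 1) * (Subgroup.closure {g : G | ∀ ω : Ω, g • ω ≠ ω}).index := by
  classical
  rcases isEmpty_or_nonempty Ω with h0 | h0
  · simp
  haveI := Fintype.ofFinite G
  have h1 := burn_top (G := G) (Ω × Ω)
  rw [← Finset.sum_filter_add_sum_filter_not Finset.univ (· ∈ Der G Ω), burn] at h1
  have h2 := card_filter_not_mem (Der G Ω)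
  have h3 : ∑ g ∈ Finset.univ.filter (fun g => ¬ g ∈ Der G Ω), Nat.card (fixedBy (Ω × Ω) g) =
      ∑ g ∈ Finset.univ.filter (fun g => ¬ g ∈ Der G Ω), 1 := by
    refine Finset.sum_congr rfl fun g hg => ?_
    have : Nat.card (fixedBy Ω g) = 1 := by
      by_contra h; exact (Finset.mem_filter.1 hg).2 ((der_main htrans).2 g h)
    rw [card_fixedBy_prod, this]
  rw [h3, Finset.sum_const, smul_eq_mul, mul_one] at h1
  have h4 := (Der G Ω).card_mul_index
  have h5 : 0 < Nat.card (orbitRel.Quotient (Der G Ω) (Ω × Ω)) := Nat.card_pos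
  have h5' : 0 < Nat.card (orbitRel.Quotient G (Ω × Ω)) := Nat.card_pos
  have h6 : 0 < Nat.card (Der G Ω) := Nat.card_pos
  obtain ⟨a, ha⟩ := Nat.exists_eq_add_of_le' h5
  obtain ⟨b, hb⟩ := Nat.exists_eq_add_of_le' h5'
  rw [ha, hb] at h1 ⊢
  simp only [Nat.add_sub_cancel]
  refine Nat.eq_of_mul_eq_mul_left h6 ?_
  nlinarith

end Cfsg.Agent.S3547
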