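import Cfsg.Statements.S3548
import Cfsg.Agent.H2.Der
import Cfsg.Agent.H1.Basic

set_option autoImplicit false
open Cfsg

namespace Cfsg.Agent.S3548

open H2 MulAction in

/-- Let G act faithfully and transitively on a finite set with n ≥ 2 points and let D be the subgroup generated by the derangements. Then the index of D in G divides n − 1, and if it equals n − 1 then n is a prime power. -/
theorem result {G Ω : Type*} [Group G] [Finite G] [MulAction G Ω] [FaithfulSMul G Ω] [Finite Ω]
    (htrans : MulAction.IsPretransitive G Ω) (hΩ : 2 ≤ Nat.card Ω) :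
    (Subgroup.closure {g : G | ∀ ω : Ω, g • ω ≠ ω}).index ∣ Nat.card Ω - 1 ∧
    ((Subgroup.closure {g : G | ∀ ω : Ω, g • ω ≠ ω}).index = Nat.card Ω - 1 → IsPrimePow (Nat.card Ω)) := by
  haveI : Nontrivial Ω := Finite.one_lt_card_iff_nontrivial.1 hΩ
  obtain ⟨a, b, hab⟩ := exists_pair_ne Ω
  have h1 := der_index_dvd htrans a Set.univ trivial (fun _ _ _ _ => trivial)
  rw [Nat.card_congr (Equiv.Set.univ Ω)] at h1
  refine ⟨h1, fun h2 => ?_⟩
  haveI := der_normal (G := G) (Ω := Ω)
  set D := Der G Ω with hD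
  have hDt := (der_main htrans).1
  set K := stabilizer G a
  have hK : D.relIndex K = Nat.card Ω - 1 := (relIndex_stab D hDt a).trans h2
  -- for x ≠ a : stabilizer of x in K equals D ⊓ K, and K is transitive on the rest
  have h3 : ∀ x, x ≠ a → (stabilizer K x = D.subgroupOf K ∧ orbit K x = {a}ᶜ) := fun x hx => by
    have e1 : stabilizer K x ≤ D.subgroupOf K := fun k hk => mem_der_of_two htrans hx.symm k.2 hk
    have e2 : orbit K x ⊆ {a}ᶜ := by
      rintro _ ⟨k, rfl⟩ h
      have h' : (k : G) • x = (k : G) • a := by rw [show (k : G) • a = a from k.2]; exact h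
      exact hx (smul_left_cancel _ h')
    have e3 : (orbit K x).ncard = (stabilizer K x).index := (index_stabilizer K x).symm
    have e4 : ({a}ᶜ : Set Ω).ncard = Nat.card Ω - 1 := by
      rw [Set.compl_eq_univ_diff, Set.ncard_diff_singleton_of_mem (Set.mem_univ a), Set.ncard_univ]
    have e5 := Set.ncard_le_ncard e2
    have e6 : (D.subgroupOf K).index ≤ (stabilizer K x).index :=
      Nat.le_of_dvd (Nat.pos_of_ne_zero Subgroup.index_ne_zero_of_finite) (Subgroup.index_dvd_of_le e1)
    have e7 : (D.subgroupOf K).index = Nat.card Ω - 1 := hK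
    refine ⟨H1.eq_of_le_of_card_eq e1 (Nat.eq_of_mul_eq_mul_right (Nat.pos_of_ne_zero (Subgroup.index_ne_zero_of_finite (H := stabilizer K x))) (by
      rw [Subgroup.card_mul_index, show (stabilizer K x).index = (D.subgroupOf K).index by omega, Subgroup.card_mul_index])), Set.eq_of_subset_of_ncard_le e2 (by omega)⟩
  have h4 : ∀ d ∈ D, d • a = a → d = 1 := fun d hd h => by
    refine FaithfulSMul.eq_of_smul_eq_smul (α := Ω) fun x => ?_
    rw [one_smul]
    by_cases hx : x = a
    · rw [hx, h]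
    · have : (⟨d, h⟩ : K) ∈ stabilizer K x := (h3 x hx).1 ▸ hd
      exact this
  have h5 : Nat.card D = Nat.card Ω := by
    refine Nat.card_congr (Equiv.ofBijective (fun d : D => (d : G) • a) ⟨fun d e h => ?_, fun x => hDt.exists_smul_eq a x⟩)
    have := h4 ((e : G)⁻¹ * d) (D.mul_mem (D.inv_mem e.2) d.2) (by rw [mul_smul, inv_smul_eq_iff]; exact h)
    exact Subtype.ext (inv_mul_eq_one.1 this).symm
  obtain ⟨p, hp, hpd⟩ := Nat.exists_prime_and_dvd (n := Nat.card D) (by omega)
  haveI := Fact.mk hp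
  obtain ⟨x, hx⟩ := exists_prime_orderOf_dvd_card' p hpd
  have hx1 : (x : G) • a ≠ a := fun h => by
    have : x = 1 := Subtype.ext (h4 x x.2 h)
    rw [this, orderOf_one] at hx; exact hp.one_lt.ne hx
  have h6 : IsPGroup p D := fun y => by
    by_cases hy : (y : G) • a = a
    · exact ⟨0, by rw [pow_zero, pow_one]; exact Subtype.ext (h4 y y.2 hy)⟩
    have : (y : G) • a ∈ orbit K ((x : G) • a) := (h3 _ hx1).2 ▸ hy
    obtain ⟨k, hk⟩ := this
    have hk' : (k : G) • (x : G) • a = (y : G) • a := hk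
    have e := h4 ((y : G)⁻¹ * (k * x * k⁻¹)) (D.mul_mem (D.inv_mem y.2) (Subgroup.Normal.conj_mem inferInstance _ x.2 _)) (by
      rw [mul_smul, inv_smul_eq_iff, mul_smul, mul_smul, show ((k⁻¹ : K) : G) • a = a from (k⁻¹).2, hk'])
    refine ⟨1, Subtype.ext ?_⟩
    have e' : (x : G) ^ p = 1 := by rw [← hx, ← Subgroup.orderOf_coe, pow_orderOf_eq_one]
    rw [pow_one, Subgroup.coe_pow, inv_mul_eq_one.1 e]
    simp [e']
  obtain ⟨k, hk⟩ := IsPGroup.iff_card.1 h6
  rw [← h5, hk]
  refine (isPrimePow_nat_iff _).2 ⟨p, k, hp, Nat.pos_of_ne_zero ?_, rfl⟩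
  rintro rfl
  rw [pow_zero] at hk
  omega

end Cfsg.Agent.S3548
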