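import Cfsg.Statements.S3549
import Cfsg.Agent.H2.Der

set_option autoImplicit false
open Cfsg

namespace Cfsg.Agent.S3549

open H2 MulAction Pointwise in

/-- Let G act faithfully, transitively but imprimitively on a finite set with n points, and let D be the subgroup generated by the derangements. Then the index of D in G is at most √n − 1. -/
theorem result {G Ω : Type*} [Group G] [Finite G] [MulAction G Ω] [FaithfulSMul G Ω] [Finite Ω]
    (htrans : MulAction.IsPretransitive G Ω) (himp : ¬ MulAction.IsPreprimitive G Ω) :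
    ((Subgroup.closure {g : G | ∀ ω : Ω, g • ω ≠ ω}).index : ℝ) ≤ Real.sqrt (Nat.card Ω) - 1 := by
  obtain ⟨B, hB, hBt⟩ : ∃ B : Set Ω, IsBlock G B ∧ ¬ IsTrivialBlock B := by
    by_contra h
    push Not at h
    exact himp ⟨fun {B} hB => h B hB⟩
  rw [IsTrivialBlock, not_or, Set.not_subsingleton_iff] at hBt
  obtain ⟨⟨a, ha, b, hb, hab⟩, hU⟩ := hBt
  have h1 := der_index_dvd htrans a Set.univ trivial (fun _ _ _ _ => trivial)
  rw [Nat.card_congr (Equiv.Set.univ Ω)] at h1
  have h2 := der_index_dvd htrans a B ha (fun g hg x hx => by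
    have : g • B = B := hB.smul_eq_of_mem ha (by rw [hg]; exact ha)
    rw [← this]; exact Set.smul_mem_smul_set hx)
  rw [Nat.card_coe_set_eq] at h2
  obtain ⟨k, hk⟩ := hB.ncard_dvd_card ⟨a, ha⟩
  have h3 : 2 ≤ B.ncard := (Set.one_lt_ncard_iff (Set.toFinite B)).2 ⟨a, b, ha, hb, hab⟩
  have h4 : B.ncard < Nat.card Ω := by
    rw [← Set.ncard_univ]; exact Set.ncard_lt_ncard (Set.ssubset_univ_iff.2 hU)
  have h5 : 2 ≤ k := by
    by_contra h; have : k = 0 ∨ k = 1 := by omega
    rcases this with rfl | rfl <;> omega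
  set m := (Der G Ω).index
  obtain ⟨c, hc⟩ := Nat.exists_eq_add_of_le' (show 1 ≤ B.ncard by omega)
  obtain ⟨j, rfl⟩ := Nat.exists_eq_add_of_le' (show 1 ≤ k by omega)
  rw [hc] at h2 hk
  have e : (c + 1) * (j + 1) - 1 = c * (j + 1) + j := by ring_nf; omega
  rw [hk, e] at h1
  simp only [Nat.add_sub_cancel] at h2
  have h6 : m ∣ j := (Nat.dvd_add_right (h2.mul_right _)).1 h1
  have h7 := Nat.le_of_dvd (by omega) h6
  have h8 := Nat.le_of_dvd (by omega) h2
  rw [le_sub_iff_add_le]
  refine Real.le_sqrt_of_sq_le ?_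
  have : (m + 1) ^ 2 ≤ Nat.card Ω := by rw [hk]; nlinarith
  exact_mod_cast this

end Cfsg.Agent.S3549
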