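import Cfsg.Statements.S3559
import Cfsg.Agent.H2.SRing

set_option autoImplicit false
open Cfsg

namespace Cfsg.Agent.S3559

open Subgroup MulAction

theorem cyc {G Ω : Type*} [Group G] [Finite G] [MulAction G Ω] (hG : IsPreprimitive G Ω) (C : Subgroup G)
    (hcyc : IsCyclic C) (h1 : IsPretransitive C Ω) (a : Ω) (h2 : stabilizer C a = ⊥) {p : ℕ} (hp : p.Prime)
    (hd : p ∣ Nat.card Ω) (hne : Nat.card Ω ≠ p) : IsMultiplyPretransitive G Ω 2 := by
  haveI := Fact.mk hp
  letI : CommGroup C := IsCyclic.commGroup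
  have hb : Function.Bijective fun c : C => C.subtype c • a := ⟨fun c d h => by
    have : d⁻¹ * c ∈ stabilizer C a := by
      rw [mem_stabilizer_iff, mul_smul, inv_smul_eq_iff]; exact h
    rw [h2, mem_bot, inv_mul_eq_one] at this
    exact this.symm, fun x => exists_smul_eq C a x⟩
  have hc := Nat.card_eq_of_bijective _ hb
  refine H2.schur hG C.subtype a hb (p := p) ?_ (hc ▸ hne)
  rw [IsCyclic.card_powMonoidHom_ker, hc, Nat.gcd_eq_right hd]

/-- Let G act faithfully and transitively on a finite set whose number of points n ≥ 2 is not a prime power, and suppose G has a cyclic subgroup acting regularly (transitively with trivial point stabilizers). Then G is imprimitive or doubly transitive. -/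
theorem result {G Ω : Type*} [Group G] [Finite G] [MulAction G Ω] [FaithfulSMul G Ω] [Finite Ω]
    (htrans : MulAction.IsPretransitive G Ω) (hn : 2 ≤ Nat.card Ω) (hnp : ¬ IsPrimePow (Nat.card Ω))
    (C : Subgroup G) (hcyc : IsCyclic ↥C) (hC : MulAction.IsPretransitive ↥C Ω ∧ ∀ a : Ω, MulAction.stabilizer ↥C a = ⊥) :
    ¬ MulAction.IsPreprimitive G Ω ∨ MulAction.IsMultiplyPretransitive G Ω 2 := by
  refine or_iff_not_imp_left.2 fun h => ?_
  obtain ⟨a⟩ : Nonempty Ω := (Nat.card_pos_iff.1 (by omega)).1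
  have hp := Nat.minFac_prime (n := Nat.card Ω) (by omega)
  exact cyc (not_not.1 h) C hcyc hC.1 a (hC.2 a) hp (Nat.minFac_dvd _) fun h' => hnp (h' ▸ hp.isPrimePow)

end Cfsg.Agent.S3559
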