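import Cfsg.Statements.S3560
import Cfsg.Agent.H1.Misc

set_option autoImplicit false
open Cfsg

namespace Cfsg.Agent.S3560

open Subgroup MulAction

def Ham {Ω ι : Type*} [Fintype ι] {m : ℕ} (φ : Ω ≃ (ι → Fin m)) : Subgroup (Equiv.Perm Ω) where
  carrier := {σ | ∀ x y, hammingDist (φ (σ x)) (φ (σ y)) = hammingDist (φ x) (φ y)}
  mul_mem' ha hb x y := (ha _ _).trans (hb x y)
  one_mem' _ _ := rfl
  inv_mem' {σ} h x y := by rw [← h]; simp

theorem tmem {Ω ι : Type*} [Fintype ι] {m : ℕ} (φ : Ω ≃ (ι → Fin m)) (τ : Equiv.Perm ι) (π : ι → Equiv.Perm (Fin m)) :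
    ∃ g : Ham φ, ∀ x, φ (g • x) = fun i => π i (φ x (τ i)) := by
  classical
  refine ⟨⟨φ.symm.permCongr ((τ.symm.arrowCongr (Equiv.refl _)).trans (Equiv.piCongrRight π)), fun x y => ?_⟩,
    fun x => by ext i; simp [Subgroup.smul_def, Equiv.permCongr_apply]⟩
  simp only [hammingDist]
  exact Finset.card_bij (fun i _ => τ i) (by simp [Equiv.permCongr_apply]) (by simp)
    fun j hj => ⟨τ.symm j, by simpa [Equiv.permCongr_apply] using hj, by simp⟩

theorem prim {Ω ι : Type*} [Fintype ι] {m : ℕ} (hm : 3 ≤ m) (φ : Ω ≃ (ι → Fin m)) : IsPreprimitive (Ham φ) Ω := by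
  classical
  haveI : IsPretransitive (Ham φ) Ω := ⟨fun x y => by
    obtain ⟨g, hg⟩ := tmem φ 1 fun i => Equiv.swap (φ x i) (φ y i)
    exact ⟨g, φ.injective (by rw [hg]; ext i; simp)⟩⟩
  refine ⟨fun {B} hB => or_iff_not_imp_left.2 fun h => ?_⟩
  obtain ⟨x, hx, y, hy, hxy⟩ := Set.not_subsingleton_iff.1 h
  have key : ∀ (τ : Equiv.Perm ι) (π : ι → Equiv.Perm (Fin m)) (u v w : ι → Fin m), φ.symm u ∈ B →
      φ.symm (fun i => π i (u (τ i))) ∈ B → φ.symm v ∈ B → (∀ i, w i = π i (v (τ i))) → φ.symm w ∈ B :=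
    fun τ π u v w hu hu' hv hw => by
      obtain ⟨g, hg⟩ := tmem φ τ π
      have e : ∀ u, g • φ.symm u = φ.symm fun i => π i (u (τ i)) := fun u => by rw [Equiv.eq_symm_apply, hg]; simp
      have := hB.smul_eq_of_mem hu (e u ▸ hu')
      rw [funext hw, ← e, ← this]
      exact Set.smul_mem_smul_set hv
  obtain ⟨i, hi⟩ := Function.ne_iff.1 (φ.injective.ne hxy)
  obtain ⟨z, z1, z2⟩ : ∃ z : Fin m, z ≠ φ x i ∧ z ≠ φ y i := by
    by_contra h
    have : (Finset.univ : Finset (Fin m)) ⊆ {φ x i, φ y i} := fun z _ => by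
      by_contra h'
      exact h ⟨z, by simpa using h'⟩
    have := (Finset.card_le_card this).trans Finset.card_le_two
    simp at this; omega
  have hx' : φ.symm (φ x) ∈ B := by simpa
  have hy' : φ.symm (φ y) ∈ B := by simpa
  have h1 : φ.symm (Function.update (φ y) i z) ∈ B :=
    key 1 (Function.update 1 i (Equiv.swap (φ y i) z)) (φ x) (φ y) _ hx' (by
      convert hx' using 2; ext j
      rcases eq_or_ne j i with rfl | h
      · simp [Equiv.swap_apply_of_ne_of_ne hi z1.symm]
      · simp [h]) hy' fun j => by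
      rcases eq_or_ne j i with rfl | h
      · simp
      · simp [h]
  have h2 : ∀ b, φ.symm b ∈ B → ∀ j d, φ.symm (Function.update b j d) ∈ B := fun b hb j d => by
    rcases eq_or_ne d (b j) with rfl | hd
    · simpa using hb
    obtain ⟨ρ, r1, r2⟩ : ∃ ρ : Equiv.Perm (Fin m), ρ (φ y i) = b j ∧ ρ z = d := by
      refine ⟨Equiv.swap (Equiv.swap (φ y i) (b j) z) d * Equiv.swap (φ y i) (b j), ?_, by simp⟩
      rw [Equiv.Perm.mul_apply, Equiv.swap_apply_left]
      refine Equiv.swap_apply_of_ne_of_ne (fun h => z2 ?_) hd.symm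
      rw [← (Equiv.swap (φ y i) (b j)).injective.eq_iff, ← h, Equiv.swap_apply_left]
    refine key (Equiv.swap i j) (Function.update (fun k => Equiv.swap (φ y (Equiv.swap i j k)) (b k)) j ρ) (φ y) _ _ hy'
      (by
        convert hb using 2; ext k
        rcases eq_or_ne k j with rfl | h
        · simp [r1]
        · simp [h]) h1 fun k => ?_
    rcases eq_or_ne k j with rfl | h
    · simp [r2]
    · have : Equiv.swap i j k ≠ i := fun h' => h (by rw [← (Equiv.swap i j).injective.eq_iff, h', Equiv.swap_apply_right])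
      simp [h, this]
  refine Set.eq_univ_of_forall fun w => ?_
  have h3 : ∀ s : Finset ι, φ.symm (s.piecewise (φ w) (φ y)) ∈ B := fun s => by
    induction s using Finset.induction_on with
    | empty => simpa
    | insert j s hj ih => rw [Finset.piecewise_insert]; exact h2 _ ih _ _
  simpa using h3 Finset.univ

/-- Let K be a finite group isomorphic to a direct product of r ≥ 2 groups all of the same order m ≥ 3. Then K is not a B-group: there is a primitive but not doubly transitive permutation group (on some finite set) containing a regular subgroup isomorphic to K. -/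
theorem result {K : Type*} [Group K] [Finite K] {ι : Type*} [Fintype ι] (F : ι → Type*) [∀ i, Group (F i)]
    (hr : 2 ≤ Fintype.card ι) (m : ℕ) (hm : 3 ≤ m) (hcard : ∀ i, Nat.card (F i) = m) (e : K ≃* (∀ i, F i)) :
    ∃ (n : ℕ) (G R : Subgroup (Equiv.Perm (Fin n))), R ≤ G ∧ Nonempty (↥R ≃* K) ∧
      MulAction.IsPretransitive ↥R (Fin n) ∧ (∀ a : Fin n, MulAction.stabilizer ↥R a = ⊥) ∧
      MulAction.IsPreprimitive ↥G (Fin n) ∧ ¬ MulAction.IsMultiplyPretransitive ↥G (Fin n) 2 := by
  classical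
  haveI : ∀ i, Finite (F i) := fun i => Nat.finite_of_card_ne_zero (by rw [hcard]; omega)
  let ψ := Finite.equivFin K
  let b : ∀ i, F i ≃ Fin m := fun i => Finite.equivFinOfCardEq (hcard i)
  let φ : Fin (Nat.card K) ≃ (ι → Fin m) := (ψ.symm.trans e.toEquiv).trans (Equiv.piCongrRight b)
  let f : K →* Equiv.Perm (Fin (Nat.card K)) := (ψ.permCongrHom : _ →* _).comp (MulAction.toPermHom K K)
  have hf : ∀ k x, f k x = ψ (k * ψ.symm x) := fun k x => rfl
  have fi : Function.Injective f := (injective_iff_map_eq_one f).2 fun k hk => by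
    simpa [hf] using (hf k (ψ 1)).symm.trans (DFunLike.congr_fun hk (ψ 1))
  refine ⟨_, Ham φ, f.range, ?_, ⟨(MonoidHom.ofInjective fi).symm⟩, ⟨fun x y => ⟨⟨_, ψ.symm y * (ψ.symm x)⁻¹, rfl⟩, ?_⟩⟩,
    fun a => eq_bot_iff.2 ?_, prim hm φ, fun h => ?_⟩
  · rintro _ ⟨k, rfl⟩ x y
    have : ∀ x, φ (f k x) = fun i => (fun i c => b i (e k i * (b i).symm c)) i (φ x i) := fun x => by ext i; simp [φ, hf]
    rw [this, this]
    exact hammingDist_comp (fun i c => b i (e k i * (b i).symm c)) fun i c d h => by simpa using h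
  · exact (hf _ _).trans (by simp)
  · rintro ⟨_, k, rfl⟩ hk
    have : ψ (k * ψ.symm a) = a := hk
    rw [← Equiv.eq_symm_apply, mul_eq_right] at this
    exact Subtype.ext (show f k = 1 by rw [this, map_one])
  · obtain ⟨i, j, hij⟩ := Fintype.exists_pair_of_one_lt_card (α := ι) hr
    let o : Fin m := ⟨0, by omega⟩
    let l : Fin m := ⟨1, by omega⟩
    have ol : o ≠ l := by simp [o, l]
    rw [is_two_pretransitive_iff] at h
    obtain ⟨g, g1, g2⟩ := @h (φ.symm fun _ => o) (φ.symm (Function.update (fun _ => o) i l))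
      (φ.symm fun _ => o) (φ.symm fun _ => l) (φ.symm.injective.ne fun h => ol (by simpa using congrFun h i))
      (φ.symm.injective.ne fun h => ol (congrFun h i))
    have := g.2 (φ.symm fun _ => o) (φ.symm (Function.update (fun _ => o) i l))
    rw [show g.1 _ = _ from g1, show g.1 _ = _ from g2] at this
    simp only [Equiv.apply_symm_apply, hammingDist] at this
    have h1 : (Finset.univ.filter fun k => (fun _ => o) k ≠ Function.update (fun _ => o) i l k) ⊆ {i} := fun k hk => by
      by_contra h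
      simp [Finset.mem_singleton.not.1 h] at hk
    have h2 := Finset.card_le_card h1
    rw [← this] at h2
    simp [ol] at h2
    omega

end Cfsg.Agent.S3560
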