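import Cfsg.Statements.S3573


set_option autoImplicit false
open Cfsg

namespace Cfsg.Agent.S3573

open scoped Pointwise
theorem inv_sub {n : ℕ} (σ : Equiv.Perm (Fin n)) {r : ℕ} (hr : r.Prime) (ho : orderOf σ = r) :
    ∀ a : ℕ, a * r ≤ σ.support.card → ∃ s : Finset (Fin n), s ⊆ σ.support ∧ s.card = a * r ∧ ∀ x, σ x ∈ s ↔ x ∈ s := by
  intro a
  induction a with
  | zero => exact fun _ => ⟨∅, by simp, by simp, by simp⟩
  | succ a ih =>
    intro h
    obtain ⟨s, h1, h2, h3⟩ := ih (by nlinarith)
    have : s.card < σ.support.card := by have := hr.pos; nlinarith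
    obtain ⟨x, hx, hxs⟩ := Finset.exists_mem_notMem_of_card_lt_card this
    have hc : (σ.cycleOf x).support.card = r := by
      obtain ⟨m, hm⟩ := Equiv.Perm.cycleType_prime_order (σ := σ) (ho ▸ hr)
      have : (σ.cycleOf x).support.card ∈ σ.cycleType := by
        rw [Equiv.Perm.cycleType_def, Multiset.mem_map]
        exact ⟨σ.cycleOf x, Equiv.Perm.cycleOf_mem_cycleFactorsFinset_iff.2 hx, rfl⟩
      rw [hm] at this
      rw [Multiset.eq_of_mem_replicate this, ho]
    have hd : Disjoint s (σ.cycleOf x).support := by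
      rw [Finset.disjoint_left]
      intro y hy hy'
      obtain ⟨i, rfl⟩ := ((Equiv.Perm.mem_support_cycleOf_iff' (Equiv.Perm.mem_support.1 hx)).1 hy').exists_nat_pow_eq
      apply hxs
      clear hy'
      induction i with
      | zero => simpa using hy
      | succ i ih => rw [pow_succ', Equiv.Perm.mul_apply, h3] at hy; exact ih hy
    refine ⟨s ∪ (σ.cycleOf x).support, Finset.union_subset h1 (Equiv.Perm.support_cycleOf_le σ x), ?_, fun y => ?_⟩
    · rw [Finset.card_union_of_disjoint hd, h2, hc]; ring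
    · simp only [Finset.mem_union, h3, Equiv.Perm.mem_support_cycleOf_iff' (Equiv.Perm.mem_support.1 hx),
        Equiv.Perm.sameCycle_apply_right]

theorem main (n k : ℕ) (hkn : k ≤ n) (r : ℕ) (hr : r.Prime) (hrn : r ≤ n) :
    (∀ σ : Equiv.Perm (Fin n), orderOf σ = r → ∃ s : Finset (Fin n), s.card = k ∧ s.image σ = s) ↔ k % r ≤ n % r := by
  haveI := Fact.mk hr
  constructor
  · intro h
    obtain ⟨g, hg⟩ := (Equiv.Perm.exists_with_cycleType_iff (Fin n) (m := Multiset.replicate (n / r) r)).2 ⟨by
      rw [Multiset.sum_replicate, smul_eq_mul, Fintype.card_fin]; exact Nat.div_mul_le_self _ _, fun a ha => by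
      rw [Multiset.eq_of_mem_replicate ha]; exact hr.two_le⟩
    have hpos : n / r ≠ 0 := (Nat.div_pos hrn hr.pos).ne'
    have ho : orderOf g = r := by
      rw [← Equiv.Perm.lcm_cycleType, hg]
      apply Nat.dvd_antisymm
      · exact Multiset.lcm_dvd.2 fun b hb => by rw [Multiset.eq_of_mem_replicate hb]
      · exact Multiset.dvd_lcm (Multiset.mem_replicate.2 ⟨hpos, rfl⟩)
    obtain ⟨s, hs, hi⟩ := h g ho
    have hinv : ∀ x, g x ∈ s ↔ x ∈ s := fun x => by
      conv_lhs => rw [← hi]
      simp
    have h1 := g.sum_cycleType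
    rw [hg, Multiset.sum_replicate, smul_eq_mul] at h1
    have h2 := Equiv.Perm.card_compl_support_modEq (p := r) (n := 1) (σ := g.subtypePerm (p := (· ∈ s)) hinv) (by
      rw [pow_one, Equiv.Perm.subtypePerm_pow]
      ext x
      simp [← ho])
    rw [Fintype.card_coe, hs] at h2
    have h3 : (g.subtypePerm (p := (· ∈ s)) hinv).supportᶜ.card ≤ g.supportᶜ.card := by
      refine Finset.card_le_card_of_injOn Subtype.val (fun x hx => ?_) Subtype.val_injective.injOn
      simp only [Finset.coe_compl, Set.mem_compl_iff, Finset.mem_coe, Equiv.Perm.mem_support, not_not] at hx ⊢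
      exact congrArg Subtype.val hx
    rw [Finset.card_compl (s := g.support), Fintype.card_fin, ← h1] at h3
    have h4 := Nat.div_add_mod' n r
    have h5 := Nat.mod_lt n hr.pos
    unfold Nat.ModEq at h2
    rw [← h2, Nat.mod_eq_of_lt (by omega)]
    omega
  · intro h σ ho
    obtain ⟨m, hm⟩ := Equiv.Perm.cycleType_prime_order (σ := σ) (ho ▸ hr)
    have h1 := σ.sum_cycleType
    rw [hm, Multiset.sum_replicate, smul_eq_mul, ho] at h1
    have h2 : σ.supportᶜ.card = n - (m + 1) * r := by rw [Finset.card_compl, Fintype.card_fin, h1]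
    have h3 : (m + 1) * r ≤ n := by rw [h1]; simpa using σ.support.card_le_univ
    have : ∃ a b, a * r ≤ (m + 1) * r ∧ b ≤ n - (m + 1) * r ∧ a * r + b = k := by
      by_cases hh : k / r ≤ m + 1
      · refine ⟨k / r, k % r, Nat.mul_le_mul_right _ hh, h.trans ?_, Nat.div_add_mod' k r⟩
        have := Nat.div_add_mod' n r
        have : (m + 1) * r ≤ n / r * r := Nat.mul_le_mul_right _ ((Nat.le_div_iff_mul_le hr.pos).2 h3)
        omega
      · have : (m + 1) * r ≤ k := (Nat.mul_le_mul_right _ (not_le.1 hh).le).trans (Nat.div_mul_le_self _ _)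
        exact ⟨m + 1, k - (m + 1) * r, le_rfl, by omega, by omega⟩
    obtain ⟨a, b, ha, hb, hab⟩ := this
    obtain ⟨s, s1, s2, s3⟩ := inv_sub σ hr ho a (h1 ▸ ha)
    obtain ⟨t, t1, t2⟩ := Finset.exists_subset_card_eq (h2 ▸ hb)
    have hd : Disjoint s t := Finset.disjoint_of_subset_left s1 (Finset.disjoint_of_subset_right t1 disjoint_compl_right)
    refine ⟨s ∪ t, by rw [Finset.card_union_of_disjoint hd, s2, t2, hab], ?_⟩
    apply Finset.eq_of_subset_of_card_le
    · intro y hy
      obtain ⟨x, hx, rfl⟩ := Finset.mem_image.1 hy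
      rcases Finset.mem_union.1 hx with hx | hx
      · exact Finset.mem_union_left _ ((s3 x).2 hx)
      · have := t1 hx
        simp only [Finset.mem_compl, Equiv.Perm.mem_support, not_not] at this
        rw [this]; exact Finset.mem_union_right _ hx
    · rw [Finset.card_image_of_injective _ σ.injective]

/-- Let 1 ≤ k with 2k < n and consider the symmetric group of degree n acting on the k-subsets of an n-set. Let r be a prime dividing the number C(n,k) of k-subsets. If r is odd, then every permutation of order r fixes some k-subset if and only if r ≤ k and the remainder of k modulo r is at most the remainder of n modulo r. If r = 2, then every involution fixes some k-subset if and only if k is even or n is odd. -/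
theorem result (n k : ℕ) (hk : 1 ≤ k) (hkn : 2 * k < n) (r : ℕ) (hr : r.Prime) (hrd : r ∣ Nat.choose n k) :
    (r ≠ 2 → ((∀ σ : Equiv.Perm (Fin n), orderOf σ = r → ∃ s : Finset (Fin n), s.card = k ∧ s.image σ = s) ↔
      (r ≤ k ∧ k % r ≤ n % r))) ∧
    (r = 2 → ((∀ σ : Equiv.Perm (Fin n), orderOf σ = 2 → ∃ s : Finset (Fin n), s.card = k ∧ s.image σ = s) ↔
      (Even k ∨ Odd n))) := by
  haveI := Fact.mk hr
  have hrn : r ≤ n := by
    have := hrd.trans (Dvd.intro _ ((mul_assoc _ _ _).symm.trans (Nat.choose_mul_factorial_mul_factorial (show k ≤ n by omega))))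
    exact (hr.dvd_factorial).1 this
  refine ⟨fun _ => ?_, fun h2 => ?_⟩
  · rw [main n k (by omega) r hr hrn]
    refine ⟨fun h => ⟨?_, h⟩, fun h => h.2⟩
    by_contra hc
    push Not at hc
    have h1 := Choose.choose_modEq_choose_mod_mul_choose_div_nat (n := n) (k := k) (p := r)
    rw [Nat.div_eq_of_lt hc, Nat.choose_zero_right, mul_one] at h1
    have h2 := (Nat.ModEq.dvd_iff h1 dvd_rfl).1 hrd
    have h3 := h2.trans (Dvd.intro _ ((mul_assoc _ _ _).symm.trans (Nat.choose_mul_factorial_mul_factorial h)))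
    have := (hr.dvd_factorial).1 h3
    have := Nat.mod_lt n hr.pos
    omega
  · subst h2
    rw [main n k (by omega) 2 hr hrn, Nat.even_iff, Nat.odd_iff]
    omega

end Cfsg.Agent.S3573
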