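import Cfsg.Statements.S3599
import Cfsg.Agent.CZ.Fab

set_option autoImplicit false
open Cfsg

namespace Cfsg.Agent.S3599

def Cl (r : ℕ) (G : Type) [Group G] : Prop :=
  ∀ x y : G, (∃ k, x ^ r ^ k = 1) → (∃ k, y ^ r ^ k = 1) → ∃ k, (x * y) ^ r ^ k = 1

theorem pow_add_one {G : Type*} [Group G] {x : G} {r k : ℕ} (l : ℕ) (h : x ^ r ^ k = 1) : x ^ r ^ (k + l) = 1 := by
  rw [pow_add, pow_mul, h, one_pow]

theorem lift {G Q : Type*} [Group G] [Finite G] [Group Q] (f : G →* Q) (hf : Function.Surjective f) {r : ℕ}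
    (hr : r.Prime) {y : Q} (hy : ∃ k, y ^ r ^ k = 1) : ∃ x, f x = y ∧ ∃ k, x ^ r ^ k = 1 := by
  obtain ⟨k, hk⟩ := hy
  obtain ⟨x, rfl⟩ := hf y
  obtain ⟨e, m, hm, he⟩ := Nat.exists_eq_pow_mul_and_not_dvd (orderOf_pos x).ne' r hr.ne_one
  have hc : m.Coprime (orderOf (f x)) :=
    (Nat.Coprime.pow_right k ((hr.coprime_iff_not_dvd).2 hm).symm).coprime_dvd_right (orderOf_dvd_of_pow_eq_one hk)
  obtain ⟨u, hu⟩ := exists_pow_eq_self_of_coprime hc
  refine ⟨(x ^ m) ^ u, by rw [map_pow, map_pow, hu], e, ?_⟩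
  rw [← pow_mul, ← pow_mul, show m * (u * r ^ e) = r ^ e * m * u by ring, ← he, pow_mul, pow_orderOf_eq_one, one_pow]

theorem Cl.sec {r : ℕ} (hr : r.Prime) {G : Type} [Group G] [Finite G] (h : Cl r G) (H : Subgroup G) (N : Subgroup H)
    [N.Normal] : Cl r (H ⧸ N) := by
  intro x y hx hy
  obtain ⟨a, rfl, ka, ha⟩ := lift (QuotientGroup.mk' N) (QuotientGroup.mk'_surjective N) hr hx
  obtain ⟨b, rfl, kb, hb⟩ := lift (QuotientGroup.mk' N) (QuotientGroup.mk'_surjective N) hr hy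
  obtain ⟨k, hk⟩ := h a b ⟨ka, by exact_mod_cast congrArg Subtype.val ha⟩ ⟨kb, by exact_mod_cast congrArg Subtype.val hb⟩
  refine ⟨k, ?_⟩
  have : (a * b) ^ r ^ k = 1 := Subtype.ext (by exact_mod_cast hk)
  rw [← map_mul, ← map_pow, this, map_one]

theorem Cl.comm {p q : ℕ} (hpq : p.Coprime q) {G : Type} [Group G] (h1 : Cl p G) (h2 : Cl q G) {x y : G}
    (hx : x ^ p = 1) (hy : y ^ q = 1) : Commute x y := by
  have hx' : x ^ p ^ 1 = 1 := by rwa [pow_one]
  have hy' : y ^ q ^ 1 = 1 := by rwa [pow_one]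
  obtain ⟨k, hk⟩ := h1 x (y * x⁻¹ * y⁻¹) ⟨1, hx'⟩ ⟨1, by rw [conj_pow, inv_pow, hx']; simp⟩
  obtain ⟨l, hl⟩ := h2 (x * y * x⁻¹) y⁻¹ ⟨1, by rw [conj_pow, hy']; simp⟩ ⟨1, by rw [inv_pow, hy', inv_one]⟩
  rw [show x * (y * x⁻¹ * y⁻¹) = x * y * x⁻¹ * y⁻¹ by group] at hk
  have h3 : orderOf (x * y * x⁻¹ * y⁻¹) = 1 :=
    Nat.eq_one_of_dvd_coprimes (Nat.Coprime.pow k l hpq) (orderOf_dvd_of_pow_eq_one hk) (orderOf_dvd_of_pow_eq_one hl)
  rw [orderOf_eq_one_iff] at h3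
  show x * y = y * x
  calc x * y = x * y * x⁻¹ * y⁻¹ * (y * x) := by group
    _ = y * x := by rw [h3, one_mul]

theorem exF (p q : ℕ) (hp : p.Prime) (hq : q.Prime) (hne : p ≠ q) : ∃ (H : Type) (_ : Group H) (_ : Finite H),
    (∀ d, d ∈ Set.range (orderOf : H → ℕ) ↔ d = 1 ∨ d = p ∨ d = q) ∧ ∀ r : ℕ, r.Prime → r ≠ q → Cl r H := by
  obtain ⟨H, _, _, A, -, hA, hout, hS⟩ := CZ.exists_FAB p q hp.one_lt hq.pos ((Nat.coprime_primes hp hq).2 hne)
  refine ⟨H, inferInstance, inferInstance, fun d => ?_, fun r hr hrq => ?_⟩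
  · rw [hS, Set.mem_setOf_eq, Nat.dvd_prime hp, Nat.dvd_prime hq]; tauto
  · have key : ∀ x : H, (∃ k, x ^ r ^ k = 1) → x ∈ A := by
      rintro x ⟨k, hk⟩
      by_contra hx
      have := Nat.eq_one_of_dvd_coprimes (Nat.Coprime.pow_left k ((Nat.coprime_primes hr hq).2 hrq))
        (orderOf_dvd_of_pow_eq_one hk) (hout x hx)
      exact hx (orderOf_eq_one_iff.1 this ▸ A.one_mem)
    rintro x y ⟨k, hk⟩ ⟨l, hl⟩
    refine ⟨k + l, ?_⟩
    rw [(hA x (key x ⟨k, hk⟩) y (key y ⟨l, hl⟩)).mul_pow, pow_add_one l hk, add_comm, pow_add_one k hl, one_mul]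

theorem Cl.pi {ι : Type} [Fintype ι] {r : ℕ} {G : ι → Type} [∀ i, Group (G i)] (h : ∀ i, Cl r (G i)) :
    Cl r (∀ i, G i) := by
  rintro x y ⟨k, hk⟩ ⟨l, hl⟩
  choose m hm using fun i => h i (x i) (y i) ⟨k, congrFun hk i⟩ ⟨l, congrFun hl i⟩
  refine ⟨∑ i, m i, funext fun i => ?_⟩
  obtain ⟨c, hc⟩ := Nat.exists_eq_add_of_le (Finset.single_le_sum (f := m) (fun _ _ => Nat.zero_le _) (Finset.mem_univ i))
  rw [hc]
  exact pow_add_one c (hm i)

/-- A finite group is critical with respect to a set Ω of natural numbers when its set of element orders is Ω while no proper section H/N (H a subgroup, N normal in H, (H, N) ≠ (whole group, 1)) has Ω as its set of element orders. Let s ≥ 1 and let p(j,0), p(j,1) (j < s) be 2s pairwise distinct primes, and let Ω be the set of all products c(0)·…·c(s−1) with each c(j) ∈ {1, p(j,0), p(j,1)}. Then there are 2^s pairwise non-isomorphic finite groups critical with respect to Ω. -/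
theorem result (s : ℕ) (hs : 1 ≤ s) (p : Fin s → Fin 2 → ℕ)
    (hp : ∀ j i, (p j i).Prime) (hinj : ∀ j i j' i', p j i = p j' i' → j = j' ∧ i = i') :
    ∃ (G : Fin (2 ^ s) → Type) (_ : ∀ a, Group (G a)) (_ : ∀ a, Fintype (G a)),
      (∀ a b, a ≠ b → ¬ Nonempty (G a ≃* G b)) ∧
      ∀ a, Set.range (orderOf : (G a) → ℕ) = {m : ℕ | ∃ c : Fin s → ℕ, (∀ j, c j = 1 ∨ c j = p j 0 ∨ c j = p j 1) ∧ m = ∏ j, c j} ∧
      ∀ (H : Subgroup (G a)) (N : Subgroup ↥H) [N.Normal], (H ≠ ⊤ ∨ N ≠ ⊥) → Set.range (orderOf : (↥H ⧸ N) → ℕ) ≠ {m : ℕ | ∃ c : Fin s → ℕ, (∀ j, c j = 1 ∨ c j = p j 0 ∨ c j = p j 1) ∧ m = ∏ j, c j} := by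
  classical
  set ω : Set ℕ := {m : ℕ | ∃ c : Fin s → ℕ, (∀ j, c j = 1 ∨ c j = p j 0 ∨ c j = p j 1) ∧ m = ∏ j, c j} with hω
  have hcop : ∀ c : Fin s → ℕ, (∀ j, c j = 1 ∨ c j = p j 0 ∨ c j = p j 1) →
      Finset.univ.lcm c = ∏ j, c j := by
    intro c hc
    apply Finset.lcm_eq_prod
    intro j _ j' _ hne
    have h : ∀ i i', (p j i).Coprime (p j' i') := fun i i' =>
      (Nat.coprime_primes (hp _ _) (hp _ _)).2 fun e => hne (hinj _ _ _ _ e).1
    show (c j).Coprime (c j')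
    rcases hc j with e | e | e <;> rcases hc j' with e' | e' | e' <;> rw [e, e'] <;>
      first | exact h _ _ | simp
  have hex : ∀ a : Fin s → Fin 2, ∃ n, ∃ (G : Type) (_ : Group G) (_ : Finite G), Nat.card G = n ∧
      Set.range (orderOf : G → ℕ) = ω ∧ ∀ j, Cl (p j (a j)) G := by
    intro a
    have hne : ∀ j, p j (a j) ≠ p j (a j + 1) := fun j e => by
      have := (hinj _ _ _ _ e).2
      revert this; generalize a j = t; revert t; decide
    choose H i1 i2 hS hC using fun j => exF (p j (a j)) (p j (a j + 1)) (hp _ _) (hp _ _) (hne j)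
    have hS' : ∀ j d, d ∈ Set.range (orderOf : H j → ℕ) ↔ d = 1 ∨ d = p j 0 ∨ d = p j 1 := by
      intro j d
      rw [hS]
      have : a j = 0 ∨ a j = 1 := by generalize a j = t; revert t; decide
      rcases this with e | e <;> rw [e]
      · rfl
      · rw [show (1 + 1 : Fin 2) = 0 from rfl]; tauto
    refine ⟨_, ∀ j, H j, inferInstance, inferInstance, rfl, ?_, fun j => Cl.pi fun j' => hC j' _ (hp _ _) ?_⟩
    · ext d
      constructor
      · rintro ⟨x, rfl⟩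
        have hx := fun j => (hS' j _).1 ⟨x j, rfl⟩
        exact ⟨_, hx, by rw [Pi.orderOf, hcop _ hx]⟩
      · rintro ⟨c, hc, rfl⟩
        choose x hx using fun j => (hS' j _).2 (hc j)
        exact ⟨x, by rw [Pi.orderOf, funext hx, hcop _ hc]⟩
    · intro e
      obtain ⟨rfl, e2⟩ := hinj _ _ _ _ e
      exact hne j e
  choose G i1 i2 hc hS hC using fun a => Nat.find_spec (hex a)
  refine ⟨fun a => G (finFunctionFinEquiv.symm a), fun a => i1 _, fun a => Fintype.ofFinite _, ?_, fun a => ⟨hS _, ?_⟩⟩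
  · rintro a b hab ⟨e⟩
    obtain ⟨j, hj⟩ := Function.ne_iff.1 (finFunctionFinEquiv.symm.injective.ne hab)
    set a' := finFunctionFinEquiv.symm a
    set b' := finFunctionFinEquiv.symm b
    have h1 : Cl (p j (b' j)) (G a') := by
      rintro x y ⟨k, hk⟩ ⟨l, hl⟩
      obtain ⟨m, hm⟩ := hC b' j (e x) (e y) ⟨k, by rw [← map_pow, hk, map_one]⟩ ⟨l, by rw [← map_pow, hl, map_one]⟩
      exact ⟨m, e.injective (by rw [map_pow, map_mul, hm, map_one])⟩
    have hmem : ∀ i, p j i ∈ ω := by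
      intro i
      refine ⟨Pi.mulSingle j (p j i), fun j' => ?_, by simp⟩
      by_cases h : j' = j
      · subst h
        rw [Pi.mulSingle_eq_same]
        right
        have : i = 0 ∨ i = 1 := by revert i; decide
        rcases this with rfl | rfl <;> simp
      · left; rw [Pi.mulSingle_eq_of_ne h]
    obtain ⟨x, hx⟩ := (hS a').symm ▸ hmem (a' j)
    obtain ⟨y, hy⟩ := (hS a').symm ▸ hmem (b' j)
    have hpq : (p j (a' j)).Coprime (p j (b' j)) :=
      (Nat.coprime_primes (hp _ _) (hp _ _)).2 fun e => hj (hinj _ _ _ _ e).2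
    have hxy := Cl.comm hpq (hC a' j) h1 (hx ▸ pow_orderOf_eq_one x) (hy ▸ pow_orderOf_eq_one y)
    have ho := hxy.orderOf_mul_eq_mul_orderOf_of_coprime (by rwa [hx, hy])
    rw [hx, hy] at ho
    obtain ⟨c, hc, hcc⟩ : p j (a' j) * p j (b' j) ∈ ω := hS a' ▸ ⟨_, ho⟩
    have key : ∀ i, p j i ∣ ∏ j, c j → c j = p j i := by
      intro i hi
      obtain ⟨j', -, hj'⟩ := ((hp j i).prime.dvd_finset_prod_iff _).1 hi
      rcases hc j' with e | e | e <;> rw [e] at hj'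
      · exact absurd (Nat.dvd_one.1 hj') (hp _ _).ne_one
      · have := (Nat.prime_dvd_prime_iff_eq (hp _ _) (hp _ _)).1 hj'
        obtain ⟨rfl, -⟩ := hinj _ _ _ _ this
        rw [e, this]
      · have := (Nat.prime_dvd_prime_iff_eq (hp _ _) (hp _ _)).1 hj'
        obtain ⟨rfl, -⟩ := hinj _ _ _ _ this
        rw [e, this]
    have k1 := key (a' j) (hcc ▸ Dvd.intro _ rfl)
    have k2 := key (b' j) (hcc ▸ Dvd.intro_left _ rfl)
    exact hj (hinj _ _ _ _ (k1.symm.trans k2)).2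
  · intro H N _ hHN hω'
    set a' := finFunctionFinEquiv.symm a
    refine Nat.find_min (hex a') ?_ ⟨H ⧸ N, inferInstance, inferInstance, rfl, hω', fun j => (hC a' j).sec (hp _ _) H N⟩
    rw [← hc a']
    have h1 : Nat.card (H ⧸ N) * Nat.card N = Nat.card H := (Subgroup.card_eq_card_quotient_mul_card_subgroup N).symm
    have h2 : Nat.card H ≤ Nat.card (G a') := Subgroup.card_le_card_group H
    have h3 : 0 < Nat.card (H ⧸ N) := Nat.card_pos
    have h4 : 0 < Nat.card N := Nat.card_pos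
    rcases hHN with h | h
    · have : Nat.card H ≠ Nat.card (G a') := fun e => h (Subgroup.eq_top_of_card_eq H e)
      nlinarith [lt_of_le_of_ne h2 this]
    · have := (Subgroup.one_lt_card_iff_ne_bot N).2 h
      nlinarith

end Cfsg.Agent.S3599
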