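import Cfsg.Statements.S3619


set_option autoImplicit false
open Cfsg

namespace Cfsg.Agent.S3619

open MulAction Pointwise

/-- Let G act faithfully on a finite set in such a way that every non-trivial normal subgroup of G is transitive (G is quasiprimitive). Let Γ be a subset with more than one point and not the whole set, such that the pointwise stabilizer of the complement of Γ acts transitively on Γ (a Jordan set). If that pointwise stabilizer acts primitively on Γ, then G is k-fold transitive where k is one more than the number of points outside Γ (the Jordan set is a trivial one). -/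
theorem result {G Ω : Type*} [Group G] [Finite G] [MulAction G Ω] [FaithfulSMul G Ω] [Finite Ω]
    (hqp : ∀ N : Subgroup G, N.Normal → N ≠ ⊥ → MulAction.IsPretransitive ↥N Ω)
    (Γ : Set Ω) (hΓ1 : 1 < Γ.ncard) (hΓ2 : Γ.ncard < Nat.card Ω)
    (hJ : MulAction.IsPretransitive ↥(fixingSubgroup G Γᶜ) ↥(SubMulAction.ofFixingSubgroup G Γᶜ))
    (hJp : MulAction.IsPreprimitive ↥(fixingSubgroup G Γᶜ) ↥(SubMulAction.ofFixingSubgroup G Γᶜ)) :
    MulAction.IsMultiplyPretransitive G Ω (Nat.card Ω - Γ.ncard + 1) := by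
  classical
  have hfix : ∀ j ∈ fixingSubgroup G Γᶜ, ∀ y, y ∉ Γ → j • y = y := fun j hj y hy =>
    (mem_fixingSubgroup_iff G).mp hj y hy
  have hΓ : ∀ j ∈ fixingSubgroup G Γᶜ, ∀ y ∈ Γ, j • y ∈ Γ := by
    intro j hj y hy
    by_contra h
    have h1 := hfix j hj _ h
    rw [smul_left_cancel_iff] at h1
    exact h (h1.symm ▸ hy)
  obtain ⟨a, b, ha, hb, hab⟩ := (Set.one_lt_ncard_iff (Set.toFinite _)).mp hΓ1
  have hJ1 : fixingSubgroup G Γᶜ ≠ ⊥ := by
    intro h
    obtain ⟨⟨j, hj⟩, e⟩ := hJ.exists_smul_eq ⟨a, by simpa [SubMulAction.mem_ofFixingSubgroup_iff] using ha⟩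
      ⟨b, by simpa [SubMulAction.mem_ofFixingSubgroup_iff] using hb⟩
    have e' : j • a = b := congrArg Subtype.val e
    rw [h, Subgroup.mem_bot] at hj
    subst hj
    exact hab (by simpa using e')
  have key : ∀ C : Set Ω, IsBlock G C → ¬ C.Subsingleton → ∀ j ∈ fixingSubgroup G Γᶜ, j • C = C := by
    intro C hC hs j hj
    by_cases h : C ⊆ Γ
    · have hb := hJp.isTrivialBlock_of_isBlock
        (IsBlock.subtype_val_preimage (C := SubMulAction.ofFixingSubgroup G Γᶜ) (hC.subgroup (H := fixingSubgroup G Γᶜ)))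
      obtain ⟨x, hx, y, hy, hxy⟩ := Set.not_subsingleton_iff.mp hs
      rcases hb with hb | hb
      · exact absurd (congrArg Subtype.val (hb (x := ⟨x, by simpa [SubMulAction.mem_ofFixingSubgroup_iff] using h hx⟩) hx
          (y := ⟨y, by simpa [SubMulAction.mem_ofFixingSubgroup_iff] using h hy⟩) hy)) hxy
      · refine isBlock_iff_smul_eq_of_mem.mp hC hx ?_
        have : (⟨j • x, by simpa [SubMulAction.mem_ofFixingSubgroup_iff] using hΓ j hj x (h hx)⟩ :
          SubMulAction.ofFixingSubgroup G Γᶜ) ∈ (Set.univ : Set _) := Set.mem_univ _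
        rw [← hb] at this
        exact this
    · obtain ⟨y, hy, hy'⟩ := Set.not_subset.mp h
      refine isBlock_iff_smul_eq_of_mem.mp hC hy ?_
      rw [hfix j hj y hy']; exact hy
  have htop : (⊤ : Subgroup G) ≠ ⊥ := fun h => hJ1 (le_bot_iff.mp (h ▸ le_top))
  haveI : IsPretransitive G Ω := ⟨fun x y => by
    obtain ⟨g, hg⟩ := (hqp ⊤ inferInstance htop).exists_smul_eq x y
    exact ⟨g, hg⟩⟩
  have hprim : IsPreprimitive G Ω := by
    refine ⟨fun {B} hB => ?_⟩
    by_cases hs : B.Subsingleton
    · exact Or.inl hs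
    right
    have hle : fixingSubgroup G Γᶜ ≤ (stabilizer G B).normalCore := by
      intro j hj g
      rw [mem_stabilizer_iff]
      have h1 := key (g⁻¹ • B) (hB.translate _) (fun h => hs (Set.subsingleton_of_image (MulAction.injective g⁻¹) B h)) j hj
      rw [mul_smul, mul_smul, h1, smul_inv_smul]
    have hN : (stabilizer G B).normalCore ≠ ⊥ := fun h => hJ1 (le_bot_iff.mp (h ▸ hle))
    obtain ⟨x, hx, -⟩ := Set.not_subsingleton_iff.mp hs
    refine Set.eq_univ_of_forall fun y => ?_
    obtain ⟨⟨g, hg⟩, e⟩ := (hqp _ inferInstance hN).exists_smul_eq x y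
    have h1 : g • B = B := Subgroup.normalCore_le _ hg
    rw [← h1, ← e]
    exact Set.smul_mem_smul_set hx
  have hc : Γᶜ.ncard = Nat.card Ω - Γ.ncard := by
    have := Set.ncard_add_ncard_compl Γ
    omega
  have := hprim.isMultiplyPreprimitive (s := Γᶜ) (n := Nat.card Ω - Γ.ncard - 1) (by omega) (by omega) hJp
  have e : Nat.card Ω - Γ.ncard + 1 = Nat.card Ω - Γ.ncard - 1 + 2 := by omega
  rw [e]
  exact IsMultiplyPreprimitive.isMultiplyPretransitive G Ω _

end Cfsg.Agent.S3619
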