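import Cfsg.Statements.S3627
import Cfsg.Agent.H8.EJ1
import Cfsg.Agent.H8.XJ1
import Cfsg.Agent.S0144
-- import your own Cfsg.Agent.* helpers here

set_option autoImplicit false
open Cfsg

namespace Cfsg.Agent.S3627

/-- Let J be the first Janko group. Then there are finite groups of arbitrarily large order with exactly the same set of element orders as J × J × J × J. -/
theorem result (N : ℕ) : ∃ (H : Type) (_ : Group H) (_ : Fintype H), N < Fintype.card H ∧
      Set.range (orderOf : H → ℕ) = Set.range (orderOf : ↥Cfsg.Spor.J1 × ↥Cfsg.Spor.J1 × ↥Cfsg.Spor.J1 × ↥Cfsg.Spor.J1 → ℕ) := by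
  have h := H8.J1.spec.congr H8.J1.iso.some
  have h2 := (h.prod h).perm (L' := [1, 2, 3, 5, 6, 7, 10, 11, 14, 15, 19, 21, 22, 30, 33, 35, 38, 42, 55, 57, 66, 70, 77, 95, 105, 110, 114, 133, 165, 190, 209, 285]) (by decide +kernel)
  have h3 := (h.prod h2).perm (L' := [1, 2, 3, 5, 6, 7, 10, 11, 14, 15, 19, 21, 22, 30, 33, 35, 38, 42, 55, 57, 66, 70, 77, 95, 105, 110, 114, 133, 154, 165, 190, 209, 210, 231, 266, 285, 330, 385, 399, 418, 462, 570, 627, 665, 770, 798, 1045, 1155, 1254, 1330, 1463, 1995, 2090, 3135]) (by decide +kernel)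
  have d := ((H8.specL_dih 3 (by norm_num)).prod ((H8.specL_dih 5 (by norm_num)).prod ((H8.specL_dih 7 (by norm_num)).prod
    ((H8.specL_dih 11 (by norm_num)).prod (H8.specL_dih 19 (by norm_num)))))).eq ((h.prod h3).perm (by decide +kernel))
  haveI : Group.IsSolvable (DihedralGroup 3) := S0144.result 2 3 1 1 (by norm_num) (by norm_num) (by rw [Nat.card_eq_fintype_card, DihedralGroup.card]; norm_num)
  obtain ⟨H, _, _, h1, h2⟩ := H8.unbounded (G := DihedralGroup 3 × DihedralGroup 5 × DihedralGroup 7 × DihedralGroup 11 × DihedralGroup 19)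
    (MonoidHom.snd _ _).ker (fun e => absurd (congrArg Prod.fst (Subgroup.mem_bot.1 (e.le (show (DihedralGroup.sr 0, 1) ∈ _ from rfl)))) (show ¬ DihedralGroup.sr (0 : ZMod 3) = 1 by decide))
    (Group.isSolvable_of_isSolvable_injective (f := (MonoidHom.fst _ _).comp (Subgroup.subtype _)) fun x y e =>
      Subtype.ext (Prod.ext e (x.2.trans y.2.symm))) N
  exact ⟨H, inferInstance, inferInstance, h1, h2.trans d⟩

end Cfsg.Agent.S3627
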