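import Cfsg.Statements.S3633
import Cfsg.Agent.H2.Aff

set_option autoImplicit false
open Cfsg

namespace Cfsg.Agent.S3633

theorem aux {G : Type*} [Group G] [Finite G] (ρ : Finset ℕ) (hρ : 3 ≤ ρ.card) (hc : ((∀ r ∈ ρ, r.Prime ∧ r ∣ Nat.card G) ∧ (∀ r ∈ ρ, ∀ s ∈ ρ, r ≠ s → ¬ ∃ x : G, orderOf x = r * s)))
    (K : Subgroup G) [K.Normal] (hK : Group.IsSolvable ↥K) :
    (∀ r ∈ ρ, ∀ s ∈ ρ, r ∣ Nat.card ↥K → s ∣ Nat.card ↥K → r = s) := by
  intro r hr s hs hrK hsK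
  by_contra hrs
  obtain ⟨B, hB, -, hBK, a, ha, haB, hB'⟩ := H2.coclique_step K ⊥ bot_le hK ρ (fun r h => (hc.1 r h).1) hc.2
    (fun r h h' => (hc.1 r h).1.one_lt.ne' (by simpa using h')) ⟨r, hr, hrK⟩
  obtain ⟨C, hC, hBC, -, b, hb, hbC, hC'⟩ := H2.coclique_step K B hBK hK (ρ.erase a)
    (fun r h => (hc.1 r (Finset.mem_of_mem_erase h)).1)
    (fun r h s h' => hc.2 r (Finset.mem_of_mem_erase h) s (Finset.mem_of_mem_erase h'))
    (fun r h h' => (Finset.mem_erase.1 h).1 (hB' r (Finset.mem_of_mem_erase h) h')) (by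
      by_cases h : r = a
      · exact ⟨s, Finset.mem_erase.2 ⟨fun h' => hrs (h.trans h'.symm), hs⟩, hsK⟩
      · exact ⟨r, Finset.mem_erase.2 ⟨h, hr⟩, hrK⟩)
  obtain ⟨hba, hb⟩ := Finset.mem_erase.1 hb
  obtain ⟨c, hc1⟩ : ((ρ.erase a).erase b).Nonempty := by
    rw [← Finset.card_pos, Finset.card_erase_of_mem (Finset.mem_erase.2 ⟨hba, hb⟩), Finset.card_erase_of_mem ha]
    omega
  obtain ⟨hcb, hc2⟩ := Finset.mem_erase.1 hc1
  obtain ⟨hca, hc3⟩ := Finset.mem_erase.1 hc2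
  rcases H2.three_primes B C hBC (hc.1 a ha).1 (hc.1 b hb).1 (hc.1 c hc3).1 hba.symm hca.symm hcb.symm
    (by simpa using haB) hbC (((Nat.Prime.dvd_mul (hc.1 c hc3).1).1 (by rw [C.card_mul_index]; exact (hc.1 c hc3).2)).resolve_left
      fun h => hcb (hC' c hc2 h)) with h | h | h
  exacts [hc.2 a ha b hb hba.symm h, hc.2 a ha c hc3 hca.symm h, hc.2 b hb c hc3 hcb.symm h]

/-- Let G be a finite group and ρ a set of at least three prime divisors of the order of G that are pairwise non-adjacent in the prime graph (no element of order rs for distinct r, s ∈ ρ). Then at most one prime of ρ divides the order of any given solvable normal subgroup of G; in particular G is not solvable. -/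
theorem result {G : Type*} [Group G] [Finite G] (ρ : Finset ℕ) (hρ : 3 ≤ ρ.card) (hc : ((∀ r ∈ ρ, r.Prime ∧ r ∣ Nat.card G) ∧ (∀ r ∈ ρ, ∀ s ∈ ρ, r ≠ s → ¬ ∃ x : G, orderOf x = r * s)))
    (K : Subgroup G) [K.Normal] (hK : Group.IsSolvable ↥K) :
    (∀ r ∈ ρ, ∀ s ∈ ρ, r ∣ Nat.card ↥K → s ∣ Nat.card ↥K → r = s) ∧ ¬ Group.IsSolvable G := by
  refine ⟨aux ρ hρ hc K hK, fun h => ?_⟩
  obtain ⟨r, hr, s, hs, hrs⟩ := Finset.one_lt_card.1 (show 1 < ρ.card by omega)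
  exact hrs (aux ρ hρ hc ⊤ inferInstance r hr s hs (by simpa using (hc.1 r hr).2) (by simpa using (hc.1 s hs).2))

end Cfsg.Agent.S3633
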