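import Cfsg.Statements.S3639
import Cfsg.Agent.H6.Suz4

set_option autoImplicit false
open Cfsg

namespace Cfsg.Agent.S3639

open H6.Suz Matrix in
theorem fix {F : Type*} [Field F] [Fintype F] {P : Par F} {G : Type*} [Group G] (X : SzS P G) {g : G}
    {p : ℕ} (hp : p.Prime) (h2 : p ≠ 2) (hg : orderOf g = p) {v : Fin 4 → F} (h : (X.rep g).1 *ᵥ v = v) :
    v = 0 := by
  have := Fact.mk hp
  obtain hf | ⟨x, hx⟩ | ⟨x, k, hk, hx⟩ := X.tri g
  · have h1 : (X.rep g).1 ≠ 1 := fun e => hf.ne_one (X.rep_inj (Units.ext (by rw [e]; simp)))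
    rcases irred h2 (P.hF ▸ hg ▸ hf.dvd (hg ▸ hp)) (M := (X.rep g).1)
      (by rw [← Units.val_pow_eq_pow_val, ← map_pow, ← hg]; simp) h1
      (LinearMap.eqLocus (toLin' (X.rep g).1) LinearMap.id) (fun w hw => by
        simpa using congrArg ((X.rep g).1 *ᵥ ·) hw) with e | e
    · exact (Submodule.eq_bot_iff _).1 e v h
    · exact absurd (toLin'.injective (LinearMap.eqLocus_eq_top.1 e |>.trans toLin'_one.symm)) h1
  · refine absurd ((Nat.prime_dvd_prime_iff_eq hp Nat.prime_two).1 (hp.dvd_of_dvd_pow (n := 2) ?_)) h2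
    exact hg ▸ orderOf_dvd_of_pow_eq_one (by simpa using SzS.pow_four hx)
  · have := (X.rep_D k ((X.rep x).1 *ᵥ v) (by
      rw [mulVec_mulVec, ← Units.val_mul, ← map_mul, ← hx, inv_mul_cancel_right, map_mul, Units.val_mul,
        ← mulVec_mulVec, h])).resolve_left hk
    simpa using congrArg ((X.rep x)⁻¹.1 *ᵥ ·) this

/-- Let S be the Suzuki group over the field with q = 2^(2m+1) ≥ 8 elements. Then there are finite groups of arbitrarily large order with the same prime graph as S. -/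
theorem result {F : Type*} [Field F] [Fintype F] {m : ℕ} (hm : 1 ≤ m) (hF : Fintype.card F = 2 ^ (2 * m + 1)) (N : ℕ) :
    ∃ (H : Type) (_ : Group H) (_ : Fintype H), N < Fintype.card H ∧ ((∀ r : ℕ, r.Prime → (r ∣ Nat.card ↥(Cfsg.Lie.Sz F (2 ^ (m + 1))) ↔ r ∣ Nat.card H)) ∧
      (∀ r s : ℕ, r.Prime → s.Prime → r ≠ s → ((∃ x : ↥(Cfsg.Lie.Sz F (2 ^ (m + 1))), orderOf x = r * s) ↔ (∃ y : H, orderOf y = r * s)))) := by
  let P := H6.Suz.Par.mk m hm hF
  let X := P.lie
  have := X.finite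
  set G := Cfsg.Lie.Sz F (2 ^ (m + 1))
  let V := Fin N → Fin 4 → F
  let φ : G →* MulAut (Multiplicative V) := (MulAutMultiplicative V).symm.toMonoidHom.comp
    ((DistribMulAction.toAddAut (GL (Fin 4) F) V).comp X.rep)
  let H := SemidirectProduct (Multiplicative V) G φ
  have : Finite H := Finite.of_equiv _ SemidirectProduct.equivProd.symm
  let e : Shrink.{0} H ≃* H := Shrink.mulEquiv
  have : Finite (Shrink.{0} H) := Finite.of_equiv _ e.symm.toEquiv
  have hc : Nat.card (Shrink.{0} H) = (Fintype.card F ^ 4) ^ N * Nat.card G := by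
    rw [Nat.card_congr e.toEquiv, SemidirectProduct.card]
    simp [V]
  refine ⟨Shrink.{0} H, inferInstance, Fintype.ofFinite (Shrink.{0} H), ?_, fun r hr => ?_, fun r s hr hs hrs => ?_⟩
  · rw [Fintype.card_eq_nat_card, hc]
    exact (Nat.lt_pow_self (Nat.one_lt_pow (by omega) Fintype.one_lt_card)).trans_le
      (Nat.le_mul_of_pos_right _ Nat.card_pos)
  · rw [hc]
    refine ⟨fun h => h.mul_left _, fun h => ((Nat.Prime.dvd_mul hr).1 h).elim (fun h => ?_) id⟩
    rw [X.card_eq, ← P.hF]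
    exact (((hr.dvd_of_dvd_pow (hr.dvd_of_dvd_pow h)).pow two_ne_zero).mul_right _).mul_right _
  refine ⟨fun ⟨x, hx⟩ => ⟨e.symm (.inr x), by
    rwa [MulEquiv.orderOf_eq, orderOf_injective _ SemidirectProduct.inr_injective]⟩, fun ⟨y, hy⟩ => ?_⟩
  rw [← e.orderOf_eq] at hy
  generalize e y = y at hy
  have sq : ∀ z : H, z.right = 1 → z ^ 2 = 1 := fun z hz => by
    rw [pow_two]
    refine SemidirectProduct.ext ?_ (by rw [SemidirectProduct.mul_right, hz, one_mul]; rfl)
    rw [SemidirectProduct.mul_left, hz, map_one]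
    funext i j
    exact (two_mul (z.left.toAdd i j)).symm.trans (by rw [P.two, zero_mul]; rfl)
  have aux : ∀ {r s : ℕ}, r.Prime → s.Prime → r ≠ s → orderOf y = r * s → y.right ^ r ≠ 1 :=
    fun {r s} hr hs hrs hy h => by
      have h0 : (y ^ r).right = 1 := (map_pow SemidirectProduct.rightHom y r).trans h
      have h1 : orderOf (y ^ r) = s := by
        rw [orderOf_pow_of_dvd hr.ne_zero (hy ▸ dvd_mul_right _ _), hy, Nat.mul_div_cancel_left _ hr.pos]
      obtain rfl : s = 2 := (Nat.prime_dvd_prime_iff_eq hs Nat.prime_two).1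
        (h1 ▸ orderOf_dvd_of_pow_eq_one (sq _ h0))
      have := Fact.mk hr
      have h2 : orderOf y.right = r := orderOf_eq_prime h fun e => by
        have := Nat.le_of_dvd two_pos (hy ▸ orderOf_dvd_of_pow_eq_one (sq _ e))
        have := hr.two_le
        omega
      have h3 := congrArg SemidirectProduct.left (Commute.self_pow y r)
      rw [SemidirectProduct.mul_left, SemidirectProduct.mul_left, h0, map_one, MulAut.one_apply,
        mul_comm, mul_left_inj] at h3
      have h4 : y ^ r = 1 := SemidirectProduct.ext (funext fun i => fix X hr hrs h2 (congrFun h3 i)) h0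
      simp [h4] at h1
  refine ⟨y.right, ?_⟩
  obtain ⟨a, b, ha, hb, e⟩ := (Nat.dvd_mul).1 (hy ▸ orderOf_map_dvd SemidirectProduct.rightHom y)
  change _ = orderOf y.right at e
  rcases (Nat.dvd_prime hr).1 ha with rfl | rfl
  · exact absurd (orderOf_dvd_iff_pow_eq_one.1 (by simpa [← e])) (aux hs hr hrs.symm (hy.trans (mul_comm ..)))
  rcases (Nat.dvd_prime hs).1 hb with rfl | rfl
  · exact absurd (orderOf_dvd_iff_pow_eq_one.1 (by simp [← e])) (aux hr hs hrs hy)
  exact e.symm

end Cfsg.Agent.S3639
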