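import Cfsg.Statements.S3660
import Mathlib


set_option autoImplicit false
open Cfsg

namespace Cfsg.Agent.S3660

open Matrix in
theorem fix {F : Type*} [Field F] [CharP F 2] {g : SpecialLinearGroup (Fin 2) F}
    {p : ℕ} (hp : p.Prime) (h2 : p ≠ 2) (hg : orderOf g = p) {v : Fin 2 → F} (h : g.1 *ᵥ v = v) : v = 0 := by
  by_contra hv
  have h0 := congrFun h 0
  have h1 := congrFun h 1
  have d := g.2
  have t := CharTwo.two_eq_zero (R := F)
  simp only [mulVec, dotProduct, Fin.sum_univ_two, det_fin_two] at h0 h1 d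
  have k : g.1 0 0 + g.1 1 1 = 0 := by
    by_contra k
    refine hv (funext fun i => mul_left_cancel₀ k ?_)
    fin_cases i
    · simp only [Fin.zero_eta, Pi.zero_apply]
      linear_combination (1 - g.1 1 1) * h0 + g.1 0 1 * h1 + v 0 * d + v 0 * t
    · simp only [Fin.mk_one, Pi.zero_apply]
      linear_combination (1 - g.1 0 0) * h1 + g.1 1 0 * h0 + v 1 * d + v 1 * t
  refine h2 ((Nat.prime_dvd_prime_iff_eq hp Nat.prime_two).1 (hg ▸ orderOf_dvd_of_pow_eq_one ?_))
  refine Subtype.ext (pow_two g ▸ show g.1 * g.1 = 1 from ?_)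
  ext i j
  rw [mul_apply, Fin.sum_univ_two]
  fin_cases i <;> fin_cases j <;> simp
  · linear_combination g.1 0 0 * k - d - t
  · linear_combination g.1 0 1 * k
  · linear_combination g.1 1 0 * k
  · linear_combination g.1 1 1 * k - d - t

/-- The prime graph of a finite group has the prime divisors of its order as vertices, two distinct primes p, q being joined when the group has an element of order pq; two groups have the same prime graph when they have the same prime divisors and the same joined pairs. Let F be a finite field of characteristic 2 with at least 4 elements. Then there are finite groups of arbitrarily large order with the same prime graph as PSL(2,F); in particular PSL(2,F) is not determined by its prime graph. -/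
theorem result {F : Type*} [Field F] [Fintype F] [CharP F 2] (hF : 4 ≤ Fintype.card F) (N : ℕ) :
    ∃ (H : Type) (_ : Group H) (_ : Finite H), N < Nat.card H ∧
      ((∀ p : ℕ, p.Prime → (p ∣ Nat.card (Matrix.ProjectiveSpecialLinearGroup (Fin 2) F) ↔ p ∣ Nat.card H)) ∧
      (∀ p q : ℕ, p.Prime → q.Prime → p ≠ q → ((∃ g : (Matrix.ProjectiveSpecialLinearGroup (Fin 2) F), orderOf g = p * q) ↔ (∃ g : H, orderOf g = p * q)))) := by
  classical
  let G := Matrix.SpecialLinearGroup (Fin 2) F
  have hz : Subgroup.center G = ⊥ := eq_bot_iff.2 fun z hz => by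
    obtain ⟨c, h1, h⟩ := Matrix.SpecialLinearGroup.mem_center_iff.1 hz
    obtain rfl : c = 1 := by simpa [CharTwo.neg_eq] using h1
    exact Subtype.ext (by simpa using h.symm)
  let E : Matrix.ProjectiveSpecialLinearGroup (Fin 2) F ≃* G :=
    (QuotientGroup.quotientMulEquivOfEq hz).trans QuotientGroup.quotientBot
  let V := Fin N → Fin 2 → F
  let φ : G →* MulAut (Multiplicative V) := (MulAutMultiplicative V).symm.toMonoidHom.comp
    ((DistribMulAction.toAddAut (GL (Fin 2) F) V).comp Matrix.SpecialLinearGroup.toGL)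
  let H := SemidirectProduct (Multiplicative V) G φ
  have : Finite H := Finite.of_equiv _ SemidirectProduct.equivProd.symm
  let e : Shrink.{0} H ≃* H := Shrink.mulEquiv
  have : Finite (Shrink.{0} H) := Finite.of_equiv _ e.symm.toEquiv
  have hc : Nat.card (Shrink.{0} H) = (Fintype.card F ^ 2) ^ N * Nat.card G := by
    rw [Nat.card_congr e.toEquiv, SemidirectProduct.card]
    simp [V]
  refine ⟨Shrink.{0} H, inferInstance, inferInstance, ?_, fun r hr => ?_, fun r s hr hs hrs => ?_⟩
  · rw [hc]
    exact (Nat.lt_pow_self (Nat.one_lt_pow (by omega) Fintype.one_lt_card)).trans_le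
      (Nat.le_mul_of_pos_right _ Nat.card_pos)
  · rw [hc, Nat.card_congr E.toEquiv]
    refine ⟨fun h => h.mul_left _, fun h => ((Nat.Prime.dvd_mul hr).1 h).elim (fun h => ?_) id⟩
    obtain ⟨n, -, hn⟩ := FiniteField.card F 2
    obtain rfl := (Nat.prime_dvd_prime_iff_eq hr Nat.prime_two).1
      (hr.dvd_of_dvd_pow (hn ▸ hr.dvd_of_dvd_pow (hr.dvd_of_dvd_pow h)))
    let t : G := ⟨!![0, 1; 1, 0], by simp [CharTwo.neg_eq]⟩
    have : orderOf t = 2 := orderOf_eq_prime (Subtype.ext (pow_two t ▸ show t.1 * t.1 = 1 by simp [t, Matrix.one_fin_two]))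
      fun e => by simpa [t] using congrArg (fun x : G => x.1 0 0) e
    exact this ▸ orderOf_dvd_natCard t
  rw [show (∃ g : Matrix.ProjectiveSpecialLinearGroup (Fin 2) F, orderOf g = r * s) ↔ ∃ g : G, orderOf g = r * s from
    ⟨fun ⟨x, h⟩ => ⟨E x, by rwa [E.orderOf_eq]⟩, fun ⟨x, h⟩ => ⟨E.symm x, by rwa [E.symm.orderOf_eq]⟩⟩]
  refine ⟨fun ⟨x, hx⟩ => ⟨e.symm (.inr x), by
    rwa [MulEquiv.orderOf_eq, orderOf_injective _ SemidirectProduct.inr_injective]⟩, fun ⟨y, hy⟩ => ?_⟩
  rw [← e.orderOf_eq] at hy
  generalize e y = y at hy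
  have sq : ∀ z : H, z.right = 1 → z ^ 2 = 1 := fun z hz => by
    rw [pow_two]
    refine SemidirectProduct.ext ?_ (by rw [SemidirectProduct.mul_right, hz, one_mul]; rfl)
    rw [SemidirectProduct.mul_left, hz, map_one]
    funext i j
    exact (two_mul (z.left.toAdd i j)).symm.trans (by rw [CharTwo.two_eq_zero, zero_mul]; rfl)
  have aux : ∀ {r s : ℕ}, r.Prime → s.Prime → r ≠ s → orderOf y = r * s → y.right ^ r ≠ 1 :=
    fun {r s} hr hs hrs hy h => by
      have h0 : (y ^ r).right = 1 := (map_pow SemidirectProduct.rightHom y r).trans h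
      have h1 : orderOf (y ^ r) = s := by
        rw [orderOf_pow_of_dvd hr.ne_zero (hy ▸ dvd_mul_right _ _), hy, Nat.mul_div_cancel_left _ hr.pos]
      obtain rfl : s = 2 := (Nat.prime_dvd_prime_iff_eq hs Nat.prime_two).1
        (h1 ▸ orderOf_dvd_of_pow_eq_one (sq _ h0))
      have := Fact.mk hr
      have h2 : orderOf y.right = r := orderOf_eq_prime h fun e => by
        have := Nat.le_of_dvd two_pos (hy ▸ orderOf_dvd_of_pow_eq_one (sq _ e))
        have := hr.two_le
        omega
      have h3 := congrArg SemidirectProduct.left (Commute.self_pow y r)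
      rw [SemidirectProduct.mul_left, SemidirectProduct.mul_left, h0, map_one, MulAut.one_apply,
        mul_comm, mul_left_inj] at h3
      have h4 : y ^ r = 1 := SemidirectProduct.ext (funext fun i => fix hr hrs h2 (congrFun h3 i)) h0
      simp [h4] at h1
  refine ⟨y.right, ?_⟩
  obtain ⟨a, b, ha, hb, e⟩ := (Nat.dvd_mul).1 (hy ▸ orderOf_map_dvd SemidirectProduct.rightHom y)
  change _ = orderOf y.right at e
  rcases (Nat.dvd_prime hr).1 ha with rfl | rfl
  · exact absurd (orderOf_dvd_iff_pow_eq_one.1 (by simpa [← e])) (aux hs hr hrs.symm (hy.trans (mul_comm ..)))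
  rcases (Nat.dvd_prime hs).1 hb with rfl | rfl
  · exact absurd (orderOf_dvd_iff_pow_eq_one.1 (by simp [← e])) (aux hr hs hrs hy)
  exact e.symm

end Cfsg.Agent.S3660
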