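import Cfsg.Statements.S3680
import Cfsg.Agent.H2.MinN
import Cfsg.Agent.S0550
import Cfsg.Agent.PM.D
import Cfsg.Agent.H1.Primitive

set_option autoImplicit false
open Cfsg

namespace Cfsg.Agent.S3680

open Subgroup MulAction

theorem elem {G : Type*} [Group G] [Finite G] {A : Subgroup G} (hA : H2M.MinN A) (h : IsMulCommutative A) :
    ∃ p : ℕ, p.Prime ∧ ∀ x : A, x ^ p = 1 := by
  haveI : Nontrivial A := (nontrivial_iff_ne_bot _).2 hA.2.1
  obtain ⟨p, hp, hd⟩ := Nat.exists_prime_and_dvd (Finite.one_lt_card (α := A)).ne'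
  haveI := Fact.mk hp
  obtain ⟨x, hx⟩ := exists_prime_orderOf_dvd_card' p hd
  refine ⟨p, hp, ?_⟩
  let K : Subgroup A :=
    { carrier := {y | y ^ p = 1}
      one_mem' := one_pow p
      mul_mem' := fun {a b} ha hb => by
        have : Commute a b := h.is_comm.comm a b
        simp only [Set.mem_setOf_eq] at *
        rw [this.mul_pow, ha, hb, one_mul]
      inv_mem' := fun {a} ha => by
        simp only [Set.mem_setOf_eq] at *
        rw [inv_pow, ha, inv_one] }
  have hK : K.Characteristic := characteristic_iff_le_comap.2 fun φ y (hy : y ^ p = 1) => by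
    show φ y ^ p = 1
    rw [← map_pow, hy, map_one]
  rcases hA.char_simple K hK with h0 | h0
  · have : x ∈ K := by show x ^ p = 1; rw [← hx, pow_orderOf_eq_one]
    rw [h0, mem_bot] at this
    rw [this, orderOf_one] at hx
    exact absurd hx.symm hp.one_lt.ne'
  · exact fun y => (h0.ge (mem_top y) : y ∈ K)

/-- functions on a sum -/
def sumE (A B T : Type*) [Group T] : (A ⊕ B → T) ≃* (A → T) × (B → T) :=
  { Equiv.sumArrowEquivProdArrow A B T with map_mul' := fun _ _ => rfl }

theorem ncomm {X T : Type*} [Group X] [Group T] {m : ℕ} (e : X ≃* (Fin m → T)) (h : ¬ IsMulCommutative X) :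
    ¬ IsMulCommutative T := fun hT => h ⟨⟨fun a b => e.injective (by
  rw [map_mul, map_mul]; ext i; exact hT.is_comm.comm _ _)⟩⟩

/-- The socle of a finite primitive permutation group. Let a finite group G act faithfully and primitively on a set Ω, and let N be the subgroup generated by the minimal normal subgroups of G. Then either N is an elementary abelian p-group for some prime p and acts regularly on Ω (transitively with trivial point stabilizers), or N is isomorphic to a direct product of m ≥ 1 copies of a non-abelian simple group. -/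
theorem result {G Ω : Type*} [Group G] [Finite G] [MulAction G Ω] [FaithfulSMul G Ω] [Finite Ω]
    (hprim : MulAction.IsPreprimitive G Ω) (N : Subgroup G)
    (hN : N = sSup {V : Subgroup G | V.Normal ∧ V ≠ ⊥ ∧ ∀ M : Subgroup G, M.Normal → M ≤ V → M = ⊥ ∨ M = V}) :
    (∃ p : ℕ, p.Prime ∧ IsMulCommutative N ∧ (∀ x : N, x ^ p = 1) ∧
      MulAction.IsPretransitive N Ω ∧ ∀ ω : Ω, MulAction.stabilizer N ω = ⊥) ∨
    (∃ (T : Type) (_ : Group T) (m : ℕ), 1 ≤ m ∧ IsSimpleGroup T ∧ ¬ IsMulCommutative T ∧ Nonempty (N ≃* (Fin m → T))) := by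
  rcases subsingleton_or_nontrivial G with hG | hG
  · refine Or.inl ⟨2, Nat.prime_two, ⟨⟨fun a b => Subsingleton.elim _ _⟩⟩, fun x => Subsingleton.elim _ _,
      PM.tr_iff.2 fun x y => ?_, fun ω => Subsingleton.elim _ _⟩
    obtain ⟨g, hg⟩ := hprim.exists_smul_eq x y
    exact ⟨g, by rw [Subsingleton.elim g 1]; exact N.one_mem, hg⟩
  obtain ⟨A, -, hA⟩ := H2M.exists_minN (X := G) (N := ⊤) top_ne_bot
  haveI := hA.1
  haveI : Nontrivial Ω := PM.nonempty_of_ne_bot hA.2.1
  obtain ⟨ω⟩ : Nonempty Ω := inferInstance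
  have hU := H1.isCoatom_stabilizer_of_faithful (G := G) ω
  have hc := H1.stabilizer_corefree (G := G) ω
  by_cases h2 : ∃ B, H2M.MinN B ∧ A ≠ B
  · obtain ⟨B, hB, hAB⟩ := h2
    haveI := hB.1
    obtain ⟨h1, h2, -, -, h5, ⟨e⟩, -⟩ := S0550.result _ hU hc A B hA.2.1 hB.2.1 hA.2.2 hB.2.2 hAB
    have hNe : N = A ⊔ B := by
      rw [hN]
      refine le_antisymm (sSup_le fun V hV => ?_) (sup_le (le_sSup hA) (le_sSup hB))
      by_cases hVA : A = V
      · exact hVA ▸ le_sup_left
      haveI := hV.1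
      obtain ⟨-, h2', -⟩ := S0550.result _ hU hc A V hA.2.1 hV.2.1 hA.2.2 hV.2.2 hVA
      rw [← h2', h2]; exact le_sup_right
    obtain ⟨T, _, m, hT, hm, ⟨f⟩⟩ := hA.pow
    have hd : Disjoint A B := disjoint_iff.2 ((hA.2.2 _ inferInstance inf_le_left).resolve_right fun e =>
      hAB ((hB.2.2 A inferInstance (e.ge.trans inf_le_right)).resolve_left hA.2.1))
    have hcm : ∀ (a : A) (b : B), Commute (A.subtype a) (B.subtype b) := fun a b =>
      commute_of_normal_of_disjoint A B hA.1 hB.1 hd a b a.2 b.2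
    let φ : A × B →* G := A.subtype.noncommCoprod B.subtype hcm
    have hφ : Function.Injective φ := (injective_iff_map_eq_one φ).2 fun ⟨a, b⟩ hab => by
      have h0 : (a : G) * b = 1 := hab
      have h3 : (a : G) = 1 := disjoint_def.1 hd a.2 (by
        rw [eq_inv_of_mul_eq_one_left h0]; exact B.inv_mem b.2)
      rw [h3, one_mul] at h0
      exact Prod.ext (Subtype.ext h3) (Subtype.ext h0)
    have hr : φ.range = N := by
      rw [hNe]
      refine le_antisymm ?_ (sup_le (fun a ha => ⟨(⟨a, ha⟩, 1), by simp [φ]⟩) fun b hb => ⟨(1, ⟨b, hb⟩), by simp [φ]⟩)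
      rintro _ ⟨⟨a, b⟩, rfl⟩
      exact mul_mem_sup a.2 b.2
    refine Or.inr ⟨T, inferInstance, m + m, by omega, hT, ncomm f h5, ⟨?_⟩⟩
    exact ((MonoidHom.ofInjective hφ).trans (MulEquiv.subgroupCongr hr)).symm.trans
      ((f.prodCongr (e.symm.trans f)).trans ((sumE (Fin m) (Fin m) T).symm.trans
        (MulEquiv.arrowCongr finSumFinEquiv (MulEquiv.refl T))))
  · have hNe : N = A := by
      rw [hN]
      refine le_antisymm (sSup_le fun V hV => ?_) (le_sSup hA)
      by_contra h
      exact h2 ⟨V, hV, fun e => h e.ge⟩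
    subst hNe
    by_cases hab : IsMulCommutative N
    · obtain ⟨p, hp, h⟩ := elem hA hab
      have ht := PM.tr_iff.2 (PM.normal_tr' (α := Ω) N hA.2.1)
      exact Or.inl ⟨p, hp, hab, h, ht, fun a => PM.sub_stab_bot.2 fun n hn h =>
        PM.eq_one_of_comm ht (fun m hm => congrArg Subtype.val (hab.is_comm.comm ⟨m, hm⟩ ⟨n, hn⟩)) h⟩
    · obtain ⟨T, _, m, hT, hm, ⟨f⟩⟩ := hA.pow
      exact Or.inr ⟨T, inferInstance, m, hm, hT, ncomm f hab, ⟨f⟩⟩

end Cfsg.Agent.S3680
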