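import Cfsg.Statements.S3681
import Mathlib

set_option autoImplicit false
open Cfsg

namespace Cfsg.Agent.S3681

open Equiv Equiv.Perm Subgroup MulAction

/-- Bochert's bound for primitive groups. Let a finite group G act faithfully and primitively on a finite set Ω with n elements, and suppose the image of G in the symmetric group of Ω does not contain the alternating group of Ω. Then |G| · ⌊(n + 1)/2⌋! ≤ n!, that is, the index of G in the symmetric group is at least ⌊(n + 1)/2⌋!. -/
theorem result {G Ω : Type*} [Group G] [Finite G] [MulAction G Ω] [FaithfulSMul G Ω] [Fintype Ω] [DecidableEq Ω]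
    (hprim : MulAction.IsPreprimitive G Ω) (hA : ¬ alternatingGroup Ω ≤ (MulAction.toPermHom G Ω).range) :
    Nat.card G * Nat.factorial ((Fintype.card Ω + 1) / 2) ≤ Nat.factorial (Fintype.card Ω) := by
  classical
  let B : Finset Ω → Prop := fun s => ∀ g : G, (∀ x ∈ s, g • x = x) → g = 1
  obtain ⟨s, hs, hm⟩ := (Set.toFinite {s | B s}).exists_minimalFor Finset.card _
    ⟨Finset.univ, fun g h => eq_of_smul_eq_smul (α := Ω) fun x => by simpa using h x⟩
  replace hm : ∀ t : Finset Ω, t.card < s.card → ∃ g : G, (∀ x ∈ t, g • x = x) ∧ g ≠ 1 := fun t h => by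
    by_contra! c; exact h.not_ge (hm c h.le)
  have h1 : s.card ≤ sᶜ.card := by
    by_contra c
    obtain ⟨g, g1, g2⟩ := hm _ (not_le.1 c)
    obtain ⟨a, ha⟩ : ∃ a : Ω, g • a ≠ a := by
      by_contra! d; exact g2 (hs g fun x _ => d x)
    have as : a ∈ s := by by_contra d; exact ha (g1 a (by simpa))
    obtain ⟨h, k1, k2⟩ := hm (s.erase a) (Finset.card_erase_lt_of_mem as)
    have hb : h • a ≠ a := fun e => k2 (hs h fun x hx => by
      rcases eq_or_ne x a with rfl | d
      · exact e
      · exact k1 x (by simp [d, hx]))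
    have D : ∀ p : Ω, p ≠ a → g • p = p ∨ h • p = p := fun p hp => by
      by_cases c : p ∈ s
      · exact Or.inr (k1 p (by simp [hp, c]))
      · exact Or.inl (g1 p (by simpa))
    refine hA (alternatingGroup_le_of_isPreprimitive_of_isThreeCycle_mem (g := toPermHom G Ω (g * h * g⁻¹ * h⁻¹))
      (IsPreprimitive.of_surjective (φ := (toPermHom G Ω).rangeRestrict) (f := ⟨id, fun _ _ => rfl⟩)
        Function.surjective_id) ?_ ⟨_, rfl⟩)
    simp only [map_mul, map_inv]
    change ∀ p : Ω, p ≠ a → toPermHom G Ω g p = p ∨ toPermHom G Ω h p = p at D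
    change toPermHom G Ω g a ≠ a at ha
    change toPermHom G Ω h a ≠ a at hb
    generalize toPermHom G Ω g = x at *
    generalize toPermHom G Ω h = y at *
    have xy : y (x a) = x a := (D _ ha).resolve_left (by simpa using ha)
    have yx : x (y a) = y a := (D _ hb).resolve_right (by simpa using hb)
    have n : x a ≠ y a := fun e => ha (x.injective (by rw [← e] at yx; exact yx))
    have : x * y * x⁻¹ * y⁻¹ = swap a (y a) * swap a (x a) := by
      rw [mul_inv_eq_iff_eq_mul, mul_inv_eq_iff_eq_mul]
      ext p
      have c : ∀ z, z ≠ a → z ≠ x a → z ≠ y a → swap a (y a) (swap a (x a) z) = z := fun z h1 h2 h3 => by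
        rw [swap_apply_of_ne_of_ne h1 h2, swap_apply_of_ne_of_ne h1 h3]
      have Dx : ∀ p, x p ≠ p → x p ≠ a → y (x p) = x p := fun p h1 h2 => (D _ h2).resolve_left (by simpa using h1)
      have Dy : ∀ p, y p ≠ p → y p ≠ a → x (y p) = y p := fun p h1 h2 => (D _ h2).resolve_right (by simpa using h1)
      simp only [mul_apply]
      rcases eq_or_ne p a with rfl | pa
      · simp [xy, yx]
      by_cases h1 : x p = p <;> by_cases h2 : y p = p
      · rw [h1, h2, h1, c p pa (by rintro rfl; simp_all) (by rintro rfl; simp_all)]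
      · rw [h1]
        by_cases h3 : y p = a
        · rw [h3, swap_apply_left, swap_apply_of_ne_of_ne ha n]
        · rw [Dy p h2 h3, c _ h3 (fun e => h2 (by rw [← xy, y.injective.eq_iff] at e; rw [e, xy])) (by simpa)]
      · rw [h2]
        by_cases h3 : x p = a
        · rw [h3, swap_apply_of_ne_of_ne hb n.symm, swap_apply_right]
        · rw [Dx p h1 h3, c _ h3 (by simpa) (fun e => h1 (by rw [← yx, x.injective.eq_iff] at e; rw [e, yx]))]
      · exact absurd (D p pa) (by simp [h1, h2])
    rw [this]
    exact isThreeCycle_swap_mul_swap_same hb.symm ha.symm n.symm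
  have h2 := Finset.card_add_card_compl s
  refine le_trans (Nat.mul_le_mul_left _ (Nat.factorial_le (show _ ≤ sᶜ.card by omega))) ?_
  have := Nat.card_le_card_of_injective (fun p : G × Perm (sᶜ : Finset Ω) => toPermHom G Ω p.1 * ofSubtype p.2) (by
    rintro ⟨g, σ⟩ ⟨g', σ'⟩ e
    obtain rfl : g = g' := (inv_mul_eq_one.1 (hs _ fun x hx => by
      have := congrArg (· x) e
      simp only [mul_apply] at this
      rw [ofSubtype_apply_of_not_mem _ (by simpa), ofSubtype_apply_of_not_mem _ (by simpa)] at this
      rw [mul_smul, inv_smul_eq_iff]; exact this)).symm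
    exact Prod.ext rfl (ofSubtype_injective (mul_left_cancel e)))
  rwa [Nat.card_prod, Nat.card_perm, Nat.card_perm, Nat.card_eq_fintype_card (α := Ω),
    Nat.card_eq_fintype_card (α := (sᶜ : Finset Ω)), Fintype.card_coe] at this


end Cfsg.Agent.S3681
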