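import Cfsg.Statements.S3684
import Cfsg.Agent.H5.Dih
import Cfsg.Agent.H1.Primitive

set_option autoImplicit false
open Cfsg

namespace Cfsg.Agent.S3684

open MulAction Subgroup in

/-- Let a finite group G act faithfully and primitively on a set Ω, and suppose the stabilizer of a point a has an orbit of length 2. Then the stabilizer of a has order 2 and G is isomorphic to the dihedral group of order 2p for some prime p. -/
theorem result {G Ω : Type*} [Group G] [Finite G] [MulAction G Ω] [FaithfulSMul G Ω] [Finite Ω]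
    (hprim : MulAction.IsPreprimitive G Ω) (a b : Ω) (h2 : Nat.card (MulAction.orbit (MulAction.stabilizer G a) b) = 2) :
    Nat.card (MulAction.stabilizer G a) = 2 ∧ ∃ p : ℕ, p.Prime ∧ Nonempty (G ≃* DihedralGroup p) := by
  haveI := hprim
  set H := stabilizer G a
  set K := stabilizer G b
  have h1 : K.relIndex H = 2 := by
    rw [← h2, Nat.card_coe_set_eq, ← index_stabilizer]; rfl
  have hc : Nat.card H = Nat.card K := by
    obtain ⟨g, rfl⟩ := exists_smul_eq G a b
    exact Nat.card_congr (stabilizerEquivStabilizer (g := g) rfl).toEquiv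
  have h3 : H.relIndex K = 2 := by
    have e1 := H1.card_inf_mul_relIndex K H
    have e2 := H1.card_inf_mul_relIndex H K
    rw [inf_comm, h1, hc, ← e2] at e1
    exact (Nat.eq_of_mul_eq_mul_left Nat.card_pos e1).symm
  have hKH : ¬ K ≤ H := fun h => by rw [relIndex_eq_one.2 h] at h3; omega
  haveI : Nontrivial G := by
    by_contra h; haveI := not_nontrivial_iff_subsingleton.1 h
    exact hKH fun x _ => Subsingleton.elim 1 x ▸ H.one_mem
  have hH : IsCoatom H := H1.isCoatom_stabilizer_of_faithful a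
  have hcore : H.normalCore = ⊥ := H1.stabilizer_corefree a
  have h4 : H ⊓ K = ⊥ := by
    refine H1.eq_bot_of_corefree hcore (normalizer_eq_top_iff.1 (hH.2 _ (lt_of_le_of_ne ?_ fun h => hKH (h ▸ ?_)))) inf_le_left
    · exact (normal_subgroupOf_iff_le_normalizer inf_le_left).1 (by
        rw [inf_subgroupOf_left]; exact normal_of_index_eq_two h1)
    · exact (normal_subgroupOf_iff_le_normalizer inf_le_right).1 (by
        rw [inf_subgroupOf_right]; exact normal_of_index_eq_two h3)
  have h5 : Nat.card K = 2 := by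
    rw [← H1.card_inf_mul_relIndex H K, h4, h3, card_bot]
  have h6 := hc.trans h5
  refine ⟨h6, ?_⟩
  have ex : ∀ L : Subgroup G, Nat.card L = 2 → ∃ s : G, s ≠ 1 ∧ s * s = 1 ∧ ∀ x, x ∈ L ↔ x = 1 ∨ x = s := fun L hL => by
    obtain ⟨s, hs, hs'⟩ := (Nat.card_eq_two_iff' (1 : L)).1 hL
    refine ⟨s, fun h => hs (Subtype.ext h), ?_, fun x => ⟨fun hx => ?_, ?_⟩⟩
    · rw [← pow_two, ← hL, ← coe_pow, pow_card_eq_one', coe_one]
    · by_cases h : (⟨x, hx⟩ : L) = 1
      exacts [Or.inl (congrArg Subtype.val h), Or.inr (congrArg Subtype.val (hs' _ h))]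
    · rintro (rfl | rfl); exacts [L.one_mem, s.2]
  obtain ⟨s, hs1, hs2, hs⟩ := ex H h6
  obtain ⟨t, ht1, ht2, ht⟩ := ex K h5
  have hst : s ≠ t := fun h => hKH fun x hx => (hs x).2 (h ▸ (ht x).1 hx)
  have si : s⁻¹ = s := inv_eq_of_mul_eq_one_right hs2
  have ti : t⁻¹ = t := inv_eq_of_mul_eq_one_right ht2
  have hr : s * (s * t) * s⁻¹ = (s * t)⁻¹ := by rw [← mul_assoc, hs2, one_mul, mul_inv_rev, ti]
  obtain ⟨p, hp, hpd⟩ := Nat.exists_prime_and_dvd (n := orderOf (s * t)) (fun h => hst (by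
    rw [← ti]; exact eq_inv_of_mul_eq_one_left (orderOf_eq_one_iff.1 h)))
  set u := (s * t) ^ (orderOf (s * t) / p) with hu
  have hup : orderOf u = p := orderOf_pow_orderOf_div (orderOf_pos _).ne' hpd
  have hsu : s * u * s⁻¹ = u⁻¹ := by rw [hu, ← conj_pow, hr, inv_pow]
  have hsn : s ∉ zpowers (s * t) := fun h => by
    have h7 : zpowers (s * t) = ⊤ := hH.2 _ (lt_of_le_of_ne (fun x hx => by
      rcases (hs x).1 hx with rfl | rfl; exacts [one_mem _, h]) fun e => by
        rcases (hs _).1 (e ▸ mem_zpowers (s * t)) with h8 | h8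
        · exact hst (by rw [← ti]; exact eq_inv_of_mul_eq_one_left h8)
        · exact ht1 (by simpa using h8))
    refine hs1 (mem_bot.1 (H1.eq_bot_of_corefree hcore ⟨fun n hn g => ?_⟩ le_rfl ▸ (hs s).2 (Or.inr rfl)))
    obtain ⟨i, rfl⟩ : g ∈ zpowers (s * t) := h7 ▸ mem_top g
    obtain ⟨j, rfl⟩ : n ∈ zpowers (s * t) := h7 ▸ mem_top n
    rwa [(Commute.zpow_zpow_self _ i j).eq, mul_inv_cancel_right]
  have hsn' : s ∉ zpowers u := fun h => hsn (zpowers_le_of_mem (npow_mem_zpowers _ _) h)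
  obtain ⟨e⟩ := H5.dih_equiv_closure hp.ne_zero u s hup hs2 hsu hsn'
  have h8 : closure {u, s} = ⊤ := hH.2 _ (lt_of_le_of_ne (fun x hx => by
      rcases (hs x).1 hx with rfl | rfl; exacts [one_mem _, subset_closure (by simp)]) fun e => by
        rcases (hs u).1 (e ▸ subset_closure (by simp)) with h8 | h8
        · rw [h8, orderOf_one] at hup; exact hp.one_lt.ne hup
        · exact hsn' (h8 ▸ mem_zpowers u))
  exact ⟨p, hp, ⟨topEquiv.symm.trans ((MulEquiv.subgroupCongr h8.symm).trans e)⟩⟩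

end Cfsg.Agent.S3684
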