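import Cfsg.Statements.S3693
import Cfsg.Agent.H2.TW

set_option autoImplicit false
open Cfsg

namespace Cfsg.Agent.S3693

open H9 H2TW Subgroup

/-- Let a finite group G act faithfully and primitively on a set Ω, let a and b be points such that the orbit Δ of b under the stabilizer H of a has length d ≥ 2, and consider the permutation group induced on Δ by the elements of H fixing b. If that induced group has trivial Fitting subgroup (no non-trivial nilpotent normal subgroup), then the two-point stabilizer of a and b has trivial Fitting subgroup and the order of H divides d! · ((d - 1)!)^d. -/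
theorem result {G Ω : Type*} [Group G] [Finite G] [MulAction G Ω] [FaithfulSMul G Ω] [Finite Ω]
    (hprim : MulAction.IsPreprimitive G Ω) (a b : Ω) (d : ℕ) (hd : Nat.card (MulAction.orbit (MulAction.stabilizer G a) b) = d) (h2 : 2 ≤ d)
    (hF : Cfsg.fittingSubgroup ↥(((MulAction.stabilizer G b).subgroupOf (MulAction.stabilizer G a)).map (MulAction.toPermHom (MulAction.stabilizer G a) (MulAction.orbit (MulAction.stabilizer G a) b))) = ⊥) :
    Cfsg.fittingSubgroup ↥(MulAction.stabilizer G a ⊓ MulAction.stabilizer G b) = ⊥ ∧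
      Nat.card (MulAction.stabilizer G a) ∣ Nat.factorial d * (Nat.factorial (d - 1)) ^ d := by
  obtain ⟨h, -⟩ := prim_setup hprim a b d hd h2
  have key : Fit (MulAction.stabilizer G a ⊓ MulAction.stabilizer G b) = ⊥ := by
    refine h.Fit_eq_bot fun x hx => ?_
    have hx' := hx
    rw [inf_comm, ← subgroupOf_map_subtype, ← map_Fit_of_injective _ (subtype_injective _)] at hx'
    obtain ⟨y, hy, rfl⟩ := hx'
    have h1 := map_Fit_le (MulAction.toPermHom (MulAction.stabilizer G a)
      (MulAction.orbit (MulAction.stabilizer G a) b)) _ (mem_map_of_mem _ hy)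
    rw [Fit_eq_bot_iff.2 hF, mem_bot] at h1
    refine mem_cr.2 ⟨y.2, fun m hm => mem_inf.2 ⟨mul_mem (mul_mem hm y.2) (inv_mem hm), ?_⟩⟩
    have h3 := congrArg Subtype.val (DFunLike.congr_fun h1
      ⟨(⟨m⁻¹, inv_mem hm⟩ : MulAction.stabilizer G a) • b, MulAction.mem_orbit _ _⟩)
    have h4 : (y : G) • m⁻¹ • b = m⁻¹ • b := h3
    rw [MulAction.mem_stabilizer_iff, mul_smul, mul_smul]
    show m • (y : G) • m⁻¹ • b = b
    rw [h4, smul_inv_smul]
  refine ⟨Fit_eq_bot_iff.1 key, ?_⟩
  rcases prim_dichotomy hprim a b d hd h2 with h | ⟨p, hp, A, h0, h1, h3, h4, h5, h6⟩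
  · exact h
  · exact absurd (eq_bot_iff.2 (key ▸ (le_Op h1 (inf_le_left.trans h3) h4).trans (Op_le_Fit _))) h0

end Cfsg.Agent.S3693
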