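import Cfsg.Statements.S3696


set_option autoImplicit false
open Cfsg

namespace Cfsg.Agent.S3696

open scoped Pointwise
theorem amgm (a b k l : ℕ) (x y : ℕ) (h1 : x * k ^ k ≤ a ^ k) (h2 : y * l ^ l ≤ b ^ l) :
    x * y * (k + l) ^ (k + l) ≤ (a + b) ^ (k + l) := by
  rcases Nat.eq_zero_or_pos k with rfl | hk
  · simp only [pow_zero, mul_one, zero_add] at h1 ⊢
    calc x * y * l ^ l ≤ 1 * y * l ^ l := by gcongr
      _ ≤ b ^ l := by rwa [one_mul]
      _ ≤ _ := Nat.pow_le_pow_left (Nat.le_add_left _ _) _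
  rcases Nat.eq_zero_or_pos l with rfl | hl
  · simp only [pow_zero, mul_one, add_zero] at h2 ⊢
    calc x * y * k ^ k ≤ x * 1 * k ^ k := by gcongr
      _ ≤ a ^ k := by rwa [mul_one]
      _ ≤ _ := Nat.pow_le_pow_left (Nat.le_add_right _ _) _
  have k0 : (0 : ℝ) < k := by exact_mod_cast hk
  have l0 : (0 : ℝ) < l := by exact_mod_cast hl
  have s0 : (0 : ℝ) < k + l := by positivity
  have H := Real.geom_mean_le_arith_mean2_weighted (w₁ := k / (k + l)) (w₂ := l / (k + l)) (p₁ := a / k) (p₂ := b / l)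
    (by positivity) (by positivity) (by positivity) (by positivity) (by field_simp)
  have H2 := pow_le_pow_left₀ (by positivity) H (k + l)
  rw [mul_pow, ← Real.rpow_natCast, ← Real.rpow_natCast, ← Real.rpow_mul (by positivity), ← Real.rpow_mul (by positivity)] at H2
  push_cast at H2
  rw [div_mul_cancel₀ _ s0.ne', div_mul_cancel₀ _ s0.ne', Real.rpow_natCast, Real.rpow_natCast,
    show (k : ℝ) / (k + l) * (a / k) + l / (k + l) * (b / l) = (a + b) / (k + l) by field_simp, div_pow, div_pow, div_pow] at H2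
  have h1' : (x : ℝ) ≤ a ^ k / k ^ k := by rw [le_div_iff₀ (by positivity)]; exact_mod_cast h1
  have h2' : (y : ℝ) ≤ b ^ l / l ^ l := by rw [le_div_iff₀ (by positivity)]; exact_mod_cast h2
  have : (x : ℝ) * y ≤ (a + b) ^ (k + l) / (k + l) ^ (k + l) := (mul_le_mul h1' h2' (by positivity) (by positivity)).trans H2
  rw [le_div_iff₀ (by positivity)] at this
  exact_mod_cast this

theorem small (p a r : ℕ) (hp : 2 ≤ p) (h1 : 1 ≤ r) (h2 : r ≤ a) : p ^ a * r ^ r ≤ (p ^ a) ^ r := by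
  obtain ⟨s, rfl⟩ := Nat.exists_eq_add_of_le' h1
  rw [pow_succ' (p ^ a)]
  apply Nat.mul_le_mul_left
  have : s + 1 ≤ 2 ^ s := Nat.lt_two_pow_self
  calc (s + 1) ^ (s + 1) ≤ (2 ^ s) ^ (s + 1) := Nat.pow_le_pow_left this _
    _ = (2 ^ (s + 1)) ^ s := by rw [← pow_mul, ← pow_mul, mul_comm]
    _ ≤ _ := Nat.pow_le_pow_left ((Nat.pow_le_pow_left hp _).trans (Nat.pow_le_pow_right (by omega) h2)) _

/-- elements of order dividing `p` -/
def Om {Ω : Type*} (p : ℕ) (A : Subgroup (Equiv.Perm Ω)) (hab : ∀ a ∈ A, ∀ b ∈ A, a * b = b * a) : Subgroup (Equiv.Perm Ω) where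
  carrier := {x | x ∈ A ∧ x ^ p = 1}
  mul_mem' := fun {a b} ha hb => ⟨mul_mem ha.1 hb.1, by rw [Commute.mul_pow (hab a ha.1 b hb.1), ha.2, hb.2, one_mul]⟩
  one_mem' := ⟨one_mem _, one_pow _⟩
  inv_mem' := fun {a} ha => ⟨inv_mem ha.1, by rw [inv_pow, ha.2, inv_one]⟩

theorem main {Ω : Type*} [Fintype Ω] [DecidableEq Ω] (p : ℕ) (hp : p.Prime) (n : ℕ) :
    ∀ (S : Finset Ω) (A : Subgroup (Equiv.Perm Ω)) (hab : ∀ a ∈ A, ∀ b ∈ A, a * b = b * a), S.card = n → IsPGroup p A →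
      (∀ a ∈ A, ∀ x ∉ S, a x = x) → ∀ k, Nat.card (Om p A hab) = p ^ k → Nat.card A * k ^ k ≤ n ^ k := by
  classical
  haveI := Fact.mk hp
  induction n using Nat.strong_induction_on with
  | _ n ih =>
  intro S A hab hS hA hfix k hk
  rcases Nat.eq_zero_or_pos k with rfl | k0
  · have : A = ⊥ := by
      by_contra h
      obtain ⟨m, hm⟩ := hA.exists_card_eq
      have hm0 : m ≠ 0 := by
        rintro rfl
        exact h (Subgroup.eq_bot_of_card_eq _ (by simpa using hm))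
      obtain ⟨x, hx⟩ := exists_prime_orderOf_dvd_card' (G := A) p (hm ▸ dvd_pow_self p hm0)
      have h1 : (x : Equiv.Perm Ω) ∈ Om p A hab := ⟨x.2, by rw [← Subgroup.coe_pow, ← hx, pow_orderOf_eq_one]; rfl⟩
      rw [Subgroup.eq_bot_of_card_eq (Om p A hab) (by simpa using hk), Subgroup.mem_bot] at h1
      rw [show x = 1 from Subtype.ext h1, orderOf_one] at hx
      exact hp.one_lt.ne hx
    subst this; simp
  have : Om p A hab ≠ ⊥ := fun h => by
    rw [h, Subgroup.card_bot] at hk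
    exact (Nat.one_lt_pow k0.ne' hp.one_lt).ne hk
  obtain ⟨⟨z, hz⟩, z1⟩ := Subgroup.ne_bot_iff_exists_ne_one.1 this
  obtain ⟨ω, hω⟩ : ∃ ω, z ω ≠ ω := by
    by_contra h
    push Not at h
    exact z1 (Subtype.ext (Equiv.ext h))
  set T := MulAction.stabilizer (Equiv.Perm Ω) ω
  set B := A ⊓ T with hB
  have hab' : ∀ a ∈ B, ∀ b ∈ B, a * b = b * a := fun a ha b hb => hab a ha.1 b hb.1
  let O := (MulAction.orbit A ω).toFinset
  have hO : O.card = T.relIndex A := by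
    rw [Set.toFinset_card, ← Nat.card_eq_fintype_card, Nat.card_coe_set_eq, ← MulAction.index_stabilizer]
    rfl
  have hOS : O ⊆ S := by
    intro y hy
    obtain ⟨a, rfl⟩ := Set.mem_toFinset.1 hy
    by_contra h
    have h1 := hfix z hz.1 _ h
    have h2 : z ((a : Equiv.Perm Ω) ω) = (a : Equiv.Perm Ω) (z ω) := by
      rw [← Equiv.Perm.mul_apply, hab z hz.1 a a.2]; rfl
    exact hω ((a : Equiv.Perm Ω).injective (h2.symm.trans h1))
  obtain ⟨a, ha⟩ : ∃ a, T.relIndex A = p ^ a := hA.index (T.subgroupOf A)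
  obtain ⟨k', hk'⟩ : ∃ k', Nat.card (Om p B hab') = p ^ k' :=
    (hA.to_le (show Om p B hab' ≤ A from fun x hx => hx.1.1)).exists_card_eq
  have e1 : Om p B hab' = Om p A hab ⊓ T := by
    ext x; exact ⟨fun h => ⟨⟨h.1.1, h.2⟩, h.1.2⟩, fun h => ⟨⟨h.1.1, h.2⟩, h.1.2⟩⟩
  have e2 : Nat.card (Om p B hab') * T.relIndex (Om p A hab) = Nat.card (Om p A hab) := by
    rw [e1, ← Subgroup.inf_relIndex_left, ← Subgroup.card_mul_index ((Om p A hab ⊓ T).subgroupOf (Om p A hab)),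
      Nat.card_congr (Subgroup.subgroupOfEquivOfLe inf_le_left).toEquiv]
    rfl
  have e3 : Nat.card B * T.relIndex A = Nat.card A := by
    rw [hB, ← Subgroup.inf_relIndex_left, ← Subgroup.card_mul_index ((A ⊓ T).subgroupOf A),
      Nat.card_congr (Subgroup.subgroupOfEquivOfLe inf_le_left).toEquiv]
    rfl
  have e4 : T.relIndex (Om p A hab) ≤ T.relIndex A :=
    Subgroup.relIndex_le_of_le_right (fun x hx => hx.1) (ha ▸ (pow_pos hp.pos _).ne')
  have e5 : T.relIndex (Om p A hab) ≠ 1 := fun h => hω (Subgroup.relIndex_eq_one.1 h hz)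
  rw [hk, hk'] at e2
  have hkk : k' ≤ k := (Nat.pow_dvd_pow_iff_le_right hp.one_lt).1 (Dvd.intro _ e2)
  obtain ⟨r, rfl⟩ := Nat.exists_eq_add_of_le hkk
  rw [pow_add] at e2
  have e6 := Nat.eq_of_mul_eq_mul_left (pow_pos hp.pos _) e2
  rw [e6, ha, Nat.pow_le_pow_iff_right hp.one_lt] at e4
  have r1 : 1 ≤ r := Nat.pos_of_ne_zero fun h => e5 (by rw [e6, h, pow_zero])
  have hOn : O.card ≤ n := hS ▸ Finset.card_le_card hOS
  have hO0 : 0 < O.card := by rw [hO, ha]; exact pow_pos hp.pos _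
  have := ih (n - O.card) (by omega) (S \ O) B hab' (by rw [Finset.card_sdiff_of_subset hOS, hS]) (hA.to_le inf_le_left) (by
    intro b hb x hx
    by_cases h : x ∈ O
    · obtain ⟨a, rfl⟩ := Set.mem_toFinset.1 h
      show b ((a : Equiv.Perm Ω) ω) = (a : Equiv.Perm Ω) ω
      rw [← Equiv.Perm.mul_apply, hab b hb.1 a a.2, Equiv.Perm.mul_apply, show b ω = ω from hb.2]
    · exact hfix b hb.1 x fun h' => hx (Finset.mem_sdiff.2 ⟨h', h⟩)) k' hk'
  have h2 := amgm _ _ _ _ _ _ this (small p a r hp.two_le r1 e4)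
  rwa [← ha, e3, ← hO, Nat.sub_add_cancel hOn] at h2

/-- Let p be a prime, Ω a finite set with n ≥ p elements, and A an abelian p-subgroup of the symmetric group on Ω whose elements of order dividing p number p^k (so k is the rank of A). Then |A| · k^k ≤ n^k, that is, |A| ≤ (n/k)^k. -/
theorem result {Ω : Type*} [Fintype Ω] [DecidableEq Ω]
    (p : ℕ) (hp : p.Prime) (hn : p ≤ Fintype.card Ω) (A : Subgroup (Equiv.Perm Ω)) (hA : IsPGroup p A) (hab : IsMulCommutative A)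
    (k : ℕ) (hk : Nat.card {x : A // x ^ p = 1} = p ^ k) :
    Nat.card A * k ^ k ≤ Fintype.card Ω ^ k := by
  have hab' : ∀ a ∈ A, ∀ b ∈ A, a * b = b * a := fun a ha b hb => congrArg Subtype.val (hab.is_comm.comm ⟨a, ha⟩ ⟨b, hb⟩)
  refine main p hp _ Finset.univ A hab' rfl hA (by simp) k ?_
  rw [← hk]
  exact Nat.card_congr ⟨fun x => ⟨⟨x.1, x.2.1⟩, Subtype.ext x.2.2⟩, fun x => ⟨x.1.1, x.1.2, congrArg Subtype.val x.2⟩,
    fun _ => rfl, fun _ => rfl⟩

end Cfsg.Agent.S3696
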