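import Cfsg.Statements.S3703
import Cfsg.Agent.H2.FrobOrd
import Cfsg.Agent.H1.Generation

set_option autoImplicit false
open Cfsg

namespace Cfsg.Agent.S3703

open Subgroup H1 Cfsg.Agent.H2
open scoped Pointwise

/-- Let N be a normal subgroup of the finite group G such that G/N is a Frobenius group with kernel F and cyclic complement H, where the order of F is coprime to that of N and F is not contained in the image of C_G(N) in G/N. Then G has an element of order p·#H for some prime p dividing the order of N. (A standard tool in recognising groups by their element orders.) -/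
theorem result {G : Type*} [Group G] [Finite G] (N : Subgroup G) [N.Normal]
    (Fb Hb : Subgroup (G ⧸ N)) [Fb.Normal] (hHb : Cfsg.IsFrobeniusComplement Hb) (hker : Cfsg.frobeniusKernel Hb = (Fb : Set (G ⧸ N)))
    (hcyc : IsCyclic Hb) (hcop : (Nat.card Fb).Coprime (Nat.card N))
    (hnot : ¬ Fb ≤ (Subgroup.centralizer (N : Set G)).map (QuotientGroup.mk' N)) :
    ∃ p : ℕ, p.Prime ∧ p ∣ Nat.card N ∧ ∃ g : G, orderOf g = p * Nat.card Hb := by
  let π := QuotientGroup.mk' N
  have sπ : Function.Surjective π := QuotientGroup.mk'_surjective N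
  have kπ : π.ker = N := QuotientGroup.ker_mk' N
  obtain ⟨K, -, k1, -, fp, -⟩ := IsFrob.exists_kernel hHb
  obtain rfl : K = Fb := SetLike.coe_injective (k1.trans hker)
  obtain ⟨hb, -, rfl⟩ := exists_eq_zpowers_of_isCyclic hcyc
  rw [Nat.card_zpowers]
  by_contra hno
  have H : ∀ x, π x = hb → x ^ orderOf hb = 1 := fun x hx => by
    by_contra h
    have h1 : x ^ orderOf hb ∈ N := kπ.le (by rw [MonoidHom.mem_ker, map_pow, hx, pow_orderOf_eq_one])
    obtain ⟨k, hk⟩ : orderOf hb ∣ orderOf x := hx ▸ orderOf_map_dvd π x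
    have h2 : orderOf (x ^ orderOf hb) = k := by
      rw [orderOf_pow_of_dvd (orderOf_pos hb).ne' ⟨k, hk⟩, hk, Nat.mul_div_cancel_left _ (orderOf_pos hb)]
    obtain ⟨s, hs, s1⟩ := Nat.exists_prime_and_dvd (n := k) fun e => h (orderOf_eq_one_iff.1 (h2.trans e))
    obtain ⟨g, -, hg⟩ := exists_pow_orderOf_eq (x := x) (d := s * orderOf hb) (by rw [hk, mul_comm]; exact Nat.mul_dvd_mul_left _ s1)
    exact hno ⟨s, hs, s1.trans (h2 ▸ N.orderOf_dvd_natCard h1), g, hg⟩
  refine hnot (le_of_forall_isSylowIn_le fun q _ hq => ?_)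
  obtain ⟨Qb, q1, q2⟩ := exists_invariant_sylow q (A := zpowers hb) (K := K) le_normalizer_of_normal
    (fp.coprime le_normalizer_of_normal) (Or.inl (isSolvable_zpowers hb))
  refine ⟨Qb, q1, ?_⟩
  have qN : ¬ q ∣ Nat.card N := fun h => (Fact.out : q.Prime).one_lt.ne' (Nat.eq_one_of_dvd_coprimes hcop hq h)
  obtain ⟨Q, hQ⟩ := exists_isSylowIn q (Qb.comap π)
  have mQ : Q.map π = Qb := by
    have := hQ.map π
    rw [map_comap_eq_self_of_surjective sπ] at this
    exact this.eq_of_isPGroup q1.isPGroup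
  obtain ⟨j, hj⟩ := hQ.isPGroup.exists_card_eq
  have cQ : (Nat.card Q).Coprime (Nat.card N) := hj ▸ ((Nat.Prime.coprime_iff_not_dvd Fact.out).2 qN).pow_left j
  have sQ := isSolvable_of_isPGroup hQ.isPGroup
  rw [← mQ]
  refine Subgroup.map_mono (le_centralizer_iff.2 (le_of_forall_isSylowIn_le fun p _ _ => ?_))
  obtain ⟨P, p1, p2⟩ := exists_invariant_sylow p (A := Q) (K := N) le_normalizer_of_normal cQ (Or.inl sQ)
  refine ⟨P, p1, le_centralizer_iff.1 ?_⟩
  obtain ⟨h, rfl⟩ := sπ hb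
  obtain ⟨n, hn, k, hk, rfl⟩ := hQ.frattini (g := h) (le_normalizer_comap π (q2 (mem_zpowers _)))
  obtain ⟨n', hn', e⟩ := mQ.ge hn
  have k2 : n' * k ∈ normalizer (Q : Set G) := mul_mem (le_normalizer hn') hk
  obtain ⟨c, ⟨c1, c2⟩, hc⟩ := invariant_sylow_conj (A := Q) (K := N) le_normalizer_of_normal cQ (Or.inl sQ)
    (p1.smul (le_normalizer_of_normal (mem_top (n' * k)))) p1 (by
      rw [← conj_smul_eq_self_iff.2 k2, normalizer_conj_smul]; exact conj_smul_mono _ p2) p2
  have e1 : π (c * (n' * k)) = π (n * k) := by rw [map_mul, map_mul, kπ.ge c1, one_mul, e, map_mul]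
  have o1 : orderOf (c * (n' * k)) = orderOf (π (n * k)) :=
    Nat.dvd_antisymm (orderOf_dvd_of_pow_eq_one (H _ e1)) (e1 ▸ orderOf_map_dvd π _)
  refine frob_cyc_cent (x := c * (n' * k)) p1.isPGroup.isNilpotent (mul_mem (centralizer_le_normalizer _ c2) k2)
    (fpf_iff.2 fun a ha b hb h => ?_) p2 (conj_smul_eq_self_iff.1 (by rw [map_mul, mul_smul, hc])) (coprime_of_le_right cQ p1.le)
    fun u hu => o1 ▸ H _ (by rw [map_mul, kπ.ge (p1.le hu), one_mul, e1])
  obtain ⟨i, rfl⟩ := ha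
  beta_reduce at h ⊢
  refine (fpf_iff.1 fp (π ((c * (n' * k)) ^ i)) ⟨i, by simp only [← e1, map_zpow]⟩ (π b) (q1.le (mQ.le ⟨b, hb, rfl⟩))
    (by rw [← map_mul, h, map_mul])).imp (fun h => ?_) fun h => ?_
  · rw [map_zpow, e1, ← orderOf_dvd_iff_zpow_eq_one, ← o1, orderOf_dvd_iff_zpow_eq_one] at h; exact h
  · exact mem_bot.1 ((disjoint_iff.1 (disjoint_of_coprime_natCard cQ)).le ⟨hb, kπ.le h⟩)

end Cfsg.Agent.S3703
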