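import Cfsg.Statements.S3704
import Cfsg.Agent.PM.Ch2
import Cfsg.Agent.H3.Brauer
import Cfsg.Agent.H3.Chr

set_option autoImplicit false
open Cfsg

namespace Cfsg.Agent.S3704

open MulAction H3 PM

/-- Let G be a finite group acting faithfully and 2-transitively on a finite set Ω of size n, and let H be a subgroup of index n in G which is not transitive on Ω and fixes no point of Ω. Then H has exactly two orbits on Ω. -/
theorem result {G Ω : Type*} [Group G] [Finite G] [MulAction G Ω] [FaithfulSMul G Ω] [Finite Ω] (h2 : MulAction.IsMultiplyPretransitive G Ω 2) (H : Subgroup G) (hidx : H.index = Nat.card Ω) (hnt : ¬ MulAction.IsPretransitive H Ω) (hfix : ∀ a : Ω, ∃ h : H, h • a ≠ a) : Nat.card (MulAction.orbitRel.Quotient H Ω) = 2 := by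
  classical
  letI := Fintype.ofFinite G
  letI := Fintype.ofFinite Ω
  letI := Fintype.ofFinite H
  have hn : Nontrivial Ω := by
    by_contra h
    haveI := not_nontrivial_iff_subsingleton.1 h
    exact hnt ⟨fun a b => ⟨1, Subsingleton.elim _ _⟩⟩
  obtain ⟨a, b, hab⟩ := hn.exists_pair_ne
  have h2' := two_iff.1 h2
  haveI : IsPretransitive G Ω := ⟨fun x y => by
    obtain ⟨x', hx⟩ := exists_ne x
    obtain ⟨y', hy⟩ := exists_ne y
    obtain ⟨g, hg, -⟩ := h2' x x' y y' hx.symm hy.symm
    exact ⟨g, hg⟩⟩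
  have hrk : Nat.card (orbitRel.Quotient (stabilizer G a) Ω) = 2 := by
    rw [Nat.card_eq_two_iff]
    refine ⟨Quotient.mk _ a, Quotient.mk _ b, fun e => ?_, Set.eq_univ_of_forall fun q => ?_⟩
    · obtain ⟨u, hu⟩ := Quotient.exact e.symm
      exact hab (u.2.symm.trans hu)
    · induction q using Quotient.inductionOn with | _ c =>
      by_cases hc : c = a
      · left; rw [hc]
      · right
        obtain ⟨g, h1, h3⟩ := h2' a b a c hab (Ne.symm hc)
        exact Quotient.sound ⟨⟨g, h1⟩, h3⟩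
  obtain ⟨c, c1, c2, c3, c4⟩ := mult_nat (G := G) a
  obtain ⟨d, d1, d2, -, d4⟩ := mult_nat (G := G) ((1 : G) : G ⧸ H)
  set o : IrrCharacter G := ⟨_, isIrr_one⟩
  have hr : (Nat.card (orbitRel.Quotient H Ω) : ℂ) = ∑ χ, (c χ : ℂ) * d χ := by
    rw [← inner_perm_one]
    have := inner_indFun_right H (fun _ => 1) (char_class (char_perm (G := G) Ω))
    rw [indFun_one_eq_perm, parseval (char_class (char_perm Ω))] at this
    refine this.symm.trans (Finset.sum_congr rfl fun χ _ => ?_)
    rw [c1, d1, map_natCast]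
  have hr' : Nat.card (orbitRel.Quotient H Ω) = ∑ χ, c χ * d χ := by exact_mod_cast hr
  simp only [ideg] at c4 d4
  have c4' : ∑ χ, c χ * charDegree χ.1 = Fintype.card Ω := by exact_mod_cast c4
  have d4' : ∑ χ, d χ * charDegree χ.1 = Fintype.card (G ⧸ H) := by exact_mod_cast d4
  rw [← Nat.card_eq_fintype_card (α := G ⧸ H), ← Subgroup.index_eq_card, hidx, Nat.card_eq_fintype_card] at d4'
  have ho : charDegree o.1 = 1 := deg_of_eq (by simp [o])
  rw [hrk, ← Finset.add_sum_erase _ _ (Finset.mem_univ o), c2] at c3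
  obtain ⟨χ, hχ, h0⟩ := Finset.exists_ne_zero_of_sum_ne_zero (s := Finset.univ.erase o) (f := fun χ => c χ ^ 2) (by omega)
  rw [← Finset.add_sum_erase _ _ hχ] at c3
  have h1 : c χ ^ 2 = 1 := by omega
  have h1' : c χ = 1 := by simpa using h1
  have hz : ∀ ψ ∈ (Finset.univ.erase o).erase χ, c ψ = 0 := fun ψ hψ => by
    have := Finset.sum_eq_zero_iff.1 (show ∑ ψ ∈ (Finset.univ.erase o).erase χ, c ψ ^ 2 = 0 by omega) ψ hψ
    simpa using this
  rw [← Finset.add_sum_erase _ _ (Finset.mem_univ o), ← Finset.add_sum_erase _ _ hχ] at c4' d4' hr'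
  rw [Finset.sum_eq_zero (fun ψ hψ => by rw [hz ψ hψ, zero_mul])] at c4' hr'
  rw [c2, ho, h1'] at c4'
  rw [c2, d2, h1'] at hr'
  rw [d2, ho] at d4'
  have hpos := deg_pos χ.2
  have hd : d χ ≤ 1 := by
    by_contra h
    have : 2 * charDegree χ.1 ≤ d χ * charDegree χ.1 := Nat.mul_le_mul_right _ (by omega)
    omega
  have : Nat.card (orbitRel.Quotient H Ω) ≠ 1 := fun h =>
    hnt ((pretransitive_iff_subsingleton_quotient H Ω).2 (Nat.card_eq_one_iff_unique.1 h).1)
  omega

end Cfsg.Agent.S3704
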