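import Cfsg.Statements.S3758
import Cfsg.Agent.H9.ZC1
import Cfsg.Agent.S0518
import Cfsg.Agent.S3224
import Cfsg.Agent.H1.Amb

set_option autoImplicit false
open Cfsg

namespace Cfsg.Agent.S3758

section
open H9 Subgroup
open scoped commutatorElement
theorem s4 {X : Type*} [Group X] [Finite X] {T : Subgroup X} (a : IsPGroup 2 T) (b : T ≠ ⊥)
    (e : normalizer (T : Set X) ≃* Equiv.Perm (Fin 4)) : IsKleinFour T ∧ centralizer (T : Set X) ≤ T := by
  have d1 : ∀ s : Equiv.Perm (Fin 4), (∀ g, (s * (g * s * g⁻¹)) ^ 3 = 1 → s * (g * s * g⁻¹) = 1) →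
    s * s = 1 ∧ s.sign = 1 := by decide +kernel
  have d2 : ∀ s : Equiv.Perm (Fin 4), s * s = 1 ∧ s.sign = 1 → ∀ c : Equiv.Perm (Fin 4), c * c = 1 ∧ c.sign = 1 →
    s = 1 ∨ c = 1 ∨ ∃ g, c = g * s * g⁻¹ := by decide +kernel
  have d3 : ∀ c : Equiv.Perm (Fin 4), (∀ s, s * s = 1 ∧ s.sign = 1 → s * c = c * s) → c * c = 1 ∧ c.sign = 1 := by
    decide +kernel
  have n : (T.subgroupOf (normalizer (T : Set X))).Normal := inferInstance
  have a' : IsPGroup 2 (T.subgroupOf (normalizer (T : Set X))) := a.comap_subtype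
  have k1 : ∀ x ∈ T.subgroupOf (normalizer (T : Set X)), e x * e x = 1 ∧ (e x).sign = 1 := fun x hx =>
    d1 _ fun g h => by
      obtain ⟨g, rfl⟩ := e.surjective g
      rw [← map_inv, ← map_mul, ← map_mul, ← map_mul] at h ⊢
      rw [← map_pow, e.map_eq_one_iff] at h
      obtain ⟨k, hk⟩ := a' ⟨_, mul_mem hx (n.conj_mem _ hx g)⟩
      rw [e.map_eq_one_iff, ← orderOf_eq_one_iff]
      exact Nat.eq_one_of_dvd_coprimes (Nat.Coprime.pow_right k (by norm_num : Nat.Coprime 3 2))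
        (orderOf_dvd_of_pow_eq_one h) (orderOf_dvd_of_pow_eq_one (congrArg Subtype.val hk))
  obtain ⟨t, t1, t2⟩ := JC.ex1 b
  have k2 : ∀ x, e x * e x = 1 ∧ (e x).sign = 1 → x ∈ T.subgroupOf (normalizer (T : Set X)) := fun x hx => by
    rcases d2 (e ⟨t, le_normalizer t1⟩) (k1 _ t1) _ hx with h | h | ⟨g, h⟩
    · exact (t2 (by simpa using h)).elim
    · rw [e.map_eq_one_iff.1 h]; exact one_mem _
    · obtain ⟨g, rfl⟩ := e.surjective g
      rw [← map_inv, ← map_mul, ← map_mul] at h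
      rw [e.injective h]; exact n.conj_mem _ t1 g
  refine ⟨H1.isKleinFour_of ?_ fun x hx => ?_, fun c hc => k2 ⟨c, centralizer_le_normalizer' _ hc⟩ (d3 _ fun s hs => ?_)⟩
  · rw [← card_subgroupOf (le_normalizer (H := T)), Nat.card_congr (e.toEquiv.subtypeEquiv (q := fun s =>
      s * s = 1 ∧ s.sign = 1) fun x => ⟨k1 x, k2 x⟩), Nat.card_eq_fintype_card]
    decide +kernel
  · have := (k1 ⟨x, le_normalizer hx⟩ hx).1
    rw [← map_mul, e.map_eq_one_iff] at this
    exact congrArg Subtype.val this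
  · obtain ⟨s, rfl⟩ := e.surjective s
    rw [← map_mul, ← map_mul]
    exact congrArg e (Subtype.ext (hc s (k2 s hs)))

theorem ks {G : Type*} [Group G] [Finite G] {V R : Subgroup G} (v : IsKleinFour V) (l : V ≤ R)
    (c : R ⊓ centralizer (V : Set G) ≤ V) (r : IsPGroup 2 R) :
    (∃ n, 2 ≤ n ∧ Nonempty (R ≃* DihedralGroup n)) ∨ IsQuasiDihedral R := by
  have c4 : Nat.card (V.subgroupOf R) = 4 := (card_subgroupOf l).trans v.card_four
  have f : Nat.card R = 4 → ∃ n, 2 ≤ n ∧ Nonempty (R ≃* DihedralGroup n) := fun h => by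
    obtain rfl := eq_of_le_of_card_ge l (h.trans v.card_four.symm).le
    exact ⟨2, le_rfl, IsKleinFour.nonempty_mulEquiv⟩
  obtain ⟨x, x1, x2⟩ := L.exists_centralizer_le_of_selfcent r (A := V.subgroupOf R) c4 fun y hy =>
    c ⟨y.2, fun v hv => congrArg Subtype.val (hy ⟨v, l hv⟩ hv)⟩
  have e : centralizer {x} = V.subgroupOf R := le_antisymm x2 fun y hy => mem_centralizer_singleton_iff.2
    (Subtype.ext ((le_centralizer_iff_isMulCommutative.2 (H1.klein_comm v)) x1 y hy))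
  by_cases h : x = 1
  · subst h
    exact .inl (f (by rw [← c4, ← e, ← card_top]; congr 2; ext; simp [mem_centralizer_singleton_iff]))
  rcases Cfsg.Agent.S3224.result r x (orderOf_eq_prime (Subtype.ext ((sq (x : G)).trans (H1.klein_sq v x1))) h)
    (e ▸ c4) with ⟨n, ⟨i⟩⟩ | h | h
  · refine .inl ⟨n, ?_, ⟨i⟩⟩
    have := (Nat.card_congr i.toEquiv).trans DihedralGroup.nat_card
    have := card_le_of_le l
    have := v.card_four
    omega
  exacts [.inr h, .inl (f h)]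
end

/-- Let G be a finite group of even order in which every 2-local subgroup is solvable and C_G(Ω₁(Z(S))) ≤ N_G(S) for every Sylow 2-subgroup S, and suppose O_{2'}(G) = 1 = O₂(G). Fix a Sylow 2-subgroup S, put Z = Ω₁(Z(S)), H = O²(G) (generated by the elements of odd order) and R = S ∩ H. Then one of the following holds: H has a strongly embedded subgroup; R is dihedral (of order at least 4) or semidihedral; Z ∩ R has order 2 and is weakly closed in R with respect to H; or Z has order 4 and is exactly the subgroup generated by the involutions of R. -/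
theorem result {G : Type*} [Group G] [Finite G] (heven : Even (Nat.card G)) (hN : ∀ L : Subgroup G, Cfsg.IsTwoLocal L → Group.IsSolvable L) (hZ : ∀ S : Sylow 2 G, Subgroup.centralizer (Cfsg.omegaOne 2 ((S : Subgroup G) ⊓ Subgroup.centralizer ((S : Subgroup G) : Set G)) : Set G) ≤ Subgroup.normalizer ((S : Subgroup G) : Set G)) (hO' : Cfsg.pPrimeCore 2 G = ⊥) (hO : Cfsg.pCore 2 G = ⊥) (S : Sylow 2 G) : (∃ M : Subgroup ↥(Cfsg.pResidual 2 G), Cfsg.IsStronglyEmbedded M) ∨ ((∃ n : ℕ, 2 ≤ n ∧ Nonempty (↥((S : Subgroup G) ⊓ Cfsg.pResidual 2 G) ≃* DihedralGroup n)) ∨ Cfsg.IsQuasiDihedral ↥((S : Subgroup G) ⊓ Cfsg.pResidual 2 G)) ∨ (Nat.card ↥(Cfsg.omegaOne 2 ((S : Subgroup G) ⊓ Subgroup.centralizer ((S : Subgroup G) : Set G)) ⊓ Cfsg.pResidual 2 G) = 2 ∧ ∀ h ∈ Cfsg.pResidual 2 G, ∀ z ∈ Cfsg.omegaOne 2 ((S : Subgroup G) ⊓ Subgroup.centralizer ((S : Subgroup G) : Set G)) ⊓ Cfsg.pResidual 2 G, h * z * h⁻¹ ∈ (S : Subgroup G) → h * z * h⁻¹ ∈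 Cfsg.omegaOne 2 ((S : Subgroup G) ⊓ Subgroup.centralizer ((S : Subgroup G) : Set G))) ∨ (Nat.card ↥(Cfsg.omegaOne 2 ((S : Subgroup G) ⊓ Subgroup.centralizer ((S : Subgroup G) : Set G))) = 4 ∧ Cfsg.omegaOne 2 ((S : Subgroup G) ⊓ Cfsg.pResidual 2 G) = Cfsg.omegaOne 2 ((S : Subgroup G) ⊓ Subgroup.centralizer ((S : Subgroup G) : Set G))) := by
  open H9 Subgroup in open scoped commutatorElement in
  have o := (Op'_top 2).trans hO'
  have o2 := (Op_top 2).trans hO
  have z : ∀ S : Subgroup G, Syl 2 S ⊤ → centralizer (OZ 2 S : Set G) ≤ normalizer (S : Set G) :=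
    fun _ h => let ⟨S, e⟩ := h.exists_sylow_top; e ▸ hZ S
  have e := ZC.ores_even heven.two_dvd o o2
  have s := syl_top_of_sylow S
  rw [← Ores_top]
  rcases ZC.main ⟨fun t h => isSolvable_of_le (hN _ (JC.tl_of (isPGroup_zpowers_of_orderOf h) (by
    simpa using ZC.ne1 h))) ((centralizer_zpowers t).ge.trans (centralizer_le_normalizer' _)), z⟩ s o e with h | h | h | h
  · exact .inl h
  · exact .inr (.inr (.inl h))
  · exact .inr (.inr (.inr h))
  set K := Ores 2 ⊤ ⊔ OZ 2 (S : Subgroup G)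
  have k : SN K ⊤ := sn_of_Ores_le le_sup_left le_top
  have ek : Ores 2 K = Ores 2 ⊤ := Ores_eq_of_le le_sup_left le_top
  refine (Cfsg.Agent.S0518.result h (Op_eq_bot_iff.1 (eq_bot_iff.2 (o2 ▸ k.Op_le_Op))) ?_ ?_ ((Ores 2 K).subgroupOf K)
    ((subgroupOf_Ores 2 K).trans ((Ores_top 2).symm.trans (JC.odd_eq.symm.trans (congrArg Subgroup.closure
      (by simp)))))).elim (fun ⟨M, m⟩ => ?_) ?_
  rotate_left 2
  · exact .inl ⟨_, emb_iff_spe'.2 ((emb_map_subtype_iff.1 m).normal le_sup_left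
      (le_top.trans (le_normalizer_Ores 2 ⊤)) e)⟩
  · rintro ⟨M, -, -, ⟨⟨T, t1, t2, rfl⟩, -⟩, -, ⟨i⟩, -⟩
    obtain ⟨a, b⟩ := s4 t1 t2 i
    let f := K.subtype.comp ((Ores 2 K).subgroupOf K).subtype
    have fi : Function.Injective f := Subtype.val_injective.comp Subtype.val_injective
    have r := s.inf_normal le_top (le_normalizer_Ores 2 ⊤)
    obtain ⟨g, g1, g2⟩ := r.exists_cj_le (t1.map f) (by rintro _ ⟨x, -, rfl⟩; exact ek.le x.2)
    refine .inr (.inl (ks (H1.klein_cj (H1.isKleinFour_of ((card_map_of_injective fi).trans a.card_four) ?_) g) g2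
      (fun x hx => mem_cj.2 ?_) r.isP))
    · rintro _ ⟨x, hx, rfl⟩; rw [← map_mul, H1.klein_sq a hx, map_one]
    · have x1 := ek.ge (mul_mem (mul_mem (inv_mem g1) hx.1.2) g1)
      have x2 := hx.2
      change x ∈ centralizer (cj g _ : Set G) at x2
      rw [← cj_centralizer, mem_cj] at x2
      exact ⟨⟨⟨_, Ores_le _ _ x1⟩, x1⟩, b fun y hy => fi (x2 _ ⟨y, hy, rfl⟩), rfl⟩
  · rintro _ ⟨T, t1, t2, rfl⟩
    have := isSolvable_of_le (hN _ (JC.tl_of (t1.map K.subtype) (by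
      rwa [Ne, map_eq_bot_iff_of_injective _ K.subtype_injective]))) ((map_normalizer_subtype K T).le.trans inf_le_right)
    exact solvable_of_solvable_injective (f := (equivMapOfInjective _ _ K.subtype_injective).toMonoidHom)
      (MulEquiv.injective _)
  · intro P x hx
    obtain ⟨g, g1, g2⟩ := (s.inf_sn k).conj (syl_of_sylow P)
    rw [cj_inf, cj_eq_of_mem g1] at g2
    rw [← mem_map_iff_mem K.subtype_injective, map_normalizer_subtype, ← g2]
    refine ⟨x.2, normalizer_inf (X := zpowers _) (zpowers_le_of_mem (z _ (s.cj_of_mem (le_normalizer (mem_top g)))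
      fun y hy => ?_)) (zpowers_le_of_mem (le_normalizer x.2)) (mem_zpowers _)⟩
    have y1 : y ∈ K := (cj_eq_of_mem g1).le (cj_mono g le_sup_right ((cj_OZ g _).ge hy))
    obtain ⟨y2, y3, y4⟩ := mem_OZ.1 hy
    refine congrArg Subtype.val (hx ⟨y, y1⟩ ⟨?_, Subtype.ext y4, fun w hw => Subtype.ext (y3 w (g2.ge ⟨w, hw, rfl⟩).1)⟩)
    exact (mem_map_iff_mem K.subtype_injective).1 (g2.le ⟨y2, y1⟩)

end Cfsg.Agent.S3758
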