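import Cfsg.Statements.S3802
import Cfsg.Agent.H1.Subnormal

set_option autoImplicit false
open Cfsg

namespace Cfsg.Agent.S3802

open H9

/-- Let G be a finite group, M a maximal subgroup of G and N a subnormal subgroup of G contained in M. Then N is contained in every conjugate of M, that is, N lies in the core of M in G. -/
theorem result {G : Type*} [Group G] [Finite G] (M N : Subgroup G) (hM : IsCoatom M) (hN : N.IsSubnormal) (hNM : N ≤ M) :
    N ≤ Subgroup.normalCore M := by
  have key : ∀ n : ℕ, ∀ K : Subgroup G, K.index = n → SN K ⊤ → K ≤ M → K ≤ M.normalCore := by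
    intro n
    induction n using Nat.strong_induction_on with
    | _ n ih =>
    intro K hn hK hKM
    set J : Subgroup G := sSup {B | ∃ m ∈ M, B = cj m K} with hJ
    have hJs : SN J ⊤ := H1.SN.sSup (by rintro _ ⟨m, -, rfl⟩; exact hK.cj_of_mem (Subgroup.le_normalizer (Subgroup.mem_top m)))
    have hJM : J ≤ M := sSup_le (by rintro _ ⟨m, hm, rfl⟩; exact (cj_mono m hKM).trans (cj_eq_of_mem hm).le)
    have hKJ : K ≤ J := le_sSup ⟨1, M.one_mem, by simp⟩
    have hMJ : M ≤ Subgroup.normalizer (J : Set G) := normalizer_sSup_of_cj (by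
      rintro g hg _ ⟨m, hm, rfl⟩; exact ⟨g * m, M.mul_mem hg hm, (cj_mul _ _ _).symm⟩)
    by_cases hJn : J.Normal
    · exact hKJ.trans (Subgroup.normal_le_normalCore.2 hJM)
    · have hNJ : Subgroup.normalizer (J : Set G) = M := by
        refine ((hM.le_iff.1 hMJ).resolve_left fun h => hJn ?_)
        exact Subgroup.normalizer_eq_top_iff.1 h
      have : ∃ L, J < L ∧ L ≤ Subgroup.normalizer (J : Set G) ∧ SN L ⊤ := by
        have hne : J ≠ ⊤ := fun h => hM.1 (top_le_iff.1 (h ▸ hJM))
        clear_value J
        clear hJ hJM hKJ hMJ hJn hNJ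
        induction hJs using SN.ind with
        | refl => exact absurd rfl hne
        | step H L h1 h2 h3 ih2 =>
          by_cases e : H = L
          · subst e; exact ih2 hne
          · exact ⟨L, lt_of_le_of_ne h1 e, h2, h3⟩
      obtain ⟨L, h1, h2, h3⟩ := this
      have hlt : L.index < n := by
        rw [← hn]
        have hKL : K < L := lt_of_le_of_lt hKJ h1
        have e1 := Subgroup.relIndex_mul_index hKL.le
        have e2 : K.relIndex L ≠ 1 := fun h => hKL.not_ge (Subgroup.relIndex_eq_one.1 h)
        have e3 : K.relIndex L ≠ 0 := Subgroup.FiniteIndex.index_ne_zero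
        have e4 : 0 < L.index := Nat.pos_of_ne_zero Subgroup.FiniteIndex.index_ne_zero
        have : 2 ≤ K.relIndex L := by omega
        nlinarith
      exact (hKJ.trans h1.le).trans (ih _ hlt L rfl h3 (hNJ ▸ h2))
  exact key _ N rfl (sn_top_iff.2 hN) hNM

end Cfsg.Agent.S3802
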