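import Cfsg.Statements.S3803
import Cfsg.Agent.H1.Btw
import Cfsg.Agent.H9.LE1

set_option autoImplicit false
open Cfsg

namespace Cfsg.Agent.S3803

open H1
open Subgroup

/-- Let P be a 2-subgroup and A a subgroup of odd order of a finite group, with A normalizing P. Let D ≤ P with 1 < |D| < |P|. If every subgroup of P of order |D|, and also every subgroup of P of order 4 in case |D| = 2, is normalized by A, then A centralizes P. -/
theorem result {X : Type*} [Group X] [Finite X] (P A D : Subgroup X) (hP : IsPGroup 2 P) (hA : Odd (Nat.card A))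
    (hAP : A ≤ Subgroup.normalizer (P : Set X)) (hDP : D ≤ P) (hD1 : 1 < Nat.card D) (hD2 : Nat.card D < Nat.card P)
    (hinv : ∀ E : Subgroup X, E ≤ P → (Nat.card E = Nat.card D ∨ (Nat.card D = 2 ∧ Nat.card E = 4)) → A ≤ Subgroup.normalizer (E : Set X)) :
    A ≤ Subgroup.centralizer (P : Set X) := by
  haveI : Fact (Nat.Prime 2) := ⟨Nat.prime_two⟩
  have hA2 : (Nat.card A).Coprime 2 := Nat.coprime_two_right.2 hA
  have cyc : ∀ E : Subgroup X, E ≤ P → IsCyclic E → A ≤ normalizer (E : Set X) →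
      E ≤ centralizer (A : Set X) := fun E h1 h2 h3 => le_centralizer_iff.1 fun a ha =>
    cent_of_isCyclic_two (hP.to_le h1) h2 (h3 ha)
      (Nat.Coprime.coprime_dvd_left (Subgroup.orderOf_dvd_natCard A ha) hA2)
  refine le_centralizer_iff.1 (L.le_centralizer_of_omega_four hA2 hP hAP fun y hy h4 => ?_)
  obtain ⟨k, hk⟩ := L.exists_card_eq_pow (hP.to_le hDP)
  obtain ⟨n, hn⟩ := L.exists_card_eq_pow hP
  rw [hk] at hD1 hD2 hinv
  have hk1 : 1 ≤ k := by
    rcases k with _ | k
    · simp at hD1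
    · omega
  have ho : orderOf y ∣ 2 ^ 2 := orderOf_dvd_of_pow_eq_one h4
  rcases hk1.eq_or_lt with rfl | hk2
  · refine cyc (zpowers y) (zpowers_le_of_mem hy) inferInstance ?_ (mem_zpowers y)
    obtain ⟨j, hj, e⟩ := (Nat.dvd_prime_pow Nat.prime_two).1 ho
    interval_cases j
    · rw [pow_zero, orderOf_eq_one_iff] at e
      rw [e, zpowers_one_eq_bot]; exact le_normalizer_of_normal
    · exact hinv _ (zpowers_le_of_mem hy) (Or.inl (by rw [Nat.card_zpowers, e]))
    · exact hinv _ (zpowers_le_of_mem hy) (Or.inr ⟨rfl, by rw [Nat.card_zpowers, e]; rfl⟩)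
  have hy4 : Nat.card (zpowers y) ≤ 2 ^ k := by
    rw [Nat.card_zpowers]
    exact (Nat.le_of_dvd (by norm_num) ho).trans (Nat.pow_le_pow_right (by norm_num) hk2)
  obtain ⟨E, e1, e2, e3⟩ := exists_between hP (zpowers_le_of_mem hy) hy4 hD2.le
  obtain ⟨F, f1, f2, f3⟩ := exists_between hP e2 (k := k + 1)
    (by rw [e3]; exact Nat.pow_le_pow_right (by norm_num) (by omega)) (by
      rw [hn] at hD2 ⊢
      exact Nat.pow_le_pow_right (by norm_num) ((Nat.pow_lt_pow_iff_right (by norm_num)).1 hD2))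
  by_cases hc : IsCyclic F
  · exact cyc E e2 (isCyclic_of_le f1) (hinv E e2 (Or.inl e3)) (e1 (mem_zpowers y))
  have hFp := hP.to_le f2
  have hM : ∀ M : Subgroup X, M ≤ F → Nat.card M = 2 ^ k → A ≤ normalizer (M : Set X) :=
    fun M h1 h2 => hinv M (h1.trans f2) (Or.inl h2)
  have hAF : A ≤ normalizer (F : Set X) := fun a ha => mem_normalizer_fintype fun x hx => by
    obtain ⟨M, m1, m2, m3⟩ := exists_between hFp (zpowers_le_of_mem hx)
      (card_zpowers_le_of_not_cyclic f3 hc hx)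
      (by rw [f3]; exact Nat.pow_le_pow_right (by norm_num) (by omega))
    exact m2 (H9.conj_mem_of_le_normalizer (hM M m2 m3) ha (m1 (mem_zpowers x)))
  refine H9.cop_le_centralizer_of_Phi hAF (H9.copA_of_p' hFp hA2)
    (commutator_le.2 fun x hx a ha => ?_) (f1 (e1 (mem_zpowers y)))
  refine mem_Phi_of hFp (H9.commutator_le_left' hAF (commutator_mem_commutator hx ha))
    fun M m1 m2 => ?_
  have m3 : Nat.card M = 2 ^ k := by rw [f3, pow_succ'] at m2; omega
  rw [commutatorElement_def, show x * a * x⁻¹ * a⁻¹ = x * (a * x⁻¹ * a⁻¹) by group]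
  refine mul_mem_of_half m1 m2 hx (H9.conj_mem_of_le_normalizer hAF ha (F.inv_mem hx)) ?_
  rw [← M.inv_mem_iff (x := x)]
  exact mem_normalizer_iff.1 (hM M m1 m3 ha) _

end Cfsg.Agent.S3803
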