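import Cfsg.Statements.S3815
import Cfsg.Agent.H1.Cores

set_option autoImplicit false
open Cfsg

namespace Cfsg.Agent.S3815

open H1

/-- Let G be a finite group, p a prime and d ∈ G an element of order prime to p. If dg has order prime to p for every element g ∈ G of order prime to p, then d ∈ O_{p'}(G). -/
theorem result {G : Type*} [Group G] [Finite G] {p : ℕ} [Fact p.Prime]
    (d : G) (hd : (orderOf d).Coprime p)
    (h : ∀ g : G, (orderOf g).Coprime p → (orderOf (d * g)).Coprime p) :
    d ∈ Cfsg.pPrimeCore p G := by
  let D : Subgroup G :=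
    { carrier := {d | ∀ g : G, (orderOf g).Coprime p ↔ (orderOf (d * g)).Coprime p}
      one_mem' := by intro g; simp
      mul_mem' := by
        intro a b ha hb g
        rw [mul_assoc, ← ha, ← hb]
      inv_mem' := by
        intro a ha g
        rw [ha (a⁻¹ * g)]; simp }
  have hdD : d ∈ D := by
    intro g
    refine ⟨h g, fun hg => ?_⟩
    have key : ∀ n : ℕ, (orderOf (d ^ n * (d * g))).Coprime p := by
      intro n
      induction n with
      | zero => simpa using hg
      | succ n ih => rw [pow_succ', mul_assoc]; exact h _ ih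
    have := key (orderOf d - 1)
    rwa [← mul_assoc, ← pow_succ, Nat.sub_add_cancel (orderOf_pos d), pow_orderOf_eq_one, one_mul] at this
  haveI : D.Normal := ⟨fun a ha x g => by
    have e1 : orderOf (x⁻¹ * g * x) = orderOf g := by
      have := orderOf_injective (MulAut.conj x⁻¹).toMonoidHom (MulAut.conj x⁻¹).injective g
      simpa using this
    have e2 : orderOf (x * a * x⁻¹ * g) = orderOf (a * (x⁻¹ * g * x)) := by
      have := orderOf_injective (MulAut.conj x⁻¹).toMonoidHom (MulAut.conj x⁻¹).injective (x * a * x⁻¹ * g)
      rw [← this]; congr 1; simp [mul_assoc]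
    rw [e2, ← ha, e1]⟩
  refine le_pPrimeCore (N := D) ?_ hdD
  rw [Nat.coprime_comm, Nat.Prime.coprime_iff_not_dvd Fact.out]
  intro hp
  obtain ⟨x, hx⟩ := exists_prime_orderOf_dvd_card' p hp
  have := (x.2 1).1 (by simp)
  rw [mul_one, Subgroup.orderOf_coe, hx, Nat.coprime_self] at this
  exact (Fact.out : p.Prime).ne_one this

end Cfsg.Agent.S3815
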