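import Cfsg.Statements.S3819
import Cfsg.Agent.H1.Q1
import Cfsg.Agent.FT.B4a
import Cfsg.Agent.H9.PComp
import Cfsg.Agent.H9.LB2

set_option autoImplicit false
open Cfsg

namespace Cfsg.Agent.S3819

open H1
open Subgroup H9

theorem cent_core {G : Type*} [Group G] [Finite G] {p q : ℕ} [Fact p.Prime] [Fact q.Prime] {P H Z : Subgroup G}
    (hP : IsPGroup p P) (cH : (Nat.card H).Coprime p) (n : P ≤ normalizer (H : Set G))
    (hs : Group.IsSolvable (⁅H, P⁆ : Subgroup G)) (hO : Op' q H = ⊥) (hZ : IsPGroup q Z) (h1 : Z ≤ H)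
    (h2 : Z ≤ centralizer (P : Set G)) :
    Op' q (H ⊓ centralizer (Z : Set G)) ⊓ Op' q (H ⊓ centralizer (P : Set G)) ⊔
      ⁅Op' q (H ⊓ centralizer (Z : Set G)), P⁆ = ⊥ := by
  have hD := Op'_centralizer_le_centralizer_Op hO hZ (h1.trans Subgroup.le_normalizer)
  have cD := Op'_cop q (H ⊓ centralizer (Z : Set G))
  have nD : P ≤ normalizer (Op' q (H ⊓ centralizer (Z : Set G)) : Set G) :=
    normalizer_Op' (le_normalizer_inf n ((le_centralizer_iff.1 h2).trans Subgroup.le_normalizer))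
  have lD : Op' q (H ⊓ centralizer (Z : Set G)) ≤ H := (Op'_le _ _).trans inf_le_left
  generalize Op' q (H ⊓ centralizer (Z : Set G)) = D at *
  have lK : ⁅H, P⁆ ≤ H := commutator_le_left' n
  have nK : H ≤ normalizer ((⁅H, P⁆ : Subgroup G) : Set G) := le_normalizer_commutator_left _ _
  have sK : SN ⁅H, P⁆ H := SN.of_normal lK nK
  have eK := cop_commutator_sup n (copA_of_p hP cH)
  have cc := FT.cent_Op_le (p := q) hs (by rw [sK.Op'_eq_inf, hO, bot_inf_eq])
  have hD' : D ≤ centralizer (Op q ⁅H, P⁆ : Set G) := hD.trans (centralizer_le sK.Op_le_Op)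
  have nC : H ≤ normalizer (centralizer (Op q ⁅H, P⁆ : Set G) : Set G) := normalizer_centralizer (normalizer_Op nK)
  have d1 : ⁅D, P⁆ = ⊥ := eq_bot_of_p_p' ((Op_p q _).to_le ((le_inf (commutator_mono lD le_rfl)
    ((commutator_le_left' nD).trans hD')).trans cc)) (cop_of_le cD (commutator_le_left' nD))
  generalize ⁅H, P⁆ = K at *
  rw [d1, sup_bot_eq, eq_bot_iff, ← hO]
  set C := H ⊓ centralizer (P : Set G)
  have e1 : ⁅K, D⁆ ≤ Op q K := (le_inf (commutator_le_left' (lD.trans nK))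
    ((commutator_mono lK hD').trans (commutator_le_right' nC))).trans cc
  have e2 : D ≤ centralizer (K : Set G) := by
    have := cop_eq_sup_of_commutator_le (lD.trans (normalizer_Op nK)) (copA_of_p' (Op_p q K) cD) (Op_le q K) e1
    rw [le_centralizer_iff, ← this]
    exact sup_le (le_centralizer_iff.1 hD') inf_le_right
  refine le_trans (b := Op' q C ⊓ centralizer (K : Set G)) (le_inf inf_le_right (inf_le_left.trans e2))
    (le_Op' (inf_le_left.trans ((Op'_le _ _).trans inf_le_left)) ?_ (cop_of_le (Op'_cop q C) inf_le_left))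
  rw [← eK]
  exact sup_le ((le_centralizer_iff.1 inf_le_right).trans (centralizer_le_normalizer _))
    (le_normalizer_inf (le_normalizer_Op' q C) (normalizer_centralizer (inf_le_left.trans nK)))

/-- Let G be a finite group with Sylow p-subgroup P and H = O_{p'}(G), and suppose G = PH and the commutator subgroup [H, P] is solvable. Let q be a prime and z an element of q-power order of C_H(P). Then (O_{q'}(C_H(z)) ∩ O_{q'}(C_H(P))) · [O_{q'}(C_H(z)), P] ≤ O_{q'}(H). -/
theorem result {G : Type*} [Group G] [Finite G] {p : ℕ} [Fact p.Prime]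
    (P : Sylow p G) (hPH : Cfsg.pPrimeCore p G ⊔ (P : Subgroup G) = ⊤)
    (hsol : Group.IsSolvable ↥⁅Cfsg.pPrimeCore p G, (P : Subgroup G)⁆)
    {q : ℕ} [Fact q.Prime] (z : G) (hzH : z ∈ Cfsg.pPrimeCore p G) (hzP : z ∈ Subgroup.centralizer ((P : Subgroup G) : Set G))
    (hz : ∃ k : ℕ, orderOf z = q ^ k) :
    ((Cfsg.pPrimeCore q ↥(Cfsg.pPrimeCore p G ⊓ Subgroup.centralizer ({z} : Set G))).map
        (Cfsg.pPrimeCore p G ⊓ Subgroup.centralizer ({z} : Set G)).subtype ⊓
      (Cfsg.pPrimeCore q ↥(Cfsg.pPrimeCore p G ⊓ Subgroup.centralizer ((P : Subgroup G) : Set G))).map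
        (Cfsg.pPrimeCore p G ⊓ Subgroup.centralizer ((P : Subgroup G) : Set G)).subtype) ⊔
    ⁅(Cfsg.pPrimeCore q ↥(Cfsg.pPrimeCore p G ⊓ Subgroup.centralizer ({z} : Set G))).map
        (Cfsg.pPrimeCore p G ⊓ Subgroup.centralizer ({z} : Set G)).subtype, (P : Subgroup G)⁆ ≤
    (Cfsg.pPrimeCore q ↥(Cfsg.pPrimeCore p G)).map (Cfsg.pPrimeCore p G).subtype := by
  simp only [Op'_eq]
  set H := pPrimeCore p G with hH
  have cH : (Nat.card H).Coprime p := pPrimeCore_cop p
  obtain ⟨k, hk⟩ := hz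
  have pz : IsPGroup q (zpowers z) := isPGroup_zpowers_of_pow (k := k) (by rw [← hk, pow_orderOf_eq_one])
  have nO : (Op' q H).Normal := normalizer_eq_top_iff.1 (top_le_iff.1 (normalizer_Op' (nrm ⊤ H)))
  set f := QuotientGroup.mk' (Op' q H)
  have kf : f.ker = Op' q H := QuotientGroup.ker_mk' _
  have ck : ∀ X : Subgroup G, (Nat.card (f.ker ⊓ X : Subgroup G)).Coprime q := fun X =>
    cop_of_le (Op'_cop q H) (inf_le_left.trans kf.le)
  rw [← kf, ← Subgroup.map_eq_bot_iff, Subgroup.map_sup, map_commutator, eq_bot_iff]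
  have e1 : (H ⊓ centralizer {z}).map f = H.map f ⊓ centralizer (((zpowers z).map f : Subgroup _) : Set _) := by
    rw [← cop_map_centralizer f (nrm _ H) (copA_of_p pz (ck H)), H9.centralizer_zpowers]
  have e2 := cop_map_centralizer f (nrm (P : Subgroup G) H) (copA_of_p P.isPGroup' (cop_of_le cH inf_le_right))
  refine le_trans (sup_le_sup ((map_inf_le _ _ _).trans (inf_le_inf (map_Op'_le f _) (map_Op'_le f _)))
    (commutator_mono (map_Op'_le f _) le_rfl)) ?_
  rw [e1, e2]
  refine (cent_core (p := p) (P.isPGroup'.map f) (cop_map f cH) (map_le_normalizer_map f (nrm _ H)) ?_ ?_ (pz.map f)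
    (map_mono (zpowers_le.2 hzH)) (map_le_centralizer_map f (zpowers_le.2 hzP))).le
  · rw [← map_commutator]; exact H9.isSolvable_map f hsol
  · rw [← map_Op'_of_ker f (ck H), Subgroup.map_eq_bot_iff, kf]

end Cfsg.Agent.S3819
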