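import Cfsg.Statements.S3820
import Cfsg.Agent.H9.Basic

set_option autoImplicit false
open Cfsg

namespace Cfsg.Agent.S3820

open H9

/-- Call a subgroup H of G pronormal if H and gHg⁻¹ are conjugate inside ⟨H, gHg⁻¹⟩ for every g ∈ G. Let S ≤ H ≤ G be subgroups of a finite group with S pronormal in G (for instance S a Sylow subgroup). Then H is pronormal in G if and only if H and gHg⁻¹ are conjugate inside ⟨H, gHg⁻¹⟩ for every g ∈ N_G(S). In particular H is pronormal whenever N_G(S) ≤ H. -/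
theorem result {G : Type*} [Group G] [Finite G] (S H : Subgroup G) (hSH : S ≤ H)
    (hS : Cfsg.IsPronormal S) :
    Cfsg.IsPronormal H ↔
      ∀ g ∈ Subgroup.normalizer (S : Set G), ∃ w ∈ H ⊔ H.map (MulAut.conj g).toMonoidHom,
        H.map (MulAut.conj g).toMonoidHom = H.map (MulAut.conj w).toMonoidHom := by
  refine ⟨fun h g _ => h g, fun h g => ?_⟩
  obtain ⟨x, hx, e⟩ := hS g
  simp only [cj_def'] at *
  have hx' : x ∈ H ⊔ cj g H := (sup_le_sup hSH (cj_mono g hSH)) hx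
  have hn : x⁻¹ * g ∈ Subgroup.normalizer (S : Set G) := by
    rw [mem_normalizer_iff_cj, cj_mul, e, cj_inv_cj]
  obtain ⟨w, hw, e2⟩ := h _ hn
  refine ⟨x * w, Subgroup.mul_mem _ hx' ?_, ?_⟩
  · refine (sup_le le_sup_left ?_ : H ⊔ cj (x⁻¹ * g) H ≤ H ⊔ cj g H) hw
    rw [cj_mul, cj_le_iff, inv_inv, cj_eq_of_mem hx']
    exact le_sup_right
  · rw [cj_mul, ← e2, ← cj_mul]; simp

end Cfsg.Agent.S3820
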