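import Cfsg.Statements.S3821
import Cfsg.Agent.H9.Im

set_option autoImplicit false
open Cfsg

namespace Cfsg.Agent.S3821

open H9

/-- Let A be a normal subgroup of the finite group G and H a subgroup of A. Then H is pronormal in G (H and gHg⁻¹ conjugate inside ⟨H, gHg⁻¹⟩ for every g ∈ G) if and only if H is pronormal in A and G = A · N_G(H). -/
theorem result {G : Type*} [Group G] [Finite G] (A H : Subgroup G) [A.Normal] (hHA : H ≤ A) :
    Cfsg.IsPronormal H ↔ (Cfsg.IsPronormal (H.subgroupOf A) ∧ A ⊔ Subgroup.normalizer (H : Set G) = ⊤) := by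
  constructor
  · intro h
    refine ⟨fun g => ?_, ?_⟩
    · obtain ⟨x, hx, e⟩ := h g
      simp only [cj_def'] at *
      have h1 : cj (g : G) H ≤ A := (cj_mono _ hHA).trans (cj_eq_of_normal _ A).le
      have hxA : x ∈ A := sup_le hHA h1 hx
      refine ⟨⟨x, hxA⟩, ?_, ?_⟩
      · rw [← subgroupOf_cj, ← Subgroup.subgroupOf_sup hHA h1]; exact hx
      · rw [← subgroupOf_cj, ← subgroupOf_cj, e]
    · rw [eq_top_iff]
      intro g _
      obtain ⟨x, hx, e⟩ := h g
      simp only [cj_def'] at *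
      have h1 : cj (g : G) H ≤ A := (cj_mono _ hHA).trans (cj_eq_of_normal _ A).le
      have hxA : x ∈ A := sup_le hHA h1 hx
      have hn : x⁻¹ * g ∈ Subgroup.normalizer (H : Set G) := by
        rw [mem_normalizer_iff_cj, cj_mul, e, cj_inv_cj]
      have : g = x * (x⁻¹ * g) := by group
      rw [this]
      exact Subgroup.mul_mem_sup hxA hn
  · rintro ⟨h1, h2⟩ g
    have hg : g ∈ A ⊔ Subgroup.normalizer (H : Set G) := h2 ▸ Subgroup.mem_top g
    obtain ⟨a, ha, n, hn, rfl⟩ := (mem_sup_of_le_normalizer' Subgroup.le_normalizer_of_normal).1 hg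
    obtain ⟨x, hx, e⟩ := h1 ⟨a, ha⟩
    simp only [cj_def'] at *
    rw [cj_mul, mem_normalizer_iff_cj.1 hn]
    have h3 : ∀ b : G, cj b H ≤ A := fun b => (cj_mono _ hHA).trans (cj_eq_of_normal _ A).le
    rw [← subgroupOf_cj, ← Subgroup.subgroupOf_sup hHA (h3 _)] at hx
    refine ⟨x, hx, ?_⟩
    rw [← subgroupOf_cj, ← subgroupOf_cj] at e
    have := congrArg (Subgroup.map A.subtype) e
    rwa [Subgroup.subgroupOf_map_subtype, Subgroup.subgroupOf_map_subtype, inf_eq_left.2 (h3 _),
      inf_eq_left.2 (h3 _)] at this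

end Cfsg.Agent.S3821
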