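import Cfsg.Statements.S3825
import Cfsg.Agent.H1.Misc3

set_option autoImplicit false
open Cfsg

namespace Cfsg.Agent.S3825

open H1

/-- Let U be a subgroup of a finite group H and w an involution of H normalizing U and commuting with exactly two elements of U, the identity and y. If V is a non-cyclic elementary abelian 2-subgroup of U containing y which is normal in U and invariant under w, then V is a Sylow 2-subgroup of U, V has order 4, and U/V is abelian. -/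
theorem result {H : Type*} [Group H] [Finite H] (U : Subgroup H) (w : H) (hw : orderOf w = 2)
    (hwU : w ∈ Subgroup.normalizer (U : Set H)) (y : H) (hy : y ≠ 1) (hyU : y ∈ U)
    (hfix : ∀ u ∈ U, w * u * w⁻¹ = u ↔ (u = 1 ∨ u = y))
    (V : Subgroup H) (hVU : V ≤ U) (hVn : (V.subgroupOf U).Normal) (hVw : ∀ v ∈ V, w * v * w⁻¹ ∈ V)
    (hVe : Cfsg.IsElementaryAbelian 2 V) (hVc : ¬ IsCyclic ↥V) (hyV : y ∈ V) :
    ¬ 2 ∣ V.relIndex U ∧ Nat.card ↥V = 4 ∧ ⁅U, U⁆ ≤ V := by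
  have hw2 : w * w = 1 := by rw [← sq, ← hw, pow_orderOf_eq_one]
  have hwi : w⁻¹ = w := inv_eq_of_mul_eq_one_right hw2
  have hww : ∀ x, w * (w * x * w⁻¹) * w⁻¹ = x := fun x => by
    calc _ = (w * w) * x * (w * w)⁻¹ := by simp [mul_assoc]
      _ = x := by rw [hw2]; simp
  have hUV := (Subgroup.normal_subgroupOf_iff_le_normalizer hVU).1 hVn
  have hwV : w ∈ Subgroup.normalizer (V : Set H) := mem_normalizer_iff_conj_mem.2 hVw
  have hinv : ∀ v ∈ V, v⁻¹ = v := fun v hv => inv_eq_of_mul_eq_one_right (by rw [← sq]; exact hVe.2 v hv)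
  have key : ∀ u ∈ U, u⁻¹ * (w * u * w⁻¹) ∈ V → u⁻¹ * (w * u * w⁻¹) = 1 ∨ u⁻¹ * (w * u * w⁻¹) = y := by
    intro u hu h
    refine (hfix _ (hVU h)).1 ?_
    rw [← hinv _ h]
    calc w * (u⁻¹ * (w * u * w⁻¹))⁻¹ * w⁻¹ = (w * (w * u * w⁻¹) * w⁻¹)⁻¹ * (w * u * w⁻¹) := by simp [mul_assoc]
      _ = _ := by rw [hww, hinv _ h]
  have hyy : y * y = 1 := by rw [← sq]; exact hVe.2 y hyV
  have hyo : orderOf y = 2 := orderOf_eq_prime (hVe.2 y hyV) hy
  obtain ⟨v, hv, hvy⟩ : ∃ v ∈ V, v ∉ Subgroup.zpowers y := by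
    by_contra h
    push Not at h
    exact hVc (isCyclic_of_le_zpowers h)
  have hC : U ⊓ Subgroup.centralizer {w} ≤ Subgroup.zpowers y := by
    intro u hu
    rcases (hfix u hu.1).1 (mul_inv_eq_iff_eq_mul.2 (Subgroup.mem_centralizer_singleton_iff.1 hu.2).symm) with rfl | rfl
    exacts [Subgroup.one_mem _, Subgroup.mem_zpowers _]
  have hfix1 : ∀ u ∈ U, u⁻¹ * (w * u * w⁻¹) = 1 → u ∈ Subgroup.zpowers y := fun u hu h =>
    hC ⟨hu, Subgroup.mem_centralizer_singleton_iff.2 (eq_mul_inv_iff_mul_eq.1 (inv_mul_eq_one.1 h))⟩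
  have hv2 : v⁻¹ * (w * v * w⁻¹) = y :=
    (key v (hVU hv) (V.mul_mem (V.inv_mem hv) (hVw v hv))).resolve_left fun h => hvy (hfix1 v (hVU hv) h)
  have key2 : ∀ u ∈ U, u⁻¹ * (w * u * w⁻¹) ∈ V → u ∈ Subgroup.zpowers y ∨ u * v⁻¹ ∈ Subgroup.zpowers y := by
    intro u hu h
    refine (key u hu h).imp (hfix1 u hu) fun h2 => hfix1 _ (U.mul_mem hu (U.inv_mem (hVU hv))) ?_
    calc (u * v⁻¹)⁻¹ * (w * (u * v⁻¹) * w⁻¹) = v * (u⁻¹ * (w * u * w⁻¹)) * (v⁻¹ * (w * v * w⁻¹))⁻¹ * v⁻¹ := by group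
      _ = 1 := by rw [h2, hv2]; group
  have hyV' : Subgroup.zpowers y ≤ V := Subgroup.zpowers_le.2 hyV
  have h4 : Nat.card V = 4 := by
    have h5 := L.elem_two_gen (p := 2) (comm_of_mem hVe.1 hv hyV) (hVe.2 v hv) (hVe.2 y hyV) hy hvy
    have : V = Subgroup.zpowers y ⊔ Subgroup.zpowers v := by
      refine le_antisymm (fun u hu => ?_) (sup_le hyV' (Subgroup.zpowers_le.2 hv))
      rcases key2 u (hVU hu) (V.mul_mem (V.inv_mem hu) (hVw u hu)) with h | h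
      · exact Subgroup.mem_sup_left h
      · simpa using Subgroup.mul_mem_sup h (Subgroup.mem_zpowers v)
    rw [this, h5.2]; rfl
  set L := U ⊔ Subgroup.zpowers w
  have hUL : U ≤ L := le_sup_left
  have hwL : w ∈ L := Subgroup.mem_sup_right (Subgroup.mem_zpowers w)
  obtain ⟨Q, _, f, hf, hk⟩ := exists_section (hVU.trans hUL) (sup_le hUV (Subgroup.zpowers_le.2 hwV))
  haveI : Finite Q := Finite.of_surjective f hf
  have h5 : f ⟨w, hwL⟩ ∈ Subgroup.normalizer (bar f U : Set Q) :=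
    bar_normalizer le_rfl (mem_bar_of_mem hwL hwU)
  have h6 : bar f U ⊓ Subgroup.centralizer {f ⟨w, hwL⟩} = ⊥ := by
    rw [eq_bot_iff]
    rintro _ ⟨h1, h2⟩
    obtain ⟨u, hu, rfl⟩ := mem_bar.1 h1
    have h3 : f (u⁻¹ * (⟨w, hwL⟩ * u * ⟨w, hwL⟩⁻¹)) = 1 := by
      simp only [map_mul, map_inv, ← Subgroup.mem_centralizer_singleton_iff.1 h2]; group
    rw [apply_eq_one_iff, hk] at h3
    rw [Subgroup.mem_bot, apply_eq_one_iff, hk]
    rcases key2 u hu h3 with h | h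
    · exact hyV' h
    · simpa using V.mul_mem (hyV' h) hv
  have h7 : ∀ k ∈ bar f U, f ⟨w, hwL⟩ * k * (f ⟨w, hwL⟩)⁻¹ = k⁻¹ := fun k hk => conj_eq_inv_of_fpf h5 h6 (by
    rw [← map_mul, show (⟨w, hwL⟩ * ⟨w, hwL⟩ : L) = 1 from Subtype.ext hw2, map_one]; exact Subgroup.one_mem _) hk
  refine ⟨fun h => ?_, h4, ?_⟩
  · rw [← hk, ← card_bar hUL] at h
    obtain ⟨x, hx, hx2⟩ := exists_mem_orderOf_eq_prime Nat.prime_two h
    have h8 := h7 x hx
    rw [inv_eq_of_mul_eq_one_right (show x * x = 1 by rw [← sq, ← hx2, pow_orderOf_eq_one])] at h8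
    exact ne_one_of_orderOf_prime Nat.prime_two hx2 (Subgroup.mem_bot.1 (h6 ▸ ⟨hx,
      Subgroup.mem_centralizer_singleton_iff.2 (mul_inv_eq_iff_eq_mul.1 h8).symm⟩))
  · rw [← hk, ← bar_le_centralizer_iff hUL hUL]
    exact _root_.L.le_centralizer_of_comm (isMulCommutative_of_conj_eq_inv h7)

end Cfsg.Agent.S3825
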