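import Cfsg.Statements.S3835
import Cfsg.Agent.H9.Qd
import Cfsg.Agent.H5.PGL2
import Cfsg.Agent.H1.Misc3

set_option autoImplicit false
open Cfsg

namespace Cfsg.Agent.S3835

open Subgroup Equiv MulAction Matrix
open scoped MatrixGroups commutatorElement

theorem comm_of_lt {n p : ℕ} [hp' : Fact p.Prime] (h : n < p ^ 2) {S : Type*} [Group S] [Finite S] (hS : IsPGroup p S)
    [MulAction S (Fin n)] [FaithfulSMul S (Fin n)] (x y : S) : x * y = y * x := by
  have hp : p.Prime := Fact.out
  rw [← commutatorElement_eq_one_iff_mul_comm]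
  apply eq_of_smul_eq_smul (α := Fin n)
  intro a
  rw [one_smul]
  have h1 : (stabilizer S a).index ≤ n := by
    rw [index_stabilizer]
    simpa using Set.ncard_le_ncard (Set.subset_univ (orbit S a)) |>.trans (by simp [Set.ncard_univ])
  obtain ⟨k, hk⟩ := hS.index (stabilizer S a)
  have hk2 : k < 2 := (Nat.pow_lt_pow_iff_right hp.one_lt).1 (by omega)
  have hN : (stabilizer S a).Normal := by
    haveI := hS.isNilpotent
    interval_cases k
    · rw [pow_zero, index_eq_one] at hk; rw [hk]; infer_instance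
    · exact NormalizerCondition.normal_of_coatom _ Group.normalizerCondition_of_isNilpotent
        (H1.isCoatom_of_index_prime (by rw [hk, pow_one]; exact hp))
  have : commutator S ≤ stabilizer S a := by
    haveI : IsCyclic (S ⧸ stabilizer S a) := by
      interval_cases k
      · exact isCyclic_of_card_dvd_prime (p := p) (by rw [← index_eq_card, hk]; simp)
      · exact isCyclic_of_card_dvd_prime (p := p) (by rw [← index_eq_card, hk]; simp)
    rw [_root_.commutator_def, commutator_le]
    intro u _ v _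
    rw [← QuotientGroup.eq_one_iff]
    show QuotientGroup.mk' _ _ = 1
    rw [map_commutatorElement, commutatorElement_eq_one_iff_mul_comm]
    exact IsCyclic.commGroup.mul_comm _ _
  exact this (commutator_mem_commutator (mem_top x) (mem_top y))

theorem le_of_surj {n p : ℕ} [hp' : Fact p.Prime] {K : Subgroup (alternatingGroup (Fin n))} (π : K →* Cfsg.qd p)
    (hπ : Function.Surjective π) : p ^ 2 ≤ n := by
  by_contra h
  let D := H9.qdD p
  obtain ⟨Q, hQ⟩ := (D.S_p p).exists_le_sylow
  obtain ⟨P, rfl⟩ := Sylow.mapSurjective_surjective hπ p Q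
  obtain ⟨x, hx, ex⟩ := hQ (D.hz_mem 0 1 0)
  obtain ⟨y, hy, ey⟩ := hQ (D.hz_mem 0 0 1)
  have := comm_of_lt (n := n) (by omega) P.isPGroup' (S := (P : Subgroup K)) ⟨x, hx⟩ ⟨y, hy⟩
  have h2 := congrArg (fun z : (P : Subgroup K) => π z) this
  simp only [MulMemClass.coe_mul, map_mul] at h2
  rw [ex, ey, D.hz_mul, D.hz_mul, D.hz_eq_iff] at h2
  simp at h2

theorem emb {p : ℕ} [hp' : Fact p.Prime] (hp : p ≠ 2) :
    ∃ φ : Cfsg.qd p →* Perm (Fin 2 → ZMod p), Function.Injective φ ∧ ∀ g, Perm.sign (φ g) = 1 := by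
  let D := H9.qdD p
  choose t ht using D.exists_el
  have h1 : D.el 0 1 = 1 := by rw [D.el_zero, map_one]
  have t1 : t 1 = 0 := by
    have := ht 1
    rw [map_one, ← h1, D.el_eq_iff] at this
    rw [← h1]; exact this.1.symm
  have tm : ∀ g h, t (g * h) = t g + (D.θ g : Matrix (Fin 2) (Fin 2) (ZMod p)) *ᵥ t h := by
    intro g h
    have := ht (g * h)
    conv_lhs at this => rw [ht g, ht h, D.el_mul]
    exact (D.el_eq_iff.mp this).1.symm
  letI : MulAction (Cfsg.qd p) (Fin 2 → ZMod p) :=
    { smul := fun g v => t g + (D.θ g : Matrix (Fin 2) (Fin 2) (ZMod p)) *ᵥ v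
      one_smul := fun v => by
        show t 1 + (D.θ 1 : Matrix (Fin 2) (Fin 2) (ZMod p)) *ᵥ v = v
        simp [t1]
      mul_smul := fun g h v => by
        show t (g * h) + (D.θ (g * h) : Matrix (Fin 2) (Fin 2) (ZMod p)) *ᵥ v =
          t g + (D.θ g : Matrix (Fin 2) (Fin 2) (ZMod p)) *ᵥ (t h + (D.θ h : Matrix (Fin 2) (Fin 2) (ZMod p)) *ᵥ v)
        rw [tm, map_mul, Matrix.SpecialLinearGroup.coe_mul, Matrix.mulVec_add, Matrix.mulVec_mulVec, add_assoc] }
  have h2 : (2 : ZMod p) ≠ 0 := by
    intro h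
    have : ((2 : ℕ) : ZMod p) = 0 := by exact_mod_cast h
    rw [ZMod.natCast_eq_zero_iff] at this
    exact hp ((Nat.prime_dvd_prime_iff_eq hp'.out Nat.prime_two).mp this)
  refine ⟨MulAction.toPermHom (Cfsg.qd p) (Fin 2 → ZMod p), ?_, ?_⟩
  · rw [injective_iff_map_eq_one]
    intro g hg
    have hv : ∀ v, t g + (D.θ g : Matrix (Fin 2) (Fin 2) (ZMod p)) *ᵥ v = v := fun v =>
      congrArg (fun σ : Perm (Fin 2 → ZMod p) => σ v) hg
    have h0 : t g = 0 := by simpa using hv 0
    have h3 : D.θ g = 1 := by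
      apply Subtype.ext
      apply Matrix.toLin'.injective
      ext1 i
      ext1
      have := hv (Pi.single i 1)
      rw [h0, zero_add] at this
      simpa using this
    rw [ht g, h0, h3, h1]
  · let χ : Cfsg.qd p →* ℤˣ := Perm.sign.comp (MulAction.toPermHom (Cfsg.qd p) (Fin 2 → ZMod p))
    have hs : (χ.comp D.s).ker = ⊤ := by
      refine H5.SL2_eq_top _ (fun b => ?_) (fun c => ?_)
      · have : H5.sl2 1 b 0 1 (by simp) = H5.sl2 1 (b / 2) 0 1 (by simp) ^ 2 := by
          rw [pow_two]; apply Subtype.ext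
          rw [Matrix.SpecialLinearGroup.coe_mul, H5.sl2_coe, H5.sl2_coe, Matrix.mul_fin_two]
          congr <;> field_simp <;> ring
        rw [MonoidHom.mem_ker, this, map_pow, Int.units_sq]
      · have : H5.sl2 1 0 c 1 (by simp) = H5.sl2 1 0 (c / 2) 1 (by simp) ^ 2 := by
          rw [pow_two]; apply Subtype.ext
          rw [Matrix.SpecialLinearGroup.coe_mul, H5.sl2_coe, H5.sl2_coe, Matrix.mul_fin_two]
          congr <;> field_simp <;> ring
        rw [MonoidHom.mem_ker, this, map_pow, Int.units_sq]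
    intro g
    show χ g = 1
    have e1 : χ (D.s (D.θ g)) = 1 := by
      have : D.θ g ∈ (χ.comp D.s).ker := hs ▸ mem_top _
      exact this
    have e2 : χ (D.j (Multiplicative.ofAdd (t g))) = 1 := by
      have : Multiplicative.ofAdd (t g) = Multiplicative.ofAdd ((2 : ZMod p)⁻¹ • t g) ^ 2 := by
        rw [pow_two, ← ofAdd_add, ← two_smul (ZMod p), smul_smul, mul_inv_cancel₀ h2, one_smul]
      rw [this, map_pow, map_pow, Int.units_sq]
    rw [ht g]
    show χ (D.j _ * D.s _) = 1
    rw [map_mul, e1, e2, one_mul]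

/-- Let p be an odd prime and n a natural number. The alternating group of degree n has a subgroup isomorphic to Qd(p) (the natural semidirect product of an elementary abelian group of order p² by SL₂(p)) if and only if n ≥ p²; and if n < p² then Qd(p) is not even involved in it. -/
theorem result {p : ℕ} [Fact p.Prime] (hp : p ≠ 2) (n : ℕ) : ((∃ H : Subgroup (alternatingGroup (Fin n)), Nonempty (↥H ≃* ↥(Cfsg.qd p))) ↔ p ^ 2 ≤ n) ∧ (n < p ^ 2 → ¬ Cfsg.Involves ↥(Cfsg.qd p) ↥(alternatingGroup (Fin n))) := by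
  classical
  refine ⟨⟨fun ⟨H, ⟨e⟩⟩ => le_of_surj e.toMonoidHom e.surjective, fun h => ?_⟩, fun h ⟨K, R, _, ⟨e⟩⟩ => ?_⟩
  · obtain ⟨φ0, h1, h2⟩ := emb hp
    obtain ⟨f⟩ : Nonempty ((Fin 2 → ZMod p) ↪ Fin n) := Function.Embedding.nonempty_of_card_le (by simpa using h)
    let φ : Perm (Fin 2 → ZMod p) →* Perm (Fin n) := Perm.extendDomainHom f.toEquivRange
    have hφ : Function.Injective φ := Perm.extendDomainHom_injective _
    let ψ : Cfsg.qd p →* alternatingGroup (Fin n) := (φ.comp φ0).codRestrict _ fun k => by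
      rw [Perm.mem_alternatingGroup, ← h2 k]
      exact Perm.sign_extendDomain _ _
    have hψ : Function.Injective ψ := fun a b e => h1 (hφ (congrArg Subtype.val e))
    exact ⟨ψ.range, ⟨(MonoidHom.ofInjective hψ).symm⟩⟩
  · have := le_of_surj (e.toMonoidHom.comp (QuotientGroup.mk' _)) (e.surjective.comp (QuotientGroup.mk'_surjective _))
    omega

end Cfsg.Agent.S3835
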