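import Cfsg.Statements.S3836
import Cfsg.Agent.H1.Misc3

set_option autoImplicit false
open Cfsg

namespace Cfsg.Agent.S3836

open H1

/-- Let G be a finite group that is p-stable in the normalizer form: for every p-subgroup Q and every x ∈ N_G(Q) with [Q, x, x] = 1, the image of x in N_G(Q)/C_G(Q) lies in O_p(N_G(Q)/C_G(Q)). Then every subgroup of G is p-stable in the same sense. -/
theorem result {G : Type*} [Group G] [Finite G] {p : ℕ} [Fact p.Prime] (hst : Cfsg.IsNormalizerPStable p G) (H : Subgroup G) : Cfsg.IsNormalizerPStable p ↥H := by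
  intro P hP g hg hq
  set P' := P.map H.subtype
  have hn : ∀ x ∈ Subgroup.normalizer (P : Set H), (x : G) ∈ Subgroup.normalizer (P' : Set G) := fun x hx =>
    le_normalizer_map H.subtype le_rfl ⟨x, hx, rfl⟩
  have h1 := hst P' (hP.map _) g (hn g hg) (by
    have := congrArg (Subgroup.map H.subtype) hq
    simp only [Subgroup.map_commutator, MonoidHom.map_zpowers, Subgroup.map_bot] at this; exact this)
  let ψ : Subgroup.normalizer (P : Set H) →* Subgroup.normalizer (P' : Set G) :=
    (H.subtype.comp (Subgroup.subtype _)).codRestrict _ fun x => hn x x.2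
  have hc : ∀ x : Subgroup.normalizer (P : Set H), (x : H) ∈ Subgroup.centralizer (P : Set H) ↔
      ((x : H) : G) ∈ Subgroup.centralizer (P' : Set G) := fun x =>
    ⟨fun h => by rintro _ ⟨y, hy, rfl⟩; exact congrArg Subtype.val (h y hy),
      fun h y hy => Subtype.ext (h y ⟨y, hy, rfl⟩)⟩
  let φ := QuotientGroup.map ((Subgroup.centralizer (P : Set H)).subgroupOf (Subgroup.normalizer (P : Set H)))
    ((Subgroup.centralizer (P' : Set G)).subgroupOf (Subgroup.normalizer (P' : Set G))) ψ fun x hx => (hc x).1 hx
  have hφ : Function.Injective φ := by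
    rw [injective_iff_map_eq_one]
    intro x hx
    obtain ⟨x, rfl⟩ := QuotientGroup.mk_surjective x
    exact (QuotientGroup.eq_one_iff _).2 ((hc x).2 ((QuotientGroup.eq_one_iff (ψ x)).1 hx))
  exact comap_pCore_le hφ h1

end Cfsg.Agent.S3836
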