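import Cfsg.Statements.S3838
import Cfsg.Agent.H1.HW

set_option autoImplicit false
open Cfsg

namespace Cfsg.Agent.S3838

open H1

/-- Let G be a finite group with Sylow p-subgroup P such that N_G(P) has a normal p-complement. Then N_G(Q) has a normal p-complement for every subgroup Q with [P, P] ≤ Q ≤ Φ(P). -/
theorem result {G : Type*} [Group G] [Finite G] {p : ℕ} [Fact p.Prime] (P : Sylow p G) (hN : Cfsg.HasNormalPComplement p ↥(Subgroup.normalizer ((P : Subgroup G) : Set G))) (Q : Subgroup G) (h1 : (commutator ↥(P : Subgroup G)).map (P : Subgroup G).subtype ≤ Q) (h2 : Q ≤ (frattini ↥(P : Subgroup G)).map (P : Subgroup G).subtype) : Cfsg.HasNormalPComplement p ↥(Subgroup.normalizer (Q : Set G)) := by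
  rw [L.map_commutator_subtype] at h1
  have hQP : Q ≤ P := h2.trans (Subgroup.map_subtype_le _)
  have hcm : ∀ u ∈ (P : Subgroup G), ∀ y ∈ (P : Subgroup G), u * y * u⁻¹ * y⁻¹ ∈ Q :=
    fun u hu y hy => h1 (Subgroup.commutator_mem_commutator hu hy)
  have hPH : (P : Subgroup G) ≤ Subgroup.normalizer (Q : Set G) := fun u hu =>
    mem_normalizer_iff_conj_mem.2 fun y hy => by
      simpa using mul_mem (hcm u hu y (hQP hy)) hy
  have hS := H2.sylow_isSylowIn P hPH
  refine H2.tate_group hS (le_trans ?_ h2)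
  refine (inf_le_inf_left _ le_sup_left).trans (hS.inf_Op_sup_commutator.le.trans ?_)
  rw [H2.foc_le_iff]
  intro x hx a ha hax
  let K : Subgroup G :=
    { carrier := {h | h ∈ Subgroup.normalizer (Q : Set G) ∧
        h * (a * x * a⁻¹) * h⁻¹ * (a * x * a⁻¹)⁻¹ ∈ Q}
      one_mem' := ⟨one_mem _, by simp⟩
      mul_mem' := fun {s t} hs ht => ⟨mul_mem hs.1 ht.1, by
        have := mul_mem (conj_mem_of_mem_normalizer hs.1 ht.2) hs.2
        convert this using 1; group⟩
      inv_mem' := fun {s} hs => ⟨inv_mem hs.1, by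
        have := inv_mem (conj_mem_of_mem_normalizer' hs.1 hs.2)
        convert this using 1; group⟩ }
  obtain ⟨c, hc, hn⟩ := H2.burnside_fusion hS (K := K) (fun _ h => h.1) ha
    (fun u hu => ⟨hPH hu, hcm u hu _ hax⟩) (H2.cj_le_iff_forall.2 fun u hu =>
      ⟨mul_mem (mul_mem ha (hPH hu)) (inv_mem ha), by
        have := conj_mem_of_mem_normalizer ha (hcm u hu x hx)
        convert this using 1; group⟩)
  obtain ⟨u, hu, e⟩ := fusion_of_hasNPC (H2.sylow_isSylowIn P Subgroup.le_normalizer) hN hx hn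
    (conj_mem_of_mem_normalizer hn hx)
  have h3 := mul_mem (inv_mem hc.2) (hcm u hu x hx)
  rw [e] at h3
  convert h3 using 1; group

end Cfsg.Agent.S3838
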