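import Cfsg.Statements.S3839
import Cfsg.Agent.H2.AG
import Cfsg.Agent.H2.Frobenius
import Cfsg.Agent.H1.Sig5

set_option autoImplicit false
open Cfsg

namespace Cfsg.Agent.S3839

open H1
open Subgroup

/-- A Frobenius normal p-complement criterion relative to a strongly closed subgroup. Let G be a finite group, S a Sylow p-subgroup and D a subgroup of S strongly closed in S with respect to G. Then G has a normal p-complement if and only if N_G(U) has a normal p-complement for every subgroup U of D with C_D(U) ≤ U. -/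
theorem result {G : Type*} [Group G] [Finite G] {p : ℕ} [Fact p.Prime] (S : Sylow p G) (D : Subgroup G) (hD : Cfsg.IsStronglyClosed D (S : Subgroup G)) : Cfsg.HasNormalPComplement p G ↔ ∀ U : Subgroup G, U ≤ D → D ⊓ Subgroup.centralizer (U : Set G) ≤ U → Cfsg.HasNormalPComplement p ↥(Subgroup.normalizer (U : Set G)) := by
  refine ⟨fun h U _ _ => H2.HasNPC.subgroup h _, fun h => ?_⟩
  refine H2.hasNPC_of_controls_fusion S fun x hx g hg => ?_
  have hSD : (S : Subgroup G) ≤ normalizer (D : Set G) := fun s hs => mem_normalizer_fintype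
    fun d hd => hD.2 d hd s (mul_mem (mul_mem hs (hD.1 hd)) (inv_mem hs))
  obtain ⟨u, hu, e⟩ := H2G.alperin_rad (H9.syl_top_of_sylow S) 
    (H2G.frel_sub (S : Subgroup G) ⊤ (S : Subgroup G))
    (fun A _ c _ hc => ⟨1, one_mem _, fun a ha => by rw [← hc a ha]; simp⟩)
    (fun Q h1 h2 h3 g _ hg => by
      simp only [H9.FN, top_inf_eq] at h2 h3
      have hQ := S.isPGroup'.to_le h1
      have n1 : normalizer (Q : Set G) ≤ normalizer ((Q ⊓ D : Subgroup G) : Set G) := fun n hn =>
        mem_normalizer_fintype fun d hd => ⟨(mem_normalizer_iff.1 hn d).1 hd.1,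
          hD.2 d hd.2 n (h1 ((mem_normalizer_iff.1 hn d).1 hd.1))⟩
      have c1 : D ⊓ centralizer ((Q ⊓ D : Subgroup G) : Set G) ≤ Q :=
        le_of_normalizer_inf_le S.isPGroup'.isNilpotent (inf_le_left.trans hD.1) h1
          (le_normalizer_inf (h1.trans hSD) (H9.normalizer_centralizer (le_normalizer.trans n1)))
          fun y hy => h3 ⟨hD.1 hy.1.1, H2G.mem_Opm_of_stab hQ n1 hy.2 hy.1.2 fun q hq =>
            ⟨Q.mul_mem ((mem_normalizer_iff.1 hy.2 q).1 hq) (Q.inv_mem hq), by
              rw [show y * q * y⁻¹ * q⁻¹ = y * (q * y⁻¹ * q⁻¹) by group]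
              exact D.mul_mem hy.1.1 (H9.conj_mem_of_le_normalizer (h1.trans hSD) hq
                (D.inv_mem hy.1.1))⟩⟩
      have c2 := H2.HasNPC.of_le (h (Q ⊓ D) inf_le_right (le_inf c1 inf_le_left)) n1
      have c3 : normalizer (Q : Set G) ≤ _ := (H9.le_Opm (p := p) (C := centralizer (Q : Set G))
        le_rfl le_normalizer (H9.Ores_le_iff'.2 fun y hy hc =>
          H2.HasNPC.centralizes c2 hQ le_normalizer hy hy hc)).trans (H9.Opm_le_sup h2)
      rw [sup_comm] at c3
      obtain ⟨a, ha, b, hb, rfl⟩ := (H9.mem_sup_of_le_normalizer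
        (H9.normalizer_centralizer inf_le_right)).1 (c3 hg)
      exact ⟨a, ha.1, fun q hq => by rw [mul_assoc a b, ← hb q hq]; group⟩)
    (zpowers x) (zpowers_le_of_mem hx) g (mem_top g) (by
      rw [H9.cj, MonoidHom.map_zpowers]; exact zpowers_le_of_mem hg)
  exact ⟨u, hu, (e x (mem_zpowers x)).symm⟩

end Cfsg.Agent.S3839
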