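import Cfsg.Statements.S4001
import Cfsg.Agent.H9.SPE
import Cfsg.Agent.FT.B3a
import Cfsg.Agent.H1.Thompson
import Cfsg.Agent.H4.Maj2

set_option autoImplicit false
open Cfsg

namespace Cfsg.Agent.S4001

open H9 H1 Subgroup

theorem cyc {G : Type*} [Group G] [Finite G] {H C : Subgroup G} [H.Normal] {D : Subgroup (G ⧸ H)} (fC : Fpf C H)
    (H0 : H ≠ ⊥) (D0 : D ≠ ⊥) (nK : D ≤ normalizer (C.map (QuotientGroup.mk' H) : Set (G ⧸ H)))
    (fD : Fpf D (C.map (QuotientGroup.mk' H))) : Odd (Nat.card C) ∧ IsCyclic C := by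
  have nH : ∀ X : Subgroup G, X ≤ normalizer (H : Set G) := fun X => le_normalizer_of_normal
  have inj : ∀ c ∈ C, c ∈ H → c = 1 := fun c h1 h2 => mem_bot.1 (fC.inf_eq_bot.le ⟨h1, h2⟩)
  have odd : Odd (Nat.card C) := by
    by_contra h
    obtain ⟨t, ht, ot⟩ := exists_orderOf_eq_of_dvd (p := 2) (even_iff_two_dvd.1 (Nat.not_odd_iff_even.1 h))
    have t1 : t ≠ 1 := fun h => by simp [h] at ot
    have tt : t * t = 1 := by rw [← pow_two, ← ot, pow_orderOf_eq_one]
    have iv : ∀ s ∈ C, s ≠ 1 → s * s = 1 → ∀ k ∈ H, s * k * s⁻¹ = k⁻¹ := fun s hs h1 h2 k hk =>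
      conj_eq_inv_of_fpf (nH C hs) (fC s hs h1) (h2 ▸ one_mem _) hk
    obtain ⟨d, hd, d1⟩ := (bot_or_exists_ne_one D).resolve_left D0
    obtain ⟨k, hk, k1⟩ := (bot_or_exists_ne_one H).resolve_left H0
    obtain ⟨s, hs, e⟩ := conj_mem_of_le_normalizer nK hd ⟨t, ht, rfl⟩
    have t2 : QuotientGroup.mk' H t ≠ 1 := fun h => t1 (inj t ht ((QuotientGroup.eq_one_iff t).1 h))
    have s1 : s ≠ 1 := fun h => t2 (by rw [h, map_one, eq_comm, conj_eq_one_iff] at e; exact e)
    have ss : s * s = 1 := inj _ (mul_mem hs hs) ((QuotientGroup.eq_one_iff _).1 (by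
      show QuotientGroup.mk' H (s * s) = 1
      rw [map_mul, e, conj_mul, ← map_mul, tt, map_one, mul_one, mul_inv_cancel]))
    have : t⁻¹ * s = 1 := (fpf_iff.1 fC _ (mul_mem (inv_mem ht) hs) k hk (by
      rw [mul_assoc, eq_mul_of_mul_inv_eq (iv s hs s1 ss k hk), ← iv t ht t1 tt k hk]; group)).resolve_right k1
    rw [← inv_mul_eq_one.1 this] at e
    exact (fpf_iff.1 fD d hd _ ⟨t, ht, rfl⟩ (eq_mul_of_mul_inv_eq e.symm)).elim d1 t2
  have nilK := isNilpotent_of_fpf nK fD D0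
  refine ⟨odd, FT.t3_9_nil (nH C) fC H0 odd ?_⟩
  exact Group.nilpotent_of_mulEquiv (MulEquiv.ofBijective ((QuotientGroup.mk' H).subgroupMap C)
    ⟨(injective_iff_map_eq_one _).2 fun c h => Subtype.ext (inj _ c.2 ((QuotientGroup.eq_one_iff _).1
      (congrArg Subtype.val h))), MonoidHom.subgroupMap_surjective _ _⟩).symm

/-- Let G be a 2-Frobenius group: it has normal subgroups H < K with K a Frobenius group with kernel H and G/H a Frobenius group with kernel K/H. Then G is solvable; K/H has odd order coprime to the order of H and to the order of G/K (it is the image of an odd-order Hall subgroup); G/K is cyclic; and the prime graph of G has exactly two connected components, both complete: for distinct primes p, q dividing the order of G, G has an element of order pq exactly when p and q either both divide the order of K/H or both do not. -/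
theorem result {G : Type*} [Group G] [Finite G] (H K : Subgroup G) [H.Normal] [K.Normal] (hlt : H < K)
    (hK : ∃ C : Subgroup ↥K, Cfsg.IsFrobeniusComplement C ∧ Cfsg.frobeniusKernel C = (H.subgroupOf K : Set ↥K))
    (hGH : ∃ C : Subgroup (G ⧸ H), Cfsg.IsFrobeniusComplement C ∧ Cfsg.frobeniusKernel C = (K.map (QuotientGroup.mk' H) : Set (G ⧸ H))) :
    Group.IsSolvable G ∧ Odd (Nat.card (↥K ⧸ H.subgroupOf K)) ∧
      Nat.Coprime (Nat.card (↥K ⧸ H.subgroupOf K)) (Nat.card ↥H * Nat.card (G ⧸ K)) ∧ IsCyclic (G ⧸ K) ∧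
      ∀ p q : ℕ, p.Prime → q.Prime → p ≠ q → p ∣ Nat.card G → q ∣ Nat.card G →
        ((∃ g : G, orderOf g = p * q) ↔ (p ∣ Nat.card (↥K ⧸ H.subgroupOf K) ↔ q ∣ Nat.card (↥K ⧸ H.subgroupOf K))) := by
  obtain ⟨C₀, hC, eC⟩ := hK
  obtain ⟨N, -, eN, cN, fN, n0, -⟩ := IsFrob.exists_kernel hC
  obtain rfl : N = H.subgroupOf K := SetLike.coe_injective (eN.trans eC)
  obtain ⟨D, hD, eD⟩ := hGH
  obtain ⟨N, -, eN, cD, fD, n1, -⟩ := IsFrob.exists_kernel hD
  obtain rfl : N = K.map (QuotientGroup.mk' H) := SetLike.coe_injective (eN.trans eD)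
  obtain ⟨C, hC'⟩ : ∃ C, C = C₀.map K.subtype := ⟨_, rfl⟩
  have CK : C ≤ K := hC' ▸ map_subtype_le _
  have fC : Fpf C H := fpf_iff.2 (by
    rw [hC']
    rintro _ ⟨c, hc, rfl⟩ k hk e
    exact (fpf_iff.1 fN c hc ⟨k, hlt.le hk⟩ hk (Subtype.ext e)).imp (congrArg Subtype.val) (congrArg Subtype.val))
  have sC : H ⊔ C = K := by
    have := congrArg (Subgroup.map K.subtype) cN.sup_eq_top
    rwa [Subgroup.map_sup, subgroupOf_map_subtype, inf_eq_left.2 hlt.le, ← hC', ← MonoidHom.range_eq_map,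
      range_subtype] at this
  have H0 : H ≠ ⊥ := fun h => n0 (by rw [h, bot_subgroupOf])
  have C0 : C ≠ ⊥ := fun h => hC.1 ((map_eq_bot_iff_of_injective _ K.subtype_injective).1 (hC' ▸ h))
  have nH : ∀ X : Subgroup G, X ≤ normalizer (H : Set G) := fun X => le_normalizer_of_normal
  have nK : D ≤ normalizer (K.map (QuotientGroup.mk' H) : Set (G ⧸ H)) := le_normalizer_of_normal
  have mC : C.map (QuotientGroup.mk' H) = K.map (QuotientGroup.mk' H) := by
    rw [← sC, Subgroup.map_sup, (Subgroup.map_eq_bot_iff _).2 (QuotientGroup.ker_mk' H).ge, bot_sup_eq]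
  have c1 : Nat.card (K ⧸ H.subgroupOf K) = Nat.card C := by
    rw [hC', card_map_subtype, ← cN.symm.index_eq_card, index_eq_card]
  have c2 : Nat.card (K.map (QuotientGroup.mk' H)) = Nat.card C := by
    rw [← relIndex_ker, QuotientGroup.ker_mk', ← c1]; rfl
  have c3 : Nat.card (G ⧸ K) = Nat.card D := by
    rw [← cD.symm.index_eq_card, index_map_eq _ (QuotientGroup.mk'_surjective H) ((QuotientGroup.ker_mk' H).le.trans hlt.le),
      index_eq_card]
  obtain ⟨odd, cyC⟩ := cyc fC H0 hD.1 (mC ▸ nK) (mC ▸ fD)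
  have nilH := isNilpotent_of_fpf (nH C) fC C0
  have nilK := isNilpotent_of_fpf nK fD hD.1
  obtain ⟨a, ha⟩ := (Subgroup.isCyclic_iff_exists_zpowers_eq_top C).1 cyC
  have ea : K.map (QuotientGroup.mk' H) = zpowers (QuotientGroup.mk' H a) := by
    rw [← mC, ← ha, MonoidHom.map_zpowers]
  have cyD : IsCyclic D := isCyclic_of_fpf' (L.commutator_eq_bot_iff_comm.1 (eq_bot_iff.2 fun x hx => by
    refine (fpf_iff.1 fD x (commutator_le_of_le le_rfl le_rfl hx) _ (ea.ge (mem_zpowers _))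
      (mem_centralizer_singleton_iff.1 (L.commutator_le_centralizer_of_normal_cyclic (ea ▸ nK) hx))).resolve_right
      fun h => n1 (by rw [ea, h, zpowers_one_eq_bot]))) n1 nK fD
  have cyG : IsCyclic (G ⧸ K) := by
    refine isCyclic_of_surjective ((QuotientGroup.map H K (MonoidHom.id G) hlt.le).comp D.subtype) fun q => ?_
    induction q using QuotientGroup.induction_on with | H g => ?_
    obtain ⟨⟨⟨_, k, hk, rfl⟩, d⟩, e⟩ := cD.2 (g : G ⧸ H)
    refine ⟨d, ?_⟩
    have := congrArg (QuotientGroup.map H K (MonoidHom.id G) hlt.le) e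
    simp only [map_mul] at this
    rw [show QuotientGroup.map H K (MonoidHom.id G) hlt.le (QuotientGroup.mk' H k) = 1 from
      (QuotientGroup.eq_one_iff k).2 hk, one_mul] at this
    exact this
  have co1 := fC.coprime (nH C)
  have co2 := (fD.coprime nK).symm
  rw [c2] at co2
  have cK : Nat.card K = Nat.card H * Nat.card C := by rw [← c1, ← H1.card_mul_relIndex hlt.le]; rfl
  have cG : Nat.card G = Nat.card H * Nat.card C * Nat.card D := by
    rw [← cK, ← c3, ← index_eq_card, card_mul_index]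
  have F1 : ∀ x ∈ H, x ≠ 1 → ∀ k ∈ K, Commute k x → k ∈ H := fun x hx h1 k hk e =>
    centralizer_inf_le_kernel (nH C) fC hx h1 ⟨sC.ge hk, mem_centralizer_singleton_iff.2 e⟩
  have F2 : ∀ x ∈ K, x ∉ H → ∀ g, Commute g x → g ∈ K := fun x hx h1 g e => by
    rw [← comap_map_eq_self ((QuotientGroup.ker_mk' H).le.trans hlt.le)]
    exact centralizer_inf_le_kernel nK fD ⟨x, hx, rfl⟩ (fun h => h1 ((QuotientGroup.eq_one_iff x).1 h))
      ⟨cD.sup_eq_top.ge (mem_top _), mem_centralizer_singleton_iff.2 (e.map (QuotientGroup.mk' H))⟩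
  rw [c1, c3]
  refine ⟨?_, odd, Nat.Coprime.mul_right co1 co2, cyG, fun p q hp hq hne dp dq => ?_⟩
  · haveI : Group.IsSolvable (G ⧸ H) := by
      have := isSolvable_sup (A := D) inferInstance inferInstance nK
      rw [sup_comm, cD.sup_eq_top] at this
      exact Group.isSolvable_of_surjective (f := (⊤ : Subgroup (G ⧸ H)).subtype) fun x => ⟨⟨x, trivial⟩, rfl⟩
    exact Group.isSolvable_of_ker_le_range H.subtype (QuotientGroup.mk' H) (by simp)
  have cop : ∀ {p q : ℕ}, p.Prime → q.Prime → p ≠ q → p.Coprime q := fun hp hq h => (Nat.coprime_primes hp hq).2 h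
  have mul : ∀ {p q : ℕ} {x y : G}, p.Coprime q → orderOf x = p → orderOf y = q → Commute x y →
      ∃ g : G, orderOf g = p * q := fun h hx hy e =>
    ⟨_, by rw [e.orderOf_mul_eq_mul_orderOf_of_coprime (by rwa [hx, hy]), hx, hy]⟩
  have no : ∀ {p q : ℕ} {g : G}, p.Prime → q.Prime → orderOf g = p * q → p ∣ Nat.card C → q ∣ Nat.card C := by
    intro p q g hp hq hg h1
    by_contra h2
    have o1 : orderOf (g ^ q) = p := by rw [orderOf_pow' _ hq.ne_zero, hg, Nat.gcd_mul_left_left, Nat.mul_div_cancel _ hq.pos]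
    have o2 : orderOf (g ^ p) = q := by
      rw [orderOf_pow' _ hp.ne_zero, hg, Nat.gcd_mul_right_left, Nat.mul_div_cancel_left _ hp.pos]
    have a1 : g ^ q ∈ K := L.mem_of_pow_mem (m := Nat.card D) (by rw [← c3]; exact K.pow_index_mem _)
      (o1 ▸ co2.coprime_dvd_left h1)
    have a2 : g ^ q ∉ H := fun h => hp.one_lt.ne' (Nat.eq_one_of_dvd_coprimes co1 h1 (o1 ▸ orderOf_dvd_natCard H h))
    have a3 := F2 _ a1 a2 _ (Commute.pow_pow_self g p q)
    have a4 : g ^ p ∈ H := L.mem_of_pow_mem (m := Nat.card C) (by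
      rw [← c1]; exact (H.subgroupOf K).pow_index_mem ⟨_, a3⟩) (o2 ▸ hq.coprime_iff_not_dvd.2 h2)
    exact a2 (F1 _ a4 (fun h => by rw [h, orderOf_one] at o2; exact hq.one_lt.ne o2) _ a1 (Commute.pow_pow_self g q p))
  have mix : ∀ {p q : ℕ}, p.Prime → q.Prime → p ∣ Nat.card H → q ∣ Nat.card G → ¬ q ∣ Nat.card H → ¬ q ∣ Nat.card C →
      ∃ g : G, orderOf g = p * q := by
    intro p q hp hq h1 h2 h3 h4
    haveI := Fact.mk hp
    haveI := Fact.mk hq
    have hne : p ≠ q := fun h => h3 (h ▸ h1)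
    obtain ⟨x, ox⟩ := exists_prime_orderOf_dvd_card' q h2
    obtain ⟨r, hr, dr⟩ := FT.exists_prime_dvd_card C0
    haveI := Fact.mk hr
    have qK : (Nat.card K).Coprime q := by
      rw [cK]; exact (Nat.Coprime.mul_right (hq.coprime_iff_not_dvd.2 h3) (hq.coprime_iff_not_dvd.2 h4)).symm
    have xq : IsPGroup q (zpowers x) := FT.isPGroup_of_card_prime (by rw [Nat.card_zpowers, ox])
    obtain ⟨R, hR, nR⟩ := cop_exists_syl (A := zpowers x) le_normalizer_of_normal (copA_of_p xq qK) r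
    have rH : (Nat.card H).Coprime r := (co1.coprime_dvd_left dr).symm
    have RH := (copA_of_p hR.isP rH).inf_eq_bot
    obtain ⟨y, hy, y1⟩ := (bot_or_exists_ne_one R).resolve_left (hR.ne_bot (cK ▸ dr.mul_left _))
    have sP := syl_Op_of_nilpotent (p := p) nilH
    have nP : ∀ X : Subgroup G, X ≤ normalizer (Op p H : Set G) := fun X => normalizer_Op (nH X)
    by_cases h0 : Op p H ⊓ centralizer (zpowers x : Set G) = ⊥
    · obtain ⟨z, hz, z1⟩ := (bot_or_exists_ne_one _).resolve_left (sP.ne_bot h1)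
      have := le_centralizer_of_frob_action (V := Op p H) (H1.isSolvable_of_le sP.le inferInstance) nR
        (fpf_iff.2 fun u hu v hv e => or_iff_not_imp_right.2 fun v1 => mem_bot.1 ((copA_of_p xq qK).inf_eq_bot.le
          ⟨hu, F2 v (hR.le hv) (fun h => v1 (mem_bot.1 (RH.le ⟨hv, h⟩))) u e⟩)) (nP _) (nP _)
        ((copA_of_p hR.isP rH).mono le_rfl sP.le).cop ((copA_of_p xq qK).mono le_rfl (sP.le.trans hlt.le)).cop h0
      exact absurd (mem_bot.1 (RH.le ⟨hy, F1 z (sP.le hz) z1 y (hR.le hy) (this hy z hz).symm⟩)) y1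
    · obtain ⟨z, hz, oz⟩ := exists_orderOf_eq_of_isPGroup (sP.isP.to_inf_left) h0
      exact mul (cop hp hq hne) oz ox (hz.2 x (mem_zpowers x)).symm
  refine ⟨fun ⟨g, hg⟩ => ⟨no hp hq hg, no hq hp (hg.trans (mul_comm _ _))⟩, fun h => ?_⟩
  have pq := cop hp hq hne
  by_cases h1 : p ∣ Nat.card C
  · obtain ⟨k, hk⟩ := H4.exists_orderOf_eq (g := a) (n := p * q) (by
      rw [← Nat.card_zpowers, ha]; exact pq.mul_dvd_of_dvd_of_dvd h1 (h.1 h1))
    exact ⟨_, hk⟩
  have h2 : ¬ q ∣ Nat.card C := fun h' => h1 (h.2 h')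
  by_cases h3 : p ∣ Nat.card H <;> by_cases h4 : q ∣ Nat.card H
  · haveI := Fact.mk hp
    haveI := Fact.mk hq
    obtain ⟨x, hx, ox⟩ := exists_orderOf_eq_of_isPGroup (Op_p p H) ((syl_Op_of_nilpotent nilH).ne_bot h3)
    obtain ⟨y, hy, oy⟩ := exists_orderOf_eq_of_isPGroup (Op_p q H) ((syl_Op_of_nilpotent nilH).ne_bot h4)
    refine mul pq ox oy (L.commute_of_commutator_eq_bot (commutator_Op_Op' H) hx ?_)
    exact le_Op' (Op_le q H) (le_normalizer_Op q H) (by
      obtain ⟨k, hk⟩ := L.exists_card_eq_pow (Op_p q H)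
      rw [hk]; exact (pq.pow_right k).symm) hy
  · exact mix hp hq h3 dq h4 h2
  · rw [mul_comm]; exact mix hq hp h4 dp h3 h1
  · have key : ∀ {p : ℕ}, p.Prime → p ∣ Nat.card G → ¬ p ∣ Nat.card H → ¬ p ∣ Nat.card C → p ∣ Nat.card (G ⧸ K) :=
      fun hp h1 h2 h3 => by
        rw [cG] at h1
        exact c3 ▸ ((hp.dvd_mul.1 h1).resolve_left fun h => (hp.dvd_mul.1 h).elim h2 h3)
    obtain ⟨g, hg⟩ := IsCyclic.exists_ofOrder_eq_natCard (α := G ⧸ K)
    induction g using QuotientGroup.induction_on with | H g => ?_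
    obtain ⟨k, hk⟩ := H4.exists_orderOf_eq (g := g) (n := p * q) ((pq.mul_dvd_of_dvd_of_dvd (key hp dp h3 h1)
      (key hq dq h4 h2)).trans (hg ▸ orderOf_map_dvd (QuotientGroup.mk' K) g))
    exact ⟨_, hk⟩

end Cfsg.Agent.S4001
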