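import Cfsg.Statements.S3857
import Cfsg.Agent.S4001
import Cfsg.Agent.H1.Misc2

set_option autoImplicit false
open Cfsg

namespace Cfsg.Agent.S3857

open H9 H1 FT Subgroup

def NoE (π : Set ℕ) (G : Type*) [Group G] : Prop :=
  ∀ a ∈ π, ∀ b ∉ π, a.Prime → b.Prime → ∀ g : G, ¬ a * b ∣ orderOf g

theorem NoE.fpf {π : Set ℕ} {G : Type*} [Group G] [Finite G] (h : NoE π G) {X Y : Subgroup G} (hX : PiG π X)
    (hY : PiG πᶜ Y) : Fpf X Y := fpf_iff.2 fun x hx y hy e => by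
  by_contra hh
  push Not at hh
  obtain ⟨a, ha, da⟩ := Nat.exists_prime_and_dvd (mt orderOf_eq_one_iff.1 hh.1)
  obtain ⟨b, hb, db⟩ := Nat.exists_prime_and_dvd (mt orderOf_eq_one_iff.1 hh.2)
  refine h a (hX.piE hx a ha da) b (hY.piE hy b hb db) ha hb (x * y) ?_
  rw [Commute.orderOf_mul_eq_mul_orderOf_of_coprime e ((hX.piE hx).coprime (hY.piE hy))]
  exact mul_dvd_mul da db

theorem Fit_le {π : Set ℕ} {G : Type*} [Group G] [Finite G] (h : Opi π (⊤ : Subgroup G) = ⊥) :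
    Fit (⊤ : Subgroup G) ≤ Opi πᶜ ⊤ := by
  rw [← Opi_sup_Opi_of_nilpotent (Fit_nil ⊤) π]
  exact sup_le ((Opi_le_Opi_of_sn (sn_Fit ⊤)).trans (h.le.trans bot_le)) (Opi_le_Opi_of_sn (sn_Fit ⊤))

theorem main {π : Set ℕ} {G : Type*} [Group G] [Finite G] (hs : Group.IsSolvable G) (h : NoE π G)
    (H0 : Opi π (⊤ : Subgroup G) ≠ ⊥) (hb : ¬ PiG π (⊤ : Subgroup G)) : (∃ C : Subgroup G, IsFrobeniusComplement C) ∨
    (∃ (H K : Subgroup G) (_ : H.Normal), K.Normal ∧ H < K ∧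
      (∃ C : Subgroup K, IsFrobeniusComplement C ∧ frobeniusKernel C = (H.subgroupOf K : Set K)) ∧
      (∃ C : Subgroup (G ⧸ H), IsFrobeniusComplement C ∧
        frobeniusKernel C = (K.map (QuotientGroup.mk' H) : Set (G ⧸ H)))) := by
  obtain ⟨H, hH⟩ : ∃ H, H = Opi π (⊤ : Subgroup G) := ⟨_, rfl⟩
  haveI nH : H.Normal := normalizer_eq_top_iff.1 (top_le_iff.1 (hH ▸ le_normalizer_Opi π ⊤))
  have pH : PiG π H := hH ▸ Opi_pi π ⊤
  have hk := QuotientGroup.ker_mk' H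
  have h' : NoE π (G ⧸ H) := fun a ha b hb h1 h2 g hg => by
    induction g using QuotientGroup.induction_on with | H g => ?_
    exact h a ha b hb h1 h2 g (hg.trans (orderOf_map_dvd (QuotientGroup.mk' H) g))
  have o1 : Opi π (⊤ : Subgroup (G ⧸ H)) = ⊥ := by
    rw [← map_top_of_surjective _ (QuotientGroup.mk'_surjective H), ← map_Opi_of_ker _ (by rwa [hk, inf_top_eq]),
      ← hH, Subgroup.map_eq_bot_iff, hk]
  obtain ⟨J, hJ⟩ : ∃ J, J = Opi πᶜ (⊤ : Subgroup (G ⧸ H)) := ⟨_, rfl⟩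
  haveI nJ : J.Normal := normalizer_eq_top_iff.1 (top_le_iff.1 (hJ ▸ le_normalizer_Opi πᶜ ⊤))
  have pJ : PiG πᶜ J := hJ ▸ Opi_pi πᶜ ⊤
  have cJ : centralizer (J : Set (G ⧸ H)) ≤ J := by
    rw [hJ]
    exact (le_inf le_top (centralizer_anti (Fit_le o1))).trans ((centralizer_Fit_le_of_solvable inferInstance).trans (Fit_le o1))
  obtain ⟨C, hC⟩ := exists_hall πᶜ (M := J.comap (QuotientGroup.mk' H)) inferInstance
  have mC : C.map (QuotientGroup.mk' H) = J := by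
    have := hC.map (QuotientGroup.mk' H)
    rw [map_comap_eq_self_of_surjective (QuotientGroup.mk'_surjective H)] at this
    exact this.eq_of_pi pJ
  have sC : H ⊔ C = J.comap (QuotientGroup.mk' H) := by rw [← mC, comap_map_eq, hk, sup_comm]
  have fC : Fpf C H := (h.fpf pH hC.pi).symm
  rw [← hH] at H0
  have J0 : J ≠ ⊥ := fun h0 => hb (pH.le fun g _ => (QuotientGroup.eq_one_iff g).1 (mem_bot.1 (h0 ▸ cJ (by
    rw [h0]; exact fun y hy => by rw [mem_bot.1 hy, one_mul, mul_one]))))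
  have C0 : C ≠ ⊥ := fun h0 => J0 (by rw [← mC, h0, Subgroup.map_bot])
  by_cases ht : H ⊔ C = ⊤
  · exact Or.inl ⟨C, isFrob_of_fpf ht H0 C0 fC⟩
  obtain ⟨D, hD⟩ := exists_hall π (M := (⊤ : Subgroup (G ⧸ H))) inferInstance
  have fD := h'.fpf hD.pi pJ
  have D0 : D ≠ ⊥ := fun h0 => ht (by
    rw [sC, hJ, Opi_eq_self (hD.eq_bot_iff.1 h0), comap_top])
  obtain ⟨a, ha⟩ := (Subgroup.isCyclic_iff_exists_zpowers_eq_top C).1
    (S4001.cyc fC H0 D0 (mC ▸ le_normalizer_of_normal) (mC ▸ fD)).2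
  have ea : J = zpowers (QuotientGroup.mk' H a) := by rw [← mC, ← ha, MonoidHom.map_zpowers]
  obtain ⟨T, hL⟩ := exists_hall πᶜ (M := (⊤ : Subgroup (G ⧸ H))) inferInstance
  have sD : J ⊔ D = ⊤ := by
    have e1 : ⁅(⊤ : Subgroup (G ⧸ H)), ⊤⁆ ≤ J := (L.commutator_le_centralizer_of_normal_cyclic
      (a := QuotientGroup.mk' H a) (by rw [← ea]; exact le_normalizer_of_normal)).trans (by rw [← H9.centralizer_zpowers, ← ea]; exact cJ)
    rw [eq_top_iff, ← hD.sup_eq hL, sup_comm]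
    refine sup_le_sup_right (hJ ▸ le_Opi le_top (le_normalizer_of_commutator_le (e1.trans (hJ ▸ hL.Opi_le)) le_top)
      hL.pi) _
  refine Or.inr ⟨H, H ⊔ C, nH, sC ▸ inferInstance, left_lt_sup.2 fun h0 => C0 (le_bot_iff.1 ((le_inf le_rfl h0).trans
    fC.inf_eq_bot.le)), ⟨_, isFrob_subgroupOf le_normalizer_of_normal H0 C0 fC⟩, D, isFrob_of_fpf sD J0 D0 fD, ?_⟩
  rw [frobeniusKernel_eq sD fD, sC, map_comap_eq_self_of_surjective (QuotientGroup.mk'_surjective H)]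

/-- A finite solvable group whose prime graph (prime divisors of the order, two distinct primes joined when there is an element of order their product) is disconnected is a Frobenius group or a 2-Frobenius group (it has normal subgroups H < K with K a Frobenius group with kernel H and G/H a Frobenius group with kernel K/H). -/
theorem result {G : Type*} [Group G] [Finite G] (hsol : Group.IsSolvable G)
    (hdisc : (∃ A : Set ℕ, (∃ a ∈ A, a.Prime ∧ a ∣ Nat.card G) ∧ (∃ b ∉ A, b.Prime ∧ b ∣ Nat.card G) ∧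
      ∀ a ∈ A, ∀ b ∉ A, a.Prime → b.Prime → a ∣ Nat.card G → b ∣ Nat.card G → ¬ ∃ g : G, orderOf g = a * b)) :
    (∃ C : Subgroup G, Cfsg.IsFrobeniusComplement C) ∨
    (∃ (H K : Subgroup G) (_ : H.Normal), K.Normal ∧ H < K ∧
      (∃ C : Subgroup ↥K, Cfsg.IsFrobeniusComplement C ∧ Cfsg.frobeniusKernel C = (H.subgroupOf K : Set ↥K)) ∧
      (∃ C : Subgroup (G ⧸ H), Cfsg.IsFrobeniusComplement C ∧ Cfsg.frobeniusKernel C = (K.map (QuotientGroup.mk' H) : Set (G ⧸ H)))) := by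
  obtain ⟨π, ⟨a, ha, pa, da⟩, ⟨b, hb, pb, db⟩, h⟩ := hdisc
  have h1 : NoE π G := fun a ha b hb h1 h2 g hg => by
    obtain ⟨k, hk⟩ := H4.exists_orderOf_eq hg
    have := hg.trans (orderOf_dvd_natCard g)
    exact h a ha b hb h1 h2 (dvd_of_mul_right_dvd this) (dvd_of_mul_left_dvd this) ⟨_, hk⟩
  by_cases h0 : Opi π (⊤ : Subgroup G) = ⊥
  · refine main hsol (π := πᶜ) (fun a ha b hb h2 h3 g hg => h1 b (not_not.1 hb) a ha h3 h2 g (mul_comm a b ▸ hg))
      (fun h2 => ?_) fun h2 => h2 a pa (by rwa [card_top]) ha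
    have h3 := (Fit_le h0).trans h2.le
    have h4 : (⊤ : Subgroup G) ≤ ⊥ := (le_inf le_rfl (by rw [le_bot_iff.1 h3]; simp)).trans
      ((centralizer_Fit_le_of_solvable inferInstance).trans h3)
    have := card_le_of_le h4
    rw [card_top, card_bot] at this
    exact pa.one_lt.not_ge ((Nat.le_of_dvd Nat.card_pos da).trans this)
  · exact main hsol h1 h0 fun h2 => hb (h2 b pb (by rwa [card_top]))

end Cfsg.Agent.S3857
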