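import Cfsg.Statements.S3859
import Cfsg.Agent.H1.Misc3

set_option autoImplicit false
open Cfsg

namespace Cfsg.Agent.S3859

open H1
theorem ne_top {G : Type*} [Group G] [Finite G] (T : Subgroup G) [T.Normal] (hT : IsSimpleGroup T) (hna : ¬ IsMulCommutative T)
    {r : ℕ} [Fact r.Prime] (R : Sylow r G) (hR0 : (R : Subgroup G) ⊓ T ≠ ⊥) :
    Subgroup.normalizer (((R : Subgroup G) ⊓ T : Subgroup G) : Set G) ≠ ⊤ := by
  intro h
  haveI := Subgroup.normalizer_eq_top_iff.1 h
  rcases (inferInstance : (((R : Subgroup G) ⊓ T).subgroupOf T).Normal).eq_bot_or_eq_top with h1 | h1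
  · rw [Subgroup.subgroupOf_eq_bot, disjoint_iff, inf_assoc, inf_idem] at h1
    exact hR0 h1
  · rw [Subgroup.subgroupOf_eq_top] at h1
    haveI := (R.isPGroup'.to_le (h1.trans inf_le_left)).isNilpotent
    exact hna ⟨⟨IsSimpleGroup.comm_iff_isSolvable.2 inferInstance⟩⟩

/-- Let G be a finite group with a normal non-abelian simple subgroup T whose centralizer is trivial (G almost simple with socle T), r a prime and R a Sylow r-subgroup of G meeting T nontrivially. If R lies in exactly one maximal subgroup of G, then G/T is an r-group. -/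
theorem result {G : Type*} [Group G] [Finite G] (T : Subgroup G) [T.Normal] (hT : IsSimpleGroup T) (hna : ¬ IsMulCommutative T)
    (hC : Subgroup.centralizer (T : Set G) = ⊥) {r : ℕ} [Fact r.Prime] (R : Sylow r G) (hR0 : (R : Subgroup G) ⊓ T ≠ ⊥)
    (huniq : ∃! M : Subgroup G, IsCoatom M ∧ (R : Subgroup G) ≤ M) : IsPGroup r (G ⧸ T) := by
  obtain ⟨M, ⟨hM, hRM⟩, h⟩ := huniq
  have h1 : ∀ K : Subgroup G, K ≠ ⊤ → (R : Subgroup G) ≤ K → K ≤ M := fun K h2 h3 => by
    obtain ⟨N, hN, h4⟩ := exists_coatom_ge h2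
    exact h N ⟨hN, h3.trans h4⟩ ▸ h4
  have h2 := h1 _ (ne_top T hT hna R hR0) (le_normalizer_inf Subgroup.le_normalizer Subgroup.le_normalizer_of_normal)
  have h3 : (R : Subgroup G) ⊔ T = ⊤ := by
    by_contra h3
    exact hM.1 (top_le_iff.1 ((sylow_inf_normal R T).frattini_top ▸ sup_le (le_sup_right.trans (h1 _ h3 le_sup_left)) h2))
  refine (R.isPGroup'.map (QuotientGroup.mk' T)).of_surjective (Subgroup.subtype _) fun y => ?_
  obtain ⟨x, rfl⟩ := QuotientGroup.mk'_surjective T y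
  exact ⟨⟨_, mem_sup_iff_mk_mem_map.1 (h3 ▸ Subgroup.mem_top x)⟩, rfl⟩

end Cfsg.Agent.S3859
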