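import Cfsg.Statements.S3858
import Cfsg.Agent.H1.Misc3
import Cfsg.Agent.S3859

set_option autoImplicit false
open Cfsg

namespace Cfsg.Agent.S3858

open H1 H9

/-- Let G be a finite group with a normal non-abelian simple subgroup T whose centralizer is trivial (G almost simple with socle T), r a prime and R a Sylow r-subgroup of G meeting T nontrivially. Then R lies in exactly one maximal subgroup of G if and only if G has exactly one conjugacy class of maximal subgroups whose index is prime to r. -/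
theorem result {G : Type*} [Group G] [Finite G] (T : Subgroup G) [T.Normal] (hT : IsSimpleGroup T) (hna : ¬ IsMulCommutative T)
    (hC : Subgroup.centralizer (T : Set G) = ⊥) {r : ℕ} [Fact r.Prime] (R : Sylow r G) (hR0 : (R : Subgroup G) ⊓ T ≠ ⊥) :
    (∃! M : Subgroup G, IsCoatom M ∧ (R : Subgroup G) ≤ M) ↔
      ((∃ M : Subgroup G, IsCoatom M ∧ ¬ r ∣ M.index) ∧
        ∀ M₁ M₂ : Subgroup G, IsCoatom M₁ → ¬ r ∣ M₁.index → IsCoatom M₂ → ¬ r ∣ M₂.index → ∃ g : G, M₂ = M₁.map (MulAut.conj g).toMonoidHom) := by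
  have h0 := Cfsg.Agent.S3859.ne_top T hT hna R hR0
  obtain ⟨M₀, hM₀, h1⟩ := exists_coatom_ge h0
  have h2 : Subgroup.normalizer ((R : Subgroup G) : Set G) ≤ M₀ :=
    (le_normalizer_inf le_rfl Subgroup.le_normalizer_of_normal).trans h1
  have h3 : (R : Subgroup G) ≤ M₀ := Subgroup.le_normalizer.trans h2
  have hi : ∀ M : Subgroup G, (R : Subgroup G) ≤ M → ¬ r ∣ M.index := fun M h h' =>
    R.not_dvd_index (h'.trans (Subgroup.index_dvd_of_le h))
  have hco : ∀ (g : G) (M : Subgroup G), IsCoatom M → IsCoatom (cj g M) := fun g M hM =>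
    isCoatom_map (MulAut.conj g).surjective hM (by rw [(MonoidHom.ker_eq_bot_iff (MulAut.conj g).toMonoidHom).2 (MulAut.conj g).injective]; exact bot_le)
  simp only [cj_def']
  constructor
  · rintro ⟨M, -, h⟩
    refine ⟨⟨M₀, hM₀, hi _ h3⟩, fun M₁ M₂ a1 a2 b1 b2 => ?_⟩
    obtain ⟨g, hg⟩ := exists_conj_le_of_not_dvd_index R.isPGroup' a2
    obtain ⟨k, hk⟩ := exists_conj_le_of_not_dvd_index R.isPGroup' b2
    have e1 := h _ ⟨hco g⁻¹ _ a1, cj_le_iff.1 hg⟩
    have e2 := h _ ⟨hco k⁻¹ _ b1, cj_le_iff.1 hk⟩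
    exact ⟨k * g⁻¹, by rw [cj_mul, e1, ← e2, cj_cj_inv]⟩
  · rintro ⟨-, h⟩
    refine ⟨M₀, ⟨hM₀, h3⟩, ?_⟩
    rintro M ⟨h4, h5⟩
    obtain ⟨g, rfl⟩ := h M₀ M hM₀ (hi _ h3) h4 (hi _ h5)
    have a1 : IsSylowIn r (R : Subgroup G) M₀ := (isSylowIn_top R).of_le h3 le_top
    have a2 := a1.of_card_le (isPGroup_cj g⁻¹ R.isPGroup') (le_cj_iff.1 h5) (card_cj _ _).ge
    obtain ⟨m, hm, e⟩ := a1.conj a2
    have : g * m ∈ Subgroup.normalizer ((R : Subgroup G) : Set G) := by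
      rw [mem_normalizer_iff_cj, cj_mul, cj_eq_smul m, e, cj_cj_inv]
    exact cj_eq_of_mem ((M₀.mul_mem_cancel_right hm).1 (h2 this))

end Cfsg.Agent.S3858
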