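import Cfsg.Statements.S3862
import Cfsg.Agent.L.PG2
import Cfsg.Agent.H2.Frobenius
import Cfsg.Agent.H1.Tr

set_option autoImplicit false
open Cfsg

namespace Cfsg.Agent.S3862

open scoped commutatorElement
open H1
open Subgroup
open scoped commutatorElement

theorem aux {G : Type*} [Group G] [Finite G] {A : Subgroup G} (hA : (Nat.card A).Coprime 2)
    (P : Subgroup G) (hP : IsPGroup 2 P) (hn : A ≤ normalizer (P : Set G))
    (h : ∀ x ∈ P, IsConj x x⁻¹ → x ∈ centralizer (A : Set G)) : P ≤ centralizer (A : Set G) := by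
  haveI : Fact (Nat.Prime 2) := ⟨Nat.prime_two⟩
  induction P using WellFoundedLT.induction with
  | ind P ih =>
  have hc := H9.copA_of_p' hP hA
  have h0 : ⁅P, A⁆ ≤ P := H9.commutator_le_left' hn
  by_cases hb : P = ⊥
  · rw [hb]; exact bot_le
  have h2 : L.Phi P ≤ centralizer (A : Set G) := ih _ (H1.map_frattini_lt hb)
    (hP.to_le (L.Phi_le P)) (L.normalizer_Phi hn) fun x hx => h x (L.Phi_le P hx)
  refine H9.cop_le_centralizer hn hc le_rfl (commutator_le.2 fun x hx a ha =>
    h _ (h0 (commutator_mem_commutator hx ha)) ?_)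
  have h4 : a * x ^ 2 = x ^ 2 * a := h2 (L.pow_mem_Phi hP hx) a ha
  refine isConj_iff.2 ⟨x, ?_⟩
  rw [commutatorElement_inv, commutatorElement_def, commutatorElement_def]
  calc x * (x * a * x⁻¹ * a⁻¹) * x⁻¹ = (x ^ 2 * a) * x⁻¹ * a⁻¹ * x⁻¹ := by rw [sq]; group
    _ = _ := by rw [← h4, sq]; group

/-- If every 2-element of the finite group G that is conjugate to its inverse lies in the centre of G, then G has a normal 2-complement. -/
theorem result {G : Type*} [Group G] [Finite G] (h : ∀ x : G, (∃ j : ℕ, orderOf x = 2 ^ j) → IsConj x x⁻¹ → x ∈ Subgroup.center G) : Cfsg.HasNormalPComplement 2 G := by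
  haveI : Fact (Nat.Prime 2) := ⟨Nat.prime_two⟩
  obtain ⟨P⟩ : Nonempty (Sylow 2 G) := inferInstance
  refine H2.frobenius P fun Q hQ g hg hc => ?_
  have hQp := P.isPGroup'.to_le hQ
  have := aux (A := zpowers g) (by rwa [Nat.card_zpowers]) Q hQp (zpowers_le_of_mem hg)
    fun x hx h1 => by
      obtain ⟨k, hk⟩ := (IsPGroup.iff_orderOf.1 hQp) ⟨x, hx⟩
      have := h x ⟨k, by rw [← hk, orderOf_mk]⟩ h1
      exact fun y _ => mem_center_iff.1 this y
  exact le_centralizer_iff.1 this (mem_zpowers g)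

end Cfsg.Agent.S3862
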