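import Cfsg.Statements.S3864
import Cfsg.Agent.H1.Tr2
import Cfsg.Agent.S0111

set_option autoImplicit false
open Cfsg

namespace Cfsg.Agent.S3864

open H1

/-- Let G be a finite group whose Sylow 2-subgroups are dihedral of order 2 ^ n with n ≥ 3, and count the conjugacy classes of involutions of G. Then exactly one of the following holds: there is one class of involutions and no normal subgroup of index 2; there are two classes of involutions, a normal subgroup of index 2 and none of index 4; there are three classes of involutions and G has a normal 2-complement. -/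
theorem result {G : Type*} [Group G] [Finite G] (P : Sylow 2 G) (n : ℕ) (hn : 3 ≤ n) (hdih : Nonempty (↥(P : Subgroup G) ≃* DihedralGroup (2 ^ (n - 1)))) : (Nat.card {C : ConjClasses G // ∃ g : G, ConjClasses.mk g = C ∧ orderOf g = 2} = 1 ∧ ∀ N : Subgroup G, N.Normal → N.index ≠ 2) ∨ (Nat.card {C : ConjClasses G // ∃ g : G, ConjClasses.mk g = C ∧ orderOf g = 2} = 2 ∧ (∃ N : Subgroup G, N.Normal ∧ N.index = 2) ∧ ∀ N : Subgroup G, N.Normal → N.index ≠ 4) ∨ (Nat.card {C : ConjClasses G // ∃ g : G, ConjClasses.mk g = C ∧ orderOf g = 2} = 3 ∧ Cfsg.HasNormalPComplement 2 G) := by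
  obtain ⟨e⟩ := hdih
  obtain ⟨m, a', b', hm, -, ha', hi, hb', hb2', hab'⟩ := L.dqs_of_dihedral P.isPGroup'
    (le_trans (by norm_num : 3 ≤ 2 ^ 2) (Nat.pow_le_pow_right two_pos (by omega))) e
  obtain ⟨a, haP⟩ := a'
  obtain ⟨b, hbP⟩ := b'
  have ha : orderOf a = 2 ^ (m + 1) := by simpa using ha'
  have hb2 : b * b = 1 := by rw [← sq]; exact congrArg Subtype.val hb2'
  have hab : b * a * b⁻¹ = a⁻¹ := congrArg Subtype.val hab'
  have hzs : (Subgroup.zpowers a).subgroupOf P = Subgroup.zpowers ⟨a, haP⟩ := by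
    ext x; simp [Subgroup.mem_subgroupOf, Subgroup.mem_zpowers_iff, Subtype.ext_iff]
  have hi' : (Subgroup.zpowers a).relIndex P = 2 := by rw [Subgroup.relIndex, hzs, hi]
  have hb : b ∉ Subgroup.zpowers a := fun h => hb' (by rw [← hzs]; exact h)
  have hbi : ∀ i : ℤ, b * a ^ i * b⁻¹ = a ^ (-i) := fun i => by
    rw [← conj_zpow, hab]; simp
  have hform : ∀ x ∈ (P : Subgroup G), x ∉ Subgroup.zpowers a → ∃ i : ℤ, x = a ^ i * b := by
    intro x hx hxa
    obtain ⟨i, hi⟩ := Subgroup.mem_zpowers_iff.1 (L.mul_mem_of_relIndex_two hi' hx hbP hxa hb)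
    exact ⟨i, by rw [hi, mul_assoc, hb2, mul_one]⟩
  have hcj : ∀ i j : ℤ, a ^ j * (a ^ i * b) * (a ^ j)⁻¹ = a ^ (i + 2 * j) * b := fun i j => by
    calc _ = a ^ j * a ^ i * (b * a ^ (-j) * b⁻¹) * b := by group
      _ = _ := by rw [hbi]; group
  set z := a ^ 2 ^ m with hz
  have oz : orderOf z = 2 := L.orderOf_pow_two_pow ha
  have hza : z ∈ Subgroup.zpowers a := pow_mem (Subgroup.mem_zpowers a) _
  have ob : orderOf b = 2 := two_of hb2 (fun h => hb (h ▸ one_mem _))
  have hab0 : a * b ∉ Subgroup.zpowers a := fun h => hb (by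
    simpa using mul_mem (inv_mem (Subgroup.mem_zpowers a)) h)
  have oab : orderOf (a * b) = 2 := two_of (by
    calc _ = a * (b * a * b⁻¹) * (b * b) := by group
      _ = 1 := by rw [hab, hb2]; simp) (fun h => hab0 (h ▸ one_mem _))
  have mk_eq : ∀ {x y : G}, ConjClasses.mk x = ConjClasses.mk y ↔ IsConj x y :=
    ConjClasses.mk_eq_mk_iff_isConj
  have key : ∀ C : ConjClasses G, (∃ g : G, ConjClasses.mk g = C ∧ orderOf g = 2) ↔
      C = ConjClasses.mk z ∨ C = ConjClasses.mk b ∨ C = ConjClasses.mk (a * b) := by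
    intro C
    constructor
    · rintro ⟨t, rfl, ht⟩
      obtain ⟨g, hg⟩ := exists_conj_mem_sylow P (x := t) ⟨1, by simpa using ht⟩
      have e : ConjClasses.mk t = ConjClasses.mk (g * t * g⁻¹) := mk_eq.2 (isConj_iff.2 ⟨g, rfl⟩)
      rw [e]
      by_cases h : g * t * g⁻¹ ∈ Subgroup.zpowers a
      · exact Or.inl (by rw [two_eq_of_mem_zpowers h hza (by rwa [orderOf_conj]) oz])
      · obtain ⟨i, hi⟩ := hform _ hg h
        rw [hi]
        obtain ⟨j, rfl | rfl⟩ := Int.even_or_odd' i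
        · exact Or.inr (Or.inl (mk_eq.2 (isConj_iff.2 ⟨a ^ j, by simpa using hcj 0 j⟩)).symm)
        · exact Or.inr (Or.inr (mk_eq.2 (isConj_iff.2 ⟨a ^ j, by
            simpa [add_comm] using hcj 1 j⟩)).symm)
    · rintro (rfl | rfl | rfl)
      exacts [⟨z, rfl, oz⟩, ⟨b, rfl, ob⟩, ⟨_, rfl, oab⟩]
  have habP := mul_mem haP hbP
  have hconj : ∀ (N : Subgroup G), N.Normal → ∀ {x y : G}, ConjClasses.mk x = ConjClasses.mk y →
      x ∈ N → y ∈ N := fun N hN x y h hx => by
    obtain ⟨g, rfl⟩ := isConj_iff.1 (mk_eq.1 h)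
    exact hN.conj_mem _ hx g
  have hPle : ∀ N : Subgroup G, a ∈ N → b ∈ N → (P : Subgroup G) ≤ N := fun N h1 h2 x hx => by
    by_cases h : x ∈ Subgroup.zpowers a
    · exact Subgroup.zpowers_le.2 h1 h
    · obtain ⟨i, rfl⟩ := hform x hx h
      exact mul_mem (zpow_mem h1 i) h2
  have hz2 : z = (a ^ 2) ^ 2 ^ (m - 1) := by
    rw [hz, ← pow_mul, ← pow_succ', Nat.sub_add_cancel hm]
  have hsq : ∀ N : Subgroup G, N.Normal → N.index = 2 → a ^ 2 ∈ N := fun N _ h =>
    h ▸ N.pow_index_mem a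
  have thom : ∀ u ∈ (P : Subgroup G), orderOf u = 2 → u ∉ Subgroup.zpowers a →
      ConjClasses.mk z ≠ ConjClasses.mk u → ∃ M : Subgroup G, M.Normal ∧ M.index = 2 ∧ u ∉ M := by
    intro u hu ou hua hne
    refine (Cfsg.Agent.S0111.result P _ (Subgroup.zpowers_le.2 haP) hi' u ou hu hua).resolve_right ?_
    rintro ⟨g, hg⟩
    rw [← two_eq_of_mem_zpowers hg hza (by rwa [orderOf_conj]) oz] at hne
    exact hne (mk_eq.2 (isConj_iff.2 ⟨g, rfl⟩)).symm
  have no4 : ∀ u v : G, orderOf v = 2 → ConjClasses.mk z = ConjClasses.mk u →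
      (∀ N : Subgroup G, u ∈ N → v ∈ N → (P : Subgroup G) ≤ N) →
      ∀ N : Subgroup G, N.Normal → N.index ≠ 4 := by
    intro u v ov h1 h2 N hN h4
    have hq : IsPGroup 2 (G ⧸ N) := IsPGroup.of_card (n := 2) h4
    have hc : IsMulCommutative (G ⧸ N) := IsPGroup.isMulCommutative_of_card_eq_prime_sq (p := 2) h4
    have h5 : a ^ 2 ∈ N := by
      rw [← QuotientGroup.eq_one_iff]
      have := congrArg (QuotientGroup.mk' N) hab
      simp only [map_mul, map_inv] at this
      rw [hc.is_comm.comm (QuotientGroup.mk' N b), mul_inv_cancel_right, eq_inv_iff_mul_eq_one] at this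
      rw [sq]; exact this
    have h6 : u ∈ N := hconj N hN h1 (hz2 ▸ pow_mem h5 _)
    have h7 : Subgroup.zpowers v ⊔ N = ⊤ := by
      rw [eq_top_iff, ← H2.sup_eq_top_of_coprime_index hq
        ((Nat.Prime.coprime_iff_not_dvd Nat.prime_two).2 P.not_dvd_index).symm]
      exact sup_le le_sup_right (h2 _ (Subgroup.mem_sup_right h6)
        (Subgroup.mem_sup_left (Subgroup.mem_zpowers v)))
    have h8 := relIndex_sup_of_le_normalizer (H := Subgroup.zpowers v) (K := N)
      Subgroup.le_normalizer_of_normal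
    rw [h7, Subgroup.relIndex_top_right, h4] at h8
    have h9 := Subgroup.relIndex_dvd_card N (Subgroup.zpowers v)
    rw [← h8, Nat.card_zpowers, ov] at h9
    omega
  by_cases h1 : ConjClasses.mk z = ConjClasses.mk b <;>
    by_cases h2 : ConjClasses.mk z = ConjClasses.mk (a * b)
  · refine Or.inl ⟨card_subtype_eq_one (a := ConjClasses.mk z) fun C => by
      rw [key, ← h1, ← h2]; simp, fun N hN h => ?_⟩
    have h3 : z ∈ N := hz2 ▸ pow_mem (hsq N hN h) _
    have h4 := hconj N hN h1 h3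
    have h5 : a ∈ N := by simpa using mul_mem (hconj N hN h2 h3) (inv_mem h4)
    exact P.not_dvd_index (h.symm.dvd.trans (Subgroup.index_dvd_of_le (hPle N h5 h4)))
  · obtain ⟨M, hM, hM2, -⟩ := thom _ habP oab hab0 h2
    exact Or.inr (Or.inl ⟨card_subtype_eq_two h2 fun C => by rw [key, ← h1]; simp, ⟨M, hM, hM2⟩,
      no4 b (a * b) oab h1 fun N h3 h4 => hPle N (by simpa using mul_mem h4 (inv_mem h3)) h3⟩)
  · obtain ⟨M, hM, hM2, -⟩ := thom _ hbP ob hb h1
    exact Or.inr (Or.inl ⟨card_subtype_eq_two h1 fun C => by rw [key, ← h2]; tauto, ⟨M, hM, hM2⟩,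
      no4 (a * b) b ob h2 fun N h4 h3 => hPle N (by simpa using mul_mem h4 (inv_mem h3)) h3⟩)
  · obtain ⟨M, hM, hM2, hbM⟩ := thom _ hbP ob hb h1
    obtain ⟨M', hM', hM2', hbM'⟩ := thom _ habP oab hab0 h2
    have hnpc : HasNormalPComplement 2 G := by
      refine hasNPC_of_pResidual_le (le_inf (pResidual_le_of_index (k := 1) hM2)
        (pResidual_le_of_index (k := 1) hM2')) (hasNPC_two_of_isCyclic
          (H2.sylow_inf_normal P (M ⊓ M')) (Subgroup.isCyclic_of_le (H' := Subgroup.zpowers a) ?_))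
      rintro x ⟨hx, hx1, hx2⟩
      by_contra h
      obtain ⟨i, rfl⟩ := hform x hx h
      obtain ⟨j, rfl | rfl⟩ := Int.even_or_odd' i
      · refine hbM ?_
        have := mul_mem (inv_mem (zpow_mem (hsq M hM hM2) j)) hx1
        rwa [← zpow_natCast, ← zpow_mul, Nat.cast_ofNat, inv_mul_cancel_left] at this
      · refine hbM' ?_
        have := mul_mem (inv_mem (zpow_mem (hsq M' hM' hM2') j)) hx2
        rwa [← zpow_natCast, ← zpow_mul, Nat.cast_ofNat, zpow_add_one, mul_assoc (a ^ _),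
          inv_mul_cancel_left] at this
    refine Or.inr (Or.inr ⟨card_subtype_eq_three h1 h2 (fun h => ?_) key, hnpc⟩)
    obtain ⟨u, hu, e⟩ := fusion_of_hasNPC' P hnpc hbP habP (mk_eq.1 h)
    have : ∃ j : ℤ, u * b * u⁻¹ = a ^ (2 * j) * b := by
      by_cases h : u ∈ Subgroup.zpowers a
      · obtain ⟨j, rfl⟩ := Subgroup.mem_zpowers_iff.1 h
        exact ⟨j, by simpa using hcj 0 j⟩
      · obtain ⟨j, rfl⟩ := hform u hu h
        exact ⟨j, by simpa [mul_assoc] using hcj 0 j⟩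
    obtain ⟨j, hj⟩ := this
    rw [e, mul_left_inj] at hj
    have := (L.zpow_eq_zpow_iff_dvd ha (k := 1) (l := 2 * j)).1 (by simpa using hj)
    have h3 : (2 : ℤ) ∣ 1 - 2 * j := (Dvd.intro_left ((2 : ℤ) ^ m) (by push_cast; ring)).trans this
    omega

end Cfsg.Agent.S3864
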