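import Cfsg.Statements.S3866
import Cfsg.Agent.L.PG4

set_option autoImplicit false
open Cfsg

namespace Cfsg.Agent.S3866

/-- Let A be a commutative normal subgroup of the finite group G with G generated by A and an element x. Then a ↦ x a x⁻¹ a⁻¹ is a surjective homomorphism from A onto the commutator subgroup of G whose kernel is the centralizer of x in A; in particular the commutator subgroup has order equal to the index in A of that centralizer. -/
theorem result {G : Type*} [Group G] [Finite G] (A : Subgroup G) [A.Normal] (hA : IsMulCommutative A) (x : G) (hgen : A ⊔ Subgroup.zpowers x = ⊤) : (∀ a ∈ A, x * a * x⁻¹ * a⁻¹ ∈ commutator G) ∧ (∀ c ∈ commutator G, ∃ a ∈ A, x * a * x⁻¹ * a⁻¹ = c) ∧ (∀ a ∈ A, ∀ b ∈ A, x * (a * b) * x⁻¹ * (a * b)⁻¹ = (x * a * x⁻¹ * a⁻¹) * (x * b * x⁻¹ * b⁻¹)) ∧ Nat.card (commutator G) * Nat.card ↥(A ⊓ Subgroup.centralizer ({x} : Set G)) = Nat.card A := by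
  have hx : x ∈ Subgroup.normalizer (A : Set G) := Subgroup.le_normalizer_of_normal (Subgroup.mem_top x)
  obtain ⟨h1, h2⟩ := L.card_commutator_mul hA hx
  rw [hgen] at h1 h2
  refine ⟨fun a _ => Subgroup.commutator_mem_commutator (Subgroup.mem_top x) (Subgroup.mem_top a), ?_, ?_, h1⟩
  · intro c hc
    obtain ⟨m, hm, e⟩ := h2 _ (Subgroup.inv_mem _ hc)
    refine ⟨m, hm, ?_⟩
    rw [← inv_inv c, e, commutatorElement_def]; group
  · intro a ha b hb
    have h3 : x * b * x⁻¹ * b⁻¹ ∈ A := A.mul_mem (‹A.Normal›.conj_mem b hb x) (A.inv_mem hb)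
    have := H1.comm_of_mem hA (A.inv_mem ha) h3
    calc x * (a * b) * x⁻¹ * (a * b)⁻¹ = x * a * x⁻¹ * ((x * b * x⁻¹ * b⁻¹) * a⁻¹) := by group
      _ = _ := by rw [← this]; group

end Cfsg.Agent.S3866
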