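import Cfsg.Statements.S3867
import Cfsg.Agent.H1.Misc3

set_option autoImplicit false
open Cfsg

namespace Cfsg.Agent.S3867

open H1

/-- Let M and N be nontrivial normal subgroups of the finite group G with M ⊓ N trivial, and let p be a prime. Writing n(X) for the number of Sylow p-subgroups of a group X, one has n(G) · n(G/MN) = n(G/M) · n(G/N). -/
theorem result {G : Type*} [Group G] [Finite G] (p : ℕ) [Fact p.Prime] (M N : Subgroup G) [M.Normal] [N.Normal] (hM : M ≠ ⊥) (hN : N ≠ ⊥) (hMN : M ⊓ N = ⊥) : Nat.card (Sylow p G) * Nat.card (Sylow p (G ⧸ (M ⊔ N))) = Nat.card (Sylow p (G ⧸ M)) * Nat.card (Sylow p (G ⧸ N)) := by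
  obtain ⟨P, hP⟩ := exists_isSylowIn (p := p) (⊤ : Subgroup G)
  rw [hP.card_sylow, hP.card_sylow_quotient, hP.card_sylow_quotient, hP.card_sylow_quotient]
  set D := Subgroup.normalizer (P : Set G)
  have h1 : (P ⊔ M) ⊓ (P ⊔ N) = P := by
    rw [dedekind_left le_sup_left (Or.inl Subgroup.le_normalizer_of_normal), sup_eq_left]
    refine hP.ge_of_normal ?_ le_top (le_normalizer_inf Subgroup.le_normalizer_of_normal
      (le_sup_left.trans Subgroup.le_normalizer))
    have h2 : (M ⊓ (P ⊔ N)) ⊓ (QuotientGroup.mk' N).ker = ⊥ := by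
      rw [QuotientGroup.ker_mk', eq_bot_iff, ← hMN]; exact inf_le_inf_right _ inf_le_left
    refine IsPGroup.of_equiv ((hP.2.map (QuotientGroup.mk' N)).to_le ?_) (mapEquivOfDisjoint _ h2).symm
    rintro _ ⟨x, hx, rfl⟩
    exact mem_sup_iff_mk_mem_map.1 hx.2
  have h2 : (D ⊔ M) ⊓ (D ⊔ N) = D := by
    refine le_antisymm ?_ (le_inf le_sup_left le_sup_left)
    rw [← (hP.of_le le_sup_left le_top).normalizer_sup, ← (hP.of_le le_sup_left le_top).normalizer_sup]
    have := le_normalizer_inf (A := Subgroup.normalizer ((P ⊔ M : Subgroup G) : Set G) ⊓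
      Subgroup.normalizer ((P ⊔ N : Subgroup G) : Set G)) inf_le_left inf_le_right
    rwa [h1] at this
  have h3 : Fac (D ⊔ M) (D ⊔ N) (D ⊔ (M ⊔ N)) := by
    have := fac_of_normalizer (A := D ⊔ M) (B := N) (Or.inl Subgroup.le_normalizer_of_normal)
    rw [sup_assoc] at this
    exact this.mono le_rfl le_sup_right this.1 (sup_le_sup_left le_sup_right _)
  have h4 := h3.relIndex_inf
  rw [h2] at h4
  rw [← Subgroup.relIndex_mul_index (le_sup_left : D ≤ D ⊔ (M ⊔ N)), ← Subgroup.relIndex_mul_index h3.1,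
    ← Subgroup.relIndex_mul_index h3.2, h4]
  ring

end Cfsg.Agent.S3867
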