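import Cfsg.Statements.S3878
import Cfsg.Agent.H1.Gs
import Cfsg.Agent.H1.Invol
import Cfsg.Agent.H1.Gaschutz
import Cfsg.Agent.H1.Fitting
import Cfsg.Agent.H3.Galois
import Cfsg.Agent.H9.Syl

set_option autoImplicit false
open Cfsg

namespace Cfsg.Agent.S3878

open H1
open Subgroup Finset

theorem EofD {π : Set ℕ} {G : Type*} [Group G] [Finite G] (h : IsDPiGroup π G) : IsEPiGroup π G := by
  obtain ⟨M, -, hM⟩ := Finite.exists_le_maximal (p := IsPiSubgroup π) (a := (⊥ : Subgroup G))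
    (fun p hp hd => absurd (by simpa using hd) hp.ne_one)
  refine ⟨M, hM.1, fun p hp hπ hd => ?_⟩
  haveI := Fact.mk hp
  obtain ⟨P⟩ : Nonempty (Sylow p G) := inferInstance
  obtain ⟨M', h1, hM'⟩ := Finite.exists_le_maximal (p := IsPiSubgroup π) (a := (P : Subgroup G))
    (fun q hq hd => by
      obtain ⟨k, hk⟩ := P.isPGroup'.exists_card_eq
      rwa [(Nat.prime_dvd_prime_iff_eq hq hp).1 (hq.dvd_of_dvd_pow (hk ▸ hd))])
  obtain ⟨g, rfl⟩ := h M M' hM hM'
  refine P.not_dvd_index (hd.trans (Dvd.dvd.trans ?_ (index_dvd_of_le h1)))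
  rw [index_map_of_bijective (MulAut.conj g).bijective]

theorem DofTriv {π : Set ℕ} (h : (∀ p q : ℕ, p.Prime → q.Prime → p ∈ π → q ∈ π → p = q) ∨
    ∀ p : ℕ, p.Prime → p ∈ π) (G : Type*) [Group G] [Finite G] : IsDPiGroup π G := by
  intro H K hH hK
  rcases h with h | h
  · by_cases e : ∃ p, p.Prime ∧ p ∈ π
    · obtain ⟨p, hp, hπ⟩ := e
      haveI := Fact.mk hp
      have k : ∀ L : Subgroup G, IsPiSubgroup π L ↔ IsPGroup p L := fun L =>
        ⟨fun a => isPGroup_iff_isPiNum.2 fun q hq hd => h q p hq hp (a q hq hd) hπ,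
          fun a q hq hd => (isPGroup_iff_isPiNum.1 a q hq hd : q = p) ▸ hπ⟩
      have s : ∀ L : Subgroup G, Maximal (IsPiSubgroup π) L → H9.Syl p L ⊤ := fun L hL =>
        H9.syl_of_maximal ((k L).1 hL.1) le_top fun Q a _ b => hL.2 ((k Q).2 a) b
      obtain ⟨g, -, hg⟩ := (s H hH).conj (s K hK)
      exact ⟨g, hg.symm⟩
    · have k : ∀ L : Subgroup G, IsPiSubgroup π L → L = ⊥ := fun L a => by
        rw [← Subgroup.card_eq_one]
        by_contra c
        exact e ⟨_, Nat.minFac_prime c, a _ (Nat.minFac_prime c) (Nat.minFac_dvd _)⟩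
      exact ⟨1, by rw [k H hH.1, k K hK.1, Subgroup.map_bot]⟩
  · have k : ∀ L : Subgroup G, Maximal (IsPiSubgroup π) L → L = ⊤ := fun L a =>
      top_le_iff.1 (a.2 (fun p hp _ => h p hp) le_top)
    exact ⟨1, by rw [k H hH, k K hK]; exact (map_top_of_surjective _ (MulAut.conj (1 : G)).surjective).symm⟩

theorem sq_not {r : ℕ} (hr : r.Prime) : ¬ r * r ∣ r.factorial := by
  obtain ⟨k, rfl⟩ : ∃ k, r = k + 1 := ⟨r - 1, (Nat.sub_add_cancel hr.one_le).symm⟩
  rw [Nat.factorial_succ, Nat.mul_dvd_mul_iff_left hr.pos, hr.dvd_factorial]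
  omega

theorem caseB {π : Set ℕ} {r : ℕ} (hr : r.Prime) (h5 : 5 ≤ r) (hπ : r ∉ π) (h : ∀ p < r, p.Prime → p ∈ π) :
    ¬ IsEPiGroup π (alternatingGroup (Fin (r + 1))) := by
  rintro ⟨H, h1, h2⟩
  haveI : Nontrivial (Fin (r + 1)) := Fin.nontrivial_iff_two_le.2 (by omega)
  haveI := alternatingGroup.isSimpleGroup (α := Fin (r + 1)) (by simp; omega)
  have c : 2 * Nat.card (alternatingGroup (Fin (r + 1))) = (r + 1).factorial := by
    rw [two_mul_nat_card_alternatingGroup, Nat.card_perm]; simp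
  have d : H.index ∣ (r + 1).factorial := c ▸ H.index_dvd_card.mul_left 2
  obtain ⟨k, hk⟩ : ∃ k, H.index = r ^ k := ⟨_, Nat.eq_prime_pow_of_unique_prime_dvd index_ne_zero_of_finite
    fun {q} hq hd => by
      have a := hq.dvd_factorial.1 (hd.trans d)
      have b : ¬ q < r := fun l => h2 q hq (h q l hq) hd
      by_contra e
      have : q = r + 1 := by omega
      rcases hq.eq_two_or_odd with z | z <;> rcases hr.eq_two_or_odd with y | y <;> omega⟩
  have k1 : k ≤ 1 := by
    by_contra l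
    have : r * r ∣ (r + 1) * r.factorial := by
      rw [← Nat.factorial_succ, ← pow_two]; exact (pow_dvd_pow r (by omega)).trans (hk ▸ d)
    exact sq_not hr (Nat.Coprime.dvd_of_dvd_mul_left (Nat.Coprime.mul_left (by simp) (by simp)) this)
  have ne : H ≠ ⊤ := by
    rintro rfl
    refine hπ (h1 r hr ?_)
    rw [card_top]
    refine (hr.dvd_mul.1 (c ▸ hr.dvd_factorial.2 (Nat.le_succ r))).resolve_left fun a => ?_
    have := Nat.le_of_dvd two_pos a
    omega
  have e := Nat.le_of_dvd (Nat.factorial_pos _) (card_dvd_factorial_index ne)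
  have l : H.index ≤ r := hk ▸ (Nat.pow_le_pow_right hr.pos k1).trans (pow_one r).le
  have := e.trans (Nat.factorial_le l)
  rw [Nat.factorial_succ] at c
  have := Nat.factorial_pos r
  nlinarith

theorem fixall {p q : ℕ} (hp : p.Prime) (hq : q.Prime) (hpq : p ≠ q) {c : Equiv.Perm (Fin q)} (hc : orderOf c = q)
    {N : Subgroup (Equiv.Perm (Fin q))} (hN : IsPGroup p N) (hn : c ∈ normalizer (N : Set (Equiv.Perm (Fin q)))) :
    N = ⊥ := by
  classical
  haveI := Fact.mk hp
  have it : ∀ w, c^[q] w = w := fun w => by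
    rw [← Equiv.Perm.coe_pow]
    conv_lhs => enter [1, 2]; rw [← hc]
    rw [pow_orderOf_eq_one]; rfl
  have all : ∀ S : Finset (Fin q), q ∣ #S → S.Nonempty → S = univ := fun S a b =>
    eq_univ_of_card _ (le_antisymm (card_le_univ _) (by simpa using Nat.le_of_dvd b.card_pos a))
  have nf : ∀ w, c w ≠ w := fun w hw => by
    have := card_modEq_fix c hq it (fun _ => True) (fun _ _ => trivial)
    simp only [filter_true, card_univ, Fintype.card_fin, true_and] at this
    have := all _ ((Nat.modEq_zero_iff_dvd).1 (this.symm.trans (Nat.modEq_zero_iff_dvd.2 dvd_rfl)))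
      ⟨w, mem_filter.2 ⟨mem_univ _, hw⟩⟩
    have : c = 1 := Equiv.ext fun x => (mem_filter.1 (this.ge (mem_univ x))).2
    rw [this, orderOf_one] at hc
    exact hq.ne_one hc.symm
  obtain ⟨x, hx⟩ := hN.nonempty_fixed_point_of_prime_not_dvd_card (Fin q) (by
    rw [Nat.card_eq_fintype_card, Fintype.card_fin, Nat.prime_dvd_prime_iff_eq hp hq]; exact hpq)
  have := card_modEq_fix c hq it (fun w => ∀ n ∈ N, n w = w) (fun w hw n hn' => by
    have := hw _ ((mem_normalizer_iff''.1 hn n).1 hn')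
    rwa [Equiv.Perm.mul_apply, Equiv.Perm.mul_apply, Equiv.Perm.inv_eq_iff_eq] at this)
  rw [show ({w | (∀ n ∈ N, n w = w) ∧ c w = w} : Finset (Fin q)) = ∅ from
    filter_eq_empty_iff.2 fun w _ hw => nf w hw.2, card_empty] at this
  have := all _ (Nat.modEq_zero_iff_dvd.1 this) ⟨x, mem_filter.2 ⟨mem_univ _, fun n hn => hx ⟨n, hn⟩⟩⟩
  exact eq_bot_iff.2 fun n hn => Equiv.ext fun w => (mem_filter.1 (this.ge (mem_univ w))).2 n hn

theorem caseA {π : Set ℕ} {p q : ℕ} (hp : p.Prime) (hq : q.Prime) (hpq : p + 2 ≤ q) (h1 : p ∈ π) (h2 : q ∈ π)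
    (h : ∀ r ≤ q, r.Prime → r ∈ π → r = p ∨ r = q) : ¬ IsEPiGroup π (Equiv.Perm (Fin q)) := by
  rintro ⟨H, a1, a2⟩
  haveI := Fact.mk hp
  haveI := Fact.mk hq
  have c : Nat.card (Equiv.Perm (Fin q)) = q.factorial := by rw [Nat.card_perm]; simp
  have pr : ∀ r, r.Prime → r ∣ Nat.card H → r = p ∨ r = q := fun r hr hd =>
    h r (hr.dvd_factorial.1 (c ▸ hd.trans H.card_subgroup_dvd_card)) hr (a1 r hr hd)
  haveI : Group.IsSolvable H := by
    refine H3.burnside_paqb hp hq (a := Nat.card H) (b := Nat.card H) ?_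
    rw [← mul_pow, Nat.dvd_pow_self_iff Nat.card_pos.ne' (mul_ne_zero hp.ne_zero hq.ne_zero)]
    intro r hr
    have hr' := Nat.prime_of_mem_primeFactors hr
    refine Nat.mem_primeFactors.2 ⟨hr', ?_, mul_ne_zero hp.ne_zero hq.ne_zero⟩
    rcases pr r hr' (Nat.dvd_of_mem_primeFactors hr) with rfl | rfl
    · exact Dvd.intro _ rfl
    · exact Dvd.intro_left _ rfl
  have qd : q ∣ Nat.card H := (hq.dvd_mul.1 (by
    rw [H.card_mul_index, c]; exact hq.dvd_factorial.2 le_rfl)).resolve_right (a2 q hq h2)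
  obtain ⟨x, hx, ox⟩ := H9.exists_orderOf_eq_of_dvd qd
  haveI : Nontrivial H := ⟨⟨⟨x, hx⟩, 1, fun e => hq.ne_one (by
    rw [← ox, show x = 1 from congrArg Subtype.val e, orderOf_one])⟩⟩
  obtain ⟨M, l, hl, m1, m2, -, -, -, m3, -⟩ :=
    exists_minimal_normal_elementary (⊤ : Subgroup H) inferInstance top_ne_bot
  haveI := Fact.mk hl
  have nQ : H ≤ normalizer ((M.map H.subtype : Subgroup (Equiv.Perm (Fin q))) : Set (Equiv.Perm (Fin q))) := by
    have := H9.map_le_normalizer_map H.subtype (le_normalizer_of_normal (H := M) (K := ⊤))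
    rwa [← MonoidHom.range_eq_map, range_subtype] at this
  have q0 : M.map H.subtype ≠ ⊥ := fun e => m2 ((map_eq_bot_iff_of_injective M H.subtype_injective).1 e)
  have qp := m3.map H.subtype
  set Q := M.map H.subtype
  rcases pr l hl ((H9.dvd_card_of_isPGroup m3 m2).trans M.card_subgroup_dvd_card) with rfl | rfl
  · exact q0 (fixall hp hq (by omega) ox qp (nQ hx))
  have cQ : Nat.card Q = l := by
    obtain ⟨k, hk⟩ := qp.exists_card_eq
    have k0 : k ≠ 0 := fun e => q0 (Subgroup.card_eq_one.1 (by rw [hk, e, pow_zero]))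
    have k1 : k ≤ 1 := by
      by_contra a
      exact sq_not hl (by
        rw [← pow_two, ← c]; exact (pow_dvd_pow l (by omega)).trans (hk ▸ Q.card_subgroup_dvd_card))
    rw [hk, show k = 1 by omega, pow_one]
  obtain ⟨y, hy, oy⟩ := H9.exists_orderOf_eq_of_isPGroup qp q0
  obtain ⟨P, hP⟩ := H9.exists_syl (p := p) H
  have z : P ⊓ centralizer (Q : Set (Equiv.Perm (Fin l))) = ⊥ :=
    fixall hp hl (by omega) oy (hP.isP.to_le inf_le_left)
      (Subgroup.centralizer_le_normalizer _ (le_centralizer_iff.1 inf_le_right hy))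
  have d := relIndex_centralizer_dvd_card_mulAut Q (hP.le.trans nQ)
  haveI := isCyclic_of_prime_card cQ
  rw [← inf_relIndex_left, z, relIndex_bot_left, IsCyclic.card_mulAut, cQ, Nat.totient_prime hl] at d
  obtain ⟨k, rfl⟩ : ∃ k, l = k + 2 := ⟨l - 2, by omega⟩
  have e : Nat.card P * p ∣ Nat.card P * P.index := by
    rw [P.card_mul_index, c, Nat.factorial_succ, Nat.factorial_succ]
    exact (Nat.mul_dvd_mul d (hp.dvd_factorial.2 (by omega))).mul_left _
  rw [Nat.mul_dvd_mul_iff_left Nat.card_pos, ← relIndex_mul_index hP.le, hp.dvd_mul] at e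
  exact e.elim hP.not_dvd (a2 p hp h1)

/-- For a set of primes π the following are equivalent: every finite group has a Hall π-subgroup; in every finite group the maximal π-subgroups are pairwise conjugate; π contains at most one prime or contains every prime. -/
theorem result (π : Set ℕ) :
    ((∀ (G : Type) [Group G] [Finite G], Cfsg.IsEPiGroup π G) ↔
      ((∀ p q : ℕ, p.Prime → q.Prime → p ∈ π → q ∈ π → p = q) ∨ ∀ p : ℕ, p.Prime → p ∈ π)) ∧
    ((∀ (G : Type) [Group G] [Finite G], Cfsg.IsDPiGroup π G) ↔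
      ((∀ p q : ℕ, p.Prime → q.Prime → p ∈ π → q ∈ π → p = q) ∨ ∀ p : ℕ, p.Prime → p ∈ π)) := by
  classical
  have key : (∀ (G : Type) [Group G] [Finite G], Cfsg.IsEPiGroup π G) →
      ((∀ p q : ℕ, p.Prime → q.Prime → p ∈ π → q ∈ π → p = q) ∨ ∀ p : ℕ, p.Prime → p ∈ π) := by
    intro h
    by_contra hc
    push Not at hc
    obtain ⟨⟨a, b, ha, hb, a1, b1, ab⟩, h2⟩ := hc
    by_cases h23 : 2 ∈ π ∧ 3 ∈ π
    · have s := Nat.find_spec h2
      refine caseB s.1 (s.1.five_le_of_ne_two_of_ne_three (fun e => s.2 (e ▸ h23.1)) (fun e => s.2 (e ▸ h23.2)))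
        s.2 (fun p l hp => ?_) (h _)
      by_contra c
      exact Nat.find_min h2 l ⟨hp, c⟩
    · have e1 : ∃ p, p.Prime ∧ p ∈ π := ⟨a, ha, a1⟩
      have s := Nat.find_spec e1
      set p := Nat.find e1 with hp
      have e2 : ∃ q, q.Prime ∧ q ∈ π ∧ q ≠ p := by
        by_cases e : a = p
        · exact ⟨b, hb, b1, fun f => ab (e.trans f.symm)⟩
        · exact ⟨a, ha, a1, e⟩
      have t := Nat.find_spec e2
      set q := Nat.find e2 with hq
      have l : p ≤ q := Nat.find_min' e1 ⟨t.1, t.2.1⟩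
      refine caseA s.1 t.1 ?_ s.2 t.2.1 (fun r lr hr hπ => ?_) (h _)
      · by_contra c
        have e : q = p + 1 := by have := t.2.2; omega
        have := s.1.two_le
        rcases s.1.eq_two_or_odd with z | z <;> rcases t.1.eq_two_or_odd with y | y
        · omega
        · exact h23 ⟨z ▸ s.2, (show q = 3 by omega) ▸ t.2.1⟩
        · omega
        · omega
      · by_contra c
        push Not at c
        exact c.2 (le_antisymm lr (Nat.find_min' e2 ⟨hr, hπ, c.1⟩))
  exact ⟨⟨key, fun h G _ _ => EofD (DofTriv h G)⟩, fun h => key fun G _ _ => EofD (h G), fun h G _ _ => DofTriv h G⟩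

end Cfsg.Agent.S3878
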