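import Cfsg.Statements.S3881
import Cfsg.Agent.H1.Mcy2

set_option autoImplicit false
open Cfsg

namespace Cfsg.Agent.S3881

open H1

/-- Let p be an odd prime and G a finite metacyclic p-group (G has a cyclic normal subgroup with cyclic quotient). Suppose G is non-abelian with |G'| = p^n. Then for 1 ≤ i ≤ n the number of elements of G whose conjugacy class has exactly p^i elements is |Z(G)| · (p^(2i) − p^(2i−2)). -/
theorem result {G : Type*} [Group G] [Finite G] {p : ℕ} [Fact p.Prime] (hp : p ≠ 2) (hG : IsPGroup p G) (hmc : Cfsg.IsMetacyclic G) (n : ℕ) (hn : n ≠ 0) (hGn : Nat.card ↥(commutator G) = p ^ n) (i : ℕ) (hi : 1 ≤ i) (hin : i ≤ n) :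
    Nat.card {g : G // (Subgroup.centralizer ({g} : Set G)).index = p ^ i} =
      Nat.card ↥(Subgroup.center G) * (p ^ (2 * i) - p ^ (2 * i - 2)) := by
  have h : MG p G := ⟨hp, hG, hmc⟩
  have h0 : p.Prime := Fact.out
  obtain ⟨j, rfl⟩ := Nat.exists_eq_add_of_le' hi
  have h1 := h.card_pc hGn hin
  have h2 := h.card_pc hGn (s := j) (by omega)
  have h3 : {g : G | (Subgroup.centralizer ({g} : Set G)).index = p ^ (j + 1)} =
      (powerClosure p (n - (j + 1)) (⊤ : Subgroup G) : Set G) \
        powerClosure p (n - j) (⊤ : Subgroup G) := by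
    ext g
    obtain ⟨k, hk⟩ := hG.index (Subgroup.centralizer ({g} : Set G))
    simp only [Set.mem_setOf_eq, Set.mem_diff, SetLike.mem_coe, h.mem_pc_iff hGn (Nat.sub_le _ _),
      hk, Nat.pow_le_pow_iff_right h0.one_lt, Nat.pow_right_inj h0.one_lt]
    omega
  change Set.ncard {g : G | (Subgroup.centralizer ({g} : Set G)).index = p ^ (j + 1)} = _
  rw [h3, Set.ncard_diff (fun g hg => (h.mem_pc_iff hGn (Nat.sub_le _ _)).2
    (((h.mem_pc_iff hGn (Nat.sub_le _ _)).1 hg).trans (Nat.pow_le_pow_right h0.pos (by omega)))),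
    Nat.mul_sub, show 2 * (j + 1) - 2 = 2 * j by omega, ← h1, ← h2]
  rfl

end Cfsg.Agent.S3881
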