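import Cfsg.Statements.S3883
import Cfsg.Agent.H1.Mcy2

set_option autoImplicit false
open Cfsg

namespace Cfsg.Agent.S3883

open H1

/-- Let p be an odd prime and G a finite metacyclic p-group (G has a cyclic normal subgroup with cyclic quotient). Suppose G is non-abelian. Then an element g of G lies outside the Frattini subgroup if and only if its centralizer C_G(g) is abelian. -/
theorem result {G : Type*} [Group G] [Finite G] {p : ℕ} [Fact p.Prime] (hp : p ≠ 2) (hG : IsPGroup p G) (hmc : Cfsg.IsMetacyclic G) (hna : ¬ IsMulCommutative G) (g : G) :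
    g ∉ frattini G ↔ IsMulCommutative ↥(Subgroup.centralizer ({g} : Set G)) := by
  have h : MG p G := ⟨hp, hG, hmc⟩
  have h0 : p.Prime := Fact.out
  obtain ⟨n, hn⟩ := h.exists_n
  obtain ⟨k, hk⟩ := hG.index (Subgroup.centralizer ({g} : Set G))
  have h1 : ¬ n ≤ 0 := fun e => hna ⟨⟨fun a b => congrArg Subtype.val
    (((h.comm_iff' hn (K := ⊤) (by simp)).2 e).1.1 ⟨a, trivial⟩ ⟨b, trivial⟩)⟩⟩
  rw [h.frattini_eq, h.mem_pc_iff hn (by omega), h.comm_iff' hn hk, hk,
    Nat.pow_le_pow_iff_right h0.one_lt]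
  omega

end Cfsg.Agent.S3883
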