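import Cfsg.Statements.S3885
import Cfsg.Agent.H1.Mcy2

set_option autoImplicit false
open Cfsg

namespace Cfsg.Agent.S3885

open H1

/-- Let p be an odd prime and G a finite metacyclic p-group (G has a cyclic normal subgroup with cyclic quotient). Then every abelian subgroup K of G containing the center of G is the center of its own centralizer: K = Z(C_G(K)). -/
theorem result {G : Type*} [Group G] [Finite G] {p : ℕ} [Fact p.Prime] (hp : p ≠ 2) (hG : IsPGroup p G) (hmc : Cfsg.IsMetacyclic G) (K : Subgroup G) (hK : IsMulCommutative ↥K) (hZ : Subgroup.center G ≤ K) :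
    K = Subgroup.centralizer (K : Set G) ⊓ Subgroup.centralizer (Subgroup.centralizer (K : Set G) : Set G) := by
  open Subgroup in
  have h : MG p G := ⟨hp, hG, hmc⟩
  have h1 : K ≤ centralizer (K : Set G) ⊓ centralizer (centralizer (K : Set G) : Set G) :=
    le_inf (L.le_centralizer_of_comm hK) (le_centralizer_iff.1 le_rfl)
  exact eq_of_le_of_card_eq h1 (le_antisymm (card_le_of_le h1) (Nat.le_of_mul_le_mul_right
    ((h.card_mul_le (le_centralizer_iff.1 inf_le_right)).trans (h.le_card_mul hZ)) Nat.card_pos))

end Cfsg.Agent.S3885
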