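import Cfsg.Statements.S3886
import Cfsg.Agent.H1.Mcy2

set_option autoImplicit false
open Cfsg

namespace Cfsg.Agent.S3886

open H1

/-- Let p be an odd prime and G a finite metacyclic p-group (G has a cyclic normal subgroup with cyclic quotient). Then the largest value of |R| · |Z(R)| over subgroups R of G is |G : G'|², and the subgroups attaining it (the centrally large subgroups) are exactly the non-abelian subgroups together with the maximal abelian subgroups of G. -/
theorem result {G : Type*} [Group G] [Finite G] {p : ℕ} [Fact p.Prime] (hp : p ≠ 2) (hG : IsPGroup p G) (hmc : Cfsg.IsMetacyclic G) : Cfsg.maxCentralProduct G = (commutator G).index ^ 2 ∧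
    ∀ R : Subgroup G, Cfsg.IsCentrallyLarge R ↔ (¬ IsMulCommutative ↥R ∨ Maximal (fun K : Subgroup G => IsMulCommutative ↥K) R) := by
  open Subgroup in
  have h : MG p G := ⟨hp, hG, hmc⟩
  have h1 : ∀ R : Subgroup G, ¬ IsMulCommutative R →
      Nat.card R * Nat.card (center R) = (commutator G).index ^ 2 := fun R hR => by
    rw [(h.sub R).card_mul_center, h.index_der hR]
  have h2 : ∀ R : Subgroup G, IsMulCommutative R →
      Nat.card R * Nat.card (center R) = Nat.card R ^ 2 := fun R hR => by
    rw [show center R = ⊤ from eq_top_iff.2 fun a _ => mem_center_iff.2 fun b => hR.1.1 b a, card_top, sq]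
  have h3 : maxCentralProduct G = (commutator G).index ^ 2 := by
    refine IsGreatest.csSup_eq ⟨⟨⊤, ?_⟩, ?_⟩
    · rw [← h.card_mul_center, card_top, ← card_map_of_injective (subtype_injective _),
        map_center_eq, L.top_inf_centralizer_top]
    · rintro _ ⟨R, rfl⟩
      by_cases hR : IsMulCommutative R
      · exact (h2 R hR).trans_le (Nat.pow_le_pow_left ((h.comm_iff R).1 hR) 2)
      · exact (h1 R hR).le
  refine ⟨h3, fun R => ?_⟩
  rw [IsCentrallyLarge, h3, h.maximal_iff]
  by_cases hR : IsMulCommutative R
  · simp [h2 R hR, hR]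
  · simp [h1 R hR, hR]

end Cfsg.Agent.S3886
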