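import Cfsg.Statements.S3887
import Cfsg.Agent.H1.Mcy2

set_option autoImplicit false
open Cfsg

namespace Cfsg.Agent.S3887

open H1

/-- Let p be an odd prime and G a finite metacyclic p-group (G has a cyclic normal subgroup with cyclic quotient). Then a subgroup R of G maximizes |R| · |C_G(R)| over all subgroups of G if and only if R contains the center of G. -/
theorem result {G : Type*} [Group G] [Finite G] {p : ℕ} [Fact p.Prime] (hp : p ≠ 2) (hG : IsPGroup p G) (hmc : Cfsg.IsMetacyclic G) (R : Subgroup G) : Cfsg.IsCentralizerLarge R ↔ Subgroup.center G ≤ R := by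
  open Subgroup in
  have h : MG p G := ⟨hp, hG, hmc⟩
  have h3 : maxCentralizerProduct G = (commutator G).index ^ 2 :=
    IsGreatest.csSup_eq ⟨⟨⊤, (h.card_mul_le le_rfl).antisymm (h.le_card_mul le_top)⟩, by
      rintro _ ⟨R, rfl⟩; exact h.card_mul_le le_rfl⟩
  rw [IsCentralizerLarge, h3]
  refine ⟨fun e => ?_, fun e => (h.card_mul_le le_rfl).antisymm (h.le_card_mul e)⟩
  have h1 := h.card_mul_le (R := centralizer (R : Set G)) (C := R ⊔ center G)
    (sup_le (le_centralizer_iff.1 le_rfl) (center_le_centralizer _))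
  rw [← e, mul_comm] at h1
  exact le_sup_right.trans (eq_of_le_of_card_eq le_sup_left (le_antisymm (card_le_of_le le_sup_left)
    (Nat.le_of_mul_le_mul_right h1 Nat.card_pos))).ge

end Cfsg.Agent.S3887
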