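import Cfsg.Statements.S3895
import Cfsg.Agent.H2.KTwo

set_option autoImplicit false
open Cfsg

namespace Cfsg.Agent.S3895

open H1

/-- Let G be a finite group with Sylow 2-subgroup P, and write k₂(G) for the number of conjugacy classes of G consisting of 2-elements (elements of 2-power order, the identity included). Then k₂(G) > |P|/2 if and only if G has a normal 2-complement and P has more than |P|/2 conjugacy classes. -/
theorem result {G : Type*} [Group G] [Finite G] (P : Sylow 2 G) :
    Nat.card ↥(P : Subgroup G) < 2 * Nat.card {c : ConjClasses G // ∀ x ∈ c.carrier, ∃ k : ℕ, orderOf x = 2 ^ k} ↔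
      Cfsg.HasNormalPComplement 2 G ∧ Nat.card ↥(P : Subgroup G) < 2 * Nat.card (ConjClasses ↥(P : Subgroup G)) := by
  haveI := Fact.mk Nat.prime_two
  constructor
  · intro h
    refine ⟨H2K.npc_two P h, h.trans_le (Nat.mul_le_mul_left _ ?_)⟩
    refine card_le_of_cover _ (ConjClasses.map (P : Subgroup G).subtype) fun c hc => ?_
    obtain ⟨b, hb⟩ := kq_cover P c hc
    exact ⟨ConjClasses.mk b, hb⟩
  · rintro ⟨h1, h2⟩
    refine h2.trans_le (Nat.mul_le_mul_left _ ?_)
    refine Nat.card_le_card_of_injective (fun c => ⟨ConjClasses.map (P : Subgroup G).subtype c, ?_⟩) fun c d e => ?_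
    · obtain ⟨x, rfl⟩ := ConjClasses.mk_surjective c
      exact (forall_carrier_mk (q := fun n => ∃ k, n = 2 ^ k)).2 (exists_orderOf_eq_pow P.isPGroup' x.2)
    · obtain ⟨x, rfl⟩ := ConjClasses.mk_surjective c
      obtain ⟨y, rfl⟩ := ConjClasses.mk_surjective d
      obtain ⟨u, hu, h3⟩ := fusion_of_hasNPC' P h1 x.2 y.2 (ConjClasses.mk_eq_mk_iff_isConj.1 (congrArg Subtype.val e))
      exact ConjClasses.mk_eq_mk_iff_isConj.2 (isConj_iff.2 ⟨⟨u, hu⟩, Subtype.ext h3⟩)

end Cfsg.Agent.S3895
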