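import Cfsg.Statements.S3897
import Cfsg.Agent.H1.KPi

set_option autoImplicit false
open Cfsg

namespace Cfsg.Agent.S3897

open H1

/-- Let p be an odd prime and G a finite group with Sylow p-subgroup P, and write k_p(G) for the number of conjugacy classes of G consisting of p-elements (elements of p-power order, the identity included). Then k_p(G) > (p + 1)|P|/(2p) if and only if G has a normal p-complement and P is abelian. -/
theorem result {G : Type*} [Group G] [Finite G] {p : ℕ} [Fact p.Prime] (hp : p ≠ 2) (P : Sylow p G) :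
    (p + 1) * Nat.card ↥(P : Subgroup G) < 2 * p * Nat.card {c : ConjClasses G // ∀ x ∈ c.carrier, ∃ k : ℕ, orderOf x = p ^ k} ↔
      Cfsg.HasNormalPComplement p G ∧ IsMulCommutative ↥(P : Subgroup G) := by
  constructor
  · intro h
    have := norm_le_cent_of_kq P h
    exact ⟨hasNPC_of_norm_le P this, Subgroup.le_centralizer_iff_isMulCommutative.1 (Subgroup.le_normalizer.trans this)⟩
  · rintro ⟨h1, h2⟩
    have : Nat.card (P : Subgroup G) ≤ kq (fun n => ∃ k, n = p ^ k) G := by
      refine Nat.card_le_card_of_injective (fun x => ⟨ConjClasses.mk (x : G),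
        (forall_carrier_mk (q := fun n => ∃ k, n = p ^ k)).2 (exists_orderOf_eq_pow P.isPGroup' x.2)⟩) fun x y e => ?_
      obtain ⟨u, hu, h3⟩ := fusion_of_hasNPC' P h1 x.2 y.2 (ConjClasses.mk_eq_mk_iff_isConj.1 (congrArg Subtype.val e))
      refine Subtype.ext ?_
      rw [← h3, comm_of_mem h2 hu x.2]; group
    have h3 := (Fact.out : p.Prime).one_lt
    have h4 : 0 < Nat.card (P : Subgroup G) := Nat.card_pos
    change _ < 2 * p * kq (fun n => ∃ k, n = p ^ k) G
    nlinarith

end Cfsg.Agent.S3897
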