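import Cfsg.Statements.S3898
import Cfsg.Agent.H2.KTwo

set_option autoImplicit false
open Cfsg

namespace Cfsg.Agent.S3898

open H1

theorem of_key {G : Type*} [Group G] [Finite G] (π : Set ℕ)
    (key : ∀ q ∈ π, ∀ [Fact q.Prime] (Q : Sylow q G),
      Subgroup.normalizer ((Q : Subgroup G) : Set G) ≤ Subgroup.centralizer ((Q : Subgroup G) : Set G)) :
    IsPiHall πᶜ (piCore πᶜ G) ∧ ∃ H : Subgroup G, Cfsg.IsPiHall π H ∧ IsMulCommutative ↥H := by
  have hnpc : ∀ (q : ℕ) [Fact q.Prime], q ∈ π → Cfsg.HasNormalPComplement q G := fun q _ hq =>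
    hasNPC_of_norm_le default (key q hq default)
  have hN := isPiHall_piCore_of_forall_hasNPC (π := π) fun q _ hq _ => hnpc q hq
  have hN' := isPiHall_iff.1 hN
  rw [compl_compl] at hN'
  refine ⟨hN, ?_⟩
  obtain ⟨H, hH⟩ := Subgroup.exists_right_complement'_of_coprime (coprime_of_piHall hN)
  have hH1 : IsPiNum π (Nat.card H) := hH.symm.index_eq_card ▸ hN'.2
  refine ⟨H, isPiHall_iff.2 ⟨hH1, hH.index_eq_card ▸ hN'.1⟩, ?_⟩
  have hn : Group.IsNilpotent H := isNilpotent_of_forall_hasNPC fun q hq hd =>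
    hasNPC_subgroup (hnpc q (hH1 q hq.out hd)) H
  rw [← Subgroup.le_centralizer_iff_isMulCommutative]
  refine le_of_forall_primePow_mem fun q k hq x hx ox => ?_
  refine (Subgroup.le_centralizer_iff (K := Subgroup.zpowers x)).1 ?_ (Subgroup.mem_zpowers x)
  rw [centralizer_zpowers]
  refine le_of_forall_primePow_mem fun r j hr y hy oy => Subgroup.mem_centralizer_singleton_iff.2 ?_
  by_cases e : r = q
  · subst e
    haveI := Fact.mk hr
    by_cases hx1 : x = 1
    · simp [hx1]
    have hd : r ∣ Nat.card H := (dvd_pow_self r fun e => hx1 (orderOf_eq_one_iff.1 (by rw [ox, e, pow_zero]))).trans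
      (ox ▸ orderOf_dvd_card_of_mem hx)
    obtain ⟨S, hS⟩ := exists_isSylowIn (p := r) H
    obtain ⟨Q, hQ⟩ := hS.isPGroup.exists_le_sylow
    have a := fun z hz hz' => hQ (hS.mem_of_mem_normalizer (x := z) hz hz' (hS.le_normalizer_of_nilpotent hn hz))
    exact key r (hH1 r hr hd) Q (Subgroup.le_normalizer (a x hx ⟨k, ox⟩)) y (a y hy ⟨j, oy⟩)
  · exact commute_of_coprime_of_nilpotent hn hy hx (by
      rw [ox, oy]; exact Nat.coprime_pow_primes _ _ hr hq e)

/-- Let π be a finite set of primes containing 2 and G a finite group. Write k_π(G) for the number of conjugacy classes of G consisting of π-elements (elements all of whose order's prime divisors lie in π) and |G|_π for the π-part of the order of G. If k_π(G) > |G|_π/2, then G has a normal π-complement (a normal subgroup of order prime to π whose index is a π-number) and an abelian Hall subgroup for the set of odd primes in π. -/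
theorem result {G : Type*} [Group G] [Finite G] (π : Finset ℕ) (hπ : ∀ r ∈ π, r.Prime) (h2 : 2 ∈ π)
    (hk : π.prod (fun r => r ^ (Nat.card G).factorization r) < 2 * Nat.card {c : ConjClasses G // ∀ x ∈ c.carrier, ∀ r : ℕ, r.Prime → r ∣ orderOf x → r ∈ π}) :
    (∃ N : Subgroup G, N.Normal ∧ (∀ r : ℕ, r.Prime → r ∣ Nat.card ↥N → r ∉ π) ∧ ∀ r : ℕ, r.Prime → r ∣ N.index → r ∈ π) ∧ ∃ H : Subgroup G, Cfsg.IsPiHall ((↑π : Set ℕ) \ {2}) H ∧ IsMulCommutative ↥H := by
  have kq1 : ∀ q ∈ π, ∀ [Fact q.Prime] (Q : Sylow q G),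
      Nat.card (Q : Subgroup G) < 2 * kq (fun n => ∃ k, n = q ^ k) G := by
    intro q hq _ Q
    have h1 := kq_insert_le (G := G) (σ := π.erase q) (fun r hr => hπ r (Finset.mem_of_mem_erase hr)) (p := q)
    rw [Finset.insert_erase hq] at h1
    rw [← Finset.mul_prod_erase π _ hq, ← Q.card_eq_multiplicity] at hk
    have h3 := lt_of_lt_of_le hk (Nat.mul_le_mul_left _ h1)
    rw [← mul_assoc] at h3
    exact Nat.lt_of_mul_lt_mul_right h3
  haveI := Fact.mk Nat.prime_two
  obtain ⟨P, N, hN, hc⟩ := H2K.npc_two default (kq1 2 h2 default)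
  obtain ⟨k, hP⟩ := IsPGroup.iff_card.1 P.isPGroup'
  have iN : N.index = 2 ^ k := hc.symm.index_eq_card.trans hP
  have cN : ¬ 2 ∣ Nat.card N := hc.index_eq_card ▸ P.not_dvd_index
  obtain ⟨h1, H, h3, h4⟩ := of_key (G := N) ((π : Set ℕ) \ {2}) fun q hq _ Q n hn => by
    obtain ⟨R, hR⟩ := (Q.isPGroup'.map N.subtype).exists_le_sylow
    obtain ⟨j, hj⟩ := IsPGroup.iff_card.1 R.isPGroup'
    have RN : (R : Subgroup G) ≤ N := le_of_coprime_index (by
      rw [hj, iN]; exact Nat.coprime_pow_primes _ _ Fact.out Nat.prime_two hq.2)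
    have e : (R : Subgroup G).subgroupOf N = Q :=
      Q.is_maximal' (R.isPGroup'.comap_subtype) (Subgroup.map_le_iff_le_comap.1 hR)
    have := H2K.odd_centralizes hq.2 R (kq1 q hq.1 R) (n := n) (Subgroup.mem_normalizer_fintype fun x hx => by
      have : (⟨x, RN hx⟩ : N) ∈ (Q : Subgroup N) := e ▸ hx
      exact hR ⟨_, conj_mem_of_mem_normalizer hn this, rfl⟩) (Nat.odd_iff.2 (by
        have : ¬ 2 ∣ orderOf (n : G) := fun d => cN (d.trans (orderOf_dvd_card_of_mem n.2))
        omega))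
    exact fun x hx => Subtype.ext (this x (hR ⟨x, hx, rfl⟩))
  have two : ∀ r : ℕ, r.Prime → r ∣ N.index → r = 2 := fun r hr d =>
    (Nat.prime_dvd_prime_iff_eq hr Nat.prime_two).1 (hr.dvd_of_dvd_pow (iN ▸ d))
  refine ⟨⟨(piCore ((π : Set ℕ) \ {2})ᶜ N).map N.subtype, inferInstance, fun r hr d m => ?_, fun r hr d => ?_⟩,
    H.map N.subtype, ⟨fun r hr d => ?_, fun r hr m d => ?_⟩, inferInstance⟩
  · rw [Subgroup.card_subtype] at d
    exact h1.1 r hr d ⟨m, fun e => cN (by
      rw [show r = 2 from e] at d; exact d.trans (Subgroup.card_subgroup_dvd_card _))⟩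
  · rw [Subgroup.index_map_subtype] at d
    rcases (Nat.Prime.dvd_mul hr).1 d with d | d
    · by_contra n
      exact h1.2 r hr (fun m => n m.1) d
    · rw [two r hr d]; exact h2
  · rw [Subgroup.card_subtype] at d
    exact h3.1 r hr d
  · rw [Subgroup.index_map_subtype] at d
    rcases (Nat.Prime.dvd_mul hr).1 d with d | d
    · exact h3.2 r hr m d
    · exact m.2 (two r hr d)

end Cfsg.Agent.S3898
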