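import Cfsg.Statements.S3899
import Cfsg.Agent.H1.KPi
import Cfsg.Agent.H1.MaxNil

set_option autoImplicit false
open Cfsg

namespace Cfsg.Agent.S3899

open H1

/-- Let π be a finite non-empty set of odd primes with smallest member p and G a finite group. Write k_π(G) for the number of conjugacy classes of G consisting of π-elements (elements all of whose order's prime divisors lie in π) and |G|_π for the π-part of the order of G. If k_π(G) > (p + 1)|G|_π/(2p), then G has a normal π-complement (a normal subgroup of order prime to π whose index is a π-number) and an abelian Hall π-subgroup. -/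
theorem result {G : Type*} [Group G] [Finite G] (π : Finset ℕ) (hπ : ∀ r ∈ π, r.Prime) (h2 : 2 ∉ π) (p : ℕ) (hp : p ∈ π)
    (hmin : ∀ r ∈ π, p ≤ r) (hk : (p + 1) * π.prod (fun r => r ^ (Nat.card G).factorization r) < 2 * p * Nat.card {c : ConjClasses G // ∀ x ∈ c.carrier, ∀ r : ℕ, r.Prime → r ∣ orderOf x → r ∈ π}) :
    (∃ N : Subgroup G, N.Normal ∧ (∀ r : ℕ, r.Prime → r ∣ Nat.card ↥N → r ∉ π) ∧ ∀ r : ℕ, r.Prime → r ∣ N.index → r ∈ π) ∧ ∃ H : Subgroup G, Cfsg.IsPiHall (↑π : Set ℕ) H ∧ IsMulCommutative ↥H := by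
  have key : ∀ q ∈ π, ∀ [Fact q.Prime] (Q : Sylow q G),
      Subgroup.normalizer ((Q : Subgroup G) : Set G) ≤ Subgroup.centralizer ((Q : Subgroup G) : Set G) := by
    intro q hq _ Q
    apply norm_le_cent_of_kq
    have h1 := kq_insert_le (G := G) (σ := π.erase q) (fun r hr => hπ r (Finset.mem_of_mem_erase hr)) (p := q)
    rw [Finset.insert_erase hq] at h1
    rw [← Finset.mul_prod_erase π _ hq, ← Q.card_eq_multiplicity] at hk
    have h3 := lt_of_lt_of_le hk (Nat.mul_le_mul_left _ h1)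
    rw [← mul_assoc, ← mul_assoc] at h3
    have h4 := Nat.lt_of_mul_lt_mul_right h3
    have h5 := hmin q hq
    have h6 := (hπ p hp).pos
    refine Nat.lt_of_mul_lt_mul_left (a := p) ?_
    have h7 : p * ((q + 1) * Nat.card (Q : Subgroup G)) ≤ q * ((p + 1) * Nat.card (Q : Subgroup G)) := by
      rw [← mul_assoc, ← mul_assoc]; exact Nat.mul_le_mul_right _ (by nlinarith)
    have h8 := Nat.mul_lt_mul_of_pos_left h4 (lt_of_lt_of_le h6 h5)
    nlinarith
  have hnpc : ∀ (q : ℕ) [Fact q.Prime], q ∈ (π : Set ℕ) → Cfsg.HasNormalPComplement q G := fun q _ hq =>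
    hasNPC_of_norm_le default (key q hq default)
  have hN := isPiHall_piCore_of_forall_hasNPC (π := (π : Set ℕ)) fun q _ hq _ => hnpc q hq
  have hN' := isPiHall_iff.1 hN
  rw [compl_compl] at hN'
  refine ⟨⟨_, inferInstance, hN'.1, hN'.2⟩, ?_⟩
  obtain ⟨H, hH⟩ := Subgroup.exists_right_complement'_of_coprime (coprime_of_piHall hN)
  have hH1 : IsPiNum π (Nat.card H) := hH.symm.index_eq_card ▸ hN'.2
  refine ⟨H, isPiHall_iff.2 ⟨hH1, hH.index_eq_card ▸ hN'.1⟩, ?_⟩
  have hn : Group.IsNilpotent H := isNilpotent_of_forall_hasNPC fun q hq hd =>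
    hasNPC_subgroup (hnpc q (hH1 q hq.out hd)) H
  rw [← Subgroup.le_centralizer_iff_isMulCommutative]
  refine le_of_forall_primePow_mem fun q k hq x hx ox => ?_
  refine (Subgroup.le_centralizer_iff (K := Subgroup.zpowers x)).1 ?_ (Subgroup.mem_zpowers x)
  rw [centralizer_zpowers]
  refine le_of_forall_primePow_mem fun r j hr y hy oy => Subgroup.mem_centralizer_singleton_iff.2 ?_
  by_cases e : r = q
  · subst e
    haveI := Fact.mk hr
    by_cases hx1 : x = 1
    · simp [hx1]
    have hd : r ∣ Nat.card H := (dvd_pow_self r fun e => hx1 (orderOf_eq_one_iff.1 (by rw [ox, e, pow_zero]))).trans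
      (ox ▸ orderOf_dvd_card_of_mem hx)
    obtain ⟨S, hS⟩ := exists_isSylowIn (p := r) H
    obtain ⟨Q, hQ⟩ := hS.isPGroup.exists_le_sylow
    have a := fun z hz hz' => hQ (hS.mem_of_mem_normalizer (x := z) hz hz' (hS.le_normalizer_of_nilpotent hn hz))
    exact key r (hH1 r hr hd) Q (Subgroup.le_normalizer (a x hx ⟨k, ox⟩)) y (a y hy ⟨j, oy⟩)
  · exact commute_of_coprime_of_nilpotent hn hy hx (by
      rw [ox, oy]; exact Nat.coprime_pow_primes _ _ hr hq e)

end Cfsg.Agent.S3899
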