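import Cfsg.Statements.S3903
import Cfsg.Agent.H1.MaxNil

set_option autoImplicit false
open Cfsg

namespace Cfsg.Agent.S3903

open scoped Pointwise
open H1
open Subgroup in
theorem aux {G : Type*} [Group G] [Finite G] (N : Subgroup G) [N.Normal] (hN : N ≠ ⊤)
    (h : ∀ x : G, x ∉ N → IsPrimePow (orderOf x) ∧ IsCoatom (Subgroup.centralizer ({x} : Set G))) :
    Group.IsSolvable G := by
  have hp : ∀ x : G, x ∉ N → ∀ p k : ℕ, p.Prime → orderOf x = p ^ k → IsPGroup p (centralizer ({x} : Set G)) := by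
    intro x hx p k hp hk
    haveI := Fact.mk hp
    refine isPGroup_of_forall_orderOf fun c hc => ?_
    obtain ⟨a, ha, b, hb, e, h1, h2⟩ := exists_p_part p c
    by_cases hb1 : b = 1
    · rw [e, hb1, mul_one]; exact h1
    exfalso
    have hcm : Commute x b := (mem_centralizer_singleton_iff.1 ((zpowers_le.2 hc) hb)).symm
    have hco : (orderOf x).Coprime (orderOf b) :=
      hk ▸ Nat.Coprime.pow_left k ((Nat.Prime.coprime_iff_not_dvd hp).2 h2)
    have h3 : x * b ∉ N := fun hm => hx ((zpowers_le.2 hm) (mem_zpowers_mul_left hcm hco))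
    have h4 := (h _ h3).1
    rw [hcm.orderOf_mul_eq_mul_orderOf_of_coprime hco] at h4
    rcases (Nat.Coprime.isPrimePow_dvd_mul hco h4).1 dvd_rfl with h5 | h5
    · have := Nat.le_of_dvd (orderOf_pos x) h5
      have h6 : orderOf b ≠ 1 := fun e => hb1 (orderOf_eq_one_iff.1 e)
      have := orderOf_pos x
      have := orderOf_pos b
      nlinarith [show 2 ≤ orderOf b by omega]
    · have := Nat.le_of_dvd (orderOf_pos b) h5
      have h6 : orderOf x ≠ 1 := fun e => hx (orderOf_eq_one_iff.1 e ▸ N.one_mem)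
      have := orderOf_pos x
      have := orderOf_pos b
      nlinarith [show 2 ≤ orderOf x by omega]
  haveI : Fact (Nat.Prime 2) := ⟨Nat.prime_two⟩
  by_cases h2 : ∃ x, x ∉ N ∧ ¬ ∃ k, orderOf x = 2 ^ k
  · obtain ⟨x, hx, h2⟩ := h2
    obtain ⟨p, k, hp', -, e⟩ := (isPrimePow_nat_iff _).1 (h x hx).1
    haveI := Fact.mk hp'
    have h3 := hp x hx p k hp' e.symm
    refine solvable_of_coatom G _ (h x hx).2 h3.isNilpotent fun S hS => ?_
    have : S = ⊥ := by
      have := H1.inf_eq_bot_of_coprime (IsPGroup.coprime_card_of_ne 2 p (fun e' => h2 ⟨k, e' ▸ e.symm⟩) _ _ hS.isPGroup h3)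
      rwa [inf_eq_left.2 hS.le] at this
    rw [this, commutator_bot_left]; exact bot_le
  push Not at h2
  by_cases hG : IsPGroup 2 G
  · exact isSolvable_of_isPGroup hG
  have hS : ∀ x, x ∉ N → IsSylowIn 2 (centralizer ({x} : Set G)) ⊤ := by
    intro x hx
    obtain ⟨k, hk⟩ := h2 x hx
    refine isSylowIn_of_maximal le_top (hp x hx 2 k Nat.prime_two hk) fun Q h3 h4 _ => ?_
    by_contra hne
    rw [(h x hx).2.2 Q (lt_of_le_of_ne h4 (Ne.symm hne))] at h3
    exact hG (h3.of_equiv topEquiv)
  obtain ⟨x, hx⟩ := exists_notMem hN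
  set P := centralizer ({x} : Set G) with hP
  have hPN : P ⊔ N = ⊤ := (h x hx).2.2 _ (lt_of_le_of_ne le_sup_left fun e => by
    have h3 : N ≤ P := le_sup_right.trans e.ge
    refine hG (isPGroup_of_forall_orderOf (P := ⊤) (fun y _ => ?_) |>.of_equiv topEquiv)
    by_cases hy : y ∈ N
    · exact exists_orderOf_eq_pow (hS x hx).isPGroup (h3 hy)
    · exact h2 y hy)
  set Z : Set G := ((P ⊓ centralizer (P : Set G) : Subgroup G) : Set G) \ N with hZ
  have c1 : ((⊤ : Subgroup G) \ N : Set G).ncard ≤ P.index * Z.ncard := by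
    have : Nat.card ((⊤ : Subgroup G) \ N : Set G) ≤ Nat.card ((G ⧸ P) × Z) := by
      refine Nat.card_le_card_of_surjective (fun a => ⟨a.1.out * a.2 * a.1.out⁻¹, mem_top _, fun hm => a.2.2.2 ?_⟩) ?_
      · have := ‹N.Normal›.conj_mem _ hm (a.1.out)⁻¹
        simpa [mul_assoc] using this
      · rintro ⟨y, -, hy⟩
        obtain ⟨g, -, hg⟩ := (hS x hx).conj (hS y hy)
        have hyg : y ∈ MulAut.conj g • P := hg ▸ mem_centralizer_singleton_iff.2 rfl
        have hc : g⁻¹ * y * g ∈ centralizer (P : Set G) := by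
          intro u hu
          have h3 : g * u * g⁻¹ ∈ centralizer ({y} : Set G) := hg ▸ conj_mem_conj_smul hu
          have h4 := mem_centralizer_singleton_iff.1 h3
          calc u * (g⁻¹ * y * g) = g⁻¹ * (g * u * g⁻¹ * y) * g := by group
            _ = _ := by rw [h4]; group
        refine ⟨((g : G ⧸ P), ⟨g⁻¹ * y * g, ⟨mem_conj_smul.1 hyg, hc⟩, fun hm => hy ?_⟩), Subtype.ext ?_⟩
        · have := ‹N.Normal›.conj_mem _ hm g
          simpa [mul_assoc] using this
        · obtain ⟨u, hu⟩ := QuotientGroup.mk_out_eq_mul P g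
          simp only [hu]
          have h4 := hc u u.2
          calc g * u * (g⁻¹ * y * g) * (g * u)⁻¹ = g * (u * (g⁻¹ * y * g)) * (g * u)⁻¹ := by group
            _ = _ := by rw [h4]; group
    rwa [Nat.card_prod] at this
  have c2 := Set.ncard_inter_add_ncard_diff_eq_ncard ((⊤ : Subgroup G) : Set G) (N : Set G)
  have c3 := Set.ncard_inter_add_ncard_diff_eq_ncard (P : Set G) (N : Set G)
  have c4 := card_sup_mul_card_inf (H := P) (K := N) le_normalizer_of_normal
  rw [hPN, card_top, ← P.card_mul_index, mul_assoc] at c4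
  have c5 := Nat.eq_of_mul_eq_mul_left Nat.card_pos c4
  rw [← coe_inf] at c2 c3
  rw [top_inf_eq] at c2
  have e1 : ∀ H : Subgroup G, (H : Set G).ncard = Nat.card H := fun H => rfl
  rw [e1, e1] at c2 c3
  rw [card_top, ← P.card_mul_index, ← c5, ← c3] at c2
  have c6 : ((P : Set G) \ N).ncard ≤ Z.ncard := by
    refine Nat.le_of_mul_le_mul_left (le_trans (le_of_eq ?_) c1) (Nat.pos_of_ne_zero index_ne_zero_of_finite)
    nlinarith
  have c7 : Z = (P : Set G) \ N := Set.eq_of_subset_of_ncard_le (fun z hz => ⟨hz.1.1, hz.2⟩) c6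
  have c8 : ∀ y ∈ P, y ∈ centralizer (P : Set G) := by
    intro y hy
    have a : ∀ y ∈ P, y ∉ N → y ∈ centralizer (P : Set G) := fun y h1 h2 => by
      have : y ∈ Z := c7 ▸ ⟨h1, h2⟩
      exact this.1.2
    have hxP : x ∈ P := mem_centralizer_singleton_iff.2 rfl
    by_cases hyN : y ∈ N
    · have : y = x⁻¹ * (x * y) := by group
      rw [this]
      exact mul_mem (inv_mem (a x hxP hx)) (a _ (mul_mem hxP hy) fun hm => hx ((N.mul_mem_cancel_right hyN).1 hm))
    · exact a y hy hyN
  refine solvable_of_coatom G P (h x hx).2 (hS x hx).isPGroup.isNilpotent fun S hS' => ?_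
  exact (commutator_le_of_le_normalizer le_normalizer).trans fun y hy u hu => c8 y (hS'.le hy) u (hS'.le hu)

/-- Let N be a proper normal subgroup of the finite group G such that every element x of G outside N has prime power order and has centralizer C_G(x) a maximal subgroup of G. Then N is solvable. -/
theorem result {G : Type*} [Group G] [Finite G] (N : Subgroup G) [N.Normal] (hN : N ≠ ⊤)
    (h : ∀ x : G, x ∉ N → IsPrimePow (orderOf x) ∧ IsCoatom (Subgroup.centralizer ({x} : Set G))) : Group.IsSolvable ↥N := by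
  haveI := aux N hN h
  infer_instance

end Cfsg.Agent.S3903
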