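import Cfsg.Statements.S3904
import Cfsg.Agent.H2.MaxCz

set_option autoImplicit false
open Cfsg

namespace Cfsg.Agent.S3904

open H1 Subgroup
open scoped commutatorElement

/-- Let G be a non-abelian finite group in which the centralizer of every non-central element is a maximal subgroup. Then G/Z(G) is either an elementary abelian p-group for some prime p, or a minimal non-abelian group (non-abelian with all proper subgroups abelian) of order p^a · q for distinct primes p, q with a normal Sylow p-subgroup. -/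
theorem result {G : Type*} [Group G] [Finite G] (hna : ¬ IsMulCommutative G)
    (h : ∀ x : G, x ∉ Subgroup.center G → IsCoatom (Subgroup.centralizer ({x} : Set G))) :
    (∃ p : ℕ, p.Prime ∧ Cfsg.IsElementaryAbelian p (⊤ : Subgroup (G ⧸ Subgroup.center G))) ∨
    (¬ IsMulCommutative (G ⧸ Subgroup.center G) ∧ (∀ H : Subgroup (G ⧸ Subgroup.center G), H ≠ ⊤ → IsMulCommutative ↥H) ∧
      ∃ p q a : ℕ, p.Prime ∧ q.Prime ∧ p ≠ q ∧ Nat.card (G ⧸ Subgroup.center G) = p ^ a * q ∧
        ∀ P : Subgroup (G ⧸ Subgroup.center G), Nat.card ↥P = p ^ a → P.Normal) := by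
  have ce : centralizer ((⊤ : Subgroup G) : Set G) = center G := by rw [coe_top, centralizer_univ]
  obtain ⟨f, hf⟩ : ∃ f, f = QuotientGroup.mk' (center G) := ⟨_, rfl⟩
  have sj : Function.Surjective f := hf ▸ QuotientGroup.mk'_surjective _
  have one : ∀ x : G, f x = 1 ↔ x ∈ centralizer ((⊤ : Subgroup G) : Set G) := fun x => by
    rw [hf, QuotientGroup.mk'_apply, QuotientGroup.eq_one_iff, ce]
  have cm : ∀ a b : G, f a * f b = f b * f a ↔ a * b * a⁻¹ * b⁻¹ ∈ centralizer ((⊤ : Subgroup G) : Set G) :=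
    fun a b => by
      refine Iff.trans ?_ (one (a * b * a⁻¹ * b⁻¹))
      simp only [map_mul, map_inv]
      rw [mul_inv_eq_one, mul_inv_eq_iff_eq_mul]
  rcases H2M.MC.struct (N := (⊤ : Subgroup G)) (fun x _ k => h x (ce ▸ k)) with
    ⟨p, hp, h1, h2⟩ | ⟨L, p, q, y, hp, hq, pq, hL, c, hy, y1, y2, h3, h4⟩
  · refine Or.inl ⟨p, hp, ⟨⟨fun a b => Subtype.ext ?_⟩⟩, fun a _ => ?_⟩
    · obtain ⟨x, hx⟩ := sj a
      obtain ⟨w, hw⟩ := sj b
      rw [coe_mul, coe_mul, ← hx, ← hw]
      exact (cm x w).2 (h1 _ trivial _ trivial)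
    · obtain ⟨x, rfl⟩ := sj a
      rw [← map_pow]; exact (one _).2 (h2 _ trivial)
  · haveI := Fact.mk hq
    haveI := Fact.mk hp
    obtain ⟨K, hK⟩ : ∃ K, K = L.map f := ⟨_, rfl⟩
    haveI : K.Normal := hK ▸ hL.map f sj
    have kL : f.ker ≤ L := fun x hx => c.ge ⟨trivial, (one x).1 hx⟩
    have Kp : IsPGroup p K := isPGroup_of_pow_eq_one (by
      rw [hK]
      rintro _ ⟨a, ha, rfl⟩
      rw [← map_pow]; exact (one _).2 (c.pow _ ha))
    have Kc : IsMulCommutative K := ⟨⟨by
      rw [hK]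
      rintro ⟨_, a, ha, rfl⟩ ⟨_, b, hb, rfl⟩
      exact Subtype.ext ((cm a b).2 (c.com _ ha _ hb))⟩⟩
    have yL : y ∉ L := fun k => y1 (by
      have := one y
      refine this.1 (orderOf_eq_one_iff.1 (Nat.eq_one_of_dvd_coprimes ((Nat.coprime_primes hp hq).2 pq)
        (orderOf_dvd_iff_pow_eq_one.2 ?_) (orderOf_dvd_iff_pow_eq_one.2 ?_)))
      · rw [← map_pow]; exact (one _).2 (c.pow _ k)
      · rw [← map_pow]; exact (one _).2 y2)
    have iK : K.index = q := by
      rw [hK, index_map_eq L sj kL, ← relIndex_top_right, ← top_le_iff.1 h3]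
      exact relIndex_sup_zpowers hq (le_normalizer_of_normal (mem_top y)) yL (c.ge ⟨trivial, y2⟩)
    obtain ⟨a, ha⟩ := IsPGroup.iff_card.1 Kp
    refine Or.inr ⟨fun k => c.ne fun n hn => h4 n hn ((cm y n).1 (k.1.1 _ _)), fun H hH => ?_,
      p, q, a, hp, hq, pq, by rw [← K.card_mul_index, ha, iK], fun P hP => ?_⟩
    · by_cases k : H ≤ K
      · exact ⟨⟨fun u v => Subtype.ext (comm_of_mem Kc (k u.2) (k v.2))⟩⟩
      have top := sup_eq_top_of_coatom (isCoatom_of_index_prime (iK ▸ hq)) k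
      have hn := inf_normal_of_abelian Kc top
      rcases c.min ((K ⊓ H).comap f) (hn.comap f) (fun x hx => by
        rw [mem_comap, (one x).2 hx.2]; exact one_mem _) (fun x hx => by
          have : f x ∈ K := hx.1
          rwa [hK, ← mem_comap, comap_map_eq_self kL] at this) with e | e
      · refine ⟨⟨fun u v => Subtype.ext ?_⟩⟩
        obtain ⟨w, hw⟩ := sj ⁅(u : G ⧸ center G), (v : G ⧸ center G)⁆
        refine commutatorElement_eq_one_iff_mul_comm.1 (hw ▸ (one w).2 (e ?_))
        rw [mem_comap, hw]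
        exact ⟨commutator_le_of_prime_index (iK ▸ hq) (commutator_mem_commutator trivial trivial),
          H.mul_mem (H.mul_mem (H.mul_mem u.2 v.2) (H.inv_mem u.2)) (H.inv_mem v.2)⟩
      · refine (hH ?_).elim
        rw [← top, eq_comm, sup_eq_right, hK]
        rintro _ ⟨x, hx, rfl⟩
        exact (e.ge hx).2
    · have l : P ≤ K := le_of_coprime_index (by
        rw [hP, iK]; exact ((Nat.coprime_primes hp hq).2 pq).pow_left a)
      rw [eq_of_le_of_card_ge l (by rw [hP, ha])]
      infer_instance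

end Cfsg.Agent.S3904
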