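import Cfsg.Statements.S3905
import Cfsg.Agent.H2.MaxCz

set_option autoImplicit false
open Cfsg

namespace Cfsg.Agent.S3905

open H1 Subgroup

/-- Let N be a normal subgroup of the finite group G such that for every element x of N outside the center of N the centralizer C_G(x) is a maximal subgroup of G. Then N/Z(N) is either an elementary abelian p-group for some prime p, or a Frobenius group whose kernel is an elementary abelian normal subgroup and whose complement has prime order. -/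
theorem result {G : Type*} [Group G] [Finite G] (N : Subgroup G) [N.Normal]
    (h : ∀ x : G, x ∈ N → x ∉ Subgroup.centralizer (N : Set G) → IsCoatom (Subgroup.centralizer ({x} : Set G))) :
    (∃ p : ℕ, p.Prime ∧ Cfsg.IsElementaryAbelian p (⊤ : Subgroup (↥N ⧸ Subgroup.center ↥N))) ∨
    (∃ (Q K : Subgroup (↥N ⧸ Subgroup.center ↥N)) (p : ℕ), p.Prime ∧ Cfsg.IsFrobeniusComplement Q ∧ (Nat.card ↥Q).Prime ∧
      K.Normal ∧ (K : Set (↥N ⧸ Subgroup.center ↥N)) = Cfsg.frobeniusKernel Q ∧ Cfsg.IsElementaryAbelian p K) := by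
  obtain ⟨f, hf⟩ : ∃ f, f = QuotientGroup.mk' (center N) := ⟨_, rfl⟩
  have sj : Function.Surjective f := hf ▸ QuotientGroup.mk'_surjective _
  have one : ∀ x : N, f x = 1 ↔ (x : G) ∈ centralizer (N : Set G) := fun x => by
    rw [hf, QuotientGroup.mk'_apply, QuotientGroup.eq_one_iff, mem_center_iff]
    exact ⟨fun k y hy => congrArg Subtype.val (k ⟨y, hy⟩), fun k y => Subtype.ext (k y y.2)⟩
  have cm : ∀ a b : N, f a * f b = f b * f a ↔ (a : G) * b * (a : G)⁻¹ * (b : G)⁻¹ ∈ centralizer (N : Set G) :=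
    fun a b => by
      refine Iff.trans ?_ (one (a * b * a⁻¹ * b⁻¹))
      simp only [map_mul, map_inv]
      rw [mul_inv_eq_one, mul_inv_eq_iff_eq_mul]
  rcases H2M.MC.struct h with ⟨p, hp, h1, h2⟩ | ⟨L, p, q, y, hp, hq, pq, hL, c, hy, y1, y2, h3, h4⟩
  · refine Or.inl ⟨p, hp, ⟨⟨fun a b => Subtype.ext ?_⟩⟩, fun a _ => ?_⟩
    · obtain ⟨x, hx⟩ := sj a
      obtain ⟨w, hw⟩ := sj b
      rw [coe_mul, coe_mul, ← hx, ← hw]
      exact (cm x w).2 (h1 _ x.2 _ w.2)
    · obtain ⟨x, rfl⟩ := sj a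
      rw [← map_pow]; exact (one _).2 (h2 _ x.2)
  · haveI := Fact.mk hq
    haveI : ((L.subgroupOf N).map f).Normal := (inferInstance : (L.subgroupOf N).Normal).map f sj
    have o : orderOf (f ⟨y, hy⟩) = q := orderOf_eq_prime (by rw [← map_pow]; exact (one _).2 y2)
      fun e => y1 ((one _).1 e)
    have top : (L.subgroupOf N).map f ⊔ zpowers (f ⟨y, hy⟩) = ⊤ := eq_top_iff.2 fun w _ => by
      obtain ⟨x, rfl⟩ := sj w
      obtain ⟨a, ha, _, ⟨k, rfl⟩, e⟩ := mem_sup_of_normal_left.1 (h3 x.2)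
      rw [show x = ⟨a, c.le ha⟩ * ⟨y, hy⟩ ^ k from Subtype.ext e.symm, map_mul, map_zpow]
      exact mul_mem (mem_sup_left (mem_map_of_mem f ha)) (mem_sup_right (zpow_mem (mem_zpowers _) k))
    have fp : Fpf (zpowers (f ⟨y, hy⟩)) ((L.subgroupOf N).map f) := fpf_iff.2 (by
      rintro w hw _ ⟨n, hn, rfl⟩ e
      refine or_iff_not_imp_left.2 fun w1 => (one n).2 (h4 n hn ((cm ⟨y, hy⟩ n).1 ?_))
      have e1 : zpowers w = zpowers (f ⟨y, hy⟩) := eq_of_le_of_card_ge (zpowers_le.2 hw) (by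
        rw [Nat.card_zpowers, Nat.card_zpowers, o, ((Nat.dvd_prime hq).1
          (o ▸ orderOf_dvd_of_mem_zpowers hw)).resolve_left fun k => w1 (orderOf_eq_one_iff.1 k)])
      obtain ⟨k, hk⟩ := e1.ge (mem_zpowers _)
      rw [← hk]
      exact (show Commute w (f n) from e).zpow_left k)
    refine Or.inr ⟨_, _, p, hp, isFrob_of_fpf top (fun e => c.ne fun a ha => (one ⟨a, c.le ha⟩).1
      (mem_bot.1 (e ▸ mem_map_of_mem f ha))) (fun e => y1 ((one ⟨y, hy⟩).1 (zpowers_eq_bot.1 e))) fp,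
      by rwa [Nat.card_zpowers, o], inferInstance, (frobeniusKernel_eq top fp).symm, ⟨⟨?_⟩⟩, ?_⟩
    · rintro ⟨_, a, ha, rfl⟩ ⟨_, b, hb, rfl⟩
      exact Subtype.ext ((cm a b).2 (c.com _ ha _ hb))
    · rintro _ ⟨a, ha, rfl⟩
      rw [← map_pow]; exact (one _).2 (c.pow _ ha)

end Cfsg.Agent.S3905
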