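import Cfsg.Statements.S3908
import Cfsg.Agent.H9.SPE

set_option autoImplicit false
open Cfsg

namespace Cfsg.Agent.S3908

open Subgroup
theorem aux {G : Type*} [Group G] [Finite G] (hB : ∀ A B : Subgroup G, IsMulCommutative ↥A → IsMulCommutative ↥B → Nat.card ↥A = Nat.card ↥B → ∃ g : G, B = A.map (MulAut.conj g).toMonoidHom)
    {p : ℕ} [hp : Fact p.Prime] (P : Subgroup G) (hP : IsPGroup p P) (h : 2 ≤ FT.rk p P) : ∀ x ∈ P, x ^ p = 1 := by
  intro x hx
  by_contra hne
  obtain ⟨A, hA⟩ := FT.le_rk_iff.mp h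
  obtain ⟨k, hk⟩ := IsPGroup.iff_orderOf.mp hP ⟨x, hx⟩
  rw [Subgroup.orderOf_mk] at hk
  have hk2 : 2 ≤ k := by
    by_contra h2
    apply hne
    rw [← orderOf_dvd_iff_pow_eq_one, hk]
    exact (pow_dvd_pow p (show k ≤ 1 by omega)).trans (by simp)
  have ho : orderOf (x ^ p ^ (k - 2)) = p ^ 2 := by
    rw [orderOf_pow_of_dvd (pow_ne_zero _ hp.out.ne_zero) (hk ▸ pow_dvd_pow p (by omega)), hk,
      Nat.pow_div (by omega) hp.out.pos]
    congr 1; omega
  obtain ⟨g, hg⟩ := hB A (zpowers (x ^ p ^ (k - 2))) hA.comm inferInstance (by rw [hA.card, Nat.card_zpowers, ho])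
  have h1 := mem_zpowers (x ^ p ^ (k - 2))
  rw [hg] at h1
  obtain ⟨a, ha, e⟩ := h1
  have h2 : (x ^ p ^ (k - 2)) ^ p = 1 := by
    rw [← e, ← map_pow, hA.elem.2 a ha, map_one]
  rw [← orderOf_dvd_iff_pow_eq_one, ho] at h2
  have := Nat.le_of_dvd hp.out.pos h2
  have := hp.out.one_lt
  nlinarith

/-- Let G be a finite group in which any two abelian subgroups of the same order are conjugate. Then a Sylow 2-subgroup of G is cyclic, elementary abelian or generalized quaternion, and for an odd prime p a Sylow p-subgroup of G is cyclic or has exponent dividing p. -/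
theorem result {G : Type*} [Group G] [Finite G] (hB : ∀ A B : Subgroup G, IsMulCommutative ↥A → IsMulCommutative ↥B → Nat.card ↥A = Nat.card ↥B → ∃ g : G, B = A.map (MulAut.conj g).toMonoidHom) :
    (∀ P : Sylow 2 G, IsCyclic ↥(P : Subgroup G) ∨ Cfsg.IsElementaryAbelian 2 (P : Subgroup G) ∨ ∃ k : ℕ, Nonempty (↥(P : Subgroup G) ≃* QuaternionGroup (2 ^ k))) ∧
    ∀ (p : ℕ) [Fact p.Prime], p ≠ 2 → ∀ P : Sylow p G, IsCyclic ↥(P : Subgroup G) ∨ ∀ x ∈ (P : Subgroup G), x ^ p = 1 := by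
  haveI : Fact (Nat.Prime 2) := ⟨Nat.prime_two⟩
  refine ⟨fun P => ?_, fun p _ hp P => ?_⟩
  · by_cases h : 2 ≤ FT.rk 2 (P : Subgroup G)
    · have h1 := aux hB _ P.isPGroup' h
      refine Or.inr (Or.inl ⟨⟨⟨fun x y => Subtype.ext ?_⟩⟩, h1⟩)
      have hx := h1 x x.2
      have hy := h1 y y.2
      have hxy := h1 _ (x * y).2
      rw [pow_two] at hx hy hxy
      push_cast at hxy ⊢
      calc (x : G) * y = x * (x * y * (x * y)) * y := by rw [hxy, mul_one]
        _ = (x * x) * (y * x) * (y * y) := by group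
        _ = y * x := by rw [hx, hy, one_mul, mul_one]
    · rcases H9.cyclic_or_quat P.isPGroup' (by omega) with h | ⟨-, h⟩
      · exact Or.inl h
      · exact Or.inr (Or.inr h)
  · by_cases h : 2 ≤ FT.rk p (P : Subgroup G)
    · exact Or.inr (aux hB _ P.isPGroup' h)
    · exact Or.inl (FT.isCyclic_of_rk_le_one P.isPGroup' (Or.inl hp) (by omega))

end Cfsg.Agent.S3908
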