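import Cfsg.Statements.S3909
import Cfsg.Agent.L.PG3
import Cfsg.Agent.H9.Basic

set_option autoImplicit false
open Cfsg

namespace Cfsg.Agent.S3909

open H9

/-- Let G be a finite group in which any two abelian subgroups of the same order are conjugate. Let M be a normal subgroup of G. If M contains an element of the same order as a ∈ G, then a ∈ M; and if M is elementary abelian of order p^t with p prime and t ≥ 2, then M is the unique Sylow p-subgroup of G. -/
theorem result {G : Type*} [Group G] [Finite G] (hB : ∀ A B : Subgroup G, IsMulCommutative ↥A → IsMulCommutative ↥B → Nat.card ↥A = Nat.card ↥B → ∃ g : G, B = A.map (MulAut.conj g).toMonoidHom) (M : Subgroup G) [M.Normal] :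
    (∀ a : G, (∃ m ∈ M, orderOf m = orderOf a) → a ∈ M) ∧
    ∀ (p t : ℕ) [Fact p.Prime], 2 ≤ t → Nat.card ↥M = p ^ t → Cfsg.IsElementaryAbelian p M → ∀ P : Sylow p G, (P : Subgroup G) = M := by
  have h1 : ∀ a : G, (∃ m ∈ M, orderOf m = orderOf a) → a ∈ M := by
    rintro a ⟨m, hm, e⟩
    obtain ⟨g, hg⟩ := hB (Subgroup.zpowers m) (Subgroup.zpowers a) inferInstance inferInstance
      (by rw [Nat.card_zpowers, Nat.card_zpowers, e])
    rw [cj_def', cj_zpowers] at hg
    have : Subgroup.zpowers a ≤ M := by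
      rw [hg, Subgroup.zpowers_le]; exact ‹M.Normal›.conj_mem m hm g
    exact this (Subgroup.mem_zpowers a)
  refine ⟨h1, fun p t _ ht hc hE P => ?_⟩
  have hp : p.Prime := Fact.out
  have hM : IsPGroup p M := IsPGroup.of_card hc
  have hMP : M ≤ P := hM.le_sylow_of_normal P
  refine le_antisymm (fun x hx => ?_) hMP
  obtain ⟨m, hm⟩ : ∃ m : M, orderOf m = p :=
    exists_prime_orderOf_dvd_card' p (by rw [hc]; exact dvd_pow_self p (by omega))
  by_cases hx1 : x = 1
  · rw [hx1]; exact M.one_mem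
  obtain ⟨n, hn⟩ := L.exists_orderOf_eq_pow_succ P.isPGroup' hx hx1
  rcases Nat.eq_zero_or_pos n with rfl | hn0
  · exact h1 x ⟨m, m.2, by rw [hn, Subgroup.orderOf_coe, hm]; simp⟩
  · exfalso
    obtain ⟨E, hEM, hE2⟩ := L.exists_le_card hM 2 (by rw [hc]; exact Nat.pow_le_pow_right hp.pos ht)
    obtain ⟨k, rfl⟩ : ∃ k, n = k + 1 := ⟨n - 1, by omega⟩
    have ho : orderOf (x ^ p ^ k) = p ^ 2 := by
      rw [orderOf_pow_of_dvd (pow_pos hp.pos k).ne' (by rw [hn]; exact pow_dvd_pow p (by omega)), hn,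
        show k + 1 + 1 = k + 2 by ring, pow_add, Nat.mul_div_cancel_left _ (pow_pos hp.pos k)]
    obtain ⟨g, hg⟩ := hB E (Subgroup.zpowers (x ^ p ^ k)) (H1.isMulCommutative_of_le hEM hE.1) inferInstance
      (by rw [Nat.card_zpowers, ho, hE2])
    have h2 : x ^ p ^ k ∈ M := by
      have : Subgroup.zpowers (x ^ p ^ k) ≤ M := by
        rw [hg, cj_def']; exact (cj_mono g hEM).trans (cj_eq_of_normal g M).le
      exact this (Subgroup.mem_zpowers _)
    have h3 := orderOf_dvd_of_pow_eq_one (hE.2 _ h2)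
    rw [ho] at h3
    have := Nat.le_of_dvd hp.pos h3
    nlinarith [hp.one_lt]

end Cfsg.Agent.S3909
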