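import Cfsg.Statements.S3910
import Cfsg.Agent.H1.Misc
import Cfsg.Agent.H9.Basic
import Cfsg.Agent.H1.Fitting
import Mathlib.GroupTheory.SpecificGroups.ZGroup

set_option autoImplicit false
open Cfsg

namespace Cfsg.Agent.S3910

open H9

/-- A finite nilpotent group in which any two abelian subgroups of the same order are conjugate is cyclic. -/
theorem result {G : Type*} [Group G] [Finite G] (hB : ∀ A B : Subgroup G, IsMulCommutative ↥A → IsMulCommutative ↥B → Nat.card ↥A = Nat.card ↥B → ∃ g : G, B = A.map (MulAut.conj g).toMonoidHom) (hnil : Group.IsNilpotent G) : IsCyclic G := by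
  have hZ : IsZGroup G := by
    refine ⟨fun p hp P => ?_⟩
    haveI := Fact.mk hp
    by_contra hnc
    have hPn : (P : Subgroup G).Normal := inferInstance
    have hP0 : (P : Subgroup G) ≠ ⊥ := fun h => hnc (by rw [h]; infer_instance)
    -- a central element of order p
    have hc : (P : Subgroup G) ⊓ Subgroup.centralizer ((⊤ : Subgroup G) : Set G) ≠ ⊥ :=
      H1.nilpotent_inf_centralizer_ne_bot (L := ⊤) inferInstance le_top Subgroup.le_normalizer_of_normal hP0
    obtain ⟨z, hz, hzp⟩ := H1.exists_prime_orderOf_mem hc
    have hzo : orderOf z = p := by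
      have h1 : z ≠ 1 := by rintro rfl; simp at hzp; exact Nat.not_prime_one hzp
      obtain ⟨n, hn⟩ := L.exists_orderOf_eq_pow_succ P.isPGroup' hz.1 h1
      rw [hn] at hzp ⊢
      have := hzp.eq_one_of_pow
      rw [this, pow_one]
    have hzc : ∀ g, g * z * g⁻¹ = z := fun g => by
      have := hz.2 g (Subgroup.mem_top g)
      rw [this]; simp
    have huniq : ∀ A : Subgroup G, Nat.card A = p → A = Subgroup.zpowers z := by
      intro A hA
      haveI : IsCyclic A := isCyclic_of_prime_card hA
      obtain ⟨g, hg⟩ := hB (Subgroup.zpowers z) A inferInstance inferInstance (by rw [Nat.card_zpowers, hzo, hA])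
      rw [hg, cj_def', cj_zpowers, hzc]
    rcases L.normal_rank_one (P := (P : Subgroup G)) P.isPGroup' (fun A _ _ hA hA2 => by
      obtain ⟨x, hxA, hx⟩ : ∃ x ∈ A, x ∉ Subgroup.zpowers z := by
        by_contra h
        push Not at h
        have := Subgroup.card_le_of_le (show A ≤ Subgroup.zpowers z from h)
        rw [hA2, Nat.card_zpowers, hzo] at this
        nlinarith [hp.one_lt]
      have hx1 : x ≠ 1 := by rintro rfl; exact hx (Subgroup.one_mem _)
      have := huniq (Subgroup.zpowers x) (by rw [Nat.card_zpowers, orderOf_eq_prime (hA.2 x hxA) hx1])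
      exact hx (this ▸ Subgroup.mem_zpowers x)) with h | ⟨rfl, h⟩
    · exact hnc h
    · obtain ⟨n, a, b, ha, hb, hn, hao, hi, hba, hd⟩ := h
      have ht : Subgroup.zpowers (a ^ 2 ^ n) = Subgroup.zpowers z :=
        huniq _ (by rw [Nat.card_zpowers, L.orderOf_pow_two_pow hao])
      have hb1 : b ≠ 1 := by rintro rfl; exact hba (Subgroup.one_mem _)
      have hb2 : b ^ 2 ≠ 1 := fun h => by
        have := huniq (Subgroup.zpowers b) (by rw [Nat.card_zpowers, orderOf_eq_prime h hb1])
        rw [← ht] at this
        have h2 : b ∈ Subgroup.zpowers (a ^ 2 ^ n) := this ▸ Subgroup.mem_zpowers b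
        exact hba ((Subgroup.zpowers_le.2 (Subgroup.pow_mem _ (Subgroup.mem_zpowers a) _)) h2)
      rcases hd with hd | hd | hd
      · exact hb2 hd.1
      · have hbo : orderOf b = 2 ^ 2 := by
          refine orderOf_eq_prime_pow (by simpa using hb2) ?_
          rw [show 2 ^ (1 + 1) = 2 * 2 by norm_num, pow_mul, hd.1, ← L.orderOf_pow_two_pow hao]
          nth_rewrite 2 [← L.orderOf_pow_two_pow hao]
          exact pow_orderOf_eq_one _
        obtain ⟨c, hc, hco⟩ := H1.exists_pow_orderOf_eq (x := a) (d := 2 ^ 2) (by
          rw [hao]; exact pow_dvd_pow 2 (by omega))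
        obtain ⟨g, hg⟩ := hB (Subgroup.zpowers c) (Subgroup.zpowers b) inferInstance inferInstance
          (by rw [Nat.card_zpowers, Nat.card_zpowers, hco, hbo])
        have hn : Subgroup.normalizer (Subgroup.zpowers a : Set G) = ⊤ := by
          refine H1.eq_top_of_forall_sylow_le fun q hq _ => ?_
          by_cases e : q = 2
          · subst e
            exact ⟨P, L.le_normalizer_of_relIndex_prime P.isPGroup' (Subgroup.zpowers_le.2 ha) (by rw [hi]; exact hp)⟩
          · haveI := Fact.mk hq
            obtain ⟨Q⟩ := (inferInstance : Nonempty (Sylow q G))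
            refine ⟨Q, H1.le_normalizer_of_le_centralizer (H1.le_centralizer_of_coprime_of_nilpotent
              (L := ⊤) inferInstance le_top le_top (H1.isPGroup_coprime Q.isPGroup' ?_))⟩
            rw [Nat.card_zpowers, hao]
            exact Nat.Coprime.pow_left _ ((Nat.coprime_primes hp hq).2 (Ne.symm e))
        have : Subgroup.zpowers b ≤ Subgroup.zpowers a := by
          rw [hg, cj_def']
          exact (cj_mono g (Subgroup.zpowers_le.2 hc)).trans
            (mem_normalizer_iff_cj.1 (hn ▸ Subgroup.mem_top g)).le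
        exact hba (this (Subgroup.mem_zpowers b))
      · exact hb2 hd.2.1
  infer_instance

end Cfsg.Agent.S3910
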