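import Cfsg.Statements.S3917
import Cfsg.Agent.H1.Misc3

set_option autoImplicit false
open Cfsg

namespace Cfsg.Agent.S3917

open H1

/-- Say that a group has self-centralizing non-cyclic subgroups when every non-cyclic subgroup H satisfies C_G(H) ≤ H. A finite abelian group with self-centralizing non-cyclic subgroups is cyclic or elementary abelian of order p² for a prime p. -/
theorem result {G : Type*} [CommGroup G] [Finite G] (hX : (∀ H : Subgroup G, ¬ IsCyclic ↥H → Subgroup.centralizer (H : Set G) ≤ H)) :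
    IsCyclic G ∨ ∃ p : ℕ, p.Prime ∧ Nat.card G = p ^ 2 ∧ Monoid.exponent G = p := by
  by_cases h : IsCyclic G
  · exact Or.inl h
  right
  have : ¬ IsZGroup G := fun _ => h inferInstance
  rw [isZGroup_iff] at this
  push Not at this
  obtain ⟨p, hp, P, hP⟩ := this
  haveI := Fact.mk hp
  obtain ⟨A, -, h1, h2⟩ := L.exists_elem_two P.isPGroup' hP (Or.inr inferInstance)
  have h3 : A = ⊤ := eq_top_iff.2 fun x _ => hX A (L.not_isCyclic_of_elem_sq h1 h2) fun y _ => mul_comm y x
  subst h3
  rw [Subgroup.card_top] at h2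
  haveI : Nontrivial G := Finite.one_lt_card_iff_nontrivial.1 (h2 ▸ Nat.one_lt_pow two_ne_zero hp.one_lt)
  exact ⟨p, hp, h2, Monoid.exponent_eq_prime_iff hp |>.2 fun g hg => orderOf_eq_prime (h1.2 g trivial) hg⟩

end Cfsg.Agent.S3917
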