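import Cfsg.Statements.S3918
import Cfsg.Agent.H1.Misc3

set_option autoImplicit false
open Cfsg

namespace Cfsg.Agent.S3918

open H1

/-- Say that a group has self-centralizing non-cyclic subgroups when every non-cyclic subgroup H satisfies C_G(H) ≤ H. For an odd prime p, a finite non-abelian p-group has self-centralizing non-cyclic subgroups if and only if it has order p³. -/
theorem result {G : Type*} [Group G] [Finite G] {p : ℕ} [Fact p.Prime] (hp : p ≠ 2) (hG : IsPGroup p G) (hna : ¬ IsMulCommutative G) :
    (∀ H : Subgroup G, ¬ IsCyclic ↥H → Subgroup.centralizer (H : Set G) ≤ H) ↔ Nat.card G = p ^ 3 := by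
  have hp0 : p.Prime := Fact.out
  obtain ⟨n, hn⟩ := hG.exists_card_eq
  have h3 : 3 ≤ n := by
    by_contra h
    exact hna (L.isMulCommutative_top_iff.1 (L.isMulCommutative_of_card_le_sq (hG.to_subgroup ⊤) (by
      rw [Subgroup.card_top, hn]; exact Nat.pow_le_pow_right hp0.pos (by omega))))
  constructor
  · intro h
    obtain ⟨A, -, h1, h2, h4⟩ := L.exists_normal_elem_two (P := ⊤) (S := ⊤) (hG.to_subgroup _) le_rfl
      Subgroup.le_normalizer (fun h => hna (by rw [L.isCyclic_top_iff] at h; infer_instance)) (Or.inl hp)
    have h5 := L.relIndex_centralizer_le_pow (hG.to_subgroup ⊤) 2 le_top h1 h4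
    have h6 := Subgroup.card_le_of_le (h A (L.not_isCyclic_of_elem_sq h2 h4))
    have h7 := Nat.mul_le_mul h6 h5
    rw [Subgroup.relIndex_top_right, Subgroup.card_mul_index, h4, hn, ← pow_add,
      Nat.pow_le_pow_iff_right hp0.one_lt] at h7
    rw [hn, show n = 3 from le_antisymm h7 h3]
  · intro h H hH
    by_cases e : H = ⊤
    · rw [e]; exact le_top
    obtain ⟨k, hk⟩ := L.exists_card_eq_pow (hG.to_subgroup H)
    have h1 := card_subgroup_lt e
    rw [hk, h, Nat.pow_lt_pow_iff_right hp0.one_lt] at h1
    have h2 : k = 2 := by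
      by_contra h2
      apply hH
      have : k = 0 ∨ k = 1 := by omega
      rcases this with rfl | rfl
      · rw [(show H = ⊥ from Subgroup.card_eq_one.1 (by simpa using hk))]; infer_instance
      · exact isCyclic_of_prime_card (p := p) (by simpa using hk)
    subst h2
    have h4 : (H.relIndex ⊤).Prime := by
      have := H.card_mul_index
      rw [hk, h, pow_succ p 2] at this
      rw [Subgroup.relIndex_top_right, Nat.eq_of_mul_eq_mul_left (pow_pos hp0.pos _) this]; exact hp0
    rcases L.eq_or_eq_of_relIndex_prime h4 (L.le_centralizer_of_comm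
      (L.isMulCommutative_of_card_le_sq (hG.to_subgroup H) hk.le)) le_top with h5 | h5
    · exact h5.le
    · exact absurd (L.isMulCommutative_top_iff.1 (L.isMulCommutative_of_relIndex_prime h4 le_top
        (Subgroup.le_centralizer_iff.1 h5.ge))) hna

end Cfsg.Agent.S3918
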