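import Cfsg.Statements.S3919
import Cfsg.Agent.L.PG4
import Mathlib

set_option autoImplicit false
open Cfsg

namespace Cfsg.Agent.S3919

open Subgroup

/-- Say that a group has self-centralizing non-cyclic subgroups when every non-cyclic subgroup H satisfies C_G(H) ≤ H. A finite non-abelian 2-group G of order 2^n has self-centralizing non-cyclic subgroups if and only if G has nilpotency class n − 1 (that is, G is dihedral, semidihedral or generalized quaternion). -/
theorem result {G : Type*} [Group G] [Finite G] (hna : ¬ IsMulCommutative G) (n : ℕ) (hG : Nat.card G = 2 ^ n) :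
    (∀ H : Subgroup G, ¬ IsCyclic ↥H → Subgroup.centralizer (H : Set G) ≤ H) ↔ (⊤ : Subgroup G).lowerCentralSeries (n - 2) ≠ ⊥ := by
  have hP := IsPGroup.of_card hG
  obtain ⟨m, rfl⟩ : ∃ m, n = m + 3 := ⟨n - 3, by
    by_contra h
    exact hna (L.isMulCommutative_top_iff.1 (L.isMulCommutative_of_card_le_sq (hP.to_subgroup ⊤)
      (by rw [card_top, hG]; exact Nat.pow_le_pow_right two_pos (by omega))))⟩
  refine ⟨fun h => ?_, fun h H hH => ?_⟩
  · by_cases h1 : ∃ A : Subgroup G, IsElementaryAbelian 2 A ∧ Nat.card A = 2 ^ 2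
    · obtain ⟨A, h2, h3⟩ := h1
      obtain ⟨x, -, hx⟩ := L.exists_centralizer_le_of_selfcent hP h3
        (h A (L.not_isCyclic_of_elem_sq h2 h3))
      exact (L.nilpotencyClass_eq_iff hG).1
        (L.max_class_of_centralizer _ hG x (h3 ▸ card_le_of_le hx))
    rcases L.normal_rank_one (hP.to_subgroup ⊤) (fun A _ _ h2 h3 => h1 ⟨A, h2, h3⟩) with
      h2 | ⟨-, k, a, b, -, -, h2, h3, h4, h5, h6⟩
    · exact absurd (L.isCyclic_top_iff.1 h2).isMulCommutative hna
    have e2 := (zpowers a).card_mul_index
    rw [relIndex_top_right] at h4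
    rw [Nat.card_zpowers, h3, h4, hG, ← pow_succ] at e2
    obtain rfl : k = m + 1 := by have := Nat.pow_right_injective le_rfl e2; omega
    exact h6.lcs_ne_bot h2 h3 trivial trivial
  · obtain ⟨a, b, h1, h2, h3, h4⟩ := L.dqs_of_max_class hG h
    have hi : (zpowers a).relIndex ⊤ = 2 := by rwa [relIndex_top_right]
    obtain ⟨y, hy, hya⟩ := SetLike.not_le_iff_exists.1 (mt H1.isCyclic_of_le_zpowers hH :
      ¬ H ≤ zpowers a)
    have h5 : zpowers (a ^ 2 ^ (m + 1)) ≤ H := by
      obtain ⟨x, hx, hxy⟩ := SetLike.not_le_iff_exists.1 (mt H1.isCyclic_of_le_zpowers hH :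
        ¬ H ≤ zpowers y)
      have h6 : H ⊓ zpowers a ≠ ⊥ := fun h0 => by
        by_cases hxa : x ∈ zpowers a
        · have : x ∈ H ⊓ zpowers a := ⟨hx, hxa⟩
          rw [h0, mem_bot] at this
          exact hxy (this ▸ one_mem _)
        · have : x * y ∈ H ⊓ zpowers a :=
            ⟨mul_mem hx hy, L.mul_mem_of_relIndex_two hi trivial trivial hxa hya⟩
          rw [h0, mem_bot, mul_eq_one_iff_eq_inv] at this
          exact hxy (this ▸ inv_mem (mem_zpowers y))
      haveI := normal_of_index_eq_two h2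
      have h7 := H9.inf_centralizer_ne_bot_of_p (hP.to_subgroup (H ⊓ zpowers a))
        (hP.to_subgroup (zpowers y)) (H9.normalizer_inf ((zpowers_le.2 hy).trans le_normalizer)
          le_normalizer_of_normal) h6
      have h8 : H ⊓ zpowers a ⊓ centralizer (zpowers y : Set G) ≤ zpowers (a ^ 2 ^ (m + 1)) :=
        fun z hz => (h4.commute_iff' (by omega) h1 (mem_top b) h3 hi trivial hya hz.1.2).1
          (hz.2 y (mem_zpowers y))
      rw [← eq_of_le_of_card_ge h8 (by
        rw [Nat.card_zpowers, L.orderOf_pow_two_pow h1]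
        exact L.le_card_of_ne_bot (hP.to_subgroup _) h7)]
      exact inf_le_left.trans inf_le_left
    intro g hg
    by_cases hga : g ∈ zpowers a
    · exact h5 ((h4.commute_iff' (by omega) h1 (mem_top b) h3 hi trivial hya hga).1 (hg y hy))
    · exact (mul_mem_cancel_right hy).1 (h5 ((h4.commute_iff' (by omega) h1 (mem_top b) h3 hi trivial hya
        (L.mul_mem_of_relIndex_two hi trivial trivial hga hya)).1
        (Commute.mul_right (hg y hy) (Commute.refl y))))

end Cfsg.Agent.S3919
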