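import Cfsg.Statements.S3920
import Cfsg.Agent.S1236
import Cfsg.Agent.H1.Mcy2
import Cfsg.Agent.H1.Invol

set_option autoImplicit false
open Cfsg

namespace Cfsg.Agent.S3920

open Subgroup DihedralGroup

def ix {n : ℕ} : DihedralGroup n → ZMod n
  | r j => j
  | sr j => j

def HH (n : ℕ) (m : ZMod n) : Subgroup (DihedralGroup n) where
  carrier := {x | m * ix x = 0}
  one_mem' := by show m * 0 = 0; simp
  mul_mem' := by
    rintro (a | a) (b | b) ha hb <;> simp only [Set.mem_setOf_eq, ix, r_mul_r, r_mul_sr, sr_mul_r, sr_mul_sr] at * <;>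
      first | linear_combination ha + hb | linear_combination hb - ha
  inv_mem' := by
    rintro (a | a) ha <;> simp only [Set.mem_setOf_eq, ix, inv_r, inv_sr] at * <;>
      first | linear_combination ha | linear_combination -ha

/-- Say that a group has self-centralizing non-cyclic subgroups when every non-cyclic subgroup H satisfies C_G(H) ≤ H. For n ≥ 3, the dihedral group of order 2n has self-centralizing non-cyclic subgroups if and only if n is odd or a power of 2. -/
theorem result (n : ℕ) (hn : 3 ≤ n) : (∀ H : Subgroup (DihedralGroup n), ¬ IsCyclic ↥H → Subgroup.centralizer (H : Set (DihedralGroup n)) ≤ H) ↔ (Odd n ∨ ∃ k : ℕ, n = 2 ^ k) := by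
  haveI : NeZero n := ⟨by omega⟩
  constructor
  · intro h
    obtain ⟨k, m, hm, rfl⟩ := Nat.exists_eq_two_pow_mul_odd (n := n) (by omega)
    rcases k with _ | k
    · exact Or.inl (by simpa using hm)
    by_cases h1 : m = 1
    · exact Or.inr ⟨k + 1, by rw [h1, mul_one]⟩
    exfalso
    have h0 : ((2 ^ (k + 1) * m : ℕ) : ZMod (2 ^ (k + 1) * m)) = 0 := ZMod.natCast_self _
    have := h (HH _ m) (fun hc => ?_) (x := r ((2 ^ k * m : ℕ) : ZMod _)) ?_
    · have h2 : ((m * (2 ^ k * m) : ℕ) : ZMod (2 ^ (k + 1) * m)) = 0 := by rw [Nat.cast_mul]; exact this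
      rw [ZMod.natCast_eq_zero_iff, pow_succ, mul_right_comm, mul_comm m,
        Nat.mul_dvd_mul_iff_left (by have := hm.pos; positivity)] at h2
      exact (Nat.not_even_iff_odd.2 hm) (even_iff_two_dvd.2 h2)
    · have h2 := congrArg Subtype.val ((inferInstance : IsMulCommutative (HH _ m)).1.1
        ⟨r ((2 ^ (k + 1) : ℕ) : ZMod (2 ^ (k + 1) * m)), by
          show (m : ZMod (2 ^ (k + 1) * m)) * ((2 ^ (k + 1) : ℕ) : ZMod _) = 0
          rw [← Nat.cast_mul, mul_comm m, h0]⟩ ⟨sr 0, mul_zero _⟩)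
      simp only [coe_mul, r_mul_sr, sr_mul_r, sr.injEq] at h2
      have h3 : ((2 ^ (k + 1) * 2 : ℕ) : ZMod (2 ^ (k + 1) * m)) = 0 := by
        rw [Nat.cast_mul]; push_cast at h2 ⊢; linear_combination -h2
      rw [ZMod.natCast_eq_zero_iff, Nat.mul_dvd_mul_iff_left (by positivity)] at h3
      rcases (Nat.dvd_prime Nat.prime_two).1 h3 with h | h
      · exact h1 h
      · rw [h] at hm; exact absurd hm (by decide)
    · rintro (a | a) -
      · simp [add_comm]
      · rw [r_mul_sr, sr_mul_r]
        congr 1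
        push_cast at h0 ⊢
        linear_combination h0
  · intro h H hH
    obtain ⟨s, hs, hs'⟩ := SetLike.not_le_iff_exists.1 fun h' : H ≤ zpowers (r 1) => hH (isCyclic_of_le h')
    rcases s with i | i
    · exact absurd (S1236.mem_r i) hs'
    obtain ⟨j, hj, hj'⟩ : ∃ j, r j ∈ H ∧ r j ≠ 1 := by
      obtain ⟨u, hu, hu'⟩ := SetLike.not_le_iff_exists.1 fun h' : H ≤ zpowers (sr i) => hH (isCyclic_of_le h')
      rcases u with j | j
      · exact ⟨j, hu, fun h => hu' (h ▸ one_mem _)⟩
      · refine ⟨_, mul_mem hs hu, fun h => hu' ?_⟩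
        rw [← sr_mul_sr, mul_eq_one_iff_inv_eq] at h
        exact h ▸ inv_mem (mem_zpowers _)
    have key : ∀ k, Commute (sr i) (r k) → r k ∈ H := fun k hk => by
      have := hk.eq
      rw [sr_mul_r, r_mul_sr, sr.injEq] at this
      have h2 : k + k = 0 := by linear_combination this
      rcases h with h | ⟨e, rfl⟩
      · rw [(ZMod.add_self_eq_zero_iff_eq_zero h).1 h2]; exact one_mem _
      by_cases h0 : r k = 1
      · rw [h0]; exact one_mem _
      have h3 : orderOf (r k) = 2 := orderOf_eq_prime (by rw [pow_two, r_mul_r, h2]; rfl) h0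
      rcases H1.le_or_le_of_cyclic (IsPGroup.of_card (p := 2) (n := e + 1) (by rw [nat_card, pow_succ'])) inferInstance
        (zpowers_le.2 (S1236.mem_r k)) (zpowers_le.2 (S1236.mem_r j)) with h4 | h4
      · exact zpowers_le.2 hj (h4 (mem_zpowers _))
      · rwa [← ((H1.mem_zpowers_two h3).1 (h4 (mem_zpowers _))).resolve_left hj']
    rintro (k | k) hc
    · exact key k (hc _ hs)
    · exact (mul_mem_cancel_left hs).1 (key _ ((Commute.refl (sr i)).mul_right (hc _ hs)))

end Cfsg.Agent.S3920
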