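import Cfsg.Statements.S3927
import Cfsg.Agent.H2.Flav

set_option autoImplicit false
open Cfsg

namespace Cfsg.Agent.S3927

open Subgroup H2.Flav
open scoped Pointwise

theorem int {X : Type*} [Group X] [Finite X] (a : X) (k : ℕ) (H : Subgroup X) : a ∈ H → NC (zpowers a) H →
    H ≤ zpowers a ⊔ closure ((fun x => x * a * x⁻¹ * a⁻¹)^[k] '' H) := by
  induction H using WellFoundedLT.induction with | ind H ih
  intro ha hH
  set W := zpowers a ⊔ closure ((fun x => x * a * x⁻¹ * a⁻¹)^[k] '' H)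
  by_contra h0
  obtain ⟨M, hM, h1⟩ := H1.exists_coatom_ge (H := W.subgroupOf H) (by rwa [Ne, subgroupOf_eq_top])
  set b : H := ⟨a, ha⟩
  have e1 : (zpowers b).map H.subtype = zpowers a := MonoidHom.map_zpowers _ _
  have hF : Full (zpowers b) := fun N hN h => eq_top_iff.2 fun x _ => by
    obtain ⟨y, hy, e⟩ := hH _ (map_subtype_le N) (e1 ▸ map_mono h) (H1.normal_map_subtype_iff.1 hN) x.2
    exact Subtype.ext e ▸ hy
  have hU := join_or_unique (zpowers b) hF hM fun K k1 k2 k3 => by
    refine le_trans (fun x hx => ?_) h1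
    refine (ih (K.map H.subtype) (lt_of_le_of_ne (map_subtype_le K) fun e => k2 (map_injective H.subtype_injective (by
      rw [e, ← MonoidHom.range_eq_map, range_subtype]))) ⟨b, k1 (mem_zpowers b), rfl⟩ fun N n1 n2 n3 => ?_).trans
      (sup_le_sup_left (Subgroup.closure_mono (Set.image_mono (map_subtype_le K))) _) ⟨x, hx, rfl⟩
    refine map_le_iff_le_comap.2 (k3 (N.subgroupOf H) (fun y hy => ?_) (map_le_iff_le_comap.1 (e1 ▸ n2)) ?_)
    · obtain ⟨z, hz, e⟩ := n1 hy
      exact Subtype.ext e ▸ hz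
    · exact (H1.subgroupOf_map_subtype_self K).ge.trans (H1.le_normalizer_subgroupOf H n3)
  have hb : b ∈ M := h1 (mem_sup_left (mem_zpowers a))
  have key : ∀ g : H, g * b * g⁻¹ * b⁻¹ ∈ M → g ∈ M := fun g hg => by
    have h2 : g * b * g⁻¹ ∈ M := by simpa using M.mul_mem hg hb
    exact (M.inv_mem_iff).1 (hF.norm hM (zpowers_le.2 hb) (H1.conj_smul_eq_self_iff.1 (hU _ _ (coatom_smul hM g⁻¹) hM
      (zpowers_le.2 (H1.mem_conj_smul.2 (by simpa using h2))) (zpowers_le.2 hb))))
  have k2 : ∀ j (g : H), (fun x => x * b * x⁻¹ * b⁻¹)^[j] g ∈ M → g ∈ M := fun j => by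
    induction j with
    | zero => exact fun _ h => h
    | succ j ih => exact fun g hg => key g (ih _ hg)
  refine hM.1 (eq_top_iff.2 fun g _ => k2 k g (h1 (mem_sup_right (subset_closure ⟨g, g.2, ?_⟩))))
  exact (Function.Semiconj.iterate_right (f := ((↑) : H → X)) (fun _ => rfl) k g).symm

/-- Let G be a finite group and α an automorphism of G with [G, α] = G, that is, the elements g·α(g)⁻¹ generate G. Then for every k ≥ 1 the iterated commutators [g, α, …, α] with k entries α — the values of the k-th iterate of the map c ↦ c·α(c)⁻¹ — also generate G. -/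
theorem result {G : Type*} [Group G] [Finite G] (α : MulAut G) (hG : Subgroup.closure (Set.range (fun c : G => c * (α c)⁻¹)) = ⊤) (k : ℕ) (hk : 1 ≤ k) :
    Subgroup.closure (Set.range ((fun c : G => c * (α c)⁻¹)^[k])) = ⊤ := by
  let φ := (zpowers α).subtype
  let a : G ⋊[φ] zpowers α := SemidirectProduct.inr ⟨α, mem_zpowers α⟩
  have h1 : ∀ x : G ⋊[φ] zpowers α, x * a * x⁻¹ * a⁻¹ = SemidirectProduct.inl (x.left * (α x.left)⁻¹) := fun x => by
    have c : x.right * ⟨α, mem_zpowers α⟩ * x.right⁻¹ = ⟨α, mem_zpowers α⟩ := mul_inv_eq_iff_eq_mul.2 (mul_comm' _ _)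
    conv_lhs => rw [← x.inl_left_mul_inr_right]
    calc _ = SemidirectProduct.inl x.left * ((SemidirectProduct.inr x.right * a * (SemidirectProduct.inr x.right)⁻¹) *
        (SemidirectProduct.inl x.left)⁻¹ * a⁻¹) := by group
      _ = _ := by
        rw [← map_mul, ← map_inv, ← map_mul, c, ← map_inv, ← map_inv, ← SemidirectProduct.inl_aut, ← map_mul, map_inv]; rfl
  set E := closure (Set.range ((fun c : G => c * (α c)⁻¹)^[k]))
  have h2 : ∀ x ∈ E, α x ∈ E := fun x hx => map_le_iff_le_comap.1 (show E.map α.toMonoidHom ≤ E by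
    rw [MonoidHom.map_closure]
    refine Subgroup.closure_mono ?_
    rintro _ ⟨_, ⟨c, rfl⟩, rfl⟩
    exact ⟨α c, (Function.Semiconj.iterate_right (f := α) (fun c => by simp) k c).symm⟩) hx
  have h3 : ∀ β : zpowers α, ∀ x ∈ E, φ β x ∈ E := fun β => by
    obtain ⟨j, hj⟩ := (mem_powers_iff_mem_zpowers.2 β.2)
    rw [show φ β = α ^ j from hj.symm]
    clear hj
    induction j with
    | zero => exact fun _ h => h
    | succ j ih => exact fun x hx => ih _ (h2 x hx)
  let Z : Subgroup (G ⋊[φ] zpowers α) :=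
    { carrier := {x | x.left ∈ E}
      mul_mem' := fun hx hy => E.mul_mem hx (h3 _ _ hy)
      one_mem' := E.one_mem
      inv_mem' := fun hx => h3 _ _ (E.inv_mem hx) }
  haveI : Finite (G ⋊[φ] zpowers α) := Finite.of_equiv _ SemidirectProduct.equivProd.symm
  have h4 := (int a k ⊤ (mem_top a) fun N _ n1 n2 x _ => ?_).trans (show _ ≤ Z from sup_le (zpowers_le.2 E.one_mem)
    ((closure_le _).2 ?_))
  · exact eq_top_iff.2 fun c _ => h4 (mem_top (SemidirectProduct.inl c))
  · have n3 := n1 (mem_zpowers a)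
    rw [← x.inl_left_mul_inr_right]
    refine N.mul_mem (((closure_le (N.comap SemidirectProduct.inl)).2 ?_) (hG.ge (mem_top x.left))) (n1 ?_)
    · rintro _ ⟨c, rfl⟩
      have := N.mul_mem (H1.conj_mem_of_mem_normalizer (n2 (mem_top (SemidirectProduct.inl c))) n3) (N.inv_mem n3)
      rwa [h1] at this
    · obtain ⟨j, hj⟩ := x.right.2
      exact ⟨j, (map_zpow SemidirectProduct.inr _ j).symm.trans (congrArg _ (Subtype.ext hj))⟩
  · rintro _ ⟨x, -, rfl⟩
    obtain ⟨k, rfl⟩ := Nat.exists_eq_add_of_le' hk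
    rw [Function.iterate_succ_apply, h1, ← Function.Semiconj.iterate_right (f := SemidirectProduct.inl)
      (ga := fun c : G => c * (α c)⁻¹) (fun c => (h1 (SemidirectProduct.inl c)).symm) k]
    exact subset_closure ⟨x.left, rfl⟩

end Cfsg.Agent.S3927
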