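import Cfsg.Statements.S3937
import Cfsg.Agent.H1.Subnormal
import Cfsg.Agent.H1.Fitting

set_option autoImplicit false
open Cfsg

namespace Cfsg.Agent.S3937

open scoped Pointwise
open H1
open Subgroup H9

theorem fold_succ {G : Type*} [Group G] (g x : G) (n : ℕ) :
    (List.replicate (n + 1) g).foldl (fun a b => a * b * a⁻¹ * b⁻¹) x =
      (List.replicate n g).foldl (fun a b => a * b * a⁻¹ * b⁻¹) (x * g * x⁻¹ * g⁻¹) := by
  rw [List.replicate_succ, List.foldl_cons]

theorem sn {G : Type*} [Group G] [Finite G] (g : G)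
    (h : ∀ x : G, ∃ n : ℕ, (List.replicate n g).foldl (fun a b => a * b * a⁻¹ * b⁻¹) x = 1)
    (K : Subgroup G) (hK : zpowers g ≤ K) : SN (zpowers g) K := by
  induction K using WellFoundedLT.induction with
  | ind K ih =>
  by_contra hn
  obtain ⟨M, h1, h2, h3⟩ := zipper hK hn fun H a b => ih H b a
  have hg : g ∈ K := hK (mem_zpowers g)
  have hgM : g ∈ M := h1 (mem_zpowers g)
  have hM : SN (zpowers g) M := ih M h2 h1
  have hN : ∀ y ∈ K, y ∈ normalizer (M : Set G) → y ∈ M := fun y hy hyN => by
    by_contra hyM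
    have h4 : K ⊓ normalizer (M : Set G) = K := by
      by_contra h5
      exact hyM (h3 _ (le_inf hK (h1.trans le_normalizer)) (lt_of_le_of_ne inf_le_left h5) ⟨hy, hyN⟩)
    exact hn (hM.trans (SN.step h2.le (inf_eq_left.1 h4) (SN.refl K)))
  have key : ∀ y ∈ K, y * g * y⁻¹ ∈ M → y ∈ M := fun y hy hyM => by
    apply hN y hy
    have h5 : MulAut.conj y⁻¹ • M ≤ M := h3 _ (zpowers_le_of_mem (by
      rw [mem_pointwise_smul_iff_inv_smul_mem]
      simpa [MulAut.smul_def] using hyM)) (conj_smul_lt_of_mem h2 (K.inv_mem hy))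
    have h6 : y⁻¹ ∈ normalizer (M : Set G) := mem_normalizer_fintype fun m hm =>
      h5 (by simpa [MulAut.smul_def] using smul_mem_pointwise_smul m (MulAut.conj y⁻¹) M hm)
    simpa using (normalizer (M : Set G)).inv_mem h6
  have main : ∀ n, ∀ x ∈ K,
      (List.replicate n g).foldl (fun a b => a * b * a⁻¹ * b⁻¹) x = 1 → x ∈ M := by
    intro n
    induction n with
    | zero => intro x _ hx; simp at hx; rw [hx]; exact M.one_mem
    | succ n ihn =>
      intro x hx e
      rw [fold_succ] at e
      have := ihn _ (K.mul_mem (K.mul_mem (K.mul_mem hx hg) (K.inv_mem hx)) (K.inv_mem hg)) e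
      exact key x hx (by simpa using M.mul_mem this hgM)
  exact h2.not_ge fun x hx => (h x).elim fun n e => main n x hx e

/-- Baer's characterization of the Fitting subgroup: in a finite group G, an element g lies in the Fitting subgroup if and only if g is a left Engel element, that is, for every x there is n with [x, g, g, …, g] = 1 (n entries g, [a, b] = aba⁻¹b⁻¹). -/
theorem result {G : Type*} [Group G] [Finite G] (g : G) :
    g ∈ Cfsg.fittingSubgroup G ↔ ∀ x : G, ∃ n : ℕ, (List.replicate n g).foldl (fun a b => a * b * a⁻¹ * b⁻¹) x = 1 := by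
  constructor
  · intro hg x
    haveI := fitting_isNilpotent (G := G)
    obtain ⟨n, hn⟩ := Subgroup.nilpotent_iff_lowerCentralSeries.1 (fitting_isNilpotent (G := G))
    have key : ∀ m k, ∀ y : fittingSubgroup G, y ∈ (⊤ : Subgroup (fittingSubgroup G)).lowerCentralSeries k →
        ∃ z ∈ (⊤ : Subgroup (fittingSubgroup G)).lowerCentralSeries (k + m),
        (List.replicate m g).foldl (fun a b => a * b * a⁻¹ * b⁻¹) (y : G) = (z : G) := by
      intro m
      induction m with
      | zero => intro k y hy; exact ⟨y, hy, rfl⟩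
      | succ m ih =>
        intro k y hy
        obtain ⟨z, hz, e⟩ := ih (k + 1) (y * ⟨g, hg⟩ * y⁻¹ * ⟨g, hg⟩⁻¹)
          (commutator_mem_commutator hy (mem_top _))
        refine ⟨z, by rwa [show k + (m + 1) = k + 1 + m by omega], ?_⟩
        rw [fold_succ]; exact e
    obtain ⟨z, hz, e⟩ := key n 0 ⟨x * g * x⁻¹ * g⁻¹, (fittingSubgroup G).mul_mem
      (Normal.conj_mem inferInstance g hg x) ((fittingSubgroup G).inv_mem hg)⟩ (mem_top _)
    refine ⟨n + 1, ?_⟩
    rw [fold_succ]
    rw [zero_add, hn, mem_bot] at hz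
    rw [hz] at e; exact e
  · intro h
    exact le_fitting_of_subnormal (sn_top_iff.1 (sn g h ⊤ le_top))
      (isNilpotent_of_isMulCommutative inferInstance) (mem_zpowers g)

end Cfsg.Agent.S3937
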