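import Cfsg.Statements.S3939
import Cfsg.Agent.H1.Misc
import Cfsg.Agent.H2.Residual
import Cfsg.Agent.H1.Fitting
import Cfsg.Agent.L.PG1

set_option autoImplicit false
open Cfsg

namespace Cfsg.Agent.S3939

open scoped commutatorElement
open H1
open Subgroup
open scoped commutatorElement

theorem aux {G : Type*} [Group G] [Finite G] {p : ℕ} [Fact p.Prime] (P : Sylow p G)
    (D : Subgroup G) (hn : D.Normal) (h1 : D ≤ P) (h2 : D ≤ centralizer (pResidual p G : Set G)) :
    ∃ n, D ≤ Subgroup.upperCentralSeries G n := by
  induction D using WellFoundedLT.induction with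
  | ind D ih =>
  by_cases h0 : D = ⊥
  · exact ⟨0, h0.le⟩
  have h3 : ⁅D, ⊤⁆ ≤ ⁅D, (P : Subgroup G)⁆ := commutator_le.2 fun d hd g _ => by
    have hg : g ∈ pResidual p G ⊔ P := by rw [H2.pResidual_sup_sylow]; trivial
    obtain ⟨r, hr, u, hu, rfl⟩ := mem_sup_of_normal_left.1 hg
    have e1 : ⁅d, r⁆ = 1 := commutatorElement_eq_one_iff_mul_comm.2 (h2 hd r hr).symm
    have e2 := h2 (commutator_le_left D ⊤ (commutator_mem_commutator hd (mem_top u))) r hr
    rw [L.commutatorElement_mul_right', e1, one_mul, e2, mul_inv_cancel_right]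
    exact commutator_mem_commutator hd hu
  have h4 : ⁅D, ⊤⁆ < D := h3.trans_lt (commutator_lt_of_isPGroup (P.isPGroup'.to_le h1) P.isPGroup'
    le_normalizer_of_normal h0)
  obtain ⟨n, hn⟩ := ih _ h4 inferInstance (h4.le.trans h1) (h4.le.trans h2)
  exact ⟨n + 1, fun d hd => Subgroup.mem_upperCentralSeries_succ_iff.2 fun y =>
    hn (commutator_mem_commutator hd (mem_top y))⟩

/-- In a finite group G the set of elements g such that the subgroup generated by g and x is nilpotent for every x ∈ G is exactly the hypercenter of G (the last term of the upper central series). -/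
theorem result {G : Type*} [Group G] [Finite G] (g : G) :
    (∀ x : G, Group.IsNilpotent ↥(Subgroup.closure ({x, g} : Set G))) ↔ g ∈ ⨆ n : ℕ, Subgroup.upperCentralSeries G n := by
  constructor
  · intro h
    refine le_of_forall_primePow_mem (H := zpowers g) (fun p k hp x hx ho => ?_) (mem_zpowers g)
    haveI : Fact p.Prime := ⟨hp⟩
    have hxp : IsPGroup p (zpowers x) := IsPGroup.of_card (by rw [Nat.card_zpowers, ho])
    obtain ⟨P, hP⟩ := hxp.exists_le_sylow
    have hC : x ∈ centralizer (pResidual p G : Set G) := by
      have : pResidual p G ≤ centralizer {x} := (closure_le _).2 fun y hy => by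
        refine mem_centralizer_singleton_iff.2 (commute_of_coprime_of_nilpotent (h y)
          (subset_closure (by simp)) (zpowers_le_of_mem (subset_closure (by simp)) hx) ?_)
        rw [ho]; exact Nat.Coprime.pow_right _ hy
      exact fun y hy => mem_centralizer_singleton_iff.1 (this hy)
    obtain ⟨n, hn⟩ := aux P ((P : Subgroup G) ⊓ centralizer (pResidual p G : Set G))
      (normal_of_sup_eq_top (H2.pResidual_sup_sylow P)
        (le_normalizer_of_le_centralizer (le_centralizer_iff.1 inf_le_right))
        (le_normalizer_inf le_normalizer le_normalizer_of_normal)) inf_le_left inf_le_right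
    exact le_iSup (fun n => Subgroup.upperCentralSeries G n) n (hn ⟨hP (mem_zpowers x), hC⟩)
  · intro h x
    obtain ⟨n, hn⟩ := (mem_iSup_of_directed (Subgroup.upperCentralSeries_mono G).directed_le).1 h
    set H := closure ({x, g} : Set G)
    have h1 : H ≤ Subgroup.upperCentralSeries G n ⊔ zpowers x := (closure_le _).2 (by
      rintro y (rfl | rfl)
      · exact mem_sup_right (mem_zpowers _)
      · exact mem_sup_left hn)
    have h2 : ⁅H, H⁆ ≤ Subgroup.upperCentralSeries G n := commutator_le.2 fun a ha b hb => by
      obtain ⟨a, ha', _, ⟨i, rfl⟩, rfl⟩ := mem_sup_of_normal_left.1 (h1 ha)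
      obtain ⟨b, hb', _, ⟨j, rfl⟩, rfl⟩ := mem_sup_of_normal_left.1 (h1 hb)
      rw [← QuotientGroup.eq_one_iff, ← QuotientGroup.mk'_apply, map_commutatorElement,
        map_mul, map_mul, QuotientGroup.mk'_apply _ a, QuotientGroup.mk'_apply _ b,
        (QuotientGroup.eq_one_iff a).2 ha', (QuotientGroup.eq_one_iff b).2 hb', one_mul, one_mul,
        ← map_commutatorElement, commutatorElement_eq_one_iff_commute.2
        (Commute.zpow_zpow_self x i j), map_one]
    have h3 : ∀ k m, m + k = n → H.lowerCentralSeries (k + 1) ≤ Subgroup.upperCentralSeries G m := by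
      intro k
      induction k with
      | zero => intro m e; rw [← e] at h2; exact h2
      | succ k ih =>
        intro m e
        rw [Subgroup.lowerCentralSeries_succ]
        exact (commutator_mono (ih (m + 1) (by omega)) le_top).trans
          (commutator_upperCentralSeries_top_le G m)
    exact isNilpotent_of_lowerCentralSeries_eq_bot (eq_bot_iff.2 (h3 n 0 (zero_add n)))

end Cfsg.Agent.S3939
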