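import Cfsg.Statements.S3941
import Cfsg.Agent.H9.MS1
import Cfsg.Agent.H2.Half

set_option autoImplicit false
open Cfsg

namespace Cfsg.Agent.S3941

open Equiv Equiv.Perm Subgroup in
theorem not_pc {α : Type*} [Fintype α] [DecidableEq α] (p : ℕ) [Fact p.Prime] (hp : p ≠ 2) (h4 : 4 ≤ Fintype.card α)
    (hd : p ∣ Nat.card (alternatingGroup α)) : ¬ Cfsg.IsPClosed p (alternatingGroup α) := by
  intro h
  obtain ⟨P⟩ : Nonempty (Sylow p (alternatingGroup α)) := inferInstance
  have hn := h P
  have hb : (P : Subgroup (alternatingGroup α)) ≠ ⊥ := by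
    intro e
    have := P.not_dvd_index
    rw [e, index_bot] at this
    exact this hd
  have h2 : 2 ∣ Nat.card (P : Subgroup (alternatingGroup α)) := by
    rcases h4.eq_or_lt with h4 | h4
    · have c4 : Nat.card α = 4 := by simp [← h4]
      have c12 := alternatingGroup.card_of_card_eq_four c4
      have hi : (P : Subgroup (alternatingGroup α)).index ∣ 2 ^ 2 := by
        have h1 := (P : Subgroup (alternatingGroup α)).index_dvd_card
        have h2 := P.not_dvd_index
        rw [c12] at h1 hd
        have : p = 3 := by
          have := (Nat.Prime.dvd_mul Fact.out).1 (show p ∣ 2 ^ 2 * 3 from hd)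
          rcases this with h | h
          · exact absurd ((Nat.prime_dvd_prime_iff_eq Fact.out Nat.prime_two).1 (Nat.Prime.dvd_of_dvd_pow Fact.out h)) hp
          · exact (Nat.prime_dvd_prime_iff_eq Fact.out Nat.prime_three).1 h
        subst this
        exact Nat.Coprime.dvd_of_dvd_mul_right ((Nat.Prime.coprime_iff_not_dvd Nat.prime_three).2 h2).symm
          (show _ ∣ 2 ^ 2 * 3 from h1)
      have hc : IsMulCommutative (alternatingGroup α ⧸ (P : Subgroup (alternatingGroup α))) := by
        obtain ⟨j, hj, e⟩ := (Nat.dvd_prime_pow Nat.prime_two).1 hi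
        rcases hj.eq_or_lt with rfl | hj
        · exact IsPGroup.isMulCommutative_of_card_eq_prime_sq e
        · haveI : IsCyclic (alternatingGroup α ⧸ (P : Subgroup (alternatingGroup α))) :=
            isCyclic_of_card_dvd_prime (p := 2) (by
              show (P : Subgroup (alternatingGroup α)).index ∣ 2
              rw [e]; interval_cases j <;> norm_num)
          infer_instance
      have := card_dvd_of_le (Normal.quotient_commutative_iff_commutator_le.1 hc)
      rw [← alternatingGroup.kleinFour_eq_commutator c4, alternatingGroup.kleinFour_card_of_card_eq_four c4] at this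
      exact Dvd.dvd.trans (by norm_num) this
    · haveI := alternatingGroup.isSimpleGroup (α := α) (by rw [Nat.card_eq_fintype_card]; omega)
      rw [hn.eq_bot_or_eq_top.resolve_left hb, card_top]
      haveI : Nontrivial α := Fintype.one_lt_card_iff_nontrivial.1 (by omega)
      have h1 := two_mul_nat_card_alternatingGroup (α := α)
      rw [Nat.card_perm, Nat.card_eq_fintype_card (α := α)] at h1
      have h2 : 4 ∣ (Fintype.card α).factorial := Nat.dvd_factorial (by norm_num) (by omega)
      omega
  obtain ⟨k, hk⟩ := P.2.exists_card_eq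
  rw [hk] at h2
  exact hp ((Nat.prime_dvd_prime_iff_eq Nat.prime_two Fact.out).1 (Nat.prime_two.dvd_of_dvd_pow h2)).symm
open Equiv Equiv.Perm Subgroup in

/-- Let n ≥ 5 and p an odd prime with p ≤ n, and suppose that every proper subgroup of the alternating group of degree n whose order is divisible by p has a normal Sylow p-subgroup. Then n = p. -/
theorem result (n p : ℕ) (hn : 5 ≤ n) [Fact p.Prime] (hp : p ≠ 2) (hpn : p ≤ n)
    (h : ∀ H : Subgroup ↥(alternatingGroup (Fin n)), H ≠ ⊤ → p ∣ Nat.card ↥H → Cfsg.IsPClosed p ↥H) : n = p := by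
  classical
  by_contra hne
  let x : Fin n := ⟨0, by omega⟩
  let s : Finset (Fin n) := {x}ᶜ
  have hs : Fintype.card s = n - 1 := by simp [s, Finset.card_compl]
  let E := MonoidHom.ofInjective (alternatingGroup.ofSubtype_injective (s := s))
  have hd : p ∣ Nat.card (alternatingGroup s) := by
    haveI : Nontrivial s := Fintype.one_lt_card_iff_nontrivial.1 (by omega)
    have h1 := two_mul_nat_card_alternatingGroup (α := s)
    rw [Nat.card_perm, Nat.card_eq_fintype_card (α := s), hs] at h1
    have h2 : p ∣ (n - 1).factorial := Nat.dvd_factorial (Fact.out : p.Prime).pos (by omega)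
    rw [← h1] at h2
    exact Nat.Coprime.dvd_of_dvd_mul_left ((Nat.coprime_primes Fact.out Nat.prime_two).2 hp) h2
  have h1 := h (alternatingGroup.ofSubtype s).range (by
    intro e
    haveI := alternatingGroup.isPretransitive_of_three_le_card (Fin n) (by simp; omega)
    obtain ⟨g, hg⟩ := MulAction.exists_smul_eq (alternatingGroup (Fin n)) x ⟨1, by omega⟩
    have h0 := (alternatingGroup.mem_range_ofSubtype_iff s g).1 (e ▸ mem_top g)
    have : x ∈ s := h0 (by
      rw [mem_support]; intro e'; rw [show g • x = x from e'] at hg; simp [x] at hg)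
    simp [s] at this) (by rwa [← Nat.card_congr E.toEquiv])
  refine not_pc p hp (by omega) hd fun P => ?_
  have h2 := H9.pcl_top_iff.1 h1
  rw [← map_top_of_surjective E.toMonoidHom E.surjective, H9.pcl_map_iff _ (by
    rw [(MonoidHom.ker_eq_bot_iff E.toMonoidHom).2 E.injective, bot_inf_eq]; exact IsPGroup.of_bot)] at h2
  exact H9.pcl_top_iff.2 h2 P

end Cfsg.Agent.S3941
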