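import Cfsg.Statements.S3946
import Cfsg.Agent.H1.Hughes

set_option autoImplicit false
open Cfsg

namespace Cfsg.Agent.S3946

open H1

/-- Call an automorphism α of order n of a group G splitting when x · α(x) · α²(x) ⋯ α^(n−1)(x) = 1 for every x ∈ G. A finite group admitting a splitting automorphism of prime order is nilpotent (this contains the case of a fixed-point-free automorphism of prime order). -/
theorem result {G : Type*} [Group G] [Finite G] (α : MulAut G) (hp : (orderOf α).Prime)
    (hsplit : ∀ x : G, (((List.range (orderOf α)).map (fun i : ℕ => (α ^ i) x)).prod = 1)) : Group.IsNilpotent G := by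
  set p := orderOf α with hpo
  let A := Subgroup.zpowers α
  let Γ := G ⋊[A.subtype] A
  haveI : Finite (MulAut G) := inferInstance
  haveI : Finite Γ := Finite.of_equiv _ SemidirectProduct.equivProd.symm
  have key : ∀ (β : A) (x : G) (n : ℕ), ((SemidirectProduct.inl x * SemidirectProduct.inr β : Γ)) ^ n =
      SemidirectProduct.inl (((List.range n).map (fun i : ℕ => ((β : MulAut G) ^ i) x)).prod) *
        SemidirectProduct.inr (β ^ n) := by
    intro β x n
    induction n with
    | zero => simp
    | succ n ih =>
      rw [pow_succ, ih, List.range_succ, List.map_append, List.prod_append, map_mul, pow_succ, map_mul,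
        List.map_singleton, List.prod_singleton]
      have := SemidirectProduct.inl_aut (φ := A.subtype) (β ^ n) x
      rw [show (A.subtype (β ^ n)) x = ((β : MulAut G) ^ n) x from rfl] at this
      rw [this, map_inv]; group
  have h1 : ∀ x : G, ((SemidirectProduct.inl x * SemidirectProduct.inr ⟨α, Subgroup.mem_zpowers α⟩ : Γ)) ^ p = 1 := by
    intro x
    rw [key, hsplit, map_one, one_mul, ← map_one (SemidirectProduct.inr (φ := A.subtype))]
    congr 1
    exact Subtype.ext (pow_orderOf_eq_one α)
  have hn := nilpotent_of_split hp Γ (SemidirectProduct.rightHom (φ := A.subtype)).ker inferInstance ?_ ?_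
  · rw [← SemidirectProduct.range_inl_eq_ker_rightHom] at hn
    exact Group.nilpotent_of_mulEquiv (MonoidHom.ofInjective (SemidirectProduct.inl_injective (φ := A.subtype))).symm
  · intro e
    have : (SemidirectProduct.inr ⟨α, Subgroup.mem_zpowers α⟩ : Γ) ∈ (SemidirectProduct.rightHom (φ := A.subtype)).ker :=
      e ▸ Subgroup.mem_top _
    rw [MonoidHom.mem_ker, SemidirectProduct.rightHom_inr] at this
    exact hp.ne_one (orderOf_eq_one_iff.2 (congrArg Subtype.val this))
  · intro g hg
    rw [MonoidHom.mem_ker] at hg
    haveI := Fact.mk hp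
    set β := SemidirectProduct.rightHom (φ := A.subtype) g with hβ
    have hc : Nat.card A = p := Nat.card_zpowers α
    obtain ⟨j, hj⟩ : (⟨α, Subgroup.mem_zpowers α⟩ : A) ∈ Submonoid.powers β :=
      mem_powers_iff_mem_zpowers.2 ((zpowers_eq_top_of_prime_card hc hg) ▸ Subgroup.mem_top _)
    have h2 : ∀ i : ℕ, β ^ i = ⟨α, Subgroup.mem_zpowers α⟩ → orderOf g ∣ i * p := fun i hi => by
      have := h1 (g ^ i).left
      rw [← hi, hβ, ← map_pow, SemidirectProduct.rightHom_eq_right, SemidirectProduct.inl_left_mul_inr_right,
        ← pow_mul] at this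
      exact orderOf_dvd_of_pow_eq_one this
    have hjp : j.Coprime p := by
      refine ((Nat.Prime.coprime_iff_not_dvd hp).2 ?_).symm
      rintro ⟨k, rfl⟩
      simp only at hj
      rw [pow_mul, ← hc, pow_card_eq_one', one_pow] at hj
      exact hp.ne_one (orderOf_eq_one_iff.2 (congrArg Subtype.val hj.symm))
    have h3 := h2 j hj
    have h4 := h2 (j + p) (by rw [pow_add, ← hc, pow_card_eq_one', mul_one]; exact hj)
    rw [add_mul] at h4
    have h5 := Nat.dvd_gcd h3 ((Nat.dvd_add_right h3).1 h4)
    rw [Nat.gcd_mul_right, hjp.gcd_eq_one, one_mul] at h5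
    exact orderOf_dvd_iff_pow_eq_one.1 h5

end Cfsg.Agent.S3946
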