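import Cfsg.Statements.S3949
import Cfsg.Agent.H1.Basic

set_option autoImplicit false
open Cfsg

namespace Cfsg.Agent.S3949

/-- Let G be a finite group and α an automorphism of G of order 2 such that the elements g·α(g)⁻¹ generate G. Let j be a positive integer such that 2^j divides the order of no element inverted by α. Then the set of values of the j-th iterate of the map c ↦ c·α(c)⁻¹ is exactly the set of elements of odd order inverted by α. -/
theorem result {G : Type*} [Group G] [Finite G] (α : MulAut G) (hα : orderOf α = 2) (hG : Subgroup.closure (Set.range (fun c : G => c * (α c)⁻¹)) = ⊤)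
    (j : ℕ) (hj : ∀ g : G, α g = g⁻¹ → ¬ 2 ^ j ∣ orderOf g) :
    Set.range ((fun c : G => c * (α c)⁻¹)^[j]) = {g : G | Odd (orderOf g) ∧ α g = g⁻¹} := by
  have hα2 : ∀ g, α (α g) = g := by
    intro g
    have := pow_orderOf_eq_one α
    rw [hα, sq] at this
    exact congrArg (fun f : MulAut G => f g) this
  set f : G → G := fun c => c * (α c)⁻¹ with hf
  have hinv : ∀ c, α (f c) = (f c)⁻¹ := by intro c; simp [hf, hα2]
  have hsq : ∀ g, α g = g⁻¹ → ∀ k, f^[k] g = g ^ 2 ^ k := by
    intro g hg k
    induction k with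
    | zero => simp
    | succ k ih => rw [Function.iterate_succ_apply', ih]; simp [hf, hg, pow_succ, pow_mul, sq]
  obtain ⟨k, rfl⟩ : ∃ k, j = k + 1 := by
    cases j with
    | zero => exact absurd (by simp) (hj 1 (by simp))
    | succ k => exact ⟨k, rfl⟩
  ext g
  constructor
  · rintro ⟨c, rfl⟩
    rw [Function.iterate_succ_apply, hsq _ (hinv c)]
    refine ⟨?_, by rw [map_pow, hinv, inv_pow]⟩
    have h1 := hj _ (hinv c)
    obtain ⟨i, m, hm, e⟩ := Nat.exists_eq_two_pow_mul_odd (orderOf_pos (f c)).ne'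
    have hik : i ≤ k := by
      by_contra h
      exact h1 (by rw [e]; exact (pow_dvd_pow 2 (by omega)).mul_right _)
    have : orderOf (f c ^ 2 ^ k) ∣ m := by
      rw [orderOf_dvd_iff_pow_eq_one, ← pow_mul, ← orderOf_dvd_iff_pow_eq_one, e]
      exact Nat.mul_dvd_mul_right (pow_dvd_pow 2 hik) m
    exact Odd.of_dvd_nat hm this
  · rintro ⟨h1, h2⟩
    have hc : (orderOf g).Coprime (2 ^ (k + 1)) := Nat.Coprime.pow_right _ (Nat.coprime_two_right.2 h1)
    obtain ⟨m, hm⟩ := exists_pow_eq_self_of_coprime hc.symm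
    refine ⟨g ^ m, ?_⟩
    rw [hsq _ (by rw [map_pow, h2, inv_pow]), ← pow_mul, mul_comm, pow_mul, hm]

end Cfsg.Agent.S3949
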