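import Cfsg.Statements.S3972
import Cfsg.Agent.S3559
import Cfsg.Agent.H1.Misc

set_option autoImplicit false
open Cfsg

namespace Cfsg.Agent.S3972

open Subgroup MulAction

/-- Let `p` be a prime, `m ≥ 2`, and `G` a transitive but not doubly transitive permutation group on `p ^ m` points containing a permutation of order `p ^ m` (necessarily a full cycle). Then `G` is imprimitive, and the normal closure in `G` of the `p ^ (m - 1)`-th power of that permutation is an intransitive normal subgroup. -/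
theorem result {Ω : Type*} [Fintype Ω] [DecidableEq Ω] (p m : ℕ) (hp : p.Prime) (hm : 2 ≤ m) (hΩ : Fintype.card Ω = p ^ m) (G : Subgroup (Equiv.Perm Ω)) (htr : MulAction.IsPretransitive G Ω) (h2 : ¬ MulAction.IsMultiplyPretransitive G Ω 2) (g : G) (hg : orderOf g = p ^ m) : ¬ MulAction.IsPreprimitive G Ω ∧ ¬ MulAction.IsPretransitive (Subgroup.normalClosure ({g ^ (p ^ (m - 1))} : Set G)) Ω := by
  obtain ⟨m, rfl⟩ : ∃ k, m = k + 1 := ⟨m - 1, by omega⟩
  rw [Nat.add_sub_cancel]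
  have h0 : g ^ p ^ m ≠ 1 := fun h => absurd ((Nat.pow_dvd_pow_iff_le_right hp.one_lt).1
    (hg ▸ orderOf_dvd_of_pow_eq_one h)) (by omega)
  obtain ⟨a, ha⟩ : ∃ a : Ω, (g ^ p ^ m) • a ≠ a := by
    by_contra h
    push Not at h
    exact h0 (Subtype.ext (Equiv.ext h))
  have oz : orderOf (g ^ p ^ m) = p := by
    rw [orderOf_pow' _ (pow_pos hp.pos m).ne', hg, Nat.gcd_eq_right (pow_dvd_pow p m.le_succ), pow_succ,
      Nat.mul_div_cancel_left _ (pow_pos hp.pos m)]
  have key : ∀ K ≤ zpowers g, K ≠ ⊥ → g ^ p ^ m ∈ K := fun K hK h => by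
    refine zpowers_le.1 (H1.le_of_card_dvd_of_isCyclic inferInstance (zpowers_le.2 (pow_mem (mem_zpowers g) _)) hK ?_)
    have := card_dvd_of_le hK
    rw [Nat.card_zpowers, hg, Nat.dvd_prime_pow hp] at this
    obtain ⟨k, -, hk⟩ := this
    rw [Nat.card_zpowers, oz, hk]
    exact dvd_pow_self p fun h' => h (by rwa [h', pow_zero, card_eq_one] at hk)
  have hs : stabilizer (zpowers g) a = ⊥ := eq_bot_iff.2 fun c hc => by
    by_contra h
    exact ha (key (zpowers g ⊓ stabilizer G a) inf_le_left (fun h' => h (Subtype.ext (mem_bot.1 (h'.le ⟨c.2, hc⟩))))).2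
  have hcard : Nat.card Ω = p ^ (m + 1) := by rw [Nat.card_eq_fintype_card, hΩ]
  have ht : IsPretransitive (zpowers g) Ω := by
    have hb : Function.Bijective fun c : zpowers g => c • a := (Nat.bijective_iff_injective_and_card _).2 ⟨fun c d h => by
      have : d⁻¹ * c ∈ stabilizer (zpowers g) a := by
        rw [mem_stabilizer_iff, mul_smul, inv_smul_eq_iff]; exact h
      rw [hs, mem_bot, inv_mul_eq_one] at this
      exact this.symm, by rw [Nat.card_zpowers, hg, hcard]⟩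
    refine ⟨fun x y => ?_⟩
    obtain ⟨c, rfl⟩ := hb.2 x
    obtain ⟨d, rfl⟩ := hb.2 y
    exact ⟨d * c⁻¹, by simp [mul_smul]⟩
  have h1 : ¬ IsPreprimitive G Ω := fun h => h2 (S3559.cyc h _ inferInstance ht a hs hp
    (hcard ▸ dvd_pow_self p (by omega)) (fun h' => by
      have := Nat.pow_right_injective hp.two_le ((hcard.symm.trans h').trans (pow_one p).symm); omega))
  refine ⟨h1, fun h => ?_⟩
  haveI : Nontrivial Ω := ⟨_, _, ha⟩
  rw [← isCoatom_stabilizer_iff_preprimitive G a, IsCoatom, not_and] at h1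
  have h3 := h1 fun h' => ha (h'.ge (mem_top _))
  push Not at h3
  obtain ⟨X, hX, hX'⟩ := h3
  have tr : ∀ x : G, ∃ c ∈ zpowers g, c⁻¹ * x ∈ stabilizer G a := fun x => by
    obtain ⟨c, hc⟩ := exists_smul_eq (zpowers g) a (x • a)
    exact ⟨c, c.2, by rw [mem_stabilizer_iff, mul_smul, inv_smul_eq_iff]; exact hc.symm⟩
  have h4 : g ^ p ^ m ∈ X := (key (zpowers g ⊓ X) inf_le_left fun h' => hX.not_ge fun x hx => by
    obtain ⟨c, hc, h⟩ := tr x
    have : c ∈ X := by simpa using X.mul_mem hx (X.inv_mem (hX.le h))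
    rwa [mem_bot.1 (h'.le ⟨hc, this⟩), inv_one, one_mul] at h).2
  have h5 : normalClosure {g ^ p ^ m} ≤ X.normalCore := normalClosure_le_normal (Set.singleton_subset_iff.2 fun x => by
    obtain ⟨c, ⟨k, rfl⟩, h⟩ := tr x⁻¹
    have e : x * g ^ p ^ m * x⁻¹ = ((g ^ k)⁻¹ * x⁻¹)⁻¹ * g ^ p ^ m * ((g ^ k)⁻¹ * x⁻¹) := by group
    rw [e]
    exact X.mul_mem (X.mul_mem (X.inv_mem (hX.le h)) h4) (hX.le h))
  refine hX' (eq_top_iff.2 fun x _ => ?_)
  obtain ⟨c, hc⟩ := exists_smul_eq (normalClosure {g ^ p ^ m}) a (x • a)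
  have : (c : G)⁻¹ * x ∈ X := hX.le (by rw [mem_stabilizer_iff, mul_smul, inv_smul_eq_iff]; exact hc.symm)
  simpa using X.mul_mem (X.normalCore_le (h5 c.2)) this

end Cfsg.Agent.S3972
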