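import Cfsg.Statements.S3982
import Cfsg.Agent.H1.Misc

set_option autoImplicit false
open Cfsg

namespace Cfsg.Agent.S3982

open scoped commutatorElement

open H1

/-- Let p be an odd prime and G a finite group of even order divisible by p in which the centralizer of every non-identity p-element has odd order. If some nontrivial p-subgroup of G has a normalizer of even order, then the normalizer of every Sylow p-subgroup of G has even order. -/
theorem result {G : Type*} [Group G] [Finite G] (p : ℕ) [Fact p.Prime] (hp2 : p ≠ 2) (hpG : p ∣ Nat.card G) (h2G : 2 ∣ Nat.card G) (hC : ∀ g : G, g ≠ 1 → (∃ k : ℕ, orderOf g = p ^ k) → Odd (Nat.card ↥(Subgroup.centralizer ({g} : Set G)))) (Q : Subgroup G) (hQ : IsPGroup p ↥Q) (hQ1 : Q ≠ ⊥) (hev : Even (Nat.card ↥(Subgroup.normalizer (Q : Set G)))) (P : Sylow p G) : Even (Nat.card ↥(Subgroup.normalizer ((P : Subgroup G) : Set G))) := by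
  have hp : p.Prime := Fact.out
  obtain ⟨y, hyQ, hy⟩ := exists_mem_orderOf_eq_prime Nat.prime_two hev.two_dvd
  have hy2 : y * y = 1 := by rw [← sq, ← hy, pow_orderOf_eq_one]
  obtain ⟨R, hQR, ⟨hR, hyR⟩, hmax⟩ := Finite.exists_le_maximal
    (p := fun R : Subgroup G => IsPGroup p R ∧ y ∈ Subgroup.normalizer (R : Set G)) ⟨hQ, hyQ⟩
  have hR1 : R ≠ ⊥ := fun h => hQ1 (le_bot_iff.1 (h ▸ hQR))
  have hCy : ∀ g : G, (∃ k, orderOf g = p ^ k) → g ∈ Subgroup.centralizer {y} → g = 1 := by
    intro g hg hgy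
    by_contra h1
    have h2 : y ∈ Subgroup.centralizer {g} := by
      rw [Subgroup.mem_centralizer_singleton_iff] at *; exact hgy.symm
    have := orderOf_dvd_card_of_mem h2
    rw [hy] at this
    exact (Nat.not_even_iff_odd.2 (hC g h1 hg)) (even_iff_two_dvd.2 this)
  have hfpf : R ⊓ Subgroup.centralizer {y} = ⊥ :=
    eq_bot_iff.2 fun g hg => hCy g (exists_orderOf_eq_pow hR hg.1) hg.2
  have hinv : ∀ k ∈ R, y * k * y⁻¹ = k⁻¹ := fun k hk =>
    conj_eq_inv_of_fpf hyR hfpf (by rw [hy2]; exact Subgroup.one_mem _) hk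
  have hab := isMulCommutative_of_conj_eq_inv hinv
  set C := Subgroup.centralizer (R : Set G)
  set N := Subgroup.normalizer (R : Set G)
  have hRC : R ≤ C := L.le_centralizer_of_comm hab
  have hCN : C ≤ N := Subgroup.centralizer_le_normalizer _
  have hCo : Odd (Nat.card C) := by
    obtain ⟨r, hr, hr1⟩ := exists_mem_ne_one hR1
    refine Odd.of_dvd_nat (hC r hr1 (exists_orderOf_eq_pow hR hr)) (Subgroup.card_dvd_of_le ?_)
    exact Subgroup.centralizer_le (by simpa using hr)
  have hyC : Subgroup.zpowers y ≤ Subgroup.normalizer (C : Set G) :=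
    le_normalizer_centralizer (Subgroup.zpowers_le.2 hyR)
  have hcop : (Nat.card (Subgroup.zpowers y)).Coprime (Nat.card C) := by
    rw [Nat.card_zpowers, hy]; exact Nat.coprime_two_left.2 hCo
  obtain ⟨S, hS, hRS, hyS⟩ := exists_invariant_sylow_ge (p := p) hyC hcop (Or.inl (isSolvable_zpowers y))
    hRC hR (Subgroup.zpowers_le.2 hyR)
  have hSR : S = R := le_antisymm (hmax ⟨hS.2, hyS (Subgroup.mem_zpowers y)⟩ hRS) hRS
  subst hSR
  -- `N = C · C_N(y)`
  have hcomm : ⁅N, Subgroup.zpowers y⁆ ≤ C := by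
    have h1 : ∀ n ∈ N, ⁅y, n⁆ ∈ C := by
      intro n hn r hr
      have h2 := hinv _ (conj_mem_of_mem_normalizer' hn hr)
      have h3 := hinv _ hr
      have h4 : y⁻¹ * r * y = r⁻¹ := by
        have : y⁻¹ = y := inv_eq_of_mul_eq_one_right hy2
        rw [this] at h3 ⊢; exact h3
      have h5 := hinv _ (conj_mem_of_mem_normalizer' hn (S.inv_mem hr))
      have h6 : y⁻¹ * (n⁻¹ * r⁻¹ * n) * y = n⁻¹ * r * n := by
        have : y⁻¹ = y := inv_eq_of_mul_eq_one_right hy2
        rw [this] at h5 ⊢; rw [h5]; group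
      rw [commutatorElement_def]
      have h7 : ∀ r ∈ S, y * n * y⁻¹ * n⁻¹ * r * (y * n * y⁻¹ * n⁻¹)⁻¹ = r := by
        intro r hr
        have a1 := hinv _ (conj_mem_of_mem_normalizer' hn hr)
        have yi : y⁻¹ = y := inv_eq_of_mul_eq_one_right hy2
        have a2 : y⁻¹ * (n⁻¹ * r * n) * y = (n⁻¹ * r * n)⁻¹ := by rw [yi] at a1 ⊢; exact a1
        have a3 := hinv _ (S.inv_mem hr)
        calc y * n * y⁻¹ * n⁻¹ * r * (y * n * y⁻¹ * n⁻¹)⁻¹
            = y * n * (y⁻¹ * (n⁻¹ * r * n) * y) * n⁻¹ * y⁻¹ := by group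
          _ = y * r⁻¹ * y⁻¹ := by rw [a2]; group
          _ = r := by rw [a3, inv_inv]
      exact (mul_inv_eq_iff_eq_mul.1 (h7 r hr)).symm
    rw [Subgroup.commutator_comm, Subgroup.zpowers_eq_closure]
    refine L.commutator_closure_le (by simpa using hyC (Subgroup.mem_zpowers y)) (by simpa using h1)
  have hN := sup_centralizer_of_commutator_le hCN hyC hcop (Or.inl (isSolvable_zpowers y)) hcomm
  have hidx : ¬ p ∣ C.relIndex N := by
    rw [← hN, sup_comm, relIndex_sup_of_le_normalizer (inf_le_left.trans (centralizer_normalizer S))]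
    intro hd
    obtain ⟨g, hg, hgo⟩ := exists_mem_orderOf_eq_prime hp (hd.trans (Subgroup.relIndex_dvd_card _ _))
    refine ne_one_of_orderOf_prime hp hgo (hCy g ⟨1, by simpa using hgo⟩ ?_)
    rw [← centralizer_zpowers]; exact hg.2
  have hS2 : IsSylowIn p S ⊤ := isSylowIn_of_normalizer le_top (by
    rw [inf_top_eq]; exact hS.trans hCN hidx)
  obtain ⟨g, -, hg⟩ := hS2.conj (isSylowIn_top P)
  rw [← hg, normalizer_conj_smul, card_conj_smul]
  exact even_iff_two_dvd.2 (hy ▸ orderOf_dvd_card_of_mem hyR)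

end Cfsg.Agent.S3982
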