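import Cfsg.Statements.S3983
import Cfsg.Agent.H1.Misc

set_option autoImplicit false
open scoped Pointwise
open Cfsg

namespace Cfsg.Agent.S3983

open H1

/-- Let P be a Sylow p-subgroup of the finite group G that meets each conjugate g P g⁻¹ with g outside N_G(P) trivially, and let U be a subgroup of G of order divisible by p. Then a Sylow p-subgroup Q of U has the same property inside U: Q meets each conjugate u Q u⁻¹ with u ∈ U outside N_U(Q) trivially. -/
theorem result {G : Type*} [Group G] [Finite G] (p : ℕ) [Fact p.Prime] (P : Sylow p G) (hTI : ∀ g : G, g ∉ Subgroup.normalizer ((P : Subgroup G) : Set G) → (P : Subgroup G) ⊓ (MulAut.conj g • (P : Subgroup G)) = ⊥) (U : Subgroup G) (hU : p ∣ Nat.card ↥U) (Q : Sylow p ↥U) : ∀ u : ↥U, u ∉ Subgroup.normalizer ((Q : Subgroup ↥U) : Set ↥U) → (Q : Subgroup ↥U) ⊓ (MulAut.conj u • (Q : Subgroup ↥U)) = ⊥ := by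
  intro u hu
  by_contra hne
  apply hu
  obtain ⟨x, hx, hx1⟩ := exists_mem_ne_one hne
  have hQ := isSylowIn_map_subtype Q
  obtain ⟨g, -, hg⟩ := (isSylowIn_top P).exists_conj_le hQ.2 le_top
  -- `S = g⁻¹ P g` contains `Q`
  have h1 : g * (x : G) * g⁻¹ ∈ (P : Subgroup G) := hg (conj_mem_conj_smul ⟨x, hx.1, rfl⟩)
  have h2 : g * ((u : G)⁻¹ * x * u) * g⁻¹ ∈ (P : Subgroup G) :=
    hg (conj_mem_conj_smul ⟨_, mem_conj_smul.1 hx.2, rfl⟩)
  have h3 : g * u * g⁻¹ ∈ Subgroup.normalizer ((P : Subgroup G) : Set G) := by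
    by_contra h
    have : g * (x : G) * g⁻¹ ∈ (P : Subgroup G) ⊓ MulAut.conj (g * u * g⁻¹) • (P : Subgroup G) :=
      ⟨h1, mem_conj_smul.2 (by convert h2 using 1; group)⟩
    rw [hTI _ h, Subgroup.mem_bot] at this
    exact hx1 (Subtype.ext (by simpa using this))
  have h4 : (Q : Subgroup U) = (MulAut.conj g⁻¹ • (P : Subgroup G)).subgroupOf U := by
    symm
    refine Q.is_maximal' ((isPGroup_conj_smul _ P.isPGroup').comap_subtype) ?_
    exact Subgroup.map_le_iff_le_comap.1 (conj_smul_le_iff_le.1 hg)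
  rw [h4, mem_normalizer_iff_conj_mem]
  intro y hy
  rw [Subgroup.mem_subgroupOf, mem_conj_smul] at hy ⊢
  have := conj_mem_of_mem_normalizer h3 hy
  convert this using 1
  simp only [Subgroup.coe_mul, Subgroup.coe_inv]; group

end Cfsg.Agent.S3983
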