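import Cfsg.Statements.S3984
import Cfsg.Agent.H1.Misc

set_option autoImplicit false
open scoped Pointwise
open Cfsg

namespace Cfsg.Agent.S3984

open H1

/-- Let P be a Sylow p-subgroup of the finite group G that meets each conjugate g P g⁻¹ with g outside N_G(P) trivially, and let N be a normal subgroup of G of order prime to p. Then every Sylow p-subgroup Q of G ⧸ N meets each conjugate x Q x⁻¹ with x outside its normalizer trivially. -/
theorem result {G : Type*} [Group G] [Finite G] (p : ℕ) [Fact p.Prime] (P : Sylow p G) (hTI : ∀ g : G, g ∉ Subgroup.normalizer ((P : Subgroup G) : Set G) → (P : Subgroup G) ⊓ (MulAut.conj g • (P : Subgroup G)) = ⊥) (N : Subgroup G) [N.Normal] (hN : (Nat.card ↥N).Coprime p) (Q : Sylow p (G ⧸ N)) : ∀ x : G ⧸ N, x ∉ Subgroup.normalizer ((Q : Subgroup (G ⧸ N)) : Set (G ⧸ N)) → (Q : Subgroup (G ⧸ N)) ⊓ (MulAut.conj x • (Q : Subgroup (G ⧸ N))) = ⊥ := by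
  intro x hx
  by_contra hne
  apply hx
  obtain ⟨y, hy, hy1⟩ := exists_mem_ne_one hne
  set f := QuotientGroup.mk' N
  have hf : Function.Surjective f := QuotientGroup.mk'_surjective N
  have h1 : IsSylowIn p ((P : Subgroup G).map f) ⊤ := by
    simpa [Subgroup.map_top_of_surjective _ hf] using (isSylowIn_top P).map f
  obtain ⟨g', -, hg⟩ := h1.conj (isSylowIn_top Q)
  obtain ⟨g, rfl⟩ := hf g'
  obtain ⟨x, rfl⟩ := hf x
  rw [← map_conj_smul] at hg
  set S := MulAut.conj g • (P : Subgroup G) with hS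
  have hSp : IsPGroup p S := isPGroup_conj_smul _ P.isPGroup'
  obtain ⟨⟨a, ha, rfl⟩, hy2⟩ := (by rw [← hg, ← map_conj_smul] at hy; exact hy :
    y ∈ S.map f ⊓ (MulAut.conj x • S).map f)
  obtain ⟨b, hb, e⟩ := hy2
  -- `a` and `b` are conjugate under `N`
  have hab : b ∈ Subgroup.zpowers a ⊔ N := by
    have : a⁻¹ * b ∈ N := by
      rw [← QuotientGroup.ker_mk' N, MonoidHom.mem_ker, map_mul, map_inv]
      exact inv_mul_eq_one.2 e.symm
    have h2 : b = a * (a⁻¹ * b) := by group
    rw [h2]; exact Subgroup.mul_mem_sup (Subgroup.mem_zpowers a) this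
  have hap : IsPGroup p (Subgroup.zpowers a) := hSp.to_le (Subgroup.zpowers_le.2 ha)
  have hbp : IsPGroup p (Subgroup.zpowers b) := (isPGroup_conj_smul x hSp).to_le (Subgroup.zpowers_le.2 hb)
  obtain ⟨n, hn, hn2⟩ := exists_conj_le_of_coprime (A := Subgroup.zpowers a) (N := N)
    Subgroup.le_normalizer_of_normal (inf_eq_bot_of_coprime (isPGroup_coprime hap hN))
    (Subgroup.zpowers_le.2 hab) (isPGroup_coprime hbp hN) (Or.inl (isSolvable_zpowers b))
  have h2 : n * b * n⁻¹ ∈ S := Subgroup.zpowers_le.2 ha (hn2 (conj_mem_conj_smul (Subgroup.mem_zpowers b)))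
  have hb1 : b ≠ 1 := by rintro rfl; exact hy1 (by rw [← e, map_one])
  have h3 : g⁻¹ * (n * x) * g ∈ Subgroup.normalizer ((P : Subgroup G) : Set G) := by
    by_contra h
    have : g⁻¹ * (n * b * n⁻¹) * g ∈ (P : Subgroup G) ⊓ MulAut.conj (g⁻¹ * (n * x) * g) • (P : Subgroup G) :=
      ⟨mem_conj_smul.1 h2, mem_conj_smul.2 (by
        have := mem_conj_smul.1 (mem_conj_smul.1 hb)
        convert this using 1; group)⟩
    rw [hTI _ h, Subgroup.mem_bot] at this
    exact hb1 (by simpa using conj_eq_one_iff'.1 this)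
  have h4 : n * x ∈ Subgroup.normalizer (S : Set G) := by
    rw [hS, normalizer_conj_smul, mem_conj_smul]; exact h3
  have h5 : f (n * x) ∈ Subgroup.normalizer ((S.map f : Subgroup (G ⧸ N)) : Set (G ⧸ N)) :=
    le_normalizer_map f le_rfl ⟨_, h4, rfl⟩
  have h6 : f n = 1 := (QuotientGroup.eq_one_iff n).2 hn
  rwa [hg, map_mul, h6, one_mul] at h5

end Cfsg.Agent.S3984
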