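import Cfsg.Statements.S3985
import Cfsg.Agent.H1.Misc

set_option autoImplicit false
open scoped Pointwise
open Cfsg

namespace Cfsg.Agent.S3985

open H1

/-- Let P be a cyclic Sylow p-subgroup of the finite group G. Then P meets each conjugate g P g⁻¹ with g outside N_G(P) trivially if and only if P is weakly self-centralizing: C_G(x) = C_G(P) for every non-identity x ∈ P. -/
theorem result {G : Type*} [Group G] [Finite G] (p : ℕ) [Fact p.Prime] (P : Sylow p G) (hcyc : IsCyclic ↥(P : Subgroup G)) : (∀ g : G, g ∉ Subgroup.normalizer ((P : Subgroup G) : Set G) → (P : Subgroup G) ⊓ (MulAut.conj g • (P : Subgroup G)) = ⊥) ↔ ∀ x : G, x ∈ (P : Subgroup G) → x ≠ 1 → Subgroup.centralizer ({x} : Set G) = Subgroup.centralizer ((P : Subgroup G) : Set G) := by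
  have hab : IsMulCommutative (P : Subgroup G) := inferInstance
  constructor
  · intro h x hx hx1
    refine le_antisymm ?_ (Subgroup.centralizer_le (Set.singleton_subset_iff.2 hx))
    have h1 : Subgroup.centralizer {x} ≤ Subgroup.normalizer ((P : Subgroup G) : Set G) := by
      intro g hg
      by_contra h2
      rw [Subgroup.mem_centralizer_singleton_iff] at hg
      have : x ∈ (P : Subgroup G) ⊓ MulAut.conj g • (P : Subgroup G) :=
        ⟨hx, mem_conj_smul.2 (by rw [mul_assoc, ← hg]; simpa using hx)⟩
      rw [h g h2] at this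
      exact hx1 this
    refine le_of_p_and_p' p (fun g hg hk => ?_) fun g hg hc => ?_
    · exact L.le_centralizer_of_comm hab
        ((isSylowIn_top P).mem_of_mem_normalizer (Subgroup.mem_top g) hk (h1 hg))
    · refine le_centralizer_of_prime_order (A := Subgroup.zpowers g) hab (Subgroup.zpowers_le.2 (h1 hg))
        (isPGroup_coprime P.isPGroup' (by rwa [Nat.card_zpowers])).symm (fun v hv hvp => ?_) (Subgroup.mem_zpowers g)
      obtain ⟨n, hn⟩ := L.exists_orderOf_eq_pow_succ P.isPGroup' hx hx1
      obtain ⟨k, hk⟩ := exists_orderOf_eq_pow P.isPGroup' hv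
      have : Subgroup.zpowers v ≤ Subgroup.zpowers x :=
        le_of_card_dvd_of_isCyclic hcyc (Subgroup.zpowers_le.2 hv) (Subgroup.zpowers_le.2 hx) (by
          rw [Nat.card_zpowers, Nat.card_zpowers, hn, hk, (hk ▸ hvp : (p ^ k).Prime).eq_one_of_pow]
          exact pow_dvd_pow p (by omega))
      rw [centralizer_zpowers, Subgroup.mem_centralizer_singleton_iff]
      have h2 := centralizer_le_centralizer_of_mem_zpowers (this (Subgroup.mem_zpowers v)) hg
      exact (Subgroup.mem_centralizer_singleton_iff.1 h2).symm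
  · intro h g hg
    by_contra hne
    apply hg
    obtain ⟨x, hx, hx1⟩ := exists_mem_ne_one hne
    have h1 := h x hx.1 hx1
    have h2 := h _ (mem_conj_smul.1 hx.2) (by rwa [Ne, conj_eq_one_iff'])
    have h3 : g⁻¹ ∈ Subgroup.normalizer ((Subgroup.centralizer ((P : Subgroup G) : Set G) : Subgroup G) : Set G) := by
      rw [H9.mem_normalizer_iff_cj]
      nth_rewrite 1 [← h1]
      rw [H9.cj_centralizer_singleton, inv_inv, h2]
    have h4 : IsSylowIn p (P : Subgroup G) (Subgroup.centralizer ((P : Subgroup G) : Set G)) :=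
      (isSylowIn_top P).of_le (L.le_centralizer_of_comm hab) le_top
    exact (Subgroup.inv_mem_iff _).1 (h4.normalizer_le_of_normal (Subgroup.centralizer_le_normalizer _) h3)

end Cfsg.Agent.S3985
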