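import Cfsg.Statements.S3986
import Cfsg.Agent.H1.Misc

set_option autoImplicit false
open Cfsg

namespace Cfsg.Agent.S3986

open H1

/-- Let p be a prime and G a finite group. Then some Sylow p-subgroup of G is a direct factor of G (it is normal and has a normal complement) if and only if every element of p-power order commutes with every element whose order is a power of a prime other than p. -/
theorem result {G : Type*} [Group G] [Finite G] (p : ℕ) [Fact p.Prime] : (∃ (P : Sylow p G) (K : Subgroup G), (P : Subgroup G).Normal ∧ K.Normal ∧ (P : Subgroup G) ⊓ K = ⊥ ∧ (P : Subgroup G) ⊔ K = ⊤) ↔ ∀ x y : G, (∃ a : ℕ, orderOf x = p ^ a) → (∃ q b : ℕ, q.Prime ∧ q ≠ p ∧ orderOf y = q ^ b) → x * y = y * x := by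
  have hp : p.Prime := Fact.out
  constructor
  · rintro ⟨P, K, hP, hK, h1, h2⟩ x y hx ⟨q, b, hq, hqp, hy⟩
    have hxP : x ∈ (P : Subgroup G) := (isSylowIn_top P).mem_of_mem_normalizer (Subgroup.mem_top x) hx
      (Subgroup.le_normalizer_of_normal (Subgroup.mem_top x))
    have hyK : y ∈ K := by
      apply mem_of_coprime_index
      have : K.index ∣ Nat.card (P : Subgroup G) := index_dvd_card_of_sup_eq_top (by rw [sup_comm, h2])
      refine Nat.Coprime.coprime_dvd_right this (isPGroup_coprime P.isPGroup' ?_).symm
      rw [hy]; exact Nat.Coprime.pow_left _ ((Nat.coprime_primes hq hp).2 hqp)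
    exact (Subgroup.commute_of_normal_of_disjoint _ _ hP hK (disjoint_iff.2 h1) x y hxP hyK).eq
  · intro h
    obtain ⟨P⟩ := (inferInstance : Nonempty (Sylow p G))
    have hn : (P : Subgroup G).Normal := by
      rw [← Subgroup.normalizer_eq_top_iff]
      refine eq_top_of_forall_sylow_le fun q hq _ => ?_
      by_cases e : q = p
      · subst e; exact ⟨P, Subgroup.le_normalizer⟩
      · haveI := Fact.mk hq
        obtain ⟨Q⟩ := (inferInstance : Nonempty (Sylow q G))
        refine ⟨Q, le_normalizer_of_le_centralizer fun y hy x hx => ?_⟩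
        obtain ⟨k, hk⟩ := exists_orderOf_eq_pow Q.isPGroup' hy
        exact h x y (exists_orderOf_eq_pow P.isPGroup' hx) ⟨q, k, hq, e, hk⟩
    obtain ⟨K, hK⟩ := Subgroup.exists_right_complement'_of_coprime (N := (P : Subgroup G)) P.card_coprime_index
    have hKc : K ≤ Subgroup.centralizer ((P : Subgroup G) : Set G) := by
      refine le_of_forall_primePow_mem fun q k hq y hy hk x hx => ?_
      by_cases e : q = p
      · subst e
        have : y ∈ (P : Subgroup G) ⊓ K := ⟨(isSylowIn_top P).mem_of_mem_normalizer (Subgroup.mem_top y) ⟨k, hk⟩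
          (Subgroup.le_normalizer_of_normal (Subgroup.mem_top y)), hy⟩
        rw [hK.disjoint.eq_bot, Subgroup.mem_bot] at this
        simp [this]
      · exact h x y (exists_orderOf_eq_pow P.isPGroup' hx) ⟨q, k, hq, e, hk⟩
    exact ⟨P, K, hn, normal_of_sup_eq_top hK.sup_eq_top
      (le_normalizer_of_le_centralizer (Subgroup.le_centralizer_iff.1 hKc)) Subgroup.le_normalizer,
      hK.disjoint.eq_bot, hK.sup_eq_top⟩

end Cfsg.Agent.S3986
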