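import Cfsg.Statements.S3987
import Cfsg.Agent.H1.Misc
import Cfsg.Agent.S3986

set_option autoImplicit false
open Cfsg

namespace Cfsg.Agent.S3987

open H1

/-- Let p be a prime and G a finite group. Then some Sylow p-subgroup of G is a direct factor of G (normal with a normal complement) if and only if for every element x of p-power order and every element y whose order is a power of a prime other than p, the conjugacy class of x y has as many elements as the product of the sizes of the classes of x and of y. -/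
theorem result {G : Type*} [Group G] [Finite G] (p : ℕ) [Fact p.Prime] : (∃ (P : Sylow p G) (K : Subgroup G), (P : Subgroup G).Normal ∧ K.Normal ∧ (P : Subgroup G) ⊓ K = ⊥ ∧ (P : Subgroup G) ⊔ K = ⊤) ↔ ∀ x y : G, (∃ a : ℕ, orderOf x = p ^ a) → (∃ q b : ℕ, q.Prime ∧ q ≠ p ∧ orderOf y = q ^ b) → (Subgroup.centralizer ({x * y} : Set G)).index = (Subgroup.centralizer ({x} : Set G)).index * (Subgroup.centralizer ({y} : Set G)).index := by
  have hp : p.Prime := Fact.out
  rw [Cfsg.Agent.S3986.result p]
  constructor
  · intro h x y hx hy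
    obtain ⟨P, K, hP, hK, h1, h2⟩ := (Cfsg.Agent.S3986.result p).2 h
    have hc := h x y hx hy
    obtain ⟨q, b, hq, hqp, hy'⟩ := hy
    obtain ⟨a, ha⟩ := hx
    have hcop : (orderOf x).Coprime (orderOf y) := by
      rw [ha, hy']; exact Nat.coprime_pow_primes _ _ hp hq (Ne.symm hqp)
    rw [centralizer_mul_of_coprime hc hcop]
    apply index_inf_of_coprime
    have hPy : (P : Subgroup G) ≤ Subgroup.centralizer {y} := fun g hg =>
      Subgroup.mem_centralizer_singleton_iff.2 (h g y (exists_orderOf_eq_pow P.isPGroup' hg) ⟨q, b, hq, hqp, hy'⟩)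
    have hxP : x ∈ (P : Subgroup G) := (isSylowIn_top P).mem_of_mem_normalizer (Subgroup.mem_top x) ⟨a, ha⟩
      (Subgroup.le_normalizer_of_normal (Subgroup.mem_top x))
    have hKx : K ≤ Subgroup.centralizer {x} := fun g hg =>
      Subgroup.mem_centralizer_singleton_iff.2
        (Subgroup.commute_of_normal_of_disjoint _ _ hP hK (disjoint_iff.2 h1) x g hxP hg).eq.symm
    have e1 : K.index ∣ Nat.card (P : Subgroup G) := index_dvd_card_of_sup_eq_top (by rw [sup_comm, h2])
    exact Nat.Coprime.coprime_dvd_left ((Subgroup.index_dvd_of_le hKx).trans e1)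
      (Nat.Coprime.coprime_dvd_right (Subgroup.index_dvd_of_le hPy) P.card_coprime_index)
  · intro h x y hx hy
    have e := h x y hx hy
    simp only [index_centralizer_eq_card] at e
    let f : {a : G | IsConj x a} × {b : G | IsConj y b} → G := fun t => t.1 * t.2
    have hsub : {z : G | IsConj (x * y) z} ⊆ Set.range f := by
      intro z hz
      obtain ⟨c, rfl⟩ := isConj_iff.1 hz
      exact ⟨(⟨c * x * c⁻¹, isConj_iff.2 ⟨c, rfl⟩⟩, ⟨c * y * c⁻¹, isConj_iff.2 ⟨c, rfl⟩⟩), by simp [f]⟩
    have hinj : Function.Injective f := by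
      have h1 : Nat.card ({a : G | IsConj x a} × {b : G | IsConj y b}) ≤ Nat.card (Set.range f) := by
        rw [Nat.card_prod, ← e]; exact Nat.card_mono (Set.toFinite _) hsub
      have h2 : Function.Bijective (Set.rangeFactorization f) :=
        (Nat.bijective_iff_surjective_and_card _).2 ⟨Set.rangeFactorization_surjective,
          le_antisymm h1 (Nat.card_le_card_of_surjective _ Set.rangeFactorization_surjective)⟩
      exact fun a b hab => h2.1 (Subtype.ext hab)
    have := @hinj (⟨x, IsConj.refl x⟩, ⟨y, IsConj.refl y⟩)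
      (⟨(x * y) * x * (x * y)⁻¹, isConj_iff.2 ⟨_, rfl⟩⟩, ⟨(x * y) * y * (x * y)⁻¹, isConj_iff.2 ⟨_, rfl⟩⟩)
      (by simp only [f]; group)
    have h3 : x = (x * y) * x * (x * y)⁻¹ := congrArg (fun t => (t.1 : G)) this
    have h4 : x * (x * y) = x * (y * x) := by rw [← mul_assoc x y x]; exact eq_mul_inv_iff_mul_eq.1 h3
    exact mul_left_cancel h4

end Cfsg.Agent.S3987
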