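import Cfsg.Statements.S3997
import Cfsg.Agent.H1.Misc

set_option autoImplicit false
open Cfsg

namespace Cfsg.Agent.S3997

open H1
theorem card_eq {G H : Type*} [Group G] [Finite G] [Group H] [Finite H]
    (hT : (∀ m : ℕ, Nat.card {g : G // orderOf g = m} = Nat.card {h : H // orderOf h = m})) :
    ∃ e : G ≃ H, ∀ g, orderOf (e g) = orderOf g := by
  have : ∀ m, Nonempty ({g : G // orderOf g = m} ≃ {h : H // orderOf h = m}) := fun m =>
    Finite.card_eq.1 (hT m)
  refine ⟨Equiv.ofFiberEquiv fun m => (this m).some, fun g => ?_⟩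
  exact Equiv.ofFiberEquiv_map _ g

/-- Let G and H be finite groups with the same order type: for every m they have the same number of elements of order m. If G is nilpotent then so is H. -/
theorem result {G H : Type*} [Group G] [Finite G] [Group H] [Finite H] (hT : (∀ m : ℕ, Nat.card {g : G // orderOf g = m} = Nat.card {h : H // orderOf h = m})) (hG : Group.IsNilpotent G) :
    Group.IsNilpotent H := by
  obtain ⟨e, he⟩ := card_eq hT
  refine isNilpotent_of_sylow_normal fun p _ _ => ?_
  obtain ⟨P⟩ := (inferInstance : Nonempty (Sylow p G))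
  obtain ⟨Q⟩ := (inferInstance : Nonempty (Sylow p H))
  have hPn : (P : Subgroup G).Normal := inferInstance
  have h1 : Nat.card {h : H | ∃ k, orderOf h = p ^ k} ≤ Nat.card (Q : Subgroup H) := by
    rw [Q.card_eq_multiplicity, ← Nat.card_congr e, ← P.card_eq_multiplicity]
    refine Nat.card_le_card_of_injective (fun h => ⟨e.symm h, (isSylowIn_top P).mem_of_mem_normalizer
      (Subgroup.mem_top _) (by rw [← he, e.apply_symm_apply]; exact h.2)
      (Subgroup.le_normalizer_of_normal (Subgroup.mem_top _))⟩) ?_
    intro a b hab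
    exact Subtype.ext (e.symm.injective (congrArg Subtype.val hab))
  have h2 : ((Q : Subgroup H) : Set H) = {h : H | ∃ k, orderOf h = p ^ k} :=
    Set.eq_of_subset_of_ncard_le (fun x hx => exists_orderOf_eq_pow Q.isPGroup' hx) h1
  refine ⟨Q, ⟨fun x hx g => ?_⟩⟩
  have : x ∈ ((Q : Subgroup H) : Set H) := hx
  rw [h2] at this
  have h3 : g * x * g⁻¹ ∈ ((Q : Subgroup H) : Set H) := by rw [h2]; simpa [orderOf_conj] using this
  exact h3

end Cfsg.Agent.S3997
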