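import Cfsg.Statements.S4002
import Cfsg.Agent.S3633

set_option autoImplicit false
open Cfsg

namespace Cfsg.Agent.S4002

/-- If the set of element orders of a finite group G is {1, 2, …, n} with n ≥ 7, then G is not solvable. -/
theorem result {G : Type*} [Group G] [Finite G] (n : ℕ) (hn : 7 ≤ n) (h : Set.range (orderOf : G → ℕ) = {k : ℕ | 1 ≤ k ∧ k ≤ n}) : ¬ Group.IsSolvable G := by
  have key : ∀ p q r : ℕ, p.Prime → q.Prime → r.Prime → p < q → q < r → r ≤ n → n < p * q → ¬ Group.IsSolvable G := by
    intro p q r hp hq hr h1 h2 h3 h4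
    have hd : ∀ s : ℕ, s.Prime → s ≤ n → s ∣ Nat.card G := by
      intro s hs hsn
      have : s ∈ Set.range (orderOf : G → ℕ) := by rw [h]; exact ⟨hs.pos, hsn⟩
      obtain ⟨x, rfl⟩ := this
      exact orderOf_dvd_natCard x
    have hb : ∀ x : G, orderOf x ≤ n := fun x => by
      have : orderOf x ∈ Set.range (orderOf : G → ℕ) := ⟨x, rfl⟩
      rw [h] at this; exact this.2
    refine (Cfsg.Agent.S3633.result {p, q, r} ?_ ⟨?_, ?_⟩ ⊥ inferInstance).2
    · rw [Finset.card_eq_three.mpr ⟨p, q, r, by omega, by omega, by omega, rfl⟩]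
    · intro s hs
      simp only [Finset.mem_insert, Finset.mem_singleton] at hs
      rcases hs with rfl | rfl | rfl
      · exact ⟨hp, hd _ hp (by omega)⟩
      · exact ⟨hq, hd _ hq (by omega)⟩
      · exact ⟨hr, hd _ hr (by omega)⟩
    · rintro s hs t ht hst ⟨x, hx⟩
      have := hb x
      rw [hx] at this
      simp only [Finset.mem_insert, Finset.mem_singleton] at hs ht
      rcases hs with rfl | rfl | rfl <;> rcases ht with rfl | rfl | rfl <;> first | exact hst rfl | nlinarith
  by_cases h1 : n ≤ 14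
  · exact key 3 5 7 (by norm_num) (by norm_num) (by norm_num) (by omega) (by omega) (by omega) (by omega)
  by_cases h2 : n ≤ 34
  · exact key 5 7 11 (by norm_num) (by norm_num) (by norm_num) (by omega) (by omega) (by omega) (by omega)
  obtain ⟨r, hr, r1, r2⟩ := Nat.exists_prime_lt_and_le_two_mul (n / 2) (by omega)
  obtain ⟨q, hq, q1, q2⟩ := Nat.exists_prime_lt_and_le_two_mul (n / 4) (by omega)
  obtain ⟨p, hp, p1, p2⟩ := Nat.exists_prime_lt_and_le_two_mul (n / 8) (by omega)
  refine key p q r hp hq hr (by omega) (by omega) (by omega) ?_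
  have a1 : n < 8 * p := by omega
  have a2 : n < 4 * q := by omega
  nlinarith

end Cfsg.Agent.S4002
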