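import Cfsg.Statements.S4013
import Cfsg.Agent.H1.Misc

set_option autoImplicit false
open Cfsg

namespace Cfsg.Agent.S4013

open H1

/-- Let G be a finite p-group (p prime) and N < M normal subgroups of G such that for some g ∈ M ∖ N the conjugacy class of g is exactly M ∖ N. Then p = 2 and N has index 2 in M. -/
theorem result {G : Type*} [Group G] [Finite G] (p : ℕ) [Fact p.Prime] (hG : IsPGroup p G) (N M : Subgroup G) [N.Normal] [M.Normal] (hNM : N < M) (g : G) (hgM : g ∈ M) (hgN : g ∉ N) (hcl : {h : G | IsConj g h} = (M : Set G) \ (N : Set G)) : p = 2 ∧ N.relIndex M = 2 := by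
  have hp : p.Prime := Fact.out
  have h1 : (Subgroup.centralizer {g}).index + Nat.card N = Nat.card M := by
    rw [index_centralizer_eq_card, hcl]
    exact Set.ncard_diff_add_ncard_of_subset (s := (N : Set G)) (t := (M : Set G)) hNM.le
  obtain ⟨k, hk⟩ := hG.index (Subgroup.centralizer {g})
  obtain ⟨j, hj⟩ := L.exists_relIndex_eq_pow (N := N) (hG.to_subgroup M)
  have h2 := card_mul_relIndex hNM.le
  have hj0 : j ≠ 0 := by
    rintro rfl
    exact hNM.not_ge (Subgroup.relIndex_eq_one.1 (by simpa using hj))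
  have h3 : 1 < p ^ j := Nat.one_lt_pow hj0 hp.one_lt
  obtain ⟨s, hs⟩ : ∃ s, p ^ j = s + 1 := ⟨p ^ j - 1, by omega⟩
  rw [hj, hs, ← h1, hk] at h2
  have h4 : s ∣ p ^ k := ⟨Nat.card N, by linarith⟩
  obtain ⟨i, -, rfl⟩ := (Nat.dvd_prime_pow hp).1 h4
  have hi : i = 0 := by
    by_contra hi
    have a1 : p ∣ p ^ i + 1 := hs ▸ dvd_pow_self p hj0
    exact hp.one_lt.ne' (Nat.dvd_one.1 ((Nat.dvd_add_right (dvd_pow_self p hi)).1 a1))
  subst hi
  rw [hj, hs]
  refine ⟨?_, by simp⟩
  exact (Nat.prime_dvd_prime_iff_eq hp Nat.prime_two).1 (by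
    have := dvd_pow_self p hj0; rwa [hs] at this)

end Cfsg.Agent.S4013
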