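import Cfsg.Statements.S4014
import Cfsg.Agent.H5.Wt

set_option autoImplicit false
open Cfsg

namespace Cfsg.Agent.S4014

open H5 Equiv

/-- Let p be a prime, n ≥ 1, and P a Sylow p-subgroup of the symmetric group on n letters. Then the derived length of P is exactly k = ⌊log_p n⌋ (the largest k with p^k ≤ n): the k-th derived subgroup of P is trivial and, when k ≥ 1, the (k−1)-st is not. -/
theorem result (p : ℕ) [Fact p.Prime] (n : ℕ) (hn : 1 ≤ n) (P : Sylow p (Equiv.Perm (Fin n))) : derivedSeries ↥(P : Subgroup (Equiv.Perm (Fin n))) (Nat.log p n) = ⊥ ∧ (1 ≤ Nat.log p n → derivedSeries ↥(P : Subgroup (Equiv.Perm (Fin n))) (Nat.log p n - 1) ≠ ⊥) := by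
  have hp : p.Prime := Fact.out
  refine ⟨eq_bot_iff.2 fun g hg => Subtype.ext (Equiv.ext fun x => ds_fix P.2 x (lt_of_le_of_lt ?_ (Nat.lt_pow_succ_log_self hp.one_lt n)) hg), fun h => ?_⟩
  · simpa using Nat.card_le_card_of_injective (Subtype.val : MulAction.orbit P.1 x → _) Subtype.val_injective
  rw [← Nat.log_div_base]
  refine DLg.sylow (k := _ + 0) (DLg.iter (fun n => Perm (Fin n)) (fun a b => Emb.trans ⟨_, Perm.sumCongrHom_injective⟩
    (.of_equiv finSumFinEquiv.permCongrHom)) (fun a h => ?_) hp.pos (by simpa using Nat.pow_le_of_le_log (by omega) h) (DLg.zero ?_)) P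
  · have := NeZero.mk h
    exact Emb.trans ⟨_, RegularWreathProduct.toPermInj _ _ (Fin a)⟩ (.of_equiv (Fintype.equivFinOfCardEq (by simp)).permCongrHom)
  · simp [Fintype.card_perm, hp.dvd_factorial]


end Cfsg.Agent.S4014
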