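import Cfsg.Statements.S4020
import Cfsg.Agent.H1.FC
import Cfsg.Agent.H1.ZS

set_option autoImplicit false
open Cfsg

namespace Cfsg.Agent.S4020

open scoped commutatorElement
open H1
open Subgroup Cfsg
universe u
variable {G : Type u} [Group G] [Finite G] {p : ℕ} [hp : Fact p.Prime]

theorem card_sup {V : Subgroup G} {x : G} (hn : x ∈ normalizer (V : Set G)) (ox : orderOf x = p) (h : x ∉ V) :
    Nat.card (V ⊔ zpowers x : Subgroup G) = Nat.card V * p := by
  rw [sup_comm, card_sup_of_disjoint (zpowers_le.2 hn), Nat.card_zpowers, ox, mul_comm]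
  haveI : Fact (Nat.card (zpowers x)).Prime := ⟨by rw [Nat.card_zpowers, ox]; exact hp.out⟩
  by_contra hne
  have h1 : Nat.card (zpowers x ⊓ V : Subgroup G) ∣ p := by
    rw [← ox, ← Nat.card_zpowers]; exact card_dvd_of_le inf_le_left
  rcases (Nat.dvd_prime hp.out).1 h1 with e | e
  · exact hne (card_eq_one.1 e)
  · have := eq_of_le_of_card_eq (inf_le_left : zpowers x ⊓ V ≤ _) (by rw [e, Nat.card_zpowers, ox])
    exact h (inf_eq_left.1 this (mem_zpowers x))

theorem between {A B V : Subgroup G} (h1 : A ≤ B) (h2 : B < V) (hA : Nat.card A = p) (hV : Nat.card V = p * p) :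
    B = A := by
  have a1 := card_dvd_of_le h1
  have a2 := card_dvd_of_le h2.le
  have a3 := card_lt_of_lt h2
  rw [hV, ← pow_two] at a2 a3
  obtain ⟨k, hk, e⟩ := (Nat.dvd_prime_pow hp.out).1 a2
  refine (eq_of_le_of_card_eq h1 ?_).symm
  rw [hA, e] at a1
  rw [e] at a3
  rw [hA, e]
  interval_cases k
  · exact absurd (Nat.eq_one_of_dvd_one a1) hp.out.ne_one
  · simp
  · omega

theorem caseA (hD : ∀ H K : Subgroup G, IsPGroup p H → IsPGroup p K → Nat.card H = Nat.card K →
      ∃ g : G, K = H.map (MulAut.conj g).toMonoidHom) {P : Subgroup G} (hP : IsPGroup p P) {a : G} (ha : a ∈ P)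
      (h : a ^ p ≠ 1) : IsCyclic P ∨ (p = 2 ∧ ∃ z, Q8 P z) := by
  have hc : ∀ H K : Subgroup G, IsPGroup p H → IsPGroup p K → Nat.card H = Nat.card K → IsCyclic H → IsCyclic K := by
    intro H K h1 h2 h3 h4
    obtain ⟨g, rfl⟩ := hD H K h1 h2 h3
    exact isCyclic_of_surjective _ (H.equivMapOfInjective _ (MulAut.conj g).injective).surjective
  obtain ⟨k, hk⟩ := exists_orderOf_eq_pow hP ha
  obtain ⟨c, -, oc⟩ := exists_pow_orderOf_eq (x := a) (d := p ^ 2) (by
    rw [hk]; refine pow_dvd_pow p ?_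
    by_contra hlt
    exact h (orderOf_dvd_iff_pow_eq_one.1 (hk ▸ (pow_dvd_pow p (by omega : k ≤ 1)).trans (by simp))))
  have hcomm : ∀ x y : G, orderOf x = p → orderOf y = p → Commute x y → y ∈ zpowers x := by
    intro x y ox oy hxy
    by_contra hn
    have hy : y ∈ normalizer (zpowers x : Set G) := centralizer_le_normalizer _ (by
      rw [centralizer_zpowers]; exact mem_centralizer_singleton_iff.2 hxy.symm)
    have h1 := card_sup hy oy hn
    rw [Nat.card_zpowers, ox, ← pow_two] at h1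
    have := hc (zpowers c) _ (isPGroup_zpowers_iff.2 ⟨2, oc⟩) (IsPGroup.of_card h1)
      (by rw [h1, Nat.card_zpowers, oc]) inferInstance
    exact hn (le_of_card_dvd_of_isCyclic this le_sup_right le_sup_left
      (by rw [Nat.card_zpowers, Nat.card_zpowers, ox, oy]) (mem_zpowers y))
  have h0 : P ≠ ⊥ := fun e => h (by rw [e, Subgroup.mem_bot] at ha; rw [ha, one_pow])
  obtain ⟨z, hz, oz⟩ := exists_prime_orderOf_mem (inf_centralizer_ne_bot_of_isPGroup hP hP le_normalizer h0)
  obtain ⟨j, hj⟩ := exists_orderOf_eq_pow hP hz.1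
  have oz' : orderOf z = p := (Nat.prime_dvd_prime_iff_eq oz hp.out).1 (oz.dvd_of_dvd_pow (dvd_of_eq hj))
  have key : ∀ A : Subgroup P, Nat.card A = p → A = zpowers ⟨z, hz.1⟩ := by
    intro A hA
    obtain ⟨x, hx, ox⟩ := exists_mem_orderOf_eq_prime hp.out (dvd_of_eq hA.symm)
    obtain ⟨k, hk⟩ := hcomm x z (by rwa [orderOf_coe]) oz' (hz.2 x x.2)
    refine (eq_of_le_of_card_eq (zpowers_le.2 ((zpowers_le.2 hx) ⟨k, Subtype.ext (by simpa using hk)⟩)) ?_).symm
    rw [Nat.card_zpowers, orderOf_mk, oz', hA]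
  rcases Cfsg.Agent.S0016.result p hP (fun A B hA hB => (key A hA).trans (key B hB).symm) with h1 | ⟨rfl, n, ⟨e⟩⟩
  · exact Or.inl h1
  rcases n with _ | n
  · haveI : IsCyclic (QuaternionGroup (2 ^ 0)) := QuaternionGroup.quaternionGroup_one_isCyclic
    exact Or.inl (isCyclic_of_injective e.toMonoidHom e.injective)
  obtain ⟨m, a, b, h1, -, h2, h3⟩ := mc_of_quaternion hP (Nat.le_self_pow (by omega) 2) e
  by_cases hm : m = 1
  · subst hm
    exact Or.inr ⟨rfl, _, a, b, h1, rfl, h2⟩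
  exfalso
  have q := h1.q8_w h1.hb h1.nb h2
  obtain ⟨c, -, oc⟩ := exists_pow_orderOf_eq (x := a) (d := 2 ^ 3) (by
    rw [h1.ord]; exact pow_dvd_pow 2 (by have := h1.pos; omega))
  haveI := hc (zpowers c) _ (isPGroup_zpowers_iff.2 ⟨3, oc⟩) q.pg (by rw [q.card, Nat.card_zpowers, oc]; rfl)
    inferInstance
  exact q.not_comm inferInstance

theorem comm_of_solv (hD : ∀ H K : Subgroup G, IsPGroup p H → IsPGroup p K → Nat.card H = Nat.card K →
      ∃ g : G, K = H.map (MulAut.conj g).toMonoidHom) {P : Subgroup G} (hP : IsPGroup p P) (he : ∀ a ∈ P, a ^ p = 1)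
      (N : Subgroup G) [N.Normal] (hN : Group.IsSolvable N) (hd : p ∣ Nat.card N) : IsMulCommutative P := by
  set K := pPrimeCore p G
  have hf := QuotientGroup.mk'_surjective K
  haveI := ‹N.Normal›.map _ hf
  obtain ⟨M, q, hq, _, h1, -, h2, -, h3, -⟩ := exists_minimal_normal_elementary (N.map (QuotientGroup.mk' K))
    (isSolvable_map _ hN) (fun e => not_dvd_card_pPrimeCore (hd.trans (card_dvd_of_le (by
      rwa [Subgroup.map_eq_bot_iff, QuotientGroup.ker_mk'] at e))))
  haveI := Fact.mk hq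
  have hqp : q = p := by
    by_contra hne
    exact h1 (le_bot_iff.1 (pPrimeCore_quotient_pPrimeCore (p := p) (G := G) ▸ le_pPrimeCore
      (isPGroup_coprime h3 ((Nat.coprime_primes hp.out hq).2 (Ne.symm hne)))))
  subst hqp
  obtain ⟨x, hx, ox⟩ := exists_mem_orderOf_eq_prime (H := M.comap (QuotientGroup.mk' K)) hq (by
    rw [card_comap_mk']
    obtain ⟨k, hk⟩ := IsPGroup.iff_card.1 h3
    refine Dvd.dvd.mul_left ?_ _
    rw [hk]
    exact dvd_pow_self q fun e => h1 (card_eq_one.1 (by rw [hk, e, pow_zero])))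
  have hPM : P ≤ M.comap (QuotientGroup.mk' K) := by
    intro a ha
    by_cases h1 : a = 1
    · rw [h1]; exact one_mem _
    have oa := orderOf_eq_prime (he a ha) h1
    obtain ⟨g, hg⟩ := hD (zpowers x) (zpowers a) (isPGroup_zpowers_iff.2 ⟨1, by simpa using ox⟩)
      (isPGroup_zpowers_iff.2 ⟨1, by simpa using oa⟩) (by rw [Nat.card_zpowers, Nat.card_zpowers, ox, oa])
    have : a ∈ (zpowers x).map (MulAut.conj g).toMonoidHom := hg ▸ mem_zpowers a
    obtain ⟨y, hy, rfl⟩ := this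
    exact Normal.conj_mem inferInstance _ ((zpowers_le.2 hx) hy) g
  refine isMulCommutative_of_comm fun a ha b hb => commutatorElement_eq_one_iff_mul_comm.1 ?_
  have h4 : ⁅a, b⁆ ∈ P ⊓ K := ⟨commutator_le_of_le_normalizer le_normalizer (commutator_mem_commutator ha hb), by
    refine (QuotientGroup.eq_one_iff _).1 ?_
    rw [← QuotientGroup.mk'_apply, map_commutatorElement, commutatorElement_eq_one_iff_mul_comm]
    exact comm_of_mem h2 (hPM ha) (hPM hb)⟩
  rwa [H1.inf_eq_bot_of_coprime (isPGroup_coprime hP pPrimeCore_coprime), Subgroup.mem_bot] at h4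

theorem exists_w (hD : ∀ H K : Subgroup G, IsPGroup p H → IsPGroup p K → Nat.card H = Nat.card K →
      ∃ g : G, K = H.map (MulAut.conj g).toMonoidHom) (P : Sylow p G) (he : ∀ a ∈ (P : Subgroup G), a ^ p = 1)
      (hc : ¬ IsMulCommutative (P : Subgroup G)) :
      ∃ y w : G, orderOf y = p ∧ w ^ 2 * y * (w ^ 2)⁻¹ = y⁻¹ := by
  obtain ⟨x, hx, y, hy, hz1, hz⟩ : ∃ x ∈ (P : Subgroup G), ∃ y ∈ (P : Subgroup G), ⁅x, y⁆ ≠ 1 ∧
      ⁅x, y⁆ ∈ centralizer ((P : Subgroup G) : Set G) := by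
    haveI : Nontrivial ((P : Subgroup G) ⧸ center (P : Subgroup G)) := QuotientGroup.nontrivial_iff.2 fun e =>
      hc ⟨⟨fun a b => mem_center_iff.1 (e ▸ mem_top b : b ∈ center (P : Subgroup G)) a⟩⟩
    haveI := (P.isPGroup'.to_quotient (center (P : Subgroup G))).center_nontrivial
    obtain ⟨⟨yb, hyb⟩, h1⟩ := exists_ne (1 : center ((P : Subgroup G) ⧸ center (P : Subgroup G)))
    obtain ⟨y, rfl⟩ := QuotientGroup.mk_surjective yb
    have h2 : y ∉ center (P : Subgroup G) := fun h => h1 (Subtype.ext ((QuotientGroup.eq_one_iff y).2 h))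
    rw [mem_center_iff] at h2
    push Not at h2
    obtain ⟨x, hx⟩ := h2
    have h3 : ⁅x, y⁆ ∈ center (P : Subgroup G) := by
      rw [← QuotientGroup.eq_one_iff, ← QuotientGroup.mk'_apply, map_commutatorElement,
        commutatorElement_eq_one_iff_mul_comm]
      exact mem_center_iff.1 hyb _
    refine ⟨x, x.2, y, y.2, fun e => hx (Subtype.ext (commutatorElement_eq_one_iff_mul_comm.1 e)), fun u hu => ?_⟩
    exact congrArg Subtype.val (mem_center_iff.1 h3 ⟨u, hu⟩)
  set z := ⁅x, y⁆ with hzd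
  have hzP : z ∈ (P : Subgroup G) :=
    commutator_le_of_le_normalizer le_normalizer (commutator_mem_commutator hx hy)
  have hxy : ¬ x * y = y * x := fun e => hz1 (commutatorElement_eq_one_iff_mul_comm.2 e)
  have oz := orderOf_eq_prime (he z hzP) hz1
  have oy := orderOf_eq_prime (he y hy) (by rintro rfl; simp at hxy)
  have ox := orderOf_eq_prime (he x hx) (by rintro rfl; simp at hxy)
  have e1 : x * y * x⁻¹ = z * y := by rw [hzd, commutatorElement_def]; group
  have e2 : x * z * x⁻¹ = z := by rw [hz x hx]; group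
  have e3 : y * z = z * y := hz y hy
  set V := zpowers y ⊔ zpowers z with hV
  have hyV : y ∈ V := mem_sup_left (mem_zpowers y)
  have hzV : z ∈ V := mem_sup_right (mem_zpowers z)
  have hVC : ∀ g, g * y = y * g → g * z = z * g → g ∈ centralizer (V : Set G) := fun g h1 h2 =>
    le_centralizer_iff.1 (sup_le (zpowers_le.2 (by rw [centralizer_zpowers]; exact mem_centralizer_singleton_iff.2 h1.symm))
      (zpowers_le.2 (by rw [centralizer_zpowers]; exact mem_centralizer_singleton_iff.2 h2.symm))) (mem_zpowers g)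
  have hVV : V ≤ centralizer (V : Set G) := sup_le (zpowers_le.2 (hVC y rfl e3)) (zpowers_le.2 (hVC z e3.symm rfl))
  have hzy : z ∉ zpowers y := fun h => by
    have : zpowers z = zpowers y := eq_of_le_of_card_eq (zpowers_le.2 h)
      (by rw [Nat.card_zpowers, Nat.card_zpowers, oz, oy])
    have h2 : y ∈ zpowers z := this ▸ mem_zpowers y
    exact hxy ((zpowers_le.2 hz) h2 x hx)
  have cV : Nat.card V = p * p := by
    rw [hV, card_sup (centralizer_le_normalizer _ (by
      rw [centralizer_zpowers]; exact mem_centralizer_singleton_iff.2 e3.symm)) oz hzy, Nat.card_zpowers, oy]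
  have hVp : IsPGroup p V := IsPGroup.of_card (n := 2) (by rw [cV, pow_two])
  have hxN : x ∈ normalizer (V : Set G) := by
    rw [← conj_smul_eq_self_iff]
    refine eq_of_le_of_card_eq ?_ (card_conj_smul _ _)
    rw [hV, smul_sup, conj_smul_eq_map, conj_smul_eq_map, MonoidHom.map_zpowers, MonoidHom.map_zpowers]
    exact sup_le (zpowers_le.2 (show x * y * x⁻¹ ∈ _ from e1 ▸ mul_mem hzV hyV))
      (zpowers_le.2 (show x * z * x⁻¹ ∈ _ from e2.symm ▸ hzV))
  have hxV : x ∉ V := fun h => hxy (hVV h y hyV).symm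
  have cE := card_sup hxN ox hxV
  have hE : IsPGroup p (V ⊔ zpowers x : Subgroup G) := IsPGroup.of_card (n := 3) (by rw [cE, cV]; ring)
  have selfc : ∀ u, orderOf u = p → u ∈ centralizer (V : Set G) → u ∈ V := by
    intro u ou hu
    by_contra hn
    have cA := card_sup (centralizer_le_normalizer _ hu) ou hn
    obtain ⟨g, hg⟩ := hD (V ⊔ zpowers u) (V ⊔ zpowers x) (IsPGroup.of_card (n := 3) (by rw [cA, cV]; ring)) hE
      (by rw [cA, cE])
    have hA : IsMulCommutative (V ⊔ zpowers u : Subgroup G) := le_centralizer_iff_isMulCommutative.1 (sup_le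
      (le_centralizer_iff.1 (sup_le hVV (zpowers_le.2 hu)))
      (le_centralizer_iff.1 (sup_le (le_centralizer_iff.1 (zpowers_le.2 hu)) (le_centralizer _))))
    have hA' : IsMulCommutative (V ⊔ zpowers x : Subgroup G) := by rw [hg]; infer_instance
    exact hxy (comm_of_mem hA' (mem_sup_right (mem_zpowers x)) (mem_sup_left hyV))
  obtain ⟨g, hg⟩ := hD (zpowers z) (zpowers y) (isPGroup_zpowers_iff.2 ⟨1, by simpa using oz⟩)
      (isPGroup_zpowers_iff.2 ⟨1, by simpa using oy⟩) (by rw [Nat.card_zpowers, Nat.card_zpowers, oz, oy])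
  have hi : ¬ p ∣ (centralizer (zpowers y : Set G)).index := by
    rw [hg, ← conj_smul_eq_map, centralizer_conj_smul, index_conj_smul]
    exact not_dvd_index_of_sylow_le P (le_centralizer_iff.1 (zpowers_le.2 hz))
  obtain ⟨T, hT, hVT⟩ := exists_isSylowIn_ge (L := centralizer (zpowers y : Set G)) hVp
    (hVV.trans (centralizer_le (le_sup_left : zpowers y ≤ V)))
  have hT' := hT.trans le_top (by rwa [relIndex_top_right])
  have hlt : V < T := lt_of_le_of_ne hVT fun e => by
    have h1 := hT'.card_dvd hE le_top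
    rw [← e, cE] at h1
    have := Nat.le_of_dvd Nat.card_pos h1
    have := hp.out.one_lt
    have : 0 < Nat.card V := Nat.card_pos
    nlinarith
  obtain ⟨u, ⟨huN, huT⟩, huV⟩ := SetLike.exists_of_lt (lt_normalizer_inf_of_isPGroup hT.isPGroup hlt)
  have ou : orderOf u = p := by
    obtain ⟨c, hc⟩ := exists_conj_mem_sylow P (exists_orderOf_eq_pow hT.isPGroup huT)
    rw [← orderOf_conj c]
    refine orderOf_eq_prime (he _ hc) fun e => huV ?_
    rw [show u = 1 by simpa using e]; exact one_mem _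
  have huC : u ∉ centralizer (V : Set G) := fun h => huV (selfc u ou h)
  have huy : y * u = u * y := hT.le huT y (mem_zpowers y)
  have hU : IsPGroup p (zpowers u) := isPGroup_zpowers_iff.2 ⟨1, by simpa using ou⟩
  have hV0 : V ≠ ⊥ := fun e => hz1 (by rwa [e, Subgroup.mem_bot] at hzV)
  have w1 := commutator_lt_of_isPGroup hVp hU (zpowers_le.2 huN) hV0
  have w2 : ⁅V, zpowers u⁆ ≠ ⊥ := fun e =>
    huC (le_centralizer_iff.1 (commutator_eq_bot_iff_le_centralizer.1 e) (mem_zpowers u))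
  obtain ⟨v, hv, hv1⟩ := exists_mem_ne_one (inf_centralizer_ne_bot_of_isPGroup (hVp.to_le w1.le) hU
    (le_normalizer_commutator (zpowers_le.2 huN) le_normalizer) w2)
  have ov := orderOf_eq_prime (he v ((sup_le (zpowers_le.2 hy) (zpowers_le.2 hzP) : V ≤ _) (w1.le hv.1))) hv1
  have w3 := between (zpowers_le.2 hv.1) w1 (by rw [Nat.card_zpowers, ov]) cV
  have w4 : V ⊓ centralizer (zpowers u : Set G) = zpowers y := between
    (zpowers_le.2 ⟨hyV, by rw [centralizer_zpowers]; exact mem_centralizer_singleton_iff.2 huy⟩)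
    (lt_of_le_of_ne inf_le_left fun e => huC (le_centralizer_iff.1 (inf_eq_left.1 e) (mem_zpowers u)))
    (by rw [Nat.card_zpowers, oy]) cV
  have w5 : ⁅z, u⁆ ∈ zpowers y := by
    have h1 : v ∈ zpowers y := w4 ▸ ⟨w1.le hv.1, hv.2⟩
    exact (zpowers_le.2 h1) (w3 ▸ commutator_mem_commutator hzV (mem_zpowers u))
  set d := ⁅z, u⁆ with hd
  have hd1 : d ≠ 1 := fun e => huC (hVC u huy.symm (commutatorElement_eq_one_iff_mul_comm.1 e).symm)
  have od := orderOf_eq_prime (he d ((zpowers_le.2 hy) w5)) hd1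
  have w6 : y ∈ zpowers d := (eq_of_le_of_card_eq (zpowers_le.2 w5)
    (by rw [Nat.card_zpowers, Nat.card_zpowers, od, oy])).ge (mem_zpowers y)
  obtain ⟨k, hk⟩ := (mem_powers_iff_mem_zpowers.2 w6)
  simp only at hk
  have hdu : d * u = u * d := (hT.le huT d w5)
  have f1 : u * z * u⁻¹ = d⁻¹ * z := by rw [hd, commutatorElement_def]; group
  have f2 : ∀ n : ℕ, u ^ n * z * (u ^ n)⁻¹ = (d ^ n)⁻¹ * z := by
    intro n
    induction n with
    | zero => simp
    | succ n ih =>
      have c1 : Commute (u ^ n) d⁻¹ := (Commute.pow_left hdu.symm n).inv_right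
      calc u ^ (n + 1) * z * (u ^ (n + 1))⁻¹ = u ^ n * (u * z * u⁻¹) * (u ^ n)⁻¹ := by group
        _ = (u ^ n * d⁻¹) * z * (u ^ n)⁻¹ := by rw [f1]; group
        _ = d⁻¹ * (u ^ n * z * (u ^ n)⁻¹) := by rw [c1.eq]; group
        _ = _ := by rw [ih]; group
  have g1 := f2 k
  rw [hk] at g1
  have g2 : u ^ k * y * (u ^ k)⁻¹ = y := by rw [(Commute.pow_left huy.symm k).eq]; group
  generalize u ^ k = s at g1 g2
  have k1 : (x * s * x) * y * (x * s * x)⁻¹ = z := by
    calc _ = x * (s * (x * y * x⁻¹) * s⁻¹) * x⁻¹ := by group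
      _ = x * ((s * z * s⁻¹) * (s * y * s⁻¹)) * x⁻¹ := by rw [e1]; group
      _ = x * (y⁻¹ * (z * y)) * x⁻¹ := by rw [g1, g2]; group
      _ = z := by rw [← e3, inv_mul_cancel_left, e2]
  have k2 : (x * s * x) * z * (x * s * x)⁻¹ = y⁻¹ := by
    calc _ = x * (s * (x * z * x⁻¹) * s⁻¹) * x⁻¹ := by group
      _ = x * (y⁻¹ * z) * x⁻¹ := by rw [e2, g1]
      _ = (x * y * x⁻¹)⁻¹ * (x * z * x⁻¹) := by group
      _ = y⁻¹ := by rw [e1, e2]; group
  refine ⟨y, x * s * x, oy, ?_⟩
  generalize x * s * x = w at k1 k2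
  calc w ^ 2 * y * (w ^ 2)⁻¹ = w * (w * y * w⁻¹) * w⁻¹ := by rw [pow_two]; group
    _ = _ := by rw [k1, k2]

/-- Let G be a finite group in which, for every prime p, any two p-subgroups of the same order are conjugate. Then every Sylow subgroup of G is cyclic, elementary abelian, or a quaternion group of order 8. -/
theorem result {G : Type*} [Group G] [Finite G]
    (hD : ∀ p : ℕ, p.Prime → ∀ H K : Subgroup G, IsPGroup p H → IsPGroup p K → Nat.card H = Nat.card K →
      ∃ g : G, K = H.map (MulAut.conj g).toMonoidHom) {p : ℕ} [Fact p.Prime] (P : Sylow p G) :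
    IsCyclic P ∨ Cfsg.IsElementaryAbelian p (P : Subgroup G) ∨ Nonempty ((P : Subgroup G) ≃* QuaternionGroup 2) := by
  by_cases he : ∀ a ∈ (P : Subgroup G), a ^ p = 1
  swap
  · push Not at he
    obtain ⟨a, ha, h⟩ := he
    rcases caseA (hD p Fact.out) P.isPGroup' ha h with h1 | ⟨-, z, h1⟩
    · exact Or.inl h1
    · exact Or.inr (Or.inr h1.equiv)
  refine Or.inr (Or.inl ⟨?_, he⟩)
  by_cases hp2 : p = 2
  · subst hp2
    exact isMulCommutative_of_comm fun a ha b hb => by
      have h1 := he a ha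
      have h2 := he b hb
      have h3 := he _ (mul_mem ha hb)
      rw [pow_two] at h1 h2 h3
      calc a * b = (b * b) * (a * b) * (a * a) := by rw [h1, h2]; group
        _ = b * (b * a * (b * a)) * a := by group
        _ = b * a := by
          have : b * a * (b * a) = 1 := by
            calc b * a * (b * a) = b * (a * b * (a * b)) * b⁻¹ := by group
              _ = 1 := by rw [h3]; group
          rw [this]; group
  by_contra hc
  haveI : Fact (Nat.Prime 2) := ⟨Nat.prime_two⟩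
  have hO : ¬ p ∣ Nat.card (pPrimeCore 2 G) := fun h => hc (comm_of_solv (hD p Fact.out) P.isPGroup' he _
    (FT.feit_thompson _ (Nat.coprime_two_right.1 pPrimeCore_coprime)) h)
  obtain ⟨y, w, oy, hw⟩ := exists_w (hD p Fact.out) P he hc
  have hodd : Odd (orderOf y) := oy ▸ (Fact.out : p.Prime).odd_of_ne_two hp2
  have hy1 : y ≠ 1 := ne_one_of_orderOf_prime Fact.out oy
  have hyy : y ≠ y⁻¹ := fun e =>
    hy1 (eq_one_of_sq_of_odd (by rw [pow_two]; nth_rewrite 2 [e]; exact mul_inv_cancel y) hodd)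
  obtain ⟨k, m, hm, e⟩ := Nat.exists_eq_two_pow_mul_odd (orderOf_pos w).ne'
  set t := w ^ m with ht
  have ot : t ^ 2 ^ k = 1 := by rw [ht, ← pow_mul, mul_comm, ← e, pow_orderOf_eq_one]
  have htw : t ^ 2 * y * (t ^ 2)⁻¹ = y⁻¹ := by
    obtain ⟨j, rfl⟩ := hm
    have c1 : Commute ((w ^ 2) ^ 2) y := by
      have : (w ^ 2) ^ 2 * y * ((w ^ 2) ^ 2)⁻¹ = y := by
        calc _ = w ^ 2 * (w ^ 2 * y * (w ^ 2)⁻¹) * (w ^ 2)⁻¹ := by group
          _ = w ^ 2 * y⁻¹ * (w ^ 2)⁻¹ := by rw [hw]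
          _ = (w ^ 2 * y * (w ^ 2)⁻¹)⁻¹ := by group
          _ = y := by rw [hw, inv_inv]
      exact mul_inv_eq_iff_eq_mul.1 this
    calc _ = w ^ 2 * (((w ^ 2) ^ 2) ^ j * y) * (((w ^ 2) ^ 2) ^ j)⁻¹ * (w ^ 2)⁻¹ := by rw [ht]; group
      _ = w ^ 2 * y * (w ^ 2)⁻¹ := by rw [(c1.pow_left j).eq]; group
      _ = _ := hw
  have ht2 : t ^ 2 ≠ 1 := fun e => hyy (by rw [← htw, e]; group)
  obtain ⟨j, -, hj⟩ := (Nat.dvd_prime_pow Nat.prime_two).1 (orderOf_dvd_of_pow_eq_one ot)
  obtain ⟨S, hS⟩ := exists_sylow_mem ⟨j, hj⟩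
  rcases caseA (hD 2 Nat.prime_two) S.isPGroup' hS ht2 with h1 | ⟨-, z, h1⟩
  · obtain ⟨i, hi⟩ := hasNPC_iff_index.1 (hasNPC_top_iff.1 (hasNPC_two_of_isCyclic (isSylowIn_top S).toH2 h1))
    exact hO (oy ▸ orderOf_dvd_card_of_mem (mem_of_coprime_index (by
      rw [hi]; exact Nat.Coprime.pow_right i (Nat.coprime_two_right.2 hodd))))
  · have hz : t ^ 2 = z := h1.sq hS fun h => ht2 (by
      rcases h1.mem_z.1 h with e | e <;> rw [e]
      · simp
      · rw [← h1.oz, pow_orderOf_eq_one])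
    have := zstar_fix G S (zpowers z) (zpowers_le.2 h1.mem) (fun c hc g hg => ?_) z (mem_zpowers z) y
    · rw [hz] at htw
      have e : y * z * y⁻¹ * z⁻¹ = y ^ 2 := by
        calc _ = y * (z * y * z⁻¹)⁻¹ := by group
          _ = _ := by rw [htw, inv_inv, pow_two]
      rw [e] at this
      refine hO (dvd_trans ?_ (orderOf_dvd_card_of_mem this))
      rw [Nat.Coprime.orderOf_pow (Nat.coprime_two_right.2 hodd), oy]
    · rcases h1.mem_z.1 hc with e | e <;> rw [e] at hg ⊢
      · simp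
      · exact h1.eq_z hg (by rw [orderOf_conj, h1.oz])

end Cfsg.Agent.S4020
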