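import Cfsg.Statements.S4023
import Cfsg.Agent.H1.Q5

set_option autoImplicit false
open Cfsg

namespace Cfsg.Agent.S4023

open H1
open Subgroup H9 FT QuaternionGroup

/-- Let p be a prime and G a finite group in which any two p-subgroups of the same order are conjugate, with Sylow p-subgroup P. Then P is cyclic, or elementary abelian, or p = 2 and P is a quaternion group of order 8, or p is odd and P is non-abelian of order p³ and exponent p. -/
theorem result {G : Type*} [Group G] [Finite G]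
    {p : ℕ} [Fact p.Prime] (hC : ∀ H K : Subgroup G, IsPGroup p H → IsPGroup p K → Nat.card H = Nat.card K →
      ∃ g : G, K = H.map (MulAut.conj g).toMonoidHom) (P : Sylow p G) :
    IsCyclic P ∨ Cfsg.IsElementaryAbelian p (P : Subgroup G) ∨
      (p = 2 ∧ Nonempty ((P : Subgroup G) ≃* QuaternionGroup 2)) ∨
      (p ≠ 2 ∧ ¬ IsMulCommutative P ∧ Nat.card P = p ^ 3 ∧ Monoid.exponent P = p) := by
  have hp : p.Prime := Fact.out
  have hP := P.isPGroup'
  have iso : ∀ H K : Subgroup G, H ≤ P → K ≤ P → Nat.card H = Nat.card K → Nonempty (H ≃* K) := fun H K h k e => by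
    obtain ⟨g, rfl⟩ := hC H K (hP.to_le h) (hP.to_le k) e
    exact ⟨equivMapOfInjective H _ (MulAut.conj g).injective⟩
  by_cases he : ∀ x ∈ (P : Subgroup G), x ^ p = 1
  · by_cases hc : IsMulCommutative P
    · exact .inr (.inl ⟨hc, he⟩)
    obtain ⟨A, a1, a2, a3⟩ := exists_noncomm_cube hP he hc
    refine .inr (.inr (.inr ⟨?_, hc, ?_, ?_⟩))
    · rintro rfl
      exact hc ⟨⟨fun a b => (Commute.of_orderOf_dvd_two (fun g : P => orderOf_dvd_of_pow_eq_one
        (Subtype.ext (he g g.2))) a b).eq⟩⟩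
    · obtain ⟨n, hn⟩ := L.exists_card_eq_pow hP
      have := card_le_of_le a1
      rw [a3, hn, Nat.pow_le_pow_iff_right hp.one_lt] at this
      rcases this.eq_or_lt with rfl | h
      · exact hn
      obtain ⟨B, b1, b2, b3⟩ := exists_comm_cube hP he (hn ▸ Nat.pow_le_pow_right hp.pos h)
      obtain ⟨e⟩ := iso A B a1 b1 (a3.trans b3.symm)
      exact absurd ⟨⟨fun x y => e.injective (by rw [map_mul, map_mul, b2.1.1])⟩⟩ a2
    · have : Nontrivial P := by
        by_contra t
        have := not_nontrivial_iff_subsingleton.1 t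
        exact hc ⟨⟨fun a b => Subsingleton.elim _ _⟩⟩
      exact (Monoid.exponent_eq_prime_iff hp).2 fun g h => orderOf_eq_prime (Subtype.ext (he g g.2)) h
  push Not at he
  obtain ⟨x, hx, x1⟩ := he
  have xP := zpowers_le.2 hx
  obtain ⟨k, hk⟩ := L.exists_card_eq_pow (hP.to_le xP)
  obtain ⟨Y, y1, y2⟩ := L.exists_le_card (hP.to_le xP) 2 (by
    rw [hk]
    refine Nat.pow_le_pow_right hp.pos (not_lt.1 fun t => x1 (orderOf_dvd_iff_pow_eq_one.1 ?_))
    rw [← Nat.card_zpowers, hk]
    exact (pow_dvd_pow p (Nat.le_of_lt_succ t)).trans (pow_one p).dvd)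
  have r : rk p (P : Subgroup G) ≤ 1 := not_lt.1 fun t => by
    obtain ⟨A, hA⟩ := le_rk_iff.1 t
    obtain ⟨e⟩ := iso Y A (y1.trans xP) hA.le (y2.trans hA.card.symm)
    have := isCyclic_of_le y1
    exact hA.not_cyclic (isCyclic_of_surjective e e.surjective)
  rcases cyclic_or_quat hP r with h | ⟨rfl, n, ⟨e⟩⟩
  · exact .inl h
  rcases n with _ | _ | n
  · have : IsCyclic (QuaternionGroup (2 ^ 0)) := quaternionGroup_one_isCyclic
    exact .inl (isCyclic_of_surjective e.symm e.symm.surjective)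
  · exact .inr (.inr (.inl ⟨rfl, ⟨e⟩⟩))
  exfalso
  let f := (P : Subgroup G).subtype.comp e.symm.toMonoidHom
  have hf : Function.Injective f := Subtype.val_injective.comp e.symm.injective
  have fP : ∀ K, Subgroup.map f K ≤ P := by rintro K _ ⟨y, -, rfl⟩; exact (e.symm y).2
  obtain ⟨K, k1, k2⟩ := Sylow.exists_subgroup_card_pow_succ (p := 2) (n := 2) (H := zpowers (xa 0 : QuaternionGroup
    (2 ^ (n + 1 + 1)))) (by rw [Nat.card_eq_fintype_card, card]; exact ⟨2 ^ (n + 1), by ring⟩)
    (by rw [Nat.card_zpowers, orderOf_xa]; rfl)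
  obtain ⟨Y, y1, y2⟩ := L.exists_le_card (p := 2) (C := zpowers (a 1 : QuaternionGroup (2 ^ (n + 1 + 1))))
    (L.isPGroup_of_card (n := n + 3) (by rw [Nat.card_zpowers, orderOf_a_one]; ring)) 3 (by
      rw [Nat.card_zpowers, orderOf_a_one, ← pow_succ']; exact Nat.pow_le_pow_right two_pos (by omega))
  obtain ⟨i⟩ := iso (Y.map f) (K.map f) (fP _) (fP _) (by
    rw [card_map_of_injective hf, card_map_of_injective hf, k1, y2])
  have := isCyclic_of_le y1
  have j := ((equivMapOfInjective Y f hf).trans i).trans (equivMapOfInjective K f hf).symm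
  obtain ⟨g, hg, rfl⟩ := exists_eq_zpowers_of_isCyclic (isCyclic_of_surjective j j.surjective)
  rw [Nat.card_zpowers] at k1
  rcases g with t | t
  · have c := ab_comm (L.isMulCommutative_zpowers _) (k2 (mem_zpowers _)) hg
    simp only [xa_mul_a, a_mul_xa, xa.injEq] at c
    have : a t ^ 2 = 1 := by rw [sq, a_mul_a, one_def]; congr 1; linear_combination c
    exact absurd (k1 ▸ orderOf_dvd_of_pow_eq_one this) (by norm_num)
  · rw [orderOf_xa] at k1; omega

end Cfsg.Agent.S4023
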