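import Cfsg.Statements.S4024
import Cfsg.Agent.H1.Q5
import Cfsg.Agent.H1.Q1
import Cfsg.Agent.S4023

set_option autoImplicit false
open Cfsg

namespace Cfsg.Agent.S4024

open H1
open Subgroup H9 FT

/-- Let p be an odd prime and G a finite group in which any two p-subgroups of the same order are conjugate, with Sylow p-subgroup P. If H is a normal p-solvable subgroup of G whose order is divisible by p, then P is abelian, and either P ≤ H or P is cyclic. -/
theorem result {G : Type*} [Group G] [Finite G]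
    {p : ℕ} [Fact p.Prime] (hp : p ≠ 2) (hC : ∀ H K : Subgroup G, IsPGroup p H → IsPGroup p K → Nat.card H = Nat.card K →
      ∃ g : G, K = H.map (MulAut.conj g).toMonoidHom) (P : Sylow p G)
    (H : Subgroup G) [H.Normal] (hsolv : Cfsg.IsPSolvable p H) (hdiv : p ∣ Nat.card H) :
    IsMulCommutative P ∧ ((P : Subgroup G) ≤ H ∨ IsCyclic P) := by
  have hp' : p.Prime := Fact.out
  have hP := P.isPGroup'
  have cj1 : ∀ x y : G, orderOf x = p → orderOf y = p → ∃ g, zpowers y = cj g (zpowers x) := fun x y hx hy =>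
    hC _ _ (L.isPGroup_of_card (n := 1) (by rw [Nat.card_zpowers, hx, pow_one]))
      (L.isPGroup_of_card (n := 1) (by rw [Nat.card_zpowers, hy, pow_one])) (by simp only [Nat.card_zpowers, hx, hy])
  have tr : ∀ N : Subgroup G, N.Normal → p ∣ Nat.card N → ∀ x, x ^ p = 1 → x ∈ N := fun N _ h x hx => by
    by_cases x1 : x = 1
    · exact x1 ▸ one_mem _
    obtain ⟨y, hy⟩ := exists_prime_orderOf_dvd_card' p h
    obtain ⟨g, e⟩ := cj1 y x (by rw [orderOf_coe, hy]) (orderOf_eq_prime hx x1)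
    exact zpowers_le.1 (e.le.trans ((cj_mono g (zpowers_le.2 y.2)).trans (cj_eq_of_normal g N).le))
  rcases Cfsg.Agent.S4023.result hC P with h | h | h | ⟨-, h, h3, he⟩
  · exact ⟨IsCyclic.isMulCommutative, .inr h⟩
  · exact ⟨h.1, .inl fun x hx => tr H inferInstance hdiv x (h.2 x hx)⟩
  · exact absurd h.1 hp
  refine absurd ?_ h
  have e : ∀ x ∈ (P : Subgroup G), x ^ p = 1 := fun x hx =>
    congrArg Subtype.val (he ▸ Monoid.pow_exponent_eq_one (⟨x, hx⟩ : P))
  have nN : (Opp p H).Normal := normalizer_eq_top_iff.1 (top_le_iff.1 (normalizer_Opp (nrm ⊤ H)))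
  have nO : (Op' p H).Normal := normalizer_eq_top_iff.1 (top_le_iff.1 (normalizer_Op' (nrm ⊤ H)))
  have d : p ∣ Nat.card (Opp p H) := by
    by_contra t
    obtain ⟨Q, hQ⟩ := exists_syl (p := p) (Opp p H)
    have := (PLay_eq_bot_iff_centralizer hQ).1 (PLay_eq_bot_of_psol (psol_of_isPSolvable' hsolv))
    rw [hQ.eq_bot_iff.2 (hp'.coprime_iff_not_dvd.2 t).symm] at this
    exact t (hdiv.trans (card_dvd_of_le ((le_inf le_rfl fun g _ x hx => by rw [mem_bot.1 hx]; simp).trans this)))
  have s := Opp_eq_sup ((syl_top_of_sylow P).mono (fun x hx => tr _ nN d x (e x hx)) le_top)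
  obtain ⟨z, hz, z1, -, z2⟩ := L.exists_central_mod_pow hP (N := ⊥) (bot_lt_iff_ne_bot.2 fun t => by
    rw [t, card_bot] at h3; exact absurd h3 (Nat.one_lt_pow three_ne_zero hp'.one_lt).ne) le_rfl (nrm _ _)
    Subgroup.le_normalizer
  have c : ⁅Opp p H, zpowers z⁆ ≤ Op' p H := by
    rw [← s]
    exact H9.commutator_sup_le (nrm _ _) (nrm _ _) (commutator_le_left _ _) ((commutator_eq_bot_iff_le_centralizer.2 (by
      rw [H9.centralizer_zpowers]
      exact fun g hg => mem_centralizer_singleton_iff.2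
        (commutatorElement_eq_one_iff_mul_comm.1 (z2 g hg)).symm)).le.trans bot_le)
  refine ⟨⟨fun x y => Subtype.ext ?_⟩⟩
  by_cases x1 : x.1 = 1
  · simp [x1]
  obtain ⟨g, eg⟩ := cj1 z x (orderOf_eq_prime (e z hz) z1) (orderOf_eq_prime (e _ x.2) x1)
  have c2 := cj_mono g c
  rw [H9.cj_commutator, ← eg, cj_eq_of_normal, cj_eq_of_normal] at c2
  exact (commutatorElement_eq_one_iff_mul_comm.1 (mem_bot.1 ((copA_of_p hP (Op'_cop p H)).inf_eq_bot.le
    ⟨(commutator_le_left' Subgroup.le_normalizer) (commutator_mem_commutator y.2 x.2),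
      c2 (commutator_mem_commutator (s.le (mem_sup_right y.2)) (mem_zpowers _))⟩))).symm

end Cfsg.Agent.S4024
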