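import Cfsg.Statements.S4027
import Cfsg.Agent.H1.CS
import Cfsg.Agent.H9.MS1
import Cfsg.Agent.H2.KW
import Cfsg.Agent.H1.Misc2

set_option autoImplicit false
open Cfsg

namespace Cfsg.Agent.S4027

universe u
open Subgroup H9 in
theorem aux (n : ℕ) : ∀ (G : Type u) [Group G] [Finite G], Nat.card G ≤ n →
    (∀ x t : G, Odd (orderOf x) → t * x * t⁻¹ = x⁻¹ → x = 1) →
    Syl 2 (pCore 2 G) ⊤ := by
  induction n with
  | zero => intro G _ _ h; exact absurd (Nat.card_pos (α := G)) (by omega)
  | succ n ih =>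
    intro G _ _ hn h1
    by_cases hO : pCore 2 G = ⊥
    · refine ⟨le_top, pCore_p 2, ?_⟩
      rw [hO, relIndex_bot_left, card_top]
      intro hd
      obtain ⟨t, ht⟩ := exists_prime_orderOf_dvd_card' 2 hd
      have htt : t * t = 1 := by rw [← pow_two, ← ht, pow_orderOf_eq_one]
      obtain ⟨x, hx1, hx2, hx3⟩ := H1.exists_inverted_of_notMem htt (by
        rw [hO, mem_bot]; rintro rfl; simp at ht)
      exact hx1 (h1 x t hx2 hx3)
    have key : ∀ x t : G ⧸ pCore 2 G, Odd (orderOf x) → t * x * t⁻¹ = x⁻¹ → x = 1 := by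
      set N := pCore 2 G with hN
      intro x t hx e
      obtain ⟨t, rfl⟩ := QuotientGroup.mk'_surjective N t
      obtain ⟨y, rfl⟩ := QuotientGroup.mk'_surjective N x
      obtain ⟨x, -, e1, hx2⟩ := H1.exists_lift_p' (QuotientGroup.mk' N) (p := 2) y
        (fun hd => (Nat.not_even_iff_odd.2 hx) (even_iff_two_dvd.2 hd))
      rw [← e1] at e ⊢
      have hZ : (Nat.card (zpowers x)).Coprime 2 := by rw [Nat.card_zpowers]; exact cop_iff.2 hx2
      have hH : FT.Hall {2}ᶜ (zpowers x) (zpowers x ⊔ N) := FT.hall_sup (FT.piG_compl_singleton_iff.2 hZ)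
        (by rw [compl_compl]; exact FT.piG_singleton_iff.2 (pCore_p 2)) (Or.inl le_normalizer_of_normal)
      have ht : t ∈ normalizer ((zpowers x ⊔ N : Subgroup G) : Set G) := by
        apply mem_normalizer_of_cj_le
        rw [cj_sup, cj_eq_of_normal t N, cj_zpowers]
        refine sup_le (zpowers_le_of_mem ?_) le_sup_right
        have : x * (t * x * t⁻¹) ∈ N := by
          rw [← QuotientGroup.ker_mk' N, MonoidHom.mem_ker, map_mul, map_mul, map_mul, map_inv, e, mul_inv_cancel]
        have h3 := mul_mem (mem_sup_left (T := N) (inv_mem (mem_zpowers x))) (mem_sup_right this)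
        simpa using h3
      have hH2 : FT.Hall {2}ᶜ (cj t (zpowers x)) (zpowers x ⊔ N) := by
        have := hH.cj t
        rwa [mem_normalizer_iff_cj.1 ht] at this
      have hs : Group.IsSolvable (zpowers x ⊔ N : Subgroup G) := by
        have := (pCore_p (G := G) 2).isNilpotent
        exact isSolvable_sup (by infer_instance) (by infer_instance) le_normalizer_of_normal
      obtain ⟨g, hg, e2⟩ := hH2.conj hs hH
      obtain ⟨a, ha, m, hm, rfl⟩ := (mem_sup_of_le_normalizer le_normalizer_of_normal).1 hg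
      rw [cj_mul, cj_eq_iff, cj_eq_of_mem (inv_mem ha), ← cj_mul, cj_zpowers] at e2
      have h3 : x * (m * t * x * (m * t)⁻¹) ∈ zpowers x ⊓ N := by
        refine mem_inf.2 ⟨mul_mem (mem_zpowers x) (e2 ▸ mem_zpowers _), ?_⟩
        have hm1 : QuotientGroup.mk' N m = 1 := (QuotientGroup.eq_one_iff m).2 hm
        rw [← QuotientGroup.ker_mk' N, MonoidHom.mem_ker, map_mul, map_mul, map_mul, map_inv, map_mul, hm1, one_mul, e, mul_inv_cancel]
      rw [inf_comm, inf_eq_bot_of_p_p' (pCore_p 2) hZ, mem_bot] at h3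
      rw [h1 x (m * t) (Nat.not_even_iff_odd.1 fun h => hx2 (even_iff_two_dvd.1 h)) (eq_inv_of_mul_eq_one_right h3), map_one]
    have := ih (G ⧸ pCore 2 G) (by have := H2K.card_quot_lt _ hO; omega) key
    rw [pCore_quotient] at this
    refine ⟨le_top, pCore_p 2, ?_⟩
    have h3 := this.not_dvd
    rwa [relIndex_bot_left, card_top, ← index, ← relIndex_top_right] at h3
open Subgroup H9 in

/-- Let G be a finite group in which every element x of odd order satisfies N_G(⟨x⟩) = C_G(x). Then the Sylow 2-subgroups of G are normal. -/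
theorem result {G : Type*} [Group G] [Finite G]
    (hirr : ∀ x : G, (∀ r : ℕ, r.Prime → r ∣ orderOf x → r ≠ 2) →
      Subgroup.normalizer ((Subgroup.zpowers x : Subgroup G) : Set G) ≤ Subgroup.centralizer {x}) (P : Sylow 2 G) :
    (P : Subgroup G).Normal := by
  have := aux _ G le_rfl (fun x t hx e => by
    have h1 : t ∈ normalizer (zpowers x : Set G) := by
      rw [mem_normalizer_iff_cj, cj_zpowers, e, zpowers_inv]
    have h2 := mem_centralizer_singleton_iff.1 (hirr x (fun r hr hd e => (Nat.not_even_iff_odd.2 hx) (even_iff_two_dvd.2 (e ▸ hd))) h1)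
    rw [h2, mul_inv_cancel_right] at e
    have h3 : orderOf x ∣ 2 := orderOf_dvd_of_pow_eq_one (by rw [pow_two]; nth_rewrite 1 [e]; simp)
    rcases (Nat.dvd_prime Nat.prime_two).1 h3 with h | h
    · exact orderOf_eq_one_iff.1 h
    · rw [h] at hx; exact absurd hx (by decide))
  have e := this.maximal P.isPGroup' le_top ((syl_top_of_sylow P).le_of_le_normalizer (pCore_p 2) le_top (Or.inr le_normalizer_of_normal))
  rw [e]; infer_instance

end Cfsg.Agent.S4027
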