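import Cfsg.Statements.S4028
import Cfsg.Agent.H1.Misc

set_option autoImplicit false
open Cfsg

namespace Cfsg.Agent.S4028

open H1

/-- Let G be a finite group with Sylow 2-subgroup P. Then N_G(⟨x⟩) = C_G(x) holds for every 2-element x of G if and only if N_P(⟨y⟩) = C_P(y) holds for every y ∈ P (computed inside P). -/
theorem result {G : Type*} [Group G] [Finite G] (P : Sylow 2 G) :
    (∀ x : G, (∀ r : ℕ, r.Prime → r ∣ orderOf x → r = 2) →
      Subgroup.normalizer ((Subgroup.zpowers x : Subgroup G) : Set G) ≤ Subgroup.centralizer {x}) ↔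
    (∀ y : ↥(P : Subgroup G), Subgroup.normalizer ((Subgroup.zpowers y : Subgroup ↥(P : Subgroup G)) : Set ↥(P : Subgroup G)) ≤
        Subgroup.centralizer {y}) := by
  constructor
  · intro h y g hg
    have h1 := h y (fun r hr hd => by
      obtain ⟨k, hk⟩ := exists_orderOf_eq_pow P.isPGroup' y.2
      rw [hk] at hd
      exact (Nat.prime_dvd_prime_iff_eq hr Nat.prime_two).1 (hr.dvd_of_dvd_pow hd))
    have h2 : (g : G) ∈ Subgroup.normalizer ((Subgroup.zpowers (y : G) : Subgroup G) : Set G) := by
      have := le_normalizer_map (P : Subgroup G).subtype le_rfl ⟨g, hg, rfl⟩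
      rwa [MonoidHom.map_zpowers] at this
    have := h1 h2
    rw [Subgroup.mem_centralizer_singleton_iff] at this ⊢
    exact Subtype.ext this
  · intro h x hx
    have hx2 : ∃ k, orderOf x = 2 ^ k := ⟨_, Nat.eq_prime_pow_of_unique_prime_dvd (orderOf_pos x).ne' (hx _)⟩
    refine le_of_p_and_p' 2 (fun g hg hk => ?_) fun g hg hc => ?_
    · have h1 : IsPGroup 2 (Subgroup.zpowers g ⊔ Subgroup.zpowers x : Subgroup G) :=
        (isPGroup_zpowers_iff.2 hk).to_sup_of_normal_right' (isPGroup_zpowers_iff.2 hx2) (Subgroup.zpowers_le.2 hg)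
      obtain ⟨c, -, hc⟩ := (isSylowIn_top P).exists_conj_le h1 le_top
      have hg' : c * g * c⁻¹ ∈ (P : Subgroup G) :=
        hc (conj_mem_conj_smul (Subgroup.mem_sup_left (Subgroup.mem_zpowers g)))
      have hx' : c * x * c⁻¹ ∈ (P : Subgroup G) :=
        hc (conj_mem_conj_smul (Subgroup.mem_sup_right (Subgroup.mem_zpowers x)))
      obtain ⟨k, hk⟩ := L.exists_conj_eq_zpow hg
      have := h ⟨_, hx'⟩ (x := ⟨_, hg'⟩) (L.mem_normalizer_zpowers (k := k) (Subtype.ext (by
        simp only [Subgroup.coe_mul, Subgroup.coe_inv, SubgroupClass.coe_zpow, conj_zpow, ← hk]; group)))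
      rw [Subgroup.mem_centralizer_singleton_iff] at this ⊢
      have := congrArg Subtype.val this
      simpa using this
    · refine le_centralizer_of_coprime_totient (A := Subgroup.zpowers g) (Subgroup.zpowers_le.2 hg) ?_
        (Subgroup.mem_zpowers g)
      obtain ⟨k, hk⟩ := hx2
      rw [Nat.card_zpowers, hk]
      rcases k with _ | k
      · simp
      · rw [Nat.totient_prime_pow_succ Nat.prime_two]
        simpa using Nat.Coprime.pow_right k hc

end Cfsg.Agent.S4028
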