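import Cfsg.Statements.S4029
import Cfsg.Agent.H1.Misc
import Cfsg.Agent.H1.Frattini

set_option autoImplicit false
open Cfsg

namespace Cfsg.Agent.S4029

open H1
open Subgroup Finset

/-- Let P be a finite 2-group in which N_P(⟨y⟩) = C_P(y) for every y ∈ P. If s is the number of conjugacy classes of involutions of P, then #(P/Φ(P)) ≤ s + 1; in particular the subgroup generated by the involutions of P has order at least #(P/Φ(P)). -/
theorem result {P : Type*} [Group P] [Finite P] (hP : IsPGroup 2 P)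
    (hirr : ∀ y : P, Subgroup.normalizer ((Subgroup.zpowers y : Subgroup P) : Set P) ≤ Subgroup.centralizer {y}) :
    Nat.card (P ⧸ frattini P) ≤ Nat.card {c : ConjClasses P // ∃ y : P, ConjClasses.mk y = c ∧ orderOf y = 2} + 1 ∧
    Nat.card (P ⧸ frattini P) ≤ Nat.card (Subgroup.closure {y : P | orderOf y = 2}) := by
  classical
  haveI : Fact (Nat.Prime 2) := ⟨Nat.prime_two⟩
  letI := Fintype.ofFinite P
  set S : Finset P := {g | g * g = 1} with hS
  set Cl : Finset (ConjClasses P) := S.image ConjClasses.mk with hCl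
  set F : Finset P := {z | z ∈ frattini P} with hF
  set T : Finset (P × P) := {q | q.1 ^ 2 = q.2 ^ 2} with hT
  have h1 : ∑ g ∈ S, Nat.card (centralizer ({g} : Set P)) ≤ #Cl * Nat.card P := by
    rw [← Finset.sum_fiberwise_of_maps_to (g := ConjClasses.mk) (t := Cl) (fun x hx => mem_image_of_mem _ hx),
      ← smul_eq_mul, ← Finset.sum_const]
    refine Finset.sum_le_sum fun c hc => ?_
    obtain ⟨g0, -, rfl⟩ := mem_image.1 hc
    set m := Nat.card {y : P | IsConj g0 y} with hm
    have m0 : 0 < m := by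
      haveI : Nonempty {y : P | IsConj g0 y} := ⟨⟨g0, IsConj.refl g0⟩⟩
      exact Nat.card_pos
    refine Nat.le_of_mul_le_mul_right ?_ m0
    rw [Finset.sum_mul, Finset.sum_congr rfl (g := fun _ => Nat.card P), Finset.sum_const, smul_eq_mul, mul_comm]
    · refine Nat.mul_le_mul_left _ ?_
      rw [hm, Nat.card_eq_card_toFinset]
      refine card_le_card fun y hy => ?_
      rw [Set.mem_toFinset]
      exact (ConjClasses.mk_eq_mk_iff_isConj.1 (mem_filter.1 hy).2).symm
    · intro g hg
      have hc : IsConj g g0 := ConjClasses.mk_eq_mk_iff_isConj.1 (mem_filter.1 hg).2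
      have : m = (centralizer ({g} : Set P)).index := by
        rw [index_centralizer_eq_card, hm]
        congr 2
        ext y
        exact ⟨fun h => hc.trans h, fun h => hc.symm.trans h⟩
      rw [this, Subgroup.card_mul_index]
  have key : ∀ x g : P, x * g * x⁻¹ = g⁻¹ → g * g = 1 ∧ x ∈ centralizer ({g} : Set P) := by
    intro x g h
    have hx : x ∈ centralizer ({g} : Set P) := by
      refine hirr g (Subgroup.mem_normalizer_fintype fun n hn => ?_)
      obtain ⟨k, rfl⟩ := mem_zpowers_iff.1 hn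
      have : x * g ^ k * x⁻¹ = (g ^ k)⁻¹ := by rw [← conj_zpow, h, inv_zpow]
      rw [this]
      exact inv_mem (zpow_mem (mem_zpowers g) k)
    refine ⟨?_, hx⟩
    rw [mem_centralizer_singleton_iff] at hx
    rw [hx, mul_inv_cancel_right] at h
    exact mul_eq_one_iff_eq_inv.2 h
  have hk : ∀ q ∈ T, q.1 * (q.1⁻¹ * q.2) * q.1⁻¹ = (q.1⁻¹ * q.2)⁻¹ := by
    intro q hq
    have e : q.1 ^ 2 = q.2 ^ 2 := (mem_filter.1 hq).2
    rw [pow_two, pow_two] at e
    calc q.1 * (q.1⁻¹ * q.2) * q.1⁻¹ = q.2⁻¹ * (q.2 * q.2) * q.1⁻¹ := by group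
      _ = (q.1⁻¹ * q.2)⁻¹ := by rw [← e]; group
  have h2 : #T ≤ ∑ g ∈ S, Nat.card (centralizer ({g} : Set P)) := by
    rw [card_eq_sum_card_fiberwise (f := fun q : P × P => q.1⁻¹ * q.2) (t := S)
      (fun q hq => mem_filter.2 ⟨mem_univ _, (key _ _ (hk q hq)).1⟩)]
    refine Finset.sum_le_sum fun g _ => ?_
    rw [Nat.card_eq_fintype_card, Fintype.card_subtype]
    refine card_le_card_of_injOn (fun q => q.1) (fun q hq => ?_) (fun q hq r hr e => ?_)
    · have hq' := mem_filter.1 (mem_coe.1 hq)
      refine mem_coe.2 (mem_filter.2 ⟨mem_univ _, ?_⟩)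
      rw [← hq'.2]
      exact (key _ _ (hk q hq'.1)).2
    · have a := (mem_filter.1 (mem_coe.1 hq)).2
      have b := (mem_filter.1 (mem_coe.1 hr)).2
      have e' : q.1 = r.1 := e
      refine Prod.ext e' ?_
      rw [← b, e'] at a
      exact mul_left_cancel a
  have h3 : #T = ∑ z ∈ F, (#{x : P | x ^ 2 = z}) ^ 2 := by
    rw [card_eq_sum_card_fiberwise (f := fun q : P × P => q.1 ^ 2) (t := F)
      (fun q _ => mem_filter.2 ⟨mem_univ _, pow_mem_frattini hP _⟩)]
    refine Finset.sum_congr rfl fun z _ => ?_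
    rw [pow_two, ← card_product]
    congr 1
    ext q
    simp only [hT, mem_filter, mem_univ, true_and, mem_product]
    constructor
    · rintro ⟨a, b⟩; exact ⟨b, a ▸ b⟩
    · rintro ⟨a, b⟩; exact ⟨a.trans b.symm, a⟩
  have h4 : ∑ z ∈ F, #{x : P | x ^ 2 = z} = Nat.card P := by
    rw [Nat.card_eq_fintype_card, ← card_univ, card_eq_sum_card_fiberwise (f := fun x : P => x ^ 2) (t := F)
      (fun q _ => mem_filter.2 ⟨mem_univ _, pow_mem_frattini hP _⟩)]
  have h5 : #F = Nat.card (frattini P) := by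
    rw [Nat.card_eq_fintype_card, Fintype.card_subtype]
  have h6 := sq_sum_le_card_mul_sum_sq (s := F) (f := fun z => #{x : P | x ^ 2 = z})
  rw [h4, ← h3] at h6
  have h7 : Nat.card (P ⧸ frattini P) ≤ #Cl := by
    have e := Subgroup.card_eq_card_quotient_mul_card_subgroup (frattini P)
    have p1 : 0 < Nat.card P := Nat.card_pos
    have p2 : 0 < Nat.card (frattini P) := Nat.card_pos
    have : Nat.card P * Nat.card P ≤ (Nat.card (frattini P) * #Cl) * Nat.card P := by
      rw [← pow_two, mul_assoc, ← h5]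
      exact h6.trans (Nat.mul_le_mul_left _ (h2.trans h1))
    have := Nat.le_of_mul_le_mul_right this p1
    rw [e, mul_comm] at this
    exact Nat.le_of_mul_le_mul_left this p2
  have ho : ∀ g ∈ S, g = 1 ∨ orderOf g = 2 := by
    intro g hg
    by_cases h : g = 1
    · exact Or.inl h
    · exact Or.inr (orderOf_eq_prime (by rw [pow_two]; exact (mem_filter.1 hg).2) h)
  refine ⟨h7.trans ?_, h7.trans (card_image_le.trans ?_)⟩
  · letI : Fintype (ConjClasses P) := Fintype.ofFinite _
    rw [Nat.card_eq_fintype_card, Fintype.card_subtype]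
    refine le_trans (card_le_card (t := insert (ConjClasses.mk 1) _) fun c hc => ?_) (card_insert_le _ _)
    obtain ⟨g, hg, rfl⟩ := mem_image.1 hc
    rcases ho g hg with rfl | h
    · exact mem_insert_self _ _
    · exact mem_insert_of_mem (mem_filter.2 ⟨mem_univ _, g, rfl, h⟩)
  · rw [Nat.card_eq_fintype_card, Fintype.card_subtype]
    refine card_le_card fun g hg => mem_filter.2 ⟨mem_univ _, ?_⟩
    rcases ho g hg with rfl | h
    · exact one_mem _
    · exact subset_closure h

end Cfsg.Agent.S4029
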