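import Cfsg.Statements.S4032
import Cfsg.Agent.H1.Misc

set_option autoImplicit false
open Cfsg

namespace Cfsg.Agent.S4032

open H1

/-- Let π be a set of primes and G a finite group in which N_G(⟨x⟩) = C_G(x) for every π-element x. If N is a normal subgroup of G whose order is divisible by no prime of π, then G/N has the same property: N_{G/N}(⟨y⟩) = C_{G/N}(y) for every π-element y of G/N. -/
theorem result {G : Type*} [Group G] [Finite G] (π : Set ℕ)
    (hirr : ∀ x : G, (∀ r : ℕ, r.Prime → r ∣ orderOf x → r ∈ π) →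
      Subgroup.normalizer ((Subgroup.zpowers x : Subgroup G) : Set G) ≤ Subgroup.centralizer {x})
    (N : Subgroup G) [N.Normal] (hN : ∀ r : ℕ, r.Prime → r ∣ Nat.card N → r ∉ π) :
    ∀ y : G ⧸ N, (∀ r : ℕ, r.Prime → r ∣ orderOf y → r ∈ π) →
      Subgroup.normalizer ((Subgroup.zpowers y : Subgroup (G ⧸ N)) : Set (G ⧸ N)) ≤ Subgroup.centralizer {y} := by
  intro y hy g hg
  set f := QuotientGroup.mk' N
  have hf : Function.Surjective f := QuotientGroup.mk'_surjective N
  obtain ⟨z, rfl⟩ := hf y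
  obtain ⟨g, rfl⟩ := hf g
  obtain ⟨x, hx, b, hb, e, h1, h2⟩ := exists_pi_part π z
  have hN' : IsPiNum πᶜ (Nat.card N) := hN
  have hfb : f b = 1 := by
    rw [← orderOf_eq_one_iff]
    refine Nat.eq_one_of_dvd_coprimes (IsPiNum.coprime (π := π) hy h2) ?_ (orderOf_map_dvd f b)
    exact orderOf_dvd_of_mem_zpowers (by rw [← MonoidHom.map_zpowers]; exact ⟨b, hb, rfl⟩)
  have hzx : f z = f x := by rw [e, map_mul, hfb, mul_one]
  rw [hzx] at hg ⊢
  have hc : (Nat.card (Subgroup.zpowers x)).Coprime (Nat.card N) := by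
    rw [Nat.card_zpowers]; exact h1.coprime hN'
  have h3 : g * x * g⁻¹ ∈ Subgroup.zpowers x ⊔ N := by
    have : f (g * x * g⁻¹) ∈ (Subgroup.zpowers x).map f := by
      rw [MonoidHom.map_zpowers, map_mul, map_mul, map_inv]
      exact conj_mem_of_mem_normalizer hg (Subgroup.mem_zpowers _)
    have h4 : g * x * g⁻¹ ∈ ((Subgroup.zpowers x).map f).comap f := this
    rwa [Subgroup.comap_map_eq, QuotientGroup.ker_mk'] at h4
  obtain ⟨n, hn, h4⟩ := exists_conj_le_of_coprime (A := Subgroup.zpowers x) (N := N)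
    Subgroup.le_normalizer_of_normal (inf_eq_bot_of_coprime hc) (Subgroup.zpowers_le.2 h3)
    (by rw [Nat.card_zpowers, orderOf_conj, ← Nat.card_zpowers]; exact hc) (Or.inl (isSolvable_zpowers _))
  obtain ⟨k, hk⟩ := h4 (conj_mem_conj_smul (Subgroup.mem_zpowers _))
  have h5 := hirr x h1 (L.mem_normalizer_zpowers (x := n * g) (k := k) (by
    simp only at hk; rw [hk]; group))
  rw [Subgroup.mem_centralizer_singleton_iff] at h5 ⊢
  have h6 : f n = 1 := (QuotientGroup.eq_one_iff n).2 hn
  simpa [h6] using congrArg f h5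

end Cfsg.Agent.S4032
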