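import Cfsg.Statements.S4034
import Cfsg.Agent.H1.CS
import Cfsg.Agent.H3.Galois

set_option autoImplicit false
open Cfsg

namespace Cfsg.Agent.S4034

open scoped commutatorElement
open H1
open Subgroup Cfsg in
theorem quot {G : Type*} [Group G] [Finite G] {p : ℕ} [hp : Fact p.Prime] (N : Subgroup G) [N.Normal]
    (h : ∀ x : G, ¬ p ∣ orderOf x → ∃ k : ℕ, (centralizer {x}).index = p ^ k) (x : G ⧸ N) (hx : ¬ p ∣ orderOf x) :
    ∃ k : ℕ, (centralizer {x}).index = p ^ k := by
  obtain ⟨g, rfl⟩ := QuotientGroup.mk_surjective x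
  obtain ⟨y, -, hy, hk⟩ := exists_lift_p' (QuotientGroup.mk' N) g hx
  simp only [QuotientGroup.mk'_apply] at hy
  obtain ⟨k, e⟩ := h y hk
  obtain ⟨j, -, hj⟩ := (Nat.dvd_prime_pow hp.out).1 (e ▸ index_centralizer_mk_dvd N y)
  exact ⟨j, hy ▸ hj⟩

open Subgroup Cfsg in
theorem solv.{u} {p : ℕ} [hp : Fact p.Prime] (G : Type u) [Group G] [Finite G] :
    (∀ x : G, ¬ p ∣ orderOf x → ∃ k : ℕ, (centralizer {x}).index = p ^ k) → Group.IsSolvable G := by
  refine solvable_of_simple (P := fun G _ _ => ∀ x : G, ¬ p ∣ orderOf x → ∃ k : ℕ, (centralizer {x}).index = p ^ k)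
    (fun G _ _ N _ h x hx => ?_) (fun G _ _ N _ h => quot N h) (fun G _ _ _ h => ?_) G
  · obtain ⟨k, e⟩ := h x (by rwa [orderOf_coe])
    obtain ⟨j, -, hj⟩ := (Nat.dvd_prime_pow hp.out).1 (e ▸ ci_normal_dvd N x)
    exact ⟨j, hj⟩
  · by_cases hG : IsPGroup p G
    · exact isSolvable_of_isPGroup hG
    rw [isPGroup_iff_isPiNum, IsPiNum] at hG
    push Not at hG
    obtain ⟨q, hq, hd, hqp⟩ := hG
    haveI := Fact.mk hq
    obtain ⟨x, ox⟩ := exists_prime_orderOf_dvd_card' q hd
    obtain ⟨k, e⟩ := h x (by rw [ox, Nat.prime_dvd_prime_iff_eq hp.out hq]; exact fun e => hqp e.symm)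
    have := H3.burnside_prime_power_class hp.out (ne_one_of_orderOf_prime hq ox) e
    haveI := Fact.mk this
    exact isSolvable_of_isPGroup (IsPGroup.of_card (p := Nat.card G) (n := 1) (by simp))

/-- Let G be a finite group and p a prime. Every conjugacy class of p-regular elements of G (elements of order prime to p) has p-power size if and only if G has an abelian p-complement, i.e. an abelian subgroup of order prime to p and p-power index. -/
theorem result {G : Type*} [Group G] [Finite G] {p : ℕ} (hp : p.Prime) :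
    (∀ x : G, (orderOf x).Coprime p → ∃ k : ℕ, (ConjClasses.mk x).carrier.ncard = p ^ k) ↔
    (∃ H : Subgroup G, IsMulCommutative H ∧ ¬ p ∣ Nat.card H ∧ ∃ k : ℕ, H.index = p ^ k) := by
  haveI := Fact.mk hp
  simp only [ncard_carrier]
  constructor
  · intro h
    replace h : ∀ x : G, ¬ p ∣ orderOf x → ∃ k : ℕ, (Subgroup.centralizer {x}).index = p ^ k :=
      fun x hx => h x (hp.coprime_iff_not_dvd.2 hx).symm
    haveI := solv G h
    obtain ⟨H, hH⟩ := exists_piHall (π := {p}ᶜ) (G := G)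
    have hH' := isPiHall_iff.1 hH
    have hp' : ¬ p ∣ Nat.card H := fun hd => hH'.1 p hp hd rfl
    refine ⟨H, ?_, hp', ?_⟩
    · set K := Cfsg.pCore p G
      have hq := quot K h
      have hF : ¬ p ∣ Nat.card (Cfsg.fittingSubgroup (G ⧸ K)) :=
        (isSylowIn_pCore_fitting p).eq_bot_iff.1 pCore_quotient_pCore
      have key : ∀ x : G ⧸ K, ¬ p ∣ orderOf x →
          x ∈ Subgroup.centralizer (Cfsg.fittingSubgroup (G ⧸ K) : Set (G ⧸ K)) := by
        intro x hx
        obtain ⟨k, e⟩ := hq x hx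
        have : Cfsg.fittingSubgroup (G ⧸ K) ≤ Subgroup.centralizer {x} := by
          rw [← Subgroup.relIndex_eq_one]
          refine Nat.eq_one_of_dvd_coprimes (Nat.Coprime.pow_left k (hp.coprime_iff_not_dvd.2 hF)) ?_
            (Subgroup.relIndex_dvd_card _ _)
          exact e ▸ relIndex_dvd_index_of_normal' _ _
        exact fun y hy => Subgroup.mem_centralizer_singleton_iff.1 (this hy)
      have a : ∀ x ∈ H, ¬ p ∣ orderOf (QuotientGroup.mk' K x) := fun x hx hd =>
        hp' (hd.trans ((orderOf_map_dvd _ x).trans (orderOf_dvd_card_of_mem hx)))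
      refine isMulCommutative_of_comm fun x hx y hy => commutatorElement_eq_one_iff_mul_comm.1 ?_
      have h4 : ⁅x, y⁆ ∈ K ⊓ H := ⟨by
        refine (QuotientGroup.eq_one_iff _).1 ?_
        rw [← QuotientGroup.mk'_apply, map_commutatorElement, commutatorElement_eq_one_iff_mul_comm]
        exact key _ (a y hy) _ (centralizer_fitting_le (key _ (a x hx))),
        commutator_le_of_le_normalizer Subgroup.le_normalizer (Subgroup.commutator_mem_commutator hx hy)⟩
      rwa [inf_eq_bot_of_coprime (isPGroup_coprime' pCore_isPGroup hp'), Subgroup.mem_bot] at h4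
    · exact ⟨_, Nat.eq_prime_pow_of_unique_prime_dvd Subgroup.index_ne_zero_of_finite fun hq hd => by
        simpa using hH'.2 _ hq hd⟩
  · rintro ⟨H, h1, h2, k, h3⟩ x hx
    have hH : Cfsg.IsPiHall {p}ᶜ H := isPiHall_iff.2 ⟨fun q _ hd e => h2 (e ▸ hd), fun q hq hd => by
      rw [h3] at hd
      simpa using (Nat.prime_dvd_prime_iff_eq hq hp).1 (hq.dvd_of_dvd_pow hd)⟩
    obtain ⟨g, -, hg⟩ := exists_conj_le_of_nilpotent_hall (isNilpotent_of_isMulCommutative h1) (isPiHallOf_top.2 hH)
      (K := Subgroup.zpowers x) le_top (fun q _ hd e => by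
        rw [Nat.card_zpowers] at hd
        exact hp.coprime_iff_not_dvd.1 hx.symm (e ▸ hd))
    have h4 := hg (conj_mem_conj_smul (Subgroup.mem_zpowers x))
    have h5 : H ≤ Subgroup.centralizer {g * x * g⁻¹} := fun y hy =>
      Subgroup.mem_centralizer_singleton_iff.2 (comm_of_mem h1 hy h4)
    obtain ⟨j, -, hj⟩ := (Nat.dvd_prime_pow hp).1 (h3 ▸ Subgroup.index_dvd_of_le h5)
    exact ⟨j, by rw [← hj, index_centralizer_conj]⟩

end Cfsg.Agent.S4034
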