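import Cfsg.Statements.S4035
import Cfsg.Agent.CZ.C

set_option autoImplicit false
open Cfsg

namespace Cfsg.Agent.S4035

open Subgroup H9

/-- Let G be a finite group and p a prime such that p divides the size of no conjugacy class of p-regular elements (elements of order prime to p). Then G is the internal direct product of a Sylow p-subgroup P and a normal subgroup H of order prime to p: P is normal, P ⊓ H = 1 and PH = G. -/
theorem result {G : Type*} [Group G] [Finite G] {p : ℕ} [Fact p.Prime]
    (h : ∀ x : G, (orderOf x).Coprime p → ¬ p ∣ (ConjClasses.mk x).carrier.ncard) (P : Sylow p G) :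
    (P : Subgroup G).Normal ∧ ∃ H : Subgroup G, H.Normal ∧ ¬ p ∣ Nat.card H ∧
      (P : Subgroup G) ⊓ H = ⊥ ∧ (P : Subgroup G) ⊔ H = ⊤ := by
  have hP := syl_top_of_sylow P
  have h1 := CZ.camina hP fun x _ hx => by
    rw [relIndex_top_right, ← H1.ncard_carrier]; exact h x (cop_iff.2 hx)
  have h2 := CZ.Ores_le_centralizer hP.isP h1
  have hn : ⊤ ≤ normalizer ((P : Subgroup G) : Set G) :=
    h1.trans (sup_le le_normalizer (centralizer_le_normalizer _))
  have h3 : NPC p (Ores p (⊤ : Subgroup G)) := by
    obtain ⟨S, hS⟩ := exists_syl (p := p) (Ores p (⊤ : Subgroup G))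
    exact npc_of_central_syl hS (inf_le_left.trans (h2.trans (centralizer_le
      (hP.le_of_le_normalizer hS.isP le_top (Or.inl (le_top.trans hn))))))
  rw [NPC, Ores_Ores] at h3
  exact ⟨normal_of_top_le hn, _,
    normal_of_top_le (normalizer_Ores le_normalizer), cop_iff.1 h3, inf_eq_bot_of_p_p' hP.isP h3,
    by rw [sup_comm, hP.Ores_sup]⟩

end Cfsg.Agent.S4035
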