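import Cfsg.Statements.S4036
import Cfsg.Agent.H1.Misc

set_option autoImplicit false
open Cfsg

namespace Cfsg.Agent.S4036

open scoped commutatorElement

open H1

/-- Let P be a finite abelian p-group and K a group of automorphisms of P (a subgroup of Aut P) whose order is divisible by p. If all non-identity elements of K have the same fixed-point subgroup on P, then K has no non-trivial normal subgroup of order prime to p. -/
theorem result {P : Type*} [CommGroup P] [Finite P] {p : ℕ}
    [Fact p.Prime] (hP : IsPGroup p P) (K : Subgroup (MulAut P)) (hK : p ∣ Nat.card K)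
    (hfix : ∀ x y : MulAut P, x ∈ K → y ∈ K → x ≠ 1 → y ≠ 1 → ∀ v : P, x v = v ↔ y v = v) :
    ∀ N : Subgroup ↥K, N.Normal → ¬ p ∣ Nat.card N → N = ⊥ := by
  intro N hN hpN
  by_contra hne
  obtain ⟨n, hn, hn1⟩ := exists_mem_ne_one hne
  obtain ⟨k, hk⟩ := exists_prime_orderOf_dvd_card' p hK
  have hk1 : k ≠ 1 := ne_one_of_orderOf_prime Fact.out hk
  obtain ⟨Γ, _, _, i, j, hi, hj, hij, -, -, hnorm⟩ := exists_ambient (K := P) K.subtype
  have hV : IsPGroup p i.range := hP.of_surjective _ i.rangeRestrict_surjective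
  have hVa : IsMulCommutative i.range := isMulCommutative_of_comm (by
    rintro _ ⟨a, rfl⟩ _ ⟨b, rfl⟩; rw [← map_mul, ← map_mul, mul_comm])
  have hc : (Nat.card (N.map j)).Coprime (Nat.card i.range) := by
    rw [Subgroup.card_map_of_injective hj]; exact (isPGroup_coprime' hV hpN).symm
  have h0 := abelian_centralizer_inf_commutator (A := N.map j) hVa Subgroup.le_normalizer_of_normal hc
  have hW : ⁅i.range, N.map j⁆ ≠ ⊥ := by
    intro h
    rw [Subgroup.commutator_eq_bot_iff_le_centralizer] at h
    apply hn1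
    ext v
    exact (mem_centralizer_map_iff hi hij).1 (h ⟨v, rfl⟩) n hn
  have hWV : ⁅i.range, N.map j⁆ ≤ i.range := Subgroup.commutator_le_left _ _
  have h1 := inf_centralizer_ne_bot_of_isPGroup (P := (Subgroup.zpowers k).map j) (hV.to_le hWV)
    ((isPGroup_zpowers_iff.2 ⟨1, by simpa using hk⟩).map j)
    (le_normalizer_commutator Subgroup.le_normalizer_of_normal
      (le_normalizer_map j Subgroup.le_normalizer_of_normal)) hW
  apply h1
  rw [eq_bot_iff, ← h0]
  intro w hw
  obtain ⟨v, rfl⟩ := hWV hw.1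
  refine ⟨⟨⟨v, rfl⟩, (mem_centralizer_map_iff hi hij).2 fun a ha => ?_⟩, hw.1⟩
  have h2 := (mem_centralizer_map_iff hi hij).1 hw.2 k (Subgroup.mem_zpowers k)
  by_cases ha1 : a = 1
  · simp [ha1]
  · exact (hfix k a k.2 a.2 (by simpa using hk1) (by simpa using ha1) v).1 h2

end Cfsg.Agent.S4036
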