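import Cfsg.Statements.S4039
import Cfsg.Agent.H1.MaxNil

set_option autoImplicit false
open Cfsg

namespace Cfsg.Agent.S4039

open scoped commutatorElement
open H1

/-- A finite group possessing a maximal subgroup that is nilpotent of class at most 2 is solvable. -/
theorem result {G : Type*} [Group G] [Finite G]
    (M : Subgroup G) (hmax : IsCoatom M) (hnil : Group.IsNilpotent M) (hcl : Group.nilpotencyClass ↥M ≤ 2) :
    Group.IsSolvable G := by
  refine solvable_of_coatom G M hmax hnil fun S hS => ?_
  have h := lowerCentralSeries_eq_bot_iff_nilpotencyClass_le.2 hcl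
  rw [Subgroup.commutator_le]
  intro a ha b hb c hc
  have h1 : ⁅⁅(⟨a, hS.le ha⟩ : M), (⟨b, hS.le hb⟩ : M)⁆, (⟨c, hS.le hc⟩ : M)⁆ ∈ (⊤ : Subgroup M).lowerCentralSeries 2 :=
    Subgroup.commutator_mem_commutator (Subgroup.commutator_mem_commutator (Subgroup.mem_top _) (Subgroup.mem_top _))
      (Subgroup.mem_top _)
  rw [h, Subgroup.mem_bot, commutatorElement_eq_one_iff_mul_comm] at h1
  exact (congrArg Subtype.val h1).symm

end Cfsg.Agent.S4039
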