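import Cfsg.Statements.S4040
import Cfsg.Agent.H1.MaxNil

set_option autoImplicit false
open Cfsg

namespace Cfsg.Agent.S4040

open H1

/-- A finite group possessing a maximal subgroup that is nilpotent of odd order is solvable. -/
theorem result {G : Type*} [Group G] [Finite G]
    (M : Subgroup G) (hmax : IsCoatom M) (hnil : Group.IsNilpotent M) (hodd : Odd (Nat.card M)) :
    Group.IsSolvable G := by
  refine solvable_of_coatom G M hmax hnil fun S hS => ?_
  haveI : Fact (Nat.Prime 2) := ⟨Nat.prime_two⟩
  rw [hS.eq_bot_iff.2 hodd.not_two_dvd_nat, Subgroup.commutator_bot_left]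
  exact bot_le

end Cfsg.Agent.S4040
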