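import Cfsg.Statements.S4043
import Cfsg.Agent.CZ.C

set_option autoImplicit false
open Cfsg

namespace Cfsg.Agent.S4043

open Subgroup H9 Pointwise

theorem norm_le {G : Type*} [Group G] [Finite G] {p : ℕ} [Fact p.Prime] {N A : Subgroup G} [N.Normal]
    (hN : IsPGroup p N) (hA : A ⊔ N = ⊤) (hd : A ⊓ N = ⊥) (hAp : NPC p A)
    (hC : ∀ n : G, n ∈ N → (∀ a : G, a ∈ A → a * n * a⁻¹ = n) → n = 1) :
    normalizer (Ores p A : Set G) ≤ A := by
  obtain ⟨P, hP⟩ := exists_syl (p := p) A
  have h1 : N ⊓ centralizer (Ores p A : Set G) = ⊥ := by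
    by_contra h
    refine inf_centralizer_ne_bot_of_p (hN.to_le inf_le_left) hP.isP (normalizer_inf le_normalizer_of_normal
      (H1.le_normalizer_centralizer (hP.le.trans (normalizer_Ores le_normalizer)))) h
      (eq_bot_iff.2 fun n hn => hC n hn.1.1 fun a ha => ?_)
    have : A ≤ centralizer {n} := hP.Ores_sup ▸ sup_le (fun u hu => mem_centralizer_singleton_iff.2 (hn.1.2 u hu))
      fun u hu => mem_centralizer_singleton_iff.2 (hn.2 u hu)
    rw [mem_centralizer_singleton_iff.1 (this ha), mul_inv_cancel_right]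
  intro g hg
  obtain ⟨a, ha, n, hn, rfl⟩ := (H1.mem_sup_of_le_normalizer_right le_normalizer_of_normal).1 (hA ▸ mem_top g)
  have h2 : n ∈ normalizer (Ores p A : Set G) := by
    simpa using mul_mem (inv_mem (normalizer_Ores (p := p) le_normalizer ha)) hg
  have h3 := H1.mem_centralizer_of_mem_normalizer (A := Ores p A) le_normalizer_of_normal
    (eq_bot_iff.2 ((inf_le_inf_right _ (Ores_le p A)).trans hd.le)) hn h2
  rw [mem_bot.1 (h1.le ⟨hn, h3⟩), mul_one]; exact ha

/-- Let G be a finite group that is the semidirect product of a normal p-subgroup N by a subgroup A, and also of N by a subgroup A₁, where p is a prime and A and A₁ both have normal p-complements. If C_N(A) = C_N(A₁) = 1, then A₁ is conjugate to A by an element of N. -/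
theorem result {G : Type*} [Group G] [Finite G] {p : ℕ}
    [Fact p.Prime] (N : Subgroup G) [N.Normal] (hN : IsPGroup p N) (A A₁ : Subgroup G)
    (hA : A.IsComplement' N) (hA₁ : A₁.IsComplement' N)
    (hAp : Cfsg.HasNormalPComplement p A) (hA₁p : Cfsg.HasNormalPComplement p A₁)
    (hC : ∀ n : G, n ∈ N → (∀ a : G, a ∈ A → a * n * a⁻¹ = n) → n = 1)
    (hC₁ : ∀ n : G, n ∈ N → (∀ a : G, a ∈ A₁ → a * n * a⁻¹ = n) → n = 1) :
    ∃ n : G, n ∈ N ∧ A₁ = A.map (MulAut.conj n).toMonoidHom := by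
  have h1 := npc_iff.2 hAp
  have h2 := npc_iff.2 hA₁p
  have h3 : Ores p A ≤ Ores p A₁ ⊔ N := by
    obtain ⟨P, hP⟩ := exists_syl (p := p) A₁
    refine (Ores_mono le_top).trans (Ores_le_of_sup hP.isP (normalizer_sup
      (hP.le.trans (normalizer_Ores le_normalizer)) le_normalizer_of_normal) ?_)
    rw [sup_right_comm, hP.Ores_sup, hA₁.sup_eq_top]
  have h4 : Ores p A₁ ≤ Ores p A ⊔ N := by
    obtain ⟨P, hP⟩ := exists_syl (p := p) A
    refine (Ores_mono le_top).trans (Ores_le_of_sup hP.isP (normalizer_sup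
      (hP.le.trans (normalizer_Ores le_normalizer)) le_normalizer_of_normal) ?_)
    rw [sup_right_comm, hP.Ores_sup, hA.sup_eq_top]
  have d : ∀ {B : Subgroup G}, NPC p B → Ores p B ⊓ N = ⊥ := fun h => by rw [inf_comm, inf_eq_bot_of_p_p' hN h]
  obtain ⟨n, hn, h5⟩ := H1.exists_conj_le_of_solvable_right (H1.isSolvable_of_isPGroup hN) le_normalizer_of_normal
    (d h2) h3 (card_cop_of_p hN h1).symm
  have h6 : MulAut.conj n • Ores p A = Ores p A₁ := H1.eq_of_le_of_card_eq h5 (by
    have k1 := H1.card_sup_of_disjoint le_normalizer_of_normal (d h1)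
    rw [le_antisymm (sup_le h3 le_sup_right) (sup_le h4 le_sup_right),
      H1.card_sup_of_disjoint le_normalizer_of_normal (d h2)] at k1
    rw [H1.card_conj_smul, Nat.eq_of_mul_eq_mul_right Nat.card_pos k1])
  refine ⟨n, hn, (H1.eq_of_le_of_card_eq ?_ ?_).symm⟩
  · rw [← H1.conj_smul_eq_map]
    refine le_trans ?_ (norm_le hN hA₁.sup_eq_top hA₁.disjoint.eq_bot h2 hC₁)
    rw [← h6, H1.normalizer_conj_smul]
    exact H1.conj_smul_mono n (normalizer_Ores le_normalizer)
  · rw [← H1.conj_smul_eq_map, H1.card_conj_smul, ← hA.index_eq_card, ← hA₁.index_eq_card]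

end Cfsg.Agent.S4043
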