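import Cfsg.Statements.S4049
import Cfsg.Agent.H1.Homog

set_option autoImplicit false
open Cfsg

namespace Cfsg.Agent.S4049

open H1

/-- Let G be a finite group such that N_G(H)/C_G(H) has odd order for every nontrivial subgroup H of odd order. Then the Sylow 2-subgroups of G are normal. -/
theorem result {G : Type*} [Group G] [Finite G]
    (hhom : ∀ H : Subgroup G, H ≠ ⊥ → ¬ 2 ∣ Nat.card ↥H →
        ¬ 2 ∣ (Subgroup.centralizer (H : Set G)).relIndex (Subgroup.normalizer (H : Set G))) (P : Sylow 2 G) :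
    (P : Subgroup G).Normal := by
  have h1 : Homog {2} G := homog_of (fun H hH h2 p hp hd hp2 => by
    rw [Set.mem_singleton_iff] at hp2
    subst hp2
    exact hhom H hH (fun h => h2 2 Nat.prime_two h rfl) hd)
  have hπ : IsPiNum {2} (Nat.card (Cfsg.pCore 2 G)) := isPGroup_iff_isPiNum.1 pCore_isPGroup
  have h2 := h1.quot (Cfsg.pCore 2 G) hπ
  have h3 : ¬ 2 ∣ (Cfsg.pCore 2 G).index := by
    intro hd
    obtain ⟨t, ht⟩ := exists_prime_orderOf_dvd_card' (G := G ⧸ Cfsg.pCore 2 G) 2 hd
    have ht2 : t * t = 1 := by have := pow_orderOf_eq_one t; rwa [ht, pow_two] at this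
    have ht1 : t ∉ Cfsg.pCore 2 (G ⧸ Cfsg.pCore 2 G) := by
      rw [pCore_quotient_pCore, Subgroup.mem_bot]
      rintro rfl
      simp at ht
    obtain ⟨x, hx1, hxo, hx⟩ := exists_inverted_of_notMem ht2 ht1
    have hn : t ∈ Subgroup.normalizer ((Subgroup.zpowers x : Subgroup _) : Set _) := by
      rw [mem_normalizer_iff_conj_mem]
      intro y hy
      obtain ⟨k, rfl⟩ := Subgroup.mem_zpowers_iff.1 hy
      rw [← conj_zpow, hx]
      exact Subgroup.zpow_mem _ (Subgroup.inv_mem _ (Subgroup.mem_zpowers x)) _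
    have hc := h2 _ (by
      rw [Nat.card_zpowers]
      intro q hq hqd hq2
      rw [Set.mem_singleton_iff] at hq2
      subst hq2
      exact (Nat.not_even_iff_odd.2 hxo) (even_iff_two_dvd.2 hqd)) t hn (by
        rw [ht]
        intro q hq hqd
        exact (Nat.prime_dvd_prime_iff_eq hq Nat.prime_two).1 hqd)
    have e := (Subgroup.mem_centralizer_iff.1 hc) x (Subgroup.mem_zpowers x)
    have e2 : x = x⁻¹ := by rw [← hx, ← e]; group
    have e3 : x ^ 2 = 1 := by rw [pow_two]; nth_rewrite 2 [e2]; simp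
    have := (Nat.dvd_prime Nat.prime_two).1 (orderOf_dvd_of_pow_eq_one e3)
    rcases this with h | h
    · exact hx1 (orderOf_eq_one_iff.1 h)
    · rw [h] at hxo; exact absurd hxo (by decide)
  have h4 : (P : Subgroup G) ≤ Cfsg.pCore 2 G :=
    le_of_coprime_index (isPGroup_coprime' P.isPGroup' h3)
  rw [le_antisymm h4 (pCore_le_sylow P)]
  infer_instance

end Cfsg.Agent.S4049
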