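import Cfsg.Statements.S4050
import Cfsg.Agent.H1.Homog

set_option autoImplicit false
open Cfsg

namespace Cfsg.Agent.S4050

open H1

/-- Let π be a set of primes and G a finite group. The π-elements of G (elements whose order is divisible only by primes of π) form a subgroup if and only if G is π-separable (it has a chain of normal subgroups from 1 to G with each successive index divisible only by primes in π or only by primes outside π) and N_G(H)/C_G(H) is a π'-group for every nontrivial π'-subgroup H of G. -/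
theorem result {G : Type*} [Group G] [Finite G] (π : Set ℕ)
    (hπ : ∀ p ∈ π, p.Prime) :
    (∃ K : Subgroup G, ∀ x : G, x ∈ K ↔ ∀ p : ℕ, p.Prime → p ∣ orderOf x → p ∈ π) ↔
    ((∃ (n : ℕ) (H : Fin (n + 1) → Subgroup G), H 0 = ⊥ ∧ H (Fin.last n) = ⊤ ∧ Monotone H ∧ (∀ i, (H i).Normal) ∧
      ∀ i : Fin n, (∀ q : ℕ, q.Prime → q ∣ (H i.castSucc).relIndex (H i.succ) → q ∈ π) ∨
        (∀ q : ℕ, q.Prime → q ∣ (H i.castSucc).relIndex (H i.succ) → q ∉ π)) ∧
     (∀ H : Subgroup G, H ≠ ⊥ → (∀ p : ℕ, p.Prime → p ∣ Nat.card ↥H → p ∉ π) →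
        ∀ p : ℕ, p.Prime → p ∣ (Subgroup.centralizer (H : Set G)).relIndex (Subgroup.normalizer (H : Set G)) → p ∉ π)) := by
  constructor
  · rintro ⟨K, hK⟩
    obtain ⟨hn, -, h1, h2⟩ := closed_facts hK
    refine ⟨⟨2, ![⊥, K, ⊤], rfl, rfl, ?_, ?_, ?_⟩, ?_⟩
    · rw [Fin.monotone_iff_le_succ]
      intro i
      fin_cases i <;> simp
    · intro i
      fin_cases i
      · exact (inferInstance : (⊥ : Subgroup G).Normal)
      · exact hn
      · exact (inferInstance : (⊤ : Subgroup G).Normal)
    · intro i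
      fin_cases i
      · left
        show ∀ q : ℕ, q.Prime → q ∣ (⊥ : Subgroup G).relIndex K → q ∈ π
        rw [Subgroup.relIndex_bot_left]
        exact h1
      · right
        show ∀ q : ℕ, q.Prime → q ∣ K.relIndex ⊤ → q ∉ π
        rw [Subgroup.relIndex_top_right]
        exact h2
    · intro H _ hH
      refine Homog.relIndex (fun H hH x hx hxπ => ?_) H hH
      rw [Subgroup.mem_centralizer_iff]
      intro y hy
      have hxK := (hK x).2 hxπ
      have e : y⁻¹ * x * y * x⁻¹ ∈ K ⊓ H := by
        refine ⟨K.mul_mem ?_ (K.inv_mem hxK), ?_⟩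
        · simpa using hn.conj_mem x hxK y⁻¹
        · have := H.mul_mem (H.inv_mem hy) (conj_mem_of_mem_normalizer hx hy)
          simpa [mul_assoc] using this
      rw [inf_eq_bot_of_coprime (h1.coprime hH), Subgroup.mem_bot] at e
      calc y * x = y * (y⁻¹ * x * y * x⁻¹) * x := by rw [e, mul_one]
        _ = x * y := by group
  · rintro ⟨⟨n, H, h0, hn, -, hnorm, hidx⟩, hh⟩
    exact closed_of_mem_piCore (Homog.mem_piCore G (piSep_of_series H h0 hn hnorm hidx) (homog_of hh))

end Cfsg.Agent.S4050
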