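import Cfsg.Statements.S4051
import Cfsg.Agent.H1.Homog

set_option autoImplicit false
open Cfsg

namespace Cfsg.Agent.S4051

open H1

/-- Let π be a set of primes and G a finite group such that N_G(H)/C_G(H) is a π'-group for every nontrivial π'-subgroup H of G. If K is a normal subgroup of G such that the π-elements of K form a subgroup and the π-elements of G/K form a subgroup, then the π-elements of G form a subgroup. -/
theorem result {G : Type*} [Group G] [Finite G] (π : Set ℕ)
    (hπ : ∀ p ∈ π, p.Prime) (hhom : (∀ H : Subgroup G, H ≠ ⊥ → (∀ p : ℕ, p.Prime → p ∣ Nat.card ↥H → p ∉ π) →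
        ∀ p : ℕ, p.Prime → p ∣ (Subgroup.centralizer (H : Set G)).relIndex (Subgroup.normalizer (H : Set G)) → p ∉ π))
    (K : Subgroup G) [K.Normal]
    (hK : ∃ L : Subgroup ↥K, ∀ x : ↥K, x ∈ L ↔ ∀ p : ℕ, p.Prime → p ∣ orderOf x → p ∈ π)
    (hQ : ∃ L : Subgroup (G ⧸ K), ∀ x : G ⧸ K, x ∈ L ↔ ∀ p : ℕ, p.Prime → p ∣ orderOf x → p ∈ π) :
    (∃ K : Subgroup G, ∀ x : G, x ∈ K ↔ ∀ p : ℕ, p.Prime → p ∣ orderOf x → p ∈ π) := by
  obtain ⟨A, hA⟩ := hK
  obtain ⟨B, hB⟩ := hQ
  obtain ⟨-, hAc, hA1, hA2⟩ := closed_facts hA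
  obtain ⟨hBn, -, hB1, hB2⟩ := closed_facts hB
  refine closed_of_mem_piCore (Homog.mem_piCore G ?_ (homog_of hhom))
  refine piSep_of_series (n := 4) ![⊥, A.map K.subtype, K, B.comap (QuotientGroup.mk' K), ⊤] rfl rfl ?_ ?_
  · intro i
    fin_cases i
    · exact (inferInstance : (⊥ : Subgroup G).Normal)
    · exact map_char_normal K A
    · exact (inferInstance : K.Normal)
    · exact hBn.comap _
    · exact (inferInstance : (⊤ : Subgroup G).Normal)
  · intro i
    fin_cases i
    · left
      show IsPiNum π ((⊥ : Subgroup G).relIndex (A.map K.subtype))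
      rw [Subgroup.relIndex_bot_left, Subgroup.card_map_of_injective K.subtype_injective]
      exact hA1
    · right
      show IsPiNum πᶜ ((A.map K.subtype).relIndex K)
      rw [Subgroup.relIndex, subgroupOf_map_subtype_self]
      exact hA2
    · left
      show IsPiNum π (K.relIndex (B.comap (QuotientGroup.mk' K)))
      have hNM : K ≤ B.comap (QuotientGroup.mk' K) := by
        intro y hy
        rw [Subgroup.mem_comap, show QuotientGroup.mk' K y = 1 from (QuotientGroup.eq_one_iff y).2 hy]
        exact one_mem _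
      have e1 := card_mul_relIndex hNM
      rw [card_comap_mk'] at e1
      rw [Nat.eq_of_mul_eq_mul_left Nat.card_pos e1]
      exact hB1
    · right
      show IsPiNum πᶜ ((B.comap (QuotientGroup.mk' K)).relIndex ⊤)
      rw [Subgroup.relIndex_top_right, Subgroup.index_comap_of_surjective _ (QuotientGroup.mk'_surjective K)]
      exact hB2

end Cfsg.Agent.S4051
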