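import Cfsg.Statements.S4056
import Cfsg.Agent.H1.Misc

set_option autoImplicit false
open Cfsg

namespace Cfsg.Agent.S4056

open scoped commutatorElement

open H1

/-- In a finite 2-group of nilpotency class at most 2 and exponent dividing 4, the Frattini subgroup lies in the centre and is elementary abelian. -/
theorem result {P : Type*} [Group P] [Finite P] (hP : IsPGroup 2 P)
    (hcl : Group.nilpotencyClass P ≤ 2) (hexp : Monoid.exponent P ∣ 4) :
    frattini P ≤ Subgroup.center P ∧ Cfsg.IsElementaryAbelian 2 (frattini P) := by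
  haveI := hP.isNilpotent
  have h2 : ⁅⁅(⊤ : Subgroup P), (⊤ : Subgroup P)⁆, (⊤ : Subgroup P)⁆ = ⊥ := by
    have := Subgroup.lowerCentralSeries_eq_bot_iff_nilpotencyClass_le.2 hcl
    exact this
  have h4 : ∀ x : P, x ^ 4 = 1 := fun x => L.pow_eq_one_of_dvd (Monoid.pow_exponent_eq_one x) hexp
  have hc : ∀ x y z : P, Commute z ⁅x, y⁆ := fun x y z =>
    (L.commute_of_commutator_eq_bot h2 (Subgroup.commutator_mem_commutator (Subgroup.mem_top x)
      (Subgroup.mem_top y)) (Subgroup.mem_top z)).symm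
  have hsq : ∀ x y : P, ⁅x, y⁆ ^ 2 = 1 := by
    intro x y
    -- (xy)^4 = x^4 y^4 z^6
    have h := L.mul_pow_class2 (L.rel_comm x⁻¹ y⁻¹) (hc _ _ _) (hc _ _ _) 4
    rw [h4, h4, h4, inv_inv, inv_inv, show Nat.choose 4 2 = 4 + 2 by decide, pow_add, h4] at h
    rw [← commutatorElement_inv, inv_pow, inv_eq_one]
    simpa using h.symm
  have hsc : ∀ x : P, x ^ 2 ∈ L.omegaCenter 2 P := fun x => by
    rw [L.mem_omegaCenter, Subgroup.mem_center_iff]
    refine ⟨fun g => ?_, by rw [← pow_mul]; exact h4 x⟩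
    have := L.commutatorElement_pow_left (hc x g x) 2
    rw [hsq, commutatorElement_eq_one_iff_mul_comm] at this
    exact this.symm
  have h3 : frattini P ≤ L.omegaCenter 2 P := by
    refine frattini_le_of_elementary Nat.prime_two ?_ hsc
    rw [commutator_def, Subgroup.commutator_le]
    intro x _ y _
    rw [L.mem_omegaCenter, Subgroup.mem_center_iff]
    exact ⟨fun g => (hc x y g).eq, hsq x y⟩
  have h5 : frattini P ≤ Subgroup.center P := fun x hx => (L.mem_omegaCenter.1 (h3 hx)).1
  exact ⟨h5, isMulCommutative_of_comm fun x hx y _ => (Subgroup.mem_center_iff.1 (h5 hx) y).symm,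
    fun x hx => (L.mem_omegaCenter.1 (h3 hx)).2⟩

end Cfsg.Agent.S4056
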