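import Cfsg.Statements.S4058
import Cfsg.Agent.S0158
import Cfsg.Agent.H1.Frattini
import Cfsg.Agent.H3.Linear

set_option autoImplicit false
open Cfsg

namespace Cfsg.Agent.S4058

open scoped Pointwise
open H1
open MulAction in
theorem dvd_sum_orbit {V X : Type*} [Group V] [MulAction V X] [Fintype X] (F : X → ℤ) (m : ℤ)
    (hF : ∀ (v : V) x, F (v • x) = F x) (h : ∀ x, m ∣ Nat.card (orbit V x) * F x) : m ∣ ∑ x, F x := by
  classical
  haveI := Fintype.ofFinite (orbitRel.Quotient V X)
  rw [← Finset.sum_fiberwise (s := Finset.univ) (g := fun x => (Quotient.mk (orbitRel V X) x : orbitRel.Quotient V X))]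
  refine Finset.dvd_sum fun q _ => ?_
  obtain ⟨x, rfl⟩ := Quotient.exists_rep q
  rw [Finset.sum_congr rfl (g := fun _ => F x) (fun y hy => by
    obtain ⟨v, rfl⟩ : y ∈ orbit V x := Quotient.exact (Finset.mem_filter.1 hy).2
    exact hF v x), Finset.sum_const, nsmul_eq_mul]
  refine (h x).trans (dvd_of_eq ?_)
  rw [Nat.card_eq_card_toFinset]
  symm
  congr 2
  congr 1
  ext y
  simp only [Finset.mem_filter, Finset.mem_univ, true_and, Set.mem_toFinset]
  exact ⟨fun h => Quotient.exact h, fun h => Quotient.sound h⟩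

open scoped ComplexConjugate in
theorem stab_le {G : Type*} [Group G] [Fintype G] {χ : G → ℂ} (hχ : IsIrrCharacter G χ) {d : ℕ}
    (hd : χ 1 = d) (s : Finset (G →* ℂˣ)) (hs : ∀ f ∈ s, (χ * fun g => (f g : ℂ)) = χ) : s.card ≤ d ^ 2 := by
  classical
  have key : IsCharacter G ((χ * fun g => conj (χ g)) - ∑ f ∈ s, fun g => (f g : ℂ)) := by
    induction s using Finset.induction_on with
    | empty => simpa using H3.char_mul (H3.irr_char hχ) (H3.char_conj (H3.irr_char hχ))
    | insert f s hf ih =>
      rw [Finset.sum_insert hf, add_comm, ← sub_sub]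
      refine H3.char_sub_of_inner_ne_zero (ih fun g hg => hs g (Finset.mem_insert_of_mem hg))
        (H3.isIrr_hom f) ?_
      rw [H3.inner_sub_left, H3.inner_sum_left, Finset.sum_eq_zero fun g hg => by
        rw [H3.inner_hom, if_neg (by rintro rfl; exact hf hg)], H3.inner_mul_left]
      simp only [Complex.conj_conj]
      rw [mul_comm, hs f (Finset.mem_insert_self _ _), H3.irr_inner_self hχ]
      simp
  obtain ⟨n, hn⟩ := H3.char_one_nat key
  simp only [Pi.sub_apply, Pi.mul_apply, hd, Finset.sum_apply, map_one, Units.val_one, Finset.sum_const,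
    nsmul_eq_mul, mul_one, map_natCast] at hn
  have : (d ^ 2 : ℕ) = n + s.card := by
    have : ((d ^ 2 : ℕ) : ℂ) = n + s.card := by rw [← hn]; push_cast; ring
    exact_mod_cast this
  omega

/-- Let G be a finite 2-group with #(G/Φ(G)) ≥ 2^(2k+1). Then the number of elements x of G with x² = 1 is divisible by 2^(k+1). -/
theorem result {G : Type*} [Group G] [Finite G] (hG : IsPGroup 2 G) (k : ℕ)
    (hgen : 2 ^ (2 * k + 1) ≤ Nat.card (G ⧸ frattini G)) :
    2 ^ (k + 1) ∣ Nat.card {x : G // x ^ 2 = 1} := by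
  classical
  haveI := Fintype.ofFinite G
  haveI : Group.IsNilpotent G := hG.isNilpotent
  let V : Subgroup (G →* ℂˣ) :=
    { carrier := {f | ∀ n ∈ frattini G, f n = 1}
      mul_mem' := fun {a b} ha hb n hn => by simp [ha n hn, hb n hn]
      one_mem' := fun n _ => rfl
      inv_mem' := fun {a} ha n hn => by simp [ha n hn] }
  have hV : Nat.card V = Nat.card (G ⧸ frattini G) :=
    H3.card_hom_trivial_on (frattini G) (commutator_le_frattini)
  letI : MulAction V (IrrCharacter G) :=
    { smul := fun f χ => ⟨χ.1 * fun g => (f.1 g : ℂ), H3.irr_mul_hom χ.2 f.1⟩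
      one_smul := fun χ => Subtype.ext (by ext g; exact mul_one _)
      mul_smul := fun a b χ => Subtype.ext (by
        ext g
        show χ.1 g * ((a.1 g * b.1 g : ℂˣ) : ℂ) = χ.1 g * b.1 g * a.1 g
        push_cast; ring) }
  have hsm : ∀ (f : V) (χ : IrrCharacter G), (f • χ).1 = χ.1 * fun g => (f.1 g : ℂ) := fun _ _ => rfl
  have hν : ∀ χ : IrrCharacter G, ∃ z : ℤ, (Nat.card G : ℂ)⁻¹ * ∑ s : G, χ.1 (s * s) = z := fun χ => by
    obtain ⟨a, b, h, -⟩ := Cfsg.Agent.S0158.aux χ.2
    exact ⟨a - b, by rw [h]; push_cast; rfl⟩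
  choose ν hν using hν
  have hd : ∀ χ : IrrCharacter G, ∃ a : ℕ, χ.1 1 = (2 ^ a : ℕ) := fun χ => H3.degree_prime_pow hG χ.2
  choose a ha using hd
  have e : (Nat.card {x : G // x ^ 2 = 1} : ℤ) = ∑ χ : IrrCharacter G, 2 ^ a χ * ν χ := by
    have e1 : ∑ s : G, H3.regChar G (s * s) = Nat.card G * Nat.card {x : G // x ^ 2 = 1} := by
      rw [Finset.sum_congr rfl (g := fun s => if s ^ 2 = 1 then (Nat.card G : ℂ) else 0) fun s _ => by
        rw [← pow_two]
        split_ifs with h
        · rw [h, H3.regChar_one]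
        · exact H3.regChar_ne h, ← Finset.sum_filter, Finset.sum_const, nsmul_eq_mul, mul_comm,
        Nat.card_eq_fintype_card (α := {x : G // x ^ 2 = 1}), Fintype.card_subtype]
    rw [H3.regChar_eq_sum] at e1
    simp only [Finset.sum_apply, Pi.smul_apply, smul_eq_mul] at e1
    rw [Finset.sum_comm] at e1
    have e2 : ((Nat.card {x : G // x ^ 2 = 1} : ℤ) : ℂ) = ((∑ χ : IrrCharacter G, 2 ^ a χ * ν χ : ℤ) : ℂ) := by
      apply mul_left_cancel₀ (H3.card_ne_zero' G)
      push_cast
      rw [← e1, Finset.mul_sum]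
      refine Finset.sum_congr rfl fun χ _ => ?_
      rw [← Finset.mul_sum, ← hν, ha]
      push_cast
      field_simp [H3.card_ne_zero' G]
    exact_mod_cast e2
  have : ((2 ^ (k + 1) : ℕ) : ℤ) ∣ (Nat.card {x : G // x ^ 2 = 1} : ℤ) := by
    rw [e]
    refine dvd_sum_orbit (V := V) _ _ (fun f χ => ?_) fun χ => ?_
    · have h1 : a (f • χ) = a χ := by
        have := ha (f • χ)
        rw [hsm, Pi.mul_apply, map_one, Units.val_one, mul_one, ha] at this
        exact (Nat.pow_right_injective le_rfl (Nat.cast_injective this)).symm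
      have h2 : ν (f • χ) = ν χ := by
        have := hν (f • χ)
        rw [hsm, Finset.sum_congr rfl (g := fun s => χ.1 (s * s)) fun s _ => by
          rw [Pi.mul_apply, f.2 _ (by rw [← pow_two]; exact pow_mem_frattini hG s)]; simp, hν] at this
        exact_mod_cast this.symm
      rw [h1, h2]
    · rw [← mul_assoc]
      refine Dvd.dvd.mul_right ?_ _
      have h1 : Nat.card (MulAction.orbit V χ) * Nat.card (MulAction.stabilizer V χ) = Nat.card V := by
        rw [← Nat.card_prod, Nat.card_congr (MulAction.orbitProdStabilizerEquivGroup V χ)]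
      obtain ⟨d, hd⟩ := (hG.to_quotient (frattini G)).exists_card_eq
      rw [hV, hd] at h1
      obtain ⟨i, -, hi⟩ := (Nat.dvd_prime_pow Nat.prime_two).1 (Dvd.intro _ h1)
      obtain ⟨j, -, hj⟩ := (Nat.dvd_prime_pow Nat.prime_two).1 (Dvd.intro_left _ h1)
      have h2 : 2 ^ j ≤ (2 ^ a χ) ^ 2 := by
        have := stab_le χ.2 (ha χ) (Finset.univ.image fun f : MulAction.stabilizer V χ => f.1.1) (by
          intro f hf
          obtain ⟨f, -, rfl⟩ := Finset.mem_image.1 hf
          exact congrArg Subtype.val f.2)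
        rwa [Finset.card_image_of_injective _ (fun x y h => Subtype.ext (Subtype.ext h)),
          Finset.card_univ, ← Nat.card_eq_fintype_card, hj] at this
      rw [hi, hj, ← pow_add] at h1
      rw [← pow_mul] at h2
      rw [hd] at hgen
      have h3 := Nat.pow_right_injective le_rfl h1
      have h4 := (Nat.pow_le_pow_iff_right one_lt_two).1 h2
      have h5 := (Nat.pow_le_pow_iff_right one_lt_two).1 hgen
      rw [hi]
      push_cast
      rw [← pow_add]
      exact pow_dvd_pow _ (by omega)
  exact_mod_cast this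

end Cfsg.Agent.S4058
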