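import Cfsg.Statements.S4065
import Cfsg.Agent.H5.SL2Cl

set_option autoImplicit false
open Cfsg

namespace Cfsg.Agent.S4065

open H5

/-- Let F be a finite field with 2ⁿ elements, n ≥ 2. In PSL₂(F) the centralizer of every element meets each of its conjugates by elements outside its normalizer trivially. -/
theorem result (n : ℕ) (hn : 2 ≤ n)
    (x : Matrix.ProjectiveSpecialLinearGroup (Fin 2) (GaloisField 2 n)) :
    Cfsg.IsTISubset (Subgroup.centralizer ({x} : Set (Matrix.ProjectiveSpecialLinearGroup (Fin 2) (GaloisField 2 n))) :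
      Set (Matrix.ProjectiveSpecialLinearGroup (Fin 2) (GaloisField 2 n))) := by
  intro g hg y hy hy'
  have : Fintype (GaloisField 2 n) := Fintype.ofFinite _
  by_contra h1
  have key : ∀ x y : PSL2 (GaloisField 2 n), x ≠ 1 → y ≠ 1 → y ∈ Subgroup.centralizer {x} →
      Subgroup.centralizer {y} = Subgroup.centralizer {x} := fun x y hx hy h => by
    have h2 : ∀ x : PSL2 (GaloisField 2 n), Subgroup.centralizer {x} = (Subgroup.centralizer {psl x}).comap psl := fun x => by
      ext z
      simp only [Subgroup.mem_comap, Subgroup.mem_centralizer_singleton_iff, ← map_mul, psl_inj.eq_iff]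
    have hy' : psl y ≠ 1 := by rwa [ne_eq, map_eq_one_iff _ psl_inj]
    rw [h2 x] at h ⊢
    rw [h2 y]
    congr 1
    rcases pg_cases (psl x) with h3 | ⟨h3, z, hz⟩ | ⟨h3, m, T, D, hT, hz⟩
    · exact (hx ((map_eq_one_iff _ psl_inj).1 h3)).elim
    · rw [centralizer_UP hz h3] at h ⊢
      exact centralizer_UP h hy'
    · have h4 : ∀ t ∈ T, t ≠ 1 → t * t ≠ 1 := fun t ht h1 e =>
        hT.not_dvd 2 (orderOf_eq_prime ((sq t).trans e) h1 ▸ hT.orderOf_dvd ht)
      rw [hT.centralizer_eq hz (h4 _ hz h3)] at h ⊢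
      exact hT.centralizer_eq h (h4 _ h hy')
  by_cases hx : x = 1
  · subst hx
    exact hg (Subgroup.le_normalizer (Subgroup.mem_centralizer_singleton_iff.2 (by simp)))
  have h2 := key x y hx h1 hy
  have h3 := key x _ hx (by simpa using h1) hy'
  refine hg (cj_eq_self_iff.1 ?_)
  have := map_centralizer (φ := (MulAut.conj g).toMonoidHom) (MulAut.conj g).injective y
  rw [MonoidHom.range_eq_top.2 (MulAut.conj g).surjective, inf_top_eq, h2] at this
  exact this.trans h3


end Cfsg.Agent.S4065
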