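import Cfsg.Statements.S4066
import Cfsg.Agent.H1.Misc

set_option autoImplicit false
open Cfsg

namespace Cfsg.Agent.S4066

open H1

/-- Let G be a finite group in which the centralizer of every element meets each of its conjugates by elements outside its normalizer trivially. Then any two distinct Sylow p-subgroups of G, for any prime p, intersect trivially. -/
theorem result {G : Type*} [Group G] [Finite G] (hTI : ∀ x : G, Cfsg.IsTISubset (Subgroup.centralizer ({x} : Set G) : Set G))
    {p : ℕ} [Fact p.Prime] (P Q : Sylow p G) (hPQ : P ≠ Q) : (P : Subgroup G) ⊓ (Q : Subgroup G) = ⊥ := by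
  by_contra hne
  obtain ⟨x, hx, hx1⟩ := exists_mem_ne_one hne
  have hP0 : (P : Subgroup G) ≠ ⊥ := fun h => hx1 (by simpa [h] using hx.1)
  obtain ⟨z, hz, hz1⟩ := exists_mem_ne_one (inf_centralizer_ne_bot_of_isPGroup P.isPGroup' P.isPGroup'
    Subgroup.le_normalizer hP0)
  set C := Subgroup.centralizer ({z} : Set G)
  have hPC : (P : Subgroup G) ≤ C := H9.le_centralizer_singleton_iff.2 hz.2
  obtain ⟨g, -, hg⟩ := (isSylowIn_top Q).conj (isSylowIn_top P)
  have hgn : g ∈ Subgroup.normalizer (C : Set G) := by
    by_contra h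
    exact hx1 (hTI z g h x (hPC hx.1) (hPC (hg ▸ conj_mem_conj_smul hx.2)))
  have hQC : (Q : Subgroup G) ≤ C := by
    have := conj_smul_le_of_mem_normalizer hPC (Subgroup.inv_mem _ hgn)
    rwa [← hg, conj_inv_smul_smul] at this
  have hC : Group.IsNilpotent C := by
    refine isNilpotent_of_centralizers_normal fun y hy c hc => ?_
    have h1 : c ∈ Subgroup.normalizer ((Subgroup.centralizer ({y} : Set G) : Subgroup G) : Set G) := by
      by_contra h
      have h2 : z ∈ Subgroup.centralizer ({y} : Set G) :=
        Subgroup.mem_centralizer_singleton_iff.2 (Subgroup.mem_centralizer_singleton_iff.1 hy).symm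
      refine hz1 (hTI y c h z h2 ?_)
      rw [Subgroup.mem_centralizer_singleton_iff.1 hc]; simpa using h2
    have := conj_mem_of_mem_normalizer h1 (Subgroup.mem_centralizer_singleton_iff.2 (rfl : y * y = y * y))
    exact (Subgroup.mem_centralizer_singleton_iff.1 this).symm
  have h1 := (isSylowIn_top P).of_le hPC le_top
  have h2 := (isSylowIn_top Q).of_le hQC le_top
  exact hPQ (Sylow.ext (h2.eq_of_normal h1 (h2.le_normalizer_of_nilpotent hC)))

end Cfsg.Agent.S4066
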