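import Cfsg.Statements.S4067
import Cfsg.Agent.H3.R20
import Cfsg.Agent.H3.Chr
import Cfsg.Agent.H3.Linear
import Cfsg.Agent.H1.Misc
import Cfsg.Agent.L.PG1

set_option autoImplicit false
open Cfsg

namespace Cfsg.Agent.S4067

open H3 Subgroup MulAction
open scoped commutatorElement

theorem big {G : Type*} [Group G] [Finite G] {p : ℕ} (hp : ∀ d, d ∣ Nat.card G → d ≠ 1 → p ≤ d) (p0 : 0 < p)
    (h : p < Nat.card (commutator G)) : p * Nat.card (ConjClasses G) ≤ Nat.card G := by
  classical
  have a := sum_deg_sq (G := G)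
  have b := sum_deg_sq_ker (commutator G)
  rw [← Finset.sum_filter_add_sum_filter_not _ (fun χ : IrrCharacter G => ∀ n ∈ commutator G, χ.1 n = χ.1 1), b] at a
  have c := Finset.card_filter_add_card_filter_not (s := Finset.univ) (fun χ : IrrCharacter G => ∀ n ∈ commutator G, χ.1 n = χ.1 1)
  rw [Finset.card_univ, ← Nat.card_eq_fintype_card, card_irr_eq_card_conjClasses] at c
  have d := Finset.card_nsmul_le_sum (Finset.univ.filter fun χ : IrrCharacter G => ∀ n ∈ commutator G, χ.1 n = χ.1 1)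
    (fun χ => charDegree (χ : G → ℂ) ^ 2) 1 fun χ _ => Nat.one_le_pow _ _ (deg_pos χ.2)
  have e := Finset.card_nsmul_le_sum (Finset.univ.filter fun χ : IrrCharacter G => ¬ ∀ n ∈ commutator G, χ.1 n = χ.1 1)
    (fun χ => charDegree (χ : G → ℂ) ^ 2) (p ^ 2) fun χ hχ => Nat.pow_le_pow_left (hp _ (deg_dvd χ.2) fun k =>
      (Finset.mem_filter.1 hχ).2 fun n hn => (mem_charKer (irr_char χ.2) n).1
        ((degree_one_iff_commutator_le χ.2).1 ((deg_eq_one_iff (irr_char χ.2)).1 k) hn)) 2
  rw [b] at d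
  have f := (commutator G).index_mul_card
  simp only [smul_eq_mul] at d e
  obtain ⟨q, rfl⟩ : ∃ q, p = q + 1 := ⟨p - 1, by omega⟩
  refine Nat.le_of_mul_le_mul_left ?_ p0
  have g : (commutator G).index * (q + 2) ≤ Nat.card G := f ▸ Nat.mul_le_mul_left _ h
  nlinarith [Nat.mul_le_mul_left q g, Nat.mul_le_mul_left ((q + 1) ^ 2) d]

theorem exB {G : Type*} [Group G] [Finite G] {p : ℕ} (hp : p.Prime) (hD : Nat.card (commutator G) = p)
    (hZ : commutator G ≤ center G) (hn : p * Nat.card (center G) < Nat.card G) {x y : G} (hxy : ¬ Commute x y) :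
    ∃ b ∉ center G, ∃ a ∉ commutator G, (∀ m, Commute m b → Commute a m) ∧ ∀ x, ¬ Commute x b → (x * a) ^ p = x ^ p := by
  have cz : ∀ {z}, z ∈ center G → ∀ g, Commute g z := fun h g => mem_center_iff.1 h g
  have e1 : ∀ z ∈ commutator G, z ^ p = 1 := fun z h => congrArg Subtype.val (hD ▸ pow_card_eq_one' (x := (⟨z, h⟩ : commutator G)))
  have nc : ∀ {u v : G}, ¬ Commute u v → u ∉ center G := fun h k => h (cz k _).symm
  by_cases o : ∃ a ∈ center G, a ^ p = 1 ∧ a ∉ commutator G
  · obtain ⟨a, a1, a2, a3⟩ := o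
    exact ⟨x, nc hxy, a, a3, fun m _ => (cz a1 m).symm, fun g _ => by rw [(cz a1 g).mul_pow, a2, mul_one]⟩
  push Not at o
  have r : ∀ u v : G, ∃ c ∈ commutator G, v * u = u * v * c := fun u v =>
    ⟨⁅v⁻¹, u⁻¹⁆, commutator_mem_commutator (mem_top _) (mem_top _), by simp [commutatorElement_def, mul_assoc]⟩
  have e2 : ∀ g : G, g ^ p ∈ center G := fun g => mem_center_iff.2 fun u => by
    obtain ⟨c, c1, c2⟩ := r g u
    rw [← mul_inv_eq_iff_eq_mul, ← conj_pow, c2, mul_assoc, ← (cz (hZ c1) _).eq, ← mul_assoc, mul_inv_cancel_right,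
      (cz (hZ c1) g).mul_pow, e1 c c1, mul_one]
  rcases hp.eq_two_or_odd' with rfl | ho
  · obtain ⟨z, z1, z2⟩ := r x y
    have z3 : z ≠ 1 := fun e => hxy (by rw [e, mul_one] at z2; exact z2.symm)
    have z4 : ∀ c ∈ commutator G, c ≠ 1 → c = z := fun c c1 c2 => congrArg Subtype.val
      (((Nat.card_eq_two_iff' (1 : commutator G)).1 hD).unique (y₁ := ⟨c, c1⟩) (y₂ := ⟨z, z1⟩) (mt (congrArg Subtype.val) c2) (mt (congrArg Subtype.val) z3))
    let f : center G →* center G := MonoidHom.mk' (· ^ 2) fun a b => (show Commute a b from Subtype.ext (cz b.2 a)).mul_pow 2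
    have f1 : f.range.index ≤ 2 := by
      rw [index_range, ← hD]
      exact Nat.card_le_card_of_injective (fun w => ⟨w.1.1, o _ w.1.2 (congrArg Subtype.val w.2)⟩)
        fun a b e => Subtype.ext (Subtype.ext (congrArg (fun t : commutator G => (t : G)) e))
    obtain ⟨u, u1, w, hw⟩ : ∃ u ∉ center G, (⟨u ^ 2, e2 u⟩ * ⟨z, hZ z1⟩ : center G) ∈ f.range := by
      by_contra! k
      have i : f.range.index = 2 := by
        have := index_ne_zero_of_finite (H := f.range)
        have : f.range.index ≠ 1 := fun e => k x (nc hxy) (index_eq_one.1 e ▸ mem_top _)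
        omega
      refine k (x * y) (nc fun e : Commute (x * y) y => hxy ((Commute.refl y).inv_left.mul_left e |> fun _ => mul_right_cancel (b := y)
        (by rw [e.eq, mul_assoc]))) ?_
      convert (mul_mem_iff_of_index_two i).2 (iff_of_false (k x (nc hxy)) (k y (nc fun e => hxy e.symm))) using 1
      apply Subtype.ext
      show (x * y) ^ 2 * z = x ^ 2 * z * (y ^ 2 * z)
      rw [L.mul_pow_class2 z2 (cz (hZ z1) _) (cz (hZ z1) _), Nat.choose_self, pow_one, mul_assoc (x ^ 2) z, ← mul_assoc z,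
        ← (cz (hZ z1) (y ^ 2)).eq]
      simp only [mul_assoc]
    have hw' : (w : G) ^ 2 = u ^ 2 * z := congrArg Subtype.val hw
    have b1 : u * (w : G)⁻¹ ∉ center G := fun e => u1 ((mul_mem_cancel_right (inv_mem w.2)).1 e)
    refine ⟨_, b1, _, mt (@hZ _) b1, fun m h => h.symm, fun g h => ?_⟩
    obtain ⟨c, c1, c2⟩ := r g (u * (w : G)⁻¹)
    rw [L.mul_pow_class2 c2 (cz (hZ c1) _) (cz (hZ c1) _), Nat.choose_self, pow_one,
      z4 c c1 fun e => h (by rw [e, mul_one] at c2; exact c2.symm), (cz (inv_mem w.2) u).mul_pow, inv_pow, hw', (cz (hZ z1) (u ^ 2)).eq]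
    group
  let f : G →* G := MonoidHom.mk' (· ^ p) fun u v => by
    obtain ⟨c, c1, c2⟩ := r u v
    obtain ⟨k, hk⟩ := L.dvd_choose_two ho
    rw [L.mul_pow_class2 c2 (cz (hZ c1) _) (cz (hZ c1) _), hk, pow_mul, e1 c c1, one_pow, mul_one]
  obtain ⟨b, b1, b2⟩ : ∃ b ∈ f.ker, b ∉ center G := by
    by_contra! k
    have k1 := card_le_of_le (show f.ker ≤ commutator G from fun g h => o g (k g h) h)
    have k2 := card_le_of_le (show f.range ≤ center G by rintro _ ⟨g, rfl⟩; exact e2 g)
    have k3 := f.ker.card_mul_index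
    rw [index_ker] at k3
    have := Nat.mul_le_mul k1 k2
    rw [hD] at this
    omega
  exact ⟨b, b2, b, mt (@hZ _) b2, fun m h => h.symm, fun g _ => (f.map_mul g b).trans (by rw [MonoidHom.mem_ker.1 b1, mul_one]; rfl)⟩

/-- Let G be a finite non-abelian group and p the least prime dividing its order. Then the automorphism group of G has at most #G/p orbits on G. -/
theorem result {G : Type*} [Group G] [Finite G] (hna : ¬ IsMulCommutative G) :
    Nat.card (MulAction.orbitRel.Quotient (MulAut G) G) ≤ Nat.card G / (Nat.card G).minFac := by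
  classical
  haveI := Fintype.ofFinite G
  obtain ⟨x, y, hxy⟩ : ∃ x y : G, ¬ Commute x y := by
    by_contra! k
    exact hna ⟨⟨k⟩⟩
  have n1 : Nat.card G ≠ 1 := fun e => hxy ((Nat.card_eq_one_iff_unique.1 e).1.elim _ _)
  obtain ⟨p, e⟩ : ∃ p, p = (Nat.card G).minFac := ⟨_, rfl⟩
  have hp : p.Prime := e ▸ Nat.minFac_prime n1
  have hm : ∀ d, d ∣ Nat.card G → d ≠ 1 → p ≤ d := fun d a b => e ▸ Nat.minFac_le_of_dvd (by
    have := Nat.pos_of_dvd_of_pos a Nat.card_pos; omega) a
  rw [← e, Nat.le_div_iff_mul_le hp.pos, mul_comm]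
  have cj : ∀ {a b : G}, IsConj a b → b ∈ orbit (MulAut G) a := fun h => (isConj_iff.1 h).elim fun c k => ⟨MulAut.conj c, k⟩
  by_cases h : p < Nat.card (commutator G)
  · refine le_trans (Nat.mul_le_mul_left _ (Nat.card_le_card_of_surjective
      (Quotient.map' id fun a b k => orbitRel_apply.2 (cj (IsConj.symm k)) : ConjClasses G → _) fun q => ?_)) (big hm hp.pos h)
    induction q using Quotient.inductionOn' with | h a => exact ⟨ConjClasses.mk a, rfl⟩
  have lt : ∀ {A B : Subgroup G}, A < B → p * Nat.card A ≤ Nat.card B := fun {A B} k => by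
    rw [← (A.subgroupOf B).index_mul_card, Nat.card_congr (subgroupOfEquivOfLe k.le).toEquiv]
    exact Nat.mul_le_mul_right _ (hm _ ((index_dvd_card _).trans B.card_subgroup_dvd_card) fun i => k.not_ge (relIndex_eq_one.1 i))
  have hD : Nat.card (commutator G) = p := le_antisymm (not_lt.1 h) (hm _ (card_subgroup_dvd_card _) fun i =>
    hxy (commutatorElement_eq_one_iff_commute.1 (mem_bot.1 (card_eq_one.1 i ▸ commutator_mem_commutator (mem_top _) (mem_top _)))))
  have ix : ∀ g : G, g ∉ center G → p ≤ (centralizer {g}).index := fun g k => hm _ (index_dvd_card _) fun i =>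
    k (mem_center_iff.2 fun u => mem_centralizer_singleton_iff.1 (index_eq_one.1 i ▸ mem_top u))
  have hZ : commutator G ≤ center G := fun z hz => by_contra fun k => by
    have a := ix z k
    rw [H1.index_centralizer_eq_card, ← hD] at a
    refine a.not_gt (Set.ncard_lt_ncard (s := {y | IsConj z y}) (t := (commutator G : Set G)) ⟨fun u l => ?_, fun l => ?_⟩)
    · exact (isConj_iff.1 l).elim fun c m => m ▸ Normal.conj_mem inferInstance z hz c
    · exact k (isConj_one_left.1 (l (one_mem _)) ▸ one_mem _)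
  have zl : ∀ {g : G}, g ∉ center G → center G < centralizer {g} := fun {g} k =>
    lt_of_le_of_ne (center_le_centralizer _) fun i => k (i ▸ mem_centralizer_singleton_iff.2 rfl)
  obtain ⟨b, b1, a, a1, a2, a3⟩ := exB hp hD hZ (by
    have k : x ∉ center G := fun k => hxy (mem_center_iff.1 k y).symm
    have := (centralizer {x}).index_mul_card
    have := lt (zl k)
    have := ix x k
    have := hp.two_le
    have : 0 < Nat.card (centralizer {x} : Subgroup G) := Nat.card_pos
    nlinarith) hxy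
  obtain ⟨M, hM⟩ : ∃ M, M = centralizer {b} := ⟨_, rfl⟩
  have m1 : ∀ g, g ∈ M ↔ Commute g b := fun g => hM ▸ mem_centralizer_singleton_iff
  haveI : M.Normal := Normal.of_commutator_le G (hM ▸ hZ.trans (center_le_centralizer _))
  have m2 : M.index = p := le_antisymm (by
    rw [hM, H1.index_centralizer_eq_card, ← hD]
    exact Nat.card_le_card_of_injective (fun u => ⟨u.1 * b⁻¹, (isConj_iff.1 u.2).elim fun c k =>
      k ▸ commutator_mem_commutator (mem_top c) (mem_top b)⟩) fun u v k => Subtype.ext (mul_right_cancel (congrArg Subtype.val k)))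
    (hM ▸ ix b b1)
  have m3 : ∀ c, (∀ m ∈ M, Commute c m) → c ∈ M := fun c k => (m1 c).2 (k b ((m1 b).2 rfl))
  let B : Subgroup G :=
    { carrier := {c | (∀ m ∈ M, Commute c m) ∧ ∀ g ∉ M, (g * c) ^ p = g ^ p}
      one_mem' := ⟨fun _ _ => Commute.one_left _, fun _ _ => by rw [mul_one]⟩
      mul_mem' := fun {c d} k l => ⟨fun m u => (k.1 m u).mul_left (l.1 m u), fun g u => by
        rw [← mul_assoc, l.2 _ (mt (M.mul_mem_cancel_right (m3 c k.1)).1 u), k.2 g u]⟩
      inv_mem' := fun {c} k => ⟨fun m u => (k.1 m u).inv_left, fun g u => by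
        rw [← k.2 _ (mt (M.mul_mem_cancel_right (inv_mem (m3 c k.1))).1 u), inv_mul_cancel_right]⟩ }
  have B1 : p * p ≤ Nat.card B := (Nat.mul_le_mul_left p hD.ge).trans <| lt (A := commutator G) (B := B) (lt_of_le_of_ne (fun z hz => ⟨fun m _ => (mem_center_iff.1 (hZ hz) m).symm, fun g _ => by
      rw [(show Commute g z from mem_center_iff.1 (hZ hz) g).mul_pow, show z ^ p = 1 from
        congrArg Subtype.val (hD ▸ pow_card_eq_one' (x := (⟨z, hz⟩ : commutator G))), mul_one]⟩)
    fun i => a1 (i.ge ⟨fun m u => a2 m ((m1 m).1 u), fun g u => a3 g (mt (m1 g).2 u)⟩))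
  have m4 := lt (hM ▸ zl b1 : center G < M)
  have m5 := M.index_mul_card
  obtain ⟨q, rfl⟩ : ∃ q, p = q + 1 := ⟨p - 1, by have := hp.pos; omega⟩
  have key := r20_count (A := MulAut G) (fun g : G => 1 + (if g ∈ M then q else 0) + if g ∈ center G then q * (q + 1) else 0)
    ((q + 1) * (q + 1)) fun g => by
      have o : 0 < Nat.card (orbit (MulAut G) g) := @Nat.card_pos _ ⟨⟨g, mem_orbit_self g⟩⟩ _
      by_cases k : g ∈ M
      · by_cases l : g ∈ center G
        · simp only [k, l, if_true]; nlinarith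
        · have := (ix g l).trans ((H1.index_centralizer_eq_card g).le.trans (Nat.card_mono (Set.toFinite _) fun u k => cj k))
          simp only [k, l, if_true, if_false]; nlinarith
      · have l : g ∉ center G := fun l => k ((m1 g).2 (mem_center_iff.1 l b).symm)
        simp only [k, l, if_false, add_zero, one_mul]
        exact B1.trans (Nat.card_le_card_of_injective (fun c : B => ⟨g * c, r20_aut M (m2 ▸ hp) k (m3 _ c.2.1) c.2.1 (m2 ▸ c.2.2 g k)⟩)
          fun u v k => Subtype.ext (mul_left_cancel (congrArg Subtype.val k)))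
  have s : ∀ (K : Subgroup G) [DecidablePred (· ∈ K)] (t : ℕ), ∑ g : G, (if g ∈ K then t else 0) = Nat.card K * t := fun K _ t => by
    rw [← Finset.sum_filter, Finset.sum_const, smul_eq_mul, Nat.card_eq_fintype_card, Fintype.card_subtype]
  simp only [Finset.sum_add_distrib, s, Finset.sum_const, Finset.card_univ, smul_eq_mul, mul_one, ← Nat.card_eq_fintype_card] at key
  rw [m2] at m5
  have q1 : 1 ≤ q := by have := hp.two_le; omega
  refine Nat.le_of_mul_le_mul_left ?_ hp.pos
  nlinarith [Nat.mul_le_mul_left q m4, Nat.mul_le_mul_right (q * Nat.card M) q1]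

end Cfsg.Agent.S4067
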