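import Cfsg.Statements.S4068
import Cfsg.Agent.H1.Sol2
import Cfsg.Agent.S1230
import Cfsg.Agent.H3.Ab5
import Cfsg.Agent.H5.SmallGp
import Cfsg.Agent.H5.PGL2

set_option autoImplicit false
open Cfsg

namespace Cfsg.Agent.S4068

open H1

/-- A finite non-solvable group on which its automorphism group has exactly four orbits is isomorphic to the alternating group of degree 5. -/
theorem result {G : Type*} [Group G] [Finite G] (hns : ¬ Group.IsSolvable G)
    (h4 : Nat.card (MulAction.orbitRel.Quotient (MulAut G) G) = 4) : Nonempty (G ≃* alternatingGroup (Fin 5)) := by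
  have h3 : 3 ≤ (Nat.card G).primeFactors.card := by
    by_contra hc
    exact hns (solvable_of_primeFactors (by omega))
  have h3' := primeFactors_lt_orbits (G := G)
  have hp : ∀ g : G, g ≠ 1 → (orderOf g).Prime := fun g hg => prime_order_of_orbits (by omega) hg
  obtain ⟨T⟩ : Nonempty (Sylow 2 G) := inferInstance
  have hsq : ∀ t : G, orderOf t = 2 → ∀ c ∈ Subgroup.centralizer ({t} : Set G), c ^ 2 = 1 := by
    intro t ht c hc
    by_cases h1 : c = 1
    · simp [h1]
    have := eq_orderOf_of_commute hp h1 (y := t) (by rintro rfl; simp at ht)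
      (Subgroup.mem_centralizer_singleton_iff.1 hc)
    rw [← ht, ← this, pow_orderOf_eq_one]
  have hnc : ¬ IsCyclic (T : Subgroup G) := fun h => hns (solvable_of_cyclic_sylow_two T h)
  obtain ⟨F, _, _, hF, ⟨e⟩⟩ := Cfsg.Agent.S1230.result T hnc
    (fun h => hns (solvable_of_normal_sylow_two T h)) fun t ht => ⟨isMulCommutative_of_comm fun x hx y hy => by
      have e1 := hsq t ht x hx
      have e2 := hsq t ht y hy
      have e3 := hsq t ht _ (Subgroup.mul_mem _ hx hy)
      rw [pow_two] at e1 e2 e3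
      calc x * y = x * (x * y * (x * y)) * y := by rw [e3, mul_one]
        _ = (x * x) * y * x * (y * y) := by group
        _ = y * x := by rw [e1, e2, one_mul, mul_one], hsq t ht⟩
  obtain ⟨n, hn⟩ := T.isPGroup'.exists_card_eq
  have hn2 : 2 ≤ n := by
    by_contra hc
    apply hnc
    refine isCyclic_of_card_dvd_prime (p := 2) ?_
    rw [hn]
    interval_cases n <;> simp
  rw [hn] at hF
  have h2 : (2 : F) = 0 := H3.two_eq_zero (by omega) hF
  let e' := e.trans (H3.slPsl F h2).symm
  have hc : Nat.card G = 2 ^ n * (2 ^ n - 1) * (2 ^ n + 1) := by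
    rw [Nat.card_congr e'.toEquiv, H5.card_SL2, hF]
  have hsf : ∀ p : ℕ, p.Prime → p ≠ 2 → ¬ p * p ∣ Nat.card G := by
    intro p pp p2 hd
    haveI := Fact.mk pp
    obtain ⟨P, hP⟩ := Sylow.exists_subgroup_card_pow_prime p (n := 2) (by rwa [pow_two])
    have h1 : IsCyclic (P.map e'.toMonoidHom) :=
      H3.sl_sylow_cyclic h2 p2 ((IsPGroup.of_card hP).map _)
    have h5 : IsCyclic P := (MulEquiv.isCyclic (Subgroup.equivMapOfInjective _ _ e'.injective)).2 h1
    obtain ⟨g, hg⟩ := IsCyclic.exists_ofOrder_eq_natCard (α := P)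
    rw [hP, ← Subgroup.orderOf_coe] at hg
    have := hp g (fun e => by
      rw [e, orderOf_one] at hg
      exact (Nat.one_lt_pow two_ne_zero pp.one_lt).ne hg)
    rw [hg] at this
    exact Nat.Prime.not_prime_pow le_rfl this
  obtain ⟨q, hq⟩ : ∃ q, 2 ^ n = 2 * q + 2 := by
    obtain ⟨m, rfl⟩ := Nat.exists_eq_add_of_le' hn2
    exact ⟨2 ^ (m + 1) - 1, by have := Nat.one_le_two_pow (n := m + 1); rw [pow_succ]; omega⟩
  have hq1 : 1 ≤ q := by
    have := Nat.pow_le_pow_right two_pos hn2
    omega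
  have h3q : ¬ 3 ∣ 2 * q + 2 := by
    rw [← hq]
    intro h
    exact absurd (Nat.le_of_dvd two_pos (Nat.prime_three.dvd_of_dvd_pow h)) (by decide)
  rw [hq, show 2 * q + 2 - 1 = 2 * q + 1 by omega] at hc
  have key : ∀ a b : ℕ, Odd a → Odd b → a.Coprime (3 * b) → 2 * (a * (3 * b)) ∣ Nat.card G →
      a = 1 ∨ b = 1 := by
    intro a b ha hb hab hd
    by_contra hcon
    push Not at hcon
    obtain ⟨r, hr, hra⟩ := Nat.exists_prime_and_dvd hcon.1
    obtain ⟨s, hs, hsb⟩ := Nat.exists_prime_and_dvd hcon.2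
    have r2 : r ≠ 2 := by rintro rfl; exact (Nat.not_even_iff_odd.2 ha) (even_iff_two_dvd.2 hra)
    have s2 : s ≠ 2 := by rintro rfl; exact (Nat.not_even_iff_odd.2 hb) (even_iff_two_dvd.2 hsb)
    have r3 : r ≠ 3 := by
      rintro rfl
      exact absurd (Nat.eq_one_of_dvd_coprimes hab hra (dvd_mul_right _ _)) (by decide)
    have rs : r ≠ s := by
      rintro rfl
      exact hr.one_lt.ne' (Nat.eq_one_of_dvd_coprimes hab hra (hsb.mul_left _))
    have s3 : s ≠ 3 := by
      rintro rfl
      exact hsf 3 Nat.prime_three (by decide)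
        ((((mul_dvd_mul_left 3 hsb).mul_left a).mul_left 2).trans hd)
    have hsub : ({2, 3, r, s} : Finset ℕ) ⊆ (Nat.card G).primeFactors := by
      intro x hx
      simp only [Finset.mem_insert, Finset.mem_singleton] at hx
      rw [Nat.mem_primeFactors]
      rcases hx with rfl | rfl | rfl | rfl
      · exact ⟨Nat.prime_two, (dvd_mul_right _ _).trans hd, Nat.card_pos.ne'⟩
      · exact ⟨Nat.prime_three, (((dvd_mul_right _ _).mul_left a).mul_left 2).trans hd, Nat.card_pos.ne'⟩
      · exact ⟨hr, ((hra.mul_right _).mul_left 2).trans hd, Nat.card_pos.ne'⟩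
      · exact ⟨hs, (((hsb.mul_left _).mul_left a).mul_left 2).trans hd, Nat.card_pos.ne'⟩
    have := Finset.card_le_card hsub
    rw [Finset.card_insert_of_notMem (by simp [r2.symm, s2.symm]),
      Finset.card_insert_of_notMem (by simp [r3.symm, s3.symm]),
      Finset.card_insert_of_notMem (by simp [rs]), Finset.card_singleton] at this
    omega
  have hcop : (2 * q + 1).Coprime (2 * q + 2 + 1) := by
    rw [show 2 * q + 2 + 1 = 2 + (2 * q + 1) by omega, Nat.coprime_add_self_right]
    exact Nat.coprime_two_right.2 ⟨q, rfl⟩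
  have hq' : q = 1 := by
    rcases (show 3 ∣ 2 * q + 1 ∨ 3 ∣ 2 * q + 2 + 1 by
      have : q % 3 = 0 ∨ q % 3 = 1 ∨ q % 3 = 2 := by omega
      rcases this with h | h | h <;> omega) with ⟨b, hb⟩ | ⟨b, hb⟩
    · have := key (2 * q + 2 + 1) b ⟨q + 1, by omega⟩ (by rw [Nat.odd_iff]; omega) (hb ▸ hcop.symm)
        ⟨q + 1, by rw [hc, ← hb]; ring⟩
      omega
    · have := key (2 * q + 1) b ⟨q, rfl⟩ (by rw [Nat.odd_iff]; omega) (hb ▸ hcop)
        ⟨q + 1, by rw [hc, ← hb]; ring⟩
      omega
  subst hq'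
  refine H5.A5_of_orders hc fun g => ?_
  by_cases h1 : g = 1
  · simp [h1]
  have h5 := hp g h1
  have h6 := orderOf_dvd_natCard g
  rw [hc] at h6
  generalize orderOf g = k at *
  have := Nat.le_of_dvd (by norm_num) h6
  interval_cases k <;> first | (revert h6; decide) | (exfalso; revert h5; norm_num)

end Cfsg.Agent.S4068
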