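import Cfsg.Statements.S4071
import Cfsg.Agent.H1.Fitting
import Cfsg.Agent.H1.Cores
import Cfsg.Agent.H1.Frattini

set_option autoImplicit false
open Cfsg

namespace Cfsg.Agent.S4071

open Subgroup

theorem gen {G : Type*} [Group G] [Finite G] {x : G} {p k : ℕ} (hp : p.Prime) (hx : orderOf x = p ^ k) {i : ℤ}
    (h : ¬ (p : ℤ) ∣ i) : x ∈ zpowers (x ^ i) := by
  rw [mem_zpowers_zpow_iff, hx]
  exact Nat.Coprime.pow_right k ((hp.coprime_iff_not_dvd.2 fun h' => h (Int.natCast_dvd.2 h')).symm)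

/-- Let G be a finite solvable non-nilpotent group. Every non-abelian subgroup of G is self-normalizing if and only if G is a semidirect product ⟨x⟩ ⋉ A in which ⟨x⟩ is a p-group for some prime p, A is a normal abelian subgroup of order prime to p, x^p is central in G, and x acts fixed-point-freely on A (no non-identity element of A commutes with x). -/
theorem result {G : Type*} [Group G] [Finite G]
    [Group.IsSolvable G] (hnn : ¬ Group.IsNilpotent G) :
    (∀ H : Subgroup G, ¬ IsMulCommutative H → Subgroup.normalizer (H : Set G) = H) ↔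
    ∃ (x : G) (A : Subgroup G) (p : ℕ), p.Prime ∧ A.Normal ∧ IsMulCommutative A ∧ (∃ k : ℕ, orderOf x = p ^ k) ∧
      ¬ p ∣ Nat.card A ∧ (Subgroup.zpowers x).IsComplement' A ∧ x ^ p ∈ Subgroup.center G ∧
      ∀ a : G, a ∈ A → a ≠ 1 → x * a * x⁻¹ ≠ a := by
  constructor
  · intro h
    have hP : ∀ N : Subgroup G, N.Normal → N ≠ ⊤ → IsMulCommutative N := fun N hN h1 => by
      by_contra h2
      exact h1 ((h N h2).symm.trans (normalizer_eq_top N))
    haveI : Nontrivial G := by
      by_contra h1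
      rw [not_nontrivial_iff_subsingleton] at h1
      exact hnn inferInstance
    have hn : ∀ L : Subgroup G, _root_.commutator G ≤ L → L.Normal := fun L hL => ⟨fun a ha g => by
      simpa [commutatorElement_def] using L.mul_mem (hL (commutator_mem_commutator (mem_top g) (mem_top a))) ha⟩
    obtain ⟨M, hM, hGM⟩ := (eq_top_or_exists_le_coatom _).resolve_left (IsSolvable.commutator_lt_top_of_nontrivial G).ne
    haveI := hn M hGM
    have Mc := hP M this hM.1
    have hU : ∀ L : Subgroup G, _root_.commutator G ≤ L → ¬ L ≤ M → L = ⊤ := fun L hL h1 => by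
      by_contra h2
      haveI := hn L hL
      have := H1.isNilpotent_sup (H := M) (K := L) le_normalizer_of_normal le_normalizer_of_normal (H1.isNilpotent_of_isMulCommutative Mc)
        (H1.isNilpotent_of_isMulCommutative (hP L this h2))
      rw [H1.sup_eq_top_of_coatom hM h1] at this
      exact hnn (Group.nilpotent_of_mulEquiv topEquiv)
    obtain ⟨p, hp, hd⟩ := Nat.exists_prime_and_dvd (fun h => hM.1 (index_eq_one.1 h) : M.index ≠ 1)
    haveI := Fact.mk hp
    obtain ⟨P⟩ : Nonempty (Sylow p G) := inferInstance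
    obtain ⟨x, hxP, hxM⟩ := SetLike.not_le_iff_exists.1 fun h : (P : Subgroup G) ≤ M =>
      P.not_dvd_index (hd.trans (index_dvd_of_le h))
    obtain ⟨k, hk⟩ := (IsPGroup.iff_orderOf.1 P.isPGroup') ⟨x, hxP⟩
    rw [← orderOf_coe] at hk
    have h1 : _root_.commutator G ⊔ zpowers x = ⊤ := hU _ le_sup_left fun h => hxM (h (mem_sup_right (mem_zpowers x)))
    have h2 : x ^ p ∈ M := by
      by_contra h2
      obtain ⟨m, hm, _, ⟨j, rfl⟩, e⟩ := mem_sup_of_normal_left.1
        ((hU (M ⊔ zpowers (x ^ p)) (hGM.trans le_sup_left) fun h => h2 (h (mem_sup_right (mem_zpowers _)))).ge (mem_top x))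
      have e2 : x ^ (1 - p * j) = m := by
        rw [zpow_sub, zpow_one, zpow_mul, zpow_natCast]; exact (eq_mul_inv_of_mul_eq e).symm
      exact hxM (zpowers_le.2 (e2 ▸ hm) (gen hp hk fun h => hp.one_lt.ne' (by
        exact_mod_cast Int.eq_one_of_dvd_one (by positivity) ((dvd_sub_left (dvd_mul_right _ _)).1 h))))
    set A := pPrimeCore p G
    have hA : ¬ p ∣ Nat.card A := H1.not_dvd_card_pPrimeCore
    have hco : (p ^ k).Coprime (Nat.card A) := (hp.coprime_iff_not_dvd.2 hA).pow_left k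
    have hdis : Disjoint (zpowers x) A := disjoint_iff.2 (inf_eq_bot_of_coprime (by rwa [Nat.card_zpowers, hk]))
    have Ac := hP A inferInstance fun h => hxM ((hdis.le_bot.trans bot_le) ⟨mem_zpowers x, h.ge (mem_top x)⟩)
    have h3 : (P : Subgroup G) ⊔ A = ⊤ := eq_top_iff.2 (h1.ge.trans (sup_le (hGM.trans ((H1.le_fitting
      (H1.isNilpotent_of_isMulCommutative Mc)).trans ((H1.fitting_le_pCore_sup_pPrimeCore p).trans
      (sup_le_sup_right (H1.pCore_isPGroup.le_sylow_of_normal P) _)))) ((zpowers_le.2 hxP).trans le_sup_left)))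
    have h4 : zpowers x ⊔ A = ⊤ := by
      have hq : IsPGroup p (G ⧸ A) := (P.isPGroup'.of_surjective ((QuotientGroup.mk' A).comp (P : Subgroup G).subtype)
        fun y => by
          obtain ⟨y, rfl⟩ := QuotientGroup.mk_surjective y
          obtain ⟨u, hu, a, ha, rfl⟩ := mem_sup_of_normal_right.1 (h3.ge (mem_top y))
          exact ⟨⟨u, hu⟩, by simp [(QuotientGroup.eq_one_iff a).2 ha]⟩)
      haveI := hq.isNilpotent
      have : (zpowers x).map (QuotientGroup.mk' A) = ⊤ := frattini_nongenerating (eq_top_iff.2 (by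
        rw [← map_top_of_surjective _ (QuotientGroup.mk'_surjective A), ← h1, Subgroup.map_sup, sup_comm]
        exact sup_le_sup_left ((map_commutator_eq _ _).le.trans ((commutator_mono le_top le_top).trans
          H1.commutator_le_frattini)) _))
      rw [← comap_top (QuotientGroup.mk' A), ← this, comap_map_eq, QuotientGroup.ker_mk']
    have hc : (zpowers x).IsComplement' A := isComplement'_of_disjoint_and_mul_eq_univ hdis (by
      rw [← mul_normal, h4, coe_top])
    refine ⟨x, A, p, hp, inferInstance, Ac, ⟨k, hk⟩, hA, hc, ?_, fun a ha a1 hxa => a1 ?_⟩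
    · refine (centralizer_eq_top_iff_subset.trans Set.singleton_subset_iff).1 ?_
      rw [eq_top_iff, ← h1]
      exact sup_le (hGM.trans fun m hm => mem_centralizer_singleton_iff.2 (congrArg Subtype.val
        (Mc.is_comm.comm ⟨m, hm⟩ ⟨_, h2⟩))) (zpowers_le.2 (mem_centralizer_singleton_iff.2 (Commute.self_pow x p)))
    · letI : CommGroup A := { (inferInstance : Group A) with mul_comm := Ac.is_comm.comm }
      have h5 : centralizer {a} = ⊤ := eq_top_iff.2 (h4.ge.trans (sup_le (zpowers_le.2 (mem_centralizer_singleton_iff.2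
        (mul_inv_eq_iff_eq_mul.1 hxa))) fun m hm => mem_centralizer_singleton_iff.2 (congrArg Subtype.val
        (Ac.is_comm.comm ⟨m, hm⟩ ⟨_, ha⟩))))
      have h6 := MonoidHom.transfer_eq_pow (MonoidHom.id A) a fun j g _ => by
        have : Commute g a := mem_centralizer_singleton_iff.1 (h5.ge (mem_top g))
        rw [mul_assoc, ← (this.pow_right j).eq, inv_mul_cancel_left]
      have h7 : (MonoidHom.transfer (MonoidHom.id A)).ker = ⊤ := eq_top_iff.2 (h1.ge.trans (sup_le
        (Abelianization.commutator_subset_ker _) (zpowers_le.2 (orderOf_eq_one_iff.1 (Nat.eq_one_of_dvd_coprimes hco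
          (hk ▸ orderOf_map_dvd _ x) (orderOf_dvd_natCard _))))))
      rw [h7.ge (mem_top a)] at h6
      have h8 : a ^ A.index = 1 := (congrArg Subtype.val h6).symm
      rw [hc.index_eq_card, Nat.card_zpowers, hk] at h8
      exact orderOf_eq_one_iff.1 (Nat.eq_one_of_dvd_coprimes hco (orderOf_dvd_of_pow_eq_one h8) (A.orderOf_dvd_natCard ha))
  rintro ⟨x, A, p, hp, hA, Ac, ⟨k, hk⟩, -, hc, hz, hf⟩ H hH
  have cm : ∀ a ∈ A, ∀ b ∈ A, Commute a b := fun a ha b hb => congrArg Subtype.val (Ac.is_comm.comm ⟨a, ha⟩ ⟨b, hb⟩)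
  obtain ⟨h, hh, i, a, ha, hi, rfl⟩ : ∃ h ∈ H, ∃ (i : ℤ) (a : G), a ∈ A ∧ ¬ (p : ℤ) ∣ i ∧ x ^ i * a = h := by
    by_contra h0
    have h1 : ∀ h ∈ H, ∃ z ∈ center G, ∃ a ∈ A, h = z * a := fun h hh => by
      obtain ⟨⟨⟨_, i, rfl⟩, a⟩, rfl⟩ := hc.2 h
      by_cases hi : (p : ℤ) ∣ i
      · obtain ⟨j, rfl⟩ := hi
        exact ⟨_, zpow_mem hz j, a, a.2, by simp [zpow_mul]⟩
      · exact absurd ⟨_, hh, i, a, a.2, hi, rfl⟩ h0
    refine hH ⟨⟨fun u v => Subtype.ext ?_⟩⟩
    obtain ⟨z, hz, a, ha, e⟩ := h1 u u.2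
    obtain ⟨w, hw, b, hb, e'⟩ := h1 v v.2
    have c1 : ∀ g, Commute z g := fun g => (mem_center_iff.1 hz g).symm
    have c2 : ∀ g, Commute g w := fun g => mem_center_iff.1 hw g
    have : Commute (z * a) (w * b) := (c1 _).mul_left ((c2 _).mul_right (cm a ha b hb))
    rw [coe_mul, coe_mul, e, e', this.eq]
  set h := x ^ i * a
  have fp : ∀ b ∈ A, Commute b h → b = 1 := fun b hb e => by
    by_contra b1
    have : Commute b (x ^ i) := by simpa [h] using e.mul_right (cm b hb a ha).inv_right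
    obtain ⟨j, hj⟩ := gen hp hk hi
    exact hf b hb b1 (mul_inv_eq_iff_eq_mul.2 (hj ▸ (this.zpow_right j).symm))
  have h4 : zpowers h ⊔ A = ⊤ := eq_top_iff.2 (hc.sup_eq_top.ge.trans (sup_le (zpowers_le.2 (zpowers_le.2 (by
    simpa [h] using (zpowers h ⊔ A).mul_mem (mem_sup_left (mem_zpowers h)) (mem_sup_right (A.inv_mem ha)))
    (gen hp hk hi))) le_sup_right))
  refine le_antisymm (fun g hg => ?_) le_normalizer
  obtain ⟨u, hu, c, hc', rfl⟩ := mem_sup_of_normal_right.1 (h4.ge (mem_top g))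
  have hu' := zpowers_le.2 hh hu
  have hcN : c ∈ normalizer (H : Set G) := by simpa using mul_mem (inv_mem (le_normalizer hu')) hg
  have mA : ∀ b ∈ A, b * h * b⁻¹ * h⁻¹ ∈ A := fun b hb => by
    simpa [mul_assoc] using A.mul_mem hb (hA.conj_mem _ (A.inv_mem hb) h)
  have inj : ∀ b ∈ A, ∀ d ∈ A, b * h * b⁻¹ * h⁻¹ = d * h * d⁻¹ * h⁻¹ → b = d := fun b hb d hd e => by
    have := fp _ (A.mul_mem (A.inv_mem hd) hb) (by
      calc d⁻¹ * b * h = d⁻¹ * (b * h * b⁻¹ * h⁻¹) * h * b := by group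
        _ = h * (d⁻¹ * b) := by rw [e]; group)
    exact (inv_mul_eq_one.1 this).symm
  obtain ⟨b, hb⟩ := Finite.surjective_of_injective (f := fun b : ↥(H ⊓ A) => (⟨b * h * (b : G)⁻¹ * h⁻¹,
    H.mul_mem (H.mul_mem (H.mul_mem b.2.1 hh) (H.inv_mem b.2.1)) (H.inv_mem hh), mA _ b.2.2⟩ : ↥(H ⊓ A)))
    (fun b d e => Subtype.ext (inj _ b.2.2 _ d.2.2 (congrArg Subtype.val e)))
    ⟨c * h * c⁻¹ * h⁻¹, H.mul_mem ((mem_normalizer_iff.1 hcN h).1 hh) (H.inv_mem hh), mA c hc'⟩
  exact H.mul_mem hu' (inj _ b.2.2 _ hc' (congrArg Subtype.val hb) ▸ b.2.1)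

end Cfsg.Agent.S4071
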