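import Cfsg.Statements.S4072
import Cfsg.Agent.H1.Tr
import Cfsg.Agent.H1.KPi
import Cfsg.Agent.H9.Stab
import Cfsg.Agent.L.PG2

set_option autoImplicit false
open Cfsg

namespace Cfsg.Agent.S4072

open Subgroup
open scoped commutatorElement
theorem comm_le {G : Type*} [Group G] {H K : Subgroup G} (h : H ≤ K) (hc : IsMulCommutative K) : IsMulCommutative H :=
  ⟨⟨fun a b => Subtype.ext (congrArg Subtype.val (hc.is_comm.comm ⟨a, h a.2⟩ ⟨b, h b.2⟩) :)⟩⟩
theorem lemL {G : Type*} [Group G] [Finite G] [IsSimpleGroup G] (hs : ¬ Group.IsSolvable G) {p : ℕ} [Fact p.Prime]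
    {H : Subgroup G} (hH : IsPGroup p H) (h0 : H ≠ ⊥) (hc : IsMulCommutative H) : normalizer (H : Set G) ≠ H := by
  intro hn
  obtain ⟨P, hP⟩ := hH.exists_le_sylow
  have e : H = P := by
    by_contra h
    have := H9.lt_inf_normalizer_of_p P.isPGroup' (lt_of_le_of_ne hP h)
    rw [hn] at this
    exact this.not_ge inf_le_right
  have h1 := H1.hasNPC_of_norm_le P (by rw [← e, hn]; exact H.le_centralizer)
  have h2 : p ∣ Nat.card G := by
    obtain ⟨k, hk⟩ := IsPGroup.iff_card.mp hH
    have : k ≠ 0 := by rintro rfl; exact h0 (card_eq_one.mp (by simpa using hk))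
    exact (dvd_pow_self p this).trans (hk ▸ card_subgroup_dvd_card H)
  haveI := (H1.isPGroup_of_hasNPC_of_simple h1 h2).isNilpotent
  exact hs inferInstance

/-- A finite group in which every non-abelian subgroup is self-normalizing is solvable or simple. -/
theorem result {G : Type*} [Group G] [Finite G] (hS : ∀ H : Subgroup G, ¬ IsMulCommutative H → Subgroup.normalizer (H : Set G) = H) :
    Group.IsSolvable G ∨ IsSimpleGroup G := by
  by_contra hcon
  push Not at hcon
  obtain ⟨hs, hsi⟩ := hcon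
  haveI : Nontrivial G := by
    by_contra h
    rw [not_nontrivial_iff_subsingleton] at h
    exact hs inferInstance
  have hab : ∀ N : Subgroup G, N.Normal → N ≠ ⊤ → IsMulCommutative N := by
    intro N hN h
    by_contra h'
    exact h ((hS N h').symm.trans (normalizer_eq_top N))
  obtain ⟨N0, n0, h01, h02⟩ : ∃ N : Subgroup G, N.Normal ∧ N ≠ ⊥ ∧ N ≠ ⊤ := by
    by_contra h
    push Not at h
    exact hsi ⟨fun N hN => or_iff_not_imp_left.2 (h N hN)⟩
  obtain ⟨N, hN0, ⟨hN, hNt⟩, hmax⟩ := Finite.exists_le_maximal (p := fun N : Subgroup G => N.Normal ∧ N ≠ ⊤) ⟨n0, h02⟩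
  have hN1 : N ≠ ⊥ := fun h => h01 (le_bot_iff.mp (h ▸ hN0))
  have hNc := hab N hN hNt
  let π := QuotientGroup.mk' N
  have hπ : Function.Surjective π := QuotientGroup.mk'_surjective N
  have hker : ∀ K : Subgroup (G ⧸ N), N ≤ K.comap π := fun K x hx => by
    rw [mem_comap, QuotientGroup.mk'_apply, (QuotientGroup.eq_one_iff x).2 hx]; exact one_mem _
  haveI : Nontrivial (G ⧸ N) := QuotientGroup.nontrivial_iff.2 hNt
  haveI : IsSimpleGroup (G ⧸ N) := ⟨fun K hK => by
    by_cases h : K.comap π = ⊤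
    · right; exact comap_injective hπ (h.trans (comap_top π).symm)
    · left
      have := hmax ⟨hK.comap π, h⟩ (hker K)
      rw [← map_comap_eq_self_of_surjective hπ K, Subgroup.map_eq_bot_iff, QuotientGroup.ker_mk']
      exact this⟩
  have hq : ¬ Group.IsSolvable (G ⧸ N) := fun h => by
    haveI : Group.IsSolvable N := isSolvable_of_comm hNc.is_comm.comm
    exact hs (solvable_of_ker_le_range N.subtype π (by simp [π]))
  have key : ∀ (p : ℕ) [Fact p.Prime] (K : Subgroup (G ⧸ N)), IsPGroup p K → K ≠ ⊥ → IsMulCommutative K →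
      IsMulCommutative (K.comap π) := by
    intro p _ K h1 h2 h3
    by_contra h
    have := hS _ h
    rw [← comap_normalizer_eq_of_surjective _ hπ] at this
    exact lemL hq h1 h2 h3 (comap_injective hπ this)
  have hZ : N ≤ center G := by
    have hC : centralizer (N : Set G) = ⊤ := by
      by_contra h
      have h1 := hmax ⟨inferInstance, h⟩ N.le_centralizer
      obtain ⟨p, hp, hd⟩ := Nat.exists_prime_and_dvd (Finite.one_lt_card (α := G ⧸ N)).ne'
      haveI := Fact.mk hp
      obtain ⟨x, hx⟩ := exists_prime_orderOf_dvd_card' p hd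
      have hx1 : x ≠ 1 := by rintro rfl; exact hp.one_lt.ne (by simpa using hx)
      have h2 := key p (zpowers x) (IsPGroup.of_card (n := 1) (by rw [Nat.card_zpowers, hx, pow_one]))
        (by rwa [Ne, zpowers_eq_bot]) inferInstance
      obtain ⟨y, rfl⟩ := hπ x
      have : y ∈ N := h1 fun n hn => congrArg Subtype.val (h2.is_comm.comm ⟨n, hker _ hn⟩ ⟨y, mem_zpowers _⟩)
      exact hx1 ((QuotientGroup.eq_one_iff y).2 this)
    intro n hn
    rw [mem_center_iff]
    intro g
    exact ((hC ▸ mem_top g : g ∈ centralizer (N : Set G)) n hn).symm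
  have hG' : commutator G = ⊤ := by
    by_contra h
    haveI : Group.IsSolvable (commutator G) := isSolvable_of_comm (hab _ inferInstance h).is_comm.comm
    haveI : Group.IsSolvable (Abelianization G) := isSolvable_of_comm mul_comm
    exact hs (solvable_of_ker_le_range (commutator G).subtype Abelianization.of (by simp))
  obtain ⟨p, hp, hd⟩ := Nat.exists_prime_and_dvd (card_eq_one.not.2 hN1)
  haveI := Fact.mk hp
  obtain ⟨P⟩ : Nonempty (Sylow p G) := inferInstance
  have hT := H1.sylow_inf_commutator_inf_center P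
  rw [hG', inf_top_eq] at hT
  have hPc : ¬ IsMulCommutative (P : Subgroup G) := by
    intro h
    obtain ⟨z, hz⟩ := exists_prime_orderOf_dvd_card' p hd
    have hz' : orderOf (z : G) = p := by rw [Subgroup.orderOf_coe, hz]
    haveI : (zpowers (z : G)).Normal := ⟨fun n hn g => by
      rw [mem_center_iff.1 (zpowers_le.2 (hZ z.2) hn) g]; simpa using hn⟩
    have h1 : zpowers (z : G) ≤ P := IsPGroup.le_sylow_of_normal
      (IsPGroup.of_card (n := 1) (by rw [Nat.card_zpowers, hz', pow_one])) P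
    have h2 := hT ⟨h1 (mem_zpowers _), hZ z.2⟩
    rw [commutator_eq_bot_iff_le_centralizer.2 (Subgroup.le_centralizer _), mem_bot] at h2
    rw [h2] at hz'
    exact hp.one_lt.ne (by simpa using hz')
  have hNP : N ≤ P := by rw [← hS _ hPc]; exact hZ.trans (center_le_normalizer _)
  have hN' : N ≤ ⁅(P : Subgroup G), (P : Subgroup G)⁆ := (le_inf hNP hZ).trans hT
  have hsub : ∀ K : Subgroup G, K ≤ P → ¬ IsMulCommutative K → (P : Subgroup G) ≤ K := by
    intro K h1 h2
    by_contra h
    have := H9.lt_inf_normalizer_of_p P.isPGroup' (lt_of_le_not_ge h1 h)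
    rw [hS K h2] at this
    exact this.not_ge inf_le_right
  have hPhi : L.Phi (P : Subgroup G) ≤ centralizer ((P : Subgroup G) : Set G) := by
    intro f hf g hg
    by_cases h : IsMulCommutative ↥(L.Phi (P : Subgroup G) ⊔ zpowers g)
    · exact congrArg Subtype.val (h.is_comm.comm ⟨g, mem_sup_right (mem_zpowers g)⟩ ⟨f, mem_sup_left hf⟩)
    · have h1 := H9.le_of_Phi_sup (zpowers_le.2 hg) (hsub _ (sup_le (L.Phi_le _) (zpowers_le.2 hg)) h)
      exact absurd (comm_le h1 inferInstance) hPc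
  obtain ⟨x, hx, y, hy, hxy⟩ : ∃ x ∈ (P : Subgroup G), ∃ y ∈ (P : Subgroup G), x * y ≠ y * x := by
    by_contra h
    push Not at h
    exact hPc ⟨⟨fun a b => Subtype.ext (h a a.2 b b.2)⟩⟩
  have hcz : ∀ u ∈ (P : Subgroup G), ∀ v ∈ (P : Subgroup G), ∀ w ∈ (P : Subgroup G), w * ⁅u, v⁆ * w⁻¹ = ⁅u, v⁆ := by
    intro u hu v hv w hw
    rw [hPhi (L.commutator_le_Phi P.isPGroup' (commutator_mem_commutator hu hv)) w hw]; group
  have hgen : ∀ S : Set G, S ⊆ P → (∀ s ∈ S, ⁅x, s⁆ ∈ zpowers ⁅x, y⁆) → (∀ s ∈ S, ⁅y, s⁆ ∈ zpowers ⁅x, y⁆) →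
      ∀ u ∈ (P : Subgroup G), ∀ s ∈ S, ⁅u, s⁆ ∈ zpowers ⁅x, y⁆ := by
    intro S hSP h1 h2
    let A : Subgroup G :=
      { carrier := {u | u ∈ (P : Subgroup G) ∧ ∀ s ∈ S, ⁅u, s⁆ ∈ zpowers ⁅x, y⁆}
        one_mem' := ⟨one_mem _, fun s _ => by simp⟩
        mul_mem' := fun {a b} ha hb => ⟨mul_mem ha.1 hb.1, fun s hs => by
          have : ⁅a * b, s⁆ = a * ⁅b, s⁆ * a⁻¹ * ⁅a, s⁆ := by simp only [commutatorElement_def]; group
          rw [this, hcz b hb.1 s (hSP hs) a ha.1]
          exact mul_mem (hb.2 s hs) (ha.2 s hs)⟩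
        inv_mem' := fun {a} ha => ⟨inv_mem ha.1, fun s hs => by
          have : ⁅a⁻¹, s⁆ = (a⁻¹ * ⁅a, s⁆ * a⁻¹⁻¹)⁻¹ := by simp only [commutatorElement_def]; group
          rw [this, hcz a ha.1 s (hSP hs) _ (inv_mem ha.1)]
          exact inv_mem (ha.2 s hs)⟩ }
    intro u hu
    exact (hsub A (fun _ h => h.1) (fun h => hxy (congrArg Subtype.val (h.is_comm.comm ⟨x, hx, h1⟩ ⟨y, hy, h2⟩))) hu).2
  have h1 := hgen {x, y} (by rintro _ (rfl | rfl) <;> assumption)
    (by rintro _ (rfl | rfl) <;> simp) (by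
      intro s hs
      rcases hs with e | e
      · rw [e, ← commutatorElement_inv x y]; exact inv_mem (mem_zpowers _)
      · rw [Set.mem_singleton_iff.mp e]; simp)
  have h2 := hgen P subset_rfl
    (fun s hs => by rw [← commutatorElement_inv s x]; exact inv_mem (h1 s hs x (by simp)))
    (fun s hs => by rw [← commutatorElement_inv s y]; exact inv_mem (h1 s hs y (by simp)))
  have h3 : ⁅(P : Subgroup G), (P : Subgroup G)⁆ ≤ zpowers ⁅x, y⁆ := commutator_le.2 fun u hu v hv => h2 u hu v hv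
  have h4 : zpowers ⁅x, y⁆ ≤ N := by
    refine (eq_of_le_of_card_ge (hN'.trans h3) ?_).ge
    rw [Nat.card_zpowers]
    exact (orderOf_le_of_pow_eq_one hp.pos (L.commutator_exp_of_Phi P.isPGroup' hPhi (commutator_mem_commutator hx hy))).trans
      (Nat.le_of_dvd Nat.card_pos hd)
  have h5 := key p ((P : Subgroup G).map π) (P.isPGroup'.map π) (fun h => by
      rw [Subgroup.map_eq_bot_iff, QuotientGroup.ker_mk'] at h
      exact hPc (comm_le h hNc)) ⟨⟨by
      rintro ⟨_, a, ha, rfl⟩ ⟨_, b, hb, rfl⟩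
      apply Subtype.ext
      show π a * π b = π b * π a
      rw [← commutatorElement_eq_one_iff_mul_comm, ← map_commutatorElement]
      exact (QuotientGroup.eq_one_iff _).2 (h4 (h2 a ha b hb))⟩⟩
  exact hPc (comm_le (le_comap_map π _) h5)

end Cfsg.Agent.S4072
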