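import Cfsg.Statements.S4073
import Cfsg.Agent.H1.SN
import Cfsg.Agent.S1227
import Cfsg.Agent.S1230
import Cfsg.Agent.H3.Ab5
import Cfsg.Agent.H5.PSL2
import Cfsg.Agent.H5.SL2Tor

set_option autoImplicit false
open Cfsg

namespace Cfsg.Agent.S4073

open H1
open Subgroup H5 in
theorem sn_pg {F : Type} [Field F] [Fintype F] [CharP F 2] [IsSimpleGroup (PG F)] {n : ℕ}
    (hF : Fintype.card F = 2 ^ n) (hp : (2 ^ n - 1).Prime) : SN (PG F) := by
  intro H hH
  refine le_antisymm ?_ le_normalizer
  set K := normalizer (H : Set (PG F)) with hK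
  by_cases hK1 : PS F ≤ K
  · rw [PS_eq_top (by rw [hF]; exact (Nat.even_pow' (by rintro rfl; exact absurd hp (by decide))).2 even_two), top_le_iff,
      normalizer_eq_top_iff] at hK1
    rcases hK1.eq_bot_or_eq_top with e | e
    · exact absurd (e ▸ inferInstance) hH
    · rw [e]; exact le_top
  have hHK : H ≤ K := le_normalizer
  obtain ⟨a, ha, b, hb, hab⟩ : ∃ a ∈ H, ∃ b ∈ H, a * b ≠ b * a := by
    by_contra hc
    push Not at hc
    exact hH (isMulCommutative_of_comm hc)
  rcases dickson_proper 2 hK1 with ⟨x, hx⟩ | ⟨m, T, D, hT, hD⟩ | h | h | h | ⟨c, k0, h1, h2, -⟩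
  · have hB : K ≤ MulAction.stabilizer (PG F) x := hx
    have hu : a * b * a⁻¹ * b⁻¹ ∈ H ⊓ UP x := ⟨H.mul_mem (H.mul_mem (H.mul_mem ha hb) (H.inv_mem ha))
      (H.inv_mem hb), comm_mem_UP (hx a (hHK ha)) (hx b (hHK hb))⟩
    have hu1 : a * b * a⁻¹ * b⁻¹ ≠ 1 := fun e => hab (by
      rw [mul_inv_eq_one, mul_inv_eq_iff_eq_mul] at e; exact e)
    have hd : Nat.card H ∣ 2 ^ n * (2 ^ n - 1) := by
      rw [← hF, ← card_stab x]; exact card_dvd_of_le (hHK.trans hB)
    have hr : 2 ^ n - 1 ∣ Nat.card H := by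
      by_contra hc
      have h2 : Nat.card H ∣ 2 ^ n :=
        ((hp.coprime_iff_not_dvd.2 hc).symm).dvd_of_dvd_mul_right hd
      have h3 : ∀ g ∈ H, g ∈ UP x := fun g hg => mem_UP_of_pow 2 (hx g (hHK hg)) (n := n)
        (orderOf_dvd_iff_pow_eq_one.1 ((orderOf_dvd_card_of_mem hg).trans h2))
      exact hab (UP_comm (h3 a ha) (h3 b hb))
    haveI := Fact.mk hp
    obtain ⟨⟨r, hrH⟩, hr⟩ := exists_prime_orderOf_dvd_card' (G := H) _ hr
    rw [Subgroup.orderOf_mk] at hr
    have hcop : (2 ^ n - 1).Coprime (2 ^ n) := by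
      have := Nat.one_le_two_pow (n := n)
      rw [show 2 ^ n = (2 ^ n - 1) + 1 by omega, Nat.add_sub_cancel]
      simp
    have hUc : Nat.card (UP x) = 2 ^ n := by rw [card_UP, Nat.card_eq_fintype_card, hF]
    have hf : Fpf (zpowers r) (H ⊓ UP x) := by
      rw [fpf_iff]
      intro y hy k hk e
      by_contra hc
      push Not at hc
      have : y ∈ UP x := centralizer_UP hk.2 hc.2 ▸ mem_centralizer_singleton_iff.2 e
      have h3 : y ∈ zpowers r ⊓ UP x := ⟨hy, this⟩
      rw [H1.inf_eq_bot_of_coprime (by rwa [Nat.card_zpowers, hr, hUc])] at h3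
      exact hc.1 h3
    have hn : zpowers r ≤ normalizer ((H ⊓ UP x : Subgroup (PG F)) : Set (PG F)) :=
      zpowers_le.2 (le_normalizer_inf (A := K) le_rfl (by rw [normalizer_UP]; exact hB) (hHK hrH))
    have h4 := hf.card_dvd hn
    rw [Nat.card_zpowers, hr] at h4
    have h5 : 1 < Nat.card (H ⊓ UP x : Subgroup (PG F)) :=
      (one_lt_card_iff_ne_bot _).2 fun e => hu1 (e.le hu)
    have h6 := Nat.le_of_dvd (by omega) h4
    have h7 : Nat.card (H ⊓ UP x : Subgroup (PG F)) ∣ 2 ^ n := hUc ▸ card_dvd_of_le inf_le_right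
    have h8 : Nat.card (H ⊓ UP x : Subgroup (PG F)) = 2 ^ n := by
      have := Nat.le_of_dvd (Nat.two_pow_pos n) h7
      omega
    have h9 : 2 ^ n * (2 ^ n - 1) ∣ Nat.card H := hcop.symm.mul_dvd_of_dvd_of_dvd
      (h8 ▸ card_dvd_of_le inf_le_left) (hr ▸ orderOf_dvd_card_of_mem hrH)
    rw [eq_of_le_of_card_eq (hHK.trans hB) (by rw [card_stab, hF]; exact Nat.dvd_antisymm hd h9)]
    exact hB
  · obtain ⟨s, hs, hsT⟩ : ∃ s ∈ H, s ∉ T := by
      by_contra hc
      push Not at hc
      exact hab (hT.comm (hc a ha) (hc b hb))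
    have key : ∀ k ∈ K, k ∈ T → k ∈ H := by
      intro k hk hkT
      have e1 := hT.inv s (hD (hHK hs)) hsT
      have e2 := hT.inv (k * s) (D.mul_mem (hD hk) (hD (hHK hs))) fun h => hsT ((T.mul_mem_cancel_left hkT).1 h)
      have e3 : k * s * k⁻¹ * s⁻¹ = k ^ 2 := by
        have e4 : k⁻¹ = s * k * s := inv_eq_of_mul_eq_one_right (by rw [← e2]; group)
        calc k * s * k⁻¹ * s⁻¹ = k * (s * s) * k := by rw [e4]; group
          _ = k ^ 2 := by rw [e1, mul_one, pow_two]
      have h2 : k ^ 2 ∈ H := e3 ▸ H.mul_mem (conj_mem_of_mem_normalizer hk hs) (H.inv_mem hs)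
      have h3 : (2 : ℕ).Coprime (orderOf k) := (Nat.prime_two.coprime_iff_not_dvd).2 fun h =>
        hT.not_dvd 2 (h.trans (hT.orderOf_dvd hkT))
      obtain ⟨j, hj⟩ := exists_pow_eq_self_of_coprime h3
      rw [← hj]; exact H.pow_mem h2 _
    intro k hk
    by_cases hkT : k ∈ T
    · exact key k hk hkT
    · have : k * s ∈ T := by
        have := (mul_mem_iff_of_index_two (H := T.subgroupOf D) hT.idx (a := ⟨k, hD hk⟩)
          (b := ⟨s, hD (hHK hs)⟩)).2 (iff_of_false hkT hsT)
        exact this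
      exact (H.mul_mem_cancel_right hs).1 (key _ (K.mul_mem hk (hHK hs)) this)
  · exact absurd (by decide) h.1
  · exact absurd (by decide) h.1
  · exact absurd h.1 (by decide)
  · exfalso
    haveI := Fintype.ofFinite k0
    have h3 : Nat.card k0 - 1 ∣ 2 ^ n - 1 := by
      rw [← hF, ← Nat.card_eq_fintype_card, ← Nat.card_units, ← Nat.card_units]
      exact card_dvd_of_injective (Units.map k0.subtype.toMonoidHom) (Units.map_injective k0.subtype.injective)
    rcases (Nat.dvd_prime hp).1 h3 with h4 | h4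
    · omega
    · apply h1
      have : Nat.card k0.toAddSubgroup = Nat.card F := by
        have := Nat.one_le_two_pow (n := n)
        rw [Nat.card_eq_fintype_card (α := F), hF]
        show Nat.card k0 = _
        omega
      rw [eq_top_iff]
      intro y _
      exact (AddSubgroup.eq_top_of_card_eq _ this).ge (AddSubgroup.mem_top y)

/-- Let G be a finite non-abelian simple group. Every non-abelian subgroup of G is self-normalizing if and only if G is isomorphic to PSL₂(2ⁿ) for some n ≥ 2 with 2ⁿ − 1 prime (this includes the alternating group of degree 5 as PSL₂(4)). -/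
theorem result {G : Type*} [Group G] [Finite G] [IsSimpleGroup G]
    (hna : ¬ IsMulCommutative G) :
    (∀ H : Subgroup G, ¬ IsMulCommutative H → Subgroup.normalizer (H : Set G) = H) ↔
    ∃ n : ℕ, 2 ≤ n ∧ (2 ^ n - 1).Prime ∧ Nonempty (G ≃* Matrix.ProjectiveSpecialLinearGroup (Fin 2) (GaloisField 2 n)) := by
  have ns : ¬ Group.IsSolvable G := fun e => hna ⟨⟨IsSimpleGroup.comm_iff_isSolvable.2 e⟩⟩
  constructor
  · intro h
    have h : SN G := h
    obtain ⟨T⟩ : Nonempty (Sylow 2 G) := inferInstance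
    have hn : ¬ Cfsg.HasNormalPComplement 2 G := by
      rintro ⟨P, N, hN, hc⟩
      rcases hN.eq_bot_or_eq_top with e | e
      · have := hc.sup_eq_top
        rw [e, bot_sup_eq] at this
        exact ns (solvable_of_normal_sylow_two P (this ▸ inferInstance))
      · have := hc.disjoint
        rw [e, top_disjoint] at this
        exact ns (solvable_of_normal_sylow_two P (this ▸ inferInstance))
    have hnc : ∀ T : Sylow 2 G, ¬ IsCyclic (T : Subgroup G) := fun T e => ns (solvable_of_cyclic_sylow_two T e)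
    have hnn : ¬ (T : Subgroup G).Normal := fun e => ns (solvable_of_normal_sylow_two T e)
    have hab : ∀ t : G, orderOf t = 2 → IsMulCommutative (Subgroup.centralizer ({t} : Set G)) := by
      intro t ht
      obtain ⟨P, hP⟩ := (IsPGroup.of_card (p := 2) (G := Subgroup.zpowers t) (n := 1)
        (by rw [Nat.card_zpowers, ht, pow_one])).exists_le_sylow
      exact h.cent_comm P (h.sylow_comm hn P) (hnc P) (hP (Subgroup.mem_zpowers t)) (by rintro rfl; simp at ht)
    obtain ⟨k, -⟩ := H3.ac_of_sylow (fun t i a b p q => comm_of_mem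
      (hab t (orderOf_eq_prime (by rw [pow_two]; exact i.2) i.1)) (H3.mem_Cz.2 p) (H3.mem_Cz.2 q)) T (hnc T) hnn
    have hZ : Subgroup.center G = ⊥ := (Subgroup.Normal.eq_bot_or_eq_top inferInstance).resolve_right fun e =>
      hna ⟨⟨fun a b => (Subgroup.mem_center_iff.1 (e.ge (Subgroup.mem_top b)) a)⟩⟩
    have hC : ∀ t : G, orderOf t = 2 → IsMulCommutative (Subgroup.centralizer ({t} : Set G)) ∧
        ∀ c ∈ Subgroup.centralizer ({t} : Set G), c ^ 2 = 1 := fun t ht => ⟨hab t ht, fun c hc => by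
      have := H3.AC.sq_center _ G rfl k t ⟨by rintro rfl; simp at ht, by
        have := pow_orderOf_eq_one t; rwa [ht, pow_two] at this⟩ c hc
      rwa [hZ, Subgroup.mem_bot, ← pow_two] at this⟩
    obtain ⟨F, _, _, hF, ⟨e⟩⟩ := Cfsg.Agent.S1230.result T (hnc T) hnn hC
    obtain ⟨n, hn⟩ := T.isPGroup'.exists_card_eq
    have hn2 : 2 ≤ n := by
      by_contra hc
      apply hnc T
      refine isCyclic_of_card_dvd_prime (p := 2) ?_
      rw [hn]
      interval_cases n <;> simp
    haveI := Fintype.ofFinite (GaloisField 2 n)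
    refine ⟨n, hn2, ?_, ⟨e.trans (H5.pslCongr (FiniteField.ringEquivOfCardEq (by
      rw [hF, hn, ← Nat.card_eq_fintype_card, GaloisField.card 2 n (by omega)])))⟩⟩
    obtain ⟨⟨t, htT⟩, ht⟩ := exists_prime_orderOf_dvd_card' (G := T) 2 (hn ▸ dvd_pow_self 2 (by omega))
    rw [Subgroup.orderOf_mk] at ht
    obtain ⟨g, hg⟩ : ∃ g : G, g * t * g⁻¹ ∉ Subgroup.normalizer ((T : Subgroup G) : Set G) := by
      by_contra hc
      push Not at hc
      have h1 : Subgroup.normalClosure {t} ≤ Subgroup.normalizer ((T : Subgroup G) : Set G) := by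
        rw [Subgroup.normalClosure, Subgroup.closure_le]
        intro y hy
        obtain ⟨_, rfl, h2⟩ := Group.mem_conjugatesOfSet_iff.1 hy
        obtain ⟨g, rfl⟩ := isConj_iff.1 h2
        exact hc g
      rcases (Subgroup.normalClosure_normal (s := {t})).eq_bot_or_eq_top with e | e
      · have := Subgroup.subset_normalClosure (s := {t}) rfl
        rw [e] at this
        rw [Subgroup.mem_bot.1 this] at ht
        simp at ht
      · exact hnn (Subgroup.normalizer_eq_top_iff.1 (top_le_iff.1 (e ▸ h1)))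
    obtain ⟨-, h1, -⟩ := Cfsg.Agent.S1227.result T (hnc T) hnn hC _ (by rw [H5.orderOf_conj', ht]) hg
    have hT := h.sylow_comm ‹_› T
    have h2 : Subgroup.centralizer ((T : Subgroup G) : Set G) = T := by
      refine le_antisymm (fun c hc => ?_) (Subgroup.le_centralizer_iff_isMulCommutative.2 hT)
      have h3 := (hC t ht).2 c (Subgroup.mem_centralizer_singleton_iff.2 (hc t htT).symm)
      exact (isSylowIn_top T).le_of_le_normalizer (Q := Subgroup.zpowers c) (IsPGroup.of_card_dvd_pow (n := 1) (by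
        rw [Nat.card_zpowers, pow_one]; exact orderOf_dvd_of_pow_eq_one h3)) le_top
        (Subgroup.zpowers_le.2 (Subgroup.centralizer_le_normalizer _ hc)) (Subgroup.mem_zpowers c)
    have h3 := card_mul_relIndex (Subgroup.le_normalizer (H := (T : Subgroup G)))
    rw [h1] at h3
    have h4 := Nat.eq_of_mul_eq_mul_left Nat.card_pos h3
    have h5 := h.prime_relIndex hT (by
      rw [h2, h4, hn]
      have := Nat.pow_le_pow_right two_pos hn2
      omega)
    rwa [h2, h4, hn] at h5
  · rintro ⟨n, hn, hp, ⟨e⟩⟩ H hH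
    haveI := Fintype.ofFinite (GaloisField 2 n)
    have hF : Fintype.card (GaloisField 2 n) = 2 ^ n := by
      rw [← Nat.card_eq_fintype_card, GaloisField.card 2 n (by omega)]
    let e' : G ≃* H5.PG (GaloisField 2 n) := e.trans ((H5.psEquiv _).trans ((MulEquiv.subgroupCongr
      (H5.PS_eq_top (by rw [hF]; exact (Nat.even_pow' (by omega)).2 even_two))).trans Subgroup.topEquiv))
    haveI := e'.symm.isSimpleGroup
    have := sn_pg hF hp (H.map e'.toMonoidHom) (fun hc => hH (isMulCommutative_of_comm fun x hx y hy =>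
      e'.injective (by
        rw [map_mul, map_mul]
        exact comm_of_mem hc (Subgroup.mem_map_of_mem _ hx) (Subgroup.mem_map_of_mem _ hy))))
    rw [← Subgroup.map_equiv_normalizer_eq] at this
    exact Subgroup.map_injective e'.injective this

end Cfsg.Agent.S4073
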