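import Cfsg.Statements.S4074
import Cfsg.Agent.H1.Q1

set_option autoImplicit false
open Cfsg

namespace Cfsg.Agent.S4074

open H1
open Subgroup DihedralGroup

/-- For n > 2, every non-abelian subgroup of the dihedral group of order 2n is self-normalizing if and only if n = 4 or n is odd. -/
theorem result (n : ℕ) (hn : 2 < n) :
    (∀ H : Subgroup (DihedralGroup n), ¬ IsMulCommutative H → Subgroup.normalizer (H : Set (DihedralGroup n)) = H) ↔
    (n = 4 ∨ Odd n) := by
  have : NeZero n := ⟨by omega⟩
  constructor
  · intro h
    by_contra hc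
    push Not at hc
    obtain ⟨k, rfl⟩ := Nat.not_odd_iff_even.1 hc.2
    let φ := ZMod.castHom (show 2 ∣ k + k from ⟨k, by ring⟩) (ZMod 2)
    let H : Subgroup (DihedralGroup (k + k)) :=
      { carrier := {g | match g with | r i => φ i = 0 | sr i => φ i = 0}
        mul_mem' := by
          rintro (i | i) (j | j) hi hj <;> simp only [Set.mem_setOf_eq, r_mul_r, r_mul_sr, sr_mul_r, sr_mul_sr] at * <;>
            simp only [map_add, map_sub, hi, hj, add_zero, sub_zero]
        one_mem' := map_zero φ
        inv_mem' := by
          rintro (i | i) hi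
          · exact (map_neg φ i).trans (neg_eq_zero.2 hi)
          · exact hi }
    have m1 : ∀ i, r i ∈ H ↔ φ i = 0 := fun _ => Iff.rfl
    have m2 : ∀ i, sr i ∈ H ↔ φ i = 0 := fun _ => Iff.rfl
    have t : φ 2 = 0 := by rw [map_ofNat]; rfl
    have := h H fun c => by
      have e := congrArg Subtype.val (c.1.1 ⟨r 2, t⟩ ⟨sr 0, map_zero φ⟩)
      simp only [coe_mul, r_mul_sr, sr_mul_r, sr.injEq] at e
      have : ((4 : ℕ) : ZMod (k + k)) = 0 := by push_cast; linear_combination -e
      have := Nat.le_of_dvd (by norm_num) ((ZMod.natCast_eq_zero_iff _ _).1 this)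
      omega
    have m : r 1 ∈ H := this ▸ mem_normalizer_fintype fun x hx => by
      rcases x with i | i
      · simpa using hx
      · change sr _ ∈ H
        rw [m2]
        have : φ i = 0 := hx
        simp only [map_add, map_sub, map_neg, map_one, this]; rfl
    rw [m1, map_one] at m
    exact one_ne_zero m
  · intro h H hH
    obtain ⟨i, hi⟩ : ∃ i, sr i ∈ H := by
      by_contra hc
      push Not at hc
      refine hH ⟨⟨fun ⟨a, ha⟩ ⟨b, hb⟩ => Subtype.ext ?_⟩⟩
      rcases a with a | a
      · rcases b with b | b
        · simp [add_comm]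
        · exact absurd hb (hc b)
      · exact absurd ha (hc a)
    have key : ∀ j, r j ∈ normalizer (H : Set (DihedralGroup n)) → r j ∈ H := fun j hj => by
      have m : r (2 * j) ∈ H := by
        have := H.mul_mem ((mem_normalizer_iff.1 hj _).1 hi) hi
        simp only [r_mul_sr, inv_r, sr_mul_r, sr_mul_sr] at this
        rwa [show i - (i - j + -j) = 2 * j by ring] at this
      rcases h with rfl | ⟨k, hk⟩
      · obtain ⟨l, hl, h2⟩ : ∃ l, r l ∈ H ∧ 2 * l ≠ 0 := by
          by_contra hc
          push Not at hc
          refine hH ⟨⟨fun ⟨a, ha⟩ ⟨b, hb⟩ => Subtype.ext ?_⟩⟩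
          rcases a with a | a <;> rcases b with b | b <;>
            simp only [coe_mul, r_mul_r, r_mul_sr, sr_mul_r, sr_mul_sr, r.injEq, sr.injEq]
          · ring
          · linear_combination -hc a ha
          · linear_combination hc b hb
          · linear_combination hc _ (H.mul_mem ha hb)
        have : ∀ l j : ZMod 4, 2 * l ≠ 0 → ∃ m : Fin 4, (r j : DihedralGroup 4) = r l ^ (m : ℕ) := by decide
        obtain ⟨m, e⟩ := this l j h2
        exact e ▸ H.pow_mem hl _
      · have := H.pow_mem m (k + 1)
        rwa [r_pow, show 2 * j * ((k + 1 : ℕ) : ZMod n) = j by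
          have : ((2 * k + 1 : ℕ) : ZMod n) = 0 := by rw [← hk, ZMod.natCast_self]
          push_cast at this ⊢; linear_combination j * this] at this
    refine le_antisymm (fun g hg => ?_) le_normalizer
    rcases g with j | j
    · exact key j hg
    · have := H.mul_mem hi (key _ (mul_mem (le_normalizer hi) hg))
      rwa [sr_mul_r, add_sub_cancel] at this

end Cfsg.Agent.S4074
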