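import Cfsg.Statements.S4075
import Cfsg.Agent.H1.Misc2

set_option autoImplicit false
open Cfsg

namespace Cfsg.Agent.S4075

open H1

/-- Let G be a finite nilpotent group. Every non-abelian subgroup of G is self-normalizing if and only if G is abelian or G is a minimal non-abelian p-group for some prime p (non-abelian of prime-power order with every proper subgroup abelian). -/
theorem result {G : Type*} [Group G] [Finite G]
    [Group.IsNilpotent G] :
    (∀ H : Subgroup G, ¬ IsMulCommutative H → Subgroup.normalizer (H : Set G) = H) ↔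
    (IsMulCommutative G ∨ (IsPrimePow (Nat.card G) ∧ ¬ IsMulCommutative G ∧ ∀ H : Subgroup G, H ≠ ⊤ → IsMulCommutative H)) := by
  constructor
  · intro h
    by_cases hG : IsMulCommutative G
    · exact Or.inl hG
    right
    have h1 : ∀ H : Subgroup G, H ≠ ⊤ → IsMulCommutative H := by
      intro H hH
      by_contra h2
      have := lt_normalizer_inf (L := ⊤) inferInstance (lt_top_iff_ne_top.2 hH)
      rw [h H h2, inf_top_eq] at this
      exact lt_irrefl _ this
    refine ⟨?_, hG, h1⟩
    by_contra h2
    apply hG
    have h3 : ∀ (p : ℕ) [Fact p.Prime] (P : Sylow p G), (P : Subgroup G) ≤ Subgroup.center G := by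
      intro p hp P x hx
      have hP : (P : Subgroup G) ≠ ⊤ := fun e => by
        obtain ⟨k, hk⟩ := L.exists_card_eq_pow P.isPGroup'
        rw [e, Subgroup.card_top] at hk
        rcases k with _ | k
        · rw [pow_zero, Nat.card_eq_one_iff_unique] at hk
          haveI := hk.1
          exact hG ⟨⟨fun a b => Subsingleton.elim _ _⟩⟩
        · exact h2 (hk ▸ hp.out.isPrimePow.pow (Nat.succ_ne_zero k))
      have : Subgroup.centralizer {x} = ⊤ := by
        refine eq_top_of_forall_sylow_le fun q hq _ => ?_
        by_cases e : q = p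
        · subst e; exact ⟨P, H9.le_centralizer_singleton_iff.2 (L.le_centralizer_of_comm (h1 _ hP) hx)⟩
        · haveI := Fact.mk hq
          obtain ⟨Q⟩ := (inferInstance : Nonempty (Sylow q G))
          refine ⟨Q, H9.le_centralizer_singleton_iff.2 (le_centralizer_of_coprime_of_nilpotent (L := ⊤)
            inferInstance le_top le_top (IsPGroup.coprime_card_of_ne p q (Ne.symm e) _ _ P.isPGroup' Q.isPGroup') hx)⟩
      rw [Subgroup.mem_center_iff]
      exact fun g => Subgroup.mem_centralizer_singleton_iff.1 (this ▸ Subgroup.mem_top g)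
    have h4 : Subgroup.center G = ⊤ := eq_top_of_forall_sylow_le fun q hq _ => by
      haveI := Fact.mk hq
      obtain ⟨Q⟩ := (inferInstance : Nonempty (Sylow q G))
      exact ⟨Q, h3 q Q⟩
    exact ⟨⟨fun a b => Subgroup.mem_center_iff.1 (h4 ▸ Subgroup.mem_top b) a⟩⟩
  · rintro (h | ⟨-, -, h⟩) H hH
    · exact absurd (isMulCommutative_of_comm fun x _ y _ => h.1.1 x y) hH
    · have : H = ⊤ := by by_contra h2; exact hH (h H h2)
      subst this
      exact top_le_iff.1 Subgroup.le_normalizer

end Cfsg.Agent.S4075
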