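import Cfsg.Statements.S4080
import Mathlib

set_option autoImplicit false
open Cfsg

namespace Cfsg.Agent.S4080

open scoped Pointwise

theorem dvd_of {p : ℕ} [hp : Fact p.Prime] {t : ZMod (p ^ 2)} (h : IsNilpotent t) :
    ∃ s : ZMod (p ^ 2), t = (p : ZMod (p ^ 2)) * s := by
  haveI : NeZero (p ^ 2) := ⟨pow_ne_zero 2 hp.out.ne_zero⟩
  obtain ⟨k, rfl⟩ := ZMod.natCast_zmod_surjective t
  obtain ⟨n, hn⟩ := h
  rw [← Nat.cast_pow, ZMod.natCast_eq_zero_iff] at hn
  obtain ⟨s, rfl⟩ := hp.out.dvd_of_dvd_pow ((dvd_pow_self p two_ne_zero).trans hn)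
  exact ⟨s, by simp⟩

theorem binom {R : Type*} [Ring R] (N : R) (h : N ^ 4 = 0) (n : ℕ) :
    (1 + N) ^ n = 1 + n • N + n.choose 2 • N ^ 2 + n.choose 3 • N ^ 3 := by
  induction n with
  | zero => simp
  | succ n ih =>
    rw [pow_succ, ih, Nat.choose_succ_succ' n 2, Nat.choose_succ_succ' n 1, Nat.choose_one_right]
    simp only [add_mul, mul_add, add_smul, smul_mul_assoc, ← pow_succ, h, one_smul, mul_one, one_mul, smul_zero,
      ← sq]
    abel

theorem key {p : ℕ} [hp : Fact p.Prime] (h3 : 3 < p) (N : Matrix (Fin 2) (Fin 2) (ZMod (p ^ 2)))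
    (h : (1 + N) ^ p = 1) : p • N = 0 := by
  have hpp : (p : ZMod (p ^ 2)) * p = 0 := by rw [← sq, ← Nat.cast_pow, ZMod.natCast_self]
  have hpm : ∀ X : Matrix (Fin 2) (Fin 2) (ZMod (p ^ 2)), p • p • X = 0 := by
    intro X
    rw [← Nat.cast_smul_eq_nsmul (ZMod (p ^ 2)), ← Nat.cast_smul_eq_nsmul (ZMod (p ^ 2)), smul_smul, hpp, zero_smul]
  have h1 : IsNilpotent N := by
    obtain ⟨r, hr⟩ := (Commute.one_left N).exists_add_pow_prime_eq hp.out
    rw [h, one_pow, mul_one] at hr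
    refine ⟨p * 2, ?_⟩
    have e : N ^ p = - (p • (N * r)) := by
      rw [eq_neg_iff_add_eq_zero, nsmul_eq_mul, ← mul_assoc]
      have := hr.symm
      rwa [add_assoc, add_eq_left] at this
    rw [pow_mul, e, neg_sq, sq (p • _), smul_mul_assoc, mul_smul_comm, hpm]
  obtain ⟨t, ht⟩ := dvd_of (Matrix.isNilpotent_trace_of_isNilpotent h1)
  obtain ⟨d, hd⟩ := dvd_of (t := N.det) (by
    obtain ⟨n, hn⟩ := h1
    exact ⟨n, by rw [← Matrix.det_pow, hn, Matrix.det_zero]⟩)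
  have h2 : N ^ 2 = p • (t • N - d • 1) := by
    rw [← Nat.cast_smul_eq_nsmul (ZMod (p ^ 2)), smul_sub, smul_smul, smul_smul, ← ht, ← hd, sq N]
    ext i j
    fin_cases i <;> fin_cases j <;> simp [Matrix.mul_apply, Matrix.trace_fin_two, Matrix.det_fin_two] <;> ring
  have h4 : N ^ 4 = 0 := by
    rw [show 4 = 2 + 2 by rfl, pow_add, h2, smul_mul_assoc, mul_smul_comm, hpm]
  rw [binom N h4] at h
  obtain ⟨a, ha⟩ := hp.out.dvd_choose_self (k := 2) (by omega) (by omega)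
  obtain ⟨b, hb⟩ := hp.out.dvd_choose_self (k := 3) (by omega) (by omega)
  rw [ha, hb, pow_succ N 2, h2, mul_comm p, mul_comm p, mul_smul, mul_smul, smul_mul_assoc, hpm, hpm] at h
  simpa using h

/-- Let p > 3 be a prime and L the direct product of two cyclic groups of order p². Every automorphism of L of order p fixes every element of order p of L. -/
theorem result {p : ℕ} [Fact p.Prime] (hp : 3 < p)
    (a : MulAut (Multiplicative (ZMod (p ^ 2) × ZMod (p ^ 2)))) (ha : orderOf a = p)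
    (x : Multiplicative (ZMod (p ^ 2) × ZMod (p ^ 2))) (hx : orderOf x = p) : a x = x := by
  have hp0 : p.Prime := Fact.out
  have hap : a ^ p = 1 := orderOf_dvd_iff_pow_eq_one.1 ha.dvd
  have hxp : x ^ p = 1 := orderOf_dvd_iff_pow_eq_one.1 hx.dvd
  let φ : MulAut (Multiplicative (ZMod (p ^ 2) × ZMod (p ^ 2))) →*
      Module.End (ZMod (p ^ 2)) (ZMod (p ^ 2) × ZMod (p ^ 2)) :=
    { toFun := fun b => (AddMonoidHom.toMultiplicative.symm b.toMonoidHom).toZModLinearMap (p ^ 2)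
      map_one' := by ext <;> rfl
      map_mul' := fun b c => by ext <;> rfl }
  let e := LinearMap.toMatrixAlgEquiv (Module.Basis.finTwoProd (ZMod (p ^ 2)))
  have h1 := key hp (e (φ a - 1)) (by
    rw [map_sub, map_one, add_sub_cancel, ← map_pow, ← map_pow, hap, map_one, map_one])
  rw [← map_nsmul, map_eq_zero_iff _ e.injective] at h1
  have h2 : p • x.toAdd = 0 := by rw [← toAdd_pow, hxp]; rfl
  have h3 : ∀ u : ZMod (p ^ 2), p • u = 0 → ∃ s : ZMod (p ^ 2), u = p • s := by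
    intro u hu
    haveI : NeZero (p ^ 2) := ⟨pow_ne_zero 2 hp0.ne_zero⟩
    obtain ⟨k, rfl⟩ := ZMod.natCast_zmod_surjective u
    rw [nsmul_eq_mul, ← Nat.cast_mul, ZMod.natCast_eq_zero_iff, sq] at hu
    obtain ⟨s, rfl⟩ := Nat.dvd_of_mul_dvd_mul_left hp0.pos hu
    exact ⟨s, by simp⟩
  obtain ⟨s, hs⟩ := h3 _ (congrArg Prod.fst h2)
  obtain ⟨t, ht⟩ := h3 _ (congrArg Prod.snd h2)
  have h4 : x.toAdd = p • (s, t) := Prod.ext hs ht
  have h5 := congrArg (fun f : Module.End _ _ => f (s, t)) h1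
  simp only [LinearMap.smul_apply, LinearMap.zero_apply] at h5
  rw [← map_nsmul, ← h4, LinearMap.sub_apply, sub_eq_zero] at h5
  exact h5

end Cfsg.Agent.S4080
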