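import Cfsg.Statements.S4081
import Cfsg.Agent.H1.Orb3

set_option autoImplicit false
open Cfsg

namespace Cfsg.Agent.S4081

open H1
theorem mul_version' {p q : ℕ} [hp : Fact p.Prime] [hq : Fact q.Prime] {P : Type*} [CommGroup P] [Finite P]
    [Module (ZMod p) (Additive P)] (hpq : p ≠ q) (t : MulAut P) (h1 : t ^ q = 1)
    (h2 : ∀ u, t u = u → u = 1) :
    (Nontrivial P → (∀ k, 0 < k → k < q → ∃ A : MulAut P, ∀ v, A (t v) = (t ^ k) (A v)) →
      (∀ v w : P, v ≠ 1 → w ≠ 1 → ∃ (A : MulAut P) (k : ℕ), A v = w ∧ 0 < k ∧ k < q ∧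
        ∀ v, A (t v) = (t ^ k) (A v)) → orderOf (p : ZMod q) = q - 1) ∧
    (orderOf (p : ZMod q) = q - 1 → (∀ k, ¬ q ∣ k → ∃ A : MulAut P, ∀ v, A (t v) = (t ^ k) (A v)) ∧
      ∀ v w : P, v ≠ 1 → w ≠ 1 → ∃ A : MulAut P, A v = w ∧ ∀ v, A (t v) = t (A v)) := by
  let L : MulAut P → Additive P ≃ₗ[ZMod p] Additive P := fun A =>
    { MulEquiv.toAdditive A with map_smul' := ZMod.map_smul (MulEquiv.toAdditive A) }
  let T : Module.End (ZMod p) (Additive P) := (L t).toLinearMap
  have hk : ∀ (k : ℕ) (v : Additive P), (T ^ k) v = Additive.ofMul ((t ^ k) v.toMul) := fun k => by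
    induction k with
    | zero => exact fun _ => rfl
    | succ k ih => intro v; rw [pow_succ, pow_succ, Module.End.mul_apply, ih]; rfl
  have e1 : T ^ q = 1 := LinearMap.ext fun v => by rw [hk, h1]; rfl
  have e2 : ∀ v, T v = v → v = 0 := fun v => h2 v.toMul
  refine ⟨fun _ ha hb => orderOf_of_trans hpq e1 e2 (fun k k0 kq => ?_) fun v w hv hw => ?_, fun ho => ?_⟩
  · obtain ⟨A, hA⟩ := ha k k0 kq
    exact ⟨L A, fun v => by rw [hk]; exact hA v.toMul⟩
  · obtain ⟨A, k, h, k0, kq, hA⟩ := hb v.toMul w.toMul hv hw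
    exact ⟨L A, k, h, k0, kq, fun v => by rw [hk]; exact hA v.toMul⟩
  · obtain ⟨ha, hb⟩ := trans_of_orderOf hpq e1 e2 ho
    refine ⟨fun k hk' => ?_, fun v w hv hw => ?_⟩
    · obtain ⟨A, hA⟩ := ha k hk'
      exact ⟨MulEquiv.toAdditive.symm A, fun v => (hA (Additive.ofMul v)).trans (hk _ _)⟩
    · obtain ⟨A, h, hA⟩ := hb (Additive.ofMul v) (Additive.ofMul w) hv hw
      exact ⟨MulEquiv.toAdditive.symm A, h, fun v => hA (Additive.ofMul v)⟩

theorem mul_version {p q : ℕ} [hp : Fact p.Prime] [hq : Fact q.Prime] {P : Type*} [Group P] [Finite P]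
    (hc : IsMulCommutative P) (hP : ∀ u : P, u ^ p = 1) (hpq : p ≠ q) (t : MulAut P) (h1 : t ^ q = 1)
    (h2 : ∀ u, t u = u → u = 1) :
    (Nontrivial P → (∀ k, 0 < k → k < q → ∃ A : MulAut P, ∀ v, A (t v) = (t ^ k) (A v)) →
      (∀ v w : P, v ≠ 1 → w ≠ 1 → ∃ (A : MulAut P) (k : ℕ), A v = w ∧ 0 < k ∧ k < q ∧
        ∀ v, A (t v) = (t ^ k) (A v)) → orderOf (p : ZMod q) = q - 1) ∧
    (orderOf (p : ZMod q) = q - 1 → (∀ k, ¬ q ∣ k → ∃ A : MulAut P, ∀ v, A (t v) = (t ^ k) (A v)) ∧
      ∀ v w : P, v ≠ 1 → w ≠ 1 → ∃ A : MulAut P, A v = w ∧ ∀ v, A (t v) = t (A v)) := by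
  letI : CommGroup P := { mul_comm := fun a b => mul_comm' a b }
  letI : Module (ZMod p) (Additive P) := AddCommGroup.zmodModule fun x => hP x.toMul
  exact mul_version' hpq t h1 h2

open Subgroup in
theorem res_aut {G : Type*} [Group G] [Finite G] {P : Subgroup G} [P.Characteristic] (hP : IsMulCommutative P)
    {x : G} (α : MulAut G) {u : G} (hu : u ∈ P) {k : ℕ} (h : α x = u * x ^ k) :
    ∃ A : MulAut P, (∀ v : P, (A v : G) = α v) ∧
      ∀ v, A (MulAut.conjNormal x v) = (MulAut.conjNormal (H := P) x ^ k) (A v) := by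
  refine ⟨MulAut.characteristic P α, fun _ => rfl, fun v => Subtype.ext ?_⟩
  rw [← map_pow]
  show α (x * v * x⁻¹) = x ^ k * α v * (x ^ k)⁻¹
  have hv : x ^ k * α v * (x ^ k)⁻¹ ∈ P := Normal.conj_mem inferInstance _ (MulAut.characteristic P α v).2 _
  rw [map_mul, map_mul, map_inv, h]
  calc _ = u * (x ^ k * α v * (x ^ k)⁻¹) * u⁻¹ := by group
    _ = _ := by rw [comm_of_mem hP hu hv]; group

/-- Let G be a finite group whose order is not a prime power. Then the automorphism group of G has exactly three orbits on G if and only if there are distinct primes p, q with #G = pⁿ·q (n ≥ 1) such that G has a normal elementary abelian Sylow p-subgroup P, p is a primitive root modulo q (the multiplicative order of p mod q is q − 1), and every element of order q of G acts on P without non-identity fixed points. -/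
theorem result {G : Type*} [Group G] [Finite G] (hnpp : ¬ IsPrimePow (Nat.card G)) (hnt : Nat.card G ≠ 1) :
    Nat.card (MulAction.orbitRel.Quotient (MulAut G) G) = 3 ↔
    ∃ (p q n : ℕ) (_ : Fact p.Prime) (_ : Fact q.Prime), p ≠ q ∧ 1 ≤ n ∧ Nat.card G = p ^ n * q ∧
      (∀ P : Sylow p G, (P : Subgroup G).Normal ∧ Cfsg.IsElementaryAbelian p (P : Subgroup G)) ∧
      orderOf (p : ZMod q) = q - 1 ∧
      ∀ x y : G, orderOf x = q → orderOf y = p → x * y * x⁻¹ ≠ y := by
  classical
  constructor
  · intro h3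
    have h1 := primeFactors_lt_orbits (G := G)
    have h2 : (Nat.card G).primeFactors.card = 2 := by
      have := isPrimePow_iff_card_primeFactors_eq_one.not.1 hnpp
      have h0 : (Nat.card G).primeFactors.card ≠ 0 := fun e => by
        rcases Nat.primeFactors_eq_empty.1 (Finset.card_eq_zero.1 e) with e | e
        · exact Nat.card_pos.ne' e
        · exact hnt e
      omega
    have hpr : ∀ g : G, g ≠ 1 → (orderOf g).Prime := fun g hg => prime_order_of_orbits (by omega) hg
    have hso : ∀ x y : G, orderOf x = orderOf y → ∃ α : MulAut G, α x = y := fun x y => same_orbit (by omega)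
    have hs := solvable_of_primeFactors h2.le
    haveI : Nontrivial G := Finite.one_lt_card_iff_nontrivial.1 (by have := Nat.card_pos (α := G); omega)
    obtain ⟨p, hp, hp0⟩ := exists_pCore_ne_bot (⊤ : Subgroup G) inferInstance top_ne_bot
    rw [inf_top_eq] at hp0
    haveI := Fact.mk hp
    have hord : ∀ (r : ℕ) [Fact r.Prime] (R : Subgroup G), IsPGroup r R → ∀ x ∈ R, x ≠ 1 → orderOf x = r := by
      intro r hr R hR x hx h1
      obtain ⟨k, hk⟩ := hR.exists_card_eq
      exact (Nat.prime_dvd_prime_iff_eq (hpr x h1) hr.out).1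
        ((hpr x h1).dvd_of_dvd_pow (hk ▸ orderOf_dvd_card_of_mem hx))
    have hall : ∀ (R : Subgroup G) [R.Characteristic], IsPGroup p R → R ≠ ⊥ → ∀ x, orderOf x = p → x ∈ R := by
      intro R hRc hR h0 x hx
      obtain ⟨⟨y, hy⟩, hy1⟩ := Subgroup.ne_bot_iff_exists_ne_one.1 h0
      obtain ⟨α, rfl⟩ := hso y x (by rw [hx]; exact hord p R hR y hy fun e => hy1 (Subtype.ext e))
      exact (MulAut.characteristic R α ⟨y, hy⟩).2
    set P := Cfsg.pCore p G with hPd
    have hP : IsPGroup p P := pCore_isPGroup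
    have hsyl : ∀ S : Sylow p G, (S : Subgroup G) = P := fun S => le_antisymm (fun x hx => by
      by_cases h1 : x = 1
      · rw [h1]; exact one_mem _
      · exact hall P hP hp0 x (hord p S S.isPGroup' x hx h1)) (pCore_le_sylow S)
    have hexp : ∀ x ∈ P, x ^ p = 1 := fun x hx => by
      by_cases h1 : x = 1
      · simp [h1]
      · rw [← hord p P hP x hx h1, pow_orderOf_eq_one]
    have hcomm : IsMulCommutative P := by
      haveI : Nontrivial P := (Subgroup.nontrivial_iff_ne_bot P).2 hp0
      haveI := hP.center_nontrivial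
      have h4 := hall ((Subgroup.center P).map P.subtype) ((hP.to_subgroup _).map _) (fun e =>
        (Subgroup.nontrivial_iff_ne_bot _).1 this ((Subgroup.map_eq_bot_iff_of_injective _ P.subtype_injective).1 e))
      refine isMulCommutative_of_comm fun x hx y hy => ?_
      by_cases h1 : y = 1
      · simp [h1]
      obtain ⟨z, hz, rfl⟩ := h4 y (hord p P hP y hy h1)
      exact congrArg Subtype.val (Subgroup.mem_center_iff.1 hz ⟨x, hx⟩)
    obtain ⟨n, hn⟩ := hP.exists_card_eq
    have hn1 : 1 ≤ n := Nat.pos_of_ne_zero fun e => hp0 (Subgroup.card_eq_one.1 (by rw [hn, e, pow_zero]))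
    have hpm : p ∈ (Nat.card G).primeFactors := Nat.mem_primeFactors.2
      ⟨hp, (hn ▸ dvd_pow_self p (by omega) : p ∣ Nat.card P).trans P.card_subgroup_dvd_card, Nat.card_pos.ne'⟩
    obtain ⟨q, hqm, hpq⟩ := Finset.exists_mem_ne (h2 ▸ one_lt_two) p
    have hq := Nat.prime_of_mem_primeFactors hqm
    haveI := Fact.mk hq
    have hpf : ∀ r ∈ (Nat.card G).primeFactors, r = p ∨ r = q := by
      intro r hr
      by_contra hc
      push Not at hc
      have := Finset.two_lt_card.2 ⟨r, hr, p, hpm, q, hqm, hc.1, hc.2, hpq.symm⟩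
      omega
    have hnc : ∀ x y : G, orderOf x = q → orderOf y = p → x * y * x⁻¹ ≠ y := fun x y hx hy e =>
      hpq (by
        rw [← hx, ← hy]
        exact eq_orderOf_of_commute hpr (by rintro rfl; exact hq.one_lt.ne (by simpa using hx))
          (by rintro rfl; exact hp.one_lt.ne (by simpa using hy)) (mul_inv_eq_iff_eq_mul.1 e))
    obtain ⟨x, hx⟩ := exists_prime_orderOf_dvd_card' q (Nat.dvd_of_mem_primeFactors hqm)
    obtain ⟨Q, hQ⟩ := (IsPGroup.of_card (p := q) (G := Subgroup.zpowers x) (n := 1)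
      (by rw [Nat.card_zpowers, hx, pow_one])).exists_le_sylow
    have hf : Fpf (Q : Subgroup G) P := fpf_iff.2 fun a ha b hb e => by
      by_contra hc
      push Not at hc
      exact hnc a b (hord q Q Q.isPGroup' a ha hc.1) (hord p P hP b hb hc.2) (mul_inv_eq_iff_eq_mul.2 e)
    have hQx : (Q : Subgroup G) = Subgroup.zpowers x := le_antisymm (fun y hy => by
      by_cases h1 : y = 1
      · rw [h1]; exact one_mem _
      · exact (pq_of_fpf hp0 Subgroup.le_normalizer_of_normal hf).mem_zpowers_of_pgroup Q.isPGroup' le_rfl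
          (hQ (Subgroup.mem_zpowers x)) hy hx (hord q Q Q.isPGroup' y hy h1)) hQ
    have htop : Subgroup.zpowers x ⊔ P = ⊤ := eq_top_of_forall_sylow_le fun r hr hd => by
      rcases hpf r (Nat.mem_primeFactors.2 ⟨hr, hd, Nat.card_pos.ne'⟩) with rfl | rfl
      · exact ⟨default, (hsyl _).le.trans le_sup_right⟩
      · exact ⟨Q, hQx.le.trans le_sup_left⟩
    refine ⟨p, q, n, ⟨hp⟩, ⟨hq⟩, hpq.symm, hn1, ?_, fun S => ?_, ?_, hnc⟩
    · rw [← Subgroup.card_top, ← htop, card_sup_of_disjoint Subgroup.le_normalizer_of_normal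
        (hQx ▸ hf.inf_eq_bot), Nat.card_zpowers, hx, hn, mul_comm]
    · rw [hsyl S]; exact ⟨inferInstance, hcomm, hexp⟩
    · refine (mul_version hcomm (fun u => Subtype.ext (hexp u u.2)) hpq.symm (MulAut.conjNormal x)
        (by rw [← map_pow, ← hx, pow_orderOf_eq_one, map_one]) fun u e => ?_).1
        ((Subgroup.nontrivial_iff_ne_bot P).2 hp0) (fun k k0 kq => ?_) fun v w hv hw => ?_
      · by_contra h1
        exact hnc x u hx (hord p P hP u u.2 fun e => h1 (Subtype.ext e)) (congrArg Subtype.val e)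
      · obtain ⟨α, hα⟩ := hso x (x ^ k) (by
          rw [Nat.Coprime.orderOf_pow (by rw [hx]; exact (Nat.coprime_of_lt_prime k0.ne' kq hq))])
        obtain ⟨A, -, hA⟩ := res_aut hcomm α P.one_mem (k := k) (by rw [hα, one_mul])
        exact ⟨A, hA⟩
      · obtain ⟨α, hα⟩ := hso v w (by
          rw [hord p P hP v v.2 fun e => hv (Subtype.ext e), hord p P hP w w.2 fun e => hw (Subtype.ext e)])
        obtain ⟨u, hu, y, hy, e⟩ := (mem_sup_of_le_normalizer_left (H := P) (K := Subgroup.zpowers x)
          Subgroup.le_normalizer_of_normal).1 (((sup_comm P _).trans htop).ge (Subgroup.mem_top (α x)))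
        obtain ⟨k, hk, rfl⟩ := Finset.mem_image.1 (mem_zpowers_iff_mem_range_orderOf.1 hy)
        rw [Finset.mem_range, hx] at hk
        obtain ⟨A, h5, hA⟩ := res_aut hcomm α hu e.symm
        refine ⟨A, k, Subtype.ext ((h5 v).trans hα), Nat.pos_of_ne_zero ?_, hk, hA⟩
        rintro rfl
        rw [pow_zero, mul_one] at e
        have h6 : orderOf (α x) = q := hx ▸ orderOf_injective α.toMonoidHom α.injective x
        exact hpq (h6.symm.trans (hord p P hP _ (e ▸ hu) fun e => hq.one_lt.ne (by simpa [e] using h6)))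
  · rintro ⟨p, q, n, hp, hq, hpq, hn, hc, hS, ho, hf⟩
    obtain ⟨P⟩ : Nonempty (Sylow p G) := inferInstance
    obtain ⟨hPn, hcomm, hexp⟩ := hS P
    have hcop := (Nat.coprime_primes hp.out hq.out).2 hpq
    have hPc : Nat.card P = p ^ n := by
      rw [P.card_eq_multiplicity, hc, Nat.factorization_mul (pow_pos hp.out.pos _).ne' hq.out.ne_zero,
        Finsupp.add_apply, Nat.factorization_eq_zero_of_not_dvd (hp.out.coprime_iff_not_dvd.1 hcop),
        hp.out.factorization_pow, Finsupp.single_eq_same, add_zero]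
    have hidx : (P : Subgroup G).index = q := by
      have := (P : Subgroup G).card_mul_index
      rw [hPc, hc] at this
      exact Nat.eq_of_mul_eq_mul_left (pow_pos hp.out.pos _) this
    have hmem : ∀ y : G, orderOf y = p → y ∈ (P : Subgroup G) := fun y hy =>
      mem_of_coprime_index (by rw [hy, hidx]; exact hcop)
    obtain ⟨x, hx⟩ := exists_prime_orderOf_dvd_card' (G := G) q (hc ▸ dvd_mul_left _ _)
    have hcm : (P : Subgroup G).IsComplement' (Subgroup.zpowers x) :=
      Subgroup.isComplement'_of_coprime (by rw [hPc, Nat.card_zpowers, hx, hc])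
        (by rw [hPc, Nat.card_zpowers, hx]; exact hcop.pow_left _)
    obtain ⟨ha, hb⟩ := (mul_version hcomm (fun u => Subtype.ext (hexp u u.2)) hpq (MulAut.conjNormal x)
        (by rw [← map_pow, ← hx, pow_orderOf_eq_one, map_one]) fun u e => by
          by_contra h1
          exact hf x u hx (orderOf_eq_prime (hexp u u.2) fun e => h1 (Subtype.ext e))
            (congrArg Subtype.val e)).2 ho
    have key : ∀ a b : G, orderOf a = orderOf b → (orderOf a = 1 ∨ orderOf a = p ∨ orderOf a = q) →
        ∃ α : MulAut G, α a = b := by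
      have h1 : ∀ b : G, orderOf b = q → ∃ α : MulAut G, α x = b := by
        intro b hb
        have hS : ∀ y : G, orderOf y = q → Nat.card (Subgroup.zpowers y) = q ^ (Nat.card G).factorization q := by
          intro y hy
          rw [Nat.card_zpowers, hy, hc, Nat.factorization_mul (pow_pos hp.out.pos _).ne' hq.out.ne_zero,
            Finsupp.add_apply, Nat.factorization_eq_zero_of_not_dvd
              (hq.out.coprime_iff_not_dvd.1 (hcop.pow_left n).symm), hq.out.factorization_self, zero_add, pow_one]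
        obtain ⟨g, -, hg⟩ := (isSylowIn_of_card (p := q) (P := Subgroup.zpowers x) le_top
          (by rw [Subgroup.card_top]; exact hS x hx)).conj
          (isSylowIn_of_card (P := Subgroup.zpowers b) le_top (by rw [Subgroup.card_top]; exact hS b hb))
        obtain ⟨k, hk⟩ := mem_powers_iff_mem_zpowers.2 (mem_conj_smul.1 (hg.ge (Subgroup.mem_zpowers b)))
        have hk' : x ^ k = g⁻¹ * b * g := hk
        have hk1 : ¬ q ∣ k := fun e => by
          rw [← hx, orderOf_dvd_iff_pow_eq_one, hk', conj_eq_one_iff'] at e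
          exact hq.out.one_lt.ne (by simpa [e] using hb)
        obtain ⟨A, hA⟩ := ha k hk1
        obtain ⟨α, h2, -⟩ := aut_of_pair hcm A (k := k) (by rw [hx]; exact (hq.out.coprime_iff_not_dvd.2 hk1).symm)
          fun u => by rw [hA, ← map_pow]; rfl
        exact ⟨MulAut.conj g * α, by rw [MulAut.mul_apply, h2, hk']; simp [mul_assoc]⟩
      rintro a b e (h | h | h)
      · exact ⟨1, by rw [orderOf_eq_one_iff.1 h, orderOf_eq_one_iff.1 (e.symm.trans h)]; rfl⟩
      · have n1 : ∀ y : G, orderOf y = p → y ≠ 1 := fun y hy e => hp.out.one_lt.ne (by simpa [e] using hy)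
        obtain ⟨A, h2, hA⟩ := hb ⟨a, hmem a h⟩ ⟨b, hmem b (e ▸ h)⟩ (fun e => n1 a h (congrArg Subtype.val e))
          fun e' => n1 b (e ▸ h) (congrArg Subtype.val e')
        obtain ⟨α, -, h3⟩ := aut_of_pair hcm A (k := 1) (by simp) fun u => by rw [hA, pow_one]; rfl
        exact ⟨α, (h3 ⟨a, hmem a h⟩).trans (congrArg Subtype.val h2)⟩
      · obtain ⟨α, rfl⟩ := h1 a h
        obtain ⟨β, rfl⟩ := h1 b (e ▸ h)
        exact ⟨β * α⁻¹, by simp⟩
    have hord : ∀ a : G, orderOf a = 1 ∨ orderOf a = p ∨ orderOf a = q := by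
      intro a
      by_cases h1 : q ∣ orderOf a
      · by_cases h2 : p ∣ orderOf a
        · exfalso
          refine hf (a ^ (orderOf a / q)) (a ^ (orderOf a / p)) (orderOf_pow_orderOf_div (orderOf_pos a).ne' h1)
            (orderOf_pow_orderOf_div (orderOf_pos a).ne' h2) ?_
          rw [mul_inv_eq_iff_eq_mul]
          exact (Commute.refl a).pow_pow _ _
        · right; right
          exact Nat.dvd_antisymm (((hp.out.coprime_iff_not_dvd.2 h2).symm.pow_right n).dvd_of_dvd_mul_left
            (hc ▸ orderOf_dvd_natCard a)) h1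
      · have := hexp a (mem_of_coprime_index (by rw [hidx]; exact (hq.out.coprime_iff_not_dvd.2 h1).symm))
        rcases (Nat.dvd_prime hp.out).1 (orderOf_dvd_of_pow_eq_one this) with h | h
        · exact Or.inl h
        · exact Or.inr (Or.inl h)
    have h3 : ({1, p, q} : Finset ℕ).card = 3 := Finset.card_eq_three.2
      ⟨_, _, _, hp.out.one_lt.ne, hq.out.one_lt.ne, hpq, rfl⟩
    apply le_antisymm
    · rw [← h3, ← Nat.card_eq_finsetCard]
      refine Nat.card_le_card_of_injective (β := ({1, p, q} : Finset ℕ)) (Quotient.lift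
        (fun a => ⟨orderOf a, by simpa using hord a⟩) (by
          rintro a b ⟨α, rfl⟩
          exact Subtype.ext (orderOf_injective α.toMonoidHom α.injective _))) ?_
      rintro ⟨a⟩ ⟨b⟩ e
      have e' : orderOf a = orderOf b := congrArg Subtype.val e
      exact Quotient.sound (key b a e'.symm (hord b))
    · rw [← h3]
      refine card_orders_le _ fun m hm => ?_
      simp only [Finset.mem_insert, Finset.mem_singleton] at hm
      rcases hm with rfl | rfl | rfl
      · exact ⟨1, orderOf_one⟩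
      · exact exists_prime_orderOf_dvd_card' _ (hc ▸ (dvd_pow_self _ (by omega)).mul_right _)
      · exact ⟨x, hx⟩

end Cfsg.Agent.S4081
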