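import Cfsg.Statements.S4082
import Cfsg.Agent.H1.Misc
import Cfsg.Agent.H1.Coprime
import Cfsg.Agent.H5.Dih

set_option autoImplicit false
open Cfsg

namespace Cfsg.Agent.S4082

open Subgroup
open scoped commutatorElement

theorem pbc {G : Type*} [Group G] [Finite G] {p : ℕ} [Fact p.Prime] {U : Subgroup G} (hU : IsPGroup p U) {x : G}
    (hx : x ∈ normalizer (U : Set G)) (S : Sylow p ↥(U ⊔ zpowers x)) : ∃ _ : (S : Subgroup ↥(U ⊔ zpowers x)).Normal,
      IsCyclic (↥(U ⊔ zpowers x) ⧸ (S : Subgroup ↥(U ⊔ zpowers x))) := by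
  haveI := (normal_subgroupOf_iff_le_normalizer (le_sup_left : U ≤ U ⊔ zpowers x)).2 (sup_le le_normalizer (zpowers_le.2 hx))
  have h1 := (show IsPGroup p (U.subgroupOf (U ⊔ zpowers x)) from hU.comap_subtype).le_sylow_of_normal S
  set y : ↥(U ⊔ zpowers x) := ⟨x, mem_sup_right (mem_zpowers x)⟩
  have h2 : ∀ g : ↥(U ⊔ zpowers x), ∃ k : ℤ, ∃ u ∈ U.subgroupOf (U ⊔ zpowers x), g = u * y ^ k := fun g => by
    obtain ⟨u, hu, _, ⟨k, rfl⟩, e⟩ := (H1.mem_sup_of_le_normalizer_left (zpowers_le.2 hx)).1 g.2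
    exact ⟨k, ⟨u, mem_sup_left hu⟩, hu, Subtype.ext e.symm⟩
  have h3 : (S : Subgroup ↥(U ⊔ zpowers x)).Normal := ⟨fun s hs g => by
    have : ((g * s * g⁻¹ * s⁻¹ : ↥(U ⊔ zpowers x)) : _ ⧸ U.subgroupOf (U ⊔ zpowers x)) = 1 := by
      obtain ⟨k, u, hu, rfl⟩ := h2 g
      obtain ⟨j, v, hv, rfl⟩ := h2 s
      simp only [QuotientGroup.mk_mul, QuotientGroup.mk_inv, QuotientGroup.mk_zpow, (QuotientGroup.eq_one_iff _).2 hu,
        (QuotientGroup.eq_one_iff _).2 hv]
      group
    simpa using Subgroup.mul_mem _ (h1 ((QuotientGroup.eq_one_iff _).1 this)) hs⟩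
  refine ⟨h3, ⟨y, fun g => ?_⟩⟩
  obtain ⟨g, rfl⟩ := QuotientGroup.mk_surjective g
  obtain ⟨k, u, hu, rfl⟩ := h2 g
  exact ⟨k, by simp [(QuotientGroup.eq_one_iff _).2 (h1 hu)]⟩

/-- Let p be an odd prime and G a finite group with Sylow p-subgroup P. Say that G has restricted p-by-cyclic subgroups when every subgroup H of G whose Sylow p-subgroup is normal in H with cyclic quotient is itself cyclic or dihedral of order 2pⁿ for some n. Then G has restricted p-by-cyclic subgroups if and only if P is cyclic and one of the following holds: (1) N_G(P) = C_G(P); or (2) N_G(P)/C_G(P) has order 2 and, for the subgroup Q of order p of P, the centralizer C_G(Q) is abelian and every element of N_G(Q) outside C_G(Q) is an involution inverting every element of C_G(Q). -/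
theorem result {G : Type*} [Group G] [Finite G] {p : ℕ}
    [Fact p.Prime] (hp : p ≠ 2) (P : Sylow p G) :
    (∀ H : Subgroup G, (∀ S : Sylow p ↥H, (S : Subgroup ↥H).Normal) →
        (∀ (S : Sylow p ↥H) [(S : Subgroup ↥H).Normal], IsCyclic (↥H ⧸ (S : Subgroup ↥H))) →
        IsCyclic H ∨ (∃ n : ℕ, Nonempty (H ≃* DihedralGroup (p ^ n)))) ↔
    (IsCyclic P ∧
      (Subgroup.normalizer ((P : Subgroup G) : Set G) = Subgroup.centralizer ((P : Subgroup G) : Set G) ∨
       ((Subgroup.centralizer ((P : Subgroup G) : Set G)).relIndex (Subgroup.normalizer ((P : Subgroup G) : Set G)) = 2 ∧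
        ∀ Q : Subgroup G, Q ≤ P → Nat.card Q = p →
          IsMulCommutative ↥(Subgroup.centralizer (Q : Set G)) ∧
          ∀ x : G, x ∈ Subgroup.normalizer (Q : Set G) → x ∉ Subgroup.centralizer (Q : Set G) →
            orderOf x = 2 ∧ ∀ c : G, c ∈ Subgroup.centralizer (Q : Set G) → x * c * x⁻¹ = c⁻¹))) := by
  have hpp : p.Prime := Fact.out
  have od : ∀ {U : Subgroup G}, IsPGroup p U → ∀ u ∈ U, u * u = 1 → u = 1 := fun hU u hu h => by
    obtain ⟨k, hk⟩ := H1.exists_orderOf_eq_pow hU hu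
    exact H1.eq_one_of_sq_of_odd (by rw [sq, h]) (hk ▸ (hpp.odd_of_ne_two hp).pow)
  constructor
  · intro h
    have h0 := fun (U : Subgroup G) (hU : IsPGroup p U) x hx => h (U ⊔ zpowers x) (fun S => (pbc hU hx S).1)
      fun S _ => (pbc hU hx S).2
    have key : ∀ U : Subgroup G, IsPGroup p U → ∀ x ∈ normalizer (U : Set G), x ∉ centralizer (U : Set G) →
        x * x = 1 ∧ ∀ u ∈ U, x * u * x⁻¹ = u⁻¹ := fun U hU x hx hc => by
      obtain h1 | ⟨n, ⟨e⟩⟩ := h0 U hU x hx
      · exact absurd (fun u hu => H1.comm_of_mem h1.commutative (mem_sup_left hu) (mem_sup_right (mem_zpowers x))) hc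
      set y : ↥(U ⊔ zpowers x) := ⟨x, mem_sup_right (mem_zpowers x)⟩
      have h2 : ∀ u (hu : u ∈ U), ∃ i, e ⟨u, mem_sup_left hu⟩ = .r i := fun u hu => by
        rcases h : e ⟨u, mem_sup_left hu⟩ with i | i
        · exact ⟨i, rfl⟩
        · have := od hU u hu (congrArg Subtype.val (e.injective (a₁ := ⟨u, mem_sup_left hu⟩ * ⟨u, mem_sup_left hu⟩) (a₂ := 1)
            (by rw [map_mul, h, map_one]; simp)))
          subst this
          exact absurd ((map_one e).symm.trans h) (by rw [DihedralGroup.one_def]; exact fun h => nomatch h)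
      rcases h : e y with j | j
      · refine (hc fun u hu => congrArg Subtype.val (e.injective (a₁ := ⟨u, mem_sup_left hu⟩ * y)
          (a₂ := y * ⟨u, mem_sup_left hu⟩) ?_)).elim
        obtain ⟨i, hi⟩ := h2 u hu
        rw [map_mul, map_mul, hi, h]; simp [add_comm]
      refine ⟨congrArg Subtype.val (e.injective (a₁ := y * y) (a₂ := 1) (by rw [map_mul, h, map_one]; simp)), fun u hu =>
        congrArg Subtype.val (e.injective (a₁ := y * ⟨u, mem_sup_left hu⟩ * y⁻¹) (a₂ := (⟨u, mem_sup_left hu⟩)⁻¹) ?_)⟩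
      obtain ⟨i, hi⟩ := h2 u hu
      rw [map_mul, map_mul, map_inv, map_inv, hi, h]; simp
    refine ⟨?_, or_iff_not_imp_left.2 fun hne => ?_⟩
    · have := h0 P P.isPGroup' 1 (one_mem _)
      rw [zpowers_one_eq_bot, sup_bot_eq] at this
      refine this.resolve_right fun ⟨n, ⟨e⟩⟩ => ?_
      have h1 := od P.isPGroup' _ (e.symm (.sr 0)).2 (congrArg Subtype.val (show e.symm (.sr 0) * e.symm (.sr 0) = 1 by
        rw [← map_mul]; simp))
      exact absurd (e.symm.injective ((Subtype.ext h1).trans (map_one e.symm).symm)) (by rw [DihedralGroup.one_def]; exact fun h => nomatch h)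
    obtain ⟨a, ha, ha'⟩ := SetLike.exists_of_lt (lt_of_le_of_ne (centralizer_le_normalizer _) (Ne.symm hne))
    have h1 := (key P P.isPGroup' a ha ha').2
    refine ⟨relIndex_eq_two_iff.2 ⟨a, ha, fun b hb => ?_⟩, fun Q hQ hc => ?_⟩
    · by_cases h2 : b ∈ centralizer ((P : Subgroup G) : Set G)
      · exact .inr ⟨h2, fun h3 => ha' (by simpa using mul_mem (inv_mem h2) h3)⟩
      · refine .inl ⟨fun u hu => (mul_inv_eq_iff_eq_mul.1 ?_).symm, h2⟩
        calc b * a * u * (b * a)⁻¹ = b * (a * u * a⁻¹) * b⁻¹ := by group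
          _ = u := by rw [h1 u hu, (key P P.isPGroup' b hb h2).2 _ (inv_mem hu), inv_inv]
    have hQp := P.isPGroup'.to_le hQ
    have h2 : ∀ x ∈ normalizer (Q : Set G), x ∉ centralizer (Q : Set G) → ∀ c ∈ centralizer (Q : Set G),
        x * c * x⁻¹ = c⁻¹ := fun x hx hx' c hc => by
      have h3 := (key Q hQp (x * c) (mul_mem hx (centralizer_le_normalizer _ hc))
        fun h => hx' (by simpa using mul_mem h (inv_mem hc))).1
      rw [inv_eq_of_mul_eq_one_right (key Q hQp x hx hx').1]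
      exact eq_inv_of_mul_eq_one_left (by rw [← h3]; group)
    refine ⟨H1.isMulCommutative_of_comm fun c hc' d hd => ?_, fun x hx hx' => ⟨orderOf_eq_prime (by
      rw [sq, (key Q hQp x hx hx').1]) fun e => hx' (e ▸ one_mem _), h2 x hx hx'⟩⟩
    have h3 := h2 a (H1.mem_normalizer_iff_conj_mem.2 fun u hu => h1 u (hQ hu) ▸ inv_mem hu) fun h => by
      obtain ⟨u, hu, u1⟩ := H1.exists_mem_ne_one (H := Q) fun e => hpp.one_lt.ne' (by rw [← hc, e, card_bot])
      have := h1 u (hQ hu)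
      rw [← h u hu, mul_inv_cancel_right, eq_inv_iff_mul_eq_one] at this
      exact u1 (od hQp u hu this)
    have := h3 _ (mul_mem hc' hd)
    rw [← conj_mul, h3 c hc', h3 d hd, ← mul_inv_rev, inv_inj] at this
    exact this.symm
  rintro ⟨hc, h⟩ H h1 h2
  have key : ∀ s x : G, (∃ k, orderOf s = p ^ k) → ¬ p ∣ orderOf x → x ∈ normalizer (zpowers s : Set G) →
      ¬ Commute s x → x * x = 1 ∧ x * s * x⁻¹ = s⁻¹ := by
    have k1 : ∀ s x : G, s ∈ (P : Subgroup G) → ¬ p ∣ orderOf x → x ∈ normalizer (zpowers s : Set G) →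
        ¬ Commute s x → x * x = 1 ∧ x * s * x⁻¹ = s⁻¹ := fun s x hs hx hn hc' => by
      rcases h with h | ⟨-, h⟩
      · have hK := MonoidHom.ker_transferSylow_isComplement' P h.le
        obtain ⟨k, hk⟩ := P.isPGroup'.exists_card_eq
        have h3 := H1.mem_of_coprime_index (N := (MonoidHom.transferSylow P h.le).ker) (x := x) (by
          rw [hK.symm.index_eq_card, hk]; exact ((hpp.coprime_iff_not_dvd.2 hx).symm).pow_right k)
        refine absurd (commutatorElement_eq_one_iff_commute.1 (mem_bot.1 (hK.disjoint.le_bot ⟨?_, ?_⟩))) hc'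
        · exact Subgroup.mul_mem _ (Normal.conj_mem inferInstance _ h3 s) (Subgroup.inv_mem _ h3)
        · have := (P : Subgroup G).mul_mem hs (zpowers_le.2 hs (H1.conj_mem_of_mem_normalizer hn (inv_mem (mem_zpowers s))))
          rwa [← mul_assoc, ← mul_assoc] at this
      obtain ⟨k, hk⟩ := H1.exists_orderOf_eq_pow P.isPGroup' hs
      obtain ⟨y, hy, oy⟩ := H1.exists_pow_orderOf_eq (x := s) (d := p) (hk ▸ dvd_pow_self p fun e => hc' (by
        rw [orderOf_eq_one_iff.1 (by rw [hk, e, pow_zero] : orderOf s = 1)]; exact Commute.one_left x))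
      obtain ⟨h3, h4⟩ := h (zpowers y) (zpowers_le.2 (zpowers_le.2 hs hy)) (by rw [Nat.card_zpowers, oy])
      have h5 : s ∈ centralizer (zpowers y : Set G) := fun u hu =>
        H1.commute_of_mem_zpowers (zpowers_le.2 hy hu) (mem_zpowers s)
      obtain ⟨h6, h7⟩ := h4 x (H1.mem_normalizer_iff_conj_mem.2 fun u hu => H1.le_of_card_dvd_of_isCyclic (C := zpowers s)
        inferInstance (zpowers_le.2 (H1.conj_mem_of_mem_normalizer hn (zpowers_le.2 hy hu))) (zpowers_le.2 hy) (by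
          rw [Nat.card_zpowers, H1.orderOf_conj]; exact orderOf_dvd_natCard (⟨u, hu⟩ : zpowers y) |> fun h => by
            rwa [← orderOf_coe] at h) (mem_zpowers _)) fun h => hc' (H1.comm_of_mem h3 h5 h)
      exact ⟨by rw [← sq, ← h6, pow_orderOf_eq_one], h7 s h5⟩
    intro s x hs hx hn hc'
    obtain ⟨g, hg⟩ := H1.exists_conj_mem_sylow P hs
    obtain ⟨h3, h4⟩ := k1 _ (g * x * g⁻¹) hg (by rwa [H1.orderOf_conj]) (H1.mem_normalizer_iff_conj_mem.2 (by
      rintro _ ⟨i, rfl⟩
      obtain ⟨j, hj⟩ := H1.conj_mem_of_mem_normalizer hn (zpow_mem (mem_zpowers s) i)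
      exact ⟨j, by simp only [conj_zpow, hj]; group⟩)) fun h => hc' ((MulAut.conj g).injective (by
        rw [map_mul, map_mul]; exact h))
    exact ⟨(MulAut.conj g).injective (by rw [map_mul, map_one]; exact h3), (MulAut.conj g).injective (by
      rw [map_mul, map_mul, map_inv, map_inv]; exact h4)⟩
  obtain ⟨S⟩ : Nonempty (Sylow p H) := inferInstance
  haveI := h1 S
  obtain ⟨z, hz⟩ := (h2 S).exists_generator
  obtain ⟨z, rfl⟩ := QuotientGroup.mk_surjective z
  obtain ⟨a, -, x, -, rfl, ⟨j, ha⟩, hx⟩ := H1.exists_p_part p z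
  have ha' : a ∈ (S : Subgroup H) := by
    obtain ⟨g, hg⟩ := H1.exists_conj_mem_sylow S ⟨j, ha⟩
    simpa [mul_assoc] using (h1 S).conj_mem _ hg g⁻¹
  obtain ⟨s, hs⟩ : ∃ s : H, zpowers s = S := by
    obtain ⟨g, -, hg⟩ := (H1.isSylowIn_top P).exists_conj_le (S.isPGroup'.map H.subtype) le_top
    refine (Subgroup.isCyclic_iff_exists_zpowers_eq_top _).1 (isCyclic_of_injective (((inclusion hg).comp
      (((S : Subgroup H).map H.subtype).equivSMul (MulAut.conj g)).toMonoidHom).comp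
      ((S : Subgroup H).equivMapOfInjective _ H.subtype_injective).toMonoidHom) ?_)
    exact ((inclusion_injective hg).comp (MulEquiv.injective _)).comp (MulEquiv.injective _)
  have hs' : s ∈ (S : Subgroup H) := hs.le (mem_zpowers s)
  obtain ⟨k, hk⟩ := H1.exists_orderOf_eq_pow S.isPGroup' hs'
  have h3 : ∀ K : Subgroup H, s ∈ K → x ∈ K → K = ⊤ := fun K a1 a2 => eq_top_iff.2 fun g _ => by
    obtain ⟨i, hi⟩ := hz g
    rw [QuotientGroup.mk_mul, (QuotientGroup.eq_one_iff a).2 ha', one_mul] at hi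
    have := QuotientGroup.eq.1 ((QuotientGroup.mk_zpow _ x i).trans hi)
    simpa using K.mul_mem (K.zpow_mem a2 i) (zpowers_le.2 a1 (hs.ge this))
  by_cases h4 : Commute s x
  · have c : (orderOf s).Coprime (orderOf x) := hk ▸ (hpp.coprime_iff_not_dvd.2 hx).pow_left k
    exact .inl (isCyclic_iff_exists_zpowers_eq_top.2 ⟨_, h3 _ (H1.mem_zpowers_mul_left h4 c) (H1.mem_zpowers_mul_right h4 c)⟩)
  obtain ⟨h5, h6⟩ := key s x ⟨k, by rwa [orderOf_coe]⟩ (by rwa [orderOf_coe]) (H1.mem_normalizer_iff_conj_mem.2 (by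
    rintro _ ⟨i, rfl⟩
    obtain ⟨j, hj⟩ := hs.ge ((h1 S).conj_mem _ (zpow_mem hs' i) x)
    exact ⟨j, congrArg Subtype.val hj⟩)) fun h => h4 (Subtype.ext h)
  obtain ⟨e⟩ := H5.dih_equiv_closure (pow_pos hpp.pos k).ne' s x hk (Subtype.ext h5) (Subtype.ext h6)
    fun h => h4 (H1.commute_of_mem_zpowers (mem_zpowers s) h)
  rw [h3 _ (subset_closure (by simp)) (subset_closure (by simp))] at e
  exact .inr ⟨k, ⟨topEquiv.symm.trans e⟩⟩

end Cfsg.Agent.S4082
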