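import Cfsg.Statements.S4083
import Cfsg.Agent.H5.KB
import Cfsg.Agent.H5.Tor
import Cfsg.Agent.H1.Misc
import Cfsg.Agent.H1.Gaschutz
import Cfsg.Agent.FT.Pi
import Cfsg.Agent.H9.Quad
import Cfsg.Agent.H9.Sec

set_option autoImplicit false
open Cfsg

namespace Cfsg.Agent.S4083

open H1
open Subgroup H9
open scoped commutatorElement

section
variable {G : Type*} [Group G] [Finite G] {S T K H : Subgroup G} {g r : G}

theorem idx2 (hS : IsPGroup 2 S) (hi : T.relIndex S = 2) (ho : (orderOf g).Coprime 2)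
    (hn : g ∈ normalizer (S : Set G)) (hT : T ≤ centralizer {g}) : S ≤ centralizer {g} := by
  have n : g ∈ normalizer (T : Set G) := Subgroup.centralizer_le_normalizer _ fun t ht =>
    mem_centralizer_singleton_iff.1 (hT ht)
  rw [← H9.centralizer_zpowers] at hT ⊢
  refine cop_le_centralizer (zpowers_le.2 hn) (copA_of_p' hS (by rwa [Nat.card_zpowers]))
    (commutator_zpowers_le' n fun v hv => ?_) hT
  have := (mul_mem_iff_of_index_two (H := T.subgroupOf S) hi (a := ⟨v, hv⟩)
    (b := ⟨g * v⁻¹ * g⁻¹, conj_mem_of_le_normalizer le_rfl hn (inv_mem hv)⟩)).2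
    (inv_mem_iff.symm.trans (mem_normalizer_iff.1 n v⁻¹))
  rw [commutatorElement_def, mul_assoc, mul_assoc, ← mul_assoc g]
  exact this

theorem cc (hS : IsPGroup 2 (zpowers r)) (ho : (orderOf g).Coprime 2) (hn : g ∈ normalizer (zpowers r : Set G)) :
    zpowers r ≤ centralizer {g} := by
  obtain ⟨k, hk⟩ := hS.exists_card_eq
  rw [Nat.card_zpowers] at hk
  refine zpowers_le.2 (mem_centralizer_singleton_iff.2 (mem_centralizer_singleton_iff.1
    (le_centralizer_of_coprime_totient (zpowers_le.2 hn) ?_ (mem_zpowers g))).symm)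
  rw [Nat.card_zpowers, hk]
  rcases k with _ | k
  · simp
  · rw [Nat.totient_prime_pow_succ Nat.prime_two]; simpa using ho.pow_right k

theorem cyc (hS : IsPGroup 2 S) (hc : IsCyclic S) (ho : (orderOf g).Coprime 2) (hn : g ∈ normalizer (S : Set G)) :
    IsCyclic (S ⊔ zpowers g : Subgroup G) := by
  obtain ⟨x, -, rfl⟩ := exists_eq_zpowers_of_isCyclic' hc
  have c : Commute x g := mem_centralizer_singleton_iff.1 (cc hS ho hn (mem_zpowers x))
  obtain ⟨k, hk⟩ := hS.exists_card_eq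
  rw [Nat.card_zpowers] at hk
  have d : (orderOf x).Coprime (orderOf g) := hk ▸ (ho.pow_right k).symm
  exact isCyclic_of_le_zpowers' (sup_le (zpowers_le.2 (FT.mem_zpowers_mul_left c d))
    (zpowers_le.2 (FT.mem_zpowers_mul_right c d)))

theorem one_of (hS : IsPGroup 2 S) (ho : (orderOf g).Coprime 2) (h : g ∈ S) : g = 1 :=
  zpowers_eq_bot.1 (eq_bot_of_p_p' (isPGroup_zpowers_of_mem hS h) (by rwa [Nat.card_zpowers]))

theorem dih (hK : ∀ K : Subgroup G, Nat.card K = 4 → (∀ k ∈ K, k ^ 2 = 1) → centralizer (K : Set G) = K)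
    (hS : IsPGroup 2 S) (hc : ¬ IsCyclic S) (hr : r ∈ S) (hi : (zpowers r).relIndex S = 2)
    (hs : ∀ s ∈ S, s ∉ zpowers r → s * s = 1) (ho : (orderOf g).Coprime 2) (hn : g ∈ normalizer (S : Set G)) :
    (∃ n : ℕ, Nonempty ((S ⊔ zpowers g : Subgroup G) ≃* DihedralGroup (2 ^ n))) ∨
      Nonempty ((S ⊔ zpowers g : Subgroup G) ≃* alternatingGroup (Fin 4)) := by
  have l := zpowers_le.2 hr
  have cd := relIndex_mul_card l
  rw [hi] at cd
  have r0 : zpowers r ≠ ⊥ := fun e => hc (by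
    rw [e, card_bot] at cd
    exact isCyclic_of_prime_card (p := 2) cd.symm)
  have key : ∀ g : G, (orderOf g).Coprime 2 → S ≤ centralizer {g} → g = 1 := fun g ho h => by
    obtain ⟨z, z1, z2⟩ := exists_orderOf_eq_of_isPGroup (hS.to_le l) r0
    obtain ⟨s, s1, s2⟩ := SetLike.not_le_iff_exists.1 fun e => hc (isCyclic_of_le_zpowers' e)
    have zz : z ^ 2 = 1 := z2 ▸ pow_orderOf_eq_one z
    have ss : s ^ 2 = 1 := by rw [pow_two, hs s s1 s2]
    have c : zpowers z ≤ centralizer (zpowers s : Set G) := by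
      rw [H9.centralizer_zpowers, zpowers_le, mem_centralizer_singleton_iff]
      have := hs _ (mul_mem (l z1) s1) fun e => s2 ((mul_mem_cancel_left z1).1 e)
      rw [pow_two] at zz ss
      calc _ = (z * s)⁻¹ := eq_inv_of_mul_eq_one_left this
        _ = _ := by rw [mul_inv_rev, inv_eq_of_mul_eq_one_right ss, inv_eq_of_mul_eq_one_right zz]
    have os : Nat.card (zpowers s) = 2 := by
      rw [Nat.card_zpowers]; exact orderOf_eq_prime ss fun e => s2 (e ▸ one_mem _)
    have i : zpowers z ⊓ zpowers s = ⊥ := by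
      rw [inf_comm]
      exact (FT.le_or_inf_eq_bot_of_card_prime (os ▸ Nat.prime_two) _).resolve_left fun e =>
        s2 (zpowers_le.2 z1 (e (mem_zpowers s)))
    have k := H9.card_sup_mul_card_inf (c.trans (Subgroup.centralizer_le_normalizer _))
    rw [i, card_bot, mul_one, os, Nat.card_zpowers, z2] at k
    have lk : zpowers z ⊔ zpowers s ≤ S := sup_le (zpowers_le.2 (l z1)) (zpowers_le.2 s1)
    exact one_of hS ho (lk ((hK _ k (elem_sup (elem_zpowers zz) (elem_zpowers ss) c).2).le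
      fun x hx => mem_centralizer_singleton_iff.1 (h (lk hx))))
  by_cases e : S ≤ centralizer {g}
  · obtain ⟨k, hk⟩ := (hS.to_le l).exists_card_eq
    rw [key g ho e, zpowers_one_eq_bot, sup_bot_eq]
    exact Or.inl ⟨k, hk ▸ H5.dih_of_relIndex_two inferInstance l hi hs⟩
  right
  have m : ∀ {x}, x ∈ S → g * x * g⁻¹ ∈ S := fun hx => conj_mem_of_le_normalizer le_rfl hn hx
  have a : g * r * g⁻¹ ∉ zpowers r := fun c => e (idx2 hS hi ho hn (cc (hS.to_le l) ho
    (mem_normalizer_of_cj_le (by rw [cj_zpowers]; exact zpowers_le.2 c))))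
  have r2 : r ^ 2 = 1 := by
    have := hs _ (m hr) a
    rwa [← pow_two, conj_pow, mul_inv_eq_one, mul_eq_left] at this
  have r1 : r ≠ 1 := mt zpowers_eq_bot.2 r0
  have c4 : Nat.card S = 4 := by rw [← cd, Nat.card_zpowers, orderOf_eq_prime r2 r1]
  have fx : ∀ (g : G) (w), w ∈ S → (orderOf g).Coprime 2 → g ∈ normalizer (S : Set G) → w ≠ 1 → w ^ 2 = 1 →
      w * g = g * w → S ≤ centralizer {g} := fun g w w1 ho hn w2 w3 w4 => by
    have := relIndex_mul_card (zpowers_le.2 w1)
    rw [c4, Nat.card_zpowers, orderOf_eq_prime w3 w2] at this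
    exact idx2 hS (by omega) ho hn (zpowers_le.2 (mem_centralizer_singleton_iff.2 w4))
  have eS : zpowers r ⊔ zpowers (g * r * g⁻¹) = S := by
    have l2 : zpowers r ⊔ zpowers (g * r * g⁻¹) ≤ S := sup_le l (zpowers_le.2 (m hr))
    refine eq_of_le_of_card_ge l2 ?_
    rw [← cd]
    exact L.mul_card_le_of_lt (hS.to_le l2) (left_lt_sup.2 (mt zpowers_le.1 a))
  have sq : ∀ s ∈ S, s ^ 2 = 1 := fun s h => by
    by_cases c : s ∈ zpowers r
    · exact (elem_zpowers r2).2 s c
    · rw [pow_two, hs s h c]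
  have ab : ∀ s ∈ S, ∀ t ∈ S, s * t = t * s := fun s h t h' => (hK S c4 sq).ge h' s h
  have c1 : ∀ {x : G}, x ≠ 1 → g * x * g⁻¹ ≠ 1 := fun h c => h (by rwa [mul_inv_eq_one, mul_eq_left] at c)
  have ne : r ≠ g * r * g⁻¹ := fun c => a (c ▸ mem_zpowers r)
  haveI : Nontrivial S := ⟨⟨⟨r, hr⟩, 1, fun c => r1 (congrArg Subtype.val c)⟩⟩
  haveI : IsKleinFour S := ⟨c4, (Monoid.exponent_eq_prime_iff Nat.prime_two).2 fun x hx =>
    orderOf_eq_prime (Subtype.ext (sq _ x.2)) hx⟩
  have q1 := sq _ (m hr)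
  rw [pow_two] at q1
  have e2 : g * (g * r * g⁻¹) * g⁻¹ = r * (g * r * g⁻¹) := congrArg Subtype.val (IsKleinFour.eq_mul_of_ne_all
    (x := (⟨r, hr⟩ : S)) (y := ⟨_, m hr⟩) (z := ⟨_, m (m hr)⟩) (fun c => r1 (congrArg Subtype.val c))
    (fun c => c1 r1 (congrArg Subtype.val c)) (fun c => ne (congrArg Subtype.val c))
    (fun c => c1 (c1 r1) (congrArg Subtype.val c))
    (fun c => e (fx g _ (mul_mem hr (m hr)) ho hn (fun d => ne (by
        exact mul_right_cancel (d.trans q1.symm))) (sq _ (mul_mem hr (m hr))) (by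
      have : g * (g * r * g⁻¹) * g⁻¹ = r := congrArg Subtype.val c
      calc _ = r * (g * r * g⁻¹) * g := rfl
        _ = g * r * g⁻¹ * (g * (g * r * g⁻¹) * g⁻¹) * g := by rw [this, ab r hr _ (m hr)]
        _ = _ := by group)))
    (fun c => ne (by
      have : g * (g * r * g⁻¹) * g⁻¹ = g * r * g⁻¹ := congrArg Subtype.val c
      rw [mul_left_inj, mul_right_inj] at this
      exact this.symm)))
  have g3 : g ^ 3 = 1 := key _ (ho.coprime_dvd_left (orderOf_pow_dvd 3)) (fx _ r hr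
    (ho.coprime_dvd_left (orderOf_pow_dvd 3)) (pow_mem hn 3) r1 r2 (by
      calc _ = r * (g * r * g⁻¹ * (g * r * g⁻¹)) * g ^ 3 := by rw [q1, mul_one]
        _ = g * r * g⁻¹ * (g * (g * r * g⁻¹) * g⁻¹) * g ^ 3 := by
          rw [e2, ← mul_assoc (g * r * g⁻¹) r, ← ab r hr _ (m hr), mul_assoc r _ (g * r * g⁻¹)]
        _ = g * (r * (g * r * g⁻¹)) * g⁻¹ * g ^ 3 := by group
        _ = _ := by rw [← e2, pow_three]; group))
  have e3 : closure {r, g} = S ⊔ zpowers g := by
    have u : r ∈ closure {r, g} := subset_closure (by simp)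
    have v : g ∈ closure {r, g} := subset_closure (by simp)
    refine le_antisymm ((closure_le _).2 ?_) (sup_le (eS.ge.trans (sup_le (zpowers_le.2 u) (zpowers_le.2
      (mul_mem (mul_mem v u) (inv_mem v))))) (zpowers_le.2 v))
    rintro x (rfl | rfl)
    exacts [mem_sup_left hr, mem_sup_right (mem_zpowers _)]
  exact e3 ▸ H5.triA4 r2 g3 (by
    calc _ = r * (g * r * g⁻¹) * (g * (g * r * g⁻¹) * g⁻¹) * g ^ 3 := by simp only [pow_succ]; group
      _ = _ := by rw [e2, ← pow_two, sq _ (mul_mem hr (m hr)), g3, one_mul]) r1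

theorem cond (hH : Group.IsNilpotent H) (hK : IsPGroup 2 K) (h1 : K ≤ H) (hg : g ∈ H) (h : H ≤ K ⊔ zpowers g) :
    (∀ S : Sylow 2 ↥H, (S : Subgroup ↥H).Normal) ∧
      ∀ (S : Sylow 2 ↥H) [(S : Subgroup ↥H).Normal], IsCyclic (↥H ⧸ (S : Subgroup ↥H)) := by
  refine ⟨fun S => S.normal_of_normalizerCondition normalizerCondition_of_isNilpotent, fun S _ => ?_⟩
  have := isCyclic_map_of_le_sup_zpowers (QuotientGroup.mk' (S : Subgroup H)) (T := ⊤) (g := ⟨g, hg⟩) (by
    rw [QuotientGroup.ker_mk', ← map_le_map_iff_of_injective H.subtype_injective, map_top_subtype, Subgroup.map_sup,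
      MonoidHom.map_zpowers]
    refine h.trans (sup_le_sup_right ((syl_of_sylow S).le_of_le_normalizer hK h1 (Or.inl (h1.trans ?_))) _)
    have := map_le_normalizer_map H.subtype (top_le_normalizer (S : Subgroup H))
    rwa [map_top_subtype] at this)
  rw [map_top_of_surjective _ (QuotientGroup.mk'_surjective _)] at this
  exact topEquiv.isCyclic.1 this

end

theorem a4 : ∃ a b : alternatingGroup (Fin 4), a * b ≠ b * a := by decide +kernel

theorem na {A : Type*} [Group A] (h : IsMulCommutative A) (e : A ≃* alternatingGroup (Fin 4)) : False := by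
  obtain ⟨x, y, d⟩ := a4
  refine d (e.symm.injective ?_)
  rw [map_mul, map_mul]
  exact h.1.1 (e.symm x) (e.symm y)

theorem dh {A : Type*} [Group A] {m : ℕ} (h : IsMulCommutative A) (e : A ≃* DihedralGroup m) : Nat.card A ≤ 4 := by
  have : IsMulCommutative (DihedralGroup m) := ⟨⟨fun x y => e.symm.injective (by
    rw [map_mul, map_mul]; exact h.1.1 (e.symm x) (e.symm y))⟩⟩
  have := DihedralGroup.commutative_iff.1 this
  have d := (Nat.card_congr e.toEquiv).trans DihedralGroup.nat_card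
  omega

theorem nc {G : Type*} [Group G] [Finite G] {K H : Subgroup G} (k2 : Nat.card K = 4) (k3 : ∀ k ∈ K, k ^ 2 = 1)
    (h : K ≤ H) (d : IsCyclic H) : False := by
  obtain ⟨x, x1, x2⟩ := exists_eq_zpowers_of_isCyclic' (isCyclic_of_le h)
  have := Nat.le_of_dvd two_pos (orderOf_dvd_of_pow_eq_one (k3 x x1))
  rw [← Nat.card_zpowers, x2] at this
  omega

/-- Let G be a finite group with Sylow 2-subgroup P. Every subgroup H of G whose Sylow 2-subgroup is normal in H with cyclic quotient is cyclic, dihedral of 2-power order, or isomorphic to the alternating group of degree 4, if and only if either P is cyclic, or P is dihedral (of order at least 4) and every elementary abelian subgroup K of order 4 of P satisfies C_G(K) = K. -/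
theorem result {G : Type*} [Group G] [Finite G] (P : Sylow 2 G) :
    (∀ H : Subgroup G, (∀ S : Sylow 2 ↥H, (S : Subgroup ↥H).Normal) →
        (∀ (S : Sylow 2 ↥H) [(S : Subgroup ↥H).Normal], IsCyclic (↥H ⧸ (S : Subgroup ↥H))) →
        IsCyclic H ∨ (∃ n : ℕ, Nonempty (H ≃* DihedralGroup (2 ^ n))) ∨ Nonempty (H ≃* alternatingGroup (Fin 4))) ↔
    (IsCyclic P ∨
      ((∃ n : ℕ, 1 ≤ n ∧ Nonempty ((P : Subgroup G) ≃* DihedralGroup (2 ^ n))) ∧
        ∀ K : Subgroup G, K ≤ P → Nat.card K = 4 → (∀ k ∈ K, k ^ 2 = 1) → Subgroup.centralizer (K : Set G) = K)) := by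
  have hP := syl_top_of_sylow P
  constructor
  · intro h
    obtain ⟨a, b⟩ := cond (G := G) (H := P) (K := P) (g := 1) hP.isP.isNilpotent hP.isP le_rfl (one_mem _)
      (le_sup_of_le_left le_rfl)
    rcases h P a b with c | ⟨n, ⟨e⟩⟩ | ⟨⟨e⟩⟩
    · exact Or.inl c
    · rcases n with _ | n
      · exact Or.inl (e.isCyclic.2 (DihedralGroup.isCyclic_iff.2 (pow_zero 2)))
      refine Or.inr ⟨⟨n + 1, by omega, ⟨e⟩⟩, fun K k1 k2 k3 => ?_⟩
      have ab : IsMulCommutative K := IsPGroup.isMulCommutative_of_card_eq_prime_sq (p := 2) k2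
      refine le_antisymm (fun c hc => ?_) (le_centralizer_of_le_comm ab le_rfl le_rfl)
      have ab2 := comm_sup ab (B := zpowers c) inferInstance (le_centralizer_iff.1 (zpowers_le.2 hc))
      obtain ⟨a, b⟩ := cond (H := K ⊔ zpowers c) (isNilpotent_of_le_centralizer
        (le_centralizer_of_le_comm ab2 le_rfl le_rfl)) (P.2.to_le k1) le_sup_left
        (mem_sup_right (mem_zpowers c)) le_rfl
      rcases h _ a b with d | ⟨m, ⟨e⟩⟩ | ⟨⟨e⟩⟩
      · exact absurd d (nc k2 k3 le_sup_left)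
      · exact (eq_of_le_of_card_ge (le_sup_left : K ≤ K ⊔ zpowers c) (k2.ge.trans' (dh ab2 e))).ge
          (mem_sup_right (mem_zpowers c))
      · exact (na ab2 e).elim
    · obtain ⟨k, hk⟩ := P.2.exists_card_eq
      rw [Nat.card_congr e.toEquiv, H5.KB.card_A4] at hk
      exact absurd (Nat.Prime.dvd_of_dvd_pow (m := 2) (n := k) Nat.prime_three (by rw [← hk]; norm_num)) (by norm_num)
  intro h H h1 h2
  obtain ⟨S₀⟩ : Nonempty (Sylow 2 H) := inferInstance
  haveI := h1 S₀
  have hS := syl_of_sylow S₀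
  have nS := map_le_normalizer_map H.subtype (top_le_normalizer (S₀ : Subgroup H))
  obtain ⟨g, -, g2⟩ := exists_le_sup_zpowers_of_isCyclic_map (QuotientGroup.mk' (S₀ : Subgroup H)) (T := ⊤)
    (by haveI := h2 S₀; infer_instance)
  replace g2 := map_mono (f := H.subtype) g2
  rw [QuotientGroup.ker_mk', Subgroup.map_sup, MonoidHom.map_zpowers] at g2
  rw [map_top_subtype] at nS g2
  generalize (S₀ : Subgroup H).map H.subtype = S at hS nS g2
  obtain ⟨a, a1, b, b1, e, ⟨k, hk⟩, ob⟩ := exists_p_part 2 (H.subtype g)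
  have gl : zpowers (H.subtype g) ≤ H := zpowers_le.2 g.2
  have eH : H = S ⊔ zpowers b := le_antisymm (g2.trans (sup_le le_sup_left (zpowers_le.2 (e ▸ mul_mem
    (mem_sup_left (hS.le_of_le_normalizer (isPGroup_zpowers_of_pow (hk ▸ pow_orderOf_eq_one a))
      (zpowers_le.2 (gl a1)) (Or.inl ((zpowers_le.2 (gl a1)).trans nS)) (mem_zpowers a)))
    (mem_sup_right (mem_zpowers b)))))) (sup_le hS.le (zpowers_le.2 (gl b1)))
  have bn := nS (gl b1)
  rw [eH]
  by_cases cy : IsCyclic S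
  · exact Or.inl (cyc hS.isP cy (cop_iff.2 ob) bn)
  right
  obtain ⟨c, -, hc⟩ := hP.exists_le_cj hS.isP le_top
  rcases h with h | ⟨⟨n, -, ⟨e⟩⟩, h⟩
  · haveI := (cjEquiv c (P : Subgroup G)).isCyclic.1 h
    exact absurd (isCyclic_of_le hc) cy
  replace e := (cjEquiv c (P : Subgroup G)).symm.trans e
  let t : G := e.symm (.r 1)
  have k1 : ∀ s ∈ cj c (P : Subgroup G), s ∉ zpowers t → s * s = 1 := fun s hs c => by
    obtain ⟨d, hd⟩ := e.symm.surjective ⟨s, hs⟩
    obtain rfl : (e.symm d : G) = s := congrArg Subtype.val hd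
    rcases d with i | i
    · refine absurd ⟨(i.val : ℕ), ?_⟩ c
      simp only [t, zpow_natCast]
      rw [← Subgroup.coe_pow, ← map_pow, DihedralGroup.r_one_pow, ZMod.natCast_zmod_val]
    · rw [← Subgroup.coe_mul, ← map_mul, DihedralGroup.sr_mul_self, map_one]; rfl
  have k2 : (zpowers t).relIndex (cj c (P : Subgroup G)) = 2 := by
    have := relIndex_mul_card (zpowers_le.2 (e.symm (.r 1)).2)
    rw [Nat.card_congr e.toEquiv, DihedralGroup.nat_card, Nat.card_zpowers, orderOf_coe, MulEquiv.orderOf_eq,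
      DihedralGroup.orderOf_r_one] at this
    exact Nat.eq_of_mul_eq_mul_right (Nat.two_pow_pos n) this
  obtain ⟨r, r1, r2⟩ := exists_eq_zpowers_of_isCyclic' (isCyclic_of_le_zpowers' (inf_le_left : zpowers t ⊓ S ≤ _))
  refine dih (fun K k1 k2 => ?_) hS.isP cy r1.2 ?_ (fun s hs d => k1 s (hc hs) fun d' => d (r2.ge ⟨d', hs⟩))
    (cop_iff.2 ob) bn
  · obtain ⟨c, -, hc⟩ := hP.exists_cj_le (isPGroup_of_elem k2) le_top
    have := h _ hc (by rwa [card_cj]) fun x hx => by
      have := k2 _ (mem_cj.1 hx)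
      rwa [← inv_inv c, inv_inv c⁻¹, conj_pow, mul_inv_eq_one, mul_eq_left] at this
    rw [← cj_centralizer] at this
    exact le_antisymm (cj_le_cj_iff.1 this.le) (cj_le_cj_iff.1 this.ge)
  · rw [r2, inf_relIndex_right]
    have := relIndex_le_of_le_right (H := zpowers t) hc (by rw [k2]; omega)
    have : (zpowers t).relIndex S ≠ 0 := index_ne_zero_of_finite
    have : (zpowers t).relIndex S ≠ 1 := fun d => cy (isCyclic_of_le_zpowers' (relIndex_eq_one.1 d))
    omega

end Cfsg.Agent.S4083
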