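import Cfsg.Statements.S4084
import Cfsg.Agent.H1.Misc2

set_option autoImplicit false
open Cfsg

namespace Cfsg.Agent.S4084

open H1
theorem aux {G H : Type*} [Group G] [Finite G] [Group H] [Finite H] (e : G ≃ H)
    (he : ∀ x y : G, Commute x y ↔ Commute (e x) (e y))
    {p q : ℕ} (hp : p.Prime) (hq : q.Prime) (hpq : p ≠ q) :
    (∃ g : G, orderOf g = p * q) → (∃ h : H, orderOf h = p * q) := by
  rintro ⟨g, hg⟩
  set A := Subgroup.centralizer ((Subgroup.centralizer {g} : Subgroup G) : Set G)
  set B := Subgroup.centralizer ((Subgroup.centralizer {e g} : Subgroup H) : Set H)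
  have hAB : ∀ x, x ∈ A ↔ e x ∈ B := by
    intro x
    simp only [A, B, Subgroup.mem_centralizer_iff, SetLike.mem_coe, Set.mem_singleton_iff, forall_eq]
    constructor
    · intro h y hy
      obtain ⟨y, rfl⟩ := e.surjective y
      exact (he _ _).1 (h y ((he _ _).2 hy))
    · intro h y hy
      exact (he _ _).2 (h _ ((he _ _).1 hy))
  have hc : Nat.card A = Nat.card B := Nat.card_congr (e.subtypeEquiv hAB)
  have hgA : g ∈ A := H9.le_centralizer_singleton_iff.1 le_rfl
  have hd : p * q ∣ Nat.card B := hc ▸ hg ▸ orderOf_dvd_card_of_mem hgA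
  obtain ⟨x, hx, hxp⟩ := exists_mem_orderOf_eq_prime hp ((Dvd.intro _ rfl).trans hd)
  obtain ⟨y, hy, hyq⟩ := exists_mem_orderOf_eq_prime hq ((Dvd.intro_left _ rfl).trans hd)
  have h1 : x ∈ Subgroup.centralizer {e g} := by
    rw [Subgroup.mem_centralizer_singleton_iff]
    exact (hx _ (Subgroup.mem_centralizer_singleton_iff.2 rfl)).symm
  refine ⟨x * y, ?_⟩
  rw [Commute.orderOf_mul_eq_mul_orderOf_of_coprime (hy x h1) (by
    rw [hxp, hyq]; exact (Nat.coprime_primes hp hq).2 hpq), hxp, hyq]

/-- Let G and H be finite groups whose commuting graphs are isomorphic: there is a bijection e : G → H with x, y commuting exactly when e(x), e(y) commute. Then G and H have the same prime graph: for distinct primes p, q, G has an element of order pq if and only if H does (and #G = #H, so the prime divisors agree). -/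
theorem result {G H : Type*} [Group G] [Finite G] [Group H] [Finite H] (e : G ≃ H)
    (he : ∀ x y : G, Commute x y ↔ Commute (e x) (e y))
    {p q : ℕ} (hp : p.Prime) (hq : q.Prime) (hpq : p ≠ q) :
    (∃ g : G, orderOf g = p * q) ↔ (∃ h : H, orderOf h = p * q) := by
  exact ⟨aux e he hp hq hpq, aux e.symm (fun x y => by rw [he]; simp) hp hq hpq⟩

end Cfsg.Agent.S4084
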