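import Cfsg.Statements.S4085
import Cfsg.Agent.H9.PwG

set_option autoImplicit false
open Cfsg

namespace Cfsg.Agent.S4085

section
open H9 Subgroup
open scoped commutatorElement
theorem aux {G H : Type*} [Group G] [Finite G] [Group H] [Finite H] (e : G ≃ H)
    (he : ∀ x y, H9.PwG.Adj x y ↔ H9.PwG.Adj (e x) (e y)) {p q : ℕ} (hp : p.Prime) (hq : q.Prime) (hpq : p ≠ q)
    (h : ∃ g : G, orderOf g = p * q) : ∃ h : H, orderOf h = p * q := by
  obtain ⟨g, h⟩ := h
  have : ∃ k : H, p * q ∣ orderOf k := hpq.lt_or_gt.elim (fun c => H9.PwG.main e he hp hq c h)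
    fun c => mul_comm q p ▸ H9.PwG.main e he hq hp c (h.trans (mul_comm p q))
  obtain ⟨k, hk⟩ := this
  obtain ⟨y, -, e⟩ := H1.exists_pow_orderOf_eq hk
  exact ⟨y, e⟩
end

/-- Let G and H be finite groups whose power graphs are isomorphic: there is a bijection e : G → H such that, for all x, y, one of x, y is a power of the other exactly when one of e(x), e(y) is a power of the other. Then G and H have the same prime graph: for distinct primes p, q, G has an element of order pq if and only if H does. -/
theorem result {G H : Type*} [Group G] [Finite G] [Group H] [Finite H] (e : G ≃ H)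
    (he : ∀ x y : G, (x ∈ Subgroup.zpowers y ∨ y ∈ Subgroup.zpowers x) ↔
      (e x ∈ Subgroup.zpowers (e y) ∨ e y ∈ Subgroup.zpowers (e x)))
    {p q : ℕ} (hp : p.Prime) (hq : q.Prime) (hpq : p ≠ q) :
    (∃ g : G, orderOf g = p * q) ↔ (∃ h : H, orderOf h = p * q) := by
  open H9 Subgroup in open scoped commutatorElement in
  refine ⟨aux e he hp hq hpq, aux e.symm (fun x y => ?_) hp hq hpq⟩
  have := he (e.symm x) (e.symm y)
  rw [e.apply_symm_apply, e.apply_symm_apply] at this
  exact this.symm

end Cfsg.Agent.S4085
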