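import Cfsg.Statements.S4086
import Cfsg.Agent.H1.Misc2

set_option autoImplicit false
open Cfsg

namespace Cfsg.Agent.S4086

open H1

/-- For a finite group G the following are equivalent: every non-identity element has prime-power order; whenever two elements generate a cyclic subgroup, one of them is a power of the other (the enhanced power graph of G coincides with its power graph). -/
theorem result {G : Type*} [Group G] [Finite G] :
    (∀ g : G, g ≠ 1 → IsPrimePow (orderOf g)) ↔
    (∀ x y : G, IsCyclic ↥(Subgroup.closure ({x, y} : Set G)) → (x ∈ Subgroup.zpowers y ∨ y ∈ Subgroup.zpowers x)) := by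
  constructor
  · intro h x y hc
    obtain ⟨c, -, hc'⟩ := exists_eq_zpowers_of_isCyclic hc
    have hx : Subgroup.zpowers x ≤ Subgroup.closure {x, y} := Subgroup.zpowers_le.2 (Subgroup.subset_closure (by simp))
    have hy : Subgroup.zpowers y ≤ Subgroup.closure {x, y} := Subgroup.zpowers_le.2 (Subgroup.subset_closure (by simp))
    have : ∃ p k : ℕ, p.Prime ∧ orderOf c = p ^ k := by
      by_cases h1 : c = 1
      · exact ⟨2, 0, Nat.prime_two, by simp [h1]⟩
      · obtain ⟨p, k, hp, -, e⟩ := (isPrimePow_nat_iff _).1 (h c h1)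
        exact ⟨p, k, hp, e.symm⟩
    obtain ⟨p, k, hp, e⟩ := this
    have h1 := Subgroup.card_dvd_of_le hx
    have h2 := Subgroup.card_dvd_of_le hy
    rw [← hc', Nat.card_zpowers c, e, Nat.dvd_prime_pow hp] at h1 h2
    obtain ⟨i, -, hi⟩ := h1
    obtain ⟨j, -, hj⟩ := h2
    rcases le_total i j with h3 | h3
    · exact Or.inl (le_of_card_dvd_of_isCyclic hc hx hy (by rw [hi, hj]; exact pow_dvd_pow p h3)
        (Subgroup.mem_zpowers x))
    · exact Or.inr (le_of_card_dvd_of_isCyclic hc hy hx (by rw [hi, hj]; exact pow_dvd_pow p h3)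
        (Subgroup.mem_zpowers y))
  · intro h g hg
    have h1 : orderOf g ≠ 1 := by simpa using hg
    rw [isPrimePow_iff_unique_prime_dvd]
    refine ⟨(orderOf g).minFac, ⟨Nat.minFac_prime h1, Nat.minFac_dvd _⟩, ?_⟩
    rintro q ⟨hq, hd⟩
    obtain ⟨x, hx, hxq⟩ := exists_pow_orderOf_eq hd
    obtain ⟨y, hy, hyq⟩ := exists_pow_orderOf_eq (Nat.minFac_dvd (orderOf g))
    rcases h x y (isCyclic_of_le_zpowers (a := g) (by
      rw [Subgroup.closure_le]; rintro z (rfl | rfl); exacts [hx, hy])) with h2 | h2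
    · exact (Nat.prime_dvd_prime_iff_eq hq (Nat.minFac_prime h1)).1 (hxq ▸ hyq ▸ orderOf_dvd_of_mem_zpowers h2)
    · exact ((Nat.prime_dvd_prime_iff_eq (Nat.minFac_prime h1) hq).1
        (hxq ▸ hyq ▸ orderOf_dvd_of_mem_zpowers h2)).symm

end Cfsg.Agent.S4086
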