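import Cfsg.Statements.S4089
import Cfsg.Agent.H1.Cores
import Cfsg.Agent.H1.Frattini
import Cfsg.Agent.H1.SylowIn

set_option autoImplicit false
open Cfsg

namespace Cfsg.Agent.S4089

open scoped Pointwise
open H1
open Subgroup

theorem nm {G : Type*} [Group G] (L : Subgroup G) (K : Subgroup L) [K.Normal] :
    L ≤ normalizer (K.map L.subtype : Set G) := by
  have := le_normalizer_map L.subtype (A := ⊤) (K := K) le_normalizer_of_normal
  rwa [← MonoidHom.range_eq_map, range_subtype] at this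

theorem sn_iff {G : Type*} [Group G] [Finite G] {p : ℕ} [Fact p.Prime] {H : Subgroup G}
    (hH : IsPGroup p H) (g : G) : (H.subgroupOf (H ⊔ zpowers g)).IsSubnormal ↔
      ∃ R : Subgroup G, H ≤ R ∧ IsPGroup p R ∧ g ∈ normalizer (R : Set G) := by
  set L := H ⊔ zpowers g
  constructor
  · intro h
    refine ⟨(pCore p L).map L.subtype, ?_, map_subtype_pCore_isPGroup L, ?_⟩
    · have := le_pCore_of_subnormal h (hH.of_equiv (subgroupOfEquivOfLe le_sup_left).symm)
      exact fun x hx => ⟨⟨x, mem_sup_left hx⟩, this hx, rfl⟩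
    · exact nm _ _ (mem_sup_right (mem_zpowers g))
  · rintro ⟨R, h1, h2, h3⟩
    have h4 : L ≤ normalizer (R : Set G) := sup_le (h1.trans le_normalizer) (zpowers_le_of_mem h3)
    haveI : (R.subgroupOf L).Normal := (normal_subgroupOf_iff_le_normalizer_inf).2
      (le_normalizer_inf h4 le_normalizer)
    haveI : Group.IsNilpotent (R.subgroupOf L) :=
      (h2.comap_of_injective L.subtype L.subtype_injective).isNilpotent
    exact IsSubnormal.trans (subgroupOf_mono L h1) (isSubnormal_of_nilpotent _)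
      (Normal.isSubnormal inferInstance)

theorem exists_max {G : Type*} [Group G] [Finite G] {p : ℕ} {H : Subgroup G} {g : G}
    (h : ∃ R : Subgroup G, H ≤ R ∧ IsPGroup p R ∧ g ∈ normalizer (R : Set G)) :
    ∃ R : Subgroup G, H ≤ R ∧ IsPGroup p R ∧ g ∈ normalizer (R : Set G) ∧
      ∀ T, R ≤ T → IsPGroup p T → g ∈ normalizer (T : Set G) → T ≤ R := by
  obtain ⟨R, h1, h2⟩ := h
  obtain ⟨T, t1, t2⟩ := Finite.exists_le_maximal
    (p := fun T : Subgroup G => IsPGroup p T ∧ g ∈ normalizer (T : Set G)) h2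
  exact ⟨T, h1.trans t1, t2.prop.1, t2.prop.2, fun U a b c => t2.le_of_ge ⟨b, c⟩ a⟩

/-- Let G be a finite group, p a prime and H a p-subgroup of G. Then the set of elements g of G such that H is subnormal in the subgroup generated by H and g is the union of the normalizers N_G(R) over the subgroups R of G containing H with R = O_p(N_G(R)); and this set does not change when H is replaced by the intersection of all Sylow p-subgroups of G containing H. -/
theorem result {G : Type*} [Group G] [Finite G] (p : ℕ) [Fact p.Prime]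
    (H : Subgroup G) (hH : IsPGroup p H) :
    {g : G | ((H).subgroupOf (H ⊔ Subgroup.zpowers g)).IsSubnormal} =
      {g : G | ∃ R : Subgroup G, H ≤ R ∧ (Cfsg.pCore p (Subgroup.normalizer (R : Set G))).map (Subgroup.normalizer (R : Set G)).subtype = R ∧ g ∈ Subgroup.normalizer (R : Set G)} ∧
    ∀ g : G, (((H).subgroupOf (H ⊔ Subgroup.zpowers g)).IsSubnormal ↔
      (((sInf {K : Subgroup G | ∃ Q : Sylow p G, H ≤ (Q : Subgroup G) ∧ K = (Q : Subgroup G)})).subgroupOf ((sInf {K : Subgroup G | ∃ Q : Sylow p G, H ≤ (Q : Subgroup G) ∧ K = (Q : Subgroup G)}) ⊔ Subgroup.zpowers g)).IsSubnormal) := by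
  have hp : ∀ K : Subgroup G, IsPGroup p K → K ≤ sInf {L : Subgroup G | ∃ Q : Sylow p G,
      K ≤ (Q : Subgroup G) ∧ L = Q} ∧ IsPGroup p ↥(sInf {L : Subgroup G | ∃ Q : Sylow p G,
      K ≤ (Q : Subgroup G) ∧ L = Q}) := fun K hK => by
    obtain ⟨Q, hQ⟩ := hK.exists_le_sylow
    exact ⟨le_sInf (by rintro _ ⟨Q, h, rfl⟩; exact h), Q.isPGroup'.to_le (sInf_le ⟨Q, hQ, rfl⟩)⟩
  refine ⟨Set.ext fun g => ?_, fun g => ?_⟩
  · rw [Set.mem_setOf_eq, sn_iff hH]
    constructor
    · intro h
      obtain ⟨R, h1, h2, h3, h4⟩ := exists_max h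
      have h5 := le_map_subtype_pCore le_normalizer le_rfl h2
      exact ⟨R, h1, le_antisymm (h4 _ h5 (map_subtype_pCore_isPGroup _)
        (nm _ _ h3)) h5, h3⟩
    · rintro ⟨R, h1, h2, h3⟩
      exact ⟨R, h1, h2 ▸ map_subtype_pCore_isPGroup _, h3⟩
  · rw [sn_iff hH, sn_iff (hp H hH).2]
    refine ⟨fun h => ?_, fun ⟨R, h1, h2⟩ => ⟨R, (hp H hH).1.trans h1, h2⟩⟩
    obtain ⟨R, h1, h2, h3, h4⟩ := exists_max h
    refine ⟨R, le_trans (sInf_le_sInf ?_) (h4 _ (hp R h2).1 (hp R h2).2 ?_), h2, h3⟩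
    · rintro _ ⟨Q, h, rfl⟩; exact ⟨Q, h1.trans h, rfl⟩
    · refine mem_normalizer_fintype fun x hx => mem_sInf.2 ?_
      rintro _ ⟨Q, h, rfl⟩
      have := mem_sInf.1 hx _ ⟨g⁻¹ • Q, fun r hr => by
        rw [Sylow.coe_subgroup_smul, mem_pointwise_smul_iff_inv_smul_mem]
        simpa using h ((mem_normalizer_iff.1 h3 r).1 hr), rfl⟩
      rw [Sylow.coe_subgroup_smul, mem_pointwise_smul_iff_inv_smul_mem] at this
      simpa using this

end Cfsg.Agent.S4089
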