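import Cfsg.Statements.S4088
import Cfsg.Agent.H1.Cas
import Cfsg.Agent.S4089

set_option autoImplicit false
open Cfsg

namespace Cfsg.Agent.S4088

open scoped Pointwise
open H1
open Subgroup Pointwise

/-- Let G be a finite group, p a prime dividing the order of G, H a p-subgroup of G and P a Sylow p-subgroup of G. Call the subnormalizer of H the set of elements g of G such that H is subnormal in the subgroup generated by H and g. Then the number of elements of the subnormalizer of H equals the number of Sylow p-subgroups of G containing H times the order of N_G(P), and also equals the number of conjugates of H contained in P times the order of N_G(H). -/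
theorem result {G : Type*} [Group G] [Finite G] (p : ℕ) [Fact p.Prime]
    (hp : p ∣ Nat.card G) (H : Subgroup G) (hH : IsPGroup p H) (P : Sylow p G) :
    Nat.card {g : G // ((H).subgroupOf (H ⊔ Subgroup.zpowers g)).IsSubnormal} =
        Nat.card {Q : Sylow p G // H ≤ (Q : Subgroup G)} * Nat.card (Subgroup.normalizer ((P : Subgroup G) : Set G)) ∧
    Nat.card {g : G // ((H).subgroupOf (H ⊔ Subgroup.zpowers g)).IsSubnormal} =
        Nat.card {K : Subgroup G // K ≤ (P : Subgroup G) ∧ ∃ g : G, K = H.map (MulAut.conj g).toMonoidHom} *
          Nat.card (Subgroup.normalizer (H : Set G)) := by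
  classical
  haveI := Fintype.ofFinite G
  have h1 : Nat.card {g : G // ((H).subgroupOf (H ⊔ Subgroup.zpowers g)).IsSubnormal} =
      Nat.card {g : G // H ≤ MulAut.conj g • (P : Subgroup G)} := by
    have := casolo ⊤ P (isSylowIn_top P) H le_top hH
    simp only [mem_top, true_and] at this
    rw [Nat.card_eq_fintype_card, Nat.card_eq_fintype_card, Fintype.card_subtype,
      Fintype.card_subtype, ← this]
    congr 1; ext g
    simp only [Finset.mem_filter, Finset.mem_univ, true_and]
    exact S4089.sn_iff hH g
  rw [h1]
  constructor
  · rw [show normalizer ((P : Subgroup G) : Set G) = _ from P.stabilizer_eq_normalizer.symm]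
    refine (card_smul_mem P {Q : Sylow p G | H ≤ Q}).trans ?_
    congr 1
    exact Nat.card_congr (Equiv.subtypeEquivRight fun Q => ⟨fun h => h.1, fun h =>
      ⟨h, (MulAction.exists_smul_eq G P Q).imp fun g h => h.symm⟩⟩)
  · letI : MulAction G (Subgroup G) := MulAction.compHom _ (MulAut.conj (G := G))
    have := card_smul_mem (G := G) H {K | K ≤ P}
    rw [show MulAction.stabilizer G H = normalizer (H : Set G) from
      Subgroup.ext fun g => conj_smul_eq_self_iff] at this
    refine Eq.trans ?_ this
    refine Nat.card_congr ((Equiv.inv G).subtypeEquiv fun g => ?_)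
    change _ ↔ MulAut.conj g⁻¹ • H ≤ P
    rw [map_inv, ← subset_pointwise_smul_iff]

end Cfsg.Agent.S4088
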