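import Cfsg.Statements.S4090
import Cfsg.Agent.H1.Cas
import Cfsg.Agent.S4089
import Cfsg.Agent.L.PG1

set_option autoImplicit false
open scoped BigOperators
open Cfsg

namespace Cfsg.Agent.S4090

open scoped Pointwise
open H1
open Subgroup Pointwise

theorem tele (n : ℕ) : ∀ (x : Fin (n + 1) → ℕ) (a c : Fin n → ℕ),
    (∀ i, x i.castSucc * a i = x i.succ * c i) → x 0 * ∏ i, a i = x (Fin.last n) * ∏ i, c i := by
  induction n with
  | zero => intro x a c _; simp
  | succ n ih =>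
    intro x a c h
    have := ih (fun i => x i.succ) (fun i => a i.succ) (fun i => c i.succ) fun i => h i.succ
    rw [Fin.prod_univ_succ, Fin.prod_univ_succ, ← mul_assoc, show x 0 * a 0 = _ from h 0,
      mul_right_comm, this, Fin.succ_last]
    ring

section
variable {G : Type*} [Group G] [Finite G] {p : ℕ} [Fact p.Prime] {M N : Subgroup G} [M.Normal]
  [N.Normal]

theorem le_p (h : M ≤ N) {m : ℕ} (hm : M.relIndex N = p ^ m) (Q : Sylow p G) :
    N ≤ (Q : Subgroup G) ⊔ M := by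
  have h1 := sylow_inf_normal Q N
  have h2 : (Q : Subgroup G) ⊓ N ⊔ M ≤ N := sup_le inf_le_right h
  have h3 := h1.not_dvd_relIndex_of_le (M := (Q : Subgroup G) ⊓ N ⊔ M) le_sup_left
  obtain ⟨j, -, hj⟩ := (Nat.dvd_prime_pow Fact.out).1 (hm ▸ relIndex_dvd_of_le_left N
    (le_sup_right : M ≤ (Q : Subgroup G) ⊓ N ⊔ M))
  rcases j with _ | j
  · exact (relIndex_eq_one.1 hj).trans (sup_le_sup_right inf_le_left _)
  · exact absurd (hj ▸ dvd_pow_self p j.succ_ne_zero) h3

theorem le_p' (h : M ≤ N) (hm : (M.relIndex N).Coprime p) (Q : Sylow p G) : (Q : Subgroup G) ⊓ N ≤ M :=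
  (H9.SN.of_normal h le_normalizer_of_normal).le_of_not_dvd
    ((Nat.Prime.coprime_iff_not_dvd Fact.out).1 hm.symm) (Q.isPGroup'.to_le inf_le_left) inf_le_right

theorem step (h : M ≤ N) (hm : (M.relIndex N).Coprime p) (P : Sylow p G) {H : Subgroup G}
    (hH : IsPGroup p H) : Nat.card {g : G // ∀ h ∈ H, g⁻¹ * h * g ∈ (P : Subgroup G) ⊔ M} * Nat.card N =
      Nat.card {g : G // ∀ h ∈ H, g⁻¹ * h * g ∈ (P : Subgroup G) ⊔ N} *
        Nat.card {u : G // u ∈ N ∧ ∀ h ∈ H, h * u * h⁻¹ * u⁻¹ ∈ M} := by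
  have ex : ∀ g : {g : G // ∀ h ∈ H, g⁻¹ * h * g ∈ (P : Subgroup G) ⊔ N}, ∃ n ∈ N, ∀ h ∈ H,
      (g * n)⁻¹ * h * (g * n) ∈ (P : Subgroup G) := fun g => by
    obtain ⟨x, hx, e⟩ := ((isSylowIn_top P).of_le le_sup_left le_top).exists_conj_le
      (U := H.map (MulAut.conj g.1⁻¹).toMonoidHom) (hH.map _)
      (by rintro _ ⟨h, hh, rfl⟩; simpa using g.2 h hh)
    obtain ⟨q, hq, n, hn, rfl⟩ := mem_sup_of_normal_right.1 hx
    refine ⟨n⁻¹, inv_mem hn, fun h hh => ?_⟩
    have := mul_mem (mul_mem (inv_mem hq) (e (smul_mem_pointwise_smul _ _ _ (mem_map_of_mem _ hh)))) hq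
    simpa [mul_assoc] using this
  choose c c1 c2 using ex
  have hM := ‹M.Normal›
  have hN := ‹N.Normal›
  rw [← Nat.card_prod, ← Nat.card_prod]
  have w : ∀ (g : {g : G // ∀ h ∈ H, g⁻¹ * h * g ∈ (P : Subgroup G) ⊔ N})
      (u : {u : G // u ∈ N ∧ ∀ h ∈ H, h * u * h⁻¹ * u⁻¹ ∈ M}), ∀ h ∈ H,
      (u.1 * (g.1 * c g))⁻¹ * h * (u.1 * (g.1 * c g)) ∈ (P : Subgroup G) ⊔ M := fun g u h hh => by
    have := mul_mem_sup (c2 g h hh) (hM.conj_mem' _ (inv_mem (u.2.2 h⁻¹ (inv_mem hh)))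
      (u.1 * (g.1 * c g)))
    convert this using 1; group
  refine (Nat.card_congr (Equiv.ofBijective (fun y => (⟨y.2.1 * (y.1.1 * c y.1), w y.1 y.2⟩,
    ⟨y.1.1⁻¹ * y.2.1 * y.1.1 * c y.1, mul_mem (hN.conj_mem' _ y.2.2.1 _) (c1 _)⟩)) ⟨?_, ?_⟩)).symm
  · rintro ⟨g, u⟩ ⟨g', u'⟩ e
    obtain ⟨e1, e2⟩ := Prod.mk.inj e
    have e3 : g.1⁻¹ * u.1 * g.1 * c g = g'.1⁻¹ * u'.1 * g'.1 * c g' := congrArg Subtype.val e2
    have e4 : u.1 * (g.1 * c g) = u'.1 * (g'.1 * c g') := congrArg Subtype.val e1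
    obtain rfl : g = g' := Subtype.ext (inv_injective (mul_right_cancel (b := u.1 * (g.1 * c g)) (by
      rw [← mul_assoc, ← mul_assoc, e3, e4]; group)))
    rw [Subtype.ext (mul_right_cancel e4)]
  · rintro ⟨⟨x, hx⟩, ⟨n, hn⟩⟩
    have h2 : ∀ h ∈ H, (x * n⁻¹)⁻¹ * h * (x * n⁻¹) ∈ (P : Subgroup G) ⊔ N := fun h hh => by
      have := mul_mem (mul_mem (mem_sup_right hn) (sup_le_sup_left ‹M ≤ N› _ (hx h hh)))
        (mem_sup_right (inv_mem hn))
      convert this using 1; group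
    set y := x * n⁻¹ * c ⟨_, h2⟩ with hy
    have h3 : x * y⁻¹ ∈ N := by
      have := hN.conj_mem _ (mul_mem (inv_mem (c1 ⟨_, h2⟩)) hn) x
      convert this using 1; rw [hy]; group
    refine ⟨(⟨_, h2⟩, ⟨x * y⁻¹, h3, fun h hh => ?_⟩), Prod.ext (Subtype.ext ?_) (Subtype.ext ?_)⟩
    · obtain ⟨q, hq, m, hm', e⟩ := mem_sup_of_normal_right.1 (mul_mem (inv_mem (mem_sup_left
        (c2 ⟨_, h2⟩ h⁻¹ (inv_mem hh)))) (hx h⁻¹ (inv_mem hh)))
      have h4 : q * m ∈ N := by
        have := hN.conj_mem' _ (mul_mem (hN.conj_mem _ (inv_mem h3) h) h3) y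
        convert this using 1; rw [e, ← hy]; group
      have h5 := mul_mem (le_p' ‹M ≤ N› hm P ⟨hq, (mul_mem_cancel_right (‹M ≤ N› hm')).1 h4⟩) hm'
      have := inv_mem (hM.conj_mem _ h5 x)
      convert this using 1; rw [e, ← hy]; group
    · change x * y⁻¹ * y = x; group
    · change (x * n⁻¹)⁻¹ * (x * y⁻¹) * (x * n⁻¹) * _ = n
      rw [mul_assoc, ← hy]; group

end

/-- Let G be a finite p-solvable group, H a p-subgroup of G and P a Sylow p-subgroup, and fix a chain of normal subgroups 1 = M₀ ≤ M₁ ≤ ⋯ ≤ Mₙ = G of G each of whose factors is a p-group or a p'-group. Then the number of elements g of G such that H is subnormal in the subgroup generated by H and g equals the order of P times the product, over the factors Mᵢ₊₁/Mᵢ of order prime to p, of the order of the centralizer of H in Mᵢ₊₁/Mᵢ (counted as the number of u ∈ Mᵢ₊₁ with [h, u] ∈ Mᵢ for all h ∈ H, divided by the order of Mᵢ). -/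
theorem result {G : Type*} [Group G] [Finite G] (p : ℕ) [Fact p.Prime]
    (hG : Cfsg.IsPSolvable p G) (H : Subgroup G) (hH : IsPGroup p H) (P : Sylow p G)
    (n : ℕ) (M : Fin (n + 1) → Subgroup G) (h0 : M 0 = ⊥) (hn : M (Fin.last n) = ⊤) (hmono : Monotone M)
    (hnormal : ∀ i, (M i).Normal)
    (hfac : ∀ i : Fin n, (∃ m : ℕ, (M i.castSucc).relIndex (M i.succ) = p ^ m) ∨ ((M i.castSucc).relIndex (M i.succ)).Coprime p) :
    Nat.card {g : G // ((H).subgroupOf (H ⊔ Subgroup.zpowers g)).IsSubnormal} =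
      Nat.card (P : Subgroup G) *
        ∏ i : Fin n, (if ((M i.castSucc).relIndex (M i.succ)).Coprime p then
          Nat.card {u : G // u ∈ M i.succ ∧ ∀ h ∈ H, h * u * h⁻¹ * u⁻¹ ∈ M i.castSucc} / Nat.card (M i.castSucc)
          else 1) := by
  classical
  haveI := Fintype.ofFinite G
  have hle : ∀ i : Fin n, M i.castSucc ≤ M i.succ := fun i => hmono (Fin.castSucc_le_succ i)
  let a : Fin n → ℕ := fun i => if ((M i.castSucc).relIndex (M i.succ)).Coprime p then
    (M i.castSucc).relIndex (M i.succ) else 1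
  have eq : ∀ i : Fin n, ¬ ((M i.castSucc).relIndex (M i.succ)).Coprime p →
      (P : Subgroup G) ⊔ M i.castSucc = (P : Subgroup G) ⊔ M i.succ := fun i h => by
    obtain ⟨m, hm⟩ := (hfac i).resolve_right h
    exact le_antisymm (sup_le_sup_left (hle i) _) (sup_le le_sup_left (le_p (hle i) hm P))
  have h1 := tele n (fun i => Nat.card {g : G // ∀ h ∈ H, g⁻¹ * h * g ∈ (P : Subgroup G) ⊔ M i}) a
    (fun i => if ((M i.castSucc).relIndex (M i.succ)).Coprime p then
      Nat.card {u : G // u ∈ M i.succ ∧ ∀ h ∈ H, h * u * h⁻¹ * u⁻¹ ∈ M i.castSucc} /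
        Nat.card (M i.castSucc) else 1) fun i => by
    simp only [a]
    split_ifs with h
    · have h2 := step (hle i) h P hH
      let C : Subgroup G :=
        { carrier := {u | u ∈ M i.succ ∧ ∀ h ∈ H, h * u * h⁻¹ * u⁻¹ ∈ M i.castSucc}
          one_mem' := ⟨one_mem _, fun h _ => by simp⟩
          mul_mem' := fun {u v} hu hv => ⟨mul_mem hu.1 hv.1, fun h hh => by
            have := mul_mem (hu.2 h hh) ((hnormal _).conj_mem _ (hv.2 h hh) u)
            convert this using 1; group⟩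
          inv_mem' := fun {u} hu => ⟨inv_mem hu.1, fun h hh => by
            have := inv_mem ((hnormal _).conj_mem' _ (hu.2 h hh) u)
            convert this using 1; group⟩ }
      obtain ⟨k, hk⟩ := card_dvd_of_le (show M i.castSucc ≤ C from fun u hu =>
        ⟨hle i hu, fun h _ => mul_mem ((hnormal _).conj_mem _ hu h) (inv_mem hu)⟩)
      change Nat.card {u : G // u ∈ M i.succ ∧ ∀ h ∈ H, h * u * h⁻¹ * u⁻¹ ∈ M i.castSucc} = _ at hk
      rw [hk, ← card_mul_relIndex (hle i)] at h2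
      rw [hk, Nat.mul_div_cancel_left _ Nat.card_pos]
      exact Nat.eq_of_mul_eq_mul_left (Nat.card_pos (α := M i.castSucc)) (by linarith)
    · rw [eq i h]
  have h2 := tele n (fun i => Nat.card ↥((P : Subgroup G) ⊔ M i)) a (fun _ => 1) fun i => by
    simp only [a]
    split_ifs with h
    · have e1 := card_sup_mul_card_inf (H := (P : Subgroup G)) (K := M i.castSucc) le_normalizer_of_normal
      have e2 := card_sup_mul_card_inf (H := (P : Subgroup G)) (K := M i.succ) le_normalizer_of_normal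
      rw [le_antisymm (le_inf inf_le_left (le_p' (hle i) h P)) (inf_le_inf_left _ (hle i)),
        ← card_mul_relIndex (hle i), ← mul_assoc, ← e1] at e2
      exact Nat.eq_of_mul_eq_mul_right (Nat.card_pos (α := ↥((P : Subgroup G) ⊓ M i.castSucc)))
        (by linarith)
    · rw [eq i h]
  simp only [h0, hn, sup_bot_eq, sup_top_eq, mem_top, implies_true, Finset.prod_const_one, mul_one,
    card_top, Nat.card_subtype_true] at h1 h2
  have h3 : Nat.card {g : G // ((H).subgroupOf (H ⊔ Subgroup.zpowers g)).IsSubnormal} =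
      Nat.card {g : G // ∀ h ∈ H, g⁻¹ * h * g ∈ (P : Subgroup G)} := by
    have := casolo ⊤ P (isSylowIn_top P) H le_top hH
    simp only [mem_top, true_and] at this
    rw [Nat.card_eq_fintype_card, Nat.card_eq_fintype_card, Fintype.card_subtype,
      Fintype.card_subtype]
    convert this using 3 with g _ g
    · exact S4089.sn_iff hH g
    · simp [SetLike.le_def, mem_pointwise_smul_iff_inv_smul_mem]
  have h4 : 0 < ∏ i, a i := Finset.prod_pos fun i _ => by
    simp only [a]; split_ifs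
    · exact L.relIndex_pos _ _
    · exact one_pos
  rw [h3]
  refine Nat.eq_of_mul_eq_mul_right h4 ?_
  rw [h1, ← h2]; ring

end Cfsg.Agent.S4090
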