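import Cfsg.Statements.S4092
import Cfsg.Agent.H1.Misc3

set_option autoImplicit false
open Cfsg

namespace Cfsg.Agent.S4092

open scoped Pointwise

open H1

/-- Let G be a finite group, p a prime and P a Sylow p-subgroup of G that is not normal in G. Then G has at least p·#P elements of p-power order (the identity included). -/
theorem result {G : Type*} [Group G] [Finite G] (p : ℕ) [Fact p.Prime]
    (P : Sylow p G) (hP : ¬ (P : Subgroup G).Normal) :
    p * Nat.card (P : Subgroup G) ≤ Nat.card {g : G // ∃ k : ℕ, orderOf g = p ^ k} := by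
  have hp : p.Prime := Fact.out
  obtain ⟨g, hg⟩ := exists_notMem (H := Subgroup.normalizer ((P : Subgroup G) : Set G))
    (fun h => hP (Subgroup.normalizer_eq_top_iff.1 h))
  obtain ⟨⟨S, Q⟩, hne, hmax⟩ := Set.exists_max_image {t : Sylow p G × Sylow p G | t.1 ≠ t.2}
    (fun t => Nat.card ((t.1 : Subgroup G) ⊓ (t.2 : Subgroup G) : Subgroup G)) (Set.toFinite _)
    ⟨(g • P, P), fun h => hg (Sylow.smul_eq_iff_mem_normalizer.1 h)⟩
  simp only [Set.mem_setOf_eq] at hne hmax
  set D := (S : Subgroup G) ⊓ (Q : Subgroup G) with hD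
  have hlt : D < S := lt_of_le_of_ne inf_le_left fun h => hne (Sylow.ext
    (S.is_maximal' Q.isPGroup' (h ▸ inf_le_right)).symm)
  obtain ⟨x, hx, hxD, hxp, -⟩ := L.exists_central_mod_pow (S.isPGroup'.to_le inf_le_right)
    (lt_normalizer_inf_of_isPGroup S.isPGroup' hlt) le_rfl inf_le_left Subgroup.le_normalizer
  have hint : ∀ A B : Sylow p G, A ≠ B → D ≤ A → D ≤ B → (A : Subgroup G) ⊓ B = D := fun A B h h1 h2 =>
    (Subgroup.eq_of_le_of_card_ge (le_inf h1 h2) (hmax (A, B) h)).symm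
  have hDi : ∀ i : ℕ, D ≤ (x ^ i • Q : Sylow p G) := fun i => by
    rw [sylow_coe_smul, ← conj_smul_eq_self_iff.2 (Subgroup.pow_mem _ hx.1 i)]
    exact conj_smul_mono _ inf_le_right
  have h1 : ∀ i : ℕ, x ^ i • Q ≠ S := fun i h => by
    rw [smul_eq_iff_eq_inv_smul, Sylow.smul_eq_iff_mem_normalizer.2
      (Subgroup.le_normalizer (Subgroup.inv_mem _ (Subgroup.pow_mem _ hx.2 i)))] at h
    exact hne h.symm
  have h2 : ∀ i j : ℕ, i < j → j < p → x ^ i • Q ≠ x ^ j • Q := fun i j hij hj h => by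
    obtain ⟨k, rfl⟩ := Nat.exists_eq_add_of_lt hij
    rw [add_assoc, pow_add, mul_smul, smul_left_cancel_iff, eq_comm, Sylow.smul_eq_iff_mem_normalizer] at h
    have h3 := (isSylowIn_top Q).mem_of_mem_normalizer (Subgroup.mem_top _)
      (exists_orderOf_eq_pow S.isPGroup' (Subgroup.pow_mem _ hx.2 _)) h
    obtain ⟨n, hn⟩ := exists_orderOf_eq_pow S.isPGroup' hx.2
    refine hxD (L.mem_of_pow_mem (m := k + 1) ⟨Subgroup.pow_mem _ hx.2 _, h3⟩ ?_)
    rw [hn]
    exact Nat.Coprime.pow_left _ ((Nat.coprime_of_lt_prime (by omega) (by omega) hp))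
  let f : (S : Subgroup G) ⊕ (Fin p × {y : G // y ∈ ((Q : Subgroup G) : Set G) \ D}) → {g : G // ∃ k : ℕ, orderOf g = p ^ k} :=
    fun t => match t with
      | Sum.inl y => ⟨y, exists_orderOf_eq_pow S.isPGroup' y.2⟩
      | Sum.inr (i, y) => ⟨x ^ (i : ℕ) * y * (x ^ (i : ℕ))⁻¹, by
          rw [orderOf_conj]; exact exists_orderOf_eq_pow Q.isPGroup' y.2.1⟩
  have h3 : ∀ (i : ℕ) (y : G), y ∉ D → x ^ i * y * (x ^ i)⁻¹ ∉ D := fun i y hy h => hy (by
    simpa [mul_assoc] using conj_mem_of_mem_normalizer' (Subgroup.pow_mem _ hx.1 i) h)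
  have h4 : ∀ (i : ℕ) (y : G), y ∈ (Q : Subgroup G) → x ^ i * y * (x ^ i)⁻¹ ∈ ((x ^ i • Q : Sylow p G) : Subgroup G) :=
    fun i y hy => conj_mem_conj_smul hy
  have hf : Function.Injective f := by
    rintro (a | ⟨i, a⟩) (b | ⟨j, b⟩) h <;> simp only [f, Subtype.mk.injEq] at h
    · rw [Subtype.ext h]
    · exact absurd ((hint _ _ (h1 j) (hDi j) inf_le_left).le ⟨h4 j b b.2.1, h ▸ a.2⟩) (h3 j b b.2.2)
    · exact absurd ((hint _ _ (h1 i) (hDi i) inf_le_left).le ⟨h4 i a a.2.1, h ▸ b.2⟩) (h3 i a a.2.2)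
    · have : i = j := by
        by_contra hij
        have h5 : x ^ (i : ℕ) • Q ≠ x ^ (j : ℕ) • Q := by
          rcases lt_or_gt_of_ne (Fin.val_ne_of_ne hij) with h6 | h6
          · exact h2 _ _ h6 j.2
          · exact (h2 _ _ h6 i.2).symm
        exact absurd ((hint _ _ h5 (hDi i) (hDi j)).le ⟨h4 i a a.2.1, h ▸ h4 j b b.2.1⟩) (h3 i a a.2.2)
      subst this
      rw [Subtype.ext (by simpa using h : (a : G) = b)]
  have h5 := Nat.card_le_card_of_injective f hf
  have h6 : Nat.card {y : G // y ∈ ((Q : Subgroup G) : Set G) \ D} + Nat.card D = Nat.card (Q : Subgroup G) :=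
    Set.ncard_diff_add_ncard_of_subset (s := (D : Set G)) (t := ((Q : Subgroup G) : Set G)) inf_le_right
  have h7 := L.mul_card_le_of_lt S.isPGroup' hlt
  have h8 : Nat.card (S : Subgroup G) = Nat.card (P : Subgroup G) := by rw [S.card_eq_multiplicity, P.card_eq_multiplicity]
  have h9 : Nat.card (Q : Subgroup G) = Nat.card (P : Subgroup G) := by rw [Q.card_eq_multiplicity, P.card_eq_multiplicity]
  rw [Nat.card_sum, Nat.card_prod, Nat.card_eq_fintype_card (α := Fin p), Fintype.card_fin, h8] at h5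
  rw [h8] at h7
  rw [h9] at h6
  nlinarith

end Cfsg.Agent.S4092
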