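import Cfsg.Statements.S4093
import Cfsg.Agent.H1.Misc3

set_option autoImplicit false
open scoped BigOperators
open Cfsg

namespace Cfsg.Agent.S4093

open H1 Finset

/-- Let G be a finite group with a normal subgroup N complementing a Sylow p-subgroup P (a normal p-complement). Then the number of elements of G of p-power order equals the sum over x ∈ P of the index of C_N(x) in N. -/
theorem result {G : Type*} [Group G] [Finite G] (p : ℕ) [Fact p.Prime]
    (P : Sylow p G) (N : Subgroup G) [N.Normal] (hNP : N.IsComplement' (P : Subgroup G)) :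
    Nat.card {g : G // ∃ k : ℕ, orderOf g = p ^ k} =
      ∑ᶠ x : (P : Subgroup G), Nat.card N / Nat.card ↥(N ⊓ Subgroup.centralizer ({(x : G)} : Set G)) := by
  classical
  haveI := Fintype.ofFinite G
  rw [finsum_eq_sum_of_fintype]
  have hc : (Nat.card (P : Subgroup G)).Coprime (Nat.card N) := by
    rw [← hNP.index_eq_card]; exact P.card_coprime_index
  have h1 : ∀ x : (P : Subgroup G), Nat.card N / Nat.card ↥(N ⊓ Subgroup.centralizer ({(x : G)} : Set G)) =
      Nat.card {y : G | ∃ g ∈ N, g * x * g⁻¹ = y} := by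
    intro x
    rw [← relIndex_centralizer_eq_card, ← card_inf_mul_relIndex (Subgroup.centralizer {(x : G)}) N, inf_comm,
      Nat.mul_div_cancel_left _ Nat.card_pos]
  simp only [h1]
  rw [← Nat.card_sigma]
  symm
  refine Nat.card_congr (Equiv.ofBijective (fun t => ⟨t.2.1, ?_⟩) ⟨?_, ?_⟩)
  · obtain ⟨x, y, g, -, rfl⟩ := t
    rw [orderOf_conj]; exact exists_orderOf_eq_pow P.isPGroup' x.2
  · rintro ⟨x, y, g, hg, e⟩ ⟨x', y', g', hg', e'⟩ h
    simp only [Subtype.mk.injEq] at h
    subst h
    have h2 : (x : G) = x' := by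
      refine (eq_of_mul_eq_mul (A := (P : Subgroup G)) (N := N) hNP.disjoint.symm.eq_bot
        (n := g * (x * g⁻¹ * (x : G)⁻¹)) (n' := g' * (x' * g'⁻¹ * (x' : G)⁻¹))
        (N.mul_mem hg (‹N.Normal›.conj_mem _ (N.inv_mem hg) _))
        (N.mul_mem hg' (‹N.Normal›.conj_mem _ (N.inv_mem hg') _)) x.2 x'.2 ?_).2
      calc _ = g * x * g⁻¹ := by group
        _ = g' * x' * g'⁻¹ := e.trans e'.symm
        _ = _ := by group
    obtain rfl : x = x' := Subtype.ext h2
    rfl
  · rintro ⟨y, hy⟩
    obtain ⟨n, hn, h2⟩ := exists_conj_le_of_coprime (A := (P : Subgroup G)) (N := N) (B := Subgroup.zpowers y)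
      Subgroup.le_normalizer_of_normal hNP.disjoint.symm.eq_bot (by rw [sup_comm, hNP.sup_eq_top]; exact le_top)
      (isPGroup_coprime' (isPGroup_zpowers_iff.2 hy) (by rw [← hNP.index_eq_card]; exact P.not_dvd_index))
      (Or.inl (isSolvable_zpowers y))
    exact ⟨⟨⟨_, h2 (conj_mem_conj_smul (Subgroup.mem_zpowers y))⟩, y, n⁻¹, N.inv_mem hn, by simp [mul_assoc]⟩, rfl⟩

end Cfsg.Agent.S4093
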