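import Cfsg.Statements.S4097
import Cfsg.Agent.H9.LB3
import Cfsg.Agent.H1.Thompson

set_option autoImplicit false
open Cfsg

namespace Cfsg.Agent.S4097

/-- Let A be a solvable subgroup of a finite group G such that A lies in the centre of every solvable subgroup of G containing A. Then A lies in the centre of G. -/
theorem result {G : Type*} [Group G] [Finite G]
    (A : Subgroup G) (hA : Group.IsSolvable A)
    (hc : ∀ S : Subgroup G, A ≤ S → Group.IsSolvable S → ∀ a ∈ A, ∀ s ∈ S, a * s = s * a) : A ≤ Subgroup.center G := by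
  open H9 Subgroup in open scoped commutatorElement in
  suffices h : ∀ A : Subgroup G, Group.IsSolvable A →
      (∀ S, A ≤ S → Group.IsSolvable S → S ≤ centralizer (A : Set G)) → ⊤ ≤ centralizer (A : Set G) from
    fun a ha => mem_center_iff.2 fun g => (h A hA (fun S h1 h2 s hs a ha => hc S h1 h2 a ha s hs) (mem_top g) a ha).symm
  refine card_induction (P := fun Δ _ _ => ∀ A : Subgroup Δ, Group.IsSolvable A →
      (∀ S, A ≤ S → Group.IsSolvable S → S ≤ centralizer (A : Set Δ)) → ⊤ ≤ centralizer (A : Set Δ))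
    (fun G _ _ ih A hA hc => by_contra fun hG => ?_) G
  have sub : ∀ H, A ≤ H → H ≠ ⊤ → H ≤ centralizer (A : Set G) := fun H h1 h2 x hx => by
    have := ih.subgroup h2 (A.subgroupOf H) (isSolvable_subgroupOf hA) (fun S a b => by
      rw [← subgroupOf_centralizer h1]
      exact map_le_iff_le_comap.1 (hc _ (by rw [← map_subgroupOf_eq_of_le h1]; exact map_mono a) (isSolvable_map _ b))) (mem_top ⟨x, hx⟩)
    rwa [← subgroupOf_centralizer h1] at this
  have nrm : ∀ N : Subgroup G, ⊤ ≤ normalizer (N : Set G) → Group.IsSolvable N → ¬ A ≤ N := fun N h1 h2 h3 =>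
    hG fun g _ => hc (zpowers g ⊔ N) (h3.trans le_sup_right) (isSolvable_sup (isSolvable_of_comm' inferInstance) h2
      (le_top.trans h1)) (mem_sup_left (mem_zpowers g))
  have R : ∀ N : Subgroup G, ⊤ ≤ normalizer (N : Set G) → Group.IsSolvable N → N = ⊥ := fun N h1 h2 => by_contra fun h0 => by
    obtain ⟨Γ, _, _, f, hf, hk, hcard⟩ := exists_quot (X := ⊤) le_top h1
    have := ih ⊤ Γ f hf (card_lt_of_mul_eq hcard h0) (im f A) (isSolvable_im f hA) fun S a b => by
      rw [← im_pre_surj f hf S]
      exact im_le_centralizer f (hc _ ((im_le_iff f le_top).1 a) (isSolvable_of_im f le_top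
        (by rwa [im_pre_surj f hf]) (isSolvable_of_le h2 (hk ▸ inf_le_left))))
    rw [← im_self f hf, im_le_centralizer_iff f le_top le_top, hk] at this
    refine nrm (A ⊔ N) ?_ (isSolvable_sup hA h2 (le_top.trans h1)) le_sup_left
    exact le_normalizer_iff_commutator_le_left.2 ((commutator_sup_le (le_top.trans h1) le_normalizer
      (by rwa [commutator_comm]) (commutator_le_left' h1)).trans le_sup_right)
  have AM := hc A le_rfl hA
  have A0 : A ≠ ⊥ := by rintro rfl; exact hG (by simp)
  have hF : IsFrobeniusComplement (centralizer (A : Set G)) := H1.isFrob_iff.2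
    ⟨fun e => A0 (le_bot_iff.1 (e ▸ AM)), fun e => hG e.ge, fun g y hy y1 hgy => by
      have c0 : ∀ y : G, y ≠ 1 → centralizer {y} ≠ ⊤ := fun y y1 e => y1 (mem_bot.1 (R (zpowers y)
        (by rw [← e, ← centralizer_zpowers]; exact centralizer_le_normalizer' _)
        (isSolvable_of_comm' inferInstance) ▸ mem_zpowers y))
      have a1 : cj g⁻¹ A ≤ centralizer (A : Set G) := (le_centralizer_singleton_iff.2 (by
        rw [← cj_centralizer, mem_cj]; simpa using hgy)).trans (sub _ (le_centralizer_singleton_iff.2 hy) (c0 y y1))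
      have a2 := sub _ (le_centralizer_iff.1 a1) (fun e => hG (by rw [← cj_centralizer, cj_eq_iff, cj_top] at e; exact e.ge))
      rw [← cj_centralizer] at a2
      refine sub _ (AM.trans le_normalizer) (fun e => nrm _ (normalizer_inf e.ge (normalizer_centralizer e.ge))
        (isSolvable_of_comm' ?_) (le_inf AM (le_centralizer_iff.1 le_rfl))) (inv_mem_iff.1 (mem_normalizer_of_cj_le a2))
      exact ⟨⟨fun a b => Subtype.ext (a.2.2 b b.2.1).symm⟩⟩⟩
  obtain ⟨N, h1, -, -, h3, h4, -⟩ := H1.IsFrob.exists_kernel hF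
  have := H1.isNilpotent_of_fpf (le_top.trans (top_le_normalizer _)) h3 hF.1
  exact h4 (R N (top_le_normalizer _) inferInstance)

end Cfsg.Agent.S4097
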