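import Cfsg.Statements.S4106
import Cfsg.Agent.H9.Syl
import Cfsg.Agent.H1.Misc

set_option autoImplicit false
open Cfsg

namespace Cfsg.Agent.S4106

open Subgroup H9
theorem aux {G : Type*} [Group G] [Finite G] (s : Finset ℕ) (hs : ∀ p ∈ s, p.Prime) : ∀ H : Subgroup G,
    ∃ R : Finset G, R.card ≤ ∏ p ∈ s, p ^ (Nat.card H).factorization p ∧
      ∀ g ∈ H, (∀ q : ℕ, q.Prime → q ∣ orderOf g → q ∈ s) → ∃ h ∈ H, h * g * h⁻¹ ∈ R := by
  classical
  induction s using Finset.induction_on with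
  | empty =>
    intro H
    refine ⟨{1}, by simp, fun g _ hg => ⟨1, one_mem _, ?_⟩⟩
    have : orderOf g = 1 := Nat.eq_one_iff_not_exists_prime_dvd.mpr fun q hq hd => by simpa using hg q hq hd
    simpa using this
  | insert p s hp ih =>
    intro H
    haveI : Fact p.Prime := ⟨hs p (Finset.mem_insert_self _ _)⟩
    choose R hR1 hR2 using ih fun q hq => hs q (Finset.mem_insert_of_mem hq)
    obtain ⟨P, hP⟩ := exists_syl p H
    let T : Finset G := (Set.toFinite (P : Set G)).toFinset
    have hT : T.card = p ^ (Nat.card H).factorization p := by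
      rw [← hP.card_eq, ← Set.ncard_eq_toFinset_card]; rfl
    refine ⟨T.biUnion fun u => (R (H ⊓ centralizer {u})).image (u * ·), ?_, fun g hg hq => ?_⟩
    · rw [Finset.prod_insert hp, ← hT]
      refine Finset.card_biUnion_le_card_mul _ _ _ fun u _ => Finset.card_image_le.trans ((hR1 _).trans ?_)
      refine Finset.prod_le_prod' fun q hq => Nat.pow_le_pow_right (hs q (Finset.mem_insert_of_mem hq)).pos ?_
      exact (Nat.factorization_le_iff_dvd Nat.card_pos.ne' Nat.card_pos.ne').2 (card_dvd_of_le inf_le_left) q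
    · obtain ⟨a, ha, b, hb, e, ⟨k, hk⟩, hb'⟩ := H1.exists_p_part p g
      have haH := zpowers_le.2 hg ha
      have hbH := zpowers_le.2 hg hb
      obtain ⟨h, hh, h1⟩ := hP.exists_cj_le (Q := zpowers a) (IsPGroup.of_card (by rw [Nat.card_zpowers, hk]))
        (zpowers_le.2 haH)
      have hu : h * a * h⁻¹ ∈ P := h1 (conj_mem_cj (mem_zpowers a))
      have hab : a * b = b * a := by
        obtain ⟨i, rfl⟩ := ha
        obtain ⟨j, rfl⟩ := hb
        exact zpow_mul_comm g i j
      obtain ⟨c, hc, h2⟩ := hR2 (H ⊓ centralizer {h * a * h⁻¹}) (h * b * h⁻¹)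
        (mem_inf.2 ⟨mul_mem (mul_mem hh hbH) (inv_mem hh), by
          rw [mem_centralizer_singleton_iff, conj_mul, conj_mul, hab]⟩)
        (fun q h3 h4 => by
          have e2 : orderOf (h * b * h⁻¹) = orderOf b := (MulAut.conj h).orderOf_eq b
          rw [e2] at h4
          rcases Finset.mem_insert.mp (hq q h3 (h4.trans (orderOf_dvd_of_mem_zpowers hb))) with rfl | h5
          · exact absurd h4 hb'
          · exact h5)
      refine ⟨c * h, mul_mem hc.1 hh, Finset.mem_biUnion.mpr ⟨h * a * h⁻¹, by simpa [T] using hu,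
        Finset.mem_image.mpr ⟨_, h2, ?_⟩⟩⟩
      have h3 : c * (h * a * h⁻¹) = (h * a * h⁻¹) * c := mem_centralizer_singleton_iff.mp hc.2
      calc h * a * h⁻¹ * (c * (h * b * h⁻¹) * c⁻¹) = (h * a * h⁻¹ * c) * (h * b * h⁻¹) * c⁻¹ := by group
        _ = _ := by rw [← h3, e]; group

/-- Let G be a finite group, π a set of primes and m the π-part of the order of G. Then the number of conjugacy classes of G consisting of π-elements (elements whose order is divisible only by primes in π) is at most m. -/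
theorem result {G : Type*} [Group G] [Finite G]
    (π : Set ℕ) (hπ : ∀ q ∈ π, q.Prime)
    (m : ℕ) (hm : m ∣ Nat.card G) (hmπ : ∀ q : ℕ, q.Prime → q ∣ m → q ∈ π)
    (hm' : ∀ q ∈ π, ¬ q ∣ Nat.card G / m) :
    Nat.card {C : ConjClasses G // ∀ q : ℕ, q.Prime → (∃ g : G, ConjClasses.mk g = C ∧ q ∣ orderOf g) → q ∈ π} ≤ m := by
  classical
  have h0 : Nat.card G ≠ 0 := Nat.card_pos.ne'
  have hm0 : m ≠ 0 := fun h => h0 (by subst h; simpa using hm)
  obtain ⟨R, h1, h2⟩ := aux (G := G) m.primeFactors (fun p hp => Nat.prime_of_mem_primeFactors hp) ⊤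
  have e : ∏ p ∈ m.primeFactors, p ^ (Nat.card (⊤ : Subgroup G)).factorization p = m := by
    conv_rhs => rw [← Nat.factorization_prod_pow_eq_self hm0]
    refine Finset.prod_congr rfl fun p hp => ?_
    have hp' := Nat.prime_of_mem_primeFactors hp
    rw [card_top, ← Nat.mul_div_cancel' hm, Nat.factorization_mul hm0 (fun h => h0 (by rw [← Nat.mul_div_cancel' hm, h, mul_zero])),
      Finsupp.add_apply, Nat.factorization_eq_zero_of_not_dvd (hm' p (hmπ p hp' (Nat.dvd_of_mem_primeFactors hp))), add_zero]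
  refine le_trans ?_ (h1.trans e.le)
  have : ∀ C : {C : ConjClasses G // ∀ q : ℕ, q.Prime → (∃ g : G, ConjClasses.mk g = C ∧ q ∣ orderOf g) → q ∈ π},
      ∃ r : R, ConjClasses.mk (r : G) = C.1 := by
    rintro ⟨C, hC⟩
    obtain ⟨g, rfl⟩ := ConjClasses.mk_surjective C
    obtain ⟨h, -, hh⟩ := h2 g (mem_top g) fun q hq hd => by
      have h3 : q ∣ m * (Nat.card G / m) := by rw [Nat.mul_div_cancel' hm]; exact hd.trans (orderOf_dvd_natCard g)
      exact Nat.mem_primeFactors.mpr ⟨hq, (hq.dvd_mul.mp h3).resolve_right (hm' q (hC q hq ⟨g, rfl, hd⟩)), hm0⟩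
    exact ⟨⟨_, hh⟩, ConjClasses.mk_eq_mk_iff_isConj.mpr (isConj_iff.mpr ⟨h, rfl⟩).symm⟩
  choose f hf using this
  rw [← Nat.card_eq_finsetCard]
  exact Nat.card_le_card_of_injective f fun a b e => Subtype.ext (by rw [← hf a, ← hf b, e])

end Cfsg.Agent.S4106
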