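import Cfsg.Statements.S4107
import Cfsg.Agent.H1.Fitting
import Cfsg.Agent.H1.Misc

set_option autoImplicit false
open Cfsg

namespace Cfsg.Agent.S4107

open Subgroup

/-- Let G be a finite group and N a proper non-trivial normal subgroup such that for every x outside N all elements of the coset xN have the same order as x. Then N ≤ F(G) or F(G) ≤ N, where F(G) is the Fitting subgroup; and if N is properly contained in F(G) then F(G) has prime-power order. -/
theorem result {G : Type*} [Group G] [Finite G] (N : Subgroup G) [N.Normal] (hN1 : N ≠ ⊥) (hN2 : N ≠ ⊤)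
    (heq : ∀ x : G, x ∉ N → ∀ n ∈ N, orderOf (x * n) = orderOf x) :
    (N ≤ Cfsg.fittingSubgroup G ∨ Cfsg.fittingSubgroup G ≤ N) ∧
    (N < Cfsg.fittingSubgroup G → IsPrimePow (Nat.card (Cfsg.fittingSubgroup G))) := by
  have key : ∀ (p : ℕ) [Fact p.Prime], ¬ Cfsg.pCore p G ≤ N → IsPGroup p N := by
    intro p _ h
    obtain ⟨x, hx, hxN⟩ := SetLike.not_le_iff_exists.mp h
    obtain ⟨k, hk⟩ := H1.pCore_isPGroup (p := p) (G := G) ⟨x, hx⟩
    have hk' : x ^ p ^ k = 1 := congrArg Subtype.val hk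
    rintro ⟨n, hn⟩
    have h1 : (x * n) ^ p ^ k = 1 := by
      rw [← orderOf_dvd_iff_pow_eq_one, heq x hxN n hn, orderOf_dvd_iff_pow_eq_one, hk']
    have h2 : n ^ p ^ k ∈ Cfsg.pCore p G := by
      rw [← QuotientGroup.eq_one_iff]
      have := congrArg (QuotientGroup.mk' (Cfsg.pCore p G)) h1
      rw [map_pow, map_mul, map_one, QuotientGroup.mk'_apply, (QuotientGroup.eq_one_iff x).2 hx, one_mul] at this
      exact this
    obtain ⟨l, hl⟩ := H1.pCore_isPGroup (p := p) (G := G) ⟨_, h2⟩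
    have hl' : (n ^ p ^ k) ^ p ^ l = 1 := congrArg Subtype.val hl
    exact ⟨k + l, Subtype.ext (show n ^ p ^ (k + l) = 1 by rw [pow_add, pow_mul, hl'])⟩
  have hex : ¬ Cfsg.fittingSubgroup G ≤ N → ∃ p : Nat.Primes, ¬ Cfsg.pCore (p : ℕ) G ≤ N := by
    intro h
    by_contra h'
    push Not at h'
    exact h (H1.fitting_eq_iSup_pCore (G := G) ▸ iSup_le h')
  constructor
  · by_cases h : Cfsg.fittingSubgroup G ≤ N
    · exact Or.inr h
    obtain ⟨p, hp⟩ := hex h
    haveI : Fact (p : ℕ).Prime := ⟨p.2⟩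
    exact Or.inl (H1.le_fitting (key p hp).isNilpotent)
  · intro h
    obtain ⟨p, hp⟩ := hex h.not_ge
    haveI : Fact (p : ℕ).Prime := ⟨p.2⟩
    have hN := key p hp
    have hF : Cfsg.fittingSubgroup G ≤ Cfsg.pCore (p : ℕ) G := by
      rw [H1.fitting_eq_iSup_pCore]
      refine iSup_le fun q => ?_
      haveI : Fact (q : ℕ).Prime := ⟨q.2⟩
      by_cases e : (q : ℕ) = p
      · rw [e]
      by_cases hq : Cfsg.pCore (q : ℕ) G ≤ N
      · have := IsPGroup.disjoint_of_ne (q : ℕ) p e _ _ (H1.pCore_isPGroup (p := q) (G := G)) hN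
        rw [this.eq_bot_of_le hq]; exact bot_le
      · exact absurd (disjoint_self.mp (IsPGroup.disjoint_of_ne (q : ℕ) p e _ _ (key q hq) hN)) hN1
    obtain ⟨k, hk⟩ := IsPGroup.iff_card.mp ((H1.pCore_isPGroup (p := p) (G := G)).to_le hF)
    refine ⟨p, k, p.2.prime, Nat.pos_of_ne_zero ?_, hk.symm⟩
    rintro rfl
    exact h.ne_bot (card_eq_one.mp (by simpa using hk))

end Cfsg.Agent.S4107
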