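import Cfsg.Statements.S4108
import Cfsg.Agent.H1.Misc2

set_option autoImplicit false
open Cfsg

namespace Cfsg.Agent.S4108

open H1

/-- Let G be a finite group, p a prime and N a proper non-trivial normal p-subgroup such that for every x outside N all elements of the coset xN have the same order as x. Then every non-trivial subgroup H of G of order prime to p acts fixed-point-freely on N: NH is a Frobenius group with complement H and kernel N. -/
theorem result {G : Type*} [Group G] [Finite G] (N : Subgroup G) [N.Normal] (hN1 : N ≠ ⊥) (hN2 : N ≠ ⊤)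
    (heq : ∀ x : G, x ∉ N → ∀ n ∈ N, orderOf (x * n) = orderOf x)
    (p : ℕ) [Fact p.Prime] (hNp : IsPGroup p N) :
    ∀ H : Subgroup G, H ≠ ⊥ → (Nat.card H).Coprime p →
      Cfsg.IsFrobeniusComplement (H.subgroupOf (N ⊔ H)) ∧ Cfsg.frobeniusKernel (H.subgroupOf (N ⊔ H)) = (N.subgroupOf (N ⊔ H) : Set ↥(N ⊔ H)) := by
  intro H hH hc
  have hcop : (Nat.card N).Coprime (Nat.card H) := isPGroup_coprime hNp hc
  refine isFrob_subgroupOf Subgroup.le_normalizer_of_normal hN1 hH (fpf_iff.2 fun h hh k hk e => ?_)
  by_cases h1 : h = 1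
  · exact Or.inl h1
  · right
    have hN : h ∉ N := fun h2 => h1 (by
      have : h ∈ N ⊓ H := ⟨h2, hh⟩
      rwa [inf_eq_bot_of_coprime hcop] at this)
    have h2 := heq h hN k hk
    rw [Commute.orderOf_mul_eq_mul_orderOf_of_coprime e (Nat.Coprime.coprime_dvd_left (orderOf_dvd_card_of_mem hh)
      (Nat.Coprime.coprime_dvd_right (orderOf_dvd_card_of_mem hk) hcop.symm))] at h2
    exact orderOf_eq_one_iff.1 ((Nat.mul_eq_left (orderOf_pos h).ne').1 h2)

end Cfsg.Agent.S4108
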