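import Cfsg.Statements.S4115
import Cfsg.Agent.H1.TIH
import Cfsg.Agent.H3.Brauer2

set_option autoImplicit false
universe u
open Cfsg

namespace Cfsg.Agent.S4115

open H1

/-- Let G be a finite group and H a subgroup that meets each of its conjugates by elements outside N_G(H) trivially and whose order is coprime to its index in N_G(H). Then H has a normal complement in N_G(H) if and only if H has a normal complement in G. Moreover, if H is not normal in G and has a normal complement in N_G(H), then H is isomorphic to a Frobenius complement of some finite Frobenius group. -/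
theorem result {G : Type u} [Group G] [Finite G] (H : Subgroup G)
    (hTI : Cfsg.IsTISubset (H : Set G)) (hHall : (Nat.card H).Coprime (H.subgroupOf (Subgroup.normalizer (H : Set G))).index) :
    ((∃ K : Subgroup (Subgroup.normalizer (H : Set G)), K.Normal ∧ K.IsComplement' (H.subgroupOf (Subgroup.normalizer (H : Set G)))) ↔
      (∃ N : Subgroup G, N.Normal ∧ N.IsComplement' H)) ∧
    (¬ H.Normal → (∃ K : Subgroup (Subgroup.normalizer (H : Set G)), K.Normal ∧ K.IsComplement' (H.subgroupOf (Subgroup.normalizer (H : Set G)))) →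
      ∃ (F : Type u) (_ : Group F) (_ : Finite F) (C : Subgroup F), Cfsg.IsFrobeniusComplement C ∧ Nonempty (H ≃* C)) := by
  have hH := ti_hall hTI hHall
  set M := Subgroup.normalizer (H : Set G) with hM
  have fwd : (∃ K : Subgroup M, K.Normal ∧ K.IsComplement' (H.subgroupOf M)) →
      ∃ N : Subgroup G, N.Normal ∧ N.IsComplement' H := by
    rintro ⟨K, hKn, hK⟩
    haveI : (H.subgroupOf M).Normal := Subgroup.normal_in_normalizer
    refine H3.hall_normal_complement H hH ?_ ?_
    · intro x hx y hy hxy
      by_cases h1 : x = 1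
      · subst h1
        exact ⟨1, H.one_mem, by simpa using (isConj_one_right.1 hxy).symm⟩
      obtain ⟨g, rfl⟩ := isConj_iff.1 hxy
      have hg : g ∈ M := ti_norm hTI hx h1 hy
      obtain ⟨⟨k, h⟩, e⟩ := hK.existsUnique ⟨g, hg⟩ |>.exists
      have e' : ((k : M) : G) * ((h : M) : G) = g := congrArg Subtype.val e
      refine ⟨(h : M), h.2, ?_⟩
      have hz : ((h : M) : G) * x * ((h : M) : G)⁻¹ ∈ H := H.mul_mem (H.mul_mem h.2 hx) (H.inv_mem h.2)
      have hc := Subgroup.commute_of_normal_of_disjoint K (H.subgroupOf M) hKn inferInstance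
        hK.disjoint k ⟨_, Subgroup.le_normalizer hz⟩ k.2 hz
      have hc' : ((k : M) : G) * (((h : M) : G) * x * ((h : M) : G)⁻¹) =
          (((h : M) : G) * x * ((h : M) : G)⁻¹) * ((k : M) : G) := congrArg Subtype.val hc.eq
      rw [← e']
      calc _ = ((h : M) : G) * x * ((h : M) : G)⁻¹ * ((k : M) : G) * ((k : M) : G)⁻¹ := by group
        _ = _ := by rw [← hc']; group
    · intro E p _ _ hE
      obtain ⟨g, hg⟩ := ti_hall_le hH hTI E (fun q _ hq => hq.trans hE)
      exact ⟨g⁻¹, fun e he => by simpa using mem_conj_smul.1 (hg he)⟩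
  refine ⟨⟨fwd, ?_⟩, fun hn hK => ?_⟩
  · rintro ⟨N, hNn, hN⟩
    refine ⟨N.subgroupOf M, inferInstance, isComplement'_of_inf_sup ?_ ?_⟩
    · rw [← Subgroup.inf_subgroupOf_right, eq_bot_iff]
      intro x hx
      have : (x : G) ∈ N ⊓ H := ⟨hx.1.1, hx.2⟩
      rw [disjoint_iff.1 hN.disjoint, Subgroup.mem_bot] at this
      exact Subgroup.mem_bot.2 (Subtype.ext this)
    · rw [eq_top_iff]
      rintro ⟨g, hg⟩ -
      obtain ⟨⟨k, h⟩, e⟩ := hN.existsUnique g |>.exists
      have hh : (h : G) ∈ M := Subgroup.le_normalizer h.2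
      have hk : (k : G) ∈ M := by
        rw [← e] at hg
        exact (Subgroup.mul_mem_cancel_right _ hh).1 hg
      have : (⟨g, hg⟩ : M) = ⟨k, hk⟩ * ⟨h, hh⟩ := Subtype.ext e.symm
      rw [this]
      exact Subgroup.mul_mem_sup k.2 h.2
  · obtain ⟨N, hNn, hN⟩ := fwd hK
    refine exists_frob_of_cent (N := N) Subgroup.le_normalizer_of_normal ?_ ?_ ?_
    · rw [← hN.index_eq_card]; exact hH
    · intro hc
      apply hn
      rw [← Subgroup.normalizer_eq_top_iff, eq_top_iff, ← hN.sup_eq_top]
      exact sup_le (hc.trans (Subgroup.centralizer_le_normalizer _)) Subgroup.le_normalizer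
    · intro h hh h1 m hm e
      refine mem_centralizer_of_mem_normalizer Subgroup.le_normalizer_of_normal
        (disjoint_iff.1 hN.disjoint.symm) hm (ti_norm hTI hh h1 ?_)
      rw [← e]; simpa using hh

end Cfsg.Agent.S4115
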