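import Cfsg.Statements.S4117
import Cfsg.Agent.H1.ZC

set_option autoImplicit false
open Cfsg

namespace Cfsg.Agent.S4117

open scoped commutatorElement
open scoped Pointwise
open H1

/-- Let A be a finite group acting on the finite group G by automorphisms with the orders of A and G coprime, and suppose every Sylow subgroup of G is cyclic. Then the fixed-point subgroup C_G(A) is a Hall subgroup of G (its order is coprime to its index), the subgroup [G, A] generated by the elements g⁻¹·a(g) is cyclic and normal with [G, A] ∩ C_G(A) = 1 and [G, A]·C_G(A) = G. -/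
theorem result {G A : Type*} [Group G] [Finite G] [Group A] [Finite A]
    [MulDistribMulAction A G] (hcop : (Nat.card A).Coprime (Nat.card G))
    (hcyc : ∀ (p : ℕ) [Fact p.Prime] (P : Sylow p G), IsCyclic (P : Subgroup G)) :
    (Nat.card (MulAction.fixedPoints A G : Set G)).Coprime (Nat.card G / Nat.card (MulAction.fixedPoints A G : Set G)) ∧
    IsCyclic (Subgroup.closure {y : G | ∃ (a : A) (g : G), y = g⁻¹ * a • g}) ∧
    (Subgroup.closure {y : G | ∃ (a : A) (g : G), y = g⁻¹ * a • g}).Normal ∧
    (Subgroup.closure {y : G | ∃ (a : A) (g : G), y = g⁻¹ * a • g} : Set G) ∩ MulAction.fixedPoints A G = {1} ∧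
    Subgroup.closure {y : G | ∃ (a : A) (g : G), y = g⁻¹ * a • g} ⊔ Subgroup.closure (MulAction.fixedPoints A G) = ⊤ := by
  obtain ⟨Γ, _, _, i, j, hi, hj, hij, -, -, hn⟩ := exists_ambient (MulDistribMulAction.toMulAut A G)
  haveI : IsZGroup G := ⟨fun p hp P => haveI := Fact.mk hp; hcyc p P⟩
  haveI : IsZGroup i.range := IsZGroup.of_surjective i.rangeRestrict_surjective
  have hQ : j.range ≤ Subgroup.normalizer (i.range : Set Γ) := Subgroup.le_normalizer_of_normal
  have hc : (Nat.card j.range).Coprime (Nat.card i.range) := by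
    rw [card_range_of_injective hi, card_range_of_injective hj]; exact hcop
  set K := Subgroup.closure {y : G | ∃ (a : A) (g : G), y = g⁻¹ * a • g} with hK
  have hKm : K.map i = ⁅i.range, j.range⁆ := by
    rw [hK, MonoidHom.map_closure, Subgroup.commutator_def]
    congr 1
    ext x
    constructor
    · rintro ⟨_, ⟨a, g, rfl⟩, rfl⟩
      refine ⟨i g⁻¹, ⟨_, rfl⟩, j a, ⟨_, rfl⟩, ?_⟩
      rw [commutatorElement_def, map_mul, map_inv, inv_inv]
      have := hij a g
      rw [MulDistribMulAction.toMulAut_apply, MulDistribMulAction.toMulEquiv_apply] at this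
      rw [← this]; group
    · rintro ⟨_, ⟨g, rfl⟩, _, ⟨a, rfl⟩, rfl⟩
      refine ⟨_, ⟨a, g⁻¹, rfl⟩, ?_⟩
      have := hij a g⁻¹
      rw [MulDistribMulAction.toMulAut_apply, MulDistribMulAction.toMulEquiv_apply] at this
      rw [commutatorElement_def, map_mul, ← this, inv_inv, map_inv]; group
  let C : Subgroup G := (Subgroup.centralizer (j.range : Set Γ)).comap i
  have hC : (C : Set G) = MulAction.fixedPoints A G := by
    ext x
    exact mem_centralizer_range_iff hi hij
  have hCm : C.map i = i.range ⊓ Subgroup.centralizer (j.range : Set Γ) := Subgroup.map_comap_eq _ _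
  rw [← hC, Subgroup.closure_eq]
  refine ⟨?_, ?_, ?_, ?_, ?_⟩
  · have h1 := zg_hall hQ hc
    rw [← hCm, Subgroup.card_map_of_injective hi, MonoidHom.range_eq_map,
      Subgroup.relIndex_map_map_of_injective _ _ hi, Subgroup.relIndex_top_right] at h1
    have : Nat.card G / Nat.card C = C.index := by
      rw [← C.card_mul_index, Nat.mul_div_cancel_left _ Nat.card_pos]
    exact this ▸ h1
  · have h1 := zg_comm_cyclic hQ hc
    rw [← hKm] at h1
    exact (MulEquiv.isCyclic (Subgroup.equivMapOfInjective _ _ hi)).2 h1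
  · refine ⟨fun x hx g => ?_⟩
    rw [← Subgroup.mem_map_iff_mem hi, hKm] at hx ⊢
    rw [map_mul, map_mul, map_inv]
    exact conj_mem_of_mem_normalizer (Subgroup.normalizer_commutator_ge_left _ _ ⟨g, rfl⟩) hx
  · rw [← Subgroup.coe_inf, ← Subgroup.coe_bot]
    congr 1
    rw [eq_bot_iff]
    intro x hx
    have : i x ∈ ⁅i.range, j.range⁆ ⊓ Subgroup.centralizer (j.range : Set Γ) :=
      ⟨by rw [← hKm]; exact Subgroup.mem_map_of_mem _ hx.1, hx.2⟩
    rw [zg_inf hQ hc, Subgroup.mem_bot] at this
    exact Subgroup.mem_bot.2 (hi (this.trans (map_one i).symm))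
  · apply Subgroup.map_injective hi
    rw [Subgroup.map_sup, hKm, hCm, commutator_sup_centralizer hQ hc (Or.inr inferInstance),
      MonoidHom.range_eq_map]

end Cfsg.Agent.S4117
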