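import Cfsg.Statements.S4118
import Cfsg.Agent.H1.ZC
import Cfsg.Agent.H9.Zs4

set_option autoImplicit false
open Cfsg

namespace Cfsg.Agent.S4118

open scoped commutatorElement
open H1
theorem sl25_not_solvable : ¬ Group.IsSolvable (Matrix.SpecialLinearGroup (Fin 2) (ZMod 5)) := by
  intro h
  have h1 : (2 : ZMod 5) ≠ 0 := by decide
  have h2 : (2 : ZMod 5) ^ 2 ≠ 1 := by decide
  haveI : Nontrivial (Matrix.SpecialLinearGroup (Fin 2) (ZMod 5)) := ⟨⟨-1, 1, fun h => by
    have := congrArg (fun A : Matrix.SpecialLinearGroup (Fin 2) (ZMod 5) => A.1 0 0) h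
    exact absurd this (by simp; decide)⟩⟩
  have h3 := Group.IsSolvable.commutator_lt_top_of_nontrivial (Matrix.SpecialLinearGroup (Fin 2) (ZMod 5))
  haveI : Fact (Nat.Prime 5) := ⟨by norm_num⟩
  exact h3.ne (Matrix.SL2.commutator_eq_top (F := ZMod 5) (a := 2) h1 h2)

open Subgroup in
theorem fc_of_frob {H : Type*} [Group H] {F : Type*} [Group F] [Finite F] {D : Subgroup F}
    (hD : Cfsg.IsFrobeniusComplement D) (e : H ≃* D) : H9.Zs.FC H := by
  obtain ⟨N, _, -, -, h1, h2, -⟩ := H1.IsFrob.exists_kernel hD
  exact (H9.Zs.fc_of_fpf h2 le_normalizer_of_normal h1).comp e e.injective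

/-- Let G be a finite group and H a non-normal subgroup meeting each of its conjugates by elements outside N_G(H) trivially, with the order of H coprime to its index in N_G(H); let π be the set of primes dividing the order of H and suppose G is π-separable (it has a chain of normal subgroups from 1 to G each of whose factors has order divisible only by primes in π or coprime to the order of H). Let O be the largest normal subgroup of G of order coprime to the order of H. Then G = O·N_G(H), O·H is normal in G, and G is solvable if and only if O is solvable and H has no subgroup isomorphic to SL₂(5). -/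
theorem result {G : Type*} [Group G] [Finite G] (H : Subgroup G)
    (hTI : Cfsg.IsTISubset (H : Set G)) (hnn : ¬ H.Normal)
    (hHall : (Nat.card H).Coprime (H.subgroupOf (Subgroup.normalizer (H : Set G))).index)
    (hsep : ∃ (n : ℕ) (M : Fin (n + 1) → Subgroup G), M 0 = ⊥ ∧ M (Fin.last n) = ⊤ ∧ Monotone M ∧ (∀ i, (M i).Normal) ∧
      ∀ i : Fin n, (∀ q : ℕ, q.Prime → q ∣ (M i.castSucc).relIndex (M i.succ) → q ∣ Nat.card H) ∨
        ((M i.castSucc).relIndex (M i.succ)).Coprime (Nat.card H))
    (O : Subgroup G) (hO : O = sSup {K : Subgroup G | K.Normal ∧ (Nat.card K).Coprime (Nat.card H)}) :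
    O ⊔ Subgroup.normalizer (H : Set G) = ⊤ ∧ (O ⊔ H).Normal ∧
    (Group.IsSolvable G ↔ Group.IsSolvable O ∧
      ∀ K : Subgroup G, K ≤ H → ¬ Nonempty (K ≃* Matrix.SpecialLinearGroup (Fin 2) (ZMod 5))) := by
  have hH := ti_hall hTI hHall
  obtain ⟨O', e, hOn, hOc, hOm⟩ := exists_core (G := G) (Nat.card H)
  rw [← hO] at e
  subst e
  have h1 := ti_sep_sup hTI hnn hH (piSep_of_hsep hsep) hOc hOm
  have h2 : (O' ⊔ H).Normal := by
    rw [← Subgroup.normalizer_eq_top_iff, eq_top_iff, ← h1]
    exact sup_le (le_normalizer_of_le le_sup_left)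
      (le_normalizer_sup Subgroup.le_normalizer_of_normal le_rfl)
  refine ⟨h1, h2, fun hs => ⟨inferInstance, fun K _ ⟨e⟩ => ?_⟩, fun ⟨hs, hK⟩ => ?_⟩
  · exact sl25_not_solvable (isSolvable_of_equiv e inferInstance)
  · obtain ⟨F, _, _, D, hD, ⟨e⟩⟩ := ti_sep_frob hTI hnn hOc h1
    have hfc := fc_of_frob hD e
    have hHs : Group.IsSolvable H := by
      by_contra hc
      obtain ⟨φ, M, hφ, -⟩ := hfc.dp hc
      exact hK (φ.range.map H.subtype) (Subgroup.map_subtype_le _)
        ⟨((MonoidHom.ofInjective hφ).trans (Subgroup.equivMapOfInjective _ _ H.subtype_injective)).symm⟩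
    obtain ⟨Q, hQ, hQH, hQs, hQc⟩ := exists_complement_rel (D := H) Subgroup.le_normalizer le_rfl hHall
    have hc : (Nat.card Q).Coprime (Nat.card H) := by rw [hQc]; exact hHall.symm
    have hQsol : Group.IsSolvable Q := by
      by_cases h2 : 2 ∣ Nat.card H
      · exact FT.feit_thompson Q (Nat.odd_iff.2 (Nat.two_dvd_ne_zero.1 fun h =>
          absurd (Nat.eq_one_of_dvd_coprimes hc h h2) (by decide)))
      · haveI : IsZGroup H := by
          have := H9.Zs.zgroup_of_odd hfc.pq (M := ⊤) (by
            rw [Subgroup.card_top]; exact ((Nat.Prime.coprime_iff_not_dvd Nat.prime_two).2 h2).symm)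
          exact IsZGroup.of_injective (f := (Subgroup.topEquiv (G := H)).symm.toMonoidHom)
            (Subgroup.topEquiv (G := H)).symm.injective
        have h3 := zg_comm_cent hQ hc
        have h4 : (O' ⊔ ⁅Q, Q⁆).Normal := by
          rw [← Subgroup.normalizer_eq_top_iff, eq_top_iff, ← h1, ← hQs]
          refine sup_le (le_normalizer_of_le le_sup_left)
            (le_normalizer_sup Subgroup.le_normalizer_of_normal (sup_le ?_ ?_))
          · exact le_normalizer_commutator Subgroup.le_normalizer Subgroup.le_normalizer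
          · exact le_normalizer_of_le_centralizer (Subgroup.le_centralizer_iff.1 h3)
        have h5 : ⁅Q, Q⁆ ≤ O' := le_sup_right.trans (hOm _ h4 (by
          rw [sup_comm]
          exact coprime_card_sup Subgroup.le_normalizer_of_normal
            (coprime_of_le_left hc (commutator_le_of_le_normalizer Subgroup.le_normalizer)) hOc))
        have h6 : Group.IsSolvable (⁅Q, Q⁆ : Subgroup G) := isSolvable_of_le h5 hs
        refine isSolvable_of_normal_of_quotient (commutator Q) ?_ ?_
        · rw [← Subgroup.map_subtype_commutator] at h6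
          exact isSolvable_of_equiv (Subgroup.equivMapOfInjective _ _ Q.subtype_injective).symm h6
        · exact (inferInstance : Group.IsSolvable (Abelianization Q))
    have h7 : Group.IsSolvable (Q ⊔ (H ⊔ O') : Subgroup G) :=
      isSolvable_sup (by rw [sup_comm]; exact Subgroup.le_normalizer_of_normal) hQsol
        (isSolvable_sup Subgroup.le_normalizer_of_normal hHs hs)
    rw [← sup_assoc, hQs, sup_comm, h1] at h7
    exact isSolvable_of_equiv Subgroup.topEquiv h7

end Cfsg.Agent.S4118
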