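import Cfsg.Statements.S4127
import Cfsg.Agent.CZ.C

set_option autoImplicit false
open Cfsg

namespace Cfsg.Agent.S4127

open Subgroup H9

/-- Let G be a finite group, p a prime and p^a the largest power of p dividing the size of any conjugacy class of G. If some element of p-power order has a conjugacy class of size exactly p^a, then G has a normal p-complement. -/
theorem result {G : Type*} [Group G] [Finite G] (p : ℕ) [Fact p.Prime]
    (a : ℕ) (hmax : ∀ y : G, ¬ p ^ (a + 1) ∣ (Subgroup.centralizer ({y} : Set G)).index)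
    (hx : ∃ x : G, (∃ k : ℕ, orderOf x = p ^ k) ∧ (Subgroup.centralizer ({x} : Set G)).index = p ^ a) :
    Cfsg.HasNormalPComplement p G := by
  obtain ⟨x, ⟨k, hk⟩, hi⟩ := hx
  have hp : p.Prime := Fact.out
  have hU := CZ.mem_pCore_of_index ⟨k, hk⟩ hi
  have h1 : ∀ y ∈ centralizer {x}, (orderOf y).Coprime p → ¬ p ∣ (centralizer {y}).relIndex (centralizer {x}) :=
    fun y hy ho hd => hmax (x * y) (by
      rw [H1.centralizer_mul_of_coprime (Commute.symm (mem_centralizer_singleton_iff.1 hy))
        (hk ▸ ho.symm.pow_left k), ← relIndex_mul_index inf_le_left, inf_relIndex_left, hi, pow_succ']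
      exact mul_dvd_mul_right hd _)
  have h2 : Ores p (centralizer {x}) ≤ centralizer (pCore p G : Set G) := Ores_le_iff'.2 fun y hy ho => by
    obtain ⟨S, k1, -, k3⟩ := CZ.exists_syl_le (h1 y hy ho) IsPGroup.of_bot bot_le bot_le
    refine zpowers_le.1 (H1.p_times_q (P := zpowers x) (H1.isPGroup_zpowers_iff.2 ⟨k, hk⟩)
      (by rwa [Nat.card_zpowers]) H1.pCore_isPGroup (le_centralizer_iff.1 (by
        rwa [H1.centralizer_zpowers, zpowers_le])) le_normalizer_of_normal le_normalizer_of_normal ?_)
    rw [H1.centralizer_zpowers, H1.centralizer_zpowers]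
    exact (k1.le_of_le_normalizer (H1.pCore_isPGroup.to_le inf_le_left) inf_le_right
      (Or.inr (k1.le.trans (normalizer_inf le_normalizer_of_normal le_normalizer)))).trans k3
  obtain ⟨S, hS⟩ := exists_syl (p := p) (centralizer {x})
  obtain ⟨P, hP⟩ := hS.isP.exists_le_sylow
  have h3 : Ores p ⊤ ≤ centralizer {x} :=
    (Ores_le_of_sup P.isPGroup' le_normalizer_of_normal (by
      rw [← (CZ.fac_syl P hi).sup_eq, ← hS.Ores_sup]
      exact sup_le le_sup_right (sup_le_sup h2 hP))).trans (centralizer_le (Set.singleton_subset_iff.2 hU))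
  obtain ⟨T, hT⟩ := exists_syl (p := p) (Ores p (⊤ : Subgroup G))
  have h4 := CZ.Ores_le_centralizer hT.isP (CZ.camina hT fun y hy ho hd => h1 y (h3 hy) (cop_iff.2 ho)
    (hd.trans (H1.SN.relIndex_dvd (SN.of_normal h3 (le_top.trans (normalizer_Ores le_normalizer))) _)))
  rw [Ores_Ores] at h4
  have h5 := npc_of_central_syl hT (inf_le_left.trans h4)
  rw [NPC, Ores_Ores] at h5
  exact npc_top_iff.1 h5

end Cfsg.Agent.S4127
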