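import Cfsg.Statements.S4130
import Cfsg.Agent.CZ.A

set_option autoImplicit false
open Cfsg

namespace Cfsg.Agent.S4130

open Subgroup

/-- Let G be a finite group all of whose conjugacy class sizes are square-free. Then G is supersolvable, G/F(G) and the derived subgroup G′ are cyclic of square-free order (F(G) the Fitting subgroup, which is normal), F(G) has nilpotency class at most 2, and G is metabelian. -/
theorem result {G : Type*} [Group G] [Finite G]
    (h : ∀ x : G, Squarefree (Subgroup.centralizer ({x} : Set G)).index) :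
    Cfsg.IsSupersolvable G ∧ (Cfsg.fittingSubgroup G).Normal ∧
    (∀ _h : (Cfsg.fittingSubgroup G).Normal, IsCyclic (G ⧸ Cfsg.fittingSubgroup G) ∧ Squarefree (Cfsg.fittingSubgroup G).index) ∧
    IsCyclic (commutator G) ∧ Squarefree (Nat.card (commutator G)) ∧
    Subgroup.upperCentralSeries ↥(Cfsg.fittingSubgroup G) 2 = ⊤ ∧ commutator ↥(commutator G) = ⊥ := by
  have hS : CZ.SF G := h
  have hc := hS.cyc_comm
  have hF := hS.fit_eq
  have hD : commutator G ≤ fittingSubgroup G := H1.le_fitting (H1.super_commutator_nilpotent hS.super)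
  refine ⟨hS.super, inferInstance, fun _ => ?_, hc, hS.sq_comm, ?_, ?_⟩
  · obtain ⟨d, hd⟩ := (Subgroup.isCyclic_iff_exists_zpowers_eq_top _).1 hc
    have h1 : Squarefree (fittingSubgroup G).index := by
      rw [hF, ← hd, H9.centralizer_zpowers]; exact h d
    refine ⟨?_, h1⟩
    haveI := IsZGroup.of_squarefree (G := G ⧸ fittingSubgroup G) h1
    haveI := H1.isNilpotent_of_isMulCommutative (Subgroup.Normal.quotient_commutative_iff_commutator_le.2 hD)
    infer_instance
  · refine eq_top_iff.2 fun x _ => Subgroup.mem_upperCentralSeries_succ_iff.2 fun y => ?_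
    rw [Subgroup.upperCentralSeries_one, mem_center_iff]
    intro z
    exact Subtype.ext (H9.comm_of_mem_centralizer (hF.le z.2)
      (commutator_mem_commutator (mem_top (x : G)) (mem_top (y : G)))).symm
  · exact (commutator_eq_bot_iff _).2 inferInstance

end Cfsg.Agent.S4130
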