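import Cfsg.Statements.S4139
import Cfsg.Agent.H1.CS
import Cfsg.Agent.H9.Syl
import Cfsg.Agent.H2.Residual
import Cfsg.Agent.H1.Fitting

set_option autoImplicit false
open Cfsg

namespace Cfsg.Agent.S4139

open Subgroup H9

theorem ppow {p a b : ℕ} (hp : p.Prime) (h : a ∣ b) (hb : ∃ k, b = p ^ k) : ∃ k, a = p ^ k := by
  obtain ⟨k, rfl⟩ := hb
  obtain ⟨j, -, hj⟩ := (Nat.dvd_prime_pow hp).1 h
  exact ⟨j, hj⟩

theorem key {G : Type*} [Group G] [Finite G] {p : ℕ} [hp : Fact p.Prime] :
    ∃ m, ¬ p ∣ m ∧ Nat.card {x : G | ∃ k, (centralizer {x}).index = p ^ k} =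
      Nat.card (centralizer (pResidual p G : Set G)) * m := by
  classical
  set O := pResidual p G
  set C := centralizer (O : Set G)
  set S := {x : G | ∃ k, (centralizer {x}).index = p ^ k}
  have hO : ∃ k, O.index = p ^ k := (H2.isPGroup_quotient_pResidual (G := G) p).exists_card_eq
  have hmul : ∀ x ∈ S, ∀ c ∈ C, x * c ∈ S := fun x hx c hc => by
    refine ppow hp.out (index_dvd_of_le (H := centralizer {x} ⊓ O) fun g hg => ?_) ?_
    · rw [mem_centralizer_singleton_iff, ← mul_assoc, mem_centralizer_singleton_iff.1 hg.1, mul_assoc, hc g hg.2, mul_assoc]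
    · obtain ⟨a, ha⟩ := hO
      obtain ⟨b, hb⟩ := ppow hp.out (H1.relIndex_dvd_index_of_normal' O _) hx
      exact ⟨b + a, by rw [← relIndex_mul_index (inf_le_right : centralizer {x} ⊓ O ≤ O), inf_relIndex_right, ha, hb, pow_add]⟩
  have hconj : ∀ x ∈ S, ∀ g, g * x * g⁻¹ ∈ S := fun x hx g => by
    show ∃ k, _
    rw [← cj_centralizer_singleton, index_cj]; exact hx
  let f := QuotientGroup.mk' C
  have hS : S = f ⁻¹' (f '' S) := by
    refine le_antisymm (Set.subset_preimage_image _ _) ?_
    rintro x ⟨y, hy, e⟩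
    have := hmul y hy _ (QuotientGroup.eq.1 e)
    rwa [mul_inv_cancel_left] at this
  refine ⟨Nat.card (f '' S), ?_, by
    conv_lhs => rw [hS]
    exact QuotientGroup.card_preimage_mk C _⟩
  obtain ⟨P⟩ : Nonempty (Sylow p G) := inferInstance
  letI : MulAction P (f '' S) :=
    { smul := fun g x => ⟨f g * x * (f g)⁻¹, by
        obtain ⟨_, y, hy, rfl⟩ := x
        exact ⟨_, hconj y hy g, by simp⟩⟩
      one_smul := fun x => Subtype.ext (by show f ((1 : P) : G) * x * (f ((1 : P) : G))⁻¹ = x; simp)
      mul_smul := fun a b x => Subtype.ext (by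
        show f ((a * b : P) : G) * x * (f ((a * b : P) : G))⁻¹ = f a * (f b * x * (f b)⁻¹) * (f a)⁻¹
        simp [mul_assoc]) }
  have h1 := P.isPGroup'.card_modEq_card_fixedPoints (f '' S)
  have h2 : Nat.card (MulAction.fixedPoints P (f '' S)) = 1 := by
    have h0 : (1 : G) ∈ S := ⟨0, by rw [pow_zero, H1.ci_eq_one_iff]; exact one_mem _⟩
    rw [Nat.card_eq_one_iff_exists]
    refine ⟨⟨⟨1, 1, h0, map_one f⟩, fun g => Subtype.ext (by show f g * 1 * (f g)⁻¹ = 1; simp)⟩, ?_⟩
    rintro ⟨⟨_, x, hx, rfl⟩, hfix⟩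
    refine Subtype.ext (Subtype.ext ((QuotientGroup.eq_one_iff x).2 ?_))
    have htop : (centralizer {f x}).comap f = ⊤ := by
      rw [← index_eq_one]
      have a1 : (P : Subgroup G) ≤ (centralizer {f x}).comap f := fun g hg => by
        have : f g * f x * (f g)⁻¹ = f x := congrArg Subtype.val (hfix ⟨g, hg⟩)
        exact mem_centralizer_singleton_iff.2 (mul_inv_eq_iff_eq_mul.1 this)
      obtain ⟨k, hk⟩ := ppow hp.out (index_dvd_of_le (H := centralizer {x}) (K := (centralizer {f x}).comap f) fun g hg =>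
        mem_centralizer_singleton_iff.2 (by rw [← map_mul, mem_centralizer_singleton_iff.1 hg, map_mul])) hx
      rcases k with _ | k
      · simpa using hk
      · exact absurd (hk ▸ dvd_pow_self p k.succ_ne_zero) (H1.not_dvd_index_of_sylow_le P a1)
    have hc : ∀ g, x⁻¹ * (g * x * g⁻¹) ∈ C := fun g => by
      have : g ∈ (centralizer {f x}).comap f := htop ▸ mem_top g
      have := mem_centralizer_singleton_iff.1 this
      rw [← QuotientGroup.eq_one_iff]
      show f _ = 1
      rw [map_mul, map_mul, map_mul, this]; simp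
    have hn : ((centralizer {x}).subgroupOf O).Normal := ⟨fun k hk g => by
      have a1 : (k : G) * x = x * k := mem_centralizer_singleton_iff.1 hk
      have a2 := hc (g : G)⁻¹ k k.2
      refine mem_centralizer_singleton_iff.2 ?_
      show (g : G) * k * (g : G)⁻¹ * x = x * (g * k * (g : G)⁻¹)
      calc _ = g * (k * x) * (x⁻¹ * ((g : G)⁻¹ * x * (g : G)⁻¹⁻¹)) * (g : G)⁻¹ := by group
        _ = g * x * (k * (x⁻¹ * ((g : G)⁻¹ * x * (g : G)⁻¹⁻¹))) * (g : G)⁻¹ := by rw [a1]; group
        _ = _ := by rw [a2]; group⟩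
    refine le_centralizer_singleton_iff.1 ((closure_le _).2 fun g hg => ?_)
    have hgO : g ∈ O := subset_closure hg
    obtain ⟨b, hb⟩ := ppow hp.out (H1.relIndex_dvd_index_of_normal' O _) hx
    have a3 : g ^ p ^ b ∈ centralizer {x} := hb ▸ pow_index_mem (H := (centralizer {x}).subgroupOf O) ⟨g, hgO⟩
    exact zpowers_le.2 a3 (mem_zpowers_pow_iff.2 (Nat.Coprime.pow_left b (Nat.Coprime.symm hg)))
  rw [h2] at h1
  exact fun h => hp.out.one_lt.ne' (Nat.dvd_one.1 ((Nat.ModEq.dvd_iff h1 dvd_rfl).1 h))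

/-- Let G and H be finite groups such that for every natural number k, G and H have the same number of conjugacy classes of size k. If H is nilpotent then G is nilpotent. -/
theorem result {G H : Type*} [Group G] [Finite G] [Group H] [Finite H]
    (hH : Group.IsNilpotent H)
    (h : ∀ k : ℕ, Nat.card {C : ConjClasses G // Nat.card C.carrier = k} = Nat.card {C : ConjClasses H // Nat.card C.carrier = k}) :
    Group.IsNilpotent G := by
  classical
  obtain ⟨e, he⟩ : ∃ e : ConjClasses G ≃ ConjClasses H, ∀ c, Nat.card (e c).carrier = Nat.card c.carrier :=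
    ⟨Equiv.ofFiberEquiv (f := fun c : ConjClasses G => Nat.card c.carrier) (g := fun c : ConjClasses H => Nat.card c.carrier)
      fun k => (Finite.card_eq.1 (h k)).some, fun c => Equiv.ofFiberEquiv_map
        (f := fun c : ConjClasses G => Nat.card c.carrier) (g := fun c : ConjClasses H => Nat.card c.carrier) _ c⟩
  obtain ⟨E, hE⟩ : ∃ E : G ≃ H, ∀ x, ConjClasses.mk (E x) = e (ConjClasses.mk x) :=
    ⟨Equiv.ofFiberEquiv (f := fun x : G => e (ConjClasses.mk x)) (g := ConjClasses.mk) fun c =>
      (Finite.card_eq.1 (by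
        obtain ⟨c, rfl⟩ := e.surjective c
        refine Eq.trans ?_ ((he c).symm.trans ?_)
        · exact Nat.card_congr (Equiv.subtypeEquivRight fun x => by
            rw [e.apply_eq_iff_eq]; exact ConjClasses.mem_carrier_iff_mk_eq.symm)
        · exact Nat.card_congr (Equiv.subtypeEquivRight fun x => ConjClasses.mem_carrier_iff_mk_eq))).some,
      fun x => Equiv.ofFiberEquiv_map (f := fun x : G => e (ConjClasses.mk x)) (g := ConjClasses.mk) _ x⟩
  have hi : ∀ x, (centralizer {E x}).index = (centralizer {x}).index := fun x => by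
    rw [← H1.ncard_carrier, ← H1.ncard_carrier, hE]; exact he _
  have T : Group.IsNilpotent G ↔ ∀ (p : ℕ) (_hp : Fact p.Prime) (P : Sylow p G), (P : Subgroup G).Normal :=
    Group.isNilpotent_of_finite_tfae.out 0 3
  refine T.2 fun p hp P => ?_
  obtain ⟨m, h1, h2⟩ := key (G := G) (p := p)
  obtain ⟨m', -, h3⟩ := key (G := H) (p := p)
  have h4 : Nat.card {x : G | ∃ k, (centralizer {x}).index = p ^ k} = Nat.card {x : H | ∃ k, (centralizer {x}).index = p ^ k} :=
    Nat.card_congr (E.subtypeEquiv fun x => by simp only [Set.mem_setOf_eq, hi])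
  obtain ⟨Q⟩ : Nonempty (Sylow p H) := inferInstance
  have h5 : (Q : Subgroup H) ≤ centralizer (pResidual p H : Set H) := by
    refine le_centralizer_iff.1 ((closure_le _).2 fun g hg y hy => ?_)
    obtain ⟨k, hk⟩ := Q.isPGroup' ⟨y, hy⟩
    refine H1.commute_of_coprime_of_nilpotent (L := ⊤) inferInstance trivial trivial ?_
    exact Nat.Coprime.coprime_dvd_left (orderOf_dvd_of_pow_eq_one (congrArg Subtype.val hk))
      (Nat.Coprime.pow_left k (Nat.Coprime.symm hg))
  have h6 : Nat.card P ∣ Nat.card (centralizer (pResidual p G : Set G)) := by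
    have : Nat.card P = Nat.card Q := by rw [P.card_eq_multiplicity, Q.card_eq_multiplicity, Nat.card_congr E]
    have a1 : Nat.card P ∣ Nat.card (centralizer (pResidual p G : Set G)) * m := by
      rw [← h2, h4, h3, this]
      exact (card_dvd_of_le h5).mul_right _
    refine Nat.Coprime.dvd_of_dvd_mul_right ?_ a1
    rw [P.card_eq_multiplicity]
    exact Nat.Coprime.pow_left _ ((Nat.Prime.coprime_iff_not_dvd hp.out).2 h1)
  have hP := syl_top_of_sylow P
  have h7 := hP.inf_normal (N := centralizer (pResidual p G : Set G)) le_top le_normalizer_of_normal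
  have h8 : (P : Subgroup G) ≤ centralizer (pResidual p G : Set G) := by
    refine (eq_of_le_of_card_ge inf_le_left ?_).ge.trans inf_le_right
    rw [h7.card_eq, P.card_eq_multiplicity]
    exact Nat.pow_le_pow_right hp.out.pos ((Nat.Prime.pow_dvd_iff_le_factorization hp.out Nat.card_pos.ne').1
      (P.card_eq_multiplicity ▸ h6))
  rw [← normalizer_eq_top_iff, eq_top_iff, ← H2.pResidual_sup_sylow P]
  exact sup_le ((le_centralizer_iff.1 h8).trans (centralizer_le_normalizer' _)) le_normalizer

end Cfsg.Agent.S4139
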