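import Cfsg.Statements.S4145
import Cfsg.Agent.CZ.C
import Cfsg.Agent.H3.Chr3

set_option autoImplicit false
open Cfsg

namespace Cfsg.Agent.S4145

open Subgroup H9
open scoped commutatorElement

/-- Let G be a finite group with a cyclic Sylow p-subgroup and H a normal subgroup such that p divides both the order of H and the index of H. Then H has a normal p-complement and G is p-solvable. -/
theorem result {G : Type*} [Group G] [Finite G] (p : ℕ) [Fact p.Prime]
    (P : Sylow p G) (hP : IsCyclic (P : Subgroup G)) (H : Subgroup G) [H.Normal] (h1 : p ∣ Nat.card H) (h2 : p ∣ H.index) :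
    Cfsg.HasNormalPComplement p H ∧ Cfsg.IsPSolvable p G := by
  have hS := syl_top_of_sylow P
  have h3 : ¬ (P : Subgroup G) ≤ H := fun h => P.not_dvd_index (h2.trans (index_dvd_of_le h))
  have h4 := CZ.npc_of_cyc_not_le P hP h3
  refine ⟨npc_iff.1 h4, H2.psv_of fun K hK hf => ?_⟩
  suffices NPC p K by
    rw [NPC, Ores_eq_H2, le_antisymm (H2.Op_le p K) hf.1] at this
    refine le_bot_iff.1 (hf.2.trans (H2.Oq_le_iff.2 fun x hx ⟨k, hk⟩ => ?_))
    exact mem_bot.2 (H2.eq_one_of_pow_of_coprime (hk ▸ pow_orderOf_eq_one x)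
      (this.coprime_dvd_left (orderOf_dvd_card_of_mem hx)))
  by_cases h5 : (P : Subgroup G) ≤ K
  swap
  · exact CZ.npc_of_cyc_not_le P hP h5
  have hT := hS.inf_normal (N := H) le_top le_normalizer_of_normal
  haveI : (Op' p H).Normal := normal_of_top_le (normalizer_Op' le_normalizer_of_normal)
  have h6 : K ≤ Op' p H ⊔ centralizer (((P : Subgroup G) ⊓ H : Subgroup G) : Set G) := by
    have k1 := H2.pf_eq_bot H3.psv_of_solv (hf.map Abelianization.of)
    rw [Subgroup.map_eq_bot_iff, Abelianization.ker_of] at k1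
    have k2 := hT.frattini le_top le_normalizer_of_normal
    nth_rewrite 1 [← h4.eq_sup hT] at k2
    rw [sup_assoc, top_inf_eq, sup_eq_right.2 le_normalizer] at k2
    refine k1.trans ?_
    rw [← QuotientGroup.comap_map_mk', ← map_le_iff_le_comap, commutator_def, map_commutator, ← k2, Subgroup.map_sup,
      QuotientGroup.map_mk'_self, bot_sup_eq, ← map_commutator]
    exact map_mono (H1.commutator_le_centralizer_of_isCyclic (H1.isCyc_of_le hP inf_le_left) le_rfl)
  refine CZ.npc_of_cyc (hS.mono h5 le_top) hP fun y hy ho hn _ e => ?_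
  refine cop_iff.1 (hT.eq_bot_iff.1 (le_bot_iff.1 (e ▸ le_inf inf_le_left fun u hu => ?_))) h1
  obtain ⟨c, hc, m, hm, rfl⟩ := (H1.mem_sup_of_le_normalizer_right le_normalizer_of_normal).1 (sup_comm (Op' p H) _ ▸ h6 hy)
  have k1 : c * m * u * (c * m)⁻¹ * u⁻¹ ∈ (P : Subgroup G) ⊓ Op' p H := by
    refine ⟨mul_mem (H1.conj_mem_of_mem_normalizer hn hu.1) ((P : Subgroup G).inv_mem hu.1), ?_⟩
    have := hc u hu
    rw [show c * m * u * (c * m)⁻¹ * u⁻¹ = c * (m * (u * m⁻¹ * u⁻¹)) * c⁻¹ * (c * u * (u * c)⁻¹) by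
      rw [this]; nth_rewrite 1 [show u⁻¹ = c * (u * c)⁻¹ by group]; rw [this]; group, this, mul_inv_cancel, mul_one]
    exact ‹(Op' p H).Normal›.conj_mem _ (mul_mem hm (‹(Op' p H).Normal›.conj_mem _ (inv_mem hm) _)) _
  rw [inf_eq_bot_of_p_p' P.isPGroup' (Op'_cop p H), mem_bot, mul_inv_eq_one, mul_inv_eq_iff_eq_mul] at k1
  exact mem_centralizer_singleton_iff.2 k1.symm

end Cfsg.Agent.S4145
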