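import Cfsg.Statements.S4151
import Cfsg.Agent.H1.ZC
import Cfsg.Agent.S4118

set_option autoImplicit false
open Cfsg

namespace Cfsg.Agent.S4151

open scoped commutatorElement
open H1

/-- Let G be a finite group and H a non-normal subgroup meeting each of its conjugates by elements outside N_G(H) trivially, with the order of H coprime to its index in N_G(H), such that G is π-separable for π the set of primes dividing the order of H (G has a chain of normal subgroups from 1 to G each of whose factors has order divisible only by primes dividing the order of H or coprime to it). Suppose a Sylow 2-subgroup of H is abelian and Q is a complement of H in N_G(H). Then C_H(Q), the subgroup of elements of H commuting with Q, has order coprime to its index in G and has a normal complement in G. -/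
theorem result {G : Type*} [Group G] [Finite G] (H : Subgroup G)
    (hTI : Cfsg.IsTISubset (H : Set G)) (hnn : ¬ H.Normal)
    (hHall : (Nat.card H).Coprime (H.subgroupOf (Subgroup.normalizer (H : Set G))).index)
    (hsep : ∃ (n : ℕ) (M : Fin (n + 1) → Subgroup G), M 0 = ⊥ ∧ M (Fin.last n) = ⊤ ∧ Monotone M ∧ (∀ i, (M i).Normal) ∧
      ∀ i : Fin n, (∀ q : ℕ, q.Prime → q ∣ (M i.castSucc).relIndex (M i.succ) → q ∣ Nat.card H) ∨
        ((M i.castSucc).relIndex (M i.succ)).Coprime (Nat.card H))
    (h2 : ∀ P : Sylow 2 H, IsMulCommutative (P : Subgroup H))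
    (Q : Subgroup G) (hQ : Q ≤ Subgroup.normalizer (H : Set G)) (hQH : Q ⊓ H = ⊥) (hQH' : Q ⊔ H = Subgroup.normalizer (H : Set G)) :
    (Nat.card ↥(H ⊓ Subgroup.centralizer (Q : Set G))).Coprime (H ⊓ Subgroup.centralizer (Q : Set G)).index ∧
    ∃ N : Subgroup G, N.Normal ∧ N.IsComplement' (H ⊓ Subgroup.centralizer (Q : Set G)) := by
  have hH := ti_hall hTI hHall
  obtain ⟨O, -, hOn, hOc, hOm⟩ := exists_core (G := G) (Nat.card H)
  have h1 := ti_sep_sup hTI hnn hH (piSep_of_hsep hsep) hOc hOm
  obtain ⟨F, _, _, D, hD, ⟨e⟩⟩ := ti_sep_frob hTI hnn hOc h1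
  have hpq := (Cfsg.Agent.S4118.fc_of_frob hD e).pq
  haveI : IsZGroup H := ⟨fun p hp P => by
    haveI := Fact.mk hp
    by_cases hp2 : p = 2
    · subst hp2
      exact hpq.cyc _ le_top (h2 P)
    · exact hpq.cyclic_odd hp2 P.isPGroup' le_top⟩
  have hc : (Nat.card Q).Coprime (Nat.card H) := by
    have e1 := relIndex_sup_of_le_normalizer hQ
    have e2 := card_inf_mul_relIndex H Q
    rw [inf_comm, hQH, Subgroup.card_bot, one_mul] at e2
    rw [hQH', e2] at e1
    rw [← e1]
    exact hHall.symm
  have h3 := commutator_sup_centralizer hQ hc (Or.inr inferInstance)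
  have h4 := zg_coprime hQ hc
  set C := H ⊓ Subgroup.centralizer (Q : Set G) with hC
  have hQK : Q ≤ Subgroup.normalizer ((⁅H, Q⁆ : Subgroup G) : Set G) :=
    Subgroup.normalizer_commutator_ge_right H Q
  haveI h5 : (O ⊔ (Q ⊔ ⁅H, Q⁆)).Normal := by
    rw [← Subgroup.normalizer_eq_top_iff, eq_top_iff, ← h1, ← hQH']
    refine sup_le (le_normalizer_of_le le_sup_left)
      (le_normalizer_sup Subgroup.le_normalizer_of_normal (sup_le (le_normalizer_of_le le_sup_left) ?_))
    conv_lhs => rw [← h3]
    refine sup_le (le_normalizer_of_le le_sup_right) (le_normalizer_sup ?_ ?_)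
    · exact inf_le_right.trans (Subgroup.centralizer_le_normalizer _)
    · exact inf_le_left.trans (Subgroup.normalizer_commutator_ge_left H Q)
  have h6 : (Nat.card (O ⊔ (Q ⊔ ⁅H, Q⁆) : Subgroup G)).Coprime (Nat.card C) := by
    rw [sup_comm]
    exact coprime_card_sup Subgroup.le_normalizer_of_normal
      (coprime_card_sup hQK (coprime_of_le_right hc inf_le_left) h4.symm)
      (coprime_of_le_right hOc inf_le_left)
  have h7 : (O ⊔ (Q ⊔ ⁅H, Q⁆)).IsComplement' C :=
    isComplement'_of_inf_sup (inf_eq_bot_of_coprime h6) (by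
      rw [sup_assoc, sup_assoc, h3, hQH', h1])
  exact ⟨by rw [h7.index_eq_card]; exact h6.symm, _, h5, h7⟩

end Cfsg.Agent.S4151
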