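import Cfsg.Statements.S4152
import Cfsg.Agent.FT.Pi
import Cfsg.Agent.H1.CS
import Cfsg.Agent.L.PG4

set_option autoImplicit false
open Cfsg

namespace Cfsg.Agent.S4152

open FT Subgroup

theorem card_pair {X Y : Type*} [Fintype X] [Finite Y] (p : X → Y → Prop) :
    Nat.card {z : X × Y // p z.1 z.2} = ∑ x, Nat.card {y // p x y} := by
  rw [Nat.card_congr (Equiv.subtypeProdEquivSigmaSubtype p), Nat.card_sigma]

noncomputable def aa {G : Type*} [Group G] (π : Set ℕ) (M : Subgroup G) (Y : Set G) : ℕ :=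
  Nat.card {z : G × G // (z.1 ∈ Y ∧ PiE π z.1) ∧ z.2 ∈ M ∧ Commute z.1 z.2}

noncomputable def bb {G : Type*} [Group G] (π : Set ℕ) (M : Subgroup G) (Y : Set G) : ℕ :=
  Nat.card {z : G × G // (z.1 ∈ M ∧ PiE π z.1) ∧ z.2 ∈ Y ∧ Commute z.1 z.2}

theorem mc {G : Type*} [Group G] {c x : G} : x ∈ centralizer {c} ↔ Commute x c := mem_centralizer_singleton_iff

theorem ab {G : Type*} [Group G] [Finite G] (π : Set ℕ) (M : Subgroup G) : ∀ Y : Set G,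
    (∀ y ∈ Y, ∀ m ∈ M, y * m ∈ Y) → (∀ y ∈ Y, ∀ c ∈ zpowers y, PiE πᶜ c → c ∈ M) →
    (∀ y ∈ Y, ∀ y' ∈ Y, y⁻¹ * y' ∈ M) → aa π M Y = bb π M Y := by
  classical
  induction M using WellFoundedLT.induction with | ind M ih => ?_
  intro Y h1 h2 h3
  haveI := Fintype.ofFinite G
  have cz : ∀ {x y c : G}, c ∈ zpowers x → Commute x y → Commute c y := fun ⟨k, hk⟩ h => hk ▸ h.zpow_left k
  have e1 : ∑ c : {c // c ∈ M ∧ PiE πᶜ c}, aa π (M ⊓ centralizer {c.1}) (Y ∩ centralizer {c.1}) =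
      Nat.card {z : G × G // z.1 ∈ Y ∧ z.2 ∈ M ∧ Commute z.1 z.2} := by
    simp only [aa]
    rw [← Nat.card_sigma]
    refine Nat.card_eq_of_bijective (fun z => ⟨(z.2.1.1 * z.1.1, z.2.1.2), h1 _ z.2.2.1.1.1 _ z.1.2.1, z.2.2.2.1.1,
      z.2.2.2.2.mul_left (mc.1 z.2.2.2.1.2).symm⟩) ⟨?_, ?_⟩
    · rintro ⟨⟨c, hc⟩, ⟨y, n⟩, h⟩ ⟨⟨c', hc'⟩, ⟨y', n'⟩, h'⟩ e
      simp only [Subtype.mk.injEq, Prod.mk.injEq] at e
      obtain ⟨rfl, rfl⟩ := pi_part_unique (mc.1 h.1.1.2) (mc.1 h'.1.1.2) h.1.2 hc.2 h'.1.2 hc'.2 e.1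
      obtain rfl := e.2
      rfl
    · rintro ⟨⟨y, n⟩, hy, hn, h⟩
      obtain ⟨u, hu, c, hc, e, h4, h5, h6⟩ := exists_pi_part π y
      have hc' := h2 y hy c hc h6
      refine ⟨⟨⟨c, hc', h6⟩, (u, n), ⟨⟨?_, mc.2 h4⟩, h5⟩, ⟨hn, mc.2 (cz hc h).symm⟩, cz hu h⟩,
        Subtype.ext (Prod.ext e.symm rfl)⟩
      rw [eq_mul_inv_of_mul_eq e.symm]
      exact h1 y hy _ (inv_mem hc')
  have e2 : ∑ c : {c // c ∈ M ∧ PiE πᶜ c}, bb π (M ⊓ centralizer {c.1}) (Y ∩ centralizer {c.1}) =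
      Nat.card {z : G × G // z.1 ∈ Y ∧ z.2 ∈ M ∧ Commute z.1 z.2} := by
    simp only [bb]
    rw [← Nat.card_sigma]
    refine Nat.card_eq_of_bijective (fun z => ⟨(z.2.1.2, z.2.1.1 * z.1.1), z.2.2.2.1.1, M.mul_mem z.2.2.1.1.1 z.1.2.1,
      z.2.2.2.2.symm.mul_right (mc.1 z.2.2.2.1.2)⟩) ⟨?_, ?_⟩
    · rintro ⟨⟨c, hc⟩, ⟨y, n⟩, h⟩ ⟨⟨c', hc'⟩, ⟨y', n'⟩, h'⟩ e
      simp only [Subtype.mk.injEq, Prod.mk.injEq] at e
      obtain ⟨rfl, rfl⟩ := pi_part_unique (mc.1 h.1.1.2) (mc.1 h'.1.1.2) h.1.2 hc.2 h'.1.2 hc'.2 e.2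
      obtain rfl := e.1
      rfl
    · rintro ⟨⟨y, n⟩, hy, hn, h⟩
      obtain ⟨u, hu, c, hc, e, h4, h5, h6⟩ := exists_pi_part π n
      exact ⟨⟨⟨c, zpowers_le.2 hn hc, h6⟩, (u, y), ⟨⟨zpowers_le.2 hn hu, mc.2 h4⟩, h5⟩,
        ⟨hy, mc.2 (cz hc h.symm).symm⟩, cz hu h.symm⟩, Subtype.ext (Prod.ext rfl e.symm)⟩
  have key : ∀ c : G, aa π (M ⊓ centralizer {c}) (Y ∩ centralizer {c}) = bb π (M ⊓ centralizer {c}) (Y ∩ centralizer {c}) ∨
      (M ⊓ centralizer {c} = M ∧ Y ∩ centralizer {c} = Y) := fun c => by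
    by_cases h : M ⊓ centralizer {c} = M
    · by_cases h' : (Y ∩ centralizer {c}).Nonempty
      · obtain ⟨y, hy, hy'⟩ := h'
        refine Or.inr ⟨h, Set.inter_eq_left.2 fun y' h' => ?_⟩
        exact (Subgroup.mul_mem_cancel_left _ (inv_mem hy')).1 (h.ge (h3 y hy y' h')).2
      · rw [Set.not_nonempty_iff_eq_empty.1 h']
        simp [aa, bb]
    · exact Or.inl (ih _ (lt_of_le_of_ne inf_le_left h) _
        (fun y hy m hm => ⟨h1 y hy.1 m hm.1, Subgroup.mul_mem _ hy.2 hm.2⟩)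
        (fun y hy d hd h => ⟨h2 y hy.1 d hd h, zpowers_le.2 hy.2 hd⟩)
        fun y hy y' hy' => ⟨h3 y hy.1 y' hy'.1, Subgroup.mul_mem _ (Subgroup.inv_mem _ hy.2) hy'.2⟩)
  have o : M ⊓ centralizer {1} = M ∧ Y ∩ centralizer {(1 : G)} = Y :=
    ⟨inf_eq_left.2 fun x _ => mc.2 (Commute.one_right x), Set.inter_eq_left.2 fun x _ => mc.2 (Commute.one_right x)⟩
  have o1 : PiE πᶜ (1 : G) := fun q hq h => absurd (by simpa using h) hq.one_lt.ne'
  rcases lt_trichotomy (aa π M Y) (bb π M Y) with h | h | h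
  · refine absurd (e1.trans e2.symm) (Finset.sum_lt_sum (fun (c : {c // c ∈ M ∧ PiE πᶜ c}) _ => (key c.1).elim le_of_eq fun h' => ?_)
      ⟨⟨1, one_mem _, o1⟩, Finset.mem_univ _, by rwa [o.1, o.2]⟩).ne
    rw [h'.1, h'.2]; exact h.le
  · exact h
  · refine absurd (e2.trans e1.symm) (Finset.sum_lt_sum (fun (c : {c // c ∈ M ∧ PiE πᶜ c}) _ => (key c.1).elim ge_of_eq fun h' => ?_)
      ⟨⟨1, one_mem _, o1⟩, Finset.mem_univ _, by rwa [o.1, o.2]⟩).ne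
    rw [h'.1, h'.2]; exact h.le

theorem cnt (G : Type*) [Group G] [Finite G] (π : Set ℕ) :
    Nat.card {C : ConjClasses G // ∀ q : ℕ, q.Prime → (∃ g : G, ConjClasses.mk g = C ∧ q ∣ orderOf g) → q ∈ π} *
      Nat.card G = Nat.card {z : G × G // PiE π z.1 ∧ Commute z.1 z.2} := by
  classical
  haveI := Fintype.ofFinite G
  haveI := Fintype.ofFinite (ConjClasses G)
  have ho : ∀ {a b : G}, ConjClasses.mk a = ConjClasses.mk b → orderOf a = orderOf b := fun h => by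
    obtain ⟨c, rfl⟩ := isConj_iff.1 (ConjClasses.mk_eq_mk_iff_isConj.1 h)
    exact ((MulAut.conj c).orderOf_eq _).symm
  rw [← Nat.card_congr (Equiv.sigmaFiberEquiv fun z : {z : G × G // PiE π z.1 ∧ Commute z.1 z.2} =>
    (⟨ConjClasses.mk z.1.1, fun q hq ⟨g, h1, h2⟩ => z.2.1 q hq (ho h1 ▸ h2)⟩ : {C : ConjClasses G //
      ∀ q : ℕ, q.Prime → (∃ g : G, ConjClasses.mk g = C ∧ q ∣ orderOf g) → q ∈ π})), Nat.card_sigma,
    Finset.sum_congr rfl (g := fun _ => Nat.card G), Finset.sum_const, Finset.card_univ, Nat.card_eq_fintype_card,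
    smul_eq_mul]
  rintro ⟨C, hC⟩ -
  obtain ⟨g, rfl⟩ := C.exists_rep
  have e : ∀ x : (ConjClasses.mk g).carrier, Nat.card {y // Commute x.1 y} = Nat.card (centralizer {g}) := fun x => by
    have h1 := (centralizer {g}).card_mul_index
    rw [← (centralizer {x.1}).card_mul_index, ← H1.ncard_carrier, ← H1.ncard_carrier,
      ConjClasses.mem_carrier_iff_mk_eq.1 x.2] at h1
    rw [Nat.eq_of_mul_eq_mul_right (by rw [H1.ncard_carrier]; exact Nat.pos_of_ne_zero index_ne_zero_of_finite) h1]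
    exact Nat.card_congr (Equiv.subtypeEquivRight fun y => ⟨fun h => mc.2 h.symm, fun h => (mc.1 h).symm⟩)
  rw [← (centralizer {g}).index_mul_card, ← H1.ncard_carrier, ← Nat.card_coe_set_eq, Nat.card_eq_fintype_card
    (α := (ConjClasses.mk g).carrier), ← Finset.card_univ, ← smul_eq_mul, ← Finset.sum_const,
    ← Finset.sum_congr rfl fun x _ => e x, ← card_pair fun (x : (ConjClasses.mk g).carrier) y => Commute x.1 y]
  exact Nat.card_congr ⟨fun z => ⟨(⟨z.1.1.1, ConjClasses.mem_carrier_iff_mk_eq.2 (congrArg Subtype.val z.2)⟩, z.1.1.2),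
    z.1.2.2⟩, fun z => ⟨⟨(z.1.1.1, z.1.2), fun q hq h => hC q hq ⟨_, ConjClasses.mem_carrier_iff_mk_eq.1 z.1.1.2, h⟩,
    z.2⟩, Subtype.ext (ConjClasses.mem_carrier_iff_mk_eq.1 z.1.1.2)⟩, fun _ => rfl, fun _ => rfl⟩

/-- Let G be a finite group, N a normal subgroup and π a set of primes. Then the number of conjugacy classes of π-elements of G (elements whose order is divisible only by primes in π) is at most the number of conjugacy classes of π-elements of N (under conjugation by N) times the number of conjugacy classes of π-elements of G/N. -/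
theorem result {G : Type*} [Group G] [Finite G] (N : Subgroup G) [N.Normal] (π : Set ℕ) :
    Nat.card {C : ConjClasses G // ∀ q : ℕ, q.Prime → (∃ g : G, ConjClasses.mk g = C ∧ q ∣ orderOf g) → q ∈ π} ≤ Nat.card {C : ConjClasses N // ∀ q : ℕ, q.Prime → (∃ g : N, ConjClasses.mk g = C ∧ q ∣ orderOf g) → q ∈ π} * Nat.card {C : ConjClasses (G ⧸ N) // ∀ q : ℕ, q.Prime → (∃ g : (G ⧸ N), ConjClasses.mk g = C ∧ q ∣ orderOf g) → q ∈ π} := by
  classical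
  haveI := Fintype.ofFinite G
  haveI := Fintype.ofFinite (G ⧸ N)
  refine Nat.le_of_mul_le_mul_right ?_ (Nat.card_pos (α := G))
  rw [cnt, ← N.card_mul_index, mul_mul_mul_comm, cnt, index_eq_card, cnt]
  have hb : ∀ Y : Set G, (∀ y ∈ Y, ∀ y' ∈ Y, y⁻¹ * y' ∈ N) →
      bb π N Y ≤ Nat.card {z : N × N // PiE π z.1 ∧ Commute z.1 z.2} := fun Y hY => by
    choose! r hr using fun n (h : ∃ y, y ∈ Y ∧ Commute n y) => h
    refine Nat.card_le_card_of_injective (fun z : {z : G × G // (z.1 ∈ N ∧ PiE π z.1) ∧ z.2 ∈ Y ∧ Commute z.1 z.2} =>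
      ⟨(⟨z.1.1, z.2.1.1⟩, ⟨(r z.1.1)⁻¹ * z.1.2, hY _ (hr _ ⟨_, z.2.2⟩).1 _ z.2.2.1⟩), ?_,
        Subtype.ext ((hr _ ⟨_, z.2.2⟩).2.inv_right.mul_right z.2.2.2)⟩) ?_
    · intro q hq h
      exact z.2.1.2 q hq (by rwa [orderOf_mk] at h)
    · rintro ⟨⟨n, y⟩, h⟩ ⟨⟨n', y'⟩, h'⟩ e
      simp only [Subtype.mk.injEq, Prod.mk.injEq] at e
      obtain ⟨rfl, e⟩ := e
      obtain rfl := mul_left_cancel e
      rfl
  have ha : ∀ q : G ⧸ N, PiE π q → aa π N {y | (y : G ⧸ N) = q} ≤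
      Nat.card {z : N × N // PiE π z.1 ∧ Commute z.1 z.2} := fun q hq => by
    have h3 : ∀ y ∈ {y : G | (y : G ⧸ N) = q}, ∀ y' ∈ {y : G | (y : G ⧸ N) = q}, y⁻¹ * y' ∈ N :=
      fun y hy y' hy' => QuotientGroup.eq.1 (Eq.trans hy (Eq.symm hy'))
    rw [ab π N {y | (y : G ⧸ N) = q} (fun y hy m hm => (QuotientGroup.mk_mul_of_mem y hm).trans hy) ?_ h3]
    · exact hb _ h3
    rintro y rfl c ⟨k, rfl⟩ hc
    refine L.mem_of_pow_mem (m := orderOf (y : G ⧸ N)) ?_ (H1.IsPiNum.coprime hq hc).symm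
    rw [← QuotientGroup.eq_one_iff, QuotientGroup.mk_pow, QuotientGroup.mk_zpow, ← zpow_natCast, ← zpow_mul, mul_comm,
      zpow_mul, zpow_natCast, pow_orderOf_eq_one, one_zpow]
  rw [card_pair fun (x y : G ⧸ N) => PiE π x ∧ Commute x y, Finset.mul_sum, card_pair fun (x y : G) => PiE π x ∧ Commute x y,
    ← Finset.sum_fiberwise (s := Finset.univ) (fun x : G => (x : G ⧸ N))]
  refine Finset.sum_le_sum fun q _ => ?_
  by_cases hq : PiE π q
  swap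
  · refine (Finset.sum_eq_zero fun x hx => ?_).le.trans (Nat.zero_le _)
    rw [← (Finset.mem_filter.1 hx).2] at hq
    haveI : IsEmpty {y // PiE π x ∧ Commute x y} :=
      ⟨fun y => hq fun r hr h => y.2.1 r hr (h.trans (orderOf_map_dvd (QuotientGroup.mk' N) x))⟩
    exact Nat.card_of_isEmpty
  refine le_trans ?_ (Nat.mul_le_mul_right _ (ha q hq))
  rw [aa, card_pair fun x y => (x ∈ {y : G | (y : G ⧸ N) = q} ∧ PiE π x) ∧ y ∈ N ∧ Commute x y, Finset.sum_mul,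
    Finset.sum_filter]
  refine Finset.sum_le_sum fun x _ => ?_
  split_ifs with h
  swap
  · exact Nat.zero_le _
  subst h
  choose! r hr using fun (u : G ⧸ N) (h : ∃ y : G, (y : G ⧸ N) = u ∧ Commute x y) => h
  rw [← Nat.card_prod]
  refine Nat.card_le_card_of_injective (fun y : {y // PiE π x ∧ Commute x y} =>
    (⟨(r y.1)⁻¹ * y.1, ⟨rfl, y.2.1⟩, QuotientGroup.eq.1 (hr _ ⟨_, rfl, y.2.2⟩).1,
      (hr _ ⟨_, rfl, y.2.2⟩).2.inv_right.mul_right y.2.2⟩, ⟨y.1, hq, y.2.2.map (QuotientGroup.mk' N)⟩)) ?_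
  rintro ⟨y, h⟩ ⟨y', h'⟩ e
  simp only [Subtype.mk.injEq, Prod.mk.injEq] at e
  have := e.1
  rw [e.2] at this
  exact Subtype.ext (mul_left_cancel this)

end Cfsg.Agent.S4152
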