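import Cfsg.Statements.S4153
import Cfsg.Agent.H1.Misc2

set_option autoImplicit false
open Cfsg

namespace Cfsg.Agent.S4153

open H1

/-- Let G be a finite group, p a prime, N a normal subgroup, P a Sylow p-subgroup of G and P̄ a Sylow p-subgroup of G/N. Count the elements of p-power order, the identity included. Then (number of such elements of G/N)/#P̄ ≤ (number of such elements of G)/#P, stated as a cross-multiplied inequality, with equality when N is central. -/
theorem result {G : Type*} [Group G] [Finite G] (p : ℕ) [Fact p.Prime] (N : Subgroup G) [N.Normal]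
    (P : Sylow p G) (Pbar : Sylow p (G ⧸ N)) :
    Nat.card {g : (G ⧸ N) // ∃ k : ℕ, orderOf g = p ^ k} * Nat.card (P : Subgroup G) ≤ Nat.card {g : G // ∃ k : ℕ, orderOf g = p ^ k} * Nat.card (Pbar : Subgroup (G ⧸ N)) ∧
    (N ≤ Subgroup.center G → Nat.card {g : (G ⧸ N) // ∃ k : ℕ, orderOf g = p ^ k} * Nat.card (P : Subgroup G) = Nat.card {g : G // ∃ k : ℕ, orderOf g = p ^ k} * Nat.card (Pbar : Subgroup (G ⧸ N))) := by
  classical
  haveI := Fintype.ofFinite G
  haveI := Fintype.ofFinite (G ⧸ N)
  set f := QuotientGroup.mk' N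
  have hf : Function.Surjective f := QuotientGroup.mk'_surjective N
  set m := Nat.card ((P : Subgroup G) ⊓ N : Subgroup G)
  have hP : Nat.card (P : Subgroup G) = m * Nat.card (Pbar : Subgroup (G ⧸ N)) := by
    have h1 : IsSylowIn p ((P : Subgroup G).map f) ⊤ := by
      simpa [Subgroup.map_top_of_surjective _ hf] using (isSylowIn_top P).map f
    rw [← h1.card_eq_card (isSylowIn_top Pbar), card_eq_card_ker_mul_card_map f, QuotientGroup.ker_mk', inf_comm]
  set s : Finset G := Finset.univ.filter fun g => ∃ k : ℕ, orderOf g = p ^ k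
  set t : Finset (G ⧸ N) := Finset.univ.filter fun g => ∃ k : ℕ, orderOf g = p ^ k
  have hs : Nat.card {g : G // ∃ k : ℕ, orderOf g = p ^ k} = s.card := Nat.subtype_card _ (by simp [s])
  have ht : Nat.card {g : G ⧸ N // ∃ k : ℕ, orderOf g = p ^ k} = t.card := Nat.subtype_card _ (by simp [t])
  have hst : ∀ a ∈ s, f a ∈ t := by
    intro a ha
    simp only [s, t, Finset.mem_filter, Finset.mem_univ, true_and] at ha ⊢
    obtain ⟨k, hk⟩ := ha
    obtain ⟨j, -, hj⟩ := (Nat.dvd_prime_pow Fact.out).1 (hk ▸ orderOf_map_dvd f a)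
    exact ⟨j, hj⟩
  have h1 : m * t.card ≤ s.card := by
    refine Finset.mul_card_image_le_card_of_maps_to hst m fun b hb => ?_
    obtain ⟨g, rfl⟩ := hf b
    obtain ⟨x, -, e, hx⟩ := exists_lift_p (p := p) f g (by simpa [t] using hb)
    obtain ⟨S, hS⟩ := exists_sylow_mem hx
    have : m = Nat.card ((S : Subgroup G) ⊓ N : Subgroup G) :=
      (sylow_inf_normal P N).card_eq_card (sylow_inf_normal S N)
    rw [this, ← Nat.card_eq_finsetCard]
    refine Nat.card_le_card_of_injective (fun n => ⟨x * n, ?_⟩) ?_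
    · have : f n = 1 := (QuotientGroup.eq_one_iff _).2 n.2.2
      simp only [s, Finset.mem_filter, Finset.mem_univ, true_and, map_mul, this, mul_one, e, and_true]
      exact exists_orderOf_eq_pow S.isPGroup' (Subgroup.mul_mem _ hS n.2.1)
    · intro a b hab
      exact Subtype.ext (mul_left_cancel (congrArg Subtype.val hab))
  rw [hs, ht, hP, ← mul_assoc, mul_comm t.card]
  refine ⟨Nat.mul_le_mul_right _ h1, fun hZ => ?_⟩
  congr 1
  refine le_antisymm h1 (Finset.card_le_mul_card_image_of_maps_to hst m fun b hb => ?_)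
  obtain ⟨g, rfl⟩ := hf b
  obtain ⟨x, -, e, hx⟩ := exists_lift_p (p := p) f g (by simpa [t] using hb)
  rw [← Nat.card_eq_finsetCard]
  refine Nat.card_le_card_of_injective (fun y => ⟨x⁻¹ * y, ?_⟩) ?_
  · obtain ⟨y, hy⟩ := y
    simp only [s, Finset.mem_filter, Finset.mem_univ, true_and] at hy
    have h2 : x⁻¹ * y ∈ N := by
      rw [← QuotientGroup.ker_mk' N, MonoidHom.mem_ker, map_mul, map_inv]
      exact inv_mul_eq_one.2 (e.trans hy.2.symm)
    refine ⟨(isSylowIn_top P).mem_of_mem_normalizer (Subgroup.mem_top _) ?_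
      (Subgroup.center_le_normalizer _ (hZ h2)), h2⟩
    have h3 : Commute x⁻¹ y := by
      have := Subgroup.mem_center_iff.1 (hZ h2) x
      have h4 : Commute x (x⁻¹ * y) := this
      have h5 := ((Commute.refl x).mul_right h4).inv_left
      simpa using h5
    obtain ⟨a, ha⟩ := hx
    obtain ⟨b, hb⟩ := hy.1
    have h4 := h3.orderOf_mul_dvd_mul_orderOf
    rw [orderOf_inv, ha, hb, ← pow_add] at h4
    obtain ⟨j, -, hj⟩ := (Nat.dvd_prime_pow Fact.out).1 h4
    exact ⟨j, hj⟩
  · intro a b hab
    exact Subtype.ext (mul_left_cancel (congrArg Subtype.val hab))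

end Cfsg.Agent.S4153
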