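import Cfsg.Statements.S4154
import Cfsg.Agent.H1.Misc2

set_option autoImplicit false
open Cfsg

namespace Cfsg.Agent.S4154

theorem aux {H : Type*} [Group H] [Finite H] (β : H →* H)
    (h : ∀ x : H, ∃ c g : H, β c = c ∧ x = c * (g⁻¹ * β g)) (g : H) (hg : β (g⁻¹ * β g) = g⁻¹ * β g) :
    g⁻¹ * β g = 1 := by
  let C : Subgroup H := β.eqLocus (MonoidHom.id H)
  let φ : C × (H ⧸ C) → H := fun t => t.1 * (t.2.out * (β t.2.out)⁻¹)
  have key : ∀ a : H, (a : H ⧸ C).out * (β (a : H ⧸ C).out)⁻¹ = a * (β a)⁻¹ := by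
    intro a
    obtain ⟨c, hc⟩ := QuotientGroup.mk_out_eq_mul C a
    have : β c = c := c.2
    rw [hc, map_mul, this]; group
  have hs : Function.Surjective φ := by
    intro x
    obtain ⟨c, g, h1, rfl⟩ := h x
    exact ⟨(⟨c, h1⟩, (g⁻¹ : H)), by simp only [φ]; rw [key]; simp⟩
  have hb : Function.Bijective φ := (Nat.bijective_iff_surjective_and_card _).2 ⟨hs, by
    rw [Nat.card_prod, mul_comm]; exact (Subgroup.card_eq_card_quotient_mul_card_subgroup C).symm⟩
  have := @hb.1 (⟨_, hg⟩, ((1 : H) : H ⧸ C)) (1, (g⁻¹ : H)) (by simp only [φ]; rw [key, key]; simp)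
  exact congrArg (fun t => (t.1 : H)) this

/-- Let G be a finite group and α an automorphism of G such that every element of G is the product of an element fixed by α and an element of the form g⁻¹α(g). If N is a normal α-invariant subgroup, then the automorphism ᾱ induced on G/N has the same property, and every coset fixed by ᾱ contains an element fixed by α (so the fixed points of ᾱ are the images of the fixed points of α). -/
theorem result {G : Type*} [Group G] [Finite G] (α : MulAut G)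
    (hccp : ∀ x : G, ∃ c g : G, α c = c ∧ x = c * (g⁻¹ * α g))
    (N : Subgroup G) [N.Normal] (hN : ∀ n ∈ N, α n ∈ N) :
    (∀ x : G, ∃ c g : G, c⁻¹ * α c ∈ N ∧ x⁻¹ * (c * (g⁻¹ * α g)) ∈ N) ∧
    (∀ x : G, x⁻¹ * α x ∈ N → ∃ c : G, α c = c ∧ c⁻¹ * x ∈ N) := by
  refine ⟨fun x => ?_, fun x hx => ?_⟩
  · obtain ⟨c, g, h1, h2⟩ := hccp x
    exact ⟨c, g, by rw [h1]; simp, by rw [← h2]; simp⟩
  · let β : G ⧸ N →* G ⧸ N := QuotientGroup.map N N α.toMonoidHom hN
    have hβ : ∀ g : G, β (g : G ⧸ N) = (α g : G) := fun g => rfl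
    obtain ⟨c, g, h1, h2⟩ := hccp x
    refine ⟨c, h1, ?_⟩
    have h3 := aux β (fun y => by
      obtain ⟨y, rfl⟩ := QuotientGroup.mk_surjective y
      obtain ⟨c, g, h1, h2⟩ := hccp y
      exact ⟨c, g, by rw [hβ, h1], by rw [hβ, h2]; rfl⟩) g (by
        have e : ((g : G ⧸ N)⁻¹ * β g) = ((c⁻¹ * x : G) : G ⧸ N) := by rw [h2, hβ]; simp
        rw [e, hβ, map_mul, map_inv, h1]
        simp only [QuotientGroup.mk_mul, mul_right_inj]
        exact (QuotientGroup.eq.2 hx).symm)
    rw [← QuotientGroup.eq_one_iff, ← h3, h2, hβ]; simp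

end Cfsg.Agent.S4154
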