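import Cfsg.Statements.S4155
import Cfsg.Agent.H9.SPE
import Cfsg.Agent.FT.B3a
import Cfsg.Agent.H1.Fitting

set_option autoImplicit false
open Cfsg

namespace Cfsg.Agent.S4155

section
open H9 Subgroup
open scoped commutatorElement
theorem syl {G : Type*} [Group G] [Finite G] (N : Subgroup G) [N.Normal] (hnil : Group.IsNilpotent N) (p : ℕ)
    [Fact p.Prime] : ∃ T : Subgroup G, T.Normal ∧ T ≤ N ∧ IsPGroup p T ∧
      ∀ x ∈ N, (∃ k : ℕ, x ^ p ^ k = 1) → x ∈ T := by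
  obtain ⟨P⟩ : Nonempty (Sylow p N) := inferInstance
  have hP : P.Normal := Sylow.normal_of_normalizerCondition Group.normalizerCondition_of_isNilpotent P
  haveI := Sylow.characteristic_of_normal P hP
  haveI := Sylow.unique_of_normal P hP
  refine ⟨(P : Subgroup N).map N.subtype, inferInstance, Subgroup.map_subtype_le _, P.isPGroup'.map _,
    fun x hx ⟨k, hk⟩ => ?_⟩
  have h1 : IsPGroup p (Subgroup.zpowers (⟨x, hx⟩ : N)) := by
    rintro ⟨_, j, rfl⟩
    refine ⟨k, Subtype.ext (Subtype.ext ?_)⟩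
    show (x ^ j) ^ p ^ k = 1
    rw [← zpow_natCast, ← zpow_mul, mul_comm, zpow_mul, zpow_natCast, hk, one_zpow]
  obtain ⟨Q, hQ⟩ := h1.exists_le_sylow
  exact ⟨⟨x, hx⟩, Subsingleton.elim Q P ▸ hQ (Subgroup.mem_zpowers _), rfl⟩

theorem pel {G : Type*} [Group G] {p : ℕ} {T : Subgroup G} (h : IsPGroup p T) {x : G} (hx : x ∈ T) :
    ∃ k : ℕ, x ^ p ^ k = 1 := by
  obtain ⟨k, hk⟩ := h ⟨x, hx⟩
  exact ⟨k, congrArg Subtype.val hk⟩
end

/-- Let G be a finite group and N a proper non-trivial normal nilpotent subgroup whose order is not a prime power, such that for every x outside N all elements of the coset xN have the same order as x. Then N is the Fitting subgroup of G, and for every prime q every Sylow q-subgroup of G/N is cyclic or generalized quaternion. -/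
theorem result {G : Type*} [Group G] [Finite G] (N : Subgroup G) [N.Normal] (hN1 : N ≠ ⊥) (hN2 : N ≠ ⊤)
    (heq : ∀ x : G, x ∉ N → ∀ n ∈ N, orderOf (x * n) = orderOf x)
    (hnil : Group.IsNilpotent N) (hnpp : ¬ IsPrimePow (Nat.card N)) :
    N = Cfsg.fittingSubgroup G ∧
    ∀ (q : ℕ) [Fact q.Prime] (Q : Sylow q (G ⧸ N)), IsCyclic (Q : Subgroup (G ⧸ N)) ∨ ∃ n : ℕ, Nonempty ((Q : Subgroup (G ⧸ N)) ≃* QuaternionGroup (2 ^ n)) := by
  open H9 Subgroup in open scoped commutatorElement in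
  have key : ∀ {p q : ℕ}, p.Prime → q.Prime → p ≠ q → ∀ x, x ∉ N → (∃ k : ℕ, x ^ q ^ k = 1) → ∀ y ∈ N,
      (∃ j : ℕ, y ^ p ^ j = 1) → Commute x y → y = 1 := by
    rintro p q hp hq hpq x hx ⟨k, hk⟩ y hy ⟨j, hj⟩ hc
    have h1 : (x * y) ^ q ^ k = 1 := orderOf_dvd_iff_pow_eq_one.mp (by
      rw [heq x hx y hy]; exact orderOf_dvd_of_pow_eq_one hk)
    rw [hc.mul_pow, hk, one_mul] at h1
    exact orderOf_eq_one_iff.mp (Nat.eq_one_of_dvd_coprimes (Nat.Coprime.pow j k ((Nat.coprime_primes hp hq).mpr hpq))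
      (orderOf_dvd_of_pow_eq_one hj) (orderOf_dvd_of_pow_eq_one h1))
  have other : ∀ q : ℕ, q.Prime → ∃ p : ℕ, p.Prime ∧ p ≠ q ∧ ∃ y ∈ N, y ≠ 1 ∧ y ^ p ^ 1 = 1 := by
    intro q hq
    have : ∃ p : ℕ, p.Prime ∧ p ∣ Nat.card N ∧ p ≠ q := by
      by_contra hc
      push Not at hc
      have h1 := Nat.eq_prime_pow_of_unique_prime_dvd (n := Nat.card N) (p := q) Nat.card_pos.ne'
        fun {d} hd hdv => hc d hd hdv
      refine hnpp ((isPrimePow_nat_iff _).mpr ⟨q, _, hq, Nat.pos_of_ne_zero fun h0 => hN1 ?_, h1.symm⟩)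
      rw [h0, pow_zero] at h1
      exact Subgroup.card_eq_one.mp h1
    obtain ⟨p, hp, hd, hpq⟩ := this
    haveI := Fact.mk hp
    obtain ⟨y, hy⟩ := exists_prime_orderOf_dvd_card' p hd
    refine ⟨p, hp, hpq, y, y.2, fun h => ?_, ?_⟩
    · rw [show y = 1 from Subtype.ext h, orderOf_one] at hy; exact hp.one_lt.ne hy
    · rw [pow_one, ← hy, ← Subgroup.coe_pow, pow_orderOf_eq_one]; rfl
  constructor
  · refine le_antisymm (H1.le_fitting hnil) fun g hg => ?_
    by_contra hgN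
    have h1 : orderOf (g : G ⧸ N) ≠ 1 := fun h => hgN ((QuotientGroup.eq_one_iff g).mp (orderOf_eq_one_iff.mp h))
    obtain ⟨q, hq, hd⟩ := Nat.exists_prime_and_dvd h1
    obtain ⟨a, m, hm, e⟩ := Nat.exists_eq_pow_mul_and_not_dvd (orderOf_pos g).ne' q hq.ne_one
    have hx : g ^ m ∉ N := fun h => hm (hd.trans (orderOf_dvd_of_pow_eq_one (by
      rw [← QuotientGroup.mk_pow]; exact (QuotientGroup.eq_one_iff _).mpr h)))
    have hxq : (g ^ m) ^ q ^ a = 1 := by rw [← pow_mul, mul_comm, ← e, pow_orderOf_eq_one]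
    obtain ⟨p, hp, hpq, y, hy, hy1, hyp⟩ := other q hq
    haveI := Fact.mk hp
    haveI := Fact.mk hq
    obtain ⟨T, hT, -, hTp, hT'⟩ := syl (fittingSubgroup G) H1.fitting_isNilpotent p
    obtain ⟨U, hU, -, hUq, hU'⟩ := syl (fittingSubgroup G) H1.fitting_isNilpotent q
    exact hy1 (key hp hq hpq _ hx ⟨a, hxq⟩ y hy ⟨1, hyp⟩ (Subgroup.commute_of_normal_of_disjoint U T hU hT
      (IsPGroup.disjoint_of_ne q p hpq.symm U T hUq hTp) _ _ (hU' _ (Subgroup.pow_mem _ hg m) ⟨a, hxq⟩)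
      (hT' y (H1.le_fitting hnil hy) ⟨1, hyp⟩)))
  intro q hq Q
  obtain ⟨p, hp, hpq, y, hy, hy1, hyp⟩ := other q hq.out
  haveI := Fact.mk hp
  obtain ⟨T, hT, hTN, hTp, hT'⟩ := syl N hnil p
  obtain ⟨U, hU, hUN, hUq, hU'⟩ := syl N hnil q
  obtain ⟨R, rfl⟩ := Sylow.mapSurjective_surjective (QuotientGroup.mk'_surjective N) q Q
  have hdis := IsPGroup.disjoint_of_ne q p hpq.symm U T hUq hTp
  let f := QuotientGroup.mk' U
  let π : G ⧸ U →* G ⧸ N := QuotientGroup.map U N (MonoidHom.id G) hUN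
  haveI : (T.map f).Normal := hT.map f (QuotientGroup.mk'_surjective U)
  have hF : H1.Fpf ((R : Subgroup G).map f) (T.map f) := H1.fpf_iff.mpr (by
    rintro _ ⟨h, hh, rfl⟩ _ ⟨k, hk, rfl⟩ e
    by_cases hN : h ∈ N
    · exact Or.inl ((QuotientGroup.eq_one_iff h).mpr (hU' h hN (pel R.isPGroup' hh)))
    right
    have h1 : h * k * h⁻¹ * k⁻¹ ∈ U := by
      refine (QuotientGroup.eq_one_iff _).mp ?_
      show f _ = 1
      rw [map_mul, map_mul, map_mul, e, map_inv, map_inv]; group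
    have h2 : h * k * h⁻¹ * k⁻¹ = 1 := Subgroup.disjoint_def.mp hdis h1 (T.mul_mem (hT.conj_mem k hk h) (T.inv_mem hk))
    rw [key hp hq.out hpq h hN (pel R.isPGroup' hh) k (hTN hk) (pel hTp hk)
      (mul_inv_eq_iff_eq_mul.mp (mul_inv_eq_one.mp h2)), map_one])
  have hT0 : T.map f ≠ ⊥ := fun h => by
    have : f y ∈ T.map f := ⟨y, hT' y hy ⟨1, hyp⟩, rfl⟩
    rw [h, Subgroup.mem_bot] at this
    exact hy1 (Subgroup.disjoint_def.mp hdis ((QuotientGroup.eq_one_iff y).mp this) (hT' y hy ⟨1, hyp⟩))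
  have hrk := FT.rk_le_one_of_fpf (by rw [Subgroup.normalizer_eq_top]; exact le_top) hF hT0 q
  have hm : ((R : Subgroup G).map f).map π = (R : Subgroup G).map (QuotientGroup.mk' N) := by
    rw [Subgroup.map_map]; rfl
  have hinj : Function.Injective (π.subgroupMap ((R : Subgroup G).map f)) :=
    (injective_iff_map_eq_one _).mpr (by
      rintro ⟨_, h, hh, rfl⟩ e
      have h1 : (h : G ⧸ N) = 1 := congrArg Subtype.val e
      exact Subtype.ext ((QuotientGroup.eq_one_iff h).mpr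
        (hU' h ((QuotientGroup.eq_one_iff h).mp h1) (pel R.isPGroup' hh))))
  let e := (MulEquiv.ofBijective _ ⟨hinj, π.subgroupMap_surjective _⟩).trans (MulEquiv.subgroupCongr hm)
  rcases H9.cyclic_or_quat (R.isPGroup'.map f) hrk with h | ⟨-, n, ⟨e'⟩⟩
  · exact Or.inl (isCyclic_of_surjective e e.surjective)
  · exact Or.inr ⟨n, ⟨e.symm.trans e'⟩⟩

end Cfsg.Agent.S4155
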