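import Cfsg.Statements.S4156
import Cfsg.Agent.H5.Decomp
import Cfsg.Agent.H5.Kinds

set_option autoImplicit false
open Cfsg

namespace Cfsg.Agent.S4156

open H5 Equiv Equiv.Perm Module

/-- Let n ≥ 5 and F a finite field. Then the projective special linear group PSL_n(F) contains a subgroup isomorphic to the alternating group of degree n + 1. -/
theorem result (n : ℕ) (hn : 5 ≤ n) (F : Type*) [Field F] [Finite F] :
    ∃ f : alternatingGroup (Fin (n + 1)) →* Matrix.ProjectiveSpecialLinearGroup (Fin n) F, Function.Injective f := by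
  let s : (Fin (n + 1) → F) →ₗ[F] F := ∑ i, LinearMap.proj i
  have hs : ∀ x, s x = ∑ i, x i := fun x => by simp [s]
  have r : finrank F (LinearMap.ker s) = finrank F (Fin n → F) := by
    have := s.finrank_range_add_finrank_ker
    rw [LinearMap.range_eq_top.2 fun c => ⟨Pi.single 0 c, by simp [hs]⟩] at this
    simp at this ⊢; omega
  let e := LinearEquiv.ofFinrankEq _ _ r
  let a : Perm (Fin (n + 1)) → ((Fin (n + 1) → F) ≃ₗ[F] (Fin (n + 1) → F)) := fun σ => LinearEquiv.funCongrLeft F F σ⁻¹
  have ha : ∀ σ, ∀ u ∈ LinearMap.ker s, a σ u ∈ LinearMap.ker s := fun σ u h => by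
    rw [LinearMap.mem_ker, hs] at *
    rw [← h]; exact Equiv.sum_comp σ⁻¹ u
  let ρ : Perm (Fin (n + 1)) →* (LinearMap.ker s ≃ₗ[F] LinearMap.ker s) := MonoidHom.mk' (fun σ => resAut (a σ) _ (ha σ))
    fun σ τ => by ext; rfl
  let φ : alternatingGroup (Fin (n + 1)) →* GL (Fin n) F :=
    (glEquiv.symm.toMonoidHom.comp ((autCongr e).toMonoidHom.comp ρ)).comp (Subgroup.subtype _)
  have D : ∀ g, (φ g).1.det = 1 := fun g => by
    have := Abelianization.commutator_subset_ker (Matrix.GeneralLinearGroup.det.comp φ)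
      (commutator_alternatingGroup_eq_top (α := Fin (n + 1)) (by simp; omega) ▸ Subgroup.mem_top g)
    exact congrArg Units.val this
  let ψ : alternatingGroup (Fin (n + 1)) →* Matrix.SpecialLinearGroup (Fin n) F :=
    MonoidHom.mk' (fun g => ⟨(φ g).1, D g⟩) fun g h => Subtype.ext (by simp; rfl)
  refine ⟨(QuotientGroup.mk' _).comp ψ, (MonoidHom.ker_eq_bot_iff _).1
    ((alternatingGroup.normal_subgroup_eq_bot_or_eq_top (by simp; omega)).resolve_right fun h => ?_)⟩
  have C : ∀ g g', g * g' = g' * g := fun g g' : alternatingGroup (Fin (n + 1)) => by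
    have := Subgroup.mem_center_iff.1 ((QuotientGroup.eq_one_iff _).1 (MonoidHom.mem_ker.1 (h ▸ Subgroup.mem_top g'))) (ψ g)
    have : φ (g * g') = φ (g' * g) := by rw [map_mul, map_mul]; exact Units.ext (congrArg Subtype.val this)
    have : ρ (g * g').1 = ρ (g' * g).1 := (autCongr e).injective (glEquiv.symm.injective this)
    rw [← mul_inv_eq_one, ← map_inv, ← map_mul] at this
    rw [← mul_inv_eq_one]
    generalize hx : (g * g').1 * (g' * g).1⁻¹ = x at this
    refine Subtype.ext (hx.trans (Equiv.ext fun i => ?_))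
    by_contra c
    obtain ⟨j, hj⟩ : ∃ j, j ∉ ({i, x i} : Finset (Fin (n + 1))) := by
      by_contra! H
      have := (Finset.card_le_card (fun i _ => H i : Finset.univ ⊆ _)).trans Finset.card_le_two
      simp at this; omega
    simp only [Finset.mem_insert, Finset.mem_singleton, not_or] at hj
    have := congrArg (fun t => (t ⟨Pi.single i 1 - Pi.single j 1, by simp [hs, Finset.sum_sub_distrib]⟩).1 (x i)) this
    simp [ρ, a, Ne.symm hj.1, Ne.symm hj.2, show x i ≠ i from c] at this
  have := alternatingGroup.isMulCommutative_iff_card_le_three.1 ⟨⟨C⟩⟩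
  simp at this; omega


end Cfsg.Agent.S4156
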