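import Cfsg.Statements.S4157
import Cfsg.Agent.H9.Kul4

set_option autoImplicit false
open Cfsg

namespace Cfsg.Agent.S4157

/-- Let G be a finite p-group of order p^m that is not cyclic and, when p = 2, not of maximal class (nilpotency class m − 1). Then for every 1 ≤ k < m the number of subgroups of G of order p^k is congruent to 1 + p modulo p². -/
theorem result {G : Type*} [Group G] [Finite G] {p : ℕ} [Fact p.Prime] (m : ℕ)
    (hG : Nat.card G = p ^ m) (hnc : ¬ IsCyclic G) (h2 : p = 2 → Group.nilpotencyClass G ≠ m - 1)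
    (k : ℕ) (hk1 : 1 ≤ k) (hk2 : k < m) :
    Nat.card {H : Subgroup G // Nat.card H = p ^ k} ≡ 1 + p [MOD p ^ 2] := by
  open H9 Subgroup in open scoped commutatorElement in
  rw [← H9.Kul.sb_top, ← ZMod.natCast_eq_natCast_iff]
  by_cases hp : p = 2
  · subst hp
    rw [H9.Kul.kul2 m G hG hnc k hk1 hk2, if_neg]
    · norm_num
    · rintro ⟨h3, h4⟩
      exact h2 rfl ((Cfsg.Agent.S0115.result m (by omega) hG).mpr (H9.Kul.mc_cyc (by omega) hG hnc h4))
  · rw [H9.Kul.kul hp m G hG hnc k hk1 hk2]
    simp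

end Cfsg.Agent.S4157
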