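import Cfsg.Statements.S4159
import Cfsg.Agent.H1.CS

set_option autoImplicit false
open Cfsg

namespace Cfsg.Agent.S4159

open H1

/-- Let G be a finite group such that in every subgroup H of G, any two conjugacy classes of H of size greater than 1 have non-coprime sizes. Then G is solvable. -/
theorem result {G : Type*} [Group G] [Finite G]
    (h : ∀ (H : Subgroup G) (x y : H), 1 < (Subgroup.centralizer ({x} : Set H)).index → 1 < (Subgroup.centralizer ({y} : Set H)).index →
      ¬ ((Subgroup.centralizer ({x} : Set H)).index).Coprime (Subgroup.centralizer ({y} : Set H)).index) : Group.IsSolvable G := by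
  by_contra hG
  obtain ⟨x, h1, h2, t, ⟨j, hj⟩, ht⟩ := exists_real_odd G hG
  have hne : x ≠ x⁻¹ := fun e => h1 (eq_one_of_sq_of_odd (by rw [pow_two]; nth_rewrite 2 [e]; exact mul_inv_cancel x) h2)
  set H : Subgroup G := Subgroup.zpowers x ⊔ Subgroup.zpowers t with hH
  have hn : Subgroup.zpowers t ≤ Subgroup.normalizer (Subgroup.zpowers x : Set G) := by
    rw [Subgroup.zpowers_le, mem_normalizer_iff_conj_mem]
    rintro _ ⟨m, rfl⟩
    simp only
    rw [← conj_zpow, ht]
    exact Subgroup.zpow_mem _ (Subgroup.inv_mem _ (Subgroup.mem_zpowers x)) m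
  have hxH : x ∈ H := Subgroup.mem_sup_left (Subgroup.mem_zpowers x)
  have htH : t ∈ H := Subgroup.mem_sup_right (Subgroup.mem_zpowers t)
  have hnc : t * x ≠ x * t := fun e => hne (by rw [← ht, e]; group)
  refine h H ⟨x, hxH⟩ ⟨t, htH⟩ ?_ ?_ ?_
  · refine Subgroup.one_lt_index_of_ne_top (fun e => hnc ?_)
    have : (⟨t, htH⟩ : H) ∈ Subgroup.centralizer {(⟨x, hxH⟩ : H)} := e ▸ Subgroup.mem_top _
    exact congrArg Subtype.val (Subgroup.mem_centralizer_singleton_iff.1 this)
  · refine Subgroup.one_lt_index_of_ne_top (fun e => hnc ?_)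
    have : (⟨x, hxH⟩ : H) ∈ Subgroup.centralizer {(⟨t, htH⟩ : H)} := e ▸ Subgroup.mem_top _
    exact (congrArg Subtype.val (Subgroup.mem_centralizer_singleton_iff.1 this)).symm
  · rw [ci_subtype, ci_subtype]
    have a1 : (Subgroup.centralizer {x}).relIndex H ∣ 2 ^ j := by
      refine (Subgroup.relIndex_dvd_of_le_left (H := Subgroup.zpowers x) H ?_).trans ?_
      · rw [Subgroup.zpowers_le]; exact Subgroup.mem_centralizer_singleton_iff.2 rfl
      · rw [hH, sup_comm, relIndex_sup_of_le_normalizer hn, ← hj, ← Nat.card_zpowers]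
        exact Subgroup.relIndex_dvd_card _ _
    have a2 : (Subgroup.centralizer {t}).relIndex H ∣ orderOf x := by
      refine (Subgroup.relIndex_dvd_of_le_left (H := Subgroup.zpowers t) H ?_).trans ?_
      · rw [Subgroup.zpowers_le]; exact Subgroup.mem_centralizer_singleton_iff.2 rfl
      · have e1 := card_mul_relIndex (H := Subgroup.zpowers t) (K := H) le_sup_right
        have e2 := card_sup_dvd hn
        rw [sup_comm, ← hH, ← e1, Nat.card_zpowers (a := x)] at e2
        exact Nat.dvd_of_mul_dvd_mul_left Nat.card_pos e2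
    exact Nat.Coprime.coprime_dvd_left a1 (Nat.Coprime.coprime_dvd_right a2
      (Nat.Coprime.pow_left j (Nat.coprime_two_left.2 h2)))

end Cfsg.Agent.S4159
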