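import Cfsg.Statements.S4160
import Cfsg.Agent.H1.CS
import Cfsg.Agent.H9.Syl

set_option autoImplicit false
open Cfsg

namespace Cfsg.Agent.S4160

open Subgroup H9

theorem bound {G : Type*} [Group G] [Finite G] {p : ℕ} (hp : p.Prime) (h : ¬ HasNormalPComplement p G) :
    2 * {x : G | x ≠ 1 ∧ ¬ p ∣ (centralizer {x}).index}.ncard + 2 ≤ Nat.card G := by
  classical
  haveI := Fact.mk hp
  letI := Fintype.ofFinite G
  letI := Fintype.ofFinite (Sylow p G)
  obtain ⟨P⟩ : Nonempty (Sylow p G) := inferInstance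
  set c := Nat.card (centralizer ((P : Subgroup G) : Set G))
  have h1 : {x : G | x ≠ 1 ∧ ¬ p ∣ (centralizer {x}).index}.ncard ≤ Fintype.card (Sylow p G) * (c - 1) := by
    rw [Set.ncard_eq_toFinset_card']
    refine (Finset.card_le_card (t := Finset.univ.biUnion fun Q : Sylow p G =>
      (Finset.univ.filter (· ∈ centralizer ((Q : Subgroup G) : Set G))).erase 1) fun x hx => ?_).trans
      (Finset.card_biUnion_le_card_mul _ _ _ fun Q _ => ?_)
    · simp only [Set.mem_toFinset, Set.mem_setOf_eq] at hx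
      obtain ⟨Q, hQ⟩ := H1.exists_sylow_le_of_not_dvd hx.2
      exact Finset.mem_biUnion.2 ⟨Q, Finset.mem_univ _, Finset.mem_erase.2 ⟨hx.1,
        Finset.mem_filter.2 ⟨Finset.mem_univ _, le_centralizer_singleton_iff.1 hQ⟩⟩⟩
    · rw [Finset.card_erase_of_mem (Finset.mem_filter.2 ⟨Finset.mem_univ _, one_mem _⟩), ← Fintype.card_subtype,
        ← Nat.card_eq_fintype_card]
      obtain ⟨g, -, hg⟩ := (syl_top_of_sylow P).conj (syl_top_of_sylow Q)
      rw [← hg, ← cj_centralizer, card_cj]
  have h2 : centralizer ((P : Subgroup G) : Set G) < normalizer ((P : Subgroup G) : Set G) :=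
    lt_of_le_of_ne (centralizer_le_normalizer' _) fun e =>
      h ⟨P, _, inferInstance, MonoidHom.ker_transferSylow_isComplement' P e.ge⟩
  obtain ⟨k, hk⟩ := card_dvd_of_le h2.le
  have h3 : 2 ≤ k := by
    by_contra hlt
    have h4 : 0 < Nat.card (normalizer ((P : Subgroup G) : Set G)) := Nat.card_pos
    interval_cases k
    · omega
    · exact h2.ne (eq_of_le_of_card_ge h2.le (by omega))
  have h4 := (normalizer ((P : Subgroup G) : Set G)).index_mul_card
  have h5 := P.card_eq_index_normalizer
  rw [Nat.card_eq_fintype_card] at h5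
  have h6 : 0 < Fintype.card (Sylow p G) := Fintype.card_pos
  have h7 : 0 < c := Nat.card_pos
  have h8 : Fintype.card (Sylow p G) * (c * k) = Nat.card G := by rw [h5, ← hk]; exact h4
  obtain ⟨d, hd⟩ : ∃ d, c = d + 1 := ⟨c - 1, by omega⟩
  rw [hd] at h1 h8
  simp only [Nat.add_sub_cancel] at h1
  nlinarith [Nat.mul_le_mul_left (Fintype.card (Sylow p G) * (d + 1)) h3]

/-- Let G be a finite group and p ≠ q primes each dividing the size of some conjugacy class of G, such that no conjugacy class size is divisible by pq. Then G has a normal p-complement or a normal q-complement. -/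
theorem result {G : Type*} [Group G] [Finite G] (p q : ℕ) (hp : p.Prime) (hq : q.Prime) (hpq : p ≠ q)
    (hp' : ∃ x : G, p ∣ (Subgroup.centralizer ({x} : Set G)).index) (hq' : ∃ x : G, q ∣ (Subgroup.centralizer ({x} : Set G)).index) (h : ∀ x : G, ¬ p * q ∣ (Subgroup.centralizer ({x} : Set G)).index) :
    Cfsg.HasNormalPComplement p G ∨ Cfsg.HasNormalPComplement q G := by
  by_contra hc
  push Not at hc
  have h1 := bound hp hc.1
  have h2 := bound hq hc.2
  have h3 : ({1}ᶜ : Set G).ncard ≤ _ := (Set.ncard_le_ncard (t := {x : G | x ≠ 1 ∧ ¬ p ∣ (centralizer {x}).index} ∪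
    {x : G | x ≠ 1 ∧ ¬ q ∣ (centralizer {x}).index}) fun x hx => by
      by_contra h4
      simp only [Set.mem_union, Set.mem_setOf_eq, not_or, not_and, not_not] at h4
      exact h x (((Nat.coprime_primes hp hq).2 hpq).mul_dvd_of_dvd_of_dvd (h4.1 hx) (h4.2 hx))).trans (Set.ncard_union_le _ _)
  have h4 := Set.ncard_add_ncard_compl ({1} : Set G)
  rw [Set.ncard_singleton] at h4
  omega

end Cfsg.Agent.S4160
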