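import Cfsg.Statements.S4168
import Cfsg.Agent.H1.Misc2

set_option autoImplicit false
open Cfsg

namespace Cfsg.Agent.S4168

open H1

/-- Let L be a finite quasisimple group (perfect with L/Z(L) simple). Then every prime dividing the order of the centre Z(L) also divides the order of L/Z(L). -/
theorem result {L : Type*} [Group L] [Finite L] (hL : Cfsg.IsQuasisimple L)
    (p : ℕ) (hp : p.Prime) (hdiv : p ∣ Nat.card (Subgroup.center L)) : p ∣ (Subgroup.center L).index := by
  by_contra h
  haveI := Fact.mk hp
  obtain ⟨P, hP⟩ := exists_isSylowIn (p := p) (Subgroup.center L)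
  have h1 : IsSylowIn p P ⊤ := hP.trans le_top (by simpa using h)
  obtain ⟨Q, rfl⟩ := h1.exists_sylow_top
  have := H9.cop_of_perfect_of_central_syl (K := ⊤) (Group.isPerfect_def.1 hL.1) (H9.syl_top_of_sylow Q)
    (hP.1.trans (Subgroup.center_le_centralizer _))
  exact hp.one_lt.ne' (Nat.eq_one_of_dvd_coprimes this (hdiv.trans (Subgroup.card_dvd_of_le le_top)) dvd_rfl)

end Cfsg.Agent.S4168
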