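import Cfsg.Statements.S4169
import Cfsg.Agent.S4163
import Cfsg.Agent.FT.Defs

set_option autoImplicit false
open Cfsg

namespace Cfsg.Agent.S4169

open Subgroup H9 in
theorem aux {P : Type*} [Group P] [Finite P] {p : ℕ} [Fact p.Prime] (hP : IsPGroup p P)
    (m : ℕ) (hm : 1 < m) (h : ∀ x : P, (Subgroup.centralizer ({x} : Set P)).index = 1 ∨ (Subgroup.centralizer ({x} : Set P)).index = m) :
    Subgroup.upperCentralSeries P 3 = ⊤ := by
  by_cases hm' : ∃ x : P, (Subgroup.centralizer ({x} : Set P)).index = m
  · haveI := hP.isNilpotent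
    obtain ⟨A, -, -, h2, h3, h4⟩ := H1.exists_maximal_abelian_normal (A := (⊥ : Subgroup P)) (L := ⊤) bot_le
      le_normalizer_of_normal inferInstance
    haveI : A.Normal := normalizer_eq_top_iff.1 (eq_top_iff.2 h2)
    have h5 := H1.centralizer_eq_of_maximal_abelian_normal (L := ⊤) inferInstance le_top h2 h3 h4
    have := Cfsg.Agent.S4163.result A h3 (by simpa using h5) m hm hm' (fun x hx => by
      rcases h x with h | h <;> omega)
    have e : Subgroup.closure {x : P | (Subgroup.centralizer ({x} : Set P)).index = 1 ∨ (Subgroup.centralizer ({x} : Set P)).index = m} = ⊤ :=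
      eq_top_iff.2 fun x _ => subset_closure (h x)
    rw [e] at this
    have h6 := Subgroup.upperCentralSeries.map (f := (⊤ : Subgroup P).subtype) (fun x => ⟨⟨x, trivial⟩, rfl⟩) 3
    rw [this, ← MonoidHom.range_eq_map, range_subtype] at h6
    exact eq_top_iff.2 h6
  · apply Cfsg.Agent.S4163.ucs3
    have : ⁅(⊤ : Subgroup P), (⊤ : Subgroup P)⁆ = ⊥ := by
      rw [commutator_eq_bot_iff_le_centralizer]
      intro x _ y _
      have := (h x).resolve_right (fun e => hm' ⟨x, e⟩)
      rw [index_eq_one] at this
      exact mem_centralizer_singleton_iff.1 (this ▸ mem_top y)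
    simp [this]

/-- Let P be a finite p-group whose conjugacy classes have exactly two sizes (1 and one other value). Then P has nilpotency class at most 3. -/
theorem result {P : Type*} [Group P] [Finite P] {p : ℕ} [Fact p.Prime] (hP : IsPGroup p P)
    (m : ℕ) (hm : 1 < m) (h : ∀ x : P, (Subgroup.centralizer ({x} : Set P)).index = 1 ∨ (Subgroup.centralizer ({x} : Set P)).index = m) :
    upperCentralSeries P 3 = ⊤ := by
  exact aux hP m hm h

end Cfsg.Agent.S4169
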