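import Cfsg.Statements.S4172
import Cfsg.Agent.H2.Fus13
import Cfsg.Agent.H9.Join
import Cfsg.Agent.H9.Stab
import Cfsg.Agent.H1.Tr
import Cfsg.Agent.H1.Gaschutz
import Cfsg.Agent.FT.Pi
import Cfsg.Agent.H9.Sec

set_option autoImplicit false
open Cfsg

namespace Cfsg.Agent.S4172

open scoped commutatorElement
open H1
open Subgroup H9

section
variable {G : Type*} [Group G] [Finite G] {p : ℕ} [hp : Fact p.Prime] {S X : Subgroup G}

theorem cyc (hS : IsPGroup p S) (hg : (L.Phi S).relIndex S = p ^ 2) (h : ¬ X ⊓ S ≤ L.Phi S) :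
    ∃ g ∈ S, S ≤ X ⊓ S ⊔ zpowers g := by
  have l : L.Phi S ⊔ X ⊓ S ≤ S := sup_le (L.Phi_le S) inf_le_right
  rcases l.lt_or_eq with lt | e
  · obtain ⟨g, g1, g2⟩ := SetLike.exists_of_lt lt
    have l2 : L.Phi S ⊔ X ⊓ S ⊔ zpowers g ≤ S := sup_le l (zpowers_le.2 g1)
    have c1 := L.mul_card_le_of_lt (hS.to_le l) (left_lt_sup.2 h)
    have c2 := L.mul_card_le_of_lt (hS.to_le l2) (left_lt_sup.2 (mt zpowers_le.1 g2))
    have c3 := relIndex_mul_card (L.Phi_le S)
    refine ⟨g, g1, le_of_Phi_sup (sup_le inf_le_right (zpowers_le.2 g1)) ?_⟩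
    rw [← sup_assoc]
    exact (eq_of_le_of_card_ge l2 (by rw [← c3, hg, pow_two, mul_assoc]; exact (Nat.mul_le_mul_left p c1).trans c2)).ge
  · exact ⟨1, one_mem _, (le_of_Phi_sup inf_le_right e.ge).trans le_sup_left⟩

theorem der {g : G} (hn : S ≤ normalizer (X : Set G)) (g1 : g ∈ S) (h : S ≤ X ⊓ S ⊔ zpowers g) : ⁅S, S⁆ ≤ X := by
  have n : S ≤ normalizer ((X ⊓ S : Subgroup G) : Set G) := H1.le_normalizer_inf hn Subgroup.le_normalizer
  have z := (zpowers_le.2 g1).trans n
  refine le_trans ((commutator_mono h le_rfl).trans (H9.commutator_sup_le Subgroup.le_normalizer z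
    (H9.commutator_le_left' n) ?_)) inf_le_left
  rw [commutator_comm]
  exact (commutator_mono h le_rfl).trans (H9.commutator_sup_le Subgroup.le_normalizer z (H9.commutator_le_left' z)
    (by rw [comm_iff_commutator.1 inferInstance]; exact bot_le))

theorem isP (hS : Syl p S ⊤) (hO : Op' p (⊤ : Subgroup G) = ⊥) (hX : SN X ⊤) (hn : S ≤ normalizer (X : Set G))
    (h : X ⊓ S ≤ L.Phi S) : IsPGroup p X := by
  have s := hS.mono (le_sup_right : S ≤ X ⊔ S) le_top
  have a : NPC p (X ⊔ S) := npc_iff.2 (H2.tate_group ⟨s.le, s.isP, s.not_dvd⟩ (le_trans (le_inf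
    (inf_le_right.trans (H2.Op_le_iff.2 fun y hy hc => Ores_le_of_sup hS.isP hn le_rfl
      (le_Ores (zpowers_le.2 hy) (by rwa [Nat.card_zpowers]) (mem_zpowers y)))) inf_le_left) h))
  exact isPGroup_of_Ores_eq_bot (le_bot_iff.1 (((SN.step (Ores_le p X) (normalizer_Ores Subgroup.le_normalizer)
    hX).le_Op' (a.mono le_sup_left)).trans hO.le))

end

/-- Let p be a prime and G a finite group with a non-commutative Sylow p-subgroup P whose Frattini subgroup has index p² in P (P is generated by two elements). Suppose G has no nontrivial normal subgroup of order prime to p and the Frattini subgroup of P contains no nontrivial normal subgroup of G. Then the generalized Fitting subgroup F*(G) is the unique minimal normal subgroup of G, the image of P in G/F*(G) is cyclic, and if F*(G) is not commutative then P permutes the components of G transitively by conjugation. -/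
theorem result {G : Type*} [Group G] [Finite G] (p : ℕ) [Fact p.Prime] (P : Sylow p G) (hna : ¬ IsMulCommutative (P : Subgroup G)) (hgen : (frattini ↥(P : Subgroup G)).index = p ^ 2) (hcore : Cfsg.pPrimeCore p G = ⊥) (hfrat : ((frattini ↥(P : Subgroup G)).map (P : Subgroup G).subtype).normalCore = ⊥) [hFn : (Cfsg.generalizedFittingSubgroup G).Normal] :
    (Cfsg.generalizedFittingSubgroup G ≠ ⊥ ∧ ∀ K : Subgroup G, K.Normal → K ≠ ⊥ → Cfsg.generalizedFittingSubgroup G ≤ K) ∧
      IsCyclic ↥((P : Subgroup G).map (QuotientGroup.mk' (Cfsg.generalizedFittingSubgroup G))) ∧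
      (¬ IsMulCommutative (Cfsg.generalizedFittingSubgroup G) → ∀ K L : Subgroup G, Cfsg.IsComponent K → Cfsg.IsComponent L → ∃ x ∈ (P : Subgroup G), L = K.map (MulAut.conj x).toMonoidHom) := by
  have hS := syl_top_of_sylow P
  set S := (P : Subgroup G)
  have hg : (L.Phi S).relIndex S = p ^ 2 := by
    rw [← hgen, relIndex, subgroupOf, comap_map_eq_self_of_injective S.subtype_injective]
  have hO : Op' p (⊤ : Subgroup G) = ⊥ := by rw [Op'_top, hcore]
  have b0 : ∀ K : Subgroup G, K.Normal → K ≤ L.Phi S → K = ⊥ := fun K _ h =>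
    le_bot_iff.1 ((normal_le_normalCore.2 h).trans hfrat.le)
  have S0 : ⁅S, S⁆ ≠ ⊥ := mt comm_iff_commutator.2 hna
  have k1 : ∀ K : Subgroup G, K.Normal → K ≠ ⊥ → ∃ g ∈ S, S ≤ K ⊓ S ⊔ zpowers g := fun K _ h0 =>
    cyc hS.isP hg fun h => h0 (b0 K inferInstance (le_trans (le_inf le_rfl (hS.le_of_le_normalizer
      (isP hS hO (SN.of_normal_top K) le_normalizer_of_normal h) le_top (Or.inr le_normalizer_of_normal))) h))
  have k2 : ∀ K : Subgroup G, K.Normal → K ≠ ⊥ → ⁅S, S⁆ ≤ K := fun K _ h0 =>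
    let ⟨g, g1, g2⟩ := k1 K inferInstance h0; der le_normalizer_of_normal g1 g2
  have t0 : (⊤ : Subgroup G) ≠ ⊥ := fun e => S0 (le_bot_iff.1 (le_top.trans e.le))
  obtain ⟨N, _, N0, -, Nm⟩ := exists_minimal_normal_le ⊤ t0
  have k3 : ∀ K : Subgroup G, K.Normal → K ≠ ⊥ → N ≤ K := fun K _ h0 =>
    inf_eq_left.1 ((Nm (N ⊓ K) inferInstance inf_le_left).resolve_left fun e =>
      S0 (le_bot_iff.1 ((le_inf (k2 N inferInstance N0) (k2 K inferInstance h0)).trans e.le)))
  have eF := Fit_eq_Op_of_Op'_eq_bot hO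
  set V := Op p (⊤ : Subgroup G)
  set E := Lay (⊤ : Subgroup G)
  haveI : V.Normal := normal_of_top_le (le_normalizer_Op p ⊤)
  haveI : E.Normal := normal_of_top_le (le_normalizer_Lay ⊤)
  have eS : generalizedFittingSubgroup G = E ⊔ V := by rw [← Fst_top, Fst, eF]
  have VS : V ≤ S := hS.Op_le
  have cV : IsMulCommutative V := comm_iff_commutator.2 (b0 _ inferInstance
    ((commutator_mono VS VS).trans (L.commutator_le_Phi hS.isP)))
  have EV : V ≠ ⊥ → E = ⊥ := fun V0 => by
    by_contra E0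
    refine N0 (b0 N inferInstance fun x hx => ?_)
    obtain ⟨Q, hQ⟩ := (hS.inf_normal (N := E) le_top le_normalizer_of_normal).exists_sylow
    have xE := k3 E inferInstance E0 hx
    have xV := k3 V inferInstance V0 hx
    obtain ⟨y, y1, rfl⟩ := hQ.ge ⟨VS xV, xE⟩
    have y2 : y ∈ commutator E := by
      obtain ⟨w, w1, w2⟩ := (E.map_subtype_commutator.trans (Lay_perfect ⊤)).ge xE
      rwa [← E.subtype_injective w2]
    have := mem_map_of_mem E.subtype (sylow_inf_commutator_inf_center Q ⟨⟨y1, y2⟩,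
      mem_center_iff.2 fun w => Subtype.ext (Lay_le_centralizer_Op p ⊤ w.2 _ xV).symm⟩)
    rw [map_commutator, hQ] at this
    exact L.commutator_le_Phi hS.isP (commutator_mono inf_le_left inf_le_left this)
  have main : E ⊔ V ≤ N := by
    by_cases V0 : V = ⊥
    · obtain ⟨D, d1, d2⟩ := (SN.of_normal_top N).Lay_eq_sup
      have : centralizer (N : Set G) = ⊥ := by
        by_contra c
        exact N0 (le_bot_iff.1 (((SN.of_normal_top N).le_Fit (isNilpotent_of_le_centralizer
          (k3 _ inferInstance c))).trans (eF.trans V0).le))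
      rw [V0, sup_bot_eq]
      exact d2.le.trans (sup_le (Lay_le N) (((commutator_eq_bot_iff_le_centralizer.1 d1).trans this.le).trans bot_le))
    rw [EV V0, bot_sup_eq]
    have NV := k3 V inferInstance V0
    obtain ⟨g, g1, g2⟩ := k1 N inferInstance N0
    rw [inf_eq_left.2 (NV.trans VS)] at g2
    by_cases e : zpowers g ⊓ N = ⊥
    · obtain ⟨H, hH⟩ := gaschutz_sylow (comm_of_le cV NV) ⟨le_top, hS.isP, hS.not_dvd⟩ e
        (le_antisymm (sup_le (NV.trans VS) (zpowers_le.2 g1)) g2)
      have : H ⊓ V = ⊥ := by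
        by_contra c
        exact N0 (le_bot_iff.1 ((le_inf le_rfl ((k3 _ (normal_of_top_le (hH.sup_eq_top.ge.trans (sup_le
          (le_normalizer_of_le_comm cV NV inf_le_right)
          (H1.le_normalizer_inf Subgroup.le_normalizer le_normalizer_of_normal)))) c).trans inf_le_left)).trans
          hH.disjoint.le_bot))
      rw [← top_inf_eq V, ← hH.sup_eq_top, dedekind NV (Or.inr le_normalizer_of_normal), this, sup_bot_eq]
    · have ex : ∀ x ∈ V, x ^ p = 1 := fun x hx => (b0 (L.Phi V) (normal_of_top_le (L.normalizer_Phi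
        (top_le_normalizer V))) (L.Phi_le_of ((comm_iff_commutator.1 cV).le.trans bot_le) fun y hy =>
        L.pow_mem_Phi hS.isP (VS hy))).le (L.pow_mem_Phi (Op_p p ⊤) hx)
      obtain ⟨w, w1, w2⟩ := exists_eq_zpowers_of_isCyclic' (isCyclic_of_le_zpowers' (inf_le_left : zpowers g ⊓ V ≤ _))
      have l : zpowers g ⊓ N ≤ zpowers g ⊓ V := inf_le_inf_left _ NV
      have := (FT.eq_bot_or_eq_of_card_prime (by
        rw [← w2, Nat.card_zpowers, orderOf_eq_prime (ex w w1.2) fun c => e (by
          rw [← w2, c, zpowers_one_eq_bot] at l; exact le_bot_iff.1 l)]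
        exact Fact.out) l).resolve_left e
      refine (le_inf (VS.trans g2) le_rfl).trans ?_
      rw [dedekind NV (Or.inr le_normalizer_of_normal), ← this]
      exact sup_le le_rfl inf_le_right
  have F0 : generalizedFittingSubgroup G ≠ ⊥ := by rw [← Fst_top]; exact Fst_ne_bot t0
  refine ⟨⟨F0, fun K _ h0 => (eS.le.trans main).trans (k3 K inferInstance h0)⟩, ?_, fun h K L hK hL => ?_⟩
  · obtain ⟨g, -, g2⟩ := k1 _ hFn F0
    exact isCyclic_map_of_le_sup_zpowers _ (g2.trans (sup_le_sup_right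
      (inf_le_left.trans (QuotientGroup.ker_mk' _).ge) _))
  have V0 : V = ⊥ := by
    by_contra c
    rw [eS, EV c, bot_sup_eq] at h
    exact h cV
  by_contra c
  push Not at c
  have cK : ∀ {K : Subgroup G}, IsComponent K → ∀ x : S, Comp (cj x.1 K) ⊤ := fun h x =>
    (comp_top_iff.2 h).cj_of_mem (top_le_normalizer ⊤ (mem_top _))
  have k4 : ∀ {K : Subgroup G}, IsComponent K → ⁅S, S⁆ ≤ ⨆ x : S, cj x.1 K := fun {K} h => by
    have n : S ≤ normalizer ((⨆ x : S, cj x.1 K : Subgroup G) : Set G) := le_normalizer_of_cj_le fun g hg => by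
      rw [cj_iSup]
      exact iSup_le fun x => by rw [← cj_mul]; exact le_iSup (fun x : S => cj x.1 K) (⟨g, hg⟩ * x)
    obtain ⟨g, g1, g2⟩ := cyc hS.isP hg fun a => by
      have := isP hS hO (sn_iSup fun x => (cK h x).sn) n a
      haveI := this.isNilpotent
      exact (cK h 1).qs.not_le_solvable inferInstance (le_iSup (fun x : S => cj x.1 K) 1)
    exact der n g1 g2
  have a : ⁅⨆ x : S, cj x.1 K, ⨆ x : S, cj x.1 L⁆ = ⊥ := le_bot_iff.1 (H9.commutator_iSup_le
    (fun _ => le_normalizer_of_normal) fun x => by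
      rw [commutator_comm]
      exact H9.commutator_iSup_le (fun _ => le_normalizer_of_normal) fun y =>
        (((cK hL y).eq_or_comm (cK hK x)).resolve_left fun e => c _ (mul_mem (inv_mem y.2) x.2) (by
          rw [cj_eq_iff, ← cj_mul] at e; exact e)).le)
  exact S0 (le_bot_iff.1 ((le_inf (k4 hK) (k4 hL)).trans ((((sn_iSup fun x => (cK hK x).sn).inf
    (sn_iSup fun x => (cK hL x).sn)).le_Fit (isNilpotent_of_le_centralizer (inf_le_left.trans
    ((commutator_eq_bot_iff_le_centralizer.1 a).trans (H9.centralizer_anti inf_le_right))))).trans (eF.trans V0).le)))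

end Cfsg.Agent.S4172
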