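import Cfsg.Statements.S4176
import Cfsg.Agent.H1.Product
import Cfsg.Agent.H1.Misc2

set_option autoImplicit false
open Cfsg

namespace Cfsg.Agent.S4176

open Subgroup

theorem avg {k V H : Type*} [Field k] [AddCommGroup V] [Module k V] [Group H] [Finite H] (ρ : Representation k H V)
    (K L : Subgroup H) [hK : K.Normal] (hm : (K.relIndex L : k) ≠ 0) :
    ∃ E : V →ₗ[k] V, ∀ w, (∀ x ∈ K, ρ x w = w) → (∀ y ∈ L, E (ρ y w) = E w ∧ ρ y (E w) = E w) ∧
      ∀ f : V →ₗ[k] V, (∀ x ∈ L, f (ρ x w) = f w) → f (E w) = f w := by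
  classical
  haveI := Fintype.ofFinite (L ⧸ K.subgroupOf L)
  have key : ∀ w, (∀ x ∈ K, ρ x w = w) → ∀ y : L, ρ ((y : L ⧸ K.subgroupOf L).out : L) w = ρ y w := fun w hw y => by
    obtain ⟨κ, e⟩ := QuotientGroup.mk_out_eq_mul (K.subgroupOf L) y
    rw [e, coe_mul, map_mul, Module.End.mul_apply, hw κ κ.2]
  refine ⟨(K.relIndex L : k)⁻¹ • ∑ c : L ⧸ K.subgroupOf L, ρ (c.out : L), fun w hw => ⟨fun y hy => ⟨?_, ?_⟩, fun f hf => ?_⟩⟩
  · simp only [LinearMap.smul_apply, LinearMap.sum_apply]
    congr 1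
    refine Fintype.sum_equiv (Equiv.mulRight ((⟨y, hy⟩ : L) : L ⧸ K.subgroupOf L)) _ _ fun c => ?_
    rw [Equiv.coe_mulRight]
    dsimp only
    conv_rhs => rw [← c.out_eq', ← QuotientGroup.mk_mul, key w hw]
    simp
  · simp only [LinearMap.smul_apply, LinearMap.sum_apply, map_smul, map_sum]
    congr 1
    refine Fintype.sum_equiv (Equiv.mulLeft ((⟨y, hy⟩ : L) : L ⧸ K.subgroupOf L)) _ _ fun c => ?_
    rw [Equiv.coe_mulLeft]
    dsimp only
    conv_rhs => rw [← c.out_eq', ← QuotientGroup.mk_mul, key w hw]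
    simp
  · simp only [LinearMap.smul_apply, LinearMap.sum_apply, map_smul, map_sum]
    rw [Finset.sum_congr rfl fun c _ => hf _ (c.out : L).2, Finset.sum_const, Finset.card_univ, ← Nat.card_eq_fintype_card,
      ← Nat.cast_smul_eq_nsmul k, smul_smul]
    exact (congrArg (· • f w) (inv_mul_cancel₀ hm)).trans (one_smul _ _)

def St {k V H : Type*} [Field k] [AddCommGroup V] [Module k V] [Group H] (ρ : Representation k H V) (a : V) :
    Subgroup H where
  carrier := {h | ρ h a = a}
  mul_mem' {x y} hx hy := by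
    change ρ (x * y) a = a
    rw [map_mul, Module.End.mul_apply, hy, hx]
  one_mem' := by simp
  inv_mem' {x} hx := by
    change ρ x⁻¹ a = a
    conv_lhs => rw [← show ρ x a = a from hx]
    simp

theorem card_orb {k V H : Type*} [Field k] [AddCommGroup V] [Module k V] [Group H] (ρ : Representation k H V) (a : V) :
    Nat.card {u : V | ∃ h : H, ρ h a = u} = (St ρ a).index := by
  letI : MulAction H V := MulAction.compHom V ρ
  exact (MulAction.index_stabilizer H a).symm

theorem rdvd {G : Type*} [Group G] [Finite G] (N : Subgroup G) [N.Normal] (K : Subgroup G) : K.relIndex N ∣ K.index := by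
  have := H1.SN.relIndex_dvd (H9.SN.of_normal (H := N) (K := ⊤) le_top le_normalizer_of_normal) K
  rwa [relIndex_top_right] at this

/-- Let k be a field of prime characteristic p, H a finite p-soluble group and ρ a k-linear representation of H on V. Let a be a vector that is fixed by some Sylow p-subgroup of H and whose H-orbit spans V. Then the space of H-fixed vectors has dimension at most 1, and every vector b whose H-orbit has size coprime to the size of the orbit of a is fixed by H. -/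
theorem result {k V H : Type*} [Field k] (p : ℕ) [Fact p.Prime] [CharP k p] [AddCommGroup V] [Module k V]
    [Group H] [Finite H] (hsol : Cfsg.IsPSolvable p H) (ρ : Representation k H V) (a : V)
    (hfix : ∃ P : Sylow p H, ∀ x : H, x ∈ (P : Subgroup H) → ρ x a = a)
    (hspan : Submodule.span k {u : V | ∃ h : H, ρ h a = u} = ⊤) :
    Module.finrank k ρ.invariants ≤ 1 ∧
    ∀ b : V, (Nat.card {u : V | ∃ h : H, ρ h a = u}).Coprime (Nat.card {u : V | ∃ h : H, ρ h b = u}) → ∀ h : H, ρ h b = b := by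
  obtain ⟨n, N, h0, h1, hm, hN, hi⟩ := hsol
  obtain ⟨P, hP⟩ := hfix
  have ext : ∀ f g : V →ₗ[k] V, (∀ h, f (ρ h a) = g (ρ h a)) → ∀ v, f v = g v := fun f g h =>
    LinearMap.congr_fun (LinearMap.ext_on hspan (by rintro _ ⟨x, rfl⟩; exact h x))
  have main : ∀ i : Fin (n + 1), ∃ e : V →ₗ[k] V, (∀ h v, e (ρ h v) = ρ h (e v)) ∧ (∀ x ∈ N i, ∀ v, ρ x (e v) = e v) ∧
      (∀ v, (∀ x ∈ N i, ρ x v = v) → e v = v) ∧ ∀ b : V, (St ρ a).index.Coprime (St ρ b).index → N i ≤ St ρ b := by
    intro i
    induction i using Fin.induction with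
    | zero => exact ⟨LinearMap.id, fun _ _ => rfl, fun x hx v => by rw [h0, mem_bot] at hx; simp [hx], fun _ _ => rfl,
        fun b _ => h0.le.trans bot_le⟩
    | succ i ih =>
    obtain ⟨e, e1, e2, e3, e4⟩ := ih
    have hle : N i.castSucc ≤ N i.succ := hm i.castSucc_lt_succ.le
    haveI := hN i.castSucc
    haveI := hN i.succ
    set K := N i.castSucc
    set L := N i.succ
    rcases hi i with ⟨m, hi⟩ | hi
    · have h2 : L ≤ (P : Subgroup H) ⊔ K := by
        have : IsPGroup p (L.map (QuotientGroup.mk' K)) := IsPGroup.of_card (n := m) (by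
          rw [← relIndex_ker, QuotientGroup.ker_mk', hi])
        have := map_le_iff_le_comap.1 (this.le_sylow_of_normal (P.mapSurjective (QuotientGroup.mk'_surjective K)))
        rwa [Sylow.coe_mapSurjective, comap_map_eq, QuotientGroup.ker_mk'] at this
      have h3 : L ≤ St ρ (e a) := h2.trans (sup_le (fun x hx => show ρ x _ = _ by rw [← e1, hP x hx]) fun x hx => e2 x hx a)
      have h4 : ∀ x ∈ L, ∀ v, ρ x (e v) = e v := fun x hx => ext (ρ x ∘ₗ e) e fun h => by
        have : ρ (h⁻¹ * x * h) (e a) = e a := h3 (by simpa using (hN i.succ).conj_mem x hx h⁻¹)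
        rw [LinearMap.comp_apply, e1]
        conv_rhs => rw [← this]
        simp
      exact ⟨e, e1, h4, fun v hv => e3 v fun x hx => hv x (hle hx), fun b hb x hx => show ρ x b = b by
        rw [← e3 b (e4 b hb), h4 x hx]⟩
    have nz : ∀ L' ≤ L, K ≤ L' → (K.relIndex L' : k) ≠ 0 := fun L' h h' h3 =>
      (Fact.out : p.Prime).one_lt.ne' (Nat.eq_one_of_dvd_coprimes hi (((CharP.cast_eq_zero_iff k p _).1 h3).trans
        (Dvd.intro _ (relIndex_mul_relIndex K L' L h' h))) dvd_rfl)
    obtain ⟨E, hE⟩ := avg ρ K L (nz L le_rfl hle)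
    have fx : ∀ w, (∀ x ∈ L, ρ x w = w) → E w = w := fun w hw => (hE w fun x hx => hw x (hle hx)).2 LinearMap.id hw
    refine ⟨E ∘ₗ e, fun h v => ?_, fun x hx v => ((hE _ fun y hy => e2 y hy v).1 x hx).2, fun v hv => ?_, fun b hb => ?_⟩
    · rw [LinearMap.comp_apply, LinearMap.comp_apply, e1]
      refine ((hE _ fun y hy => e2 y hy v).2 (E ∘ₗ ρ h) fun x hx => ?_).symm.trans (fx _ fun x hx => ?_)
      · have := ((hE _ fun y hy => e2 y hy (ρ h v)).1 _ ((hN i.succ).conj_mem x hx h)).1
        simpa [e1] using this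
      · have := ((hE _ fun y hy => e2 y hy v).1 _ ((hN i.succ).conj_mem x hx h⁻¹)).2
        conv_rhs => rw [← this]
        simp
    · rw [LinearMap.comp_apply, e3 v fun x hx => hv x (hle hx), fx v hv]
    have hb' : ∀ x ∈ K, ρ x b = b := e4 b hb
    obtain ⟨F, hF⟩ := avg ρ K (St ρ b ⊓ L) (nz _ inf_le_right (le_inf hb' hle))
    have fx' : ∀ w, (∀ x ∈ K, ρ x w = w) → (∀ x ∈ St ρ b ⊓ L, ρ x w = w) → F w = w := fun w hw hw' =>
      (hF w hw).2 LinearMap.id hw'
    have h5 : ∀ x ∈ L, ∀ v, F (ρ x (e v)) = F (e v) := fun x hx => ext (F ∘ₗ ρ x ∘ₗ e) (F ∘ₗ e) fun h => by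
      have hc : (St ρ (ρ h a)).index = (St ρ a).index := by
        rw [← card_orb, ← card_orb]
        congr 2
        ext u
        exact ⟨fun ⟨y, hy⟩ => ⟨y * h, by simpa using hy⟩, fun ⟨y, hy⟩ => ⟨y * h⁻¹, by simpa using hy⟩⟩
      obtain ⟨y, hy, z, hz, rfl⟩ := (H1.fac_of_coprime_relIndex (A := St ρ b ⊓ L) (B := St ρ (ρ h a) ⊓ L) inf_le_right
        inf_le_right (by
          rw [inf_relIndex_right, inf_relIndex_right]
          exact (hb.symm.coprime_dvd_left (rdvd L _)).coprime_dvd_right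
            (hc ▸ rdvd L _))).ex x hx
      simp only [LinearMap.comp_apply, map_mul, Module.End.mul_apply]
      rw [← e1 z, show ρ z (ρ h a) = ρ h a from hz.1]
      exact ((hF _ fun y hy => e2 y hy _).1 y hy).1
    have h6 := (hE b hb').2 F fun x hx => by have := h5 x hx b; rwa [e3 b hb'] at this
    rw [fx' b hb' fun x hx => hx.1, fx' _ (fun x hx => ((hE b hb').1 x (hle hx)).2)
      fun x hx => ((hE b hb').1 x hx.2).2] at h6
    exact fun x hx => show ρ x b = b by rw [← h6, ((hE b hb').1 x hx).2]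
  obtain ⟨e, e1, e2, e3, e4⟩ := main (Fin.last n)
  rw [h1] at e2 e3 e4
  refine ⟨?_, fun b hb h => e4 b (by rwa [← card_orb, ← card_orb]) (mem_top h)⟩
  have h2 : ρ.invariants ≤ Submodule.span k {e a} := fun v hv => by
    rw [← e3 v fun x _ => hv x]
    have : Submodule.span k {u : V | ∃ h : H, ρ h a = u} ≤ (Submodule.span k {e a}).comap e := Submodule.span_le.2 (by
      rintro _ ⟨x, rfl⟩
      refine Submodule.mem_comap.2 ?_
      rw [e1, e2 x (mem_top x)]
      exact Submodule.mem_span_singleton_self _)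
    exact this (hspan.ge Submodule.mem_top)
  exact (Submodule.finrank_mono h2).trans (by simpa using finrank_span_le_card (R := k) ({e a} : Set V))

end Cfsg.Agent.S4176
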