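import Cfsg.Statements.S4177
import Cfsg.Agent.H1.Misc2

set_option autoImplicit false
open Cfsg

namespace Cfsg.Agent.S4177

open scoped Pointwise

/-- Let k be a field whose characteristic does not divide the order of the finite group H (for instance a field of characteristic zero), and ρ a k-linear representation of H on V. Let a be a vector whose H-orbit spans V. Then the space of H-fixed vectors has dimension at most 1, and every vector b whose H-orbit has size coprime to the size of the orbit of a is fixed by H. -/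
theorem result {k V H : Type*} [Field k] [AddCommGroup V] [Module k V] [Group H] [Finite H]
    (hchar : ¬ ringChar k ∣ Nat.card H) (ρ : Representation k H V) (a : V)
    (hspan : Submodule.span k {u : V | ∃ h : H, ρ h a = u} = ⊤) :
    Module.finrank k ρ.invariants ≤ 1 ∧
    ∀ b : V, (Nat.card {u : V | ∃ h : H, ρ h a = u}).Coprime (Nat.card {u : V | ∃ h : H, ρ h b = u}) → ∀ h : H, ρ h b = b := by
  classical
  haveI := Fintype.ofFinite H
  have hH : (Nat.card H : k) ≠ 0 := fun h => hchar ((ringChar.spec k _).1 h)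
  have span : ∀ (f : V →ₗ[k] V), (∀ h, f (ρ h a) = f a) → ∀ v, ∃ c : k, f v = c • f a := by
    intro f hf v
    have hv : v ∈ Submodule.span k {u : V | ∃ h : H, ρ h a = u} := hspan ▸ Submodule.mem_top
    induction hv using Submodule.span_induction with
    | mem x hx => obtain ⟨h, rfl⟩ := hx; exact ⟨1, by rw [hf, one_smul]⟩
    | zero => exact ⟨0, by simp⟩
    | add x y _ _ hx hy =>
      obtain ⟨c, hc⟩ := hx; obtain ⟨d, hd⟩ := hy
      exact ⟨c + d, by rw [map_add, hc, hd, add_smul]⟩
    | smul c x _ hx => obtain ⟨d, hd⟩ := hx; exact ⟨c * d, by rw [map_smul, hd, mul_smul]⟩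
  have hl : ∀ (B : Subgroup H) (b : B) (v : V), (∑ β : B, ρ β) (ρ b v) = (∑ β : B, ρ β) v := by
    intro B b v
    simp only [LinearMap.sum_apply]
    exact Fintype.sum_equiv (Equiv.mulRight b) _ _ fun β => by simp
  have hr : ∀ (h : H) (v : V), ρ h ((∑ β : H, ρ β) v) = (∑ β : H, ρ β) v := by
    intro h v
    simp only [LinearMap.sum_apply, map_sum]
    exact Fintype.sum_equiv (Equiv.mulLeft h) _ _ fun β => by simp
  have hl' : ∀ (h : H) (v : V), (∑ β : H, ρ β) (ρ h v) = (∑ β : H, ρ β) v := by
    intro h v
    simp only [LinearMap.sum_apply]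
    exact Fintype.sum_equiv (Equiv.mulRight h) _ _ fun β => by simp
  constructor
  · refine finrank_le_one ⟨(∑ β : H, ρ β) a, fun h => hr h a⟩ fun w => ?_
    obtain ⟨c, hc⟩ := span _ (fun h => hl' h a) w
    refine ⟨(Nat.card H : k)⁻¹ * c, Subtype.ext ?_⟩
    have : (∑ β : H, ρ β) w = (Nat.card H : k) • (w : V) := by
      simp only [LinearMap.sum_apply]
      rw [Finset.sum_congr rfl fun β _ => w.2 β, Finset.sum_const, Nat.card_eq_fintype_card,
        Nat.cast_smul_eq_nsmul]; rfl
    simp only [Submodule.coe_smul_of_tower, mul_smul]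
    rw [← hc, this, smul_smul, inv_mul_cancel₀ hH, one_smul]
  · intro b hb
    letI : MulAction H V := MulAction.compHom V ρ
    have orb : ∀ v : V, Nat.card {u : V | ∃ h : H, ρ h v = u} = (MulAction.stabilizer H v).index := by
      intro v
      rw [MulAction.index_stabilizer, ← Nat.card_coe_set_eq]; rfl
    rw [orb, orb] at hb
    set B := MulAction.stabilizer H b
    have hfac := H1.fac_top_iff.1 (H1.fac_of_coprime_index hb.symm)
    have hB : (Nat.card B : k) ≠ 0 := fun h => hH (by
      obtain ⟨m, hm⟩ := Subgroup.card_subgroup_dvd_card B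
      rw [hm, Nat.cast_mul, h, zero_mul])
    have h1 : ∀ h, (∑ β : B, ρ β) (ρ h a) = (∑ β : B, ρ β) a := by
      intro h
      obtain ⟨x, hx, y, hy, rfl⟩ := hfac h
      have : ρ y a = a := hy
      rw [map_mul, Module.End.mul_apply, this]
      exact hl B ⟨x, hx⟩ a
    obtain ⟨c, hc⟩ := span _ h1 b
    have h2 : ∀ v : V, (∀ β : B, ρ β v = v) → (∑ β : B, ρ β) v = (Nat.card B : k) • v := by
      intro v hv
      simp only [LinearMap.sum_apply]
      rw [Finset.sum_congr rfl fun β _ => hv β, Finset.sum_const, Nat.card_eq_fintype_card,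
        Nat.cast_smul_eq_nsmul]; rfl
    have h3 : (Nat.card B : k) • (∑ β : H, ρ β) a = (Nat.card H : k) • (∑ β : B, ρ β) a := by
      rw [← h2 _ fun β => hr β a, LinearMap.sum_apply _ _ a, map_sum, Finset.sum_congr rfl fun h _ => h1 h,
        Finset.sum_const, Nat.card_eq_fintype_card, Nat.cast_smul_eq_nsmul]; rfl
    rw [h2 b fun β => β.2] at hc
    have h4 : b = ((Nat.card H : k)⁻¹ * c) • (∑ β : H, ρ β) a := by
      apply smul_right_injective V hB
      simp only
      rw [hc, smul_comm, h3, smul_smul, mul_right_comm, inv_mul_cancel₀ hH, one_mul]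
    intro h
    rw [h4, map_smul, hr]

end Cfsg.Agent.S4177
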