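import Cfsg.Statements.S4178


set_option autoImplicit false
open Cfsg

namespace Cfsg.Agent.S4178

theorem idx_le {H X : Type*} [Group H] [Finite X] (D : Subgroup H) (f : H → X)
    (hf : ∀ a b, f a = f b → a⁻¹ * b ∈ D) : D.index ≤ Nat.card X := by
  refine Nat.card_le_card_of_injective (fun c : H ⧸ D => f c.out) ?_
  intro c d h
  have := QuotientGroup.eq.2 (hf _ _ h)
  simpa using this

theorem card_ne {X : Type*} [Finite X] (z : X) : Nat.card {x : X // x ≠ z} = Nat.card X - 1 := by
  classical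
  have := Fintype.ofFinite X
  simp [Nat.card_eq_fintype_card]

theorem sq_le (q a d : ℕ) (hq : 1 ≤ q) (h : 2 * a ≤ d) (i : ℕ) (hi : i ≤ q ^ a - 1) :
    (i : ℝ) ≤ Real.sqrt ((q : ℝ) ^ d) - 1 := by
  have h1 : 1 ≤ q ^ a := Nat.one_le_pow _ _ hq
  have h2 : ((q ^ a : ℕ) : ℝ) ≤ Real.sqrt ((q : ℝ) ^ d) := by
    apply Real.le_sqrt_of_sq_le
    have : (q ^ a) ^ 2 ≤ q ^ d := by
      rw [← pow_mul]; exact Nat.pow_le_pow_right hq (by omega)
    exact_mod_cast this
  have h3 : (i : ℝ) + 1 ≤ ((q ^ a : ℕ) : ℝ) := by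
    have : i + 1 ≤ q ^ a := by omega
    exact_mod_cast this
  linarith

/-- Let F be a finite field with q elements, V a non-zero finite-dimensional F-space of dimension d, H a group of invertible linear maps of V, and R the subgroup of H generated by the elements of H that fix some non-zero vector (have eigenvalue 1). Then the index of R in H is at most q^d − 1; and if H leaves invariant some proper non-zero subspace, the index is at most q^(d/2) − 1. -/
theorem result {F V : Type*} [Field F] [Fintype F] [AddCommGroup V] [Module F V] [FiniteDimensional F V] [Nontrivial V]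
    (H : Subgroup (V ≃ₗ[F] V)) :
    (Subgroup.closure {h : ↥H | ∃ v : V, v ≠ 0 ∧ (h : V ≃ₗ[F] V) v = v}).index ≤ Fintype.card F ^ Module.finrank F V - 1 ∧
    ((∃ W : Submodule F V, W ≠ ⊥ ∧ W ≠ ⊤ ∧ ∀ h ∈ H, ∀ w ∈ W, h w ∈ W) →
      ((Subgroup.closure {h : ↥H | ∃ v : V, v ≠ 0 ∧ (h : V ≃ₗ[F] V) v = v}).index : ℝ) ≤ Real.sqrt ((Fintype.card F : ℝ) ^ Module.finrank F V) - 1) := by
  classical
  have hfin : Finite V := Module.finite_of_finite F
  set D := Subgroup.closure {h : ↥H | ∃ v : V, v ≠ 0 ∧ (h : V ≃ₗ[F] V) v = v} with hD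
  have hq : 1 ≤ Fintype.card F := Fintype.card_pos
  have key : ∀ (a b : H) (v : V), v ≠ 0 → (a : V ≃ₗ[F] V) v = (b : V ≃ₗ[F] V) v → a⁻¹ * b ∈ D := by
    intro a b v hv h
    refine Subgroup.subset_closure ⟨v, hv, ?_⟩
    show (a : V ≃ₗ[F] V).symm ((b : V ≃ₗ[F] V) v) = v
    rw [← h]; simp
  refine ⟨?_, ?_⟩
  · obtain ⟨v, hv⟩ := exists_ne (0 : V)
    have := idx_le D (fun a => (⟨(a : V ≃ₗ[F] V) v, by simpa using hv⟩ : {x : V // x ≠ 0}))
      (fun a b h => key a b v hv (by simpa using h))
    rw [card_ne, Module.natCard_eq_pow_finrank (K := F), Nat.card_eq_fintype_card] at this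
    exact this
  · rintro ⟨W, hb, ht, hW⟩
    have hsum := Submodule.finrank_quotient_add_finrank W
    by_cases hk : 2 * Module.finrank F W ≤ Module.finrank F V
    · obtain ⟨v, hvW, hv⟩ := (Submodule.ne_bot_iff W).1 hb
      have := idx_le D (fun a => (⟨⟨(a : V ≃ₗ[F] V) v, hW _ a.2 v hvW⟩, by
        intro h; have := congrArg Subtype.val h; simp at this; exact hv this⟩ : {x : W // x ≠ 0}))
        (fun a b h => key a b v hv (by simpa using h))
      rw [card_ne, Module.natCard_eq_pow_finrank (K := F), Nat.card_eq_fintype_card] at this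
      exact sq_le _ _ _ hq hk _ this
    · obtain ⟨v, hv⟩ : ∃ v, v ∉ W := by
        by_contra h; push Not at h; exact ht (eq_top_iff.2 fun x _ => h x)
      have hfq : Finite (V ⧸ W) := Finite.of_surjective _ (Submodule.mkQ_surjective W)
      have hnz : ∀ a : H, (W.mkQ ((a : V ≃ₗ[F] V) v)) ≠ 0 := by
        intro a h
        rw [Submodule.mkQ_apply, Submodule.Quotient.mk_eq_zero] at h
        have := hW _ (a⁻¹).2 _ h
        apply hv
        have e : ((a⁻¹ : H) : V ≃ₗ[F] V) ((a : V ≃ₗ[F] V) v) = v := by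
          show (a : V ≃ₗ[F] V).symm ((a : V ≃ₗ[F] V) v) = v
          simp
        rwa [e] at this
      have := idx_le D (fun a => (⟨W.mkQ ((a : V ≃ₗ[F] V) v), hnz a⟩ : {x : V ⧸ W // x ≠ 0})) ?_
      · rw [card_ne, Module.natCard_eq_pow_finrank (K := F), Nat.card_eq_fintype_card] at this
        exact sq_le _ _ _ hq (by omega) _ this
      intro a b h
      have h1 : (b : V ≃ₗ[F] V) v - (a : V ≃ₗ[F] V) v ∈ W := by
        have : W.mkQ ((a : V ≃ₗ[F] V) v) = W.mkQ ((b : V ≃ₗ[F] V) v) := by simpa using h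
        rw [Submodule.mkQ_apply, Submodule.mkQ_apply] at this
        exact (Submodule.Quotient.eq W).1 this.symm
      set c : V ≃ₗ[F] V := ((a⁻¹ * b : H) : V ≃ₗ[F] V) with hc
      have hcH : c ∈ H := (a⁻¹ * b).2
      have h2 : c v - v ∈ W := by
        have := hW _ (a⁻¹).2 _ h1
        have e : ((a⁻¹ : H) : V ≃ₗ[F] V) ((b : V ≃ₗ[F] V) v - (a : V ≃ₗ[F] V) v) = c v - v := by
          show (a : V ≃ₗ[F] V).symm _ = (a : V ≃ₗ[F] V).symm ((b : V ≃ₗ[F] V) v) - v
          simp
        rwa [e] at this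
      refine Subgroup.subset_closure ?_
      by_contra hn
      simp only [Set.mem_setOf_eq, not_exists, not_and] at hn
      let T : W →ₗ[F] W := LinearMap.restrict ((c : V →ₗ[F] V) - LinearMap.id) (p := W) (q := W)
        (fun w hw => W.sub_mem (hW c hcH w hw) hw)
      have hinj : Function.Injective T := by
        rw [← LinearMap.ker_eq_bot, eq_bot_iff]
        intro w hw
        by_contra h0
        refine hn w (fun h => h0 (by simpa using h)) ?_
        have := congrArg Subtype.val (LinearMap.mem_ker.1 hw)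
        simp [T] at this
        exact sub_eq_zero.1 this
      obtain ⟨w, hw⟩ := LinearMap.surjective_of_injective hinj ⟨_, h2⟩
      have hw' := congrArg Subtype.val hw
      simp [T] at hw'
      refine hn (v - w) (fun h => hv (by rw [sub_eq_zero.1 h]; exact w.2)) ?_
      show c (v - w) = v - w
      rw [map_sub, sub_eq_sub_iff_sub_eq_sub]; exact hw'.symm

end Cfsg.Agent.S4178
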