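import Cfsg.Statements.S4186
import Cfsg.Agent.H1.Misc2

set_option autoImplicit false
open Cfsg

namespace Cfsg.Agent.S4186

open H1

/-- Let T and X be subgroups of a group with T a finite 2-group normalizing X but not centralizing it. Then some element of T inverts some non-identity element of X under conjugation. -/
theorem result {G : Type*} [Group G] (T X : Subgroup G) [Finite ↥T] (hT : IsPGroup 2 ↥T) (hTN : T ≤ Subgroup.normalizer (X : Set G)) (hTC : ¬ T ≤ Subgroup.centralizer (X : Set G)) : ∃ t ∈ T, ∃ x ∈ X, x ≠ 1 ∧ t * x * t⁻¹ = x⁻¹ := by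
  obtain ⟨s, hs, hsC⟩ := SetLike.not_le_iff_exists.1 hTC
  obtain ⟨k, hk⟩ := hT ⟨s, hs⟩
  have hk' : s ^ 2 ^ k ∈ Subgroup.centralizer (X : Set G) := by
    have : s ^ 2 ^ k = 1 := congrArg Subtype.val hk
    rw [this]; exact Subgroup.one_mem _
  obtain ⟨j, h1, h2⟩ := exists_pow_notMem_pow_mem hsC hk'
  set t := s ^ 2 ^ j
  have ht : t ∈ T := T.pow_mem hs _
  rw [Subgroup.mem_centralizer_iff] at h1 h2
  push Not at h1
  obtain ⟨y, hy, h3⟩ := h1
  refine ⟨t, ht, y⁻¹ * (t * y * t⁻¹), X.mul_mem (X.inv_mem hy) (conj_mem_of_mem_normalizer (hTN ht) hy), ?_, ?_⟩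
  · intro h
    apply h3
    rw [inv_mul_eq_one, eq_mul_inv_iff_mul_eq] at h
    exact h
  · have h4 := h2 y hy
    calc t * (y⁻¹ * (t * y * t⁻¹)) * t⁻¹ = t * y⁻¹ * t⁻¹ * (t ^ 2 * y) * (t ^ 2)⁻¹ := by rw [sq]; group
      _ = _ := by rw [← h4]; group

end Cfsg.Agent.S4186
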