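import Cfsg.Statements.S4189
import Cfsg.Agent.CZ.C
import Cfsg.Agent.H1.MC2

set_option autoImplicit false
open Cfsg

namespace Cfsg.Agent.S4189

open Subgroup H9 SemidirectProduct

/-- Let P be a finite non-abelian 2-group whose commutator subgroup has index 4 and whose automorphism group is not a 2-group (some automorphism has order that is not a power of 2). Then P is isomorphic to the quaternion group of order 8. -/
theorem result {P : Type*} [Group P] [Finite P] (hP : IsPGroup 2 P) (hna : ¬ IsMulCommutative P) (h4 : (commutator P).index = 4) (haut : ¬ IsPGroup 2 (MulAut P)) : Nonempty (P ≃* QuaternionGroup 2) := by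
  let i : P →* P ⋊[MonoidHom.id (MulAut P)] MulAut P := inl
  haveI : Finite (P ⋊[MonoidHom.id (MulAut P)] MulAut P) := Finite.of_equiv _ equivProd.symm
  let e := MonoidHom.ofInjective (f := i) inl_injective
  have hc : ¬ IsMulCommutative i.range := fun h => hna ⟨⟨fun x y => e.injective (by
    rw [map_mul, map_mul, h.is_comm.comm])⟩⟩
  obtain ⟨n, a, b, h1, h2, h3, h5, h6⟩ := L.dqs_of_index_commutator (hP.of_equiv e) hc (by
    rw [← h4, ← index_map_equiv _ e, commutator_def, commutator_def, map_commutator, map_equiv_top])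
  obtain ⟨σ, h7, h8⟩ : ∃ σ : MulAut P, (orderOf σ).Coprime 2 ∧ σ ≠ 1 := by
    by_contra! h
    refine haut fun σ => ?_
    obtain ⟨u, -, v, -, rfl, ⟨k, hk⟩, hv⟩ := H1.exists_p_part 2 σ
    exact ⟨k, by rw [h v (cop_iff.2 hv), mul_one, ← hk, pow_orderOf_eq_one]⟩
  rcases (H1.mc_of_sub h1 h2 h3 h5 h6).od_cases le_rfl ⟨inr σ, by
    rw [range_inl_eq_ker_rightHom]; exact le_normalizer_of_normal (mem_top _), by
      rwa [orderOf_injective _ inr_injective], fun k => h8 (MulEquiv.ext fun x => inl_injective (G := MulAut P)
        (φ := MonoidHom.id _) (by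
          have := k _ ⟨x, rfl⟩
          rw [MulAut.one_apply, show σ x = MonoidHom.id (MulAut P) σ x from rfl, inl_aut, map_inv, ← this,
            mul_inv_cancel_right]))⟩ with h | h
  · exact absurd h.isMulCommutative hc
  · exact ⟨e.trans h.equiv.some⟩

end Cfsg.Agent.S4189
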