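import Cfsg.Statements.S4250
import Cfsg.Agent.H1.Tr

set_option autoImplicit false
open Cfsg

namespace Cfsg.Agent.S4250

open scoped commutatorElement
open scoped Pointwise
open H1

/-- Let P be a Sylow p-subgroup of a finite group G. Call an intersection H = P ∩ Q with a Sylow p-subgroup Q tame when N_P(H) and N_Q(H) are Sylow p-subgroups of N_G(H). Then P ∩ G′ is generated by [P, N_G(P)] together with the commutator subgroups [P ∩ Q, ⟨x⟩] for all tame intersections P ∩ Q and all p-elements x of N_G(P ∩ Q). -/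
theorem result {G : Type*} [Group G] [Finite G] (p : ℕ) [Fact p.Prime] (P : Sylow p G) :
    (P : Subgroup G) ⊓ commutator G =
      ⁅(P : Subgroup G), Subgroup.normalizer ((P : Subgroup G) : Set G)⁆ ⊔
        ⨆ (Q : Sylow p G) (_ : (¬ p ∣ ((P : Subgroup G) ⊓ Subgroup.normalizer (((P : Subgroup G) ⊓ (Q : Subgroup G) : Subgroup G) : Set G)).relIndex (Subgroup.normalizer (((P : Subgroup G) ⊓ (Q : Subgroup G) : Subgroup G) : Set G)) ∧ ¬ p ∣ ((Q : Subgroup G) ⊓ Subgroup.normalizer (((P : Subgroup G) ⊓ (Q : Subgroup G) : Subgroup G) : Set G)).relIndex (Subgroup.normalizer (((P : Subgroup G) ⊓ (Q : Subgroup G) : Subgroup G) : Set G))))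
          (x : G) (_ : x ∈ Subgroup.normalizer (((P : Subgroup G) ⊓ (Q : Subgroup G) : Subgroup G) : Set G) ∧ ∃ k : ℕ, orderOf x = p ^ k),
          ⁅(P : Subgroup G) ⊓ (Q : Subgroup G), Subgroup.zpowers x⁆ := by
  apply le_antisymm
  · rw [H2.sylow_inf_commutator, H2.foc_le_iff]
    intro x hx g _ hg
    set K := ⁅(P : Subgroup G), Subgroup.normalizer ((P : Subgroup G) : Set G)⁆ ⊔ _ with hK
    have hcomp : ∀ (A : Subgroup G) (g k : G), (∀ y ∈ A, g * y * g⁻¹ * y⁻¹ ∈ K) →
        (∀ y ∈ H2.cj g A, k * y * k⁻¹ * y⁻¹ ∈ K) →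
        ∀ y ∈ A, (k * g) * y * (k * g)⁻¹ * y⁻¹ ∈ K := by
      intro A g k h1 h2 y hy
      have := mul_mem (h2 _ (H2.conj_mem_cj.2 hy)) (h1 y hy)
      convert this using 1; group
    refine H2.alperin_aux (H2.isSylowIn_top P) (fun A g => ∀ y ∈ A, g * y * g⁻¹ * y⁻¹ ∈ K)
      (fun A B g hBA h y hy => h y (hBA hy))
      (fun A g k _ _ _ _ _ => hcomp A g k) ?_ (Subgroup.zpowers x) g trivial
      (Subgroup.zpowers_le.2 hx) (by rw [H2.cj_zpowers]; exact Subgroup.zpowers_le.2 hg) x
      (Subgroup.mem_zpowers x)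
    intro D g hD _ hs hn e ih
    rw [top_inf_eq] at hs
    rcases hD.eq_or_lt with rfl | hlt
    · intro y hy
      refine Subgroup.mem_sup_left ?_
      rw [Subgroup.commutator_comm]
      exact Subgroup.commutator_mem_commutator hn hy
    have e' : (P : Subgroup G) ⊓ ((g • P : Sylow p G) : Subgroup G) = D := e
    have h2 := (hs.cj_of_mem hn).not_dvd
    rw [H2.cj_inf, H2.cj_of_mem hn] at h2
    let Y : Subgroup G :=
      { carrier := {n | n ∈ Subgroup.normalizer (D : Set G) ∧ ∀ y ∈ D, n * y * n⁻¹ * y⁻¹ ∈ K}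
        one_mem' := ⟨one_mem _, fun y _ => by simp⟩
        mul_mem' := fun {a b} ha hb => ⟨mul_mem ha.1 hb.1, hcomp D b a hb.2 (by
          rw [H2.cj_eq_iff.2 hb.1]; exact ha.2)⟩
        inv_mem' := fun {a} ha => ⟨inv_mem ha.1, fun y hy => by
          have := inv_mem (ha.2 _ (conj_mem_of_mem_normalizer' ha.1 hy))
          convert this using 1; group⟩ }
    have hY : ∀ R : Subgroup G, IsPGroup p R → R ≤ Subgroup.normalizer (D : Set G) → R ≤ Y := by
      intro R hR hRn r hr
      refine ⟨hRn hr, fun y hy => Subgroup.mem_sup_right ?_⟩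
      obtain ⟨k, hk⟩ := (IsPGroup.iff_orderOf.1 hR) ⟨r, hr⟩
      rw [Subgroup.orderOf_mk] at hk
      refine Subgroup.mem_iSup_of_mem (g • P) (Subgroup.mem_iSup_of_mem
        (by rw [e']; exact ⟨hs.not_dvd, h2⟩) (Subgroup.mem_iSup_of_mem r
        (Subgroup.mem_iSup_of_mem (by rw [e']; exact ⟨hRn hr, k, hk⟩) ?_)))
      rw [e', Subgroup.commutator_comm]
      exact Subgroup.commutator_mem_commutator (Subgroup.mem_zpowers r) hy
    obtain ⟨c, hc, hcg⟩ := H2.burnside_fusion hs (K := Y) (fun _ h => h.1) hn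
      (hY _ hs.pgroup inf_le_right) (hY _ (H2.isPGroup_cj hs.pgroup g) (hs.cj_of_mem hn).le)
    have hlt' := H2.lt_inf_normalizer P.isPGroup' hlt
    have h5 := ih _ (c * g) hlt' trivial inf_le_left (by
      rw [H2.cj_eq_iff.2 hcg]; exact inf_le_left)
    have h6 : c * g ∈ Y := ⟨mul_mem hc.1 hn, fun y hy => h5 y (hlt'.le hy)⟩
    have h7 : g ∈ Y := by simpa using mul_mem (inv_mem hc) h6
    exact h7.2
  · refine sup_le (le_inf ?_ (Subgroup.commutator_mono le_top le_top)) (iSup_le fun Q =>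
      iSup_le fun _ => iSup_le fun x => iSup_le fun hx =>
        le_inf (le_trans ?_ (inf_le_left (b := (Q : Subgroup G))))
          (Subgroup.commutator_mono le_top le_top))
    · rw [Subgroup.commutator_le]
      intro a ha b hb
      have := mul_mem ha (conj_mem_of_mem_normalizer hb (inv_mem ha))
      rw [commutatorElement_def]; convert this using 1; group
    · rw [Subgroup.commutator_le]
      intro a ha b hb
      have := mul_mem ha (conj_mem_of_mem_normalizer (Subgroup.zpowers_le.2 hx.1 hb) (inv_mem ha))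
      rw [commutatorElement_def]; convert this using 1; group

end Cfsg.Agent.S4250
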