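import Cfsg.Statements.S4216
import Cfsg.Agent.H1.Tr
import Cfsg.Agent.S4250

set_option autoImplicit false
open Cfsg

namespace Cfsg.Agent.S4216

open H1

/-- Grün's first Theorem: if `P` is a Sylow `p`-subgroup of the finite group `G`, then `P ∩ G'` is the subgroup generated by `P ∩ N_G(P)'` together with the subgroups `P ∩ z P' z⁻¹` for all `z ∈ G`, where `'` denotes the derived subgroup and `N_G(P)` the normalizer of `P`. -/
theorem result {G : Type*} [Group G] [Finite G] {p : ℕ} [Fact p.Prime] (P : Sylow p G) : (P : Subgroup G) ⊓ commutator G = ((P : Subgroup G) ⊓ ⁅Subgroup.normalizer ((P : Subgroup G) : Set G), Subgroup.normalizer ((P : Subgroup G) : Set G)⁆) ⊔ ⨆ z : G, (P : Subgroup G) ⊓ (⁅(P : Subgroup G), (P : Subgroup G)⁆).map (MulAut.conj z).toMonoidHom := by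
  apply le_antisymm
  · conv_lhs => rw [Cfsg.Agent.S4250.result p P]
    refine sup_le (le_sup_of_le_left (le_inf ?_ (Subgroup.commutator_mono
      Subgroup.le_normalizer le_rfl))) (iSup_le fun Q =>
      iSup_le fun _ => iSup_le fun x => iSup_le fun hx => le_sup_of_le_right ?_)
    · rw [Subgroup.commutator_le]
      intro a ha b hb
      have := mul_mem ha (conj_mem_of_mem_normalizer hb (inv_mem ha))
      rw [commutatorElement_def]; convert this using 1; group
    · obtain ⟨hn, k, hk⟩ := hx
      have h1 : IsPGroup p (Subgroup.zpowers x) :=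
        H2.isPGroup_zpowers ⟨k, by rw [← hk, pow_orderOf_eq_one]⟩
      have h2 : IsPGroup p ↥(Subgroup.zpowers x ⊔ (P : Subgroup G) ⊓ Q) :=
        IsPGroup.to_sup_of_normal_right' h1 (P.isPGroup'.to_le inf_le_left)
          (Subgroup.zpowers_le.2 hn)
      obtain ⟨z, -, hz⟩ := (H2.isSylowIn_top P).exists_le_cj h2 le_top
      refine le_iSup_of_le z (le_inf (le_trans ?_ (inf_le_left (b := (Q : Subgroup G)))) ?_)
      · rw [Subgroup.commutator_le]
        intro a ha b hb
        have := mul_mem ha (conj_mem_of_mem_normalizer (Subgroup.zpowers_le.2 hn hb) (inv_mem ha))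
        rw [commutatorElement_def]; convert this using 1; group
      · have := H2.cj_commutator z (P : Subgroup G) P
        rw [H2.cj] at this
        rw [this]
        exact Subgroup.commutator_mono (le_sup_right.trans hz) (le_sup_left.trans hz)
  · refine sup_le (inf_le_inf_left _ (Subgroup.commutator_mono le_top le_top))
      (iSup_le fun z => inf_le_inf_left _ ?_)
    rw [Subgroup.map_commutator]
    exact Subgroup.commutator_mono le_top le_top

end Cfsg.Agent.S4216
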