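import Cfsg.Statements.S4230
import Mathlib.RingTheory.Polynomial.Cyclotomic.Expand
import Mathlib.FieldTheory.Finite.Basic

set_option autoImplicit false
open Cfsg

namespace Cfsg.Agent.S4230

/-- Let p be an odd prime, q a natural number not divisible by p, and e the multiplicative order of q modulo p. For a natural number f, p divides the value at q of the f-th cyclotomic polynomial if and only if f = e·p^j for some j ≥ 0. -/
theorem result (p q f : ℕ) (hp : p.Prime) (hp2 : p ≠ 2) (hpq : ¬ p ∣ q) :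
    ((p : ℤ) ∣ (Polynomial.cyclotomic f ℤ).eval (q : ℤ)) ↔ ∃ j : ℕ, f = orderOf (q : ZMod p) * p ^ j := by
  haveI := Fact.mk hp
  have hq : (q : ZMod p) ≠ 0 := fun h => hpq ((ZMod.natCast_eq_zero_iff q p).1 h)
  have he : orderOf (q : ZMod p) ∣ p - 1 := ZMod.orderOf_dvd_card_sub_one hq
  have hp1 : p - 1 ≠ 0 := by have := hp.two_le; omega
  have he0 : orderOf (q : ZMod p) ≠ 0 := ne_zero_of_dvd_ne_zero hp1 he
  have hpe : ¬ p ∣ orderOf (q : ZMod p) := fun h => by
    have := Nat.le_of_dvd (by omega) (h.trans he); omega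
  have h1 : ((p : ℤ) ∣ (Polynomial.cyclotomic f ℤ).eval (q : ℤ)) ↔
      (Polynomial.cyclotomic f (ZMod p)).IsRoot (q : ZMod p) := by
    rw [← ZMod.intCast_zmod_eq_zero_iff_dvd, Polynomial.IsRoot.def, ← Polynomial.map_cyclotomic_int f (ZMod p),
      ← eq_intCast (Int.castRingHom (ZMod p)), ← Polynomial.eval₂_at_apply, Polynomial.eval_map]
    simp
  rw [h1]
  rcases Nat.eq_zero_or_pos f with rfl | hf
  · simp only [Polynomial.cyclotomic_zero, Polynomial.IsRoot.def, Polynomial.eval_one, one_ne_zero, false_iff]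
    rintro ⟨j, hj⟩
    exact mul_ne_zero he0 (pow_ne_zero j hp.ne_zero) hj.symm
  · obtain ⟨j, m, hm, rfl⟩ := Nat.exists_eq_pow_mul_and_not_dvd hf.ne' p hp.ne_one
    haveI : NeZero (m : ZMod p) := ⟨fun h => hm ((ZMod.natCast_eq_zero_iff m p).1 h)⟩
    rw [Polynomial.isRoot_cyclotomic_prime_pow_mul_iff_of_charP]
    constructor
    · intro h; exact ⟨j, by rw [← h.eq_orderOf, mul_comm]⟩
    · rintro ⟨i, hi⟩
      have : m = orderOf (q : ZMod p) := by
        apply Nat.dvd_antisymm
        · exact Nat.Coprime.dvd_of_dvd_mul_right (Nat.Coprime.pow_right i ((Nat.Prime.coprime_iff_not_dvd hp).2 hm).symm)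
            (hi ▸ Dvd.intro_left _ rfl)
        · exact Nat.Coprime.dvd_of_dvd_mul_left (Nat.Coprime.pow_right j ((Nat.Prime.coprime_iff_not_dvd hp).2 hpe).symm)
            (hi ▸ Dvd.intro _ rfl)
      rw [this]; exact IsPrimitiveRoot.orderOf _

end Cfsg.Agent.S4230
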