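import Cfsg.Statements.S4234
import Cfsg.Agent.H1.Simp
import Cfsg.Agent.H1.MC
import Cfsg.Agent.H1.Super
import Cfsg.Agent.H5.SL2Cl

set_option autoImplicit false
open Cfsg

namespace Cfsg.Agent.S4234

open scoped Pointwise
open H1
open Subgroup

section
variable {G : Type*} [Group G] [Finite G] {L P : Subgroup G}

theorem nrm (p : ℕ) [hp : Fact p.Prime] (hP : Nat.card P = p) (h : P ≤ L) {k : ℕ} (hL : Nat.card L = p * k)
    (hk : ¬ p ∣ k) (hd : ∀ d ∈ k.divisors, d % p = 1 % p → d = 1) : L ≤ normalizer (P : Set G) := by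
  have c : Nat.card (P.subgroupOf L) = p := by rw [Nat.card_congr (subgroupOfEquivOfLe h).toEquiv, hP]
  have i : (P.subgroupOf L).index = k := by
    have := (P.subgroupOf L).card_mul_index
    rw [c, hL] at this
    exact Nat.eq_of_mul_eq_mul_left hp.out.pos this
  let S : Sylow p L := (IsPGroup.of_card (n := 1) (c.trans (pow_one p).symm)).toSylow (i ▸ hk)
  have := hd _ (Nat.mem_divisors.2 ⟨i ▸ S.card_dvd_index, fun e => hk (e ▸ dvd_zero p)⟩) (card_sylow_modEq_one p L)
  haveI := (Nat.card_eq_one_iff_unique.1 this).1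
  exact (normal_subgroupOf_iff_le_normalizer h).1 S.normal_of_subsingleton

theorem cau (p : ℕ) [Fact p.Prime] (h : p ∣ Nat.card L) : ∃ x ∈ L, orderOf x = p ∧ Nat.card (zpowers x) = p := by
  obtain ⟨x, hx⟩ := exists_prime_orderOf_dvd_card' p h
  rw [← orderOf_coe] at hx
  exact ⟨x, x.2, hx, by rwa [Nat.card_zpowers]⟩

variable [IsSimpleGroup G] (hG : Nat.card G = 1092)
include hG

theorem ord0 (h : L ≠ ⊤) : Nat.card L ∈ [1, 2, 3, 4, 6, 7, 12, 13, 14, 21, 26, 28, 39, 42, 52, 78, 84] := by
  have h1 := (Nat.Prime.dvd_factorial (p := 13) (by norm_num)).1 ((show 13 ∣ Nat.card G by rw [hG]; norm_num).trans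
    (H1.card_dvd_factorial h))
  have h2 := L.card_mul_index
  have : ∀ d ∈ Nat.divisors 1092, d ≤ 84 → d ∈ [1, 2, 3, 4, 6, 7, 12, 13, 14, 21, 26, 28, 39, 42, 52, 78, 84] := by
    decide +kernel
  exact this _ (Nat.mem_divisors.2 ⟨hG ▸ L.card_subgroup_dvd_card, by norm_num⟩) (by nlinarith)

theorem nn (p : ℕ) [hp : Fact p.Prime] {k m : ℕ} (hP : Nat.card P = p ^ (k + 1)) (hm : p ^ (k + 1) * m = 1092)
    (h : ¬ p ∣ m) : normalizer (P : Set G) ≠ ⊤ ∧ (1092 / Nat.card (normalizer (P : Set G))) % p = 1 % p ∧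
      Nat.card P ∣ Nat.card (normalizer (P : Set G)) ∧ ¬ normalizer (P : Set G) ≤ centralizer (P : Set G) := by
  have i : P.index = m := by
    have := P.card_mul_index
    rw [hP, hG, ← hm] at this
    exact Nat.eq_of_mul_eq_mul_left (pow_pos hp.out.pos _) this
  let S : Sylow p G := (IsPGroup.of_card hP).toSylow (i ▸ h)
  have np : ¬ (Nat.card G).Prime := by rw [hG]; norm_num
  have d : p ∣ Nat.card G := by rw [hG, ← hm, pow_succ']; exact (dvd_mul_right _ _).mul_right _
  have c : Nat.card (Sylow p G) * Nat.card (normalizer (P : Set G)) = Nat.card G := H1.card_sylow_mul S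
  refine ⟨fun e => H1.card_sylow_ne_one' np d ?_, ?_, card_dvd_of_le Subgroup.le_normalizer, H1.not_norm_le_cent np d S⟩
  · rw [e, card_top] at c
    exact (Nat.mul_eq_right Nat.card_pos.ne').1 c
  · rw [← hG, ← c, Nat.mul_div_cancel _ Nat.card_pos]
    exact card_sylow_modEq_one p G

theorem n7 (hP : Nat.card P = 7) : Nat.card (normalizer (P : Set G)) = 14 := by
  haveI : Fact (Nat.Prime 7) := ⟨by norm_num⟩
  obtain ⟨h1, h2, h3, -⟩ := nn hG 7 (k := 0) (m := 156) hP rfl (by norm_num)
  have := ord0 hG h1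
  rw [hP] at h3
  revert h2 h3
  generalize Nat.card (normalizer (P : Set G)) = x at this
  revert x; decide

theorem n13 (hP : Nat.card P = 13) : Nat.card (normalizer (P : Set G)) = 78 := by
  haveI : Fact (Nat.Prime 13) := ⟨by norm_num⟩
  obtain ⟨h1, h2, h3, -⟩ := nn hG 13 (k := 0) (m := 84) hP rfl (by norm_num)
  have := ord0 hG h1
  rw [hP] at h3
  revert h2 h3
  generalize Nat.card (normalizer (P : Set G)) = x at this
  revert x; decide

theorem ord (h : L ≠ ⊤) : Nat.card L ∈ [1, 2, 3, 4, 6, 7, 12, 13, 14, 26, 39, 78] := by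
  haveI : Fact (Nat.Prime 7) := ⟨by norm_num⟩
  haveI : Fact (Nat.Prime 13) := ⟨by norm_num⟩
  have k7 : ∀ k ∈ [3, 4, 6, 12], Nat.card L ≠ 7 * k := fun k hk e => by
    obtain ⟨x, x1, -, x2⟩ := cau 7 (L := L) ⟨k, e⟩
    have := card_dvd_of_le (nrm 7 x2 (zpowers_le.2 x1) e (by clear * - hk; revert k; decide) (by clear * - hk; revert k; decide))
    rw [n7 hG x2, e] at this
    clear * - hk this
    revert k; decide
  have k13 : Nat.card L ≠ 13 * 4 := fun e => by
    obtain ⟨x, x1, -, x2⟩ := cau 13 (L := L) ⟨4, e⟩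
    have := card_dvd_of_le (nrm 13 x2 (zpowers_le.2 x1) e (by decide) (by decide))
    rw [n13 hG x2, e] at this
    omega
  have := ord0 hG h
  revert k7 k13
  generalize Nat.card L = x at this
  revert x; decide

theorem coat {M : Subgroup G} (h : L ≠ ⊤) (hM : M ≤ L) (hc : Nat.card M ∈ [12, 14, 78]) : IsCoatom L := by
  refine ⟨h, fun K hK => by_contra fun c => hK.ne (eq_of_le_of_card_ge hK.le ?_)⟩
  have h1 := ord hG c
  have h2 := card_dvd_of_le (hM.trans hK.le)
  refine le_trans ?_ (card_le_of_le hM)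
  revert h2
  generalize Nat.card M = x at hc
  generalize Nat.card K = y at h1
  revert x y; decide

theorem n3 (hP : Nat.card P = 3) : Nat.card (normalizer (P : Set G)) = 12 ∧ 2 ∣ Nat.card (centralizer (P : Set G)) := by
  haveI : Fact (Nat.Prime 3) := ⟨by norm_num⟩
  obtain ⟨h1, h2, h3, h4⟩ := nn hG 3 (k := 0) (m := 364) hP rfl (by norm_num)
  have e := ((Nat.dvd_prime Nat.prime_two).1 (H1.relIndex_cent_dvd hP)).resolve_left (mt relIndex_eq_one.1 h4)
  have c := H9.relIndex_mul_card (Subgroup.centralizer_le_normalizer (P : Set G))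
  rw [e] at c
  have : Nat.card (normalizer (P : Set G)) = 12 := by
    have := ord hG h1
    have h5 : 2 ∣ Nat.card (normalizer (P : Set G)) := ⟨_, c.symm⟩
    rw [hP] at h3
    revert h2 h3 h5
    generalize Nat.card (normalizer (P : Set G)) = x at this
    revert x; decide
  exact ⟨this, by omega⟩

theorem n4 (hP : Nat.card P = 4) : Nat.card (normalizer (P : Set G)) = 12 ∧ centralizer (P : Set G) ≤ P := by
  obtain ⟨h1, -, h3, h4⟩ := nn hG 2 (k := 1) (m := 273) hP rfl (by norm_num)
  have ab : P ≤ centralizer (P : Set G) := le_centralizer_iff_isMulCommutative.2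
    (IsPGroup.isMulCommutative_of_card_eq_prime_sq (p := 2) hP)
  have l := Subgroup.centralizer_le_normalizer (P : Set G)
  have a := ord hG h1
  have b := ord hG (ne_top_of_le_ne_top h1 l)
  have c := card_dvd_of_le ab
  have d : ¬ Nat.card (normalizer (P : Set G)) ≤ Nat.card (centralizer (P : Set G)) := fun e =>
    h4 (eq_of_le_of_card_ge l e).ge
  rw [hP] at h3 c
  have : Nat.card (normalizer (P : Set G)) = 12 ∧ Nat.card (centralizer (P : Set G)) = 4 := by
    revert h3 c d
    generalize Nat.card (normalizer (P : Set G)) = x at a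
    generalize Nat.card (centralizer (P : Set G)) = y at b
    revert x y; decide
  exact ⟨this.1, (eq_of_le_of_card_ge ab (by omega)).ge⟩

theorem n2 {t : G} (ht : orderOf t = 2) : Nat.card (centralizer {t}) = 12 := by
  haveI : Fact (Nat.Prime 3) := ⟨by norm_num⟩
  have sy : ∀ t : G, orderOf t = 2 → ∃ T : Sylow 2 G, t ∈ T := fun t ht => by
    obtain ⟨T, hT⟩ := (IsPGroup.of_card (p := 2) (n := 1) (G := zpowers t) (by rwa [Nat.card_zpowers])).exists_le_sylow
    exact ⟨T, hT (mem_zpowers t)⟩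
  have c4 : ∀ T : Sylow 2 G, Nat.card T = 4 := fun T => by
    rw [T.card_eq_multiplicity, hG, show 1092 = 2 ^ 2 * 273 from rfl,
      Nat.factorization_mul (by norm_num) (by norm_num), Nat.prime_two.factorization_pow]
    simp [Nat.factorization_eq_zero_of_not_dvd (show ¬ 2 ∣ 273 by norm_num)]
  have ab : ∀ T : Sylow 2 G, IsMulCommutative T := fun T => IsPGroup.isMulCommutative_of_card_eq_prime_sq (p := 2) (c4 T)
  obtain ⟨T, hT⟩ := sy t ht
  have t1 : t ≠ 1 := fun e => by rw [e, orderOf_one] at ht; omega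
  have h1 := ord hG (L := centralizer {t}) fun e => t1 (by
    have : t ∈ center G := mem_center_iff.2 fun g => mem_centralizer_singleton_iff.1 (e.ge (mem_top g))
    rcases (center G).normal_of_characteristic.eq_bot_or_eq_top with h | h
    · rwa [h] at this
    · have := H1.prime_card_of_comm fun a b => mem_center_iff.1 (h.ge (mem_top b)) a
      rw [hG] at this; norm_num at this)
  have h2 := card_dvd_of_le (show (T : Subgroup G) ≤ centralizer {t} from fun x hx =>
    mem_centralizer_singleton_iff.2 (congrArg Subtype.val ((ab T).1.1 ⟨x, hx⟩ ⟨t, hT⟩)))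
  suffices 3 ∣ Nat.card (centralizer {t}) by
    rw [c4] at h2
    revert h2 this
    generalize Nat.card (centralizer {t}) = x at h1
    revert x; decide
  obtain ⟨g, g1, g2, g3⟩ := cau 3 (L := normalizer ((T : Subgroup G) : Set G)) (by rw [(n4 hG (c4 T)).1]; norm_num)
  obtain ⟨s, s1, s2, -⟩ := cau 2 (n3 hG g3).2
  obtain ⟨U, hU⟩ := sy s s2
  obtain ⟨c, rfl⟩ := MulAction.exists_smul_eq G U T
  have m : c * s * c⁻¹ ∈ c • U := smul_mem_pointwise_smul _ (MulAut.conj c) _ hU
  have o : orderOf (c * s * c⁻¹) = 2 := by rw [← s2]; exact (MulAut.conj c).orderOf_eq s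
  suffices ∃ k, k * s * k⁻¹ = t by
    obtain ⟨k, rfl⟩ := this
    rw [← g2, ← (MulAut.conj k).orderOf_eq g]
    refine Subgroup.orderOf_dvd_natCard _ (mem_centralizer_singleton_iff.2 ?_)
    simp only [MulAut.conj_apply, conj_mul, s1 g (mem_zpowers g)]
  by_cases e : c * s * c⁻¹ = t
  · exact ⟨c, e⟩
  have kl := isKleinFour_sup o ht e (congrArg Subtype.val ((ab _).1.1 ⟨_, m⟩ ⟨t, hT⟩))
  rw [eq_of_le_of_card_ge (sup_le (zpowers_le.2 m) (zpowers_le.2 hT)) (by rw [c4, kl.card_four])] at kl
  obtain ⟨k, -, hk⟩ := klein_trans kl g1 (by rw [g2]; norm_num) (fun d => by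
    have := Subgroup.orderOf_dvd_natCard _ ((n4 hG (c4 _)).2 d)
    rw [g2, c4] at this; omega) m hT (fun d => by rw [d, orderOf_one] at o; omega) t1
  exact ⟨k * c, by rw [← hk]; group⟩

theorem main (h : ¬ L.Normal) : IsCoatom (normalizer (L : Set G)) := by
  haveI : Fact (Nat.Prime 3) := ⟨by norm_num⟩
  haveI : Fact (Nat.Prime 13) := ⟨by norm_num⟩
  have nt := mt normalizer_eq_top_iff.1 h
  have k13 : ∀ k ∈ [1, 2, 3], Nat.card L = 13 * k → IsCoatom (normalizer (L : Set G)) := fun k hk e => by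
    obtain ⟨x, x1, x0, x2⟩ := cau 13 (L := L) ⟨k, e⟩
    have l := nrm 13 x2 (zpowers_le.2 x1) e (by clear * - hk; revert k; decide) (by clear * - hk; revert k; decide)
    refine coat hG nt (M := normalizer (zpowers x : Set G)) (H1.le_normalizer_of_commutator_le (K := zpowers x) ?_ (zpowers_le.2 x1) l) (by simp [n13 hG x2])
    refine (commutator_le_centralizer_of_isCyclic inferInstance le_rfl).trans (eq_of_le_of_card_ge
      (le_centralizer_iff_isMulCommutative.2 inferInstance) ?_).ge
    have h1 := card_dvd_of_le (Subgroup.centralizer_le_normalizer (zpowers x : Set G))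
    have h2 : ¬ 2 ∣ Nat.card (centralizer (zpowers x : Set G)) := fun d => by
      obtain ⟨t, t1, t2, -⟩ := cau 2 d
      have := Subgroup.orderOf_dvd_natCard _ (mem_centralizer_singleton_iff.2 (t1 x (mem_zpowers x)))
      rw [n2 hG t2, x0] at this; omega
    have h3 : ¬ 3 ∣ Nat.card (centralizer (zpowers x : Set G)) := fun d => by
      obtain ⟨t, t1, -, t2⟩ := cau 3 d
      have := Subgroup.orderOf_dvd_natCard _ (Subgroup.centralizer_le_normalizer _
        (le_centralizer_iff.1 (zpowers_le.2 t1) (mem_zpowers x)))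
      rw [(n3 hG t2).1, x0] at this; omega
    rw [n13 hG x2] at h1
    have : ∀ d ∈ Nat.divisors 78, ¬ 2 ∣ d → ¬ 3 ∣ d → d ≤ 13 := by decide
    exact x2.symm ▸ this _ (Nat.mem_divisors.2 ⟨h1, by norm_num⟩) h2 h3
  have := ord hG (L := L) fun e => h (e ▸ inferInstance)
  simp only [List.mem_cons, List.not_mem_nil, or_false] at this
  rcases this with e | e | e | e | e | e | e | e | e | e | e | e
  · exact absurd (card_eq_one.1 e ▸ inferInstance) h
  · obtain ⟨x, x1, x0, x2⟩ := cau 2 (L := L) e.symm.dvd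
    refine coat hG nt (M := centralizer {x}) ?_ (by simp [n2 hG x0])
    rw [← eq_of_le_of_card_ge (zpowers_le.2 x1) (by omega), ← H9.centralizer_zpowers]
    exact Subgroup.centralizer_le_normalizer _
  · exact coat hG nt le_rfl (by simp [(n3 hG e).1])
  · exact coat hG nt le_rfl (by simp [(n4 hG e).1])
  · obtain ⟨x, x1, -, x2⟩ := cau 3 (L := L) ⟨2, e⟩
    have l := nrm 3 x2 (zpowers_le.2 x1) (k := 2) e (by decide) (by decide)
    have := H9.relIndex_mul_card l
    rw [e, (n3 hG x2).1] at this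
    exact coat hG nt ((normal_subgroupOf_iff_le_normalizer l).1 (normal_of_index_eq_two (show L.relIndex _ = 2 by omega)))
      (by simp [(n3 hG x2).1])
  · exact coat hG nt le_rfl (by simp [n7 hG e])
  · exact coat hG nt Subgroup.le_normalizer (by simp [e])
  · exact k13 1 (by simp) e
  · exact coat hG nt Subgroup.le_normalizer (by simp [e])
  · exact k13 2 (by simp) e
  · exact k13 3 (by simp) e
  · exact coat hG nt Subgroup.le_normalizer (by simp [e])

end

theorem two : (2 : ZMod 13) ≠ 0 := by decide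

theorem tr {G K : Type*} [Group G] [Finite G] [Group K] (φ : G →* K) (hφ : Function.Surjective φ)
    (hK : ∀ L : Subgroup K, ¬ L.Normal → IsCoatom (normalizer (L : Set K))) (H : Subgroup G) (hH : ¬ H.Normal)
    (h : ∀ g, ∀ x ∈ H, ∀ y ∈ H, φ (g * x * g⁻¹) = φ y → g * x * g⁻¹ ∈ H) : IsCoatom (normalizer (H : Set G)) := by
  have : normalizer (H : Set G) = (normalizer (H.map φ : Set K)).comap φ := le_antisymm
    (map_le_iff_le_comap.1 (le_normalizer_map φ)) fun g hg => mem_normalizer_fintype fun x hx => by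
      obtain ⟨y, hy, e⟩ := (mem_normalizer_iff.1 hg _).1 (mem_map_of_mem φ hx)
      exact h g x hx y hy (by rw [e, map_mul, map_mul, map_inv])
  rw [this]
  exact isCoatom_comap_of_surjective hφ (hK _ fun c => hH (by
    rw [← normalizer_eq_top_iff, this, normalizer_eq_top_iff.2 c, comap_top]))

/-- Let K be isomorphic to PSL(2, 13) or to SL(2, 13) and let S be a finite abelian group of order coprime to the order of K. Then in the direct product K × S every subgroup that is not normal has a normalizer that is a maximal subgroup. -/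
theorem result {K S : Type*} [Group K] [CommGroup S] [Finite K] [Finite S]
    (hK : Nonempty (K ≃* Matrix.ProjectiveSpecialLinearGroup (Fin 2) (ZMod 13)) ∨
      Nonempty (K ≃* Matrix.SpecialLinearGroup (Fin 2) (ZMod 13)))
    (hKS : (Nat.card K).Coprime (Nat.card S)) (H : Subgroup (K × S)) (hH : ¬ H.Normal) :
    IsCoatom (Subgroup.normalizer (H : Set (K × S))) := by
  haveI : Fact (Nat.Prime 13) := ⟨by norm_num⟩
  haveI : IsSimpleGroup (Matrix.ProjectiveSpecialLinearGroup (Fin 2) (ZMod 13)) :=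
    Matrix.ProjectiveSpecialLinearGroup.rank_two_simple (by simp)
  have c : Nat.card (H5.PSL2 (ZMod 13)) = 1092 := by
    have := H5.card_PSL2_mul (F := ZMod 13)
    rw [ZMod.card, show Nat.gcd 2 (13 - 1) = 2 from rfl] at this
    omega
  refine tr (MonoidHom.fst K S) Prod.fst_surjective (fun L hL => ?_) H hH fun g x hx y hy e => ?_
  · rcases hK with ⟨⟨e⟩⟩ | ⟨⟨e⟩⟩
    · exact tr e.toMonoidHom e.surjective (fun L hL => main c hL) L hL fun g x _ y hy h => e.injective h ▸ hy
    refine tr e.toMonoidHom e.surjective (fun L hL => ?_) L hL fun g x _ y hy h => e.injective h ▸ hy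
    refine tr (QuotientGroup.mk' _) (QuotientGroup.mk'_surjective _) (fun L hL => main c hL) L hL fun g x hx y hy h => ?_
    rw [← mul_inv_cancel_left y (g * x * g⁻¹)]
    refine mul_mem hy ?_
    rcases H5.mem_center_SL2.1 (QuotientGroup.eq.1 h.symm) with d | d
    · exact d ▸ one_mem _
    rw [d]
    by_contra n
    have o : Odd (Nat.card L) := Nat.not_even_iff_odd.1 fun d => by
      obtain ⟨t, t1, t2, -⟩ := cau 2 d.two_dvd
      rcases H5.sl2_sq_eq_one (g := t) two
        (by rw [← pow_two]; exact orderOf_dvd_iff_pow_eq_one.1 t2.dvd) with h | h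
      · rw [h, orderOf_one] at t2; omega
      · exact n (h ▸ t1)
    have p : ∀ x ∈ L, x ^ Nat.card L = 1 := fun x hx => orderOf_dvd_iff_pow_eq_one.1 (L.orderOf_dvd_natCard hx)
    have := congrArg (· ^ Nat.card L) (inv_mul_eq_iff_eq_mul.1 d)
    simp only [conj_pow, p x hx, mul_neg, mul_one, o.neg_pow, p y hy, mul_inv_cancel] at this
    exact n (this ▸ one_mem _)
  · have k : ∀ x ∈ H, ((1 : K), x.2) ∈ H := fun x hx => by
      obtain ⟨m, h1, h2⟩ := Nat.chineseRemainder hKS 0 1
      have : x ^ m = (1, x.2) := Prod.ext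
        (by rw [Prod.pow_fst, pow_eq_pow_of_modEq h1 pow_card_eq_one', pow_zero])
        (by rw [Prod.pow_snd, pow_eq_pow_of_modEq h2 pow_card_eq_one', pow_one])
      exact this ▸ pow_mem hx m
    have : g * x * g⁻¹ = y * ((1 : K), y.2)⁻¹ * (1, x.2) := Prod.ext (by simpa using e) (by simp)
    exact this ▸ mul_mem (mul_mem hy (inv_mem (k y hy))) (k x hx)

end Cfsg.Agent.S4234
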