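import Cfsg.Statements.S4238
import Cfsg.Agent.H9.Sec
import Cfsg.Agent.H1.Tr
import Cfsg.Agent.L.PG1
import Cfsg.Agent.H9.MS1

set_option autoImplicit false
open Cfsg

namespace Cfsg.Agent.S4238

open Subgroup H9

universe u

theorem key (p : ℕ) [Fact p.Prime] (G : Type u) [Group G] [Finite G] :
    (∀ (L : Subgroup G) (Δ : Type u) [Group Δ] (f : L →* Δ), Function.Surjective f → pPrimeCore p Δ = ⊥ →
      ∃ k : Δ, orderOf k = Monoid.exponent Δ) → HasNormalPComplement p G := by
  refine card_induction (P := fun G _ _ => (∀ (L : Subgroup G) (Δ : Type u) [Group Δ] (f : L →* Δ),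
    Function.Surjective f → pPrimeCore p Δ = ⊥ → ∃ k : Δ, orderOf k = Monoid.exponent Δ) → HasNormalPComplement p G)
    (fun G _ _ ih h => ?_) G
  have ih' : PropSec (fun Δ _ _ => HasNormalPComplement p Δ) G := fun L Δ _ _ f hf hc =>
    ih L Δ f hf hc fun M Θ _ g hg => by
      obtain ⟨k, hk⟩ := exists_comp_section f hf g hg
      exact h _ Θ k hk
  have quo : ∀ (N : Subgroup G) [N.Normal], N ≠ ⊥ → NPC p ((⊤ : Subgroup G).map (QuotientGroup.mk' N)) :=
    fun N _ hN => (npc_top_iff.2 (ih' ⊤ _ (onTop (QuotientGroup.mk' N)) (onTop_surjective (QuotientGroup.mk'_surjective N))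
      (H1.card_quotient_lt hN))).mono le_top
  by_contra hG
  have hO : pPrimeCore p G = ⊥ := by_contra fun e => hG (npc_top_iff.1 ((quo _ e).of_map _ (by
    rw [QuotientGroup.ker_mk', inf_top_eq, ← Op'_top]; exact Op'_cop p ⊤)))
  obtain ⟨k, hk⟩ := h ⊤ G (onTop (MonoidHom.id G)) (onTop_surjective Function.surjective_id) hO
  obtain ⟨P⟩ : Nonempty (Sylow p G) := inferInstance
  obtain ⟨U, hU, y, h1, h2, h3⟩ : ∃ U : Subgroup G, IsPGroup p U ∧ ∃ y ∈ normalizer (U : Set G),
      (orderOf y).Coprime p ∧ y ∉ centralizer (U : Set G) := by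
    by_contra! k
    exact hG (H2.frobenius P fun Q hQ g => k Q (P.isPGroup'.to_le hQ) g)
  have hy : (Nat.card (zpowers y)).Coprime p := by rwa [Nat.card_zpowers]
  have h4 := cop_ccomm (zpowers_le.2 h1) (copA_of_p' hU hy)
  have h5 : ⁅U, zpowers y⁆ ≠ ⊥ := fun e => h3 (zpowers_le.1 (le_centralizer_iff.1
    (commutator_eq_bot_iff_le_centralizer.1 e)))
  have h6 := hU.to_le (commutator_le_left' (zpowers_le.2 h1))
  have h7 := zpowers_le.1 (le_normalizer_commutator_right U (zpowers y))
  generalize ⁅U, zpowers y⁆ = W at h4 h5 h6 h7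
  have h8 : W ⊔ zpowers y = ⊤ := by_contra fun e => h5 (h4.symm.trans (commutator_eq_bot_iff_le_centralizer.2
    (le_centralizer_iff.1 (zpowers_le.2 (H2.HasNPC.centralizes (ih'.subgroup e) h6 le_sup_left
      (mem_sup_right (mem_zpowers y)) h7 h2)))))
  haveI : W.Normal := normal_of_top_le (h8.ge.trans (sup_le le_normalizer (zpowers_le.2 h7)))
  haveI : (W ⊓ centralizer (W : Set G)).Normal := normal_of_top_le
    (normalizer_inf (top_le_normalizer W) (normalizer_centralizer (top_le_normalizer W)))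
  have h9 : W ≤ centralizer (W : Set G) := by
    have := H2.HasNPC.centralizes (npc_iff.1 (quo (W ⊓ centralizer (W : Set G))
      (inf_centralizer_ne_bot_of_p h6 h6 le_normalizer h5))) (h6.map _) (map_mono le_top) (mem_map_of_mem _ (mem_top y))
      (le_normalizer_map _ (mem_map_of_mem _ h7)) (h2.coprime_dvd_left (orderOf_map_dvd _ y))
    rw [← zpowers_le, ← MonoidHom.map_zpowers, le_centralizer_iff, ← commutator_eq_bot_iff_le_centralizer,
      ← map_commutator, h4, Subgroup.map_eq_bot_iff, QuotientGroup.ker_mk'] at this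
    exact this.trans inf_le_right
  have h10 := cop_abelian_inf (le_centralizer_iff_isMulCommutative.1 h9) (zpowers_le.2 h7) (copA_of_p' h6 hy).cop
  obtain ⟨z, z1, z2⟩ := exists_orderOf_eq_of_isPGroup h6 h5
  obtain ⟨x, hx⟩ := exists_prime_orderOf_dvd_card' (G := zpowers k) p
    (by rw [Nat.card_zpowers, hk, ← z2]; exact Monoid.order_dvd_exponent z)
  have hxW : (x : G) ∈ W := zpowers_le.1 ((h8 ▸ syl_sup_of_cop h6 hy (.inr (zpowers_le.2 h7))).le_of_le_normalizer
    (H1.isPGroup_zpowers_iff.2 ⟨1, by rw [orderOf_coe, hx, pow_one]⟩) le_top (.inl le_normalizer_of_normal))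
  have h11 : W ⊔ zpowers k = ⊤ := by
    refine eq_top_of_card_eq _ (Nat.dvd_antisymm (card_subgroup_dvd_card _) ?_)
    have := card_sup_mul_card_inf (zpowers_le.2 h7)
    rw [sup_comm, h8, card_top] at this
    refine (Dvd.intro _ this).trans ((copA_of_p' h6 hy).cop.mul_dvd_of_dvd_of_dvd
      (dvd_trans ?_ (card_dvd_of_le le_sup_right)) (card_dvd_of_le le_sup_left))
    rw [Nat.card_zpowers, Nat.card_zpowers, hk]
    exact Monoid.order_dvd_exponent y
  have h12 : W ⊔ zpowers k ≤ centralizer {(x : G)} := sup_le (le_centralizer_singleton_iff.2 (h9 hxW))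
    (le_centralizer_singleton_iff.2 (L.le_centralizer_of_comm inferInstance x.2))
  refine H1.ne_one_of_orderOf_prime Fact.out ((orderOf_coe x).trans hx) (mem_bot.1 (h10.le ⟨⟨hxW, ?_⟩, h4.ge hxW⟩))
  exact le_centralizer_singleton_iff.1 (le_top.trans (h11.ge.trans h12))

/-- Let G be a finite group and p a prime. Then G has a normal p-complement if and only if every section K = H/N of G (N a normal subgroup of a subgroup H) whose largest normal subgroup of order prime to p is trivial contains an element whose order equals the exponent of K. -/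
theorem result {G : Type*} [Group G] [Finite G] (p : ℕ) [Fact p.Prime] :
    Cfsg.HasNormalPComplement p G ↔
      ∀ (H : Subgroup G) (N : Subgroup H) [N.Normal], Cfsg.pPrimeCore p (H ⧸ N) = ⊥ →
        ∃ k : H ⧸ N, orderOf k = Monoid.exponent (H ⧸ N) := by
  refine ⟨fun h H N _ hO => ?_, fun h => key p G fun L Δ _ f hf hO => ?_⟩
  · have := ((npc_top_iff.2 (H2.HasNPC.subgroup h H)).map (QuotientGroup.mk' N)).isPGroup
      (by rw [map_top_of_surjective _ (QuotientGroup.mk'_surjective N), Op'_top, hO])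
    rw [map_top_of_surjective _ (QuotientGroup.mk'_surjective N)] at this
    obtain ⟨n, hn⟩ := (this.of_equiv topEquiv).exists_exponent_eq_pow
    obtain ⟨g, hg⟩ := (Fact.out : p.Prime).exists_orderOf_eq_pow_factorization_exponent (H ⧸ N)
    exact ⟨g, by rw [hg, hn, (Fact.out : p.Prime).factorization_pow, Finsupp.single_eq_same]⟩
  have e := QuotientGroup.quotientKerEquivOfSurjective f hf
  obtain ⟨k, hk⟩ := h L f.ker (by rw [← H1.map_pPrimeCore_equiv e.symm, hO, Subgroup.map_bot])
  exact ⟨e k, by rw [MulEquiv.orderOf_eq, hk, Monoid.exponent_eq_of_mulEquiv e]⟩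

end Cfsg.Agent.S4238
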