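import Cfsg.Statements.S4240
import Cfsg.Agent.H1.MaxNil

set_option autoImplicit false
open Cfsg

namespace Cfsg.Agent.S4240

open scoped Pointwise
open H1

/-- Let a finite group A act by automorphisms on a finite group G of order coprime to that of A. Suppose every maximal A-invariant proper subgroup of G is nilpotent while G is not. Then G is solvable, the order of G has the form p^a·q^b for two distinct primes p and q, and G has a normal A-invariant Sylow subgroup for some prime dividing its order. -/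
theorem result {A G : Type*} [Group A] [Group G] [Finite A] [Finite G] [MulDistribMulAction A G]
    (hcop : (Nat.card A).Coprime (Nat.card G))
    (hmax : ∀ H : Subgroup G, H ≠ ⊤ → (∀ a : A, ∀ x ∈ H, a • x ∈ H) →
      (∀ K : Subgroup G, H < K → (∀ a : A, ∀ x ∈ K, a • x ∈ K) → K = ⊤) → Group.IsNilpotent H)
    (hG : ¬ Group.IsNilpotent G) :
    Group.IsSolvable G ∧
      (∃ p q a b : ℕ, p.Prime ∧ q.Prime ∧ p ≠ q ∧ Nat.card G = p ^ a * q ^ b) ∧
      ∃ (p : ℕ) (P : Sylow p G), p.Prime ∧ p ∣ Nat.card G ∧ (P : Subgroup G).Normal ∧ (∀ a : A, ∀ x ∈ (P : Subgroup G), a • x ∈ (P : Subgroup G)) := by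
  obtain ⟨Γ, _, _, i, j, hi, hj, hij, -, -, hnorm⟩ := exists_ambient (MulDistribMulAction.toMulAut A G)
  have hinv : ∀ H : Subgroup G, H ≠ ⊤ → (∀ a : A, ∀ x ∈ H, a • x ∈ H) → Group.IsNilpotent H := by
    intro H h1 h2
    obtain ⟨M, h3, h4⟩ := Finite.exists_le_maximal (p := fun M : Subgroup G => M ≠ ⊤ ∧ ∀ a : A, ∀ x ∈ M, a • x ∈ M) ⟨h1, h2⟩
    refine isNilpotent_of_le h3 (hmax M h4.1.1 h4.1.2 fun K hK hK' => ?_)
    by_contra hne
    exact hK.not_ge (h4.2 ⟨hne, hK'⟩ hK.le)
  have hn : j.range ≤ Subgroup.normalizer (i.range : Set Γ) := Subgroup.le_normalizer_of_normal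
  have hc : (Nat.card j.range).Coprime (Nat.card i.range) := by
    rwa [card_range_of_injective hi, card_range_of_injective hj]
  have hL : ∀ L < i.range, j.range ≤ Subgroup.normalizer (L : Set Γ) → Group.IsNilpotent L := by
    intro L h1 h2
    rw [← Subgroup.map_comap_eq_self h1.le] at h2 ⊢
    refine isNilpotent_map _ (hinv _ (fun e => h1.ne ?_) ((range_le_normalizer_map_iff hi hij).1 h2))
    rw [← Subgroup.map_comap_eq_self h1.le, e, MonoidHom.range_eq_map]
  have hs := solvable_of_inv_nilpotent hn hc hL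
  have hsG : Group.IsSolvable G := isSolvable_of_equiv (MonoidHom.ofInjective hi).symm hs
  have hGn : ¬ Group.IsNilpotent i.range := fun h => hG (nilpotent_of_mulEquiv (MonoidHom.ofInjective hi).symm)
  refine ⟨hsG, ?_, ?_⟩
  · by_contra hne
    refine hGn (isNilpotent_of_isSylowIn_normal fun p hp hd => ?_)
    obtain ⟨P, hP, hAP⟩ := exists_invariant_sylow (p := p) hn hc (Or.inr hs)
    refine ⟨P, hP, le_of_forall_sylowIn fun q hq hqd => ?_⟩
    by_cases hqp : q = p
    · subst hqp; exact ⟨P, hP, Subgroup.le_normalizer⟩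
    haveI := Fact.mk hq
    obtain ⟨H, hH, hPH, hAH⟩ := exists_invariant_hall_ge (π := {p, q}) hs hn hc hP.le
      ((isPGroup_iff_isPiNum.1 hP.isPGroup).mono (by simp)) hAP
    rw [isPiHallOf_iff'] at hH
    have hlt : H < i.range := lt_of_le_of_ne hH.1 fun e => hne (by
      obtain ⟨a, b, h⟩ := eq_pow_mul_pow Nat.card_pos.ne' hp.out hq (Ne.symm hqp) hH.2.1
      exact ⟨p, q, a, b, hp.out, hq, Ne.symm hqp, by rw [← h, e, card_range_of_injective hi]⟩)
    obtain ⟨Q, hQ⟩ := exists_isSylowIn (p := q) H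
    exact ⟨Q, hQ.trans hH.1 (isPiNum_compl_iff.1 hH.2.2 q hq (by simp)),
      hQ.le.trans ((hP.of_le hPH hH.1).le_normalizer_of_nilpotent (hL H hlt hAH))⟩
  · haveI : Nontrivial G := not_subsingleton_iff_nontrivial.1 fun _ => hG inferInstance
    obtain ⟨M, hM, hr⟩ := exists_normal_prime_index (G := G)
    haveI := Fact.mk hr
    set r := M.index
    set K := Cfsg.pResidual r G
    have hK1 : K ≠ ⊤ := fun e => no_index_of_pResidual_eq_top e M rfl
    have hKn := hinv K hK1 fun a x hx =>
      (Subgroup.characteristic_iff_le_comap.1 inferInstance (MulDistribMulAction.toMulAut A G a)) hx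
    obtain ⟨k, hk⟩ := IsPGroup.iff_card.1 (H2.isPGroup_quotient_pResidual (G := G) r)
    have : ¬ IsPGroup r K := fun h => hG (IsPGroup.isNilpotent (p := r) (by
      obtain ⟨l, hl⟩ := IsPGroup.iff_card.1 h
      refine IsPGroup.of_card (n := l + k) ?_
      rw [← K.card_mul_index, hl, pow_add, ← hk]; rfl))
    rw [isPGroup_iff_isPiNum, IsPiNum] at this
    push Not at this
    obtain ⟨s, hs', hsd, hsr⟩ := this
    haveI := Fact.mk hs'
    obtain ⟨S, hS⟩ := exists_isSylowIn (p := s) K
    obtain ⟨P, rfl⟩ := (hS.trans le_top (by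
      rw [Subgroup.relIndex_top_right, Subgroup.index_eq_card, hk]
      exact fun h => hsr ((Nat.prime_dvd_prime_iff_eq hs' hr).1 (hs'.dvd_of_dvd_pow h)))).exists_sylow_top
    have hPn : (P : Subgroup G).Normal := Subgroup.normalizer_eq_top_iff.1 (top_le_iff.1
      (Subgroup.le_normalizer_of_normal.trans (hS.normalizer_le_of_nilpotent hKn)))
    refine ⟨s, P, hs', hsd.trans (Subgroup.card_subgroup_dvd_card K), hPn, fun a x hx => ?_⟩
    exact (Subgroup.characteristic_iff_le_comap.1 (P.characteristic_of_normal hPn)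
      (MulDistribMulAction.toMulAut A G a)) hx

end Cfsg.Agent.S4240
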