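import Cfsg.Statements.S4242
import Cfsg.Agent.H9.Sec
import Cfsg.Agent.H1.Fitting
import Cfsg.Agent.H1.Misc

set_option autoImplicit false
open Cfsg

namespace Cfsg.Agent.S4242

open Subgroup H9

/-- Let G be a finite group and p a prime dividing its order. Every maximal subgroup of G of order divisible by p is nilpotent if and only if G is nilpotent, or G is a minimal non-nilpotent group, or G is the internal direct product of a normal subgroup of order p and a normal minimal non-nilpotent subgroup of order prime to p. -/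
theorem result {G : Type*} [Group G] [Finite G] (p : ℕ) (hp : p.Prime) (hpG : p ∣ Nat.card G) :
    (∀ M : Subgroup G, IsCoatom M → p ∣ Nat.card M → Group.IsNilpotent M) ↔
      (Group.IsNilpotent G ∨ Cfsg.IsMinimalNonNilpotent G ∨
        ∃ Z K : Subgroup G, Z.Normal ∧ K.Normal ∧ Z ⊓ K = ⊥ ∧ Z ⊔ K = ⊤ ∧ Nat.card Z = p ∧
          Cfsg.IsMinimalNonNilpotent K ∧ ¬ p ∣ Nat.card K) := by
  haveI : Fact p.Prime := ⟨hp⟩
  refine ⟨fun h => ?_, fun h M hM hpM => ?_⟩
  · by_contra! hc
    obtain ⟨h1, h2, h3⟩ := hc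
    have h' : ∀ H : Subgroup G, H ≠ ⊤ → ¬ (Nat.card H).Coprime p → Group.IsNilpotent H := fun H hH k => by
      obtain ⟨M, hM, e⟩ := (eq_top_or_exists_le_coatom H).resolve_left hH
      exact isNilpotent_of_le (h M hM ((not_not.1 (mt cop_iff.2 k)).trans (card_dvd_of_le e))) e
    obtain ⟨H, hH, k⟩ : ∃ H : Subgroup G, H ≠ ⊤ ∧ ¬ Group.IsNilpotent H := by
      by_contra! k
      exact h2 ⟨h1, k⟩
    obtain ⟨M, hM, e⟩ := (eq_top_or_exists_le_coatom H).resolve_left hH
    have h4 : ¬ Group.IsNilpotent M := fun a => k (isNilpotent_of_le a e)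
    have h5 : (Nat.card M).Coprime p := cop_iff.2 fun a => h4 (h M hM a)
    have h6 : ∀ {V H : Subgroup G}, IsPGroup p V → V ≠ ⊥ → H ≤ M → H ≠ M → (H ≤ normalizer (V : Set G) ∨
        V ≤ normalizer (H : Set G)) → Group.IsNilpotent (H ⊔ V : Subgroup G) := fun {V H} a b c d e =>
      h' _ (fun k => d (by
        have := dedekind c e
        rwa [k, top_inf_eq, inf_eq_bot_of_p_p' a h5, sup_bot_eq, eq_comm] at this))
        fun k => b (eq_bot_of_p_p' a (cop_of_le k le_sup_right))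
    have h7 : ∀ {V : Subgroup G}, IsPGroup p V → V ≠ ⊥ → (∀ (q : ℕ) [Fact q.Prime], ∃ Q, Syl q Q M ∧
        (Q ≤ normalizer (V : Set G) ∨ V ≤ normalizer (Q : Set G))) → M ≤ centralizer (V : Set G) :=
      fun a b c => le_of_forall_syl fun q _ => by
        obtain ⟨Q, hQ, d⟩ := c q
        exact ⟨Q, hQ, H1.le_centralizer_of_coprime_of_nilpotent (h6 a b hQ.le
          (fun e => h4 (e ▸ hQ.isP.isNilpotent)) d) le_sup_left le_sup_right (copA_of_p' a (cop_of_le h5 hQ.le)).cop⟩
    have h8 : ∀ {V : Subgroup G}, IsPGroup p V → V ≠ ⊥ → M ⊔ V = ⊤ := fun a b =>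
      hM.2 _ (left_lt_sup.2 fun k => b (eq_bot_of_p_p' a (cop_of_le h5 k)))
    obtain ⟨P⟩ : Nonempty (Sylow p G) := inferInstance
    have hP := syl_top_of_sylow P
    have hP0 : (P : Subgroup G) ≠ ⊥ := fun e => cop_iff.1 (hP.eq_bot_iff.1 e) (by rwa [card_top])
    have hO : Op p (⊤ : Subgroup G) ≠ ⊥ := fun hO => by
      have k : ∀ {V : Subgroup G}, IsPGroup p V → V ≠ ⊥ → normalizer (V : Set G) ≠ ⊤ := fun a b =>
        normalizer_ne_top_of_Op a fun c => b (eq_bot_iff.2 (c.trans hO.le))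
      have h9 := npc_top_iff.2 (H2.frobenius_local P fun Q a b => npc_iff.1 (npc_of_nilpotent (h' _
        (k (hP.isP.to_le a) b) fun c => b (eq_bot_of_p_p' (hP.isP.to_le a) (cop_of_le c le_normalizer)))))
      have h10 : M = Op' p ⊤ := by_contra fun a => hP0 (eq_bot_of_p_p' hP.isP (cop_of_le (Op'_cop p ⊤)
        (le_top.trans (hM.2 _ (lt_of_le_of_ne (h9.le_Op' le_top h5) a)).ge)))
      refine k hP.isP hP0 (eq_top_iff.2 ((h8 hP.isP hP0).ge.trans (sup_le ((h7 hP.isP hP0 fun q _ => ?_).trans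
        (centralizer_le_normalizer' _)) le_normalizer)))
      obtain ⟨Q, a, b⟩ := cop_exists_syl (h10 ▸ le_top.trans (le_normalizer_Op' p ⊤)) (copA_of_p hP.isP h5) q
      exact ⟨Q, a, .inr b⟩
    have h9 := h7 (Op_p p ⊤) hO fun q _ => (exists_syl q M).imp fun Q a => ⟨a, .inl (le_top.trans (le_normalizer_Op p ⊤))⟩
    obtain ⟨z, z1, z2⟩ := exists_orderOf_eq_of_isPGroup (Op_p p ⊤) hO
    have z3 := (Op_p p ⊤).to_le (zpowers_le.2 z1)
    have z4 : zpowers z ≠ ⊥ := fun e => H1.ne_one_of_orderOf_prime hp z2 (zpowers_eq_bot.1 e)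
    have z5 := h9.trans (centralizer_anti (zpowers_le.2 z1))
    refine (h3 (zpowers z) M (normal_of_top_le ((h8 z3 z4).ge.trans (sup_le (z5.trans (centralizer_le_normalizer' _))
      le_normalizer))) (normal_of_top_le ((h8 z3 z4).ge.trans (sup_le le_normalizer ((le_centralizer_iff.1 z5).trans
      (centralizer_le_normalizer' _))))) (inf_eq_bot_of_p_p' z3 h5) ((sup_comm _ _).trans (h8 z3 z4))
      ((Nat.card_zpowers z).trans z2) ⟨h4, fun H hH => ?_⟩ |> cop_iff.1 h5)
    have := isNilpotent_of_le (h6 z3 z4 (map_subtype_le H) (fun e => hH (map_injective M.subtype_injective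
      (e.trans (map_top_subtype M).symm))) (.inl ((map_subtype_le H).trans (z5.trans (centralizer_le_normalizer' _))))) le_sup_left
    exact Group.nilpotent_of_mulEquiv (H.equivMapOfInjective _ M.subtype_injective).symm
  obtain h | h | ⟨Z, K, _, _, h1, h2, h3, h4, h5⟩ := h
  · infer_instance
  · exact h.2 M hM.1
  have hZ : IsPGroup p Z := .of_card (h3.trans (pow_one p).symm)
  obtain ⟨x, hx⟩ := exists_prime_orderOf_dvd_card' p hpM
  have h6 : zpowers (x : G) = Z := eq_of_le_of_card_ge ((h2 ▸ syl_sup_of_cop hZ (cop_iff.2 h5)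
    (.inl le_normalizer_of_normal)).le_of_le_normalizer (H1.isPGroup_zpowers_iff.2 ⟨1, by rw [orderOf_coe, hx, pow_one]⟩)
    le_top (.inl le_normalizer_of_normal)) (by rw [h3, Nat.card_zpowers, orderOf_coe, hx])
  have h7 : Z ≤ M := h6 ▸ zpowers_le.2 x.2
  have h8 := dedekind h7 (.inl (le_normalizer_of_normal : Z ≤ normalizer (K : Set G)))
  rw [h2, top_inf_eq] at h8
  rw [h8]
  have := h4.2 ((K ⊓ M).subgroupOf K) fun e => hM.1 (eq_top_iff.2 (h2.ge.trans (sup_le h7
    ((subgroupOf_eq_top.1 e).trans inf_le_right))))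
  exact nilpotent_sup hZ.isNilpotent (Group.nilpotent_of_mulEquiv (subgroupOfEquivOfLe inf_le_left))
    (normalizer_inf le_normalizer_of_normal (h7.trans le_normalizer)) le_normalizer_of_normal

end Cfsg.Agent.S4242
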