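import Cfsg.Statements.S4249
import Cfsg.Agent.H1.Hughes

set_option autoImplicit false
open Cfsg

namespace Cfsg.Agent.S4249

open H1

/-- Let G be a finite group and p a prime such that G is not a p-group, and suppose the Hughes subgroup H_p(G), generated by all elements g with g^p ≠ 1, is a proper subgroup. Then H_p(G) is nilpotent and has index p in G. -/
theorem result {G : Type*} [Group G] [Finite G] (p : ℕ) (hp : p.Prime) (hG : ¬ IsPGroup p G)
    (hH : Subgroup.closure {g : G | g ^ p ≠ 1} ≠ ⊤) :
    Group.IsNilpotent (Subgroup.closure {g : G | g ^ p ≠ 1}) ∧ (Subgroup.closure {g : G | g ^ p ≠ 1}).index = p := by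
  haveI : (Subgroup.closure {g : G | g ^ p ≠ 1}).Normal := ⟨fun n hn g => by
    refine Subgroup.closure_induction (fun x hx => Subgroup.subset_closure ?_) (by simp)
      (fun x y _ _ h1 h2 => ?_) (fun x _ h1 => ?_) hn
    · intro e
      rw [conj_pow, conj_eq_one_iff] at e
      exact hx e
    · have : g * (x * y) * g⁻¹ = (g * x * g⁻¹) * (g * y * g⁻¹) := by group
      rw [this]; exact Subgroup.mul_mem _ h1 h2
    · have : g * x⁻¹ * g⁻¹ = (g * x * g⁻¹)⁻¹ := by group
      rw [this]; exact Subgroup.inv_mem _ h1⟩
  have h : ∀ g, g ∉ Subgroup.closure {g : G | g ^ p ≠ 1} → g ^ p = 1 := fun g hg => by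
    by_contra e
    exact hg (Subgroup.subset_closure e)
  exact ⟨nilpotent_of_split hp G _ inferInstance hH h, index_of_split hp hG hH h⟩

end Cfsg.Agent.S4249
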