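import Cfsg.Statements.S4251
import Cfsg.Agent.H1.Tr

set_option autoImplicit false
open Cfsg

namespace Cfsg.Agent.S4251

open scoped Pointwise
open H1

/-- Let P be a Sylow p-subgroup of a finite group G. Call an intersection H = P ∩ Q with a Sylow p-subgroup Q tame when N_P(H) and N_Q(H) are Sylow p-subgroups of N_G(H). If N_G(H)/C_G(H) is a p-group for every nontrivial tame intersection H = P ∩ Q, then G has a normal p-complement. -/
theorem result {G : Type*} [Group G] [Finite G] (p : ℕ) [Fact p.Prime] (P : Sylow p G)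
    (h : ∀ Q : Sylow p G, (P : Subgroup G) ⊓ (Q : Subgroup G) ≠ ⊥ → (¬ p ∣ ((P : Subgroup G) ⊓ Subgroup.normalizer (((P : Subgroup G) ⊓ (Q : Subgroup G) : Subgroup G) : Set G)).relIndex (Subgroup.normalizer (((P : Subgroup G) ⊓ (Q : Subgroup G) : Subgroup G) : Set G)) ∧ ¬ p ∣ ((Q : Subgroup G) ⊓ Subgroup.normalizer (((P : Subgroup G) ⊓ (Q : Subgroup G) : Subgroup G) : Set G)).relIndex (Subgroup.normalizer (((P : Subgroup G) ⊓ (Q : Subgroup G) : Subgroup G) : Set G))) →
      IsPGroup p (Subgroup.normalizer (((P : Subgroup G) ⊓ (Q : Subgroup G) : Subgroup G) : Set G) ⧸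
        (Subgroup.centralizer (((P : Subgroup G) ⊓ (Q : Subgroup G) : Subgroup G) : Set G)).subgroupOf
          (Subgroup.normalizer (((P : Subgroup G) ⊓ (Q : Subgroup G) : Subgroup G) : Set G)))) :
    Cfsg.HasNormalPComplement p G := by
  refine H2.hasNPC_of_controls_fusion P fun x hx g hg => ?_
  have key := H2.alperin P
    (fun A g => ∃ u ∈ (P : Subgroup G), ∀ y ∈ A, u * y * u⁻¹ = g * y * g⁻¹)
    (fun A B g hBA ⟨u, hu, h⟩ => ⟨u, hu, fun y hy => h y (hBA hy)⟩)
    (fun A g k _ _ _ ⟨u, hu, h1⟩ ⟨v, hv, h2⟩ => ⟨v * u, mul_mem hv hu, fun y hy => by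
      have := h2 _ (H2.conj_mem_cj.2 hy)
      rw [← h1 y hy] at this
      calc _ = v * (u * y * u⁻¹) * v⁻¹ := by group
        _ = k * (u * y * u⁻¹) * k⁻¹ := this
        _ = _ := by rw [h1 y hy]; group⟩)
    (fun D g hD hs hn e => by
      by_cases hb : D = ⊥
      · exact ⟨1, one_mem _, fun y hy => by
          rw [hb, Subgroup.mem_bot] at hy; simp [hy]⟩
      have e' : (P : Subgroup G) ⊓ ((g • P : Sylow p G) : Subgroup G) = D := e
      have h2 := (hs.cj_of_mem hn).not_dvd
      rw [H2.cj_inf, H2.cj_of_mem hn] at h2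
      have h3 := h (g • P) (by rwa [e']) (by rw [e']; exact ⟨hs.not_dvd, h2⟩)
      have h4 : ∀ y ∈ Subgroup.normalizer (D : Set G), (orderOf y).Coprime p →
          y ∈ Subgroup.centralizer (D : Set G) := by
        subst e'
        intro y hy hc
        obtain ⟨k, hk⟩ := h3 (QuotientGroup.mk ⟨y, hy⟩)
        rw [← QuotientGroup.mk_pow, QuotientGroup.eq_one_iff, Subgroup.mem_subgroupOf] at hk
        exact L.mem_of_pow_mem hk (hc.pow_right k)
      obtain ⟨u, hu, c, hc, rfl⟩ := H2.exists_sylow_mul_centralizer (H := ⊤)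
        (by rwa [top_inf_eq]) (fun y _ => h4 y) (g := g) ⟨trivial, hn⟩
      refine ⟨u, hu.1, fun y hy => ?_⟩
      have := (Subgroup.mem_centralizer_iff.1 hc.2) y hy
      calc _ = u * (y * c * c⁻¹) * u⁻¹ := by group
        _ = _ := by rw [this]; group)
    (Subgroup.zpowers x) g (Subgroup.zpowers_le.2 hx)
    (by rw [H2.cj_zpowers]; exact Subgroup.zpowers_le.2 hg)
  obtain ⟨u, hu, h⟩ := key
  exact ⟨u, hu, h x (Subgroup.mem_zpowers x)⟩

end Cfsg.Agent.S4251
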