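import Cfsg.Statements.S4253
import Cfsg.Agent.H1.Misc2

set_option autoImplicit false
open Cfsg

namespace Cfsg.Agent.S4253

open H1

/-- Let H be a Frobenius complement in a finite group G (a nontrivial proper subgroup meeting each conjugate gHg⁻¹ with g outside H trivially). Then in the action of G on the left cosets of H by left multiplication, no non-identity element of G fixes two distinct cosets. -/
theorem result {G : Type*} [Group G] [Finite G] (H : Subgroup G) (hH : Cfsg.IsFrobeniusComplement H)
    (g : G) (hg : g ≠ 1) (a b : G ⧸ H) (ha : g • a = a) (hb : g • b = b) : a = b := by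
  obtain ⟨a, rfl⟩ := QuotientGroup.mk_surjective a
  obtain ⟨b, rfl⟩ := QuotientGroup.mk_surjective b
  have ha' : a⁻¹ * g * a ∈ H := by
    have := QuotientGroup.eq.1 (show ((g * a : G) : G ⧸ H) = a from ha).symm
    rwa [← mul_assoc] at this
  have hb' : b⁻¹ * g * b ∈ H := by
    have := QuotientGroup.eq.1 (show ((g * b : G) : G ⧸ H) = b from hb).symm
    rwa [← mul_assoc] at this
  rw [QuotientGroup.eq]
  exact IsFrob.mem hH hb' (by rwa [Ne, conj_eq_one_iff']) (by convert ha' using 1; group)

end Cfsg.Agent.S4253
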