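import Cfsg.Statements.S4260
import Cfsg.Agent.H1.Misc2

set_option autoImplicit false
open Cfsg

namespace Cfsg.Agent.S4260

open H1

/-- Let H be a Hall subgroup of a finite group G (the order of H is coprime to its index) such that x^[G : H] lies in H for every x in G. Then H is normal in G. -/
theorem result {G : Type*} [Group G] [Finite G] (H : Subgroup G) (hHall : (Nat.card H).Coprime H.index)
    (hexp : ∀ x : G, x ^ H.index ∈ H) : H.Normal := by
  refine ⟨fun h hh g => L.mem_of_pow_mem (hexp _) ?_⟩
  rw [orderOf_conj]
  exact Nat.Coprime.coprime_dvd_left (orderOf_dvd_card_of_mem hh) hHall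

end Cfsg.Agent.S4260
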