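import Cfsg.Statements.S4261
import Cfsg.Agent.H1.Misc2

set_option autoImplicit false
open Cfsg

namespace Cfsg.Agent.S4261

open H1

/-- Let M be a maximal subgroup of a finite solvable group G such that x^[G : M] lies in M for every x in G. Then M is normal in G. -/
theorem result {G : Type*} [Group G] [Finite G] (hG : Group.IsSolvable G) (M : Subgroup G) (hM : IsCoatom M)
    (hexp : ∀ x : G, x ^ M.index ∈ M) : M.Normal := by
  obtain ⟨p, k, hp, -, hk⟩ := (isPrimePow_nat_iff _).1 (isPrimePow_index_of_coatom hM)
  haveI := Fact.mk hp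
  have h1 : IsPGroup p (G ⧸ M.normalCore) := isPGroup_quotient_of_p'_mem _ fun x hx g =>
    L.mem_of_pow_mem (hexp _) (by
      rw [orderOf_conj, ← hk]
      exact Nat.Coprime.pow_right k ((Nat.Prime.coprime_iff_not_dvd hp).2 hx).symm)
  haveI := h1.isNilpotent
  exact normal_of_map_normal M.normalCore_le
    (normal_of_coatom_of_nilpotent (isCoatom_map_mk' hM M.normalCore_le))

end Cfsg.Agent.S4261
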