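import Cfsg.Statements.S4262
import Cfsg.Agent.H1.CS

set_option autoImplicit false
open Cfsg

namespace Cfsg.Agent.S4262

open H1
open Subgroup in
theorem aux {G : Type*} [Group G] [Finite G]
    (h : ∀ g : G, g ∉ Subgroup.center G → IsCoatom (Subgroup.centralizer ({g} : Set G))) {x t : G}
    (h1 : x ≠ x⁻¹) (ht : t * x * t⁻¹ = x⁻¹) : x ∉ center G ∧ extC x = ⊤ := by
  have hx : x ∉ center G := fun hx => h1 (by rw [← ht, mem_center_iff.1 hx t]; group)
  refine ⟨hx, (h x hx).2 _ (lt_of_le_of_ne (centralizer_le_extC x) (fun e => h1 ?_))⟩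
  have : t ∈ centralizer {x} := e ▸ (Or.inr ht : t ∈ extC x)
  rw [← ht, mem_centralizer_singleton_iff.1 this]; group

/-- Let G be a finite group in which the centralizer of every non-central element is a maximal subgroup of G. Then G is solvable. -/
theorem result {G : Type*} [Group G] [Finite G]
    (h : ∀ g : G, g ∉ Subgroup.center G → IsCoatom (Subgroup.centralizer ({g} : Set G))) :
    Group.IsSolvable G := by
  by_contra hG
  have hodd : ∀ x : G, x ≠ 1 → Odd (orderOf x) → x ≠ x⁻¹ := fun x h1 h2 e =>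
    h1 (eq_one_of_sq_of_odd (by rw [pow_two]; nth_rewrite 2 [e]; exact mul_inv_cancel x) h2)
  obtain ⟨x, h1, h2, t, -, ht⟩ := exists_real_odd G hG
  obtain ⟨hx, hE⟩ := aux h (hodd x h1 h2) ht
  have hi : (Subgroup.centralizer {x}).index = 2 := by
    have := relIndex_extC (isConj_iff.2 ⟨t, ht⟩) (hodd x h1 h2)
    rwa [hE, Subgroup.relIndex_top_right] at this
  haveI := Subgroup.normal_of_index_eq_two hi
  haveI : Fact (Nat.Prime 2) := ⟨Nat.prime_two⟩
  have hK : ¬ Group.IsSolvable (Subgroup.centralizer ({x} : Set G)) := fun hK =>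
    hG (isSolvable_of_normal_of_quotient _ hK (isSolvable_of_isPGroup
      (IsPGroup.of_card (p := 2) (n := 1) (by rw [← Subgroup.index_eq_card, hi]; rfl))))
  obtain ⟨⟨y, hy⟩, k1, k2, ⟨s, hs⟩, -, hst⟩ := exists_real_odd _ hK
  have k1' : y ≠ 1 := fun e => k1 (Subtype.ext e)
  rw [Subgroup.orderOf_mk] at k2
  have hst' : s * y * s⁻¹ = y⁻¹ := congrArg Subtype.val hst
  obtain ⟨-, hE'⟩ := aux h (hodd y k1' k2) hst'
  have hyx := Subgroup.mem_centralizer_singleton_iff.1 hy
  have hsx := Subgroup.mem_centralizer_singleton_iff.1 hs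
  have hsn : s ∉ Subgroup.centralizer {x * y} := by
    intro hc
    have hc := Subgroup.mem_centralizer_singleton_iff.1 hc
    apply hodd y k1' k2
    rw [← hst']
    calc y = x⁻¹ * (s * (x * y)) * s⁻¹ := by rw [hc]; group
      _ = x⁻¹ * (s * x) * y * s⁻¹ := by group
      _ = _ := by rw [hsx]; group
  have hxy : x * y ∉ Subgroup.center G := fun hc =>
    hsn (Subgroup.mem_centralizer_singleton_iff.2 (Subgroup.mem_center_iff.1 hc s))
  have hle : Subgroup.centralizer {x * y} ≤ Subgroup.centralizer {x} := by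
    intro g hg
    have hg := Subgroup.mem_centralizer_singleton_iff.1 hg
    have e : (g * x * g⁻¹) * (g * y * g⁻¹) = x * y := by
      calc _ = g * (x * y) * g⁻¹ := by group
        _ = _ := by rw [hg]; group
    have a1 : g ∈ extC x := hE ▸ Subgroup.mem_top g
    have a2 : g ∈ extC y := hE' ▸ Subgroup.mem_top g
    rcases a1 with a1 | a1
    · exact Subgroup.mem_centralizer_singleton_iff.2 (by rw [← mul_inv_eq_iff_eq_mul]; exact a1)
    rcases a2 with a2 | a2
    · rw [a1, a2] at e
      exact absurd (mul_right_cancel e).symm (hodd x h1 h2)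
    · rw [a1, a2] at e
      exfalso
      refine hodd (x * y) (fun e1 => hxy (e1 ▸ Subgroup.one_mem _)) ?_ ?_
      · have hc : Commute x y := hyx.symm
        exact Odd.of_dvd_nat (h2.mul k2) hc.orderOf_mul_dvd_mul_orderOf
      · rw [← hyx, mul_inv_rev, e, hyx]
  have := (h _ hxy).2 _ (lt_of_le_of_ne hle (fun e => hsn (e ▸ hs)))
  rw [this, Subgroup.index_top] at hi
  omega

end Cfsg.Agent.S4262
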