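import Cfsg.Statements.S4263
import Cfsg.Agent.H1.CS
import Cfsg.Agent.H9.Rad

set_option autoImplicit false
open Cfsg

namespace Cfsg.Agent.S4263

open H1

/-- Let G be a finite group. An element x lies in the Fitting subgroup F(G) if and only if, for every subgroup H of G, the power x^[G : H] lies in H. -/
theorem result {G : Type*} [Group G] [Finite G] (x : G) :
    x ∈ Cfsg.fittingSubgroup G ↔ ∀ H : Subgroup G, x ^ H.index ∈ H := by
  constructor
  · intro hx H
    have hF := fitting_isNilpotent (G := G)
    have h1 : H9.SN (Subgroup.zpowers x) (Cfsg.fittingSubgroup G) :=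
      H9.sn_of_nilpotent hF ((Subgroup.zpowers_le).2 hx)
    have h2 : H.relIndex (Subgroup.zpowers x) ∣ H.index :=
      (SN.relIndex_dvd h1 H).trans (relIndex_dvd_index_of_normal' _ H)
    obtain ⟨k, hk⟩ := h2
    rw [hk, pow_mul]
    refine H.pow_mem ?_ k
    have := Subgroup.pow_index_mem (H := H.subgroupOf (Subgroup.zpowers x)) ⟨x, Subgroup.mem_zpowers x⟩
    exact this
  · intro h
    refine le_of_forall_primePow_mem (H := Subgroup.zpowers x) (fun p k hp y hy hk => ?_) (Subgroup.mem_zpowers x)
    haveI := Fact.mk hp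
    refine pCore_le_fitting p ?_
    rw [pCore_eq_iInf_sylow, Subgroup.mem_iInf]
    intro P
    obtain ⟨m, rfl⟩ := hy
    have h1 : (x ^ m) ^ (P : Subgroup G).index ∈ (P : Subgroup G) := by
      rw [← zpow_natCast, ← zpow_mul, mul_comm, zpow_mul, zpow_natCast]
      exact (P : Subgroup G).zpow_mem (h P) m
    have hc : (P : Subgroup G).index.Coprime (orderOf (x ^ m)) := by
      simp only at hk
      rw [hk]
      exact Nat.Coprime.pow_right k ((Nat.Prime.coprime_iff_not_dvd hp).2 P.not_dvd_index).symm
    obtain ⟨n, hn⟩ := exists_pow_eq_self_of_coprime hc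
    simp only
    rw [← hn]
    exact (P : Subgroup G).pow_mem h1 n

end Cfsg.Agent.S4263
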