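import Cfsg.Statements.S4269
import Cfsg.Agent.H9.Syl
import Cfsg.Agent.H1.Basic

set_option autoImplicit false
open Cfsg

namespace Cfsg.Agent.S4269

open Subgroup H9
open scoped commutatorElement

/-- Let G be a finite group, V an abelian normal subgroup and H a subgroup with HV = G. Then H is pronormal in G (H and gHg⁻¹ are conjugate inside the subgroup they generate, for every g) if and only if every H-invariant subgroup U of V satisfies U = N_U(H)·[H, U], that is, U is the join of U ∩ N_G(H) and the commutator subgroup [H, U]. -/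
theorem result {G : Type*} [Group G] [Finite G]
    (V : Subgroup G) [V.Normal] (hV : IsMulCommutative ↥V) (H : Subgroup G) (hHV : H ⊔ V = ⊤) :
    Cfsg.IsPronormal H ↔
      ∀ U : Subgroup G, U ≤ V → (∀ h ∈ H, U.map (MulAut.conj h).toMonoidHom = U) →
        U = (U ⊓ Subgroup.normalizer (H : Set G)) ⊔ ⁅H, U⁆ := by
  have hc : ∀ {a b : G}, a ∈ V → b ∈ V → a * b = b * a := fun ha hb => H1.comm_of_mem hV ha hb
  refine ⟨fun hp U hUV hU => ?_, fun h g => ?_⟩
  · have hn : H ≤ normalizer (U : Set G) := fun h hh => mem_normalizer_iff_cj.2 (hU h hh)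
    refine le_antisymm (fun u hu => ?_) (sup_le inf_le_left (commutator_le_right' hn))
    obtain ⟨x, hx, e⟩ := hp u
    have h1 : H ⊔ cj u H ≤ ⁅H, U⁆ ⊔ H := sup_le le_sup_right fun y hy => by
      rw [show y = ⁅u⁻¹ * y * u, u⁆⁻¹ * (u⁻¹ * y * u) by rw [commutatorElement_def]; group]
      exact mul_mem (mem_sup_left (inv_mem (commutator_mem_commutator (mem_cj.1 hy) hu))) (mem_sup_right (mem_cj.1 hy))
    obtain ⟨w, hw, k, hk, rfl⟩ := (mem_sup_of_le_normalizer' (normalizer_commutator le_normalizer hn)).1 (h1 hx)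
    rw [cj_def', cj_def', cj_mul, cj_eq_of_mem hk] at e
    rw [← mul_inv_cancel_left w u]
    exact mul_mem (mem_sup_right hw) (mem_sup_left ⟨U.mul_mem (U.inv_mem (commutator_le_right' hn hw)) hu,
      mem_normalizer_iff_cj.2 (by rw [cj_mul, e, cj_inv_cj])⟩)
  obtain ⟨v, hv, k, hk, rfl⟩ := (mem_sup_of_le_normalizer' (le_normalizer_of_normal : H ≤ _)).1
    (((sup_comm V H).trans hHV).ge (mem_top g))
  rw [cj_def', cj_mul, cj_eq_of_mem hk]
  have hm : ∀ {u : G} (h : G), u ∈ V → ⁅h, u⁆ ∈ V := fun h hu =>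
    V.mul_mem (Normal.conj_mem inferInstance _ hu h) (V.inv_mem hu)
  let U : Subgroup G :=
    { carrier := {u | u ∈ V ∧ ∀ h ∈ H, ⁅h, u⁆ ∈ H ⊔ cj v H}
      one_mem' := ⟨one_mem _, fun h _ => by simp⟩
      mul_mem' := fun {a b} ha hb => ⟨mul_mem ha.1 hb.1, fun h hh => by
        rw [show ⁅h, a * b⁆ = ⁅h, a⁆ * (a * ⁅h, b⁆ * a⁻¹) by simp only [commutatorElement_def]; group,
          hc ha.1 (hm h hb.1), mul_inv_cancel_right]
        exact mul_mem (ha.2 h hh) (hb.2 h hh)⟩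
      inv_mem' := fun {a} ha => ⟨inv_mem ha.1, fun h hh => by
        rw [show ⁅h, a⁻¹⁆ = a⁻¹ * (⁅h, a⁆⁻¹ * a) by simp only [commutatorElement_def]; group,
          ← hc ha.1 (inv_mem (hm h ha.1)), inv_mul_cancel_left]
        exact inv_mem (ha.2 h hh)⟩ }
  have hn : H ≤ normalizer (U : Set G) := le_normalizer_of_cj_le fun a ha y hy => by
    obtain ⟨u, hu, rfl⟩ := hy
    refine ⟨Normal.conj_mem inferInstance _ hu.1 a, fun b hb => ?_⟩
    rw [show ⁅b, (MulAut.conj a).toMonoidHom u⁆ = a * ⁅a⁻¹ * b * a, u⁆ * a⁻¹ by simp [commutatorElement_def, mul_assoc]]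
    exact mul_mem (mul_mem (mem_sup_left ha) (hu.2 _ (mul_mem (mul_mem (inv_mem ha) hb) ha))) (mem_sup_left (inv_mem ha))
  have hU : U ≤ V := fun u hu => hu.1
  have h2 := (commutator_le_right' hn).trans hU
  have hvU : v ∈ U := ⟨hv, fun b hb => by
    rw [show ⁅b, v⁆ = b * (v * b⁻¹ * v⁻¹) by rw [commutatorElement_def]; group]
    exact mul_mem (mem_sup_left hb) (mem_sup_right (conj_mem_cj (inv_mem hb)))⟩
  have h3 : U ⊓ normalizer (H : Set G) ≤ centralizer ((⁅H, U⁆ : Subgroup G) : Set G) :=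
    fun a ha b hb => hc (h2 hb) (hU ha.1)
  obtain ⟨n, hn', w, hw, e⟩ := (mem_sup_of_le_normalizer (h3.trans (centralizer_le_normalizer' _))).1 ((h U hU fun a ha => mem_normalizer_iff_cj.1 (hn ha)).le hvU)
  refine ⟨w, commutator_le.2 (fun a ha b (hb : b ∈ U) => hb.2 a ha) hw, ?_⟩
  rw [cj_def', ← e, hc (hU hn'.1) (h2 hw), cj_mul, mem_normalizer_iff_cj.1 hn'.2]

end Cfsg.Agent.S4269
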