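import Cfsg.Statements.S4270
import Cfsg.Agent.H2.Sy2
import Cfsg.Agent.H9.Syl

set_option autoImplicit false
open Cfsg

namespace Cfsg.Agent.S4270

open Subgroup H9

section
variable {G G' : Type*} [Group G] [Group G']

def R (K : Subgroup G) (g : G) : Prop := ∃ w ∈ K ⊔ cj g K, cj g K = cj w K

theorem R.map {K : Subgroup G} {g : G} (h : R K g) (f : G →* G') : R (K.map f) (f g) := by
  obtain ⟨w, hw, e⟩ := h
  refine ⟨f w, ?_, by rw [← map_cj, e, map_cj]⟩
  rw [← map_cj, ← Subgroup.map_sup]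
  exact mem_map_of_mem f hw

theorem R.comap {K : Subgroup G} {g : G} (f : G →* G') (hk : f.ker ≤ K) (h : R (K.map f) (f g)) : R K g := by
  obtain ⟨w, hw, e⟩ := h
  rw [← map_cj, ← Subgroup.map_sup] at hw
  obtain ⟨w, hw, rfl⟩ := hw
  have k : ∀ x, f.ker ≤ cj x K := fun x => (cj_eq_of_normal x f.ker).ge.trans (cj_mono x hk)
  exact ⟨w, hw, map_injective_of_ker_le f (k g) (k w) (by rw [map_cj, e, map_cj])⟩

theorem R.left {K : Subgroup G} {g x : G} (hx : x ∈ K ⊔ cj g K) (h : R K (x⁻¹ * g)) : R K g := by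
  obtain ⟨w, hw, e⟩ := h
  have : K ⊔ cj (x⁻¹ * g) K ≤ K ⊔ cj g K :=
    sup_le le_sup_left (by rw [cj_mul]; exact (cj_mono _ le_sup_right).trans (cj_eq_of_mem (inv_mem hx)).le)
  exact ⟨x * w, mul_mem hx (this hw), by rw [cj_mul, ← e, ← cj_mul, mul_inv_cancel_left]⟩

theorem R.right {K : Subgroup G} {g n : G} (hn : n ∈ normalizer (K : Set G)) (h : R K g) : R K (g * n) := by
  rwa [R, cj_mul, mem_normalizer_iff_cj.1 hn]

theorem pn_map {K : Subgroup G} (h : IsPronormal K) {f : G →* G'} (hf : Function.Surjective f) :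
    IsPronormal (K.map f) := fun g => by
  obtain ⟨g, rfl⟩ := hf g
  exact R.map (h g) f

theorem pn_comap {K : Subgroup G} (f : G →* G') (hk : f.ker ≤ K) (h : IsPronormal (K.map f)) : IsPronormal K :=
  fun g => R.comap f hk (h (f g))

theorem pn_sub {K A : Subgroup G} (hK : K ≤ A) (h : IsPronormal (K.subgroupOf A)) {g : G} (hg : g ∈ A) : R K g := by
  simpa [map_subgroupOf_eq_of_le hK] using R.map (h ⟨g, hg⟩) A.subtype
end

/-- Let p be a prime and G a finite group with a normal subgroup A such that, both in A and in G/A, every subgroup containing a Sylow p-subgroup of that group is pronormal in that group. Let T be a Sylow p-subgroup of A. Then every subgroup of G containing a Sylow p-subgroup of G is pronormal in G if and only if (i) every subgroup of N_G(T)/T containing a Sylow p-subgroup of N_G(T)/T is pronormal there, and (ii) for every subgroup H of G containing a Sylow p-subgroup of G, the image of N_G(H) in G/A is the full normalizer of the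 image of H. (Pronormal: H and gHg⁻¹ are conjugate inside the subgroup they generate, for every g.) -/
theorem result {G : Type*} [Group G] [Finite G] {p : ℕ} [Fact p.Prime]
    (A : Subgroup G) [A.Normal] (hA : (∀ K : Subgroup ↥A, (∃ P : Sylow p ↥A, (P : Subgroup ↥A) ≤ K) → Cfsg.IsPronormal K)) (hQ : (∀ K : Subgroup (G ⧸ A), (∃ P : Sylow p (G ⧸ A), (P : Subgroup (G ⧸ A)) ≤ K) → Cfsg.IsPronormal K))
    (T : Subgroup G) (hT : ∃ P : Sylow p ↥A, (P : Subgroup ↥A).map A.subtype = T) [(T.subgroupOf (Subgroup.normalizer (T : Set G))).Normal] :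
    (∀ K : Subgroup G, (∃ P : Sylow p G, (P : Subgroup G) ≤ K) → Cfsg.IsPronormal K) ↔
      ((∀ K : Subgroup (↥(Subgroup.normalizer (T : Set G)) ⧸ T.subgroupOf (Subgroup.normalizer (T : Set G))), (∃ P : Sylow p (↥(Subgroup.normalizer (T : Set G)) ⧸ T.subgroupOf (Subgroup.normalizer (T : Set G))), (P : Subgroup (↥(Subgroup.normalizer (T : Set G)) ⧸ T.subgroupOf (Subgroup.normalizer (T : Set G)))) ≤ K) → Cfsg.IsPronormal K) ∧
        ∀ K : Subgroup G, (∃ P : Sylow p G, (P : Subgroup G) ≤ K) →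
          (Subgroup.normalizer (K : Set G)).map (QuotientGroup.mk' A) = Subgroup.normalizer ((K.map (QuotientGroup.mk' A) : Subgroup (G ⧸ A)) : Set (G ⧸ A))) := by
  obtain ⟨T0, hT0⟩ := hT
  have hT : Syl p T A := hT0 ▸ syl_of_sylow T0
  have key : ∀ {S}, Syl p S ⊤ → T ≤ S → S ≤ normalizer (T : Set G) := fun hS h => by
    rw [← hT.maximal (hS.inf_normal le_top le_normalizer_of_normal).isP inf_le_right (le_inf h hT.le)]
    exact normalizer_inf le_normalizer le_normalizer_of_normal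
  have hm : ∀ {X Y : Type _} [Group X] [Group Y] [Finite X] (f : X →* Y) (hf : Function.Surjective f) (P : Sylow p X)
      {K : Subgroup X} (_ : (P : Subgroup X) ≤ K), ∃ Q : Sylow p Y, (Q : Subgroup Y) ≤ K.map f :=
    fun f hf P K h => ⟨P.mapSurjective hf, map_mono h⟩
  refine ⟨fun h => ⟨fun K ⟨P, hP⟩ => ?_, fun K hK => le_antisymm (le_normalizer_map _) fun g hg => ?_⟩,
    fun ⟨h1, h2⟩ K ⟨P, hP⟩ => ?_⟩
  · rw [← map_comap_eq_self_of_surjective (QuotientGroup.mk'_surjective _) K]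
    refine pn_map (pn_comap (Subgroup.subtype _) (by simp) (h _ ?_)) (QuotientGroup.mk'_surjective _)
    obtain ⟨P, rfl⟩ := Sylow.mapSurjective_surjective (QuotientGroup.mk'_surjective _) p P
    obtain ⟨S, hS, hTS⟩ := exists_syl_ge hT.isP le_top
    have k := syl_of_sylow P
    obtain ⟨Q, hQ⟩ := (syl_of_card_le k.isP le_top hS
      ((hS.mono (key hS hTS) le_top).card_eq_card k).le).exists_sylow_top
    exact ⟨Q, hQ.le.trans (map_mono (map_le_iff_le_comap.1 hP))⟩
  · obtain ⟨g, rfl⟩ := QuotientGroup.mk'_surjective A g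
    obtain ⟨x, hx, e⟩ : R K g := h K hK g
    have : QuotientGroup.mk' A x ∈ K.map (QuotientGroup.mk' A) := by
      have := mem_map_of_mem (QuotientGroup.mk' A) hx
      rwa [Subgroup.map_sup, map_cj, mem_normalizer_iff_cj.1 hg, sup_idem] at this
    obtain ⟨k, hk, e2⟩ := this
    exact ⟨k * (x⁻¹ * g), mul_mem (le_normalizer hk) (mem_normalizer_iff_cj.2 (by rw [cj_mul, e, cj_inv_cj])),
      by rw [map_mul, e2, ← map_mul, mul_inv_cancel_left]⟩
  obtain ⟨c, -, hc⟩ := (syl_top_of_sylow P).exists_le_cj hT.isP le_top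
  refine pn_comap (MulAut.conj c).toMonoidHom (((MonoidHom.ker_eq_bot_iff _).2 (MulAut.conj c).injective).le.trans bot_le) fun g => ?_
  obtain ⟨S, e⟩ := ((syl_top_of_sylow P).cj_of_mem (mem_normalizer_iff_cj.2 (cj_top c))).exists_sylow_top
  have hSK : (S : Subgroup G) ≤ cj c K := e.le.trans (cj_mono c hP)
  rw [← e] at hc
  change R (cj c K) g
  generalize cj c K = K at hSK
  have hS := syl_top_of_sylow S
  obtain ⟨x, hx, e1⟩ : R _ (QuotientGroup.mk' A g) := hQ _ (hm _ (QuotientGroup.mk'_surjective A) S hSK) _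
  rw [← map_cj, ← Subgroup.map_sup] at hx
  obtain ⟨x, hx, rfl⟩ := hx
  obtain ⟨n, hn, e2⟩ := (h2 K ⟨S, hSK⟩).ge (mem_normalizer_iff_cj.2
    (show cj (QuotientGroup.mk' A (x⁻¹ * g)) _ = _ by rw [map_mul, cj_mul, e1, map_inv, cj_inv_cj]))
  have ha : x⁻¹ * g * n⁻¹ ∈ A := by
    rw [← QuotientGroup.ker_mk' A, MonoidHom.mem_ker, map_mul, ← e2, map_inv, mul_inv_cancel]
  refine R.left hx ?_
  rw [← inv_mul_cancel_right (x⁻¹ * g) n]
  refine R.right hn ?_
  generalize x⁻¹ * g * n⁻¹ = a at ha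
  have hT1 : Syl p T (K ⊓ A) := hT.mono (le_inf (hc.trans hSK) hT.le) inf_le_right
  obtain ⟨y, hy, e3⟩ := pn_sub inf_le_right (hA _ ⟨T0, (subgroupOf_map_subtype' A T0).ge.trans
    (subgroupOf_mono _ (hT0.le.trans hT1.le))⟩) ha
  refine R.left (sup_le_sup inf_le_left (cj_mono a inf_le_left) hy) ?_
  have hb : y⁻¹ * a ∈ normalizer ((K ⊓ A : Subgroup G) : Set G) :=
    mem_normalizer_iff_cj.2 (by rw [cj_mul, e3, cj_inv_cj])
  obtain ⟨k, hk, d, hd, e4⟩ := hT1.frattini' hb
  refine R.left (mem_sup_left hk.1) ?_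
  rw [e4, inv_mul_cancel_left]
  have hd' := (mul_mem_cancel_left (le_normalizer hk)).1 (e4 ▸ hb)
  have nK : K ≤ normalizer ((K ⊓ A : Subgroup G) : Set G) := normalizer_inf le_normalizer le_normalizer_of_normal
  obtain ⟨Q, hQ'⟩ := (hS.mono (key hS hc) le_top).exists_sylow'
  obtain ⟨z, hz, e5⟩ := pn_sub (K := K ⊓ normalizer (T : Set G)) inf_le_right (pn_comap (QuotientGroup.mk' _)
    ((QuotientGroup.ker_mk' _).le.trans (subgroupOf_mono _ (le_inf (hc.trans hSK) le_normalizer)))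
    (h1 _ (hm _ (QuotientGroup.mk'_surjective _) Q (hQ'.le.trans (subgroupOf_mono _ (le_inf hSK (key hS hc))))))) hd
  refine ⟨z, sup_le_sup inf_le_left (cj_mono d inf_le_left) hz, ?_⟩
  have hz' := sup_le (inf_le_left.trans nK) ((cj_mono d (inf_le_left.trans nK)).trans (cj_eq_of_mem hd').le) hz
  rw [← hT1.frattini inf_le_left nK, cj_sup, cj_sup, e5, mem_normalizer_iff_cj.1 hd', mem_normalizer_iff_cj.1 hz']

end Cfsg.Agent.S4270
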