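import Cfsg.Statements.S4274
import Cfsg.Agent.H3.M4

set_option autoImplicit false
open Cfsg

namespace Cfsg.Agent.S4274

open H3 H4 Subgroup
universe u
theorem nos {G : Type u} [Group G] [Finite G] [IsSimpleGroup G] (hG : ¬ IsMulCommutative G) {k : ℕ} (h : Nat.card G = 19 * k)
    (h1 : k ∣ 9240) : k = 9240 := by
  by_contra a
  have b := not_omaster hG []
  have c : ((List.range 9240).all fun k => 9240 % k != 0 || omaster [] (19 * k) ||
      k ∈ [420, 616, 660, 840, 924, 1320, 1848, 3080, 4620]) = true := by decide +kernel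
  have d := List.all_eq_true.1 c k (List.mem_range.2 (lt_of_le_of_ne (Nat.le_of_dvd (by norm_num) h1) a))
  rw [← h, b, Nat.mod_eq_zero_of_dvd h1] at d
  simp only [bne_self_eq_false, Bool.false_or, decide_eq_true_eq, List.mem_cons, List.not_mem_nil, or_false] at d
  rcases d with rfl | rfl | rfl | rfl | rfl | rfl | rfl | rfl | rfl
  exacts [ne_of_okill 5 2 0 3 300 (by norm_num) (by norm_num) (by norm_num) (by norm_num) (by decide +kernel) h,
    ne_of_okill 7 2 0 3 300 (by norm_num) (by norm_num) (by norm_num) (by norm_num) (by decide +kernel) h,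
    ne_of_okill 11 2 0 3 300 (by norm_num) (by norm_num) (by norm_num) (by norm_num) (by decide +kernel) h,
    ne_of_okill 19 2 0 3 300 (by norm_num) (by norm_num) (by norm_num) (by norm_num) (by decide +kernel) h,
    ne_of_okill 11 2 0 3 300 (by norm_num) (by norm_num) (by norm_num) (by norm_num) (by decide +kernel) h,
    ne_of_okill 11 2 0 3 300 (by norm_num) (by norm_num) (by norm_num) (by norm_num) (by decide +kernel) h,
    ne_of_okill 7 2 0 3 300 (by norm_num) (by norm_num) (by norm_num) (by norm_num) (by decide +kernel) h,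
    ne_of_okill 11 2 0 3 300 (by norm_num) (by norm_num) (by norm_num) (by norm_num) (by decide +kernel) h,
    ne_of_okill 19 2 0 3 300 (by norm_num) (by norm_num) (by norm_num) (by norm_num) (by decide +kernel) h]

instance : Fact (Nat.Prime 19) := ⟨by norm_num⟩

theorem pp {p k : ℕ} (hp : p.Prime) (h : p ^ k ∣ 9240) : p ^ k < 19 := by
  rcases Nat.eq_zero_or_pos k with rfl | k0
  · simp
  have a := Nat.mem_primeFactors.2 ⟨hp, (dvd_pow_self p k0.ne').trans h, by norm_num⟩
  rw [show Nat.primeFactors 9240 = {2, 3, 5, 7, 11} by decide +kernel] at a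
  simp only [Finset.mem_insert, Finset.mem_singleton] at a
  have : k < 4 := by_contra fun c => by
    rcases a with rfl | rfl | rfl | rfl | rfl <;> exact absurd ((pow_dvd_pow _ (not_lt.1 c)).trans h) (by norm_num)
  rcases a with rfl | rfl | rfl | rfl | rfl <;> interval_cases k <;> simp_all

theorem aux (n : ℕ) : ∀ (G : Type u) [Group G] [Finite G], Nat.card G = n → n ∣ 175560 → ∀ P : Sylow 19 G,
    IsSimpleGroup G ∧ n = 175560 ∨ (P : Subgroup G).Normal := by
  induction n using Nat.strong_induction_on with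
  | _ n ih =>
  intro G _ _ hG hn P
  by_cases a : 19 ∣ n
  swap
  · right
    rw [Subgroup.card_eq_one.1 (card_sylow_of P hG (k := 0) (by simp) (by simpa using a))]
    infer_instance
  have n2 : ¬ 19 ^ (1 + 1) ∣ n := fun b => absurd (b.trans hn) (by norm_num)
  have cP : Nat.card P = 19 := card_sylow_of P hG (k := 1) a n2
  by_cases s : IsSimpleGroup G
  · by_cases c : IsMulCommutative G
    · exact Or.inr inferInstance
    obtain ⟨k, rfl⟩ := a
    exact Or.inl ⟨s, by rw [nos c hG ((Nat.mul_dvd_mul_iff_left (by norm_num : 0 < 19)).1 hn)]⟩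
  right
  haveI : Nontrivial G := Finite.one_lt_card_iff_nontrivial.1 (hG ▸ lt_of_lt_of_le (by norm_num) (Nat.le_of_dvd (hG ▸ Nat.card_pos) a))
  obtain ⟨N, _, n1, n3⟩ : ∃ N : Subgroup G, N.Normal ∧ N ≠ ⊥ ∧ N ≠ ⊤ := by
    by_contra! b
    exact s ⟨fun N c => or_iff_not_imp_left.2 (b N c)⟩
  have m := hG ▸ card_mul_index N
  have m1 := N.one_lt_card_iff_ne_bot.2 n1
  have m2 := one_lt_index_of_ne_top n3
  have le := Nat.le_of_dvd (by norm_num) hn
  by_cases b : 19 ∣ Nat.card N
  · have i : ¬ 19 ∣ N.index := fun i => n2 (m ▸ mul_dvd_mul b i)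
    have PN : (P : Subgroup G) ≤ N := fun x c => mem_of_cop (Nat.Coprime.coprime_dvd_right (cP ▸ Subgroup.orderOf_dvd_natCard _ c)
      ((Nat.Prime.coprime_iff_not_dvd (by norm_num)).2 i).symm)
    have := (ih _ (by nlinarith) N rfl ((Dvd.intro _ m).trans hn) (P.subtype PN)).resolve_left fun c => by nlinarith [c.2]
    have := (normal_subgroupOf_iff_le_normalizer PN).1 this
    exact normalizer_eq_top_iff.1 ((sup_eq_left.2 this).symm.trans (P.normalizer_sup_eq_top' PN))
  have NC : N ≤ CS (P : Subgroup G) := inf_eq_left.1 (eq_of_le_of_card_ge inf_le_left (Nat.le_of_dvd Nat.card_pos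
    ((Nat.dvd_iff_prime_pow_dvd_dvd _ _).2 fun p i c d => by
      haveI := Fact.mk c
      obtain ⟨R, r1, r2⟩ := H1.exists_invariant_sylow (p := p) (A := P) (K := N) (fun x _ => mem_NS_of_normal N x)
        (by rw [cP]; exact (Nat.Prime.coprime_iff_not_dvd (by norm_num)).2 b) (Or.inl (solvable_of_prime_card (by rw [cP]; norm_num)))
      have e : _ % 19 = _ % 19 := H1.card_modEq_card_inf_centralizer P.isPGroup' r2
      have f : Nat.card R < 19 := r1.card_eq ▸ pp c ((Nat.ordProj_dvd _ _).trans (Nat.Coprime.dvd_of_dvd_mul_left (m := 19)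
        ((Nat.Prime.coprime_iff_not_dvd (by norm_num)).2 b).symm ((Dvd.intro _ m).trans hn)))
      have g := card_le_of_le (inf_le_left : R ⊓ CS (P : Subgroup G) ≤ R)
      refine ((pow_dvd_pow p ((c.pow_dvd_iff_le_factorization Nat.card_pos.ne').1 d)).trans (dvd_of_eq ?_)).trans
        (card_dvd_of_le (inf_le_inf_right _ r1.le))
      rw [← r1.card_eq]
      simp only [CS] at *
      omega)))
  have q := (ih _ (by nlinarith) (G ⧸ N) (index_eq_card N).symm ((Dvd.intro_left _ m).trans hn)
    (P.mapSurjective (QuotientGroup.mk'_surjective N))).resolve_left fun c => by nlinarith [c.2]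
  have q2 := q.comap (QuotientGroup.mk' N)
  rw [Sylow.coe_mapSurjective, comap_map_eq, QuotientGroup.ker_mk'] at q2
  exact normalizer_eq_top_iff.1 ((sup_eq_left.2 (sup_le le_normalizer (NC.trans (CS_le_NS _)))).symm.trans
    (P.normalizer_sup_eq_top' le_sup_left))

/-- A finite group of order 175560 = 2³·3·5·7·11·19 is either simple or has a normal Sylow 19-subgroup. -/
theorem result {G : Type*} [Group G] [Finite G] (hG : Nat.card G = 175560) : IsSimpleGroup G ∨ ∀ P : Sylow 19 G, (P : Subgroup G).Normal := by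
  exact or_iff_not_imp_left.2 fun a P => (aux _ G hG dvd_rfl P).resolve_left fun b => a b.1

end Cfsg.Agent.S4274
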