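import Cfsg.Statements.S4331
import Cfsg.Agent.H8.AG9
import Cfsg.Agent.H1.Cores
import Cfsg.Agent.H1.Frattini
-- import your own Cfsg.Agent.* helpers here

set_option autoImplicit false
set_option maxRecDepth 200000
open Cfsg

namespace Cfsg.Agent.S4331

/-- There is a finite solvable group G with a subgroup A of order 2 such that every conjugacy class of G contains an element g for which A is subnormal in the subgroup generated by A and g, and yet A is not contained in O_2(G). (So the corresponding criteria for odd primes fail at the prime 2, even for solvable groups.) -/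
theorem result :
    ∃ (G : Type) (_ : Group G) (_ : Finite G) (A : Subgroup G), Group.IsSolvable G ∧ Nat.card A = 2 ∧
      (∀ c : G, ∃ g : G, IsConj c g ∧ (A.subgroupOf (A ⊔ Subgroup.zpowers g)).IsSubnormal) ∧
      ¬ A ≤ Cfsg.pCore 2 G := by
  obtain ⟨G, _, _, a, S, h1, h2, h3, h4, h5, h6, g, h7⟩ := H8.AG9.ex
  haveI := Fact.mk Nat.prime_two
  refine ⟨G, inferInstance, inferInstance, Subgroup.zpowers a, h1, (Nat.card_zpowers a).trans h2, fun c => ?_, fun h => ?_⟩
  · rcases h6 c with h | ⟨w, h⟩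
    · obtain ⟨i, -, hi⟩ := (Nat.dvd_prime_pow Nat.prime_two).1 (orderOf_dvd_of_pow_eq_one h)
      obtain ⟨x, hx⟩ := H8.exists_conj_le Nat.prime_two S h5 (A := Subgroup.zpowers c) (IsPGroup.of_card ((Nat.card_zpowers c).trans hi))
      haveI := (h4.to_le (sup_le (Subgroup.zpowers_le.2 h3) (Subgroup.zpowers_le.2 (hx c (Subgroup.mem_zpowers c))))).isNilpotent
      exact ⟨_, isConj_iff.2 ⟨x, rfl⟩, H1.isSubnormal_of_nilpotent _⟩
    · refine ⟨w⁻¹ * c * w, isConj_iff.2 ⟨w⁻¹, by simp⟩, Subgroup.Normal.isSubnormal (Subgroup.normal_subgroupOf_of_le_normalizer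
        (sup_le Subgroup.le_normalizer (Subgroup.zpowers_le.2 (Subgroup.centralizer_le_normalizer _ ?_))))⟩
      have e : Commute (w⁻¹ * c * w) a := by simpa [mul_assoc] using h.map (MulAut.conj w⁻¹)
      rintro _ ⟨j, rfl⟩
      exact (e.zpow_right j).eq.symm
  · have m := h (Subgroup.mem_zpowers a)
    obtain ⟨i, hi⟩ := IsPGroup.iff_orderOf.1 (H1.pCore_isPGroup (p := 2) (G := G)) ⟨_, mul_mem m (Subgroup.Normal.conj_mem inferInstance a m g)⟩
    rw [Subgroup.orderOf_mk, h7] at hi
    exact absurd (Nat.Prime.dvd_of_dvd_pow Nat.prime_three hi.dvd) (by norm_num)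

end Cfsg.Agent.S4331
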