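import Cfsg.Statements.S4332
import Cfsg.Agent.H8.S8t
import Cfsg.Agent.H1.Cores
-- import your own Cfsg.Agent.* helpers here

set_option autoImplicit false
set_option maxRecDepth 200000
open Pointwise
open Cfsg

namespace Cfsg.Agent.S4332

/-- In the symmetric group of degree 8, let A be the subgroup generated by a 3-cycle. Then every conjugacy class contains an element g for which A is subnormal in the subgroup generated by A and its conjugate by g, although O_3 of the symmetric group of degree 8 is trivial. -/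
theorem result
    (σ : Equiv.Perm (Fin 8)) (hσ : σ.IsThreeCycle) :
    (∀ c : Equiv.Perm (Fin 8), ∃ g : Equiv.Perm (Fin 8), IsConj c g ∧
      ((Subgroup.zpowers σ).subgroupOf (Subgroup.zpowers σ ⊔ MulAut.conj g • Subgroup.zpowers σ)).IsSubnormal) ∧
    Cfsg.pCore 3 (Equiv.Perm (Fin 8)) = ⊥ := by
  refine ⟨fun c => ?_, ?_⟩
  · obtain ⟨τ, h1, h2⟩ := H8.S8t.ex c
    obtain ⟨h, rfl⟩ := isConj_iff.1 (Equiv.Perm.isConj_iff_cycleType_eq.2 (hσ.cycleType.trans h1.cycleType.symm))
    refine ⟨h⁻¹ * c * h, isConj_iff.2 ⟨h⁻¹, by simp⟩, Subgroup.Normal.isSubnormal (Subgroup.normal_subgroupOf_of_le_normalizer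
      (sup_le Subgroup.le_normalizer fun x hx => ?_))⟩
    obtain ⟨y, ⟨i, rfl⟩, rfl⟩ := (Subgroup.mem_smul_pointwise_iff_exists _ _ _).1 hx
    have e : Commute σ (MulAut.conj (h⁻¹ * c * h) σ) := by simpa [mul_assoc] using h2.map (MulAut.conj h⁻¹)
    refine Subgroup.centralizer_le_normalizer _ ?_
    rintro _ ⟨j, rfl⟩
    simpa [map_zpow] using (e.zpow_zpow j i).eq
  · haveI := Fact.mk Nat.prime_three
    by_contra h
    haveI := (Subgroup.nontrivial_iff_ne_bot _).2 h
    obtain ⟨i, hi⟩ := IsPGroup.iff_card.1 (H1.pCore_isPGroup (p := 3) (G := Equiv.Perm (Fin 8)))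
    have d := Subgroup.card_dvd_of_le (Equiv.Perm.alternatingGroup_le_of_normal (N := pCore 3 (Equiv.Perm (Fin 8))) (by simp) inferInstance)
    rw [hi, H8.Alt.a8ch.card, show H8.chainOrd 8 H8.Alt.a8L = 2 * 10080 by decide +kernel] at d
    exact absurd (Nat.Prime.dvd_of_dvd_pow Nat.prime_two (Dvd.dvd.trans (Dvd.intro _ rfl) d)) (by norm_num)

end Cfsg.Agent.S4332
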