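import Cfsg.Statements.S4333
import Cfsg.Agent.H1.Subnormal

set_option autoImplicit false
open Pointwise
open Cfsg

namespace Cfsg.Agent.S4333

open H1 H9 in
theorem aux {G : Type*} [Group G] [Finite G] {A K : Subgroup G} (hAK : A ≤ K)
    (h : ∀ a ∈ A, ∀ g ∈ K, SN A (A ⊔ MulAut.conj (g⁻¹ * a * g) • A)) : SN A K := by
  induction K using WellFoundedLT.induction with | ind K ih
  by_contra hn
  have h1 : ∀ H, A ≤ H → H < K → SN A H :=
    fun H h1 h2 => ih H h2 h1 fun a ha g hg => h a ha g (h2.le hg)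
  obtain ⟨M, h2, h3, h4⟩ := zipper hAK hn h1
  have hNM : Subgroup.normalizer (M : Set G) ⊓ K ≤ M := by
    refine h4 _ (le_inf (h2.trans Subgroup.le_normalizer) hAK) (lt_of_le_of_ne inf_le_right fun e => hn ?_)
    exact (h1 M h2 h3).trans (SN.of_normal h3.le (inf_eq_right.1 e))
  set J := sSup {B | ∃ g ∈ K, B = MulAut.conj g • A}
  have h5 : J < K := by
    refine lt_of_le_of_lt (sSup_le ?_) h3
    rintro _ ⟨g, hg, rfl⟩ y hy
    obtain ⟨a, ha, rfl⟩ := (Subgroup.mem_smul_pointwise_iff_exists _ _ _).1 hy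
    have hx : g⁻¹⁻¹ * a * g⁻¹ ∈ K := K.mul_mem (K.mul_mem (K.inv_mem (K.inv_mem hg)) (hAK ha)) (K.inv_mem hg)
    have k1 : MulAut.conj (g⁻¹⁻¹ * a * g⁻¹) • A ≤ M :=
      le_sup_right.trans (h4 _ le_sup_left (lt_of_le_of_ne
        (sup_le hAK (conj_smul_le_of_mem hAK hx)) fun e => hn (e ▸ h a ha g⁻¹ (K.inv_mem hg))))
    have k2 := h4 _ (conj_smul_le_iff_le.1 k1) (conj_smul_lt_of_mem h3 (K.inv_mem hx))
    have k3 : MulAut.conj (g⁻¹⁻¹ * a * g⁻¹)⁻¹ • M = M :=
      Subgroup.eq_of_le_of_card_ge k2 (by rw [card_conj_smul])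
    have k4 := hNM ⟨Subgroup.inv_mem_iff _ |>.1 (conj_smul_eq_self_iff.1 k3), hx⟩
    simpa using k4
  refine hn ((h1 J (le_sSup ⟨1, K.one_mem, (conj_one_smul A).symm⟩) h5).trans
    (SN.of_normal h5.le (le_normalizer_sSup ?_)))
  rintro x hx _ ⟨g, hg, rfl⟩
  exact ⟨x * g, K.mul_mem hx hg, conj_smul_conj_smul _ _ _⟩

/-- Let A be a subgroup of a finite group G. If A is subnormal in the subgroup generated by A and its conjugate by g⁻¹ a g, for every a ∈ A and every g ∈ G, then A is subnormal in G. (A sharpening of Wielandt's subnormality criterion: only conjugates of A by conjugates of elements of A are needed.) -/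
theorem result {G : Type*} [Group G] [Finite G]
    (A : Subgroup G)
    (h : ∀ a ∈ A, ∀ g : G, (A.subgroupOf (A ⊔ MulAut.conj (g⁻¹ * a * g) • A)).IsSubnormal) :
    A.IsSubnormal := by
  exact H9.sn_top_iff.1 (aux le_top fun a ha g _ => H9.sn_iff.2 ⟨le_sup_left, h a ha g⟩)

end Cfsg.Agent.S4333
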