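import Cfsg.Statements.S4334
import Cfsg.Agent.H1.Tr
import Cfsg.Agent.H1.Schmidt

set_option autoImplicit false
open Cfsg

namespace Cfsg.Agent.S4334

open Subgroup H1 Pointwise

/-- Let σ and τ be disjoint sets of primes with union π. Suppose a finite group G has a Hall π-subgroup H which is the direct product of a nilpotent σ-subgroup and a τ-subgroup (two elementwise-commuting subgroups generating H), and that the maximal τ-subgroups of G are pairwise conjugate. Then the maximal π-subgroups of G are pairwise conjugate. -/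
theorem result {G : Type*} [Group G] [Finite G]
    (σ τ π : Set ℕ) (hπ : π = σ ∪ τ) (hd : Disjoint σ τ) (H Hs Ht : Subgroup G) (hH : Cfsg.IsPiHall π H)
    (hs : Cfsg.IsPiSubgroup σ Hs) (ht : Cfsg.IsPiSubgroup τ Ht) (hsn : Group.IsNilpotent Hs)
    (hjoin : Hs ⊔ Ht = H) (hcomm : ∀ a ∈ Hs, ∀ b ∈ Ht, a * b = b * a) (hD : Cfsg.IsDPiGroup τ G) :
    Cfsg.IsDPiGroup π G := by
  subst hπ
  have c1 : Ht ≤ centralizer (Hs : Set G) := fun b hb a ha => hcomm a ha b hb
  have fac : Fac Hs Ht H := hjoin ▸ fac_of_normalizer (Or.inr (le_normalizer_of_le_centralizer c1))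
  have dj : ∀ {p}, p ∈ σ → p ∉ τ := fun h => Set.disjoint_left.1 hd h
  have i0 : Hs ⊓ Ht = ⊥ := H1.inf_eq_bot_of_coprime (IsPiNum.coprime hs fun p hp h1 h2 => dj h2 (ht p hp h1))
  have A : ∀ (p : ℕ) [Fact p.Prime], p ∈ σ → ∃ S, IsSylowIn p S ⊤ ∧ S ≤ H ∧
      ∀ Q ≤ H, ¬ p ∣ Nat.card Q → S ≤ centralizer (Q : Set G) := fun p hp h => by
    obtain ⟨S, hS⟩ := exists_isSylowIn p Hs
    have h1 := hS.trans (hjoin ▸ le_sup_left : Hs ≤ H) fun k => dj h (ht p hp.out (k.trans fac.relIndex_dvd'))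
    refine ⟨S, h1.trans le_top (by rw [relIndex_top_right]; exact hH.2 p hp.out (Or.inl h)), h1.le, fun Q h2 h3 =>
      le_centralizer_iff.1 fun x hx => ?_⟩
    obtain ⟨a, ha, b, hb, rfl⟩ := (fac_iff_coe.1 fac).le (h2 hx)
    refine mul_mem (zpowers_le.1 (le_centralizer_of_coprime_of_nilpotent hsn (zpowers_le.2 ha) hS.le
      (isPGroup_coprime' hS.isPGroup fun k => h3 (k.trans ?_)).symm)) (centralizer_le hS.le (c1 hb))
    have e : (a * b) ^ Nat.card Q = 1 := orderOf_dvd_iff_pow_eq_one.1 (Q.orderOf_dvd_natCard hx)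
    rw [Commute.mul_pow (hcomm a ha b hb)] at e
    rw [Nat.card_zpowers, orderOf_dvd_iff_pow_eq_one]
    exact mem_bot.1 (i0.le ⟨Hs.pow_mem ha _, eq_inv_of_mul_eq_one_left e ▸ Ht.inv_mem (Ht.pow_mem hb _)⟩)
  have T : IsPiHallOf τ Ht ⊤ := piHallOf_trans ⟨hjoin ▸ le_sup_right, ht, fun p hp h k =>
    dj (hs p hp (k.trans fac.relIndex_dvd)) h⟩ le_top fun p hp k h => hH.2 p hp (Or.inr h) (by simpa using k)
  have key : ∀ K : Subgroup G, IsPiSubgroup (σ ∪ τ) K → ∃ g, MulAut.conj g • K ≤ H := fun K hK => by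
    induction K using WellFoundedLT.induction with
    | ind K ih =>
    by_cases h0 : IsPiSubgroup τ K
    · obtain ⟨M, m1, m2⟩ := Finite.exists_le_maximal h0
      obtain ⟨g, rfl⟩ := hD Ht M ⟨ht, fun L h1 h2 => (piHallOf_eq_of_le T h1 h2 le_top).le⟩ m2
      exact ⟨g⁻¹, (conj_smul_le_iff_le.2 (by rwa [inv_inv])).trans (hjoin ▸ le_sup_right)⟩
    obtain ⟨p, hp, hd, hσ⟩ : ∃ p : ℕ, p.Prime ∧ p ∣ Nat.card K ∧ p ∈ σ := by
      by_contra! h
      exact h0 fun p hp k => (hK p hp k).resolve_left (h p hp k)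
    have := Fact.mk hp
    obtain ⟨S, hS, s1, s2⟩ := A p hσ
    obtain ⟨P, hP⟩ := exists_isSylowIn p K
    have h1 : HasNormalPComplement p K := H2.frobenius_rel hP.toH2 fun X x1 _ _ g g1 g2 g3 => by
      by_contra h2
      obtain ⟨q, k, hq, x, hx, h3, h4, h5⟩ := exists_primePow_notMem h2
      have := Fact.mk hq
      have qp : q ≠ p := by rintro rfl; exact (Nat.Prime.coprime_iff_not_dvd hq).1 g3.symm h4
      obtain ⟨R, hR⟩ := exists_isSylowIn q H
      have r1 := hR.trans le_top (by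
        rw [relIndex_top_right]; exact hH.2 q hq (hK q hq (h4.trans (K.orderOf_dvd_natCard g1))))
      have r2 := s2 R hR.le fun h => qp (isPGroup_iff_isPiNum.1 hR.isPGroup p hp h).symm
      have pq : ∀ {U V : Subgroup G}, IsPGroup p U → IsPGroup q V → V ≤ normalizer (U : Set G) →
          IsPiNum {p, q} (Nat.card (V ⊔ U : Subgroup G)) := fun h1 h2 h => isPiNum_sup h
        ((isPGroup_iff_isPiNum.1 h2).mono (by simp)) ((isPGroup_iff_isPiNum.1 h1).mono (by simp))
      have r3 := le_normalizer_of_le_centralizer (le_centralizer_iff.1 r2)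
      have n := isNilpotent_sup r3 (le_normalizer_of_le_centralizer r2) hR.isPGroup.isNilpotent hS.isPGroup.isNilpotent
      have xq : IsPGroup q (zpowers x) := IsPGroup.of_card ((Nat.card_zpowers x).trans h3)
      have xp := hP.isPGroup.to_le x1
      obtain ⟨y, -, h6⟩ := exists_conj_le_of_nilpotent_hall n ⟨le_top, pq hS.isPGroup hR.isPGroup r3, by
        rintro r hr (rfl | rfl) h
        exacts [(hS.not_dvd (h.trans (relIndex_dvd_of_le_left _ le_sup_right))),
          (r1.not_dvd (h.trans (relIndex_dvd_of_le_left _ le_sup_left)))]⟩ le_top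
        (pq xp xq (zpowers_le.2 (zpowers_le.2 g2 hx)))
      exact h5 (le_centralizer_of_coprime_of_nilpotent (isNilpotent_of_le (conj_smul_le_iff_le.1 h6)
        (by rw [conj_smul_eq_map]; exact isNilpotent_map _ n)) le_sup_left le_sup_right
        (IsPGroup.coprime_card_of_ne _ _ qp _ _ xq xp) (mem_zpowers x))
    have h2 := isPiHallOf_map_subtype.2 (hasNPC_iff_hall.1 h1)
    have h3 : K ≤ normalizer ((pPrimeCore p K).map K.subtype : Set G) := normal_map_subtype_iff.1 inferInstance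
    generalize (pPrimeCore p K).map K.subtype = Q at h2 h3
    have h4 : Q < K := lt_of_le_of_ne h2.1 fun e => h2.2.1 p hp (e ▸ hd) rfl
    obtain ⟨g, h5⟩ := ih _ h4 (IsPiNum.of_dvd hK (card_dvd_of_le h4.le))
    have h6 := le_normalizer_of_le_centralizer (s2 _ h5 (by rw [card_conj_smul]; exact fun h => h2.2.1 p hp h rfl))
    obtain ⟨x, hx, h7⟩ := (hS.of_le h6 le_top).exists_conj_le (isPGroup_conj_smul g hP.isPGroup) (by
      rw [normalizer_conj_smul]; exact conj_smul_mono g (hP.le.trans h3))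
    refine ⟨x * g, ?_⟩
    have h8 := (fac_of_coprime_relIndex hP.le h2.1 (Nat.coprime_of_dvd fun r hr h8 h9 => by
      by_cases e : r = p
      · exact hP.not_dvd (e ▸ h8)
      · exact h2.2.2 r hr e h9)).sup_eq
    rw [← h8, Subgroup.smul_sup, ← conj_smul_conj_smul, ← conj_smul_conj_smul, conj_smul_eq_self_iff.2 hx]
    exact sup_le (h7.trans s1) h5
  have mx : ∀ M, Maximal (IsPiSubgroup (σ ∪ τ)) M → ∃ g : G, M = MulAut.conj g • H := fun M h => by
    obtain ⟨g, k⟩ := key M h.1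
    exact ⟨g⁻¹, h.eq_of_le (piHall_smul hH _).1 (conj_smul_le_iff_le.1 k)⟩
  intro M N h1 h2
  obtain ⟨a, rfl⟩ := mx M h1
  obtain ⟨b, rfl⟩ := mx N h2
  exact ⟨b * a⁻¹, by rw [← conj_smul_eq_map, conj_smul_conj_smul, inv_mul_cancel_right]⟩

end Cfsg.Agent.S4334
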