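import Cfsg.Statements.S4337
import Cfsg.Agent.H2.Swaps
import Cfsg.Agent.H3.Galois

set_option autoImplicit false
open Cfsg

namespace Cfsg.Agent.S4337

/-- In a finite symmetric group, any three transpositions generate a solvable subgroup. -/
theorem result (n : ℕ) (a b c : Equiv.Perm (Fin n))
    (ha : a.IsSwap) (hb : b.IsSwap) (hc : c.IsSwap) :
    Group.IsSolvable (Subgroup.closure ({a, b, c} : Set (Equiv.Perm (Fin n)))) := by
  classical
  have h := fun q hq => H2S.prime_le ({a, b, c} : Finset (Equiv.Perm (Fin n))) (by
    intro t ht; simp at ht; rcases ht with rfl | rfl | rfl <;> assumption) (q := q) hq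
  have hc3 : ({a, b, c} : Finset (Equiv.Perm (Fin n))).card ≤ 3 := Finset.card_le_three
  simp only [Finset.coe_insert, Finset.coe_singleton] at h
  set N := Nat.card (Subgroup.closure ({a, b, c} : Set (Equiv.Perm (Fin n)))) with hN
  have hN0 : N ≠ 0 := Nat.card_pos.ne'
  refine H3.burnside_paqb (p := 2) (q := 3) (a := N.factorization 2) (b := N.factorization 3)
    Nat.prime_two Nat.prime_three ?_
  rw [← hN, ← Nat.factorization_prime_le_iff_dvd hN0 (by positivity)]
  intro p hp
  rw [Nat.factorization_mul (by positivity) (by positivity), Nat.factorization_pow, Nat.factorization_pow]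
  by_cases hd : p ∣ N
  · have h1 := h p hp hd
    have h2 := hp.two_le
    have h4 : p ≠ 4 := by rintro rfl; exact absurd hp (by norm_num)
    have : p = 2 ∨ p = 3 := by omega
    rcases this with rfl | rfl
    · simp [Nat.prime_two.factorization_self]
    · simp [Nat.prime_three.factorization_self]
  · rw [Nat.factorization_eq_zero_of_not_dvd hd]; exact Nat.zero_le _

end Cfsg.Agent.S4337
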