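import Cfsg.Statements.S4342
import Cfsg.Agent.H1.Misc3

set_option autoImplicit false
open Cfsg

namespace Cfsg.Agent.S4342

open H1

/-- Let H be a normal subgroup of a finite group G and p a prime not dividing the index of H. Then the number of Sylow p-subgroups of H/Z(H) equals the number of Sylow p-subgroups of G. -/
theorem result {G : Type*} [Group G] [Finite G]
    (p : ℕ) [Fact p.Prime] (H : Subgroup G) [H.Normal] (hp : ¬ p ∣ H.index) :
    Nat.card (Sylow p (H ⧸ Subgroup.center H)) = Nat.card (Sylow p G) := by
  obtain ⟨P, hP⟩ := exists_isSylowIn (p := p) H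
  have h1 : IsSylowIn p (P.subgroupOf H) ⊤ := by simpa using hP.subgroupOf le_rfl
  rw [h1.card_sylow_quotient, sup_eq_left.2 (Subgroup.center_le_normalizer _), ← h1.card_sylow,
    hP.card_sylow_rel, (hP.trans le_top (by simpa using hp)).card_sylow,
    ← hP.relIndex_normalizer_eq le_top Subgroup.le_normalizer_of_normal, Subgroup.relIndex_top_right]

end Cfsg.Agent.S4342
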