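import Cfsg.Statements.S4346
import Cfsg.Agent.H1.Syl22

set_option autoImplicit false
open Cfsg

namespace Cfsg.Agent.S4346

open H1

/-- No finite group has exactly 22 Sylow 3-subgroups. -/
theorem result {G : Type*} [Group G] [Finite G] : Nat.card (Sylow 3 G) ≠ 22 := by
  intro h
  haveI : Fact (Nat.Prime 3) := ⟨by norm_num⟩
  obtain ⟨l, h1, h2⟩ := sylow_list (p := 3) G
  rw [h] at h1
  have h3 : ∀ m ∈ l, m = 1 := fun m hm => by
    have h4 : m ∣ 22 := h1 ▸ List.dvd_prod hm
    have h5 := Nat.le_of_dvd (by norm_num) h4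
    have h6 : m % 3 = 1 ∧ m ≠ 22 := by
      rcases h2 m hm with ⟨e1, e2⟩ | ⟨S, _, _, _, rfl, -⟩
      · exact ⟨e2, by rintro rfl; revert e1; decide⟩
      · exact ⟨card_sylow_modEq_one 3 S, card_sylow_three⟩
    interval_cases m <;> omega
  rw [List.prod_eq_one h3] at h1
  omega

end Cfsg.Agent.S4346
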