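import Cfsg.Statements.S4354
import Cfsg.Agent.H1.CS

set_option autoImplicit false
open Cfsg

namespace Cfsg.Agent.S4354

open scoped Pointwise
open H1

/-- Let G be a finite group and p a prime such that the Sylow p-subgroups of G are non-abelian while every element of p-power order has conjugacy class size prime to p, and suppose no nontrivial proper normal subgroup N of G has this property and no quotient G/N by such an N has it. Then G is simple. -/
theorem result {G : Type*} [Group G] [Finite G]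
    (p : ℕ) [Fact p.Prime] (h : ((∃ P : Sylow p G, ¬ IsMulCommutative P) ∧ ∀ x : G, (∃ k : ℕ, orderOf x = p ^ k) → ¬ p ∣ (Subgroup.centralizer ({x} : Set G)).index))
    (hmin : ∀ (N : Subgroup G) [N.Normal], N ≠ ⊥ → N ≠ ⊤ →
      ¬ ((∃ P : Sylow p N, ¬ IsMulCommutative P) ∧ ∀ x : N, (∃ k : ℕ, orderOf x = p ^ k) → ¬ p ∣ (Subgroup.centralizer ({x} : Set N)).index) ∧
      ¬ ((∃ P : Sylow p (G ⧸ N), ¬ IsMulCommutative P) ∧ ∀ x : (G ⧸ N), (∃ k : ℕ, orderOf x = p ^ k) → ¬ p ∣ (Subgroup.centralizer ({x} : Set (G ⧸ N))).index)) :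
    IsSimpleGroup G := by
  obtain ⟨⟨P, hP⟩, h⟩ := h
  haveI : Nontrivial G := by
    by_contra hn
    rw [not_nontrivial_iff_subsingleton] at hn
    exact hP ⟨⟨fun a b => Subsingleton.elim _ _⟩⟩
  refine ⟨fun N hN => ?_⟩
  by_contra hne
  push Not at hne
  obtain ⟨h1, h2⟩ := hmin N hne.1 hne.2
  have a1 : IsMulCommutative ((P : Subgroup G) ⊓ N : Subgroup G) := by
    obtain ⟨Q, hQ⟩ := (sylow_inf_normal P N).exists_sylow
    by_contra hc
    refine h1 ⟨⟨Q, fun hq => hc ?_⟩, fun x hx hd => h x (by simpa using hx) (hd.trans (ci_normal_dvd N x))⟩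
    rw [← hQ]; infer_instance
  have a2 : IsMulCommutative ((P : Subgroup G).map (QuotientGroup.mk' N)) := by
    obtain ⟨Q, hQ⟩ := ((isSylowIn_top P).map_mk' N).exists_sylow_top
    by_contra hc
    refine h2 ⟨⟨Q, fun hq => hc (hQ ▸ hq)⟩, fun x hx hd => ?_⟩
    obtain ⟨g, rfl⟩ := QuotientGroup.mk_surjective x
    obtain ⟨y, -, hy, hk⟩ := exists_lift_p (QuotientGroup.mk' N) g hx
    simp only [QuotientGroup.mk'_apply] at hy
    rw [← hy] at hd
    exact h y hk (hd.trans (index_centralizer_mk_dvd N y))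
  have key : ∀ x ∈ (P : Subgroup G), ∃ w ∈ Subgroup.centralizer ((P : Subgroup G) : Set G),
      ∃ a ∈ (P : Subgroup G) ⊓ N, x = w * a := by
    intro x hx
    have hxo := exists_orderOf_eq_pow P.isPGroup' hx
    obtain ⟨Q, hQ⟩ := exists_sylow_le_of_not_dvd (h x hxo)
    set K := (Subgroup.centralizer {QuotientGroup.mk' N x}).comap (QuotientGroup.mk' N) with hK
    have hQK : (Q : Subgroup G) ≤ K := hQ.trans (centralizer_le_comap _ x)
    have hPK : (P : Subgroup G) ≤ K := fun y hy =>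
      Subgroup.mem_centralizer_singleton_iff.2 (comm_of_mem a2 (Subgroup.mem_map_of_mem _ hy)
        (Subgroup.mem_map_of_mem _ hx))
    obtain ⟨c, hc, e⟩ := ((isSylowIn_top Q).of_le hQK le_top).conj ((isSylowIn_top P).of_le hPK le_top)
    have hw : c * x * c⁻¹ ∈ Subgroup.centralizer ((P : Subgroup G) : Set G) := by
      intro y hy
      have hy' : y ∈ MulAut.conj c • (Q : Subgroup G) := e ▸ hy
      have := Subgroup.mem_centralizer_singleton_iff.1 (hQ (mem_conj_smul.1 hy'))
      calc y * (c * x * c⁻¹) = c * (c⁻¹ * y * c * x) * c⁻¹ := by group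
        _ = _ := by rw [this]; group
    have hwP : c * x * c⁻¹ ∈ (P : Subgroup G) :=
      (isSylowIn_top P).mem_of_mem_normalizer (Subgroup.mem_top _) (by rwa [orderOf_conj])
        (Subgroup.centralizer_le_normalizer _ hw)
    refine ⟨_, hw, (c * x * c⁻¹)⁻¹ * x, ⟨Subgroup.mul_mem _ (Subgroup.inv_mem _ hwP) hx, ?_⟩, by group⟩
    have := Subgroup.mem_centralizer_singleton_iff.1 hc
    refine (QuotientGroup.eq (s := N)).1 ?_
    rw [← QuotientGroup.mk'_apply, ← QuotientGroup.mk'_apply, map_mul, map_mul, this,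
      map_inv, mul_inv_cancel_right]
  refine hP (isMulCommutative_of_comm fun x hx y hy => ?_)
  obtain ⟨w, hw, a, ha, rfl⟩ := key x hx
  obtain ⟨w', hw', b, hb, e⟩ := key y hy
  have e1 : y * w = w * y := hw y hy
  have e2 : a * w' = w' * a := hw' a ha.1
  have e3 := comm_of_mem a1 ha hb
  have e4 : a * y = y * a := by rw [e, ← mul_assoc, e2, mul_assoc, e3, mul_assoc]
  rw [mul_assoc, e4, ← mul_assoc, ← e1, mul_assoc]

end Cfsg.Agent.S4354
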