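import Cfsg.Statements.S4370
import Cfsg.Agent.H9.SPE
import Cfsg.Agent.H1.Amb

set_option autoImplicit false
open Cfsg

namespace Cfsg.Agent.S4370

open Subgroup H9 QuaternionGroup

theorem cq {n : ℕ} [NeZero n] (u : QuaternionGroup n) (hu : u ∉ center _) : IsCyclic (centralizer {u}) := by
  have k : ∀ j : ZMod (2 * n), -j = j → j = 0 ∨ j = n := fun j h => ((ZMod.neg_eq_self_iff j).1 h).imp_right fun e => by
    rw [← ZMod.natCast_zmod_val j, show j.val = n by omega]
  rcases u with i | i
  · refine isCyclic_of_le (H' := zpowers (a 1)) ?_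
    rintro (j | j) h
    · exact mem_zpowers_iff.2 ⟨j.val, by rw [zpow_natCast, a_one_pow, ZMod.natCast_zmod_val]⟩
    have h1 : i = -i := by simpa [sub_eq_add_neg] using mem_centralizer_singleton_iff.1 h
    refine (hu (mem_center_iff.2 ?_)).elim
    rintro (l | l)
    · simp [add_comm]
    · rw [xa_mul_a, a_mul_xa, sub_eq_add_neg, ← h1]
  refine isCyclic_of_le (H' := zpowers (xa i)) ?_
  have h2 : a n ∈ zpowers (xa i) := xa_sq i ▸ pow_mem (mem_zpowers _) 2
  rintro (j | j) h
  · rcases k j (by simpa [sub_eq_add_neg] using mem_centralizer_singleton_iff.1 h) with rfl | rfl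
    · exact one_mem _
    · exact h2
  have h3 := mem_centralizer_singleton_iff.1 h
  rw [xa_mul_xa, xa_mul_xa, a.injEq] at h3
  rcases k (j - i) (by linear_combination h3) with e | e
  · rw [sub_eq_zero.1 e]; exact mem_zpowers _
  · rw [sub_eq_iff_eq_add'.1 e, ← xa_mul_a]; exact mul_mem (mem_zpowers _) h2

/-- Let G be a finite non-abelian nilpotent group. Then the centralizer of every non-central element of G is cyclic if and only if G is isomorphic to the direct product of a generalized quaternion group and a cyclic group of odd order. -/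
theorem result {G : Type*} [Group G] [Finite G] (hG : Group.IsNilpotent G)
    (hna : ¬ IsMulCommutative G) :
    (∀ x : G, x ∉ Subgroup.center G → IsCyclic (Subgroup.centralizer ({x} : Set G))) ↔
      ∃ (k m : ℕ), 1 ≤ k ∧ Odd m ∧ Nonempty (G ≃* QuaternionGroup (2 ^ k) × Multiplicative (ZMod m)) := by
  haveI : Fact (Nat.Prime 2) := ⟨Nat.prime_two⟩
  refine ⟨fun h => ?_, fun ⟨k, m, hk, hm, ⟨e⟩⟩ x hx => ?_⟩
  · have h1 : ∀ A : Subgroup G, IsMulCommutative A → IsCyclic A := fun A hA => by
      by_cases k : A ≤ center G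
      · obtain ⟨x, hx⟩ : ∃ x, x ∉ center G := by
          by_contra! k
          exact hna ⟨⟨fun a b => mem_center_iff.1 (k b) a⟩⟩
        haveI := h x hx
        exact isCyclic_of_le (k.trans (center_le_centralizer {x}))
      obtain ⟨x, h1, hx⟩ := SetLike.not_le_iff_exists.1 k
      haveI := h x hx
      exact isCyclic_of_le (le_centralizer_singleton_iff.2 (L.le_centralizer_of_comm hA h1))
    have h2 : ∀ (p : ℕ) [Fact p.Prime] (X : Subgroup G), FT.rk p X ≤ 1 := fun p _ X => by_contra fun k => by
      obtain ⟨A, hA⟩ := FT.le_rk_iff.1 (show 2 ≤ FT.rk p X by omega)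
      exact hA.not_cyclic (h1 A hA.comm)
    haveI : IsZGroup (Op' 2 (⊤ : Subgroup G)) := ⟨fun p hp P => by
      haveI := Fact.mk hp
      have k := syl_of_sylow P
      by_cases e : p = 2
      · subst e
        haveI := (Nat.card_eq_one_iff_unique.1 ((card_map_subtype _).symm.trans
          (card_eq_one.2 (k.eq_bot_iff.2 (Op'_cop 2 ⊤))))).1
        infer_instance
      haveI := FT.isCyclic_of_rk_le_one k.isP (.inl e) (h2 p _)
      exact isCyclic_of_surjective _ (equivMapOfInjective _ _ (subtype_injective _)).symm.surjective⟩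
    have h3 : IsCyclic (Op' 2 (⊤ : Subgroup G)) := inferInstance
    have h4 := commutator_eq_bot_iff_le_centralizer.1 (commutator_Op_Op' (p := 2) (⊤ : Subgroup G))
    have h5 := nilpotent_eq_Op_sup_Op' (p := 2) (inferInstance : Group.IsNilpotent (⊤ : Subgroup G))
    have h6 : ¬ IsCyclic (Op 2 (⊤ : Subgroup G)) := fun k => by
      have := H1.isMulCommutative_sup k.isMulCommutative h3.isMulCommutative h4
      rw [h5] at this
      exact hna ⟨⟨fun a b => H1.comm_of_mem this (mem_top a) (mem_top b)⟩⟩
    obtain ⟨-, n, ⟨e⟩⟩ := (cyclic_or_quat (Op_p 2 ⊤) (h2 2 _)).resolve_left h6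
    obtain ⟨f⟩ := H1.sup_equiv_prod h4 (inf_eq_bot_of_p_p' (Op_p 2 ⊤) (Op'_cop 2 ⊤))
    refine ⟨n, _, Nat.pos_of_ne_zero ?_, Nat.coprime_two_right.1 (Op'_cop 2 (⊤ : Subgroup G)), ⟨topEquiv.symm.trans
      ((MulEquiv.subgroupCongr h5.symm).trans (f.trans (e.prodCongr (zmodCyclicMulEquiv h3).symm)))⟩⟩
    rintro rfl
    haveI : IsCyclic (QuaternionGroup (2 ^ 0)) := quaternionGroup_one_isCyclic
    exact h6 (isCyclic_of_injective e.toMonoidHom e.injective)
  have h1 : (e x).1 ∉ center _ := fun k => hx (mem_center_iff.2 fun y => e.injective (by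
    rw [map_mul, map_mul]; exact Prod.ext (mem_center_iff.1 k _) (mul_comm _ _)))
  haveI : IsCyclic (centralizer {(e x).1} × Multiplicative (ZMod m)) := Group.isCyclic_prod_iff.2 ⟨cq _ h1, inferInstance, by
    refine Nat.Coprime.coprime_dvd_left (card_subgroup_dvd_card _) ?_
    rw [Nat.card_eq_fintype_card, QuaternionGroup.card, Nat.card_congr Multiplicative.toAdd, Nat.card_zmod,
      show 4 * 2 ^ k = 2 ^ (k + 2) by ring]
    exact (Nat.coprime_two_left.2 hm).pow_left _⟩
  refine isCyclic_of_injective ((((MonoidHom.fst _ _).comp (e.toMonoidHom.comp (centralizer {x}).subtype)).codRestrict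
    (centralizer {(e x).1}) fun y => mem_centralizer_singleton_iff.2 ?_).prod
    ((MonoidHom.snd _ _).comp (e.toMonoidHom.comp (centralizer {x}).subtype))) fun y z k => Subtype.ext (e.injective ?_)
  · have := congrArg (fun t => (e t).1) (mem_centralizer_singleton_iff.1 y.2)
    simpa using this
  · exact Prod.ext (congrArg Subtype.val (Prod.ext_iff.1 k).1) (Prod.ext_iff.1 k).2

end Cfsg.Agent.S4370
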