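import Cfsg.Statements.S4376
import Cfsg.Agent.H8.OT2
-- import your own Cfsg.Agent.* helpers here

set_option autoImplicit false
set_option maxRecDepth 200000
open Cfsg

namespace Cfsg.Agent.S4376

open H8 H8.OT in
set_option maxRecDepth 100000 in
theorem chk : ∀ e < 169, (g1O.countP fun a => Nat.beq (e % a) 0) * ((g2O.countP fun a => Nat.beq (e % a) 0) * (g3O.countP fun a => Nat.beq (e % a) 0)) =
    (h1O.countP fun a => Nat.beq (e % a) 0) * ((h2O.countP fun a => Nat.beq (e % a) 0) * ((h3O.countP fun a => Nat.beq (e % a) 0) *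
    (h4O.countP fun a => Nat.beq (e % a) 0))) := by decide +kernel

/-- There are finite groups G and H having the same number of elements of each order (the same order type) with G solvable and H not solvable. -/
theorem result :
    ∃ (G : Type) (_ : Group G) (_ : Finite G) (H : Type) (_ : Group H) (_ : Finite H),
      Group.IsSolvable G ∧ ¬ Group.IsSolvable H ∧ ∀ n : ℕ, Nat.card {g : G // orderOf g = n} = Nat.card {h : H // orderOf h = n} := by
  obtain ⟨G1, o1, s1⟩ := H8.OT.g1x
  obtain ⟨G2, o2, s2⟩ := H8.OT.g2x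
  obtain ⟨G3, o3, s3⟩ := H8.OT.g3x
  obtain ⟨H1, p1, -⟩ := H8.OT.h1x
  obtain ⟨H2, p2, -⟩ := H8.OT.h2x
  obtain ⟨H3, p3, -⟩ := H8.OT.h3x
  obtain ⟨H4, p4, t⟩ := H8.OT.h4x
  refine ⟨G1 × G2 × G3, inferInstance, inferInstance, H1 × H2 × H3 × H4, inferInstance, inferInstance, inferInstance, fun h => t ?_,
    H8.ot_of_et fun d => ?_⟩
  · exact Group.isSolvable_of_surjective (f := (MonoidHom.snd _ _).comp ((MonoidHom.snd _ _).comp (MonoidHom.snd H1 (H2 × H3 × H4))))
      fun x => ⟨(1, 1, 1, x), rfl⟩
  simp only [H8.ET_prod]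
  rw [o1.et (e := 168) (by decide +kernel), o2.et (e := 168) (by decide +kernel), o3.et (e := 168) (by decide +kernel),
    p1.et (e := 168) (by decide +kernel), p2.et (e := 168) (by decide +kernel), p3.et (e := 168) (by decide +kernel), p4.et (e := 168) (by decide +kernel)]
  exact chk _ (Nat.lt_succ_of_le (Nat.gcd_le_right _ (by norm_num)))

end Cfsg.Agent.S4376
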