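import Cfsg.Statements.S4377
import Cfsg.Agent.H1.Misc2
import Cfsg.Agent.S3997

set_option autoImplicit false
open Cfsg

namespace Cfsg.Agent.S4377

theorem cnt {G : Type*} [Group G] [Finite G] {n : ℕ} (hn : n ≠ 0) :
    ∑ m ∈ n.divisors, Nat.card {g : G // orderOf g = m} = Nat.card {g : G // g ^ n = 1} := by
  classical
  haveI := Fintype.ofFinite G
  simp only [Nat.card_eq_fintype_card, Fintype.card_subtype]
  exact sum_card_orderOf_eq_card_pow_eq_one hn

/-- Two finite groups have the same number of elements of each order if and only if, for every n, they have the same number of elements g with gⁿ = 1. -/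
theorem result {G H : Type*} [Group G] [Finite G] [Group H] [Finite H] :
    (∀ n : ℕ, Nat.card {g : G // orderOf g = n} = Nat.card {h : H // orderOf h = n}) ↔
      ∀ n : ℕ, Nat.card {g : G // g ^ n = 1} = Nat.card {h : H // h ^ n = 1} := by
  constructor
  · intro h n
    obtain ⟨e, he⟩ := Cfsg.Agent.S3997.card_eq h
    refine Nat.card_congr (e.subtypeEquiv fun g => ?_)
    rw [← orderOf_dvd_iff_pow_eq_one, ← orderOf_dvd_iff_pow_eq_one, he]
  · intro h n
    induction n using Nat.strong_induction_on with
    | _ n ih =>
    rcases Nat.eq_zero_or_pos n with rfl | hn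
    · haveI : IsEmpty {g : G // orderOf g = 0} := ⟨fun g => (orderOf_pos g.1).ne' g.2⟩
      haveI : IsEmpty {g : H // orderOf g = 0} := ⟨fun g => (orderOf_pos g.1).ne' g.2⟩
      rw [Nat.card_of_isEmpty, Nat.card_of_isEmpty]
    · have := h n
      rw [← cnt hn.ne', ← cnt hn.ne', ← Nat.insert_self_properDivisors hn.ne',
        Finset.sum_insert Nat.self_notMem_properDivisors, Finset.sum_insert Nat.self_notMem_properDivisors,
        Finset.sum_congr rfl fun m hm => ih m (Nat.mem_properDivisors.1 hm).2] at this
      exact Nat.add_right_cancel this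

end Cfsg.Agent.S4377
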