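import Cfsg.Statements.S4381
import Cfsg.Agent.H9.Cop
import Cfsg.Agent.H1.Section
import Cfsg.Agent.H1.Frattini
import Cfsg.Agent.FT.B4b

set_option autoImplicit false
open Pointwise
open Cfsg

namespace Cfsg.Agent.S4381

open Subgroup H9

/-- Let the finite group A act by automorphisms on the finite group G with the orders of A and G coprime, and assume that A or G is solvable. Call a proper A-invariant subgroup of G maximal A-invariant when no A-invariant subgroup lies strictly between it and G. Then all maximal A-invariant subgroups of G are conjugate under elements of the fixed-point subgroup C_G(A) if and only if G is a p-group for some prime p and A leaves invariant no subgroup strictly between the Frattini subgroup of G and G. In that case, if G is nontrivial, the Frattini subgroup is the only maximal A-invariant subgroup (a trivial G has none). -/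
theorem result {A G : Type*} [Group A] [Finite A]
    [Group G] [Finite G] [MulDistribMulAction A G] (hcop : (Nat.card A).Coprime (Nat.card G)) (hsol : Group.IsSolvable A ∨ Group.IsSolvable G) :
    ((∀ M N : Subgroup G, (M ≠ ⊤ ∧ (∀ a : A, ∀ x ∈ M, a • x ∈ M) ∧ ∀ L : Subgroup G, M < L → (∀ a : A, ∀ x ∈ L, a • x ∈ L) → L = ⊤) → (N ≠ ⊤ ∧ (∀ a : A, ∀ x ∈ N, a • x ∈ N) ∧ ∀ L : Subgroup G, N < L → (∀ a : A, ∀ x ∈ L, a • x ∈ L) → L = ⊤) →
        ∃ c : G, (∀ a : A, a • c = c) ∧ N = MulAut.conj c • M) ↔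
      ((∃ p : ℕ, p.Prime ∧ IsPGroup p G) ∧ ∀ L : Subgroup G, frattini G < L → (∀ a : A, ∀ x ∈ L, a • x ∈ L) → L = ⊤)) ∧
    (((∃ p : ℕ, p.Prime ∧ IsPGroup p G) ∧ ∀ L : Subgroup G, frattini G < L → (∀ a : A, ∀ x ∈ L, a • x ∈ L) → L = ⊤) →
      ∀ M : Subgroup G, (M ≠ ⊤ ∧ (∀ a : A, ∀ x ∈ M, a • x ∈ M) ∧ ∀ L : Subgroup G, M < L → (∀ a : A, ∀ x ∈ L, a • x ∈ L) → L = ⊤) ↔ (M = frattini G ∧ M ≠ ⊤)) := by
  obtain ⟨Γ, _, _, i, j, hi, hj, hij, -, hs, hn⟩ := H1.exists_ambient (MulDistribMulAction.toMulAut A G)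
  have hΦ : ∀ a : A, ∀ x ∈ frattini G, a • x ∈ frattini G := fun a x hx =>
    characteristic_iff_le_comap.1 inferInstance (MulDistribMulAction.toMulAut A G a) hx
  have mx : ∀ H : Subgroup G, H ≠ ⊤ → (∀ a : A, ∀ x ∈ H, a • x ∈ H) → ∃ M, H ≤ M ∧ M ≠ ⊤ ∧ (∀ a : A, ∀ x ∈ M, a • x ∈ M) ∧
      ∀ L : Subgroup G, M < L → (∀ a : A, ∀ x ∈ L, a • x ∈ L) → L = ⊤ := fun H h1 h2 => by
    obtain ⟨M, h3, h4⟩ := Finite.exists_le_maximal (p := fun M : Subgroup G => M ≠ ⊤ ∧ ∀ a : A, ∀ x ∈ M, a • x ∈ M) ⟨h1, h2⟩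
    exact ⟨M, h3, h4.1.1, h4.1.2, fun K hK hK' => by_contra fun e => hK.not_ge (h4.2 ⟨e, hK'⟩ hK.le)⟩
  have fr : ∀ M : Subgroup G, (M ≠ ⊤ ∧ (∀ a : A, ∀ x ∈ M, a • x ∈ M) ∧
      ∀ L : Subgroup G, M < L → (∀ a : A, ∀ x ∈ L, a • x ∈ L) → L = ⊤) → frattini G ≤ M := fun M h => by_contra fun k =>
    h.1 (frattini_nongenerating (h.2.2 _ (left_lt_sup.2 k) fun a x hx => by
      obtain ⟨y, hy, z, hz, rfl⟩ := mem_sup_of_normal_right.1 hx
      rw [smul_mul']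
      exact mul_mem_sup (h.2.1 a y hy) (hΦ a z hz)))
  have h0 : (∀ L : Subgroup G, frattini G < L → (∀ a : A, ∀ x ∈ L, a • x ∈ L) → L = ⊤) → ∀ M : Subgroup G,
      (M ≠ ⊤ ∧ (∀ a : A, ∀ x ∈ M, a • x ∈ M) ∧ ∀ L : Subgroup G, M < L → (∀ a : A, ∀ x ∈ L, a • x ∈ L) → L = ⊤) ↔
      (M = frattini G ∧ M ≠ ⊤) := fun h M =>
    ⟨fun k => ⟨((fr M k).eq_or_lt.resolve_right fun e => k.1 (h M e k.2.1)).symm, k.1⟩, fun k => ⟨k.2, k.1 ▸ hΦ, k.1 ▸ h⟩⟩
  refine ⟨⟨fun h => ?_, fun h M N hM hN => ⟨1, fun a => smul_one a, ?_⟩⟩, fun h => h0 h.2⟩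
  swap
  · rw [((h0 h.2 M).1 hM).1, ((h0 h.2 N).1 hN).1, map_one, one_smul]
  have h1 : ∃ p : ℕ, p.Prime ∧ IsPGroup p G := by
    by_contra! k
    have k2 : ∀ (q : ℕ) [Fact q.Prime], ∃ P, Syl q P ⊤ ∧ ∃ M, P ≤ M ∧ M ≠ ⊤ ∧ (∀ a : A, ∀ x ∈ M, a • x ∈ M) ∧
        ∀ L : Subgroup G, M < L → (∀ a : A, ∀ x ∈ L, a • x ∈ L) → L = ⊤ := fun q _ => by
      obtain ⟨P, hP, e⟩ := cop_exists_syl (A := j.range) (K := i.range) le_normalizer_of_normal
        ⟨by rwa [H1.card_range_of_injective hi, H1.card_range_of_injective hj], hsol.imp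
          (H1.isSolvable_of_equiv (MonoidHom.ofInjective hj)) (H1.isSolvable_of_equiv (MonoidHom.ofInjective hi))⟩ q
      rw [MonoidHom.range_eq_map] at hP
      obtain ⟨P, hP', rfl⟩ := hP.exists_of_map i
      exact ⟨P, hP', mx P (fun e => k q Fact.out ((e ▸ hP'.isP : IsPGroup q (⊤ : Subgroup G)).of_equiv topEquiv))
        ((H1.range_le_normalizer_map_iff hi hij).1 e)⟩
    haveI : Fact (Nat.Prime 2) := ⟨Nat.prime_two⟩
    obtain ⟨-, -, M, -, hM⟩ := k2 2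
    refine hM.1 (eq_top_iff.2 (le_of_forall_syl fun q _ => ?_))
    obtain ⟨P, hP, N, h1, hN⟩ := k2 q
    obtain ⟨c, -, e⟩ := h N M hN hM
    exact ⟨_, hP.cj_of_mem (mem_normalizer_iff_cj.2 (cj_top c)), (cj_mono c h1).trans e.ge⟩
  refine ⟨h1, fun L h2 h3 => by_contra fun h4 => ?_⟩
  obtain ⟨p, hp, hG⟩ := h1
  haveI := Fact.mk hp
  haveI := hG.isNilpotent
  haveI : ((frattini G).map i).Normal := normal_of_top_le (hs.ge.trans (sup_le
    ((H1.range_le_normalizer_map_iff hi hij).2 hΦ) ((MonoidHom.range_eq_map i).le.trans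
    ((map_mono (top_le_normalizer _)).trans (le_normalizer_map i)))))
  obtain ⟨f, hf⟩ : ∃ f : Γ →* Γ ⧸ (frattini G).map i, ∀ x, f (i x) = 1 ↔ x ∈ frattini G :=
    ⟨QuotientGroup.mk' _, fun x => (QuotientGroup.eq_one_iff _).trans (mem_map_iff_mem hi)⟩
  have h5 : ∀ X : Subgroup G, (∀ a : A, ∀ x ∈ X, a • x ∈ X) → j.range.map f ≤ normalizer (((X.map i).map f : Subgroup _) : Set _) :=
    fun X k => (map_mono ((H1.range_le_normalizer_map_iff hi hij).2 k)).trans (le_normalizer_map f)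
  obtain ⟨U, hU, h6⟩ := FT.maschke (p := p) (V := ((⊤ : Subgroup G).map i).map f) ⟨comm_iff_commutator.2 (by
      rw [← map_commutator, ← map_commutator, eq_bot_iff]
      rintro _ ⟨_, ⟨x, hx, rfl⟩, rfl⟩
      exact (hf x).2 (H1.commutator_le_frattini hx)), by
      rintro _ ⟨_, ⟨x, -, rfl⟩, rfl⟩
      rw [← map_pow, ← map_pow]
      exact (hf _).2 (H1.pow_mem_frattini hG x)⟩
    (map_mono (map_mono le_top)) (h5 ⊤ fun _ _ _ => trivial) (h5 L h3) (Nat.Coprime.coprime_dvd_left (card_map_dvd _ f) (by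
      rw [H1.card_range_of_injective hj]
      refine hcop.coprime_dvd_right (hG.card_eq_or_dvd.resolve_left fun e => h4 ?_)
      haveI := (Nat.card_eq_one_iff_unique.1 e).1
      exact Subsingleton.elim _ _))
  obtain ⟨M, a, hM⟩ := mx L h4 h3
  obtain ⟨N, b, hN⟩ := mx ((U.comap f).comap i) (fun e => h2.not_ge fun x hx => (hf x).1 (mem_bot.1 (hU.inf.le
    ⟨mem_map_of_mem f (mem_map_of_mem i hx), e.ge (mem_top x)⟩))) fun a x hx => by
      have := conj_mem_of_le_normalizer h6 (mem_map_of_mem f ⟨a, rfl⟩) hx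
      rwa [← map_inv, ← map_mul, ← map_mul, hij] at this
  obtain ⟨c, -, e⟩ := h M N hM hN
  haveI : M.Normal := Normal.of_commutator_le (h := H1.commutator_le_frattini.trans (fr M hM))
  refine hM.1 (eq_top_iff.2 fun x _ => ?_)
  obtain ⟨_, ⟨_, ⟨y, hy, rfl⟩, rfl⟩, u, hu, e2⟩ := (mem_sup_of_le_normalizer' hU.norm).1
    (hU.sup.ge (mem_map_of_mem f (mem_map_of_mem i (mem_top x))))
  refine (mul_mem_cancel_left (inv_mem (a hy))).1 ((e.trans (cj_eq_of_normal c M)).le (b ?_))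
  rwa [mem_comap, mem_comap, map_mul, map_mul, ← e2, map_inv, map_inv, inv_mul_cancel_left]

end Cfsg.Agent.S4381
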