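import Cfsg.Statements.S4387
import Cfsg.Agent.H1.Misc3

set_option autoImplicit false
open Pointwise
open Cfsg

namespace Cfsg.Agent.S4387

open H1

/-- Let G be a non-trivial finite group in which any two maximal subgroups are conjugate. Then G is cyclic of prime-power order. -/
theorem result {G : Type*} [Group G] [Finite G] [Nontrivial G]
    (h : ∀ M N : Subgroup G, IsCoatom M → IsCoatom N → ∃ g : G, N = MulAut.conj g • M) :
    IsCyclic G ∧ IsPrimePow (Nat.card G) := by
  obtain ⟨M, hM, -⟩ := (IsCoatomic.eq_top_or_exists_le_coatom (⊥ : Subgroup G)).resolve_left bot_ne_top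
  -- an element outside all conjugates of `M`
  obtain ⟨x, hx⟩ : ∃ x : G, ∀ g : G, x ∉ MulAut.conj g • M := by
    obtain ⟨x, hx⟩ := exists_notMem_conj hM.1
    exact ⟨x, fun g hg => hx g⁻¹ (by rw [inv_inv]; exact mem_conj_smul.1 hg)⟩
  have h1 : Subgroup.zpowers x = ⊤ := by
    by_contra h1
    obtain ⟨N, hN, h2⟩ := (IsCoatomic.eq_top_or_exists_le_coatom (Subgroup.zpowers x)).resolve_left h1
    obtain ⟨g, rfl⟩ := h M N hM hN
    exact hx g (h2 (Subgroup.mem_zpowers x))
  have hc : IsCyclic G := isCyclic_iff_exists_zpowers_eq_top.2 ⟨x, h1⟩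
  refine ⟨hc, ?_⟩
  have h2 : Nat.card G ≠ 1 := Finite.one_lt_card.ne'
  have key : ∀ q : ℕ, q.Prime → q ∣ Nat.card G → q = M.index := by
    intro q hq hd
    have hi : (Subgroup.zpowers (x ^ q)).index = q := by
      have e := Subgroup.card_mul_index (Subgroup.zpowers (x ^ q))
      have e2 : orderOf x = Nat.card G := by rw [← Nat.card_zpowers, h1, Subgroup.card_top]
      rw [Nat.card_zpowers, orderOf_pow_of_dvd hq.ne_zero (e2 ▸ hd), e2] at e
      obtain ⟨c, hc⟩ := hd
      have hc0 : 0 < c := Nat.pos_of_ne_zero (by rintro rfl; exact Nat.card_pos.ne' hc)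
      rw [hc, Nat.mul_div_cancel_left _ hq.pos, mul_comm q] at e
      exact Nat.eq_of_mul_eq_mul_left hc0 e
    obtain ⟨g, hg⟩ := h M _ hM (isCoatom_of_index_prime (hi.symm ▸ hq))
    rw [← hi, hg, index_conj_smul]
  rw [isPrimePow_iff_unique_prime_dvd]
  exact ⟨(Nat.card G).minFac, ⟨Nat.minFac_prime h2, Nat.minFac_dvd _⟩, fun q hq =>
    (key q hq.1 hq.2).trans (key _ (Nat.minFac_prime h2) (Nat.minFac_dvd _)).symm⟩

end Cfsg.Agent.S4387
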