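import Cfsg.Statements.S4397
import Cfsg.Agent.H1.Invol

set_option autoImplicit false
open Cfsg

namespace Cfsg.Agent.S4397

open Subgroup H1
open scoped commutatorElement

universe u

/-- no elementary abelian subgroup of order eight in a quotient -/
def Hy (G : Type u) [Group G] : Prop := ∀ (Q : Type u) [Group Q] (f : G →* Q), Function.Surjective f → ∀ u v w : Q,
  Commute u v → Commute u w → Commute v w → u * u = 1 → v * v = 1 → w * w = 1 →
    u = 1 ∨ v = 1 ∨ w = 1 ∨ u = v ∨ w = u ∨ w = v ∨ w = u * v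

theorem hy_of {G : Type u} [Group G] [Finite G] (h : SectionalPRankLE 2 2 G) : Hy G := fun Q _ f hf u v w c1 c2 c3 a1 a2 a3 => by
  classical
  by_contra! k
  obtain ⟨k1, k2, k3, k4, k5, k6, k7⟩ := k
  have e := QuotientGroup.quotientKerEquivOfSurjective (f.comp (⊤ : Subgroup G).subtype) (hf.comp fun g => ⟨⟨g, trivial⟩, rfl⟩)
  haveI := Finite.of_surjective f hf
  have cm : IsMulCommutative (closure {u, v, w} : Subgroup Q) := Subgroup.isMulCommutative_closure (by
    rintro x (rfl | rfl | rfl) y (rfl | rfl | rfl) <;> first | rfl | assumption | exact c1.symm | exact c2.symm | exact c3.symm)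
  have ex : ∀ x ∈ (closure {u, v, w} : Subgroup Q), x ^ 2 = 1 := fun x hx => by
    induction hx using closure_induction with
    | mem x hx => rcases hx with rfl | rfl | rfl <;> rwa [sq]
    | one => simp
    | mul x y hx hy i j => rw [(show Commute x y from congrArg Subtype.val (cm.1.1 ⟨x, hx⟩ ⟨y, hy⟩)).mul_pow, i, j, one_mul]
    | inv x _ i => rw [inv_pow, i, inv_one]
  have := h ⊤ _ ((closure {u, v, w}).map e.symm.toMonoidHom) inferInstance (by
    rintro _ ⟨x, hx, rfl⟩; rw [← map_pow, ex x hx, map_one])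
  rw [card_map_of_injective e.symm.injective] at this
  have m : ∀ x ∈ ({u, v, w} : Set Q), x ∈ (closure {u, v, w} : Subgroup Q) := subset_closure
  have s : ({1, u, v, u * v, w} : Set Q) ⊆ (closure {u, v, w} : Subgroup Q) := by
    rintro x (rfl | rfl | rfl | rfl | rfl)
    exacts [one_mem _, m _ (by simp), m _ (by simp), mul_mem (m _ (by simp)) (m _ (by simp)), m _ (by simp)]
  have t := Set.ncard_le_ncard s
  have k8 : 1 ≠ u * v := fun i => k4 (mul_right_cancel (i.symm.trans a2.symm))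
  rw [Set.ncard_insert_of_notMem (by simp [k1.symm, k2.symm, k3.symm, k8]), Set.ncard_insert_of_notMem (by simp [k4, k2, k5.symm]),
    Set.ncard_insert_of_notMem (by simp [k1, k6.symm]), Set.ncard_pair k7.symm] at t
  exact absurd (t.trans this) (by norm_num)

/-- metacyclic -/
def Me (G : Type u) [Group G] : Prop := ∃ a b : G, (zpowers a).Normal ∧ zpowers a ⊔ zpowers b = ⊤

theorem gen_comm {Q : Type u} [Group Q] {x y w : Q} (h : zpowers x ⊔ zpowers y ⊔ zpowers w = ⊤) (c1 : Commute x y) (c2 : Commute x w)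
    (c3 : Commute y w) (a b : Q) : Commute a b := by
  have k : ∀ g, Commute x g → Commute y g → Commute w g → ∀ a, Commute a g := fun g i j l a =>
    mem_centralizer_singleton_iff.1 ((h.ge.trans (sup_le (sup_le (zpowers_le.2 (mem_centralizer_singleton_iff.2 i))
      (zpowers_le.2 (mem_centralizer_singleton_iff.2 j))) (zpowers_le.2 (mem_centralizer_singleton_iff.2 l)))) (mem_top a))
  exact k b (k x rfl c1.symm c2.symm b).symm (k y c1 rfl c3.symm b).symm (k w c2 c3 rfl b).symm a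

theorem stepA {G : Type u} [Group G] [Finite G] {z : G} (hz : ∀ g, Commute g z) (z2 : z * z = 1) [(zpowers z).Normal]
    (h : Me (G ⧸ zpowers z)) : ∃ a b c : G, (zpowers a ⊔ zpowers z).Normal ∧ zpowers a ⊔ zpowers b ⊔ zpowers z = ⊤ ∧
      commutator G = zpowers c ∧ c ^ 2 ∈ zpowers a := by
  obtain ⟨a, b, h1, h2⟩ := h
  obtain ⟨a, rfl⟩ := QuotientGroup.mk'_surjective _ a
  obtain ⟨b, rfl⟩ := QuotientGroup.mk'_surjective _ b
  have n : (zpowers a ⊔ zpowers z).Normal := by
    have := h1.comap (QuotientGroup.mk' (zpowers z))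
    rwa [← MonoidHom.map_zpowers, comap_map_eq, QuotientGroup.ker_mk'] at this
  have t : zpowers a ⊔ zpowers b ⊔ zpowers z = ⊤ := by
    have := congrArg (comap (QuotientGroup.mk' (zpowers z))) h2
    rwa [← MonoidHom.map_zpowers, ← MonoidHom.map_zpowers, ← Subgroup.map_sup, comap_map_eq, QuotientGroup.ker_mk', comap_top] at this
  obtain ⟨_, ⟨s, rfl⟩, _, ⟨e, rfl⟩, hc⟩ := mem_sup_of_normal_right.1
    (mul_mem (n.conj_mem a (mem_sup_left (mem_zpowers a)) b) (inv_mem (mem_sup_left (mem_zpowers a))))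
  dsimp only at hc
  have ze : ∀ g, Commute g (z ^ e) := fun g => (hz g).zpow_right e
  have ca : Commute a (a ^ s * z ^ e) := (Commute.self_zpow a s).mul_right (ze a)
  haveI : (zpowers (a ^ s * z ^ e)).Normal := by
    have k : ∀ g, g * (a ^ s * z ^ e) * g⁻¹ ∈ zpowers (a ^ s * z ^ e) → zpowers g ≤ normalizer (zpowers (a ^ s * z ^ e) : Set G) :=
      fun g i => zpowers_le.2 (mem_normalizer_fintype (by rintro _ ⟨j, rfl⟩; rw [← conj_zpow]; exact zpow_mem i j))
    rw [← normalizer_eq_top_iff, eq_top_iff, ← t]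
    refine sup_le (sup_le (k a ?_) (k b ?_)) (k z ?_)
    · rw [ca.eq, mul_inv_cancel_right]; exact mem_zpowers _
    · have : b * (a ^ s * z ^ e) * b⁻¹ = (a ^ s * z ^ e * a) ^ s * z ^ e := by
        rw [hc, inv_mul_cancel_right, conj_zpow, ← hc, mul_assoc _ b⁻¹, (ze b⁻¹).eq]; group
      rw [this, ca.symm.mul_zpow, mul_assoc]
      exact mul_mem (zpow_mem (mem_zpowers _) s) (mem_zpowers _)
    · rw [← (hz _).eq, mul_inv_cancel_right]; exact mem_zpowers _
  refine ⟨a, b, _, n, t, le_antisymm (commutator_le.2 fun x _ y _ => (QuotientGroup.eq_one_iff (N := zpowers (a ^ s * z ^ e)) _).1 ?_)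
    (zpowers_le.2 (hc ▸ commutator_mem_commutator (mem_top b) (mem_top a))), ?_⟩
  · refine commutatorElement_eq_one_iff_commute.2 (gen_comm (x := QuotientGroup.mk' _ a) (y := QuotientGroup.mk' _ b)
      (w := QuotientGroup.mk' _ z) ?_ (Commute.symm ?_) ((hz a).map _) ((hz b).map _) (QuotientGroup.mk' _ x) (QuotientGroup.mk' _ y))
    · rw [← MonoidHom.map_zpowers, ← MonoidHom.map_zpowers, ← MonoidHom.map_zpowers, ← Subgroup.map_sup, ← Subgroup.map_sup, t,
        map_top_of_surjective _ (QuotientGroup.mk'_surjective _)]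
    · exact commutatorElement_eq_one_iff_commute.1 ((QuotientGroup.eq_one_iff ⁅b, a⁆).2 (hc ▸ mem_zpowers _ : b * a * b⁻¹ * a⁻¹ ∈ _))
  · rw [(ze _).mul_pow, sq (z ^ e), ← (Commute.refl z).mul_zpow, z2, one_zpow, mul_one]
    exact pow_mem (zpow_mem (mem_zpowers a) s) 2

theorem stepB {G : Type u} [Group G] [Finite G] (hG : IsPGroup 2 G) (hy : Hy G) {z : G} (hz : ∀ g, Commute g z) (z2 : orderOf z = 2)
    (hc : commutator G ≤ zpowers z) {a b : G} (h : zpowers a ⊔ zpowers b ⊔ zpowers z = ⊤) : Me G := by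
  classical
  by_contra n
  haveI : (zpowers z).Normal := Normal.of_commutator_le G hc
  have n1 : ∀ x y, zpowers x ⊔ zpowers y ⊔ zpowers z = ⊤ → z ∉ zpowers x := fun x y i j =>
    n ⟨x, y, Normal.of_commutator_le G (hc.trans (zpowers_le.2 j)), by rwa [sup_eq_left.2 ((zpowers_le.2 j).trans le_sup_left)] at i⟩
  have zz : ∀ x ∈ zpowers z, x ≠ 1 → x = z := by
    rintro _ ⟨k, rfl⟩ j
    exact two_eq_of_mem_zpowers ⟨k, rfl⟩ (mem_zpowers z) (two_of (by rw [← (Commute.refl z).mul_zpow, two_sq z2, one_zpow]) j) z2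
  have cq : ∀ x y : G, Commute (x : G ⧸ zpowers z) y := fun x y => commutatorElement_eq_one_iff_commute.1
    ((QuotientGroup.eq_one_iff ⁅x, y⁆).2 (hc (commutator_mem_commutator (mem_top _) (mem_top _))))
  obtain ⟨⟨a, b⟩, h, hm⟩ := Set.exists_min_image {x : G × G | zpowers x.1 ⊔ zpowers x.2 ⊔ zpowers z = ⊤}
    (fun x => orderOf (x.1 : G ⧸ zpowers z)) (Set.toFinite _) ⟨(a, b), h⟩
  replace h : zpowers a ⊔ zpowers b ⊔ zpowers z = ⊤ := h
  have h' : zpowers b ⊔ zpowers a ⊔ zpowers z = ⊤ := by rwa [sup_comm (zpowers b)]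
  have tw : ∀ k : ℤ, zpowers (a * b ^ k) ⊔ zpowers b ⊔ zpowers z = ⊤ := fun k => eq_top_iff.2 (h.ge.trans (sup_le_sup_right
    (sup_le (zpowers_le.2 ((mul_mem_cancel_right (mem_sup_right (zpow_mem (mem_zpowers b) k))).1 (mem_sup_left (mem_zpowers _)))) le_sup_right) _))
  obtain ⟨i, hi⟩ := IsPGroup.iff_orderOf.1 (hG.to_quotient (zpowers z)) a
  obtain ⟨j, hj⟩ := IsPGroup.iff_orderOf.1 (hG.to_quotient (zpowers z)) b
  have ij : i ≤ j := (Nat.pow_le_pow_iff_right one_lt_two).1 (hi ▸ hj ▸ hm (b, a) h')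
  rcases i with _ | i
  · have : zpowers a ≤ zpowers z := zpowers_le.2 ((QuotientGroup.eq_one_iff a).1 (orderOf_eq_one_iff.1 hi))
    exact n1 z b (eq_top_iff.2 (h.ge.trans (sup_le_sup_right (sup_le_sup_right this _) _))) (mem_zpowers z)
  obtain ⟨d, rfl⟩ : ∃ d, j = d + i + 1 := ⟨j - (i + 1), by omega⟩
  have f : ∀ (x y : G) (k : ℕ), zpowers x ⊔ zpowers y ⊔ zpowers z = ⊤ → orderOf (x : G ⧸ zpowers z) = 2 ^ (k + 1) →
      x ^ 2 ^ k * x ^ 2 ^ k = 1 ∧ x ^ 2 ^ k ∉ zpowers z := fun x y k g o => ⟨by_contra fun e => n1 x y g (by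
      rw [← zz _ ((QuotientGroup.eq_one_iff _).1 (by
        rw [← pow_add, ← mul_two, ← pow_succ, ← o]; exact pow_orderOf_eq_one (x : G ⧸ zpowers z))) e]
      exact mul_mem (npow_mem_zpowers _ _) (npow_mem_zpowers _ _)), fun e => by
      have := Nat.le_of_dvd (by positivity) (orderOf_dvd_of_pow_eq_one (x := (x : G ⧸ zpowers z)) ((QuotientGroup.eq_one_iff (x ^ 2 ^ k)).2 e))
      rw [o, Nat.pow_le_pow_iff_right one_lt_two] at this
      omega⟩
  obtain ⟨u1, u2⟩ := f a b i h hi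
  obtain ⟨v1, v2⟩ := f b a (d + i) h' hj
  have uv : (a : G ⧸ zpowers z) ^ 2 ^ i ≠ (b : G ⧸ zpowers z) ^ 2 ^ (d + i) := fun e => by
    have := hm (_, b) (tw (-(2 ^ d : ℕ)))
    have l := Nat.le_of_dvd (by positivity) (orderOf_dvd_of_pow_eq_one (x := ((a * b ^ (-(2 ^ d : ℕ) : ℤ) : G) : G ⧸ zpowers z)) (n := 2 ^ i) (by
      rw [QuotientGroup.mk_mul, (cq _ _).mul_pow, e, zpow_neg, zpow_natCast, QuotientGroup.mk_inv, QuotientGroup.mk_pow, inv_pow, ← pow_mul,
        ← pow_add, mul_inv_cancel]))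
    have := (hi ▸ this :).trans l
    rw [Nat.pow_le_pow_iff_right one_lt_two] at this
    omega
  have sqc : ∀ x y : G, Commute (x * x) y := fun x y => by
    by_cases e : ⁅x, y⁆ = 1
    · exact (commutatorElement_eq_one_iff_commute.1 e).mul_left (commutatorElement_eq_one_iff_commute.1 e)
    have := zz _ (hc (commutator_mem_commutator (mem_top x) (mem_top y))) e
    have e : x * y = z * (y * x) := by rw [← this, commutatorElement_def]; group
    show x * x * y = y * (x * x)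
    rw [mul_assoc, e, ← mul_assoc, (hz x).eq, mul_assoc, ← mul_assoc x, e, ← mul_assoc, ← mul_assoc, two_sq z2, one_mul, mul_assoc]
  by_cases c : Commute (a ^ 2 ^ i) (b ^ 2 ^ (d + i))
  · rcases hy G (MonoidHom.id G) Function.surjective_id _ _ z c (hz _) (hz _) u1 v1 (two_sq z2) with e | e | e | e | e | e | e
    · exact u2 (e ▸ one_mem _)
    · exact v2 (e ▸ one_mem _)
    · exact two_ne z2 e
    · exact uv (congrArg (QuotientGroup.mk' (zpowers z)) e)
    · exact u2 (e ▸ mem_zpowers _)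
    · exact v2 (e ▸ mem_zpowers _)
    · refine uv (mul_right_cancel (b := (b : G ⧸ zpowers z) ^ 2 ^ (d + i)) ?_)
      exact ((QuotientGroup.eq_one_iff _).2 (e ▸ mem_zpowers z : a ^ 2 ^ i * b ^ 2 ^ (d + i) ∈ _)).trans
        (congrArg (QuotientGroup.mk' (zpowers z)) v1).symm
  rcases i with _ | i
  swap
  · exact c (by rw [pow_succ 2 i, pow_mul, sq]; exact sqc _ _)
  rcases d with _ | d
  swap
  · exact c (by rw [add_zero, pow_succ 2 d, pow_mul b, sq]; exact (sqc _ _).symm)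
  simp only [add_zero, pow_zero, pow_one] at c u1 v1
  refine n1 _ b (tw 1) ?_
  rw [← zz _ (hc (commutator_mem_commutator (mem_top a) (mem_top b))) (mt commutatorElement_eq_one_iff_commute.1 c),
    commutatorElement_def, inv_eq_of_mul_eq_one_right u1, inv_eq_of_mul_eq_one_right v1, mul_assoc, zpow_one]
  exact mul_mem (mem_zpowers _) (mem_zpowers _)

theorem main (n : ℕ) : ∀ (G : Type u) [Group G] [Finite G], Nat.card G = n → IsPGroup 2 G → Hy G → Me G := by
  induction n using Nat.strong_induction_on with | _ n ih => ?_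
  intro G _ _ hn hG hy
  rcases subsingleton_or_nontrivial G with _ | _
  · exact ⟨1, 1, by rw [zpowers_one_eq_bot]; infer_instance, Subsingleton.elim _ _⟩
  have A : ∀ z : G, (∀ g, Commute g z) → orderOf z = 2 → ∃ a b c : G, (zpowers a ⊔ zpowers z).Normal ∧
      zpowers a ⊔ zpowers b ⊔ zpowers z = ⊤ ∧ commutator G = zpowers c ∧ c ^ 2 ∈ zpowers a := fun z hz z2 => by
    haveI : (zpowers z).Normal := ⟨by rintro _ ⟨k, rfl⟩ g; rw [((hz g).zpow_right k).eq, mul_inv_cancel_right]; exact ⟨k, rfl⟩⟩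
    refine stepA hz (two_sq z2) (ih _ ?_ _ rfl (hG.to_quotient _) fun Q _ f hf =>
      hy Q (f.comp (QuotientGroup.mk' _)) (hf.comp (QuotientGroup.mk'_surjective _)))
    have := (zpowers z).index_mul_card
    have : 0 < Nat.card G := Nat.card_pos
    rw [Nat.card_zpowers, z2, index_eq_card] at *
    omega
  have inv : ∀ K : Subgroup G, K ≠ ⊥ → ∃ z ∈ K, orderOf z = 2 := fun K k => by
    obtain ⟨z, hz⟩ := exists_prime_orderOf_dvd_card' 2 ((hG.to_subgroup K).card_eq_or_dvd.resolve_left (mt card_eq_one.1 k))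
    exact ⟨z, z.2, (orderOf_coe z).trans hz⟩
  obtain ⟨z0, z1, z2⟩ := inv _ ((nontrivial_iff_ne_bot _).1 hG.center_nontrivial)
  obtain ⟨a0, b0, c0, -, t0, e0, -⟩ := A z0 (mem_center_iff.1 z1) z2
  have ce : ∀ z ∈ zpowers c0, orderOf z = 2 → ∀ g, Commute g z := fun z i j g => mul_inv_eq_iff_eq_mul.1
    (two_eq_of_mem_zpowers (e0 ▸ Normal.conj_mem inferInstance z (e0.ge i) g) i ((MulAut.conj g).orderOf_eq z ▸ j) j)
  by_cases k : c0 = 1
  · exact stepB hG hy (mem_center_iff.1 z1) z2 (by rw [e0, k, zpowers_one_eq_bot]; exact bot_le) t0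
  by_cases l : c0 ^ 2 = 1
  · have o := two_of (sq c0 ▸ l) k
    obtain ⟨a, b, -, -, t, -⟩ := A c0 (ce _ (mem_zpowers _) o) o
    exact stepB hG hy (ce _ (mem_zpowers _) o) o e0.le t
  obtain ⟨z, z3, z4⟩ := inv _ (mt zpowers_eq_bot.1 l)
  obtain ⟨a, b, c, n, t, e, m⟩ := A z (ce z (zpowers_le.2 (npow_mem_zpowers _ _) z3) z4) z4
  obtain ⟨j, hj⟩ := (e0.ge.trans e.le) (mem_zpowers c0)
  have : zpowers z ≤ zpowers a := zpowers_le.2 (zpowers_le.2 (by
    rw [← hj, ← zpow_natCast, ← zpow_mul, mul_comm, zpow_mul, zpow_natCast]; exact zpow_mem m j) z3)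
  exact ⟨a, b, by rwa [sup_eq_left.2 this] at n, by rwa [sup_eq_left.2 (this.trans le_sup_left)] at t⟩

/-- A finite 2-group of sectional 2-rank at most 2 (every section has no elementary abelian subgroup of order 8) is metacyclic: it has a cyclic normal subgroup with cyclic quotient. -/
theorem result {S : Type*} [Group S] [Finite S] (h2 : IsPGroup 2 S) (hr : Cfsg.SectionalPRankLE 2 2 S) : Cfsg.IsMetacyclic S := by
  obtain ⟨a, b, n, t⟩ := main _ S rfl h2 (hy_of hr)
  refine ⟨Subgroup.zpowers a, n, inferInstance, ⟨QuotientGroup.mk' _ b, fun x => ?_⟩⟩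
  have := congrArg (Subgroup.map (QuotientGroup.mk' (zpowers a))) t
  rw [Subgroup.map_sup, (Subgroup.map_eq_bot_iff _).2 (QuotientGroup.ker_mk' _).ge, bot_sup_eq, MonoidHom.map_zpowers,
    map_top_of_surjective _ (QuotientGroup.mk'_surjective _)] at this
  exact this.ge (mem_top x)

end Cfsg.Agent.S4397
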