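import Cfsg.Statements.S4400
import Cfsg.Agent.H1.Q7

set_option autoImplicit false
open Cfsg

namespace Cfsg.Agent.S4400

open H1
open Subgroup H9

/-- Let S be a finite 2-group of sectional 2-rank at most 4, and let P and Q be normal non-abelian subgroups of S whose centres have order 2 and are different. Then P and Q commute elementwise and intersect trivially, and PQ contains its own centralizer in S. -/
theorem result {S : Type*} [Group S] [Finite S] (h2 : IsPGroup 2 S) (hr : Cfsg.SectionalPRankLE 2 4 S)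
    (P Q : Subgroup S) [P.Normal] [Q.Normal] (hP : ¬ IsMulCommutative ↥P) (hQ : ¬ IsMulCommutative ↥Q)
    (hZP : Nat.card ↥(Subgroup.center ↥P) = 2) (hZQ : Nat.card ↥(Subgroup.center ↥Q) = 2)
    (hne : (Subgroup.center ↥P).map P.subtype ≠ (Subgroup.center ↥Q).map Q.subtype) :
    ⁅P, Q⁆ = ⊥ ∧ P ⊓ Q = ⊥ ∧ Subgroup.centralizer ((P ⊔ Q : Subgroup S) : Set S) ≤ P ⊔ Q := by
  have cz : ∀ R : Subgroup S, Nat.card (center R) = 2 → Nat.card (Zc R) = 2 := fun R h => by
    rw [← h, ← card_map_of_injective R.subtype_injective, map_center_subtype]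
  rw [map_center_subtype, map_center_subtype] at hne
  obtain ⟨a, b, c⟩ := two_comm h2 hr le_top le_top (nrm ⊤ P) (nrm ⊤ Q) hP hQ (cz P hZP) (cz Q hZQ) hne
  exact ⟨a, b, (le_inf le_top le_rfl).trans (c.trans (sup_le_sup inf_le_left inf_le_left))⟩

end Cfsg.Agent.S4400
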