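import Cfsg.Statements.S4401
import Cfsg.Agent.H1.Q7

set_option autoImplicit false
open Cfsg

namespace Cfsg.Agent.S4401

open scoped commutatorElement
open H1
open Subgroup H9
open scoped commutatorElement

/-- Let S be a finite 2-group of sectional 2-rank at most 4 and P a proper non-abelian subgroup whose centre has order 2. Let S₀ be the centralizer in S of Z(P) and suppose P is normal in S₀. Then either S₀ = S, or P has sectional 2-rank at most 2 and S₀ has index 2 in S. -/
theorem result {S : Type*} [Group S] [Finite S] (h2 : IsPGroup 2 S) (hr : Cfsg.SectionalPRankLE 2 4 S)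
    (P : Subgroup S) (hPlt : P ≠ ⊤) (hP : ¬ IsMulCommutative ↥P) (hZP : Nat.card ↥(Subgroup.center ↥P) = 2)
    (S₀ : Subgroup S) (hS₀ : S₀ = Subgroup.centralizer (((Subgroup.center ↥P).map P.subtype : Subgroup S) : Set S))
    (hPn : ∀ s ∈ S₀, ∀ x ∈ P, s * x * s⁻¹ ∈ P) :
    S₀ = ⊤ ∨ (Cfsg.SectionalPRankLE 2 2 ↥P ∧ S₀.index = 2) := by
  rw [map_center_subtype] at hS₀
  have zP : Nat.card (Zc P) = 2 := by rw [← hZP, ← card_map_of_injective P.subtype_injective, map_center_subtype]
  have lP : P ≤ S₀ := hS₀ ▸ le_centralizer_iff.1 inf_le_right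
  have nP : S₀ ≤ normalizer (P : Set S) := le_normalizer_iff_conj.2 hPn
  refine or_iff_not_imp_left.2 fun h0 => ?_
  have nil : Group.IsNilpotent (⊤ : Subgroup S) := (h2.to_subgroup ⊤).isNilpotent
  have up : ∀ H : Subgroup S, H ≠ ⊤ → ∃ g ∈ normalizer (H : Set S), g ∉ H := fun H h =>
    let ⟨g, a, b⟩ := SetLike.exists_of_lt (lt_normalizer_inf nil (lt_top_iff_ne_top.2 h)); ⟨g, a.1, b⟩
  have cZ : ∀ g, cj g (Zc P) = Zc (cj g P) := fun g => by rw [cj_inf, cj_centralizer]
  have key : ∀ g ∈ normalizer (S₀ : Set S), g ∉ S₀ → Zc P ≠ Zc (cj g P) ∧ ⁅P, cj g P⁆ = ⊥ ∧ P ⊓ cj g P = ⊥ ∧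
      S₀ ⊓ centralizer ((P ⊔ cj g P : Subgroup S) : Set S) ≤ Zc P ⊔ Zc (cj g P) := fun g hg g1 => by
    have e := mem_normalizer_iff_cj.1 hg
    have ne : Zc P ≠ Zc (cj g P) := fun t => g1 (hS₀ ▸ le_centralizer_iff.1 (L.le_centralizer_of_card_prime
      (h2.to_subgroup _) Subgroup.le_normalizer le_rfl (zP ▸ Nat.prime_two))
        (mem_normalizer_iff_cj.2 ((cZ g).trans t.symm)))
    refine ⟨ne, two_comm h2 hr lP (e ▸ cj_mono g lP) nP (e ▸ cj_le_normalizer g nP) hP (fun t => hP ?_) zP
      (by rw [← cZ, card_cj, zP]) ne⟩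
    exact L.comm_of_le_centralizer (cj_le_cj_iff.1 (cj_centralizer g P ▸ L.le_centralizer_of_comm t))
  obtain ⟨g, hg, g1⟩ := up S₀ h0
  obtain ⟨ne, c0, d, z⟩ := key g hg g1
  have e := mem_normalizer_iff_cj.1 hg
  have c := commutator_eq_bot_iff_le_centralizer.1 c0
  have n := c.trans (Subgroup.centralizer_le_normalizer _)
  have lQ : cj g P ≤ S₀ := e ▸ cj_mono g lP
  refine ⟨sr_of fun R hR D h => ?_, ?_⟩
  · have cc : ∀ {T : Subgroup S}, T ≤ P → Nat.card (T ⊔ cj g T : Subgroup S) = Nat.card T * Nat.card T := fun {T} l => by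
      rw [card_sup_of_disjoint (((l.trans c).trans (centralizer_anti (cj_mono g l))).trans
        (Subgroup.centralizer_le_normalizer _)) (le_bot_iff.1 ((inf_le_inf l (cj_mono g l)).trans d.le)), card_cj]
    have := (h.sup (h.cj g) ((hR.trans c).trans (centralizer_anti (cj_mono g hR)))).card_le hr
    rw [cc hR, cc (h.le.trans hR)] at this
    nlinarith
  have z1 : Zc P ≤ Zc S₀ := le_inf (inf_le_left.trans lP) (le_centralizer_iff.1 hS₀.le)
  have eU : Zc S₀ = Zc P ⊔ Zc (cj g P) := le_antisymm ((inf_le_inf_left _ (centralizer_anti (sup_le lP lQ))).trans z)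
    (sup_le z1 ((cZ g).ge.trans ((cj_mono g z1).trans (by rw [cj_Zc, e]))))
  have cU : Nat.card (Zc S₀) = 2 ^ 2 := by
    rw [eU]
    refine (card_sup_of_disjoint (inf_le_left.trans ((c.trans (centralizer_anti inf_le_left)).trans
      (Subgroup.centralizer_le_normalizer _))) (le_bot_iff.1 ((inf_le_inf inf_le_left inf_le_left).trans d.le))).trans ?_
    change Nat.card (Zc P) * Nat.card (Zc (cj g P)) = _
    rw [← cZ, card_cj, zP]; rfl
  have eC : centralizer (Zc S₀ : Set S) = S₀ := le_antisymm ((centralizer_anti z1).trans hS₀.ge)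
    (le_centralizer_iff.1 inf_le_right)
  have nU : normalizer (S₀ : Set S) ≤ normalizer (Zc S₀ : Set S) := normalizer_inf le_rfl (normalizer_centralizer le_rfl)
  have lU : Zc S₀ ≤ normalizer (S₀ : Set S) := inf_le_left.trans Subgroup.le_normalizer
  have i := L.relIndex_centralizer_le_pow (h2.to_subgroup _) 2 lU nU cU
  rw [eC] at i
  have eN : normalizer (S₀ : Set S) = ⊤ := by
    by_contra t
    obtain ⟨x, hx, x1⟩ := up _ t
    have ex := mem_normalizer_iff_cj.1 hx
    have n' : normalizer (S₀ : Set S) ≤ normalizer (cj x (Zc S₀) : Set S) := ex.ge.trans (cj_le_normalizer x nU)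
    have pn := (lP.trans Subgroup.le_normalizer).trans n'
    have l0 : cj x (Zc S₀) ≤ S₀ := fun y hy => by
      by_contra y1
      have := card_le_cent (C := P) (W := cj x (Zc S₀)) (x := y) fun a ha =>
        commutator_le_left' pn (commutator_mem_commutator hy ha)
      have b : P ⊓ centralizer {y} = ⊥ := le_bot_iff.1 fun a ha => (key y (ex.le (cj_mono x lU hy)) y1).2.2.1.le
        ⟨ha.1, a, ha.1, mul_inv_eq_iff_eq_mul.2 (mem_centralizer_singleton_iff.1 ha.2).symm⟩
      rw [b, card_bot, one_mul, card_cj, cU] at this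
      exact hP (L.isMulCommutative_of_card_le_sq (h2.to_subgroup P) this)
    have e2 : cj x (Zc S₀) = Zc S₀ := by
      by_cases s : cj x (Zc S₀) ⊓ P = ⊥
      · have c1 : ⁅cj x (Zc S₀), P⁆ = ⊥ := le_bot_iff.1 ((le_inf (commutator_le_left' pn)
          ((commutator_comm _ _).le.trans (commutator_le_left' (l0.trans nP)))).trans s.le)
        have c2 := congrArg (cj g) c1
        rw [H9.cj_commutator, mem_normalizer_iff_cj.1 (n' hg), cj_bot] at c2
        exact eq_of_le_of_card_ge ((le_inf l0 (le_centralizer_iff.1 (sup_le (le_centralizer_iff.1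
          (commutator_eq_bot_iff_le_centralizer.1 c1)) (le_centralizer_iff.1
          (commutator_eq_bot_iff_le_centralizer.1 c2))))).trans (z.trans eU.ge)) (card_cj _ _).ge
      · have c1 := (Zc_le_of_ne (h2.to_subgroup P) zP inf_le_right (normalizer_inf pn Subgroup.le_normalizer) s).trans
          inf_le_left
        refine (eq_of_le_of_card_ge (eU.le.trans (sup_le c1 ?_)) (card_cj _ _).le).symm
        rw [← cZ, ← mem_normalizer_iff_cj.1 (n' hg)]
        exact cj_mono g c1
    exact x1 (mem_normalizer_iff_cj.2 (by rw [← eC, cj_centralizer, e2]))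
  rw [← relIndex_top_right, ← eN]
  exact L.relIndex_eq_of_le (h2.to_subgroup _) (fun t => g1 (t hg)) i

end Cfsg.Agent.S4401
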