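import Cfsg.Statements.S4403
import Cfsg.Agent.CZ.C
import Cfsg.Agent.H1.Lin3
import Cfsg.Agent.H9.LE1

set_option autoImplicit false
open Cfsg

namespace Cfsg.Agent.S4403

open Subgroup H9
open scoped commutatorElement

/-- Let K be a finite group, p a prime dividing its order with O_{p'}(K) = 1 (no nontrivial normal subgroup of order prime to p), and P a cyclic Sylow p-subgroup of K. Then either P is normal and self-centralizing in K with K/P cyclic of order dividing p − 1 (so K is the semidirect product of P by a group of automorphisms of P of order dividing p − 1), or the generalized Fitting subgroup F*(K) is a non-abelian simple group and p does not divide the index of F*(K) in K. -/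
theorem result {K : Type*} [Group K] [Finite K] (p : ℕ) [Fact p.Prime] (hp : p ∣ Nat.card K) (hO : Cfsg.pPrimeCore p K = ⊥)
    (P : Sylow p K) (hP : IsCyclic ↥(P : Subgroup K)) :
    ((P : Subgroup K).Normal ∧ Subgroup.centralizer ((P : Subgroup K) : Set K) = (P : Subgroup K) ∧
      (∀ (_ : (P : Subgroup K).Normal), IsCyclic (K ⧸ (P : Subgroup K))) ∧ (P : Subgroup K).index ∣ p - 1) ∨
    (IsSimpleGroup ↥(Cfsg.generalizedFittingSubgroup K) ∧ ¬ IsMulCommutative ↥(Cfsg.generalizedFittingSubgroup K) ∧
      ¬ p ∣ (Cfsg.generalizedFittingSubgroup K).index) := by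
  have hS := syl_top_of_sylow P
  have hO' : Op' p (⊤ : Subgroup K) = ⊥ := (Op'_top p).trans hO
  have hF := Fit_eq_Op_of_Op'_eq_bot hO'
  have hc : (P : Subgroup K) ≤ centralizer (P : Subgroup K) := le_centralizer_iff_isMulCommutative.2 inferInstance
  by_cases hL : Lay (⊤ : Subgroup K) = ⊥
  · have h1 := centralizer_Fit_le_of_Lay hL
    rw [hF, top_inf_eq] at h1
    have h2 : Op p ⊤ = (P : Subgroup K) := hS.Op_le.antisymm ((hc.trans (centralizer_le hS.Op_le)).trans h1)
    rw [h2] at h1
    haveI : (P : Subgroup K).Normal := h2 ▸ normal_of_top_le (le_normalizer_Op p ⊤)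
    obtain ⟨z, z1, z2⟩ := exists_orderOf_eq_of_isPGroup hS.isP fun e =>
      cop_iff.1 (hS.eq_bot_iff.1 e) (by rwa [card_top])
    haveI := H1.normal_of_le_isCyclic hP (zpowers_le.2 z1)
    have h3 : (MulAut.conjNormal (H := zpowers z)).ker = P := by
      have : (MulAut.conjNormal (H := zpowers z)).ker = centralizer {z} := by
        ext g
        rw [← H1.centralizer_zpowers, MonoidHom.mem_ker, MulEquiv.ext_iff, mem_centralizer_iff]
        exact ⟨fun k u hu => (mul_inv_eq_iff_eq_mul.1 (congrArg Subtype.val (k ⟨u, hu⟩))).symm,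
          fun k u => Subtype.ext (mul_inv_eq_iff_eq_mul.2 (k u u.2).symm)⟩
      rw [this]
      refine le_antisymm (H1.le_of_p_and_p' p (fun x _ k => zpowers_le.1 (hS.le_of_le_normalizer
        (H1.isPGroup_zpowers_iff.2 k) le_top (Or.inl le_normalizer_of_normal))) fun x hx k => h1 ?_)
        (hc.trans (centralizer_le (Set.singleton_subset_iff.2 z1)))
      refine (CZ.cyc_dicho hS.isP hP (le_normalizer_of_normal (mem_top x)) k).resolve_right fun e => ?_
      exact H1.ne_one_of_orderOf_prime Fact.out z2 (mem_bot.1 (e.2.le ⟨z1, mem_centralizer_singleton_iff.2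
        (mem_centralizer_singleton_iff.1 hx).symm⟩))
    have h4 : Nat.card (zpowers z) = p := by rw [Nat.card_zpowers, z2]
    have h5 : IsCyclic (MulAut (zpowers z)) := by
      have : IsCyclic (ZMod (Nat.card (zpowers z)))ˣ := by rw [h4]; infer_instance
      exact isCyclic_of_surjective _ (IsCyclic.mulAutMulEquiv (zpowers z)).symm.surjective
    have h6 := isCyclic_of_injective _ (QuotientGroup.kerLift_injective (MulAut.conjNormal (H := zpowers z)))
    refine Or.inl ⟨inferInstance, h1.antisymm hc, fun _ =>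
      isCyclic_of_surjective _ (QuotientGroup.quotientMulEquivOfEq h3).surjective, ?_⟩
    rw [← h3, index_ker, ← Nat.totient_prime Fact.out, ← h4, ← IsCyclic.card_mulAut]
    exact card_subgroup_dvd_card _
  have h0 : ∀ {L : Subgroup K}, Comp L ⊤ → ¬ (Nat.card L).Coprime p := fun h => h.not_cop hO'
  have h1 : ∀ {L : Subgroup K}, Comp L ⊤ → ¬ NPC p L := fun h k =>
    h0 h (by rwa [NPC, Ores_eq_of_perfect p h.qs.perfect] at k)
  obtain ⟨L, h⟩ := not_forall_not.1 (mt Lay_eq_bot_iff'.2 hL)
  have h2 : Lay ⊤ = L := (Lay_le_iff.2 fun M hM => ((hM.eq_or_comm h).resolve_right fun e => by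
    rw [commutator_eq_bot_iff_le_centralizer] at e
    rcases CZ.le_or_le_cyc hS.isP hP (inf_le_left (b := M)) (inf_le_left (b := L)) with k | k
    · exact h0 hM (cop_of_perfect_of_central_syl hM.qs.perfect (hS.inf_sn hM.sn)
        ((k.trans inf_le_right).trans (le_centralizer_iff.1 e)))
    · exact h0 h (cop_of_perfect_of_central_syl h.qs.perfect (hS.inf_sn h.sn) ((k.trans inf_le_right).trans e))).le).antisymm
    h.le_Lay
  haveI : L.Normal := h2 ▸ normal_of_top_le (le_normalizer_Lay ⊤)
  have h3 : (P : Subgroup K) ≤ L := by_contra fun k => h1 h (CZ.npc_of_cyc_not_le P hP k)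
  have h4 : Fit (⊤ : Subgroup K) = ⊥ := by_contra fun k => h1 h (CZ.npc_of_cyc (hS.mono h3 le_top) hP
    fun y hy _ _ _ e => k (eq_bot_iff.2 (e ▸ le_inf (hF ▸ hS.Op_le) fun u hu =>
      mem_centralizer_singleton_iff.2 (Lay_le_centralizer_Fit ⊤ (h2 ▸ hy) u hu))))
  have h5 : generalizedFittingSubgroup K = L := by rw [← Fst_top, Fst, h2, h4]; simp
  rw [h5]
  exact Or.inr ⟨(h.simple h4).1, (h.simple h4).2, H1.not_dvd_index_of_sylow_le P h3⟩

end Cfsg.Agent.S4403
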