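import Cfsg.Statements.S4405
import Cfsg.Agent.H2.XS
import Cfsg.Agent.H1.Primitive
import Cfsg.Agent.H1.Product
import Cfsg.Agent.H1.HallConv
import Cfsg.Agent.H1.Fitting
import Cfsg.Agent.H1.KPi
import Cfsg.Agent.FT.Rank

set_option autoImplicit false
open Cfsg

namespace Cfsg.Agent.S4405

open Subgroup

theorem ten {Q : Type*} [Group Q] [Finite Q] (hQ : Nat.card Q = 10) {t g : Q} (ht : t * t = 1) (hg : g * t ≠ t * g) :
    (t * (g * t * g⁻¹)) ^ 5 = 1 ∧ t * (g * t * g⁻¹) ≠ 1 := by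
  have hy1 : t * (g * t * g⁻¹) ≠ 1 := fun e => hg (by
    rw [← ht, mul_right_inj, mul_inv_eq_iff_eq_mul] at e; exact e)
  have ht1 : t ≠ 1 := by rintro rfl; simp at hg
  have hto : orderOf t = 2 := orderOf_eq_prime (by rw [pow_two, ht]) ht1
  refine ⟨?_, hy1⟩
  set s := g * t * g⁻¹ with hs
  have hs2 : s * s = 1 := by rw [hs, conj_mul, ht, mul_one, mul_inv_cancel]
  have hd : ∀ n, n ∣ 10 → n = 1 ∨ n = 2 ∨ n = 5 ∨ n = 10 := fun n h => by
    have hm : n ∈ Nat.divisors 10 := Nat.mem_divisors.2 ⟨h, by norm_num⟩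
    rw [show Nat.divisors 10 = {1, 2, 5, 10} by decide] at hm
    simpa using hm
  rw [← orderOf_dvd_iff_pow_eq_one]
  rcases hd _ (hQ ▸ orderOf_dvd_natCard (t * s)) with e | e | e | e
  · rw [e]; norm_num
  · exfalso
    have hy2 : t * s * (t * s) = 1 := by rw [← pow_two, ← e, pow_orderOf_eq_one]
    have hcm : s ∈ centralizer {t} := mem_centralizer_singleton_iff.2 (by
      calc s * t = (t * t) * (s * t) * (s * s) := by rw [ht, hs2, one_mul, mul_one]
        _ = t * (t * s * (t * s)) * s := by group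
        _ = t * s := by rw [hy2, mul_one])
    have hle : zpowers t ≤ centralizer {t} := zpowers_le.2 (mem_centralizer_singleton_iff.2 rfl)
    have h2 := card_dvd_of_le hle
    rw [Nat.card_zpowers, hto] at h2
    rcases hd _ (hQ ▸ card_subgroup_dvd_card (centralizer {t})) with f | f | f | f
    · omega
    · rw [← eq_of_le_of_card_ge hle (by rw [f, Nat.card_zpowers, hto]), H2.mem_zp2 ht] at hcm
      rcases hcm with h | h
      · exact ht1 (conj_eq_one_iff.1 h)
      · exact hy1 (by rw [h, ht])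
    · omega
    · exact hg (mem_centralizer_singleton_iff.1 (eq_top_of_card_eq _ (f.trans hQ.symm) ▸ mem_top g))
  · rw [e]
  · exfalso
    haveI := isCyclic_of_orderOf_eq_card _ (e.trans hQ.symm)
    exact hg (IsCyclic.commGroup.mul_comm _ _)

theorem ab {X : Type*} [Group X] [Finite X] {W : Subgroup X} [W.Normal] (hc : ∀ a ∈ W, ∀ b ∈ W, a * b = b * a)
    (h2 : ∀ a ∈ W, a * a = 1) (h16 : Nat.card W = 16) {t g : X} (ht : t * t = 1)
    (hf : ∀ w ∈ W, t * w = w * t → g * t * g⁻¹ * w = w * (g * t * g⁻¹) → w = 1) {c : X} (hc1 : c ∈ W)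
    (hc2 : t * c = c * t) : ∃ v ∈ W, c = v * (t * v * t⁻¹) := by
  set A := W ⊓ centralizer {t} with hA
  have hA4 : Nat.card A ≤ 4 := by
    have h1 := H1.card_mul_card_le (L := W) (A := A) (B := A.map (MulAut.conj g).toMonoidHom) inf_le_left (by
      rintro _ ⟨a, ha, rfl⟩
      exact Normal.conj_mem inferInstance a ha.1 g)
    have h3 : A ⊓ A.map (MulAut.conj g).toMonoidHom = ⊥ := by
      rw [eq_bot_iff]
      rintro _ ⟨h4, a, ha, rfl⟩
      refine hf _ h4.1 (mem_centralizer_singleton_iff.1 h4.2).symm ?_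
      have := mem_centralizer_singleton_iff.1 ha.2
      change g * t * g⁻¹ * (g * a * g⁻¹) = g * a * g⁻¹ * (g * t * g⁻¹)
      rw [conj_mul, conj_mul, this]
    rw [h3, card_bot, card_map_of_injective (MulAut.conj g).injective, h16] at h1
    nlinarith
  letI : CommGroup W := { mul_comm := fun a b => Subtype.ext (hc a a.2 b b.2) }
  let φ : W →* W := MonoidHom.id W * (MulAut.conjNormal t).toMonoidHom
  have hφ : ∀ v : W, (φ v : X) = v * (t * v * t⁻¹) := fun v => rfl
  have hk : φ.ker ≤ A.subgroupOf W := fun v hv => ⟨v.2, mem_centralizer_singleton_iff.2 (by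
    have := congrArg Subtype.val (MonoidHom.mem_ker.1 hv)
    rw [hφ, coe_one, ← h2 v v.2, mul_right_inj, mul_inv_eq_iff_eq_mul] at this
    exact this.symm)⟩
  have hr : φ.range ≤ A.subgroupOf W := by
    rintro _ ⟨v, rfl⟩
    refine ⟨(φ v).2, mem_centralizer_singleton_iff.2 ?_⟩
    change (φ v : X) * t = t * φ v
    have h1 : t * (v * (t * v * t⁻¹)) = t * v * t⁻¹ * v * t := by
      rw [inv_eq_of_mul_eq_one_right ht]
      calc t * (v * (t * v * t)) = t * v * t * v * t := by group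
        _ = _ := rfl
    rw [hφ, h1, hc v v.2 _ (Normal.conj_mem inferInstance _ v.2 t)]
  have hcA : Nat.card (A.subgroupOf W) = Nat.card A := Nat.card_congr (subgroupOfEquivOfLe inf_le_left).toEquiv
  have h1 := φ.ker.card_mul_index
  rw [index_ker, h16] at h1
  have h3 := card_le_of_le hk
  have h4 : φ.range = A.subgroupOf W := eq_of_le_of_card_ge hr (by nlinarith)
  obtain ⟨v, hv⟩ : (⟨c, hc1⟩ : W) ∈ φ.range := h4 ▸ ⟨hc1, mem_centralizer_singleton_iff.2 hc2.symm⟩
  exact ⟨v, v.2, (congrArg Subtype.val hv).symm⟩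

/-- Let G be a finite group of order 320 = 64·5 whose largest normal 2-subgroup H = O₂(G) equals the Fitting subgroup F(G) and is extraspecial of order 32 containing no elementary abelian subgroup of order 8 (so H is the central product of a quaternion group and a dihedral group of order 8). If T is an involution of G outside H whose centralizer in H contains an elementary abelian subgroup of order 4, then C_H(T) itself is elementary abelian of order 4. -/
theorem result {G : Type*} [Group G] [Finite G]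
    (hG : Nat.card G = 320) (hHF : Cfsg.pCore 2 G = Cfsg.fittingSubgroup G)
    (hex : Cfsg.IsExtraspecial 2 ↥(Cfsg.pCore 2 G)) (h32 : Nat.card ↥(Cfsg.pCore 2 G) = 32)
    (hminus : ∀ A : Subgroup G, A ≤ Cfsg.pCore 2 G → Cfsg.IsElementaryAbelian 2 A → Nat.card ↥A ≤ 4)
    (T : G) (hT : orderOf T = 2) (hTH : T ∉ Cfsg.pCore 2 G)
    (V : Subgroup G) (hV : V ≤ Cfsg.pCore 2 G ⊓ Subgroup.centralizer ({T} : Set G)) (hV4 : Nat.card ↥V = 4) (hVe : Cfsg.IsElementaryAbelian 2 V) :
    Nat.card ↥(Cfsg.pCore 2 G ⊓ Subgroup.centralizer ({T} : Set G)) = 4 ∧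
      Cfsg.IsElementaryAbelian 2 (Cfsg.pCore 2 G ⊓ Subgroup.centralizer ({T} : Set G)) := by
  haveI : Fact (Nat.Prime 5) := ⟨by norm_num⟩
  set H := Cfsg.pCore 2 G with hH
  obtain ⟨z, hz⟩ := H2.xs_of hex
  haveI := H1.isSolvable_of_two_primes (G := G) Nat.prime_two (by norm_num : Nat.Prime 5) fun r hr hd => by
    rw [hG, show 320 = 2 ^ 6 * 5 by norm_num, hr.dvd_mul] at hd
    exact hd.imp (fun h => (Nat.prime_dvd_prime_iff_eq hr Nat.prime_two).1 (hr.dvd_of_dvd_pow h))
      (Nat.prime_dvd_prime_iff_eq hr (by norm_num)).1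
  have hC : centralizer (H : Set G) ≤ H := by rw [hHF]; exact H1.centralizer_fitting_le
  have hzc : ∀ g, g * z = z * g := fun g => hz.conj_z (le_normalizer_of_normal (mem_top g))
  have hz2 : z * z = 1 := by rw [← pow_two, ← hz.ord, pow_orderOf_eq_one]
  haveI hZn : (zpowers z).Normal := ⟨fun a ha g => by
    obtain ⟨k, rfl⟩ := ha
    rw [(Commute.zpow_right (hzc g) k).eq, mul_inv_cancel_right]; exact ⟨k, rfl⟩⟩
  have hZH : zpowers z ≤ H := hz.center ▸ inf_le_left
  have hT2 : T * T = 1 := by rw [← pow_two, ← hT, pow_orderOf_eq_one]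
  have hi : H.index = 10 := by
    have := H.card_mul_index
    rw [h32, hG] at this; omega
  obtain ⟨g, hg⟩ : ∃ g : G, (T * (g * T * g⁻¹)) ^ 5 ∈ H ∧ T * (g * T * g⁻¹) ∉ H := by
    let ρ := QuotientGroup.mk' H
    have ht2 : ρ T * ρ T = 1 := by rw [← map_mul, hT2, map_one]
    have ht1 : ρ T ≠ 1 := fun e => hTH ((QuotientGroup.eq_one_iff _).1 e)
    have hto : orderOf (ρ T) = 2 := orderOf_eq_prime (by rw [pow_two, ht2]) ht1
    obtain ⟨g, hg⟩ : ∃ g, ρ g * ρ T ≠ ρ T * ρ g := by
      by_contra! h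
      haveI : (zpowers (ρ T)).Normal := ⟨fun a ha g => by
        obtain ⟨k, rfl⟩ := ha
        obtain ⟨g, rfl⟩ := QuotientGroup.mk'_surjective H g
        rw [(Commute.zpow_right (h g) k).eq, mul_inv_cancel_right]; exact ⟨k, rfl⟩⟩
      have := H1.le_pCore (p := 2) (N := zpowers (ρ T)) (IsPGroup.of_card (n := 1) (by rw [Nat.card_zpowers, hto]; rfl))
      rw [H1.pCore_quotient_pCore] at this
      exact ht1 (this (mem_zpowers _))
    obtain ⟨h1, h2⟩ := ten (Q := G ⧸ H) hi ht2 hg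
    refine ⟨g, (QuotientGroup.eq_one_iff _).1 h1, fun h => h2 ((QuotientGroup.eq_one_iff _).2 h)⟩
  set y := T * (g * T * g⁻¹) with hy
  have hx5 : (y ^ 32) ^ 5 = 1 := by
    have := pow_card_eq_one' (G := H) (x := ⟨_, hg.1⟩)
    rw [h32] at this
    rw [← pow_mul, mul_comm, pow_mul]; exact congrArg Subtype.val this
  have hxH : y ^ 32 ∉ H := fun h => hg.2 (by
    rw [show y = (y ^ 5) ^ 13 * ((y ^ 32) ^ 2)⁻¹ by group]
    exact mul_mem (pow_mem hg.1 _) (inv_mem (pow_mem h _)))
  let π := QuotientGroup.mk' (zpowers z)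
  have hπ : ∀ a, π a = 1 ↔ a = 1 ∨ a = z := fun a => (QuotientGroup.eq_one_iff a).trans (H2.mem_zp2 hz2)
  have hπz : π z = 1 := (hπ z).2 (Or.inr rfl)
  haveI : (H.map π).Normal := Normal.map inferInstance π (QuotientGroup.mk'_surjective _)
  have h16 : Nat.card (H.map π) = 16 := by
    have h1 := ((zpowers z).subgroupOf H).card_mul_index
    rw [Nat.card_congr (subgroupOfEquivOfLe hZH).toEquiv, Nat.card_zpowers, hz.ord, h32] at h1
    rw [H1.card_map_mk']
    change ((zpowers z).subgroupOf H).index = 16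
    omega
  have hfx : H.map π ⊓ centralizer (zpowers (π (y ^ 32)) : Set (G ⧸ zpowers z)) = ⊥ := by
    set D := H.map π ⊓ centralizer (zpowers (π (y ^ 32)) : Set (G ⧸ zpowers z)) with hD
    have h1 := H1.card_modEq_card_inf_centralizer (q := 5) (Q := zpowers (π (y ^ 32))) (L := H.map π) (by
      rintro ⟨_, k, rfl⟩
      refine ⟨1, Subtype.ext ?_⟩
      rw [coe_pow, coe_one, pow_one, ← zpow_natCast, ← zpow_mul, mul_comm, zpow_mul, zpow_natCast, ← map_pow, hx5,
        map_one, one_zpow]) le_normalizer_of_normal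
    have h2 : Nat.card D ∣ 16 := h16 ▸ card_dvd_of_le inf_le_left
    rw [h16, ← hD] at h1
    have h3 : Nat.card D ≠ 16 := fun e => hxH (hC fun a ha => by
      have h4 : D = H.map π := eq_of_le_of_card_ge inf_le_left (by rw [e, h16])
      have h5 : π a ∈ D := h4 ▸ ⟨a, ha, rfl⟩
      have h6 := h5.2 _ (mem_zpowers _)
      have h7 : π (y ^ 32 * a * (y ^ 32)⁻¹ * a⁻¹) = 1 := by
        rw [map_mul, map_mul, map_mul, h6, map_inv, map_inv]; group
      set x := y ^ 32
      rcases (hπ _).1 h7 with h8 | h8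
      · rw [mul_inv_eq_one, mul_inv_eq_iff_eq_mul] at h8; exact h8.symm
      · exfalso
        rw [mul_inv_eq_iff_eq_mul] at h8
        have h9 : ∀ n : ℕ, x ^ n * a * (x ^ n)⁻¹ = z ^ n * a := by
          intro n
          induction n with
          | zero => simp
          | succ n ih =>
            calc x ^ (n + 1) * a * (x ^ (n + 1))⁻¹ = x * (x ^ n * a * (x ^ n)⁻¹) * x⁻¹ := by rw [pow_succ']; group
              _ = z ^ n * (x * a * x⁻¹) := by rw [ih, ← mul_assoc, (Commute.pow_right (hzc x) n).eq]; group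
              _ = _ := by rw [h8, pow_succ, mul_assoc]
        have h10 := h9 5
        rw [hx5, one_mul, inv_one, mul_one, right_eq_mul, ← orderOf_dvd_iff_pow_eq_one, hz.ord] at h10
        omega)
    rw [← card_eq_one]
    have hm : Nat.card D ∈ Nat.divisors 16 := Nat.mem_divisors.2 ⟨h2, by norm_num⟩
    rw [show Nat.divisors 16 = {1, 2, 4, 8, 16} by decide] at hm
    simp only [Finset.mem_insert, Finset.mem_singleton] at hm
    rw [Nat.ModEq] at h1
    omega
  have hsq : ∀ c ∈ H ⊓ centralizer {T}, c ^ 2 = 1 := by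
    rintro c ⟨hc1, hc2⟩
    have hc3 := mem_centralizer_singleton_iff.1 hc2
    obtain ⟨_, ⟨v, hv, rfl⟩, e⟩ := ab (W := H.map π) (t := π T) (g := π g) (c := π c) (by
      rintro _ ⟨a, ha, rfl⟩ _ ⟨b, hb, rfl⟩
      rw [← mul_inv_eq_iff_eq_mul, ← map_inv, ← map_mul, ← map_mul]
      rcases hz.com a ha b hb with h | h <;> rw [h]
      rw [map_mul, hπz, mul_one]) (by
      rintro _ ⟨a, ha, rfl⟩
      rw [← map_mul, hπ]; exact hz.sq a ha) h16 (by rw [← map_mul, hT2, map_one]) (fun w hw h1 h2 => by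
      refine mem_bot.1 (hfx ▸ ⟨hw, ?_⟩)
      rintro _ ⟨k, rfl⟩
      have : Commute (π y) w := by
        rw [hy, map_mul, map_mul, map_mul, map_inv]; exact Commute.mul_left h1 h2
      exact (map_pow π y 32 ▸ this.pow_left 32).zpow_left k) ⟨c, hc1, rfl⟩ (by rw [← map_mul, ← map_mul, hc3])
    have h1 : ∃ u, (u = 1 ∨ u = z) ∧ v⁻¹ * (T * v * T⁻¹) = c * u := by
      refine ⟨c⁻¹ * (v⁻¹ * (T * v * T⁻¹)), (hπ _).1 ?_, by group⟩
      have h2 : π v * π v = 1 := by rw [← map_mul, hπ]; exact hz.sq v hv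
      rw [map_mul, map_mul, map_mul, map_mul, map_inv, map_inv, map_inv, inv_eq_of_mul_eq_one_right h2, ← e, inv_mul_cancel]
    obtain ⟨u, hu, h1⟩ := h1
    have hu1 : ∀ a, a * u = u * a := fun a => by
      rcases hu with rfl | rfl
      · simp
      · exact hzc a
    have hu2 : u * u = 1 := by
      rcases hu with rfl | rfl
      · simp
      · exact hz2
    have h2 : T * (c * u) * T⁻¹ = c * u := by rw [← mul_assoc, ← hc3, mul_assoc c, hu1 T]; group
    have h3 : T * (c * u) * T⁻¹ = (c * u)⁻¹ := by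
      rw [← h1]
      calc T * (v⁻¹ * (T * v * T⁻¹)) * T⁻¹ = T * v⁻¹ * T⁻¹ * (T * T) * v * (T * T)⁻¹ := by group
        _ = _ := by rw [hT2]; group
    rw [h2, eq_inv_iff_mul_eq_one, mul_assoc, ← mul_assoc u, ← hu1 c, mul_assoc, hu2, mul_one] at h3
    rw [pow_two, h3]
  have hel : Cfsg.IsElementaryAbelian 2 (H ⊓ centralizer {T}) := ⟨⟨⟨fun a b => Subtype.ext (by
    have ha := hsq a a.2
    have hb := hsq b b.2
    have hab := hsq _ (a * b).2
    rw [pow_two] at ha hb hab
    push_cast at hab ⊢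
    calc (a : G) * b = a * (a * b * (a * b)) * b := by rw [hab, mul_one]
      _ = (a * a) * (b * a) * (b * b) := by group
      _ = b * a := by rw [ha, hb, one_mul, mul_one])⟩⟩, hsq⟩
  exact ⟨le_antisymm (hminus _ inf_le_left hel) (hV4 ▸ card_le_of_le hV), hel⟩

end Cfsg.Agent.S4405
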