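import Cfsg.Statements.S4406


set_option autoImplicit false
open Cfsg

namespace Cfsg.Agent.S4406

open scoped Pointwise
abbrev A4 := alternatingGroup (Fin 4)

theorem t1 : ∀ x : A4, x ^ 2 = 1 ∨ x ^ 3 = 1 := by decide +kernel
set_option synthInstance.maxSize 2000 in
theorem t3 : ∀ a x y : A4, a ^ 3 = 1 → a ≠ 1 → x ^ 2 = 1 → y ^ 2 = 1 → x ≠ 1 → y ≠ 1 → x * y ≠ 1 →
    (a * x * a⁻¹ = y ∧ a * y * a⁻¹ = x * y ∧ a * (x * y) * a⁻¹ = x) ∨
    (a⁻¹ * x * a⁻¹⁻¹ = y ∧ a⁻¹ * y * a⁻¹⁻¹ = x * y ∧ a⁻¹ * (x * y) * a⁻¹⁻¹ = x) := by decide +kernel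
theorem t4 : ∃ c : A4, c ^ 3 = 1 ∧ c ≠ 1 := by decide +kernel

theorem s2 (x : A4) (k : ℕ) (h : x ^ 2 ^ k = 1) : x ^ 2 = 1 := by
  rcases t1 x with h1 | h1
  · exact h1
  · have : orderOf x = 1 := Nat.eq_one_of_dvd_coprimes ((by norm_num : Nat.Coprime 2 3).pow_left k)
      (orderOf_dvd_of_pow_eq_one h) (orderOf_dvd_of_pow_eq_one h1)
    rw [orderOf_eq_one_iff.1 this, one_pow]

theorem s3 (x : A4) (k : ℕ) (h : x ^ 3 ^ k = 1) : x ^ 3 = 1 := by
  rcases t1 x with h1 | h1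
  · have : orderOf x = 1 := Nat.eq_one_of_dvd_coprimes ((by norm_num : Nat.Coprime 3 2).pow_left k)
      (orderOf_dvd_of_pow_eq_one h) (orderOf_dvd_of_pow_eq_one h1)
    rw [orderOf_eq_one_iff.1 this, one_pow]
  · exact h1

theorem cj {G : Type*} [Group G] [Finite G] {p : ℕ} [Fact p.Prime] (P : Sylow p G) (x : G) (hx : x ^ p = 1) :
    ∃ g : G, g * x * g⁻¹ ∈ (P : Subgroup G) := by
  have : IsPGroup p (Subgroup.zpowers x) := by
    rintro ⟨_, i, rfl⟩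
    exact ⟨1, Subtype.ext (by simp only [pow_one, Subgroup.coe_pow, Subgroup.coe_one]; rw [← zpow_natCast, ← zpow_mul, mul_comm, zpow_mul, zpow_natCast, hx, one_zpow])⟩
  obtain ⟨Q, hQ⟩ := this.exists_le_sylow
  obtain ⟨g, rfl⟩ := MulAction.exists_smul_eq G P Q
  have := hQ (Subgroup.mem_zpowers x)
  rw [Sylow.coe_subgroup_smul, Subgroup.mem_pointwise_smul_iff_inv_smul_mem] at this
  exact ⟨g⁻¹, by simpa using this⟩

/-- In the direct product P = A₄ × A₄, let X be the Sylow 2-subgroup, X₁ and X₂ its intersections with the two direct factors, Q a Sylow 3-subgroup and Q₁, Q₂ its intersections with the two factors. Then every subgroup B of X of order 4 either meets X₁ or X₂ nontrivially, or is normalized by one of the two subgroups of Q of order 3 other than Q₁ and Q₂. -/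
theorem result
    (X : Sylow 2 (↥(alternatingGroup (Fin 4)) × ↥(alternatingGroup (Fin 4))))
    (Q : Sylow 3 (↥(alternatingGroup (Fin 4)) × ↥(alternatingGroup (Fin 4))))
    (B : Subgroup (↥(alternatingGroup (Fin 4)) × ↥(alternatingGroup (Fin 4)))) (hBX : B ≤ (X : Subgroup _)) (hB4 : Nat.card ↥B = 4) :
    B ⊓ ((X : Subgroup _) ⊓ Subgroup.prod ⊤ ⊥) ≠ ⊥ ∨ B ⊓ ((X : Subgroup _) ⊓ Subgroup.prod ⊥ ⊤) ≠ ⊥ ∨
      ∃ R : Subgroup (↥(alternatingGroup (Fin 4)) × ↥(alternatingGroup (Fin 4))), R ≤ (Q : Subgroup _) ∧ Nat.card ↥R = 3 ∧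
        R ≠ (Q : Subgroup _) ⊓ Subgroup.prod ⊤ ⊥ ∧ R ≠ (Q : Subgroup _) ⊓ Subgroup.prod ⊥ ⊤ ∧ R ≤ Subgroup.normalizer (B : Set _) := by
  classical
  haveI : Fact (Nat.Prime 3) := ⟨Nat.prime_three⟩
  by_contra hc
  push Not at hc
  obtain ⟨h1, h2, h3⟩ := hc
  have hsq : ∀ u ∈ B, u.1 ^ 2 = 1 ∧ u.2 ^ 2 = 1 := fun u hu => by
    obtain ⟨k, hk⟩ := X.2 ⟨u, hBX hu⟩
    have := congrArg Subtype.val hk
    exact ⟨s2 _ k (congrArg Prod.fst this), s2 _ k (congrArg Prod.snd this)⟩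
  have hne : ∀ u ∈ B, u ≠ 1 → u.1 ≠ 1 ∧ u.2 ≠ 1 := fun u hu h0 =>
    ⟨fun h => h0 (h2.le ⟨hu, hBX hu, h, trivial⟩), fun h => h0 (h1.le ⟨hu, hBX hu, trivial, h⟩)⟩
  have hsq' : ∀ u ∈ B, u * u = 1 := fun u hu => by
    rw [← pow_two]; exact Prod.ext (hsq u hu).1 (hsq u hu).2
  obtain ⟨u, hu, v, hv, u1, v1, uv, hall⟩ : ∃ u ∈ B, ∃ v ∈ B, u ≠ 1 ∧ v ≠ 1 ∧ u * v ≠ 1 ∧ ∀ w ∈ B, w = 1 ∨ w = u ∨ w = v ∨ w = u * v := by
    have hc : (B : Set (A4 × A4)).toFinset.card = 4 := by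
      rw [Set.toFinset_card, ← Nat.card_eq_fintype_card]; exact hB4
    obtain ⟨u, hu, u1⟩ := Finset.exists_mem_notMem_of_card_lt_card (s := {1}) (t := (B : Set (A4 × A4)).toFinset) (by simp [hc])
    obtain ⟨v, hv, v1⟩ := Finset.exists_mem_notMem_of_card_lt_card (s := {1, u}) (t := (B : Set (A4 × A4)).toFinset)
      (by rw [hc]; exact Finset.card_le_two.trans_lt (by norm_num))
    simp only [Set.mem_toFinset, SetLike.mem_coe, Finset.mem_singleton, Finset.mem_insert, not_or] at hu u1 hv v1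
    have uv : u * v ≠ 1 := fun h => v1.2 (by rw [← hsq' u hu] at h; exact mul_left_cancel h)
    refine ⟨u, hu, v, hv, u1, v1.1, uv, ?_⟩
    have : ({1, u, v, u * v} : Finset (A4 × A4)) = (B : Set (A4 × A4)).toFinset := by
      apply Finset.eq_of_subset_of_card_le
      · intro w hw
        simp only [Finset.mem_insert, Finset.mem_singleton] at hw
        rcases hw with rfl | rfl | rfl | rfl <;> simp [hu, hv, mul_mem hu hv]
      · rw [hc, Finset.card_insert_of_notMem, Finset.card_insert_of_notMem, Finset.card_pair]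
        · exact fun h => u1 (by simpa using h)
        · simp only [Finset.mem_insert, Finset.mem_singleton, not_or]
          exact ⟨fun h => v1.2 h.symm, fun h => v1.1 (by simpa using h)⟩
        · simp only [Finset.mem_insert, Finset.mem_singleton, not_or]
          exact ⟨Ne.symm u1, Ne.symm v1.1, Ne.symm uv⟩
    intro w hw
    have h5 : w ∈ ({1, u, v, u * v} : Finset (A4 × A4)) := by rw [this]; simpa using hw
    simpa using h5
  obtain ⟨c, c3, c1⟩ := t4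
  obtain ⟨g, hg⟩ := cj Q (c, 1) (Prod.ext c3 (one_pow _))
  obtain ⟨g', hg'⟩ := cj Q (1, c) (Prod.ext (one_pow _) c3)
  set a := g.1 * c * g.1⁻¹ with ha
  set b := g'.2 * c * g'.2⁻¹ with hb
  have ea : g * (c, 1) * g⁻¹ = (a, 1) := Prod.ext rfl (by simp)
  have eb : g' * (1, c) * g'⁻¹ = (1, b) := Prod.ext (by simp) rfl
  rw [ea] at hg
  rw [eb] at hg'
  have a3 : a ^ 3 = 1 := by rw [ha, conj_pow, c3]; simp
  have b3 : b ^ 3 = 1 := by rw [hb, conj_pow, c3]; simp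
  have a1 : a ≠ 1 := by rw [ha]; simpa using c1
  have b1 : b ≠ 1 := by rw [hb]; simpa using c1
  have key : ∀ a' b' : A4, a' ^ 3 = 1 → b' ^ 3 = 1 → a' ≠ 1 → b' ≠ 1 → (a', b') ∈ (Q : Subgroup (A4 × A4)) →
      (a' * u.1 * a'⁻¹ = v.1 ∧ a' * v.1 * a'⁻¹ = u.1 * v.1 ∧ a' * (u.1 * v.1) * a'⁻¹ = u.1) →
      (b' * u.2 * b'⁻¹ = v.2 ∧ b' * v.2 * b'⁻¹ = u.2 * v.2 ∧ b' * (u.2 * v.2) * b'⁻¹ = u.2) → False := by
    intro a' b' a3 b3 a1 b1 hQ e1 e2
    refine h3 (Subgroup.zpowers (a', b')) (Subgroup.zpowers_le.2 hQ) ?_ ?_ ?_ (Subgroup.zpowers_le.2 ?_)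
    · rw [Nat.card_zpowers]
      exact orderOf_eq_prime (Prod.ext a3 b3) fun h => a1 (congrArg Prod.fst h)
    · exact fun h => b1 (h.le (Subgroup.mem_zpowers _)).2.2
    · exact fun h => a1 (h.le (Subgroup.mem_zpowers _)).2.1
    · apply Subgroup.mem_normalizer_fintype
      intro w hw
      rcases hall w hw with e | e | e | e <;> rw [e]
      · rw [mul_one, mul_inv_cancel]; exact B.one_mem
      · rw [show (a', b') * u * (a', b')⁻¹ = v from Prod.ext e1.1 e2.1]; exact hv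
      · rw [show (a', b') * v * (a', b')⁻¹ = u * v from Prod.ext e1.2.1 e2.2.1]; exact mul_mem hu hv
      · rw [show (a', b') * (u * v) * (a', b')⁻¹ = u from Prod.ext e1.2.2 e2.2.2]; exact hu
  have q1 : (a⁻¹, (1 : A4)) ∈ (Q : Subgroup (A4 × A4)) := by simpa using inv_mem hg
  have q2 : ((1 : A4), b⁻¹) ∈ (Q : Subgroup (A4 × A4)) := by simpa using inv_mem hg'
  have ia : a⁻¹ ^ 3 = 1 := by rw [inv_pow, a3, inv_one]
  have ib : b⁻¹ ^ 3 = 1 := by rw [inv_pow, b3, inv_one]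
  rcases t3 a u.1 v.1 a3 a1 (hsq u hu).1 (hsq v hv).1 (hne u hu u1).1 (hne v hv v1).1 (hne _ (mul_mem hu hv) uv).1 with e1 | e1 <;>
  rcases t3 b u.2 v.2 b3 b1 (hsq u hu).2 (hsq v hv).2 (hne u hu u1).2 (hne v hv v1).2 (hne _ (mul_mem hu hv) uv).2 with e2 | e2
  · exact key a b a3 b3 a1 b1 (by simpa using mul_mem hg hg') e1 e2
  · exact key a b⁻¹ a3 ib a1 (inv_ne_one.2 b1) (by simpa using mul_mem hg q2) e1 e2
  · exact key a⁻¹ b ia b3 (inv_ne_one.2 a1) b1 (by simpa using mul_mem q1 hg') e1 e2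
  · exact key a⁻¹ b⁻¹ ia ib (inv_ne_one.2 a1) (inv_ne_one.2 b1) (by simpa using mul_mem q1 q2) e1 e2

end Cfsg.Agent.S4406
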