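import Cfsg.Statements.S4407
import Cfsg.Agent.H1.Basic
import Cfsg.Agent.L.PG1
import Cfsg.Agent.H9.Basic

set_option autoImplicit false
open Cfsg

namespace Cfsg.Agent.S4407

open scoped Pointwise
open H1
open Subgroup

section
variable {S : Type*} [Group S] [Finite S] {A : Subgroup S} {a b z s f : S}

theorem tri (h : a ^ 3 = 1) (hb : b ∈ zpowers a) : b = 1 ∨ b = a ∨ b = a⁻¹ := by
  obtain ⟨k, rfl⟩ := hb
  simp only [zpow_eq_zpow_emod' k h]
  have : k % ((3 : ℕ) : ℤ) = 0 ∨ k % ((3 : ℕ) : ℤ) = 1 ∨ k % ((3 : ℕ) : ℤ) = 2 := by omega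
  rcases this with e | e | e <;> rw [e]
  · simp
  · simp
  · right; right
    rw [eq_inv_iff_mul_eq_one, ← h]; group

theorem gen (hA : IsElementaryAbelian 3 A) (hA9 : Nat.card A = 9) (ha : a ∈ A) (hb : b ∈ A) (a1 : a ≠ 1)
    (h : b ∉ zpowers a) : zpowers a ⊔ zpowers b = A := by
  haveI : Fact (Nat.Prime 3) := ⟨Nat.prime_three⟩
  have l : zpowers a ⊔ zpowers b ≤ A := sup_le (zpowers_le.2 ha) (zpowers_le.2 hb)
  refine eq_of_le_of_card_ge l ?_
  have := L.mul_card_le_of_lt ((IsPGroup.of_card (p := 3) (n := 2) hA9).to_le l) (left_lt_sup.2 (mt zpowers_le.1 h))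
  rw [Nat.card_zpowers, orderOf_eq_prime (hA.2 a ha) a1] at this
  rwa [hA9]

theorem cm (hA : IsElementaryAbelian 3 A) (ha : a ∈ A) (hb : b ∈ A) : a * b = b * a :=
  congrArg Subtype.val (hA.1.1.1 ⟨a, ha⟩ ⟨b, hb⟩)

theorem ne_inv (h : a ^ 3 = 1) (a1 : a ≠ 1) : a ≠ a⁻¹ := fun e => a1 (by
  rw [eq_inv_iff_mul_eq_one] at e
  rwa [pow_three, e, mul_one] at h)

theorem inv [n : A.Normal] (hA : IsElementaryAbelian 3 A) (hA9 : Nat.card A = 9) (hs : s * s = z) (hz : z * z = 1)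
    (hc : z ∉ centralizer (A : Set S)) : ∀ x ∈ A, z * x * z⁻¹ = x⁻¹ := by
  obtain ⟨x, hx, e⟩ : ∃ x ∈ A, x * z ≠ z * x := by
    by_contra! h
    exact hc h
  have zi := inv_eq_of_mul_eq_one_right hz
  obtain ⟨c, c0, c1, c2⟩ : ∃ c ∈ A, c ≠ 1 ∧ z * c * z⁻¹ = c⁻¹ := by
    refine ⟨x⁻¹ * (z * x * z⁻¹), mul_mem (inv_mem hx) (n.1 _ hx z), fun c => e ?_, ?_⟩
    · rw [inv_mul_eq_one, eq_mul_inv_iff_mul_eq] at c; exact c
    · calc _ = z * x⁻¹ * z⁻¹ * (z * z) * x * (z * z)⁻¹ := by group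
        _ = _ := by rw [hz]; group
  have d : z * (s * c * s⁻¹) * z⁻¹ = (s * c * s⁻¹)⁻¹ := by
    calc _ = s * (z * c * z⁻¹) * s⁻¹ := by rw [← hs]; group
      _ = _ := by rw [c2]; group
  have e : z * c * z⁻¹ = s * (s * c * s⁻¹) * s⁻¹ := by rw [← hs]; group
  have g := gen hA hA9 c0 (n.1 _ c0 s) c1 fun h => ne_inv (hA.2 c c0) c1 (by
    rw [← c2, e]
    rcases tri (hA.2 c c0) h with h | h | h
    · rw [mul_inv_eq_one, mul_eq_left] at h; exact absurd h c1
    · rw [h, h]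
    · rw [h, ← conj_inv, h, inv_inv])
  intro y hy
  obtain ⟨_, ⟨i, rfl⟩, _, ⟨j, rfl⟩, rfl⟩ := (H1.mem_sup_of_le_normalizer_right (zpowers_le.2
    (Subgroup.centralizer_le_normalizer _ (by
      rw [H9.centralizer_zpowers, mem_centralizer_singleton_iff]; exact cm hA c0 (n.1 _ c0 s))))).1 (g.ge hy)
  simp only
  rw [← conj_mul, ← conj_zpow, ← conj_zpow, c2, d, inv_zpow, inv_zpow, ← mul_inv_rev,
    cm hA (zpow_mem c0 i) (zpow_mem (n.1 _ c0 s) j)]

variable {M : Type*} [AddCommGroup M] [Module (ZMod 2) M] (ρ : Representation (ZMod 2) S M)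

def stab (N : Submodule (ZMod 2) M) : Subgroup S where
  carrier := {g | ∀ m ∈ N, ρ g m ∈ N}
  one_mem' := fun m h => by simpa using h
  mul_mem' := fun ha hb m h => by simpa using ha _ (hb m h)
  inv_mem' := fun {g} hg => by
    have : ∀ n : ℕ, ∀ m ∈ N, ρ (g ^ n) m ∈ N := fun n => by
      induction n with
      | zero => intro m h; simpa using h
      | succ n ih => intro m h; rw [pow_succ, map_mul]; exact ih _ (hg m h)
    rw [inv_eq_of_mul_eq_one_right ((mul_pow_sub_one (orderOf_pos g).ne' g).trans (pow_orderOf_eq_one g))]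
    exact this _

theorem h2 (m : M) : m + m = 0 := by
  rw [← two_smul (ZMod 2) m]; exact (congrArg (· • m) (by decide : (2 : ZMod 2) = 0)).trans (zero_smul _ m)

variable {ρ}

theorem rr {x y x' y' : S} (h : x * y = x' * y') (m : M) : ρ x (ρ y m) = ρ x' (ρ y' m) := by
  rw [← Module.End.mul_apply, ← map_mul, h, map_mul, Module.End.mul_apply]

theorem r1 {x y : S} (h : x * y = 1) (m : M) : ρ x (ρ y m) = m := by
  rw [← Module.End.mul_apply, ← map_mul, h, map_one, Module.End.one_apply]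

theorem r3 (h : a ^ 3 = 1) (m : M) : ρ a (ρ a (ρ a m)) = m := by
  rw [← Module.End.mul_apply (ρ a) (ρ a) m, ← map_mul, r1 (pow_three a ▸ h)]

theorem fixA [n : A.Normal] (hf : Function.Injective ρ) (ha : a ∈ A) (a1 : a ≠ 1)
    (hirr : ∀ N : Submodule (ZMod 2) M, (∀ s : S, ∀ m ∈ N, ρ s m ∈ N) → N = ⊥ ∨ N = ⊤)
    (g : zpowers a ⊔ zpowers b = A) {m : M} (h1 : ρ a m = m) (h2 : ρ b m = m) : m = 0 := by
  let N : Submodule (ZMod 2) M :=
    { carrier := {m | ∀ x ∈ A, ρ x m = m}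
      add_mem' := fun h h' x hx => by rw [map_add, h x hx, h' x hx]
      zero_mem' := fun x _ => map_zero _
      smul_mem' := fun c m h x hx => by rw [map_smul, h x hx] }
  rcases hirr N (fun s m h x hx => by
    rw [rr (show x * s = s * (s⁻¹ * x * s⁻¹⁻¹) by group), h _ (n.1 _ hx _)]) with h | h
  · refine (Submodule.mem_bot _).1 (h.le fun x hx => ?_)
    have k : ∀ c : S, ρ c m = m → zpowers c ≤ stab ρ (Submodule.span (ZMod 2) {m}) := fun c hc =>
      zpowers_le.2 fun u hu => by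
        obtain ⟨t, rfl⟩ := Submodule.mem_span_singleton.1 hu
        rwa [map_smul, hc]
    obtain ⟨t, e⟩ := Submodule.mem_span_singleton.1
      (sup_le (k a h1) (k b h2) (g.ge hx) m (Submodule.mem_span_singleton_self m))
    obtain rfl | rfl : t = 0 ∨ t = 1 := by clear * -; revert t; decide
    · rw [zero_smul] at e
      have := r1 (ρ := ρ) (inv_mul_cancel x) m
      rw [← e, map_zero] at this
      rw [← this, map_zero]
    · rw [← e, one_smul]
  · exact absurd (hf (LinearMap.ext fun m => (h.ge Submodule.mem_top a ha).trans (by simp))) a1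

theorem fixz {w : M} (P : M → Prop) (hz : z * z = 1) (w0 : w ≠ 0) (h : P w) (h' : P (w + ρ z w)) :
    ∃ v, v ≠ 0 ∧ P v ∧ ρ z v = v := by
  by_cases e : ρ z w = w
  · exact ⟨w, w0, h, e⟩
  · refine ⟨_, fun c => e ?_, h', by rw [map_add, r1 hz, add_comm]⟩
    linear_combination (norm := abel) c - h2 w

theorem core [n : A.Normal] (hA : IsElementaryAbelian 3 A) (hA9 : Nat.card A = 9) (hf : Function.Injective ρ)
    (hirr : ∀ N : Submodule (ZMod 2) M, (∀ s : S, ∀ m ∈ N, ρ s m ∈ N) → N = ⊥ ∨ N = ⊤)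
    (ha : a ∈ A) (a1 : a ≠ 1) (ss : s * s = 1) (ff : f * f = 1) (zz : z * z = 1) (zf : z * f = f * z)
    (zs : z * s = s * z) (sf : f * s = s * (f * z)) (hz : ∀ x ∈ A, z * x * z⁻¹ = x⁻¹) (fa : f * a = a * f)
    (hT : ∀ T : Subgroup S, A ≤ T → s ∈ T → f ∈ T → T = ⊤) {w : M} (w0 : w ≠ 0) (hw : ρ a w = w) :
    Nat.card M = 16 ∧ Nat.card {m // ρ z m = m ∧ ρ s m = m} = 2 ∧
      ∃ v u : M, v ≠ 0 ∧ u ≠ 0 ∧ v ≠ u ∧ (ρ z v = v ∧ ρ f v = v) ∧ ρ z u = u ∧ ρ f u = u := by
  obtain ⟨b, eb⟩ : ∃ b, b = s * a * s⁻¹ := ⟨_, rfl⟩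
  have hb : b ∈ A := eb ▸ n.1 _ ha s
  have b1 : b ≠ 1 := fun h => a1 (by rwa [eb, mul_inv_eq_one, mul_eq_left] at h)
  have bs : b * s = s * a := by rw [eb]; group
  have as : a * s = s * b := by
    calc _ = s * s * a * (s * s)⁻¹ * s := by rw [ss]; group
      _ = _ := by rw [eb]; group
  have i3 : ∀ x ∈ A, z * x = x * x * z := fun x hx => by
    rw [← mul_inv_eq_iff_eq_mul, hz x hx, inv_eq_iff_mul_eq_one, ← pow_three, hA.2 x hx]
  have zfb : z * f * b = b * (z * f) := by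
    have : z * f * s = s * f := by rw [mul_assoc, sf, ← mul_assoc, zs, mul_assoc, ← zf, ← mul_assoc z, zz, one_mul]
    apply mul_right_cancel (b := s)
    rw [mul_assoc _ b, bs, ← mul_assoc, this, mul_assoc b, this, ← mul_assoc, bs, mul_assoc, fa, mul_assoc]
  have fb : f * b = b * b * f := by
    calc _ = z * (z * f * b) := by rw [← mul_assoc, ← mul_assoc, zz, one_mul]
      _ = b * b * (z * z) * f := by rw [zfb, ← mul_assoc, i3 b hb]; group
      _ = _ := by rw [zz, mul_one]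
  have g := gen hA hA9 ha hb a1 fun h => b1 (by
    have : Commute f b := by obtain ⟨k, rfl⟩ := h; exact Commute.zpow_right fa k
    rw [this.eq, mul_left_inj] at fb
    exact left_eq_mul.1 fb)
  have fx := fun m => fixA (m := m) hf ha a1 hirr g
  have az : a * z = z * (a * a) := by
    have := hA.2 a ha
    rw [← mul_assoc, i3 a ha, mul_assoc, i3 a ha, ← mul_assoc, ← mul_assoc, mul_assoc a a a, ← pow_three, this, one_mul]
  obtain ⟨w, w0, hw, hw'⟩ := fixz (ρ := ρ) (fun m => ρ a m = m) zz w0 hw (by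
    simp only [map_add, rr az, map_mul, Module.End.mul_apply, hw])
  obtain ⟨v, v0, ⟨av, zv⟩, fv⟩ := fixz (ρ := ρ) (fun m => ρ a m = m ∧ ρ z m = m) ff w0 ⟨hw, hw'⟩ (by
    simp only [map_add, rr fa.symm, rr zf, hw, hw', and_self])
  have ab := rr (ρ := ρ) (cm hA ha hb)
  have bb : ρ b (ρ b v) = v + ρ b v := by
    have := fx (v + ρ b v + ρ b (ρ b v)) (by simp only [map_add, ab, av]) (by
      simp only [map_add, r3 (hA.2 b hb)]; abel)
    linear_combination (norm := abel) this - h2 v - h2 (ρ b v)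
  have zb : ρ z (ρ b v) = v + ρ b v := by rw [rr (i3 b hb), zv, map_mul, Module.End.mul_apply, bb]
  have fbv : ρ f (ρ b v) = v + ρ b v := by rw [rr fb, fv, map_mul, Module.End.mul_apply, bb]
  let ψ : (ZMod 2 × ZMod 2) →ₗ[ZMod 2] M :=
    (LinearMap.toSpanSingleton _ _ v).coprod (LinearMap.toSpanSingleton _ _ (ρ b v))
  have eψ : ∀ p, ψ p = p.1 • v + p.2 • ρ b v := fun p => rfl
  let F := ψ.coprod ((ρ s).comp ψ)
  have eF : ∀ p, F p = ψ p.1 + ρ s (ψ p.2) := fun p => rfl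
  have a0 : ∀ p, ρ a (ψ p) = ψ p := fun p => by simp only [eψ, map_add, map_smul, ab, av]
  have b0 : ∀ p, ρ b (ψ p) = ψ (p.2, p.1 + p.2) := fun p => by
    simp only [eψ, map_add, map_smul, bb]; module
  have z0 : ∀ p, ρ z (ψ p) = ψ (p.1 + p.2, p.2) := fun p => by
    simp only [eψ, map_add, map_smul, zb, zv]; module
  have f0 : ∀ p, ρ f (ψ p) = ψ (p.1 + p.2, p.2) := fun p => by
    simp only [eψ, map_add, map_smul, fbv, fv]; module
  have i0 : ∀ p, ψ p = 0 → p = 0 := fun p h => by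
    obtain rfl | rfl | rfl | rfl : p = 0 ∨ p = (1, 0) ∨ p = (0, 1) ∨ p = (1, 1) := by clear * -; revert p; decide
    · rfl
    · exact absurd (by simpa [eψ] using h) v0
    · have := b0 (0, 1)
      have e : ρ b v = 0 := by simpa [eψ] using h
      rw [e, map_zero, add_zero] at bb
      exact absurd bb.symm v0
    · have e : v + ρ b v = 0 := by simpa [eψ] using h
      refine absurd (fx v av ?_) v0
      linear_combination (norm := abel) e - h2 v
  have inj : Function.Injective F := (injective_iff_map_eq_zero F).2 fun p h => by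
    have e : ψ p.1 = ρ s (ψ p.2) := by
      rw [eF] at h
      linear_combination (norm := abel) h - h2 (ρ s (ψ p.2))
    have e1 := fx _ (a0 p.1) (by rw [e, rr bs, a0])
    have e2 : ψ p.2 = 0 := by rw [← r1 (ρ := ρ) ss (ψ p.2), ← e, e1, map_zero]
    exact Prod.ext (i0 _ e1) (i0 _ e2)
  have s1 : ∀ p, ρ s (F p) = F (p.2, p.1) := fun p => by rw [eF, eF, map_add, r1 ss, add_comm]
  have z1 : ∀ p, ρ z (F p) = F ((p.1.1 + p.1.2, p.1.2), (p.2.1 + p.2.2, p.2.2)) := fun p => by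
    rw [eF, eF, map_add, rr zs, z0, z0]
  have f1 : ∀ p, ρ f (F p) = F ((p.1.1 + p.1.2, p.1.2), (p.2.1 + p.2.2 + p.2.2, p.2.2)) := fun p => by
    rw [eF, eF, map_add, rr sf, map_mul, Module.End.mul_apply, z0, f0, f0]
  have sa : a ∈ stab ρ (LinearMap.range F) := by
    rintro _ ⟨p, rfl⟩
    exact ⟨(p.1, (p.2.2, p.2.1 + p.2.2)), by rw [eF, eF, map_add, rr as, a0, b0]⟩
  have sS : s ∈ stab ρ (LinearMap.range F) := by
    rintro _ ⟨p, rfl⟩
    exact ⟨_, (s1 p).symm⟩
  have sur : Function.Surjective F := LinearMap.range_eq_top.1 ((hirr _ fun x => (hT (stab ρ (LinearMap.range F))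
    (g.ge.trans (sup_le (zpowers_le.2 sa) (zpowers_le.2 (eb ▸ mul_mem (mul_mem sS sa) (inv_mem sS))))) sS
    (by rintro _ ⟨p, rfl⟩; exact ⟨_, (f1 p).symm⟩)).ge (mem_top x)).resolve_left fun h =>
      absurd (inj ((Submodule.mem_bot _).1 (h.le ⟨((1, 0), 0), rfl⟩) |>.trans (map_zero F).symm)) (by decide))
  refine ⟨by rw [← Nat.card_eq_of_bijective F ⟨inj, sur⟩]; simp, ?_, F ((1, 0), 0), F (0, (1, 0)), ?_⟩
  · rw [← Nat.card_congr ((Equiv.ofBijective F ⟨inj, sur⟩).subtypeEquiv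
      (p := fun p => ((p.1.1 + p.1.2, p.1.2), (p.2.1 + p.2.2, p.2.2)) = p ∧ (p.2, p.1) = p) fun p => by
        change _ ↔ ρ z (F p) = F p ∧ ρ s (F p) = F p
        simp only [s1, z1, inj.eq_iff]), Nat.card_eq_fintype_card]
    decide
  · simp only [← map_zero F, z1, f1, ne_eq, inj.eq_iff]
    decide

theorem exfix (ab : a * b = b * a) (a3 : a ^ 3 = 1) (b3 : b ^ 3 = 1) [Nontrivial M] :
    ∃ w, w ≠ 0 ∧ (ρ a w = w ∨ ρ b w = w ∨ ρ (a * b) w = w ∨ ρ (a * b * b) w = w) := by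
  by_contra! h
  have c : Commute a b := ab
  have E : ∀ x : S, x ^ 3 = 1 → (∀ w, w ≠ 0 → ρ x w ≠ w) → ∀ w, w + ρ x w + ρ x (ρ x w) = 0 := fun x hx k w => by
    by_contra e
    exact k _ e (by simp only [map_add, r3 hx]; abel)
  obtain ⟨w, w0⟩ := exists_ne (0 : M)
  have e1 := E a a3 (fun w c => (h w c).1) w
  have e2 := E b b3 (fun w c => (h w c).2.1) (ρ a w)
  have e3 := E b b3 (fun w c => (h w c).2.1) (ρ a (ρ a w))
  have e4 := E (a * b) (by rw [c.mul_pow, a3, b3, mul_one]) (fun w c => (h w c).2.2.1) w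
  have e5 := E (a * b * b) (by rw [(c.mul_left (.refl b)).mul_pow, c.mul_pow, a3, b3, mul_one, mul_one])
    (fun w c => (h w c).2.2.2) w
  simp only [map_mul, Module.End.mul_apply, rr ab, r3 b3] at e4 e5
  exact w0 (by linear_combination (norm := abel) e1 - e2 - e3 + e4 + e5 - h2 w)

end

open DihedralGroup in
def K (i : ZMod 4) : Subgroup (DihedralGroup 4) where
  carrier := {x | x = 1 ∨ x = r 2 ∨ x = sr i ∨ x = sr i * r 2}
  one_mem' := Or.inl rfl
  mul_mem' := fun {x y} => by simp only [Set.mem_setOf_eq]; revert i x y; decide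
  inv_mem' := fun {x} => by simp only [Set.mem_setOf_eq]; revert i x; decide

theorem mK {i : ZMod 4} {x : DihedralGroup 4} : x ∈ K i ↔ x = 1 ∨ x = .r 2 ∨ x = .sr i ∨ x = .sr i * .r 2 := Iff.rfl

theorem zc (i : ZMod 4) : DihedralGroup.r 2 * .sr i = .sr i * .r 2 := by revert i; decide

theorem sc (i : ZMod 4) : DihedralGroup.sr i * .sr (i + 1) = .sr (i + 1) * (.sr i * .r 2) := by revert i; decide

theorem cK (i : ZMod 4) : Nat.card (K i) = 4 := by
  rw [Nat.card_congr (Equiv.subtypeEquivRight fun x => mK), Nat.card_eq_fintype_card]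
  revert i; decide

/-- Let S be a finite group with a normal elementary abelian subgroup A of order 9 that is self-centralizing (C_S(A) = A), and a dihedral subgroup X of order 8 with S = AX. Let M be a finite-dimensional module for S over the field with two elements that is faithful and irreducible. Then M has 16 elements, and X contains exactly one subgroup B of order 4 and exponent 2 whose fixed points on M form a subspace with exactly 2 elements (equivalently, M is free of rank one over the group algebra of B). -/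
theorem result {S : Type*} [Group S] [Finite S]
    (A : Subgroup S) [A.Normal] (hA : Cfsg.IsElementaryAbelian 3 A) (hA9 : Nat.card ↥A = 9)
    (hAC : Subgroup.centralizer (A : Set S) = A) (X : Subgroup S) (hX : Nonempty (↥X ≃* DihedralGroup 4)) (hAX : A ⊔ X = ⊤)
    {M : Type*} [AddCommGroup M] [Module (ZMod 2) M] [Finite M] (ρ : Representation (ZMod 2) S M)
    (hfaith : Function.Injective ρ)
    (hirr : ∀ N : Submodule (ZMod 2) M, (∀ s : S, ∀ m ∈ N, ρ s m ∈ N) → N = ⊥ ∨ N = ⊤) (hM : Nontrivial M) :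
    Nat.card M = 16 ∧
      ∃! B : Subgroup S, B ≤ X ∧ Nat.card ↥B = 4 ∧ (∀ b ∈ B, b ^ 2 = 1) ∧
        Nat.card {m : M // ∀ b ∈ B, ρ b m = m} = 2 := by
  obtain ⟨e⟩ := hX
  let φ : DihedralGroup 4 →* S := X.subtype.comp e.symm.toMonoidHom
  have inj : Function.Injective φ := X.subtype_injective.comp e.symm.injective
  have rg : φ.range = X := by
    rw [MonoidHom.range_comp, MonoidHom.range_eq_top.2 e.symm.surjective, ← MonoidHom.range_eq_map, range_subtype]
  clear_value φ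
  subst rg
  have n : A.Normal := inferInstance
  have q : ∀ {x y x' y'}, x * y = x' * y' → φ x * φ y = φ x' * φ y' := fun h => by rw [← map_mul, h, map_mul]
  have q1 : ∀ {x y}, x * y = 1 → φ x * φ y = 1 := fun h => by rw [← map_mul, h, map_one]
  have nc : ∀ x, x ≠ 1 → φ x ∉ centralizer (A : Set S) := fun x h c => h (by
    have := hA.2 _ (hAC.le c)
    rw [← map_pow, map_eq_one_iff φ inj] at this
    clear * - this
    revert x; decide)
  have hz := inv hA hA9 (s := φ (.r 1)) (z := φ (.r 2)) (map_mul φ _ _).symm (q1 rfl) (nc _ (by decide))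
  have key : ∀ (i : ZMod 4) a, a ∈ A → a ≠ 1 → φ (.sr i) * a = a * φ (.sr i) → ∀ w, w ≠ 0 → ρ a w = w →
      Nat.card M = 16 ∧ ∃! B : Subgroup S, B ≤ φ.range ∧ Nat.card ↥B = 4 ∧ (∀ b ∈ B, b ^ 2 = 1) ∧
        Nat.card {m : M // ∀ b ∈ B, ρ b m = m} = 2 := fun i a ha a1 fa w w0 hw => by
    obtain ⟨c1, c2, v, u, v0, u0, vu, hv, hu⟩ := core (s := φ (.sr (i + 1))) (z := φ (.r 2)) hA hA9 hfaith hirr ha a1
      (q1 (DihedralGroup.sr_mul_self _)) (q1 (DihedralGroup.sr_mul_self _)) (q1 rfl) (q (zc _))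
      (q (zc _)) (by rw [← map_mul φ _ (.r 2)]; exact q (sc i)) hz fa (fun T h1 h2 h3 => by
        rw [eq_top_iff, ← hAX]
        refine sup_le h1 ?_
        rintro _ ⟨x, rfl⟩
        have : ∀ (i : ZMod 4) (x : DihedralGroup 4), ∃ k : Fin 4, x = (.sr i * .sr (i + 1)) ^ k.1 ∨
          x = (.sr i * .sr (i + 1)) ^ k.1 * .sr i := by decide
        obtain ⟨k, rfl | rfl⟩ := this i x <;> simp only [map_mul, map_pow]
        exacts [pow_mem (mul_mem h3 h2) _, mul_mem (pow_mem (mul_mem h3 h2) _) h3]) w0 hw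
    have fK : ∀ j m, (∀ b ∈ (K j).map φ, ρ b m = m) ↔ ρ (φ (.r 2)) m = m ∧ ρ (φ (.sr j)) m = m := fun j m => by
      refine ⟨fun h => ⟨h _ ⟨_, by simp [mK], rfl⟩, h _ ⟨_, by simp [mK], rfl⟩⟩, ?_⟩
      rintro ⟨h1, h2⟩ _ ⟨x, rfl | rfl | rfl | rfl, rfl⟩
      exacts [by simp, h1, h2, by rw [map_mul, map_mul, Module.End.mul_apply, h1, h2]]
    have cd : ∀ j, Nat.card ((K j).map φ) = 4 := fun j => by rw [card_map_of_injective inj, cK]
    refine ⟨c1, (K (i + 1)).map φ, ⟨map_le_range _ _, cd _, ?_, ?_⟩, fun B ⟨k1, k2, k3, k4⟩ => ?_⟩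
    · rintro _ ⟨x, hx, rfl⟩
      rw [← map_pow, map_eq_one_iff φ inj]
      rw [SetLike.mem_coe, mK] at hx
      clear * - hx
      revert i x; decide
    · exact (Nat.card_congr (Equiv.subtypeEquivRight (fK _))).trans c2
    by_contra k5
    obtain ⟨y, y1, y2⟩ := SetLike.not_le_iff_exists.1 fun h => k5 (eq_of_le_of_card_ge h (by rw [k2, cd]))
    have : B ≤ (K i).map φ := fun x hx => by
      have d := k3 _ (mul_mem hx y1)
      have d1 := k3 _ hx
      have d2 := k3 _ y1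
      obtain ⟨x, rfl⟩ := k1 hx
      obtain ⟨y, rfl⟩ := k1 y1
      rw [mem_map_iff_mem inj, mK] at y2 ⊢
      rw [← map_mul] at d
      rw [← map_pow, map_eq_one_iff φ inj] at d d1 d2
      clear * - d d1 d2 y2
      revert i x y; decide
    obtain ⟨t, -, ht⟩ := (Nat.card_eq_two_iff' ⟨0, fun _ _ => map_zero _⟩).1 k4
    exact vu (congrArg Subtype.val ((ht ⟨v, fun b hb => (fK i v).2 hv b (this hb)⟩ fun c => v0 (congrArg Subtype.val c)).trans
      (ht ⟨u, fun b hb => (fK i u).2 hu b (this hb)⟩ fun c => u0 (congrArg Subtype.val c)).symm))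
  obtain ⟨x, hx, ex⟩ : ∃ x ∈ A, x * φ (.sr 0 * .r 2) ≠ φ (.sr 0 * .r 2) * x := by
    by_contra! h
    exact nc _ (by decide) h
  have ff : φ (.sr 0) * φ (.sr 0) = 1 := q1 rfl
  have ss : φ (.sr (0 + 1)) * φ (.sr (0 + 1)) = 1 := q1 rfl
  have sf : φ (.sr 0) * φ (.sr (0 + 1)) * φ (.r 2) = φ (.sr (0 + 1)) * φ (.sr 0) := by rw [← map_mul]; exact q rfl
  rw [map_mul] at ex
  have k0 := key 0
  have k1 := key (0 + 1)
  generalize φ (.sr 0) = f at *
  generalize φ (.sr (0 + 1)) = s at *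
  generalize φ (.r 2) = z at *
  obtain ⟨a, ha, a1, fa⟩ : ∃ a ∈ A, a ≠ 1 ∧ f * a = a * f := by
    refine ⟨x * (f * x * f⁻¹), mul_mem hx (n.1 _ hx f), fun c => ex ?_, ?_⟩
    · calc _ = x * (f * x * f⁻¹) * f * x⁻¹ * z := by group
        _ = _ := by rw [c, ← hz x hx]; group
    · calc _ = f * x * f⁻¹ * (f * f) * x * (f * f)⁻¹ * f := by group
        _ = _ := by rw [ff, cm hA hx (n.1 _ hx f)]; group
  have hb := n.1 _ ha s
  have si := inv_eq_of_mul_eq_one_right ss
  have as : s * (s * a * s⁻¹) = a * s := by rw [← mul_assoc, ← mul_assoc, ss, one_mul, si]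
  have fi : f * a⁻¹ = a⁻¹ * f := (Commute.inv_right fa).eq
  have fb : f * (s * a * s⁻¹) = (s * a * s⁻¹)⁻¹ * f := by
    calc _ = f * s * (z * a⁻¹ * z⁻¹) * s⁻¹ := by rw [hz _ (inv_mem ha), inv_inv, mul_assoc, mul_assoc, mul_assoc]
      _ = f * s * z * a⁻¹ * (f * s * z)⁻¹ * f := by group
      _ = s * (f * a⁻¹) * f⁻¹ * s⁻¹ * f := by rw [sf]; group
      _ = _ := by rw [fi]; group
  have ab := cm hA ha hb
  have b3 := hA.2 _ hb
  have bs : s * a = s * a * s⁻¹ * s := by group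
  have b1 : s * a * s⁻¹ ≠ 1 := fun h => a1 (by rwa [mul_inv_eq_one, mul_eq_left] at h)
  generalize s * a * s⁻¹ = b at *
  have r0 : ∀ (g : S) (w : M), w ≠ 0 → ρ g w ≠ 0 := fun g w h c => h (by
    rw [← r1 (ρ := ρ) (inv_mul_cancel g) w, c, map_zero])
  have k2 := k1 (a * b) (mul_mem ha hb) (fun c => ne_inv b3 b1 (by
    rw [← inv_eq_of_mul_eq_one_right c, fi, mul_left_inj] at fb
    rwa [← inv_eq_of_mul_eq_one_right c])) (by rw [← mul_assoc, bs, mul_assoc, ab, mul_assoc, ← as])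
  obtain ⟨w, w0, h | h | h | h⟩ := exfix (ρ := ρ) ab (hA.2 _ ha) b3
  · exact k0 a ha a1 fa w w0 h
  · exact k0 a ha a1 fa _ (r0 s w w0) (by rw [rr as.symm, h])
  · exact k2 w w0 h
  · refine k2 _ (r0 f w w0) ?_
    rw [rr (x' := f) (y' := a * b * b) ?_, h]
    calc _ = a * b * (b ^ 3)⁻¹ * f := by rw [b3, inv_one, mul_one]
      _ = a * (b⁻¹ * (b⁻¹ * f)) := by group
      _ = _ := by rw [← fb, ← mul_assoc b⁻¹, ← fb, ← mul_assoc, ← mul_assoc, ← fa]; group

end Cfsg.Agent.S4407
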