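import Cfsg.Statements.S4408
import Cfsg.Agent.H2.Weight

set_option autoImplicit false
open Cfsg

namespace Cfsg.Agent.S4408

open Subgroup H1 Cfsg.Agent.H2

/-- Let S be a finite solvable group whose Fitting subgroup F(S) has odd order, and let I be an elementary abelian 2-subgroup of S of order 2ⁿ with n ≥ 1. Then F(S) contains subgroups A₁, …, Aₙ of prime order, each normalized by I, pairwise commuting and generating a subgroup A of order |A₁|⋯|Aₙ| (their internal direct product), such that no non-identity element of I centralizes A. -/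
theorem result {S : Type*} [Group S] [Finite S]
    [Group.IsSolvable S] (hF : Odd (Nat.card ↥(Cfsg.fittingSubgroup S)))
    (I : Subgroup S) (hI : Cfsg.IsElementaryAbelian 2 I) (n : ℕ) (hn : 1 ≤ n) (hIn : Nat.card ↥I = 2 ^ n) :
    ∃ f : Fin n → Subgroup S, (∀ i, (Nat.card ↥(f i)).Prime) ∧ (∀ i, f i ≤ Cfsg.fittingSubgroup S) ∧
      (∀ i, I ≤ Subgroup.normalizer ((f i) : Set S)) ∧ (∀ i j, i ≠ j → ∀ a ∈ f i, ∀ b ∈ f j, a * b = b * a) ∧
      Nat.card ↥(⨆ i, f i) = ∏ i, Nat.card ↥(f i) ∧ I ⊓ Subgroup.centralizer ((⨆ i, f i : Subgroup S) : Set S) = ⊥ := by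
  have p2 : (Nat.card I).Coprime (Nat.card (fittingSubgroup S)) := hIn ▸ (Nat.coprime_two_left.2 hF).pow_left n
  obtain ⟨M, m1, m2, m3, m4⟩ := exists_ab_faithful hI fitting_isNilpotent p2 le_normalizer_of_normal
    (le_bot_iff.1 ((inf_le_inf_left _ centralizer_fitting_le).trans (disjoint_of_coprime_natCard p2).le_bot))
  have oM := hF.of_dvd_nat (card_dvd_of_le m1)
  obtain ⟨y, b, h1, -, h3, -⟩ := exists_dual hI m2 oM m3 m4 n I le_rfl hIn
  have yM : ∀ i, zpowers (y i) ≤ M := fun i => zpowers_le.2 (h1 i).1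
  have cm : ∀ i j, ∀ u ∈ zpowers (y i), ∀ v ∈ zpowers (y j), u * v = v * u := fun i j u hu v hv =>
    le_centralizer_iff_isMulCommutative.2 m2 (yM j hv) _ (yM i hu)
  refine ⟨fun i => zpowers (y i), fun i => by rw [Nat.card_zpowers]; exact (h1 i).2.1, fun i => (yM i).trans m1,
    fun i => le_normalizer_iff.2 ?_, fun i j _ => cm i j, ?_,
    le_bot_iff.1 fun x hx => h3 x hx.1 fun i => (hx.2 _ (mem_iSup_of_mem i (mem_zpowers _))).symm⟩
  · rintro a ha _ ⟨k, rfl⟩
    rw [← conj_zpow]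
    exact zpow_mem (((h1 i).2.2.1 a ha).elim (fun e => e.symm ▸ mem_zpowers _) fun e => e.symm ▸ inv_mem (mem_zpowers _)) k
  · have hc : Pairwise fun i j => ∀ u v, u ∈ zpowers (y i) → v ∈ zpowers (y j) → Commute u v := fun i j _ u v hu hv => cm i j u hu v hv
    rw [← noncommPiCoprod_range (hcomm := hc), ← Nat.card_pi]
    refine (Nat.card_congr (MonoidHom.ofInjective (injective_noncommPiCoprod_of_iSupIndep fun i => disjoint_def.2 ?_)).toEquiv).symm
    rintro _ ⟨k, rfl⟩ h
    have h5 : (⨆ j, ⨆ (_ : j ≠ i), zpowers (y j)) ≤ centralizer {b i} := iSup₂_le fun j hj => zpowers_le.2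
      (mem_centralizer_singleton_iff.2 ((h1 i).2.2.2.2.2 j hj).symm)
    have h6 := mem_centralizer_singleton_iff.1 (h5 h)
    have h7 : y i ^ k = (y i ^ k)⁻¹ := by
      rw [← inv_zpow, ← (h1 i).2.2.2.2.1, conj_zpow, ← h6, mul_inv_cancel_right]
    rw [eq_inv_iff_mul_eq_one, ← pow_two, ← orderOf_dvd_iff_pow_eq_one] at h7
    exact orderOf_eq_one_iff.1 (Nat.eq_one_of_dvd_coprimes (Nat.coprime_two_left.2 oM) h7
      (M.orderOf_dvd_natCard (zpow_mem (h1 i).1 k)))

end Cfsg.Agent.S4408
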