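import Cfsg.Statements.S4410
import Cfsg.Agent.H1.Q2

set_option autoImplicit false
open Cfsg

namespace Cfsg.Agent.S4410

open H1
open Subgroup H9

/-- Let V be a finite-dimensional vector space over the field with two elements and S a solvable group of linear automorphisms of V with O₂(S) = 1. If P ∈ S has order 4 and (P − 1)³ = 0 on V, then the image of (P − 1)² has at least 4 elements; equivalently, in the decomposition of V into indecomposable modules for the cyclic group generated by P, at least two summands have dimension 3. -/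
theorem result
    {V : Type*} [AddCommGroup V] [Module (ZMod 2) V] [Finite V]
    (S : Subgroup (V ≃ₗ[ZMod 2] V)) (hS : Group.IsSolvable ↥S) (hO2 : Cfsg.pCore 2 ↥S = ⊥)
    (P : V ≃ₗ[ZMod 2] V) (hPS : P ∈ S) (hP4 : orderOf P = 4)
    (hcub : ((P : V →ₗ[ZMod 2] V) - LinearMap.id) ^ 3 = 0) :
    4 ≤ Nat.card ↥(LinearMap.range (((P : V →ₗ[ZMod 2] V) - LinearMap.id) ^ 2)) := by
  have : Finite (V ≃ₗ[ZMod 2] V) := Finite.of_injective (fun f => (f : V → V)) DFunLike.coe_injective
  let ρ : S →* MulAut (Multiplicative V) :=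
    { toFun := fun s => AddEquiv.toMultiplicative s.1.toAddEquiv, map_one' := rfl, map_mul' := fun _ _ => rfl }
  obtain ⟨Γ, _, _, i, j, hi, hj, hij, -, -, hn⟩ := exists_ambient ρ
  have v2 : ∀ v : V, v + v = 0 := fun v => by rw [← two_smul (ZMod 2) v]; exact zero_smul _ v
  have cm : ∀ s v, i v * j s = j s * i v ↔ s.1 v.toAdd = v.toAdd := fun s v => by
    rw [eq_comm, ← mul_inv_eq_iff_eq_mul, hij, hi.eq_iff]; rfl
  have h : FP 2 i.range j.range := by
    refine ⟨⟨inferInstance, ?_⟩, nrm _ _, le_bot_iff.1 ?_, cc_of_psol (psol_of_solvable ?_) ?_⟩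
    · rintro _ ⟨v, rfl⟩
      rw [← map_pow, sq, show v * v = 1 from v2 v.toAdd, map_one]
    · rintro _ ⟨⟨s, rfl⟩, hs⟩
      rw [mem_bot, show s = 1 from Subtype.ext (LinearEquiv.ext fun v => (cm s (.ofAdd v)).1 (hs _ ⟨_, rfl⟩)), map_one]
    · exact Group.isSolvable_of_surjective j.rangeRestrict_surjective
    · rw [MonoidHom.range_eq_map, ← map_Op_of_injective j hj, Op_top, hO2, Subgroup.map_bot]
  set d : S := ⟨P, hPS⟩
  have od : orderOf (j d) = 4 := by rw [orderOf_injective j hj, ← hP4, ← orderOf_coe]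
  have ot : orderOf (j d ^ 2) = 2 := by rw [orderOf_pow' _ two_ne_zero, od]; norm_num
  set N := ((P : V →ₗ[ZMod 2] V) - LinearMap.id) ^ 2 with hN
  have eN : ∀ v, N v = P (P v) - v := fun v => by
    simp only [hN, sq, Module.End.mul_apply, LinearMap.sub_apply, LinearMap.id_apply, LinearEquiv.coe_coe, map_sub]
    calc P (P v) - P v - (P v - v) = P (P v) - v - (P v + P v) + (v + v) := by abel
      _ = _ := by rw [v2, v2, sub_zero, add_zero]
  have c1 : Nat.card (i.range ⊓ centralizer (zpowers (j d ^ 2) : Set Γ) : Subgroup Γ) = Nat.card (LinearMap.ker N) := by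
    rw [H9.centralizer_zpowers, ← map_pow]
    refine (Nat.card_congr (Equiv.ofBijective (fun v : LinearMap.ker N => ⟨i (.ofAdd v.1), ⟨_, rfl⟩,
      mem_centralizer_singleton_iff.2 ((cm _ _).2 (sub_eq_zero.1 ((eN _).symm.trans v.2)))⟩)
      ⟨fun v w e => Subtype.ext (hi (congrArg Subtype.val e)), ?_⟩)).symm
    rintro ⟨_, ⟨v, rfl⟩, hv⟩
    exact ⟨⟨v.toAdd, (eN _).trans (sub_eq_zero.2 ((cm _ _).1 (mem_centralizer_singleton_iff.1 hv)))⟩, rfl⟩
  have c2 : Nat.card i.range = Nat.card (LinearMap.range N) * Nat.card (LinearMap.ker N) := by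
    rw [← Nat.card_congr (MonoidHom.ofInjective hi).toEquiv, ← Nat.card_congr N.quotKerEquivRange.toEquiv, mul_comm]
    exact Submodule.card_eq_card_quotient_mul_card (M := V) _
  have tH : zpowers (j d ^ 2) ≤ j.range := zpowers_le.2 (j.range.pow_mem ⟨d, rfl⟩ 2)
  have t1 : j d ^ 2 ≠ 1 := fun e => by rw [e, orderOf_one] at ot; omega
  obtain ⟨k, hk⟩ := L.exists_card_eq_pow h.pV
  obtain ⟨m, -, hm⟩ := (Nat.dvd_prime_pow Nat.prime_two).1 (Dvd.intro _ (c2.symm.trans hk))
  rw [hm] at c2 ⊢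
  rcases m with _ | _ | m
  · rw [pow_zero, one_mul, ← c1] at c2
    exact absurd (zpowers_eq_bot.1 (h.eq_bot tH (le_centralizer_iff.1
      ((eq_of_le_of_card_ge inf_le_left c2.le).ge.trans inf_le_right)))) t1
  · have t : Tv 2 i.range j.range (zpowers (j d ^ 2)) :=
      ⟨tH, by rw [Nat.card_zpowers, ot], by rw [ms, c1, c2, Nat.card_zpowers, ot]; rfl⟩
    exact absurd (h.sq_eq_one tH (h.tv_iff.1 t).2.1 ⟨d, rfl⟩ (by
      rw [H9.centralizer_zpowers]; exact mem_centralizer_singleton_iff.2 ((Commute.refl _).pow_right 2).eq)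
      (mem_zpowers _)) t1
  · rw [pow_succ, pow_succ]
    have : 0 < 2 ^ m := by positivity
    omega

end Cfsg.Agent.S4410
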