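import Cfsg.Statements.S4411
import Cfsg.Agent.H1.HPQ

set_option autoImplicit false
open Cfsg

namespace Cfsg.Agent.S4411

open scoped commutatorElement
open H1
open Subgroup H9
open scoped commutatorElement

universe u

/-- all automizers of `p`-subgroups are `p`-solvable -/
def RS (p : ℕ) (G : Type*) [Group G] : Prop :=
  ∀ H : Subgroup G, IsPGroup p H → ∀ K N : Subgroup G, K ≤ normalizer (H : Set G) →
    centralizer (H : Set G) ⊓ K ≤ N → N < K → K ≤ normalizer (N : Set G) →
      ∃ M : Subgroup G, N ≤ M ∧ M < K ∧ K ≤ normalizer (M : Set G) ∧ PFactor p M K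

/-- a `q`-group acts nontrivially on `H` -/
def AQ' {G : Type*} [Group G] (q : ℕ) (H : Subgroup G) : Prop :=
  ∃ Q : Subgroup G, IsPGroup q Q ∧ Q ≤ normalizer (H : Set G) ∧ ¬ Q ≤ centralizer (H : Set G)

section
variable {G Γ : Type*} [Group G] [Finite G] [Group Γ] [Finite Γ] {p : ℕ} {X : Subgroup G} (f : X →* Γ)

theorem relIndex_im {M K : Subgroup G} (h1 : M ≤ K) (h2 : K ≤ X) (h : kr f ⊓ K ≤ M) :
    (im f M).relIndex (im f K) = M.relIndex K := by
  rw [← relIndex_subgroupOf h2]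
  refine relIndex_map_of_ker_le f (comap_mono h1) ?_
  rw [ker_inf_subgroupOf]; exact comap_mono h

theorem lt_im {M K : Subgroup G} (h1 : M < K) (h2 : K ≤ X) (h : kr f ⊓ K ≤ M) : im f M < im f K :=
  lt_of_le_of_ne (im_mono f h1.le) fun e => h1.not_ge (relIndex_eq_one.1 (by
    rw [← relIndex_im f h1.le h2 h, e, relIndex_self]))

theorem RS.sec [Fact p.Prime] (h : RS p G) (hf : Function.Surjective f) (hk : IsPGroup p (kr f)) : RS p Γ := by
  intro H hH K N h1 h2 h3 h4
  obtain ⟨M, m1, m2, m3, m4⟩ := h (pre f H)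
    (isPGroup_of_im f (pre_le f H) (by rwa [im_pre_surj f hf]) (hk.to_le inf_le_left)) (pre f K) (pre f N)
    (pre_le_normalizer f h1) (by
      refine (im_le_iff f (inf_le_right.trans (pre_le f K))).1 ((im_inf_le f _ _).trans (le_trans ?_ h2))
      refine inf_le_inf ?_ (im_pre_le f K)
      have := im_le_centralizer f (le_refl (centralizer ((pre f H : Subgroup G) : Set G)))
      rwa [im_pre_surj f hf] at this)
    (lt_of_le_of_ne (pre_mono f h3.le) fun e => h3.ne (by rw [← im_pre_surj f hf N, e, im_pre_surj f hf]))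
    (pre_le_normalizer f h4)
  have k : kr f ⊓ pre f K ≤ M := inf_le_left.trans ((kr_le_pre f N).trans m1)
  have a := lt_im f m2 (pre_le f K) k
  have b := relIndex_im f m2.le (pre_le f K) k
  have c := im_le_normalizer f m3
  rw [im_pre_surj f hf] at a b c
  exact ⟨im f M, im_pre_surj f hf N ▸ im_mono f m1, a, c, by unfold PFactor at m4 ⊢; rwa [b]⟩

end

theorem RS.psol {G : Type*} [Group G] [Finite G] {p : ℕ} [Fact p.Prime] (h : RS p G) {H P : Subgroup G}
    (hH : IsPGroup p H) (hP : Syl p P (centralizer (H : Set G))) :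
    PSol p (normalizer (H : Set G) ⊓ normalizer (P : Set G)) := by
  intro K N h1 h2 h3
  set C := centralizer (H : Set G)
  have nC : K ≤ normalizer ((C ⊓ K : Subgroup G) : Set G) :=
    normalizer_inf (H9.normalizer_centralizer (h1.trans inf_le_left)) Subgroup.le_normalizer
  have nP : K ≤ normalizer ((P ⊓ K : Subgroup G) : Set G) :=
    normalizer_inf (h1.trans inf_le_right) Subgroup.le_normalizer
  rcases (sup_le inf_le_right h2.le : C ⊓ K ⊔ N ≤ K).lt_or_eq with a | a
  · obtain ⟨M, m1, m⟩ := h H hH K _ (h1.trans inf_le_left) le_sup_left a (normalizer_sup nC h3)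
    exact ⟨M, le_sup_right.trans m1, m⟩
  rcases (sup_le inf_le_right h2.le : P ⊓ K ⊔ N ≤ K).lt_or_eq with b | b
  · have n := normalizer_sup nP h3
    refine ⟨_, le_sup_right, b, n, Or.inr (cop_iff.2 fun d => ?_)⟩
    have e : C ⊓ K ⊔ (P ⊓ K ⊔ N) = K := le_antisymm (sup_le inf_le_right b.le)
      (a.ge.trans (sup_le_sup_left le_sup_right _))
    rw [← congrArg (relIndex (P ⊓ K ⊔ N)) e, H1.relIndex_sup_of_le_normalizer (inf_le_right.trans n)] at d
    have d2 := d.trans (relIndex_dvd_of_le_left _ le_sup_left)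
    rw [← inf_relIndex_right, inf_assoc, inf_eq_right.2 (inf_le_right : C ⊓ K ≤ K), inf_relIndex_right] at d2
    exact (hP.mono (le_inf hP.le Subgroup.le_normalizer) inf_le_left).not_dvd (d2.trans
      (relIndex_dvd_relIndex_of_le_normalizer (inf_le_inf_left _ (h1.trans inf_le_right)) inf_le_right))
  · refine ⟨N, le_rfl, h2, h3, Or.inl ?_⟩
    rw [← congrArg (relIndex N) b, H1.relIndex_sup_of_le_normalizer (inf_le_right.trans h3)]
    exact L.exists_relIndex_eq_pow (hP.isP.to_le inf_le_left)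

theorem main {p q : ℕ} [hp : Fact p.Prime] [hq : Fact q.Prime] (hpq : p ≠ q)
    (h23 : ¬ ((p = 2 ∧ q = 3) ∨ (p = 3 ∧ q = 2))) (Δ : Type u) [Group Δ] [Finite Δ] :
    RS p Δ → ∀ H : Subgroup Δ, IsPGroup p H → AQ' q H →
      ∃ K S : Subgroup Δ, Syl p S ⊤ ∧ K ≤ S ∧ S ≤ normalizer (K : Set Δ) ∧ AQ' q K := by
  refine card_induction (P := fun Δ _ _ => RS p Δ → ∀ H : Subgroup Δ, IsPGroup p H → AQ' q H →
      ∃ K S : Subgroup Δ, Syl p S ⊤ ∧ K ≤ S ∧ S ≤ normalizer (K : Set Δ) ∧ AQ' q K) ?_ Δ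
  intro G _ _ ih hR H₀ hH₀ a₀
  have sec : ∀ (X : Subgroup G) (Γ : Type u) [Group Γ] [Finite Γ] (f : X →* Γ), Function.Surjective f →
      Nat.card Γ < Nat.card G → IsPGroup p (kr f) → ∀ H Q : Subgroup G, H ≤ X → Q ≤ X → IsPGroup p H →
      IsPGroup q Q → Q ≤ normalizer (H : Set G) → ¬ ⁅Q, H⁆ ≤ kr f →
      ∃ K S : Subgroup G, Syl p S X ∧ K ≤ S ∧ S ≤ normalizer (K : Set G) ∧ AQ' q K := by
    intro X Γ _ _ f hf hc hk H Q h1 h2 h3 h4 h5 h6
    obtain ⟨K, S, k1, k2, k3, Q', q1, q2, q3⟩ := ih X Γ f hf hc (hR.sec f hf hk) (im f H) (isPGroup_im f h3)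
      ⟨im f Q, isPGroup_im f h4, im_le_normalizer f h5, fun e => h6 ((im_le_centralizer_iff f h2 h1).1 e)⟩
    obtain ⟨P, p1, rfl⟩ := Syl.exists_of_im f le_rfl ((im_self f hf).symm ▸ k1)
    obtain ⟨Q₁, r1, r2⟩ := Syl.exists_of_im f (pre_le f Q') (P' := Q')
      (by rw [im_pre_surj f hf]; exact syl_self q1)
    rw [← r2] at q2 q3
    have kP : kr f ≤ P := p1.le_of_le_normalizer hk (kr_le f) (Or.inr (p1.le.trans (le_normalizer_kr f)))
    refine ⟨pre f K, P, p1, (pre_mono f k2).trans ((pre_im f p1.le).le.trans (sup_le le_rfl kP)),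
      le_normalizer_pre f p1.le k3, Q₁, r1.isP, le_normalizer_pre f (r1.le.trans (pre_le f _)) q2, fun e => q3 ?_⟩
    have := im_le_centralizer f e
    rwa [im_pre_surj f hf] at this
  obtain ⟨H, ⟨hH, Q, q1, q2, q3⟩, hm⟩ := Set.exists_max_image {H : Subgroup G | IsPGroup p H ∧ AQ' q H}
    (fun H => (Nat.card (normalizer (H : Set G))).factorization p) (Set.toFinite _) ⟨H₀, hH₀, a₀⟩
  have cqp : ∀ {Q : Subgroup G}, IsPGroup q Q → (Nat.card Q).Coprime p := fun h => cop_of_isPGroup_ne hpq.symm h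
  obtain ⟨P, hP⟩ := exists_syl (p := p) (normalizer (H : Set G))
  have HP : H ≤ P := hP.le_of_le_normalizer hH Subgroup.le_normalizer (Or.inr hP.le)
  obtain ⟨S, hS, PS⟩ := exists_syl_ge hP.isP (le_top : P ≤ ⊤)
  rcases PS.lt_or_eq with lt | rfl
  swap
  · exact ⟨H, P, hS, HP, hP.le, Q, q1, q2, q3⟩
  haveI : (Op p (⊤ : Subgroup G)).Normal := normal_of_top_le (le_normalizer_Op p ⊤)
  by_cases hO : Op p (⊤ : Subgroup G) = ⊥
  swap
  · by_cases a : AQ' q (Op p (⊤ : Subgroup G))
    · exact ⟨_, S, hS, hS.Op_le, le_normalizer_of_normal, a⟩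
    obtain ⟨Γ, _, _, f, hf, hk, hc⟩ := exists_quot (le_top : Op p (⊤ : Subgroup G) ≤ ⊤) le_normalizer_of_normal
    refine sec ⊤ Γ f hf (card_lt_of_mul_eq hc hO) (hk.symm ▸ Op_p p ⊤) H Q le_top le_top hH q1 q2 fun e => q3 ?_
    rw [hk, commutator_comm] at e
    refine le_centralizer_iff.1 (cop_le_centralizer q2 (copA_of_p' hH (cqp q1)) e (le_centralizer_iff.1 ?_))
    by_contra c
    exact a ⟨Q, q1, le_normalizer_of_normal, c⟩
  exfalso
  have H0 : H ≠ ⊥ := fun e => q3 (by rw [e]; intro x _ y hy; rw [mem_bot.1 hy, one_mul, mul_one])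
  have P0 : P ≠ ⊥ := fun e => H0 (le_bot_iff.1 (e ▸ HP))
  have star : ∀ W : Subgroup G, W ≠ ⊥ → W ≤ P → normalizer (P : Set G) ≤ normalizer (W : Set G) →
      ∀ T : Subgroup G, IsPGroup q T → T ≤ normalizer (H : Set G) → T ≤ normalizer (W : Set G) → T ≤ centralizer (H : Set G) := by
    intro W w0 w1 w2 T t1 t2 t3
    by_contra c
    have ne := normalizer_ne_top_of_Op (hP.isP.to_le w1) (fun e => w0 (le_bot_iff.1 (hO ▸ e)))
    obtain ⟨K, S', k1, k2, k3, k4⟩ := sec (normalizer (W : Set G)) _ (MonoidHom.id _) Function.surjective_id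
      (by rw [← card_top (G := G)]; exact H9.card_lt_of_lt (lt_top_iff_ne_top.2 ne))
      (by rw [kr_id]; exact IsPGroup.of_bot) H T (HP.trans (Subgroup.le_normalizer.trans w2)) t3 hH t1 t2
      (by rw [kr_id, le_bot_iff, commutator_eq_bot_iff_le_centralizer]; exact c)
    have a := hm K ⟨k1.isP.to_le k2, k4⟩
    obtain ⟨U, hU⟩ := exists_syl (p := p) (normalizer (K : Set G))
    have b := hU.card_le k1.isP k3
    have d := k1.card_le (hS.isP.to_le (inf_le_right : normalizer (P : Set G) ⊓ S ≤ S)) (inf_le_left.trans w2)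
    have e := H9.card_lt_of_lt (lt_normalizer_of_nilpotent hS.isP.isNilpotent lt)
    rw [hU.card_eq] at b
    rw [hP.card_eq] at e
    exact absurd ((e.trans_le d).trans_le b) (not_lt.2 (Nat.pow_le_pow_right hp.out.pos a))
  set C := centralizer (H : Set G)
  have nC : normalizer (H : Set G) ≤ normalizer (C : Set G) := H9.normalizer_centralizer le_rfl
  have s0 := hP.inf_normal (Subgroup.centralizer_le_normalizer _) nC
  obtain ⟨L, l1, l2, l3, T, t1, t2⟩ := hallpq_rel (q := q) (hR.psol hH s0)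
    (hP.mono (le_inf hP.le (normalizer_inf Subgroup.le_normalizer (hP.le.trans nC))) inf_le_left)
  have lN : L ≤ normalizer (H : Set G) := l1.trans inf_le_left
  have tf : TF p L := tf_of_not_six' ((hR.psol hH s0).mono l1) fun d => by
    have a := l3 2 Nat.prime_two (Dvd.dvd.trans (by decide) d)
    have b := l3 3 Nat.prime_three (Dvd.dvd.trans (by decide) d)
    simp only [Set.mem_insert_iff, Set.mem_singleton_iff] at a b
    omega
  have sL := hP.mono l2 lN
  have gen : ∀ W : Subgroup G, W ≠ ⊥ → W ≤ P → normalizer (P : Set G) ≤ normalizer (W : Set G) →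
      ∀ A ≤ L, P ≤ A → A ≤ normalizer (W : Set G) → A ≤ C ⊔ P := by
    intro W w0 w1 w2 A a1 a2 a3
    refine le_of_forall_syl fun r hr => ?_
    by_cases e : r = p
    · subst e; exact ⟨P, sL.mono a2 a1, le_sup_right⟩
    obtain ⟨R, hR⟩ := exists_syl (p := r) A
    refine ⟨R, hR, le_sup_of_le_left ?_⟩
    by_cases e' : r = q
    · subst e'; exact star W w0 w1 w2 R hR.isP (hR.le.trans (a1.trans lN)) (hR.le.trans a3)
    · rw [hR.eq_bot_iff.2 (cop_iff.2 fun d => by
        rcases l3 r hr.out (d.trans (card_dvd_of_le a1)) with h | h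
        · exact e h
        · exact e' h)]
      exact bot_le
  have key : L ≤ C ⊔ P := fun g hg => by
    obtain ⟨x, hx, c, hc, n, hn, rfl⟩ := tf P sL g hg
    refine mul_mem (mul_mem (mem_sup_left ?_) ?_) ?_
    · exact le_centralizer_iff.1 (commutator_eq_bot_iff_le_centralizer.1 (commutator_eq_bot_of_p_p' hH (Op'_cop p L)
        ((HP.trans l2).trans (le_normalizer_Op' p L)) ((Op'_le p L).trans lN))) hx
    · exact gen (OZ p P) (OZ_ne_bot hP.isP P0) (OZ_le p P) (normalizer_OZ le_rfl) _ inf_le_left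
        (le_inf l2 (le_centralizer_iff.1 (OZ_le_centralizer p P)))
        (inf_le_right.trans (Subgroup.centralizer_le_normalizer _)) hc
    · exact gen (JE p P) (JE_ne_bot (dvd_card_of_isPGroup hP.isP P0)) (JE_le p P) (normalizer_JE le_rfl) _
        inf_le_left (le_inf l2 (normalizer_JE Subgroup.le_normalizer)) inf_le_right hn
  have tC : T ≤ C := (le_Ores t1 (cqp t2.isP)).trans (Ores_le_of_sup hP.isP (hP.le.trans nC) key)
  have fr := s0.frattini (Subgroup.centralizer_le_normalizer _) nC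
  have nd := t2.not_dvd_of_le' tC
  rw [← H1.relIndex_sup_of_le_normalizer (inf_le_left.trans nC), sup_comm, fr] at nd
  exact q3 (SN.le_of_not_dvd (SN.of_normal (Subgroup.centralizer_le_normalizer _) nC) nd q1 q2)

/-- Let p and q be distinct primes with {p, q} ≠ {2, 3}, and let G be a finite group such that for every p-subgroup H of G the automizer N_G(H)/C_G(H) is p-solvable. If q divides the order of N_G(H)/C_G(H) for some p-subgroup H, then a Sylow p-subgroup of G has a normal subgroup K (normal in the Sylow subgroup) such that q divides the order of N_G(K)/C_G(K). -/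
theorem result {G : Type*} [Group G] [Finite G]
    (p q : ℕ) [Fact p.Prime] [Fact q.Prime] (hpq : p ≠ q) (h23 : ¬ ((p = 2 ∧ q = 3) ∨ (p = 3 ∧ q = 2)))
    (hsol : ∀ H : Subgroup G, IsPGroup p ↥H →
      Cfsg.IsPSolvable p (↥(Subgroup.normalizer (H : Set G)) ⧸ (Subgroup.centralizer (H : Set G)).subgroupOf (Subgroup.normalizer (H : Set G))))
    (H : Subgroup G) (hH : IsPGroup p ↥H)
    (hq : q ∣ ((Subgroup.centralizer (H : Set G)).subgroupOf (Subgroup.normalizer (H : Set G))).index)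
    (Gp : Sylow p G) :
    ∃ K : Subgroup G, K ≤ (Gp : Subgroup G) ∧ (Gp : Subgroup G) ≤ Subgroup.normalizer (K : Set G) ∧
      q ∣ ((Subgroup.centralizer (K : Set G)).subgroupOf (Subgroup.normalizer (K : Set G))).index := by
  have hR : RS p G := by
    intro H hH K N h1 h2 h3 h4
    let f := QuotientGroup.mk' ((centralizer (H : Set G)).subgroupOf (normalizer (H : Set G)))
    have hk : kr f ≤ centralizer (H : Set G) := by rw [kr_mk']; exact map_comap_le _ _
    have k : kr f ⊓ K ≤ N := (inf_le_inf_right _ hk).trans h2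
    obtain ⟨M, m1, m2, m3, m4⟩ := psol_of_isPSolvable (hsol H hH) (im f K) (im f N) le_top (lt_im f h3 h1 k)
      (im_le_normalizer f h4)
    have e := im_pre_inf f m2.le
    refine ⟨pre f M ⊓ K, le_inf ((im_le_iff f (h3.le.trans h1)).1 m1) h3.le,
      lt_of_le_of_ne inf_le_right fun a => m2.ne (by rw [← e, a]),
      normalizer_inf (le_normalizer_pre f h1 m3) Subgroup.le_normalizer, ?_⟩
    have b := relIndex_im f (inf_le_right : pre f M ⊓ K ≤ K) h1 (inf_le_inf_right _ (kr_le_pre f M))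
    rw [e] at b
    unfold PFactor at m4 ⊢
    rwa [← b]
  obtain ⟨Q, hQ⟩ := exists_syl (p := q) (normalizer (H : Set G))
  obtain ⟨K, S, k1, k2, k3, T, t1, t2, t3⟩ := main hpq h23 G hR H hH
    ⟨Q, hQ.isP, hQ.le, fun e => hQ.not_dvd_of_le' e hq⟩
  obtain ⟨g, -, hg⟩ := k1.conj (syl_top_of_sylow Gp)
  refine ⟨cj g K, hg ▸ cj_mono g k2, by rw [← hg, ← cj_normalizer]; exact cj_mono g k3, ?_⟩
  by_contra nd
  have := SN.le_of_not_dvd (SN.of_normal (Subgroup.centralizer_le_normalizer _)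
    (H9.normalizer_centralizer le_rfl)) nd (t1.map (MulAut.conj g).toMonoidHom)
    (by rw [← cj_normalizer]; exact cj_mono g t2)
  rw [← cj_centralizer] at this
  exact t3 (cj_le_cj_iff.1 this)

end Cfsg.Agent.S4411
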