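import Cfsg.Statements.S4412
import Cfsg.Agent.CZ.C
import Cfsg.Agent.H1.Generation

set_option autoImplicit false
open Cfsg

namespace Cfsg.Agent.S4412

open Subgroup

section
variable {P : Type*} [Group P] [Finite P]

theorem sq_inj (hodd : Odd (Nat.card P)) {x y : P} (h : x ^ 2 = y ^ 2) : x = y :=
  (Nat.Coprime.pow_left_bijective (n := 2) (G := P) (Nat.Coprime.symm (Nat.coprime_two_left.2 hodd))).1 h

theorem eq_one_of_inv (hodd : Odd (Nat.card P)) {x : P} (h : x = x⁻¹) : x = 1 :=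
  sq_inj hodd (by rw [pow_two, one_pow, ← eq_inv_iff_mul_eq_one]; exact h)

theorem gen0 (hodd : Odd (Nat.card P)) (A : Subgroup (MulAut P)) (hA : IsMulCommutative A) (hA2 : ∀ a ∈ A, a ^ 2 = 1)
    (K H : Subgroup P) (hK : ∀ a ∈ A, ∀ x ∈ K, a x ∈ K)
    (h : ∀ x ∈ K, (∀ a ∈ A, ∀ b ∈ A, a x ≠ x → b x ≠ x → a (b x) = x) → x ∈ H) : K ≤ H := by
  let Γ := P ⋊[MonoidHom.id _] MulAut P
  haveI : Finite Γ := Finite.of_equiv _ SemidirectProduct.equivProd.symm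
  let i : P →* Γ := SemidirectProduct.inl
  let j : MulAut P →* Γ := SemidirectProduct.inr
  have hi : Function.Injective i := SemidirectProduct.inl_injective
  have hj : Function.Injective j := SemidirectProduct.inr_injective
  have hij : ∀ a x, j a * i x * (j a)⁻¹ = i (a x) := fun a x => by
    rw [← map_inv]; exact (SemidirectProduct.inl_aut a x).symm
  rw [← map_le_map_iff_of_injective hi]
  refine H1.le_of_centralizer_hyperplane_le (p := 2) (A := A.map j) inferInstance ?_ ?_ ?_ ?_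
  · rintro _ ⟨a, ha, rfl⟩
    rw [← map_pow, hA2 a ha, map_one]
  · rintro _ ⟨a, ha, rfl⟩
    refine mem_normalizer_fintype ?_
    rintro _ ⟨x, hx, rfl⟩
    exact ⟨_, hK a ha x hx, (hij a x).symm⟩
  · rw [card_map_of_injective hi, card_map_of_injective hj]
    obtain ⟨k, hk⟩ := IsPGroup.exists_card_eq (p := 2) (G := A) fun a => ⟨1, Subtype.ext (by simpa using hA2 a a.2)⟩
    rw [hk]
    exact (Nat.Coprime.pow_left k (Nat.coprime_two_left.2 hodd)).coprime_dvd_right (card_subgroup_dvd_card K)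
  · rintro B hB h2 _ ⟨⟨x, hx, rfl⟩, hc⟩
    refine ⟨x, h x hx fun a ha b hb h1 h3 => ?_, rfl⟩
    have key : ∀ a, j a ∈ B → a x = x := fun a ha => hi (by
      rw [← hij, hc _ ha, mul_inv_cancel_right])
    rcases (Nat.dvd_prime Nat.prime_two).1 h2 with e | e
    · exact absurd (key a (relIndex_eq_one.1 e ⟨a, ha, rfl⟩)) h1
    · have := (mul_mem_iff_of_index_two e (a := ⟨j a, a, ha, rfl⟩) (b := ⟨j b, b, hb, rfl⟩)).2
        (iff_of_false (fun h => h1 (key a h)) fun h => h3 (key b h))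
      exact key (a * b) (by rw [map_mul]; exact this)

theorem gen (hodd : Odd (Nat.card P)) (A : Subgroup (MulAut P)) (hA : IsMulCommutative A) (hA2 : ∀ a ∈ A, a ^ 2 = 1)
    (K H : Subgroup P) (hK : ∀ a ∈ A, ∀ x ∈ K, a x ∈ K)
    (h : ∀ x ∈ K, (∀ a ∈ A, a x = x ∨ a x = x⁻¹) → x ∈ H) : K ≤ H := by
  refine gen0 hodd A hA hA2 K H hK fun x hx hx2 => ?_
  by_cases h0 : ∀ a ∈ A, a x = x
  · exact h x hx fun a ha => Or.inl (h0 a ha)
  push Not at h0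
  obtain ⟨t, ht, htx⟩ := h0
  have hcm : ∀ a ∈ A, ∀ y, a (t y) = t (a y) := fun a ha y =>
    congrArg (fun f : A => (f : MulAut P) y) (hA.is_comm.comm ⟨a, ha⟩ ⟨t, ht⟩)
  have htt : ∀ y, t (t y) = y := fun y => congrArg (fun f : MulAut P => f y) (pow_two t ▸ hA2 t ht)
  obtain ⟨k, hk⟩ := hodd
  set w := (t x)⁻¹ * x with hw
  set y := w ^ (k + 1) with hy
  have hy2 : y * y = w := by
    rw [hy, ← pow_add, show k + 1 + (k + 1) = (2 * k + 1) + 1 by ring, ← hk, pow_succ, pow_card_eq_one', one_mul]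
  have htw : t w = w⁻¹ := by rw [hw, map_mul, map_inv, htt]; group
  have hty : t y = y⁻¹ := by rw [hy, map_pow, htw, inv_pow]
  have htc : t (x * y⁻¹) = x * y⁻¹ := by
    rw [map_mul, map_inv, hty, inv_inv, eq_mul_inv_iff_mul_eq, mul_assoc, hy2, hw]; group
  have hyK : y ∈ K := pow_mem (mul_mem (inv_mem (hK t ht x hx)) hx) _
  have hfy : ∀ f : MulAut P, f x = x → f (t x) = t x → f y = y := fun f h1 h2 => by
    rw [hy, map_pow, hw, map_mul, map_inv, h1, h2]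
  have hcase : ∀ a ∈ A, (a x = x ∧ a y = y) ∨ (a (t x) = x ∧ a (t y) = y) := fun a ha => by
    by_cases h1 : a x = x
    · exact Or.inl ⟨h1, hfy a h1 (by rw [hcm a ha, h1])⟩
    · have h2 := hx2 a ha t ht h1 htx
      exact Or.inr ⟨h2, hfy (a * t) h2 (by
        rw [MulAut.mul_apply, hcm a ha, h2])⟩
  rw [show x = x * y⁻¹ * y by group]
  refine mul_mem (h _ (mul_mem hx (inv_mem hyK)) fun a ha => Or.inl ?_) (h _ hyK fun a ha => ?_)
  · rcases hcase a ha with ⟨h1, h2⟩ | ⟨h1, h2⟩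
    · rw [map_mul, map_inv, h1, h2]
    · conv_lhs => rw [← htc, map_mul, map_inv, map_mul, map_inv, h1, h2]
  · rcases hcase a ha with ⟨-, h2⟩ | ⟨-, h2⟩
    · exact Or.inl h2
    · right
      rw [hty, map_inv, inv_eq_iff_eq_inv] at h2
      exact h2

theorem cyc {p : ℕ} [Fact p.Prime] (hP : IsPGroup p P) (hodd : Odd (Nat.card P)) {g a b : P} (U : MulAut P)
    (ha : a ∈ zpowers g) (hb : b ∈ zpowers g) (h1 : U a = a) (h2 : U b = b⁻¹) : a = 1 ∨ b = 1 := by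
  rcases CZ.le_or_le_cyc (hP.to_subgroup (zpowers g)) inferInstance (zpowers_le.2 ha) (zpowers_le.2 hb) with h | h
  · obtain ⟨k, rfl⟩ := h (mem_zpowers a)
    left
    apply eq_one_of_inv hodd
    rw [map_zpow, h2, inv_zpow] at h1
    exact h1.symm
  · obtain ⟨k, rfl⟩ := h (mem_zpowers b)
    right
    apply eq_one_of_inv hodd
    rw [map_zpow, h1] at h2
    exact h2

theorem sgn (hodd : Odd (Nat.card P)) (I : Subgroup (MulAut P)) {x : P} (hx : ∀ a ∈ I, a x = x ∨ a x = x⁻¹) :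
    ∃ s : I →* ℤˣ, ∀ a : I, (s a = 1 ↔ (a : MulAut P) x = x) ∧ (s a = -1 → (a : MulAut P) x = x⁻¹) := by
  classical
  by_cases h1 : x = 1
  · exact ⟨1, fun a => by simp [h1]⟩
  have h2 : x⁻¹ ≠ x := fun e => h1 (eq_one_of_inv hodd e.symm)
  refine ⟨MonoidHom.mk' (fun a => if (a : MulAut P) x = x then 1 else -1) fun a b => ?_, fun a => ?_⟩
  · rcases hx a a.2 with e | e <;> rcases hx b b.2 with f | f <;> simp [e, f, h2]
  · rcases hx a a.2 with e | e <;> simp [e, h2]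

end

set_option synthInstance.maxSize 2048 in
theorem key : ∀ u1 u2 u3 v : ℤˣ × ℤˣ × ℤˣ, u1.1 ≠ 1 → u2.1 = 1 → u2.2.1 ≠ 1 → u3.1 = 1 → u3.2.1 = 1 → u3.2.2 ≠ 1 →
    ∃ i j k : Fin 2, u1 ^ (i : ℕ) * u2 ^ (j : ℕ) * u3 ^ (k : ℕ) = v := by decide +kernel

theorem rank3 {P : Type*} [CommGroup P] [Finite P] {p : ℕ} [hp : Fact p.Prime] (hP : IsPGroup p P)
    (hodd : Odd (Nat.card P)) {a1 a2 a3 : P} (n1 : a1 ≠ 1) (n2 : a2 ≠ 1) (n3 : a3 ≠ 1) (T1 T2 : MulAut P)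
    (e11 : T1 a1 = a1⁻¹) (e12 : T1 a2 = a2) (e13 : T1 a3 = a3) (e21 : T2 a1 = a1) (e22 : T2 a2 = a2⁻¹)
    (e23 : T2 a3 = a3) (a b : P) : closure {a, b} ≠ ⊤ := by
  intro hab
  have ex : ∀ a : P, a ≠ 1 → ∃ b ∈ zpowers a, orderOf b = p := fun a ha => by
    obtain ⟨k, hk⟩ := IsPGroup.iff_orderOf.1 hP a
    have : p ∣ orderOf a := hk ▸ dvd_pow_self p (by rintro rfl; exact ha (orderOf_eq_one_iff.1 (by simpa using hk)))
    exact ⟨_, pow_mem (mem_zpowers a) _, orderOf_pow_orderOf_div (orderOf_pos a).ne' this⟩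
  obtain ⟨b1, m1, o1⟩ := ex a1 n1
  obtain ⟨b2, m2, o2⟩ := ex a2 n2
  obtain ⟨b3, m3, o3⟩ := ex a3 n3
  have fx : ∀ (T : MulAut P) {a b x : P}, T a = a → b ∈ zpowers a → x ∈ zpowers b → T x = x := by
    intro T a b x h hb hx
    obtain ⟨k, rfl⟩ := zpowers_le.2 hb hx
    rw [map_zpow, h]
  have iv : ∀ (T : MulAut P) {a b x : P}, T a = a⁻¹ → b ∈ zpowers a → x ∈ zpowers b → T x = x⁻¹ := by
    intro T a b x h hb hx
    obtain ⟨k, rfl⟩ := zpowers_le.2 hb hx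
    rw [map_zpow, h, inv_zpow]
  have pw : ∀ {b x : P}, orderOf b = p → x ∈ zpowers b → x ^ p = 1 := by
    rintro b _ h ⟨k, rfl⟩
    rw [← zpow_natCast, ← zpow_mul, mul_comm, zpow_mul, zpow_natCast, ← h, pow_orderOf_eq_one, one_zpow]
  let f : P →* P := powMonoidHom p
  let F : zpowers b1 × zpowers b2 × zpowers b3 → f.ker := fun v => ⟨v.1 * v.2.1 * v.2.2, by
    rw [MonoidHom.mem_ker, powMonoidHom_apply, mul_pow, mul_pow, pw o1 v.1.2, pw o2 v.2.1.2, pw o3 v.2.2.2, one_mul, one_mul]⟩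
  have hF : Function.Injective F := by
    rintro ⟨x1, x2, x3⟩ ⟨y1, y2, y3⟩ h
    have h0 : (x1 : P) * x2 * x3 = y1 * y2 * y3 := congrArg Subtype.val h
    have h1 := congrArg T1 h0
    have h2 := congrArg T2 h0
    simp only [map_mul, iv T1 e11 m1 x1.2, iv T1 e11 m1 y1.2, fx T1 e12 m2 x2.2, fx T1 e12 m2 y2.2, fx T1 e13 m3 x3.2,
      fx T1 e13 m3 y3.2] at h1
    simp only [map_mul, fx T2 e21 m1 x1.2, fx T2 e21 m1 y1.2, iv T2 e22 m2 x2.2, iv T2 e22 m2 y2.2, fx T2 e23 m3 x3.2,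
      fx T2 e23 m3 y3.2] at h2
    have k1 : (x1 : P) = y1 := sq_inj hodd (by
      calc (x1 : P) ^ 2 = (x1 * x2 * x3) * ((x1 : P)⁻¹ * x2 * x3)⁻¹ := by rw [pow_two]; group
        _ = _ := by rw [h0, h1, pow_two]; group)
    rw [k1, mul_assoc, mul_assoc, mul_right_inj] at h0 h2
    have k2 : (x2 : P) = y2 := sq_inj hodd (by
      calc (x2 : P) ^ 2 = (x2 * x3) * ((x2 : P)⁻¹ * x3)⁻¹ := by rw [pow_two]; group
        _ = _ := by rw [h0, h2, pow_two]; group)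
    rw [k2, mul_right_inj] at h0
    rw [Subtype.ext k1, Subtype.ext k2, Subtype.ext h0]
  have c1 := Nat.card_le_card_of_injective F hF
  rw [Nat.card_prod, Nat.card_prod, Nat.card_zpowers, Nat.card_zpowers, Nat.card_zpowers, o1, o2, o3] at c1
  let π := QuotientGroup.mk' f.range
  let E : zpowers (π a) × zpowers (π b) → P ⧸ f.range := fun v => v.1 * v.2
  have hE : Function.Surjective E := by
    intro q
    obtain ⟨x, rfl⟩ := QuotientGroup.mk'_surjective _ q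
    obtain ⟨m, n, rfl⟩ := mem_closure_pair.1 (hab ▸ mem_top x)
    exact ⟨(⟨_, m, rfl⟩, ⟨_, n, rfl⟩), by rw [map_mul, map_zpow, map_zpow]⟩
  have c2 := Nat.card_le_card_of_surjective E hE
  have ol : ∀ x, orderOf (π x) ≤ p := fun x => Nat.le_of_dvd hp.out.pos (orderOf_dvd_of_pow_eq_one (by
    rw [← map_pow]; exact (QuotientGroup.eq_one_iff _).2 ⟨x, rfl⟩))
  rw [Nat.card_prod, Nat.card_zpowers, Nat.card_zpowers, ← index_eq_card] at c2
  have c3 : f.range.index = Nat.card f.ker := by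
    have h1 := f.range.card_mul_index
    have h2 := f.ker.card_mul_index
    rw [index_ker, ← h1, mul_comm] at h2
    exact (Nat.eq_of_mul_eq_mul_left Nat.card_pos h2).symm
  have c4 := (c1.trans (c3 ▸ c2)).trans (Nat.mul_le_mul (ol a) (ol b))
  have := hp.out.one_lt
  nlinarith [Nat.mul_pos hp.out.pos hp.out.pos]

/-- Let p be an odd prime, P a finite p-group and I an elementary abelian subgroup of order 8 of Aut(P). Call T ∈ I, T ≠ 1, broad when its fixed-point subgroup C_P(T) is not cyclic. Suppose I has a proper subgroup I₀ containing no broad element such that the product of any two broad elements lies in I₀. Then P is abelian of rank exactly 3 (generated by three elements but not by two), there are exactly three broad elements and they generate I, and I₀ is exactly the set of products of two broad elements. -/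
theorem result
    {P : Type*} [Group P] [Finite P] (p : ℕ) (hp : p.Prime) (hp2 : p ≠ 2) (hP : IsPGroup p P)
    (I : Subgroup (MulAut P)) (hI : Cfsg.IsElementaryAbelian 2 I) (hI8 : Nat.card ↥I = 8)
    (I₀ : Subgroup (MulAut P)) (hI₀ : I₀ < I)
    (hdisj : ∀ T ∈ I₀, T ≠ 1 → ∃ g : P, ∀ x : P, (T x = x ↔ x ∈ Subgroup.zpowers g))
    (hprod : ∀ T ∈ I, ∀ T' ∈ I, T ≠ 1 → T' ≠ 1 → (¬ ∃ g : P, ∀ x : P, (T x = x ↔ x ∈ Subgroup.zpowers g)) →
      (¬ ∃ g : P, ∀ x : P, (T' x = x ↔ x ∈ Subgroup.zpowers g)) → T * T' ∈ I₀) :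
    IsMulCommutative P ∧ (∃ a b c : P, Subgroup.closure {a, b, c} = ⊤) ∧ (¬ ∃ a b : P, Subgroup.closure {a, b} = ⊤) ∧
      Nat.card {T : MulAut P // T ∈ I ∧ T ≠ 1 ∧ ¬ ∃ g : P, ∀ x : P, (T x = x ↔ x ∈ Subgroup.zpowers g)} = 3 ∧
      Subgroup.closure {T : MulAut P | T ∈ I ∧ T ≠ 1 ∧ ¬ ∃ g : P, ∀ x : P, (T x = x ↔ x ∈ Subgroup.zpowers g)} = I ∧
      (I₀ : Set (MulAut P)) = {S : MulAut P | ∃ T T' : MulAut P, T ∈ I ∧ T' ∈ I ∧ T ≠ 1 ∧ T' ≠ 1 ∧
        (¬ ∃ g : P, ∀ x : P, (T x = x ↔ x ∈ Subgroup.zpowers g)) ∧ (¬ ∃ g : P, ∀ x : P, (T' x = x ↔ x ∈ Subgroup.zpowers g)) ∧ S = T * T'} := by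
  haveI := Fact.mk hp
  have hodd : Odd (Nat.card P) := by
    obtain ⟨k, hk⟩ := hP.exists_card_eq
    rw [hk]; exact (hp.odd_of_ne_two hp2).pow
  set E : Set P := {x | ∀ a ∈ I, a x = x ∨ a x = x⁻¹} with hE
  have hgen : ∀ K H : Subgroup P, (∀ a ∈ I, ∀ x ∈ K, a x ∈ K) → (∀ x ∈ K, x ∈ E → x ∈ H) → K ≤ H :=
    fun K H h1 h2 => gen hodd I hI.1 hI.2 K H h1 h2
  have hmove : ∀ U : I, U ≠ 1 → ∃ x ∈ E, (U : MulAut P) x ≠ x := by
    intro U hU
    by_contra! h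
    have := hgen ⊤ ((U : MulAut P).toMonoidHom.eqLocus (MonoidHom.id P)) (fun _ _ _ _ => trivial) fun x _ hx => h x hx
    exact hU (Subtype.ext (MulEquiv.ext fun x => this (mem_top x)))
  have hker : ∀ {M : Type} [Group M] [Finite M] (φ : I →* M), Nat.card M < 8 → ∃ U : I, U ≠ 1 ∧ φ U = 1 := by
    intro M _ _ φ hM
    by_contra! h
    have := Nat.card_le_card_of_injective φ ((injective_iff_map_eq_one φ).2 fun a ha => by_contra fun e => h a e ha)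
    omega
  obtain ⟨U1, hU1, -⟩ := hker (1 : I →* Unit) (by simp)
  obtain ⟨a1, m1, n1⟩ := hmove U1 hU1
  obtain ⟨s1, hs1⟩ := sgn hodd I m1
  obtain ⟨U2, hU2, k2⟩ := hker s1 (by simp)
  obtain ⟨a2, m2, n2⟩ := hmove U2 hU2
  obtain ⟨s2, hs2⟩ := sgn hodd I m2
  obtain ⟨U3, hU3, k3⟩ := hker (s1.prod s2) (by simp)
  obtain ⟨a3, m3, n3⟩ := hmove U3 hU3
  obtain ⟨s3, hs3⟩ := sgn hodd I m3
  let Φ : I →* ℤˣ × ℤˣ × ℤˣ := s1.prod (s2.prod s3)
  have hΦ : Function.Bijective Φ := by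
    refine (Nat.bijective_iff_surjective_and_card Φ).2 ⟨fun v => ?_, by rw [hI8]; simp⟩
    obtain ⟨i, j, k, e⟩ := key (Φ U1) (Φ U2) (Φ U3) v (fun h => n1 ((hs1 _).1.1 h)) k2 (fun h => n2 ((hs2 _).1.1 h))
      (congrArg Prod.fst k3) (congrArg Prod.snd k3) (fun h => n3 ((hs3 _).1.1 h))
    exact ⟨U1 ^ (i : ℕ) * U2 ^ (j : ℕ) * U3 ^ (k : ℕ), by rw [← e, map_mul, map_mul, map_pow, map_pow, map_pow]⟩
  let e := MulEquiv.ofBijective Φ hΦ
  let f : ℤˣ × ℤˣ × ℤˣ →* MulAut P := I.subtype.comp e.symm.toMonoidHom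
  have hfi : Function.Injective f := I.subtype_injective.comp e.symm.injective
  have hfI : ∀ v, f v ∈ I := fun v => (e.symm v).2
  have hfs : ∀ T ∈ I, ∃ v, f v = T := fun T hT => ⟨e ⟨T, hT⟩, congrArg Subtype.val (e.symm_apply_apply _)⟩
  have hv : ∀ v, Φ (e.symm v) = v := e.apply_symm_apply
  have p1 : ∀ v, v.1 = 1 → f v a1 = a1 := fun v h => (hs1 (e.symm v)).1.1 ((congrArg (·.1) (hv v)).trans h)
  have p2 : ∀ v, v.2.1 = 1 → f v a2 = a2 := fun v h => (hs2 (e.symm v)).1.1 ((congrArg (·.2.1) (hv v)).trans h)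
  have p3 : ∀ v, v.2.2 = 1 → f v a3 = a3 := fun v h => (hs3 (e.symm v)).1.1 ((congrArg (·.2.2) (hv v)).trans h)
  have q1 : ∀ v, v.1 = -1 → f v a1 = a1⁻¹ := fun v h => (hs1 (e.symm v)).2 ((congrArg (·.1) (hv v)).trans h)
  have q2 : ∀ v, v.2.1 = -1 → f v a2 = a2⁻¹ := fun v h => (hs2 (e.symm v)).2 ((congrArg (·.2.1) (hv v)).trans h)
  have q3 : ∀ v, v.2.2 = -1 → f v a3 = a3⁻¹ := fun v h => (hs3 (e.symm v)).2 ((congrArg (·.2.2) (hv v)).trans h)
  have o1 : a1 ≠ 1 := by rintro rfl; exact n1 (map_one _)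
  have o2 : a2 ≠ 1 := by rintro rfl; exact n2 (map_one _)
  have o3 : a3 ≠ 1 := by rintro rfl; exact n3 (map_one _)
  have hf1 : ∀ v, v ≠ 1 → f v ≠ 1 := fun v h e => h (hfi (e.trans (map_one f).symm))
  set C : MulAut P → Prop := fun T => ∃ g : P, ∀ x : P, (T x = x ↔ x ∈ zpowers g) with hC
  have nc : ∀ (T U : MulAut P) {a b : P}, a ≠ 1 → b ≠ 1 → T a = a → T b = b → U a = a → U b = b⁻¹ → ¬ C T := by
    rintro T U a b ha hb h1 h2 h3 h4 ⟨g, hg⟩
    exact (cyc hP hodd U ((hg a).1 h1) ((hg b).1 h2) h3 h4).elim ha hb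
  have c1 : ¬ C (f (-1, 1, 1)) := nc _ (f (1, 1, -1)) o2 o3 (p2 _ rfl) (p3 _ rfl) (p2 _ rfl) (q3 _ rfl)
  have c2 : ¬ C (f (1, -1, 1)) := nc _ (f (1, 1, -1)) o1 o3 (p1 _ rfl) (p3 _ rfl) (p1 _ rfl) (q3 _ rfl)
  have c3 : ¬ C (f (1, 1, -1)) := nc _ (f (1, -1, 1)) o1 o2 (p1 _ rfl) (p2 _ rfl) (p1 _ rfl) (q2 _ rfl)
  have hpr : ∀ v w, v ≠ 1 → w ≠ 1 → ¬ C (f v) → ¬ C (f w) → f (v * w) ∈ I₀ := fun v w h1 h2 h3 h4 => by
    rw [map_mul]; exact hprod _ (hfI v) _ (hfI w) (hf1 v h1) (hf1 w h2) h3 h4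
  have i1 : f (1, -1, -1) ∈ I₀ := hpr _ _ (by decide) (by decide) c2 c3
  have i2 : f (-1, 1, -1) ∈ I₀ := hpr _ _ (by decide) (by decide) c1 c3
  have i3 : f (-1, -1, 1) ∈ I₀ := hpr _ _ (by decide) (by decide) c1 c2
  have d1 : C (f (1, -1, -1)) := hdisj _ i1 (hf1 _ (by decide))
  have d2 : C (f (-1, 1, -1)) := hdisj _ i2 (hf1 _ (by decide))
  have d3 : C (f (-1, -1, 1)) := hdisj _ i3 (hf1 _ (by decide))
  obtain ⟨g1, hg1⟩ := id d1
  obtain ⟨g2, hg2⟩ := id d2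
  obtain ⟨g3, hg3⟩ := id d3
  have hE3 : ∀ x ∈ E, x ∈ zpowers g1 ∨ x ∈ zpowers g2 ∨ x ∈ zpowers g3 := by
    intro x hx
    obtain ⟨s, hs⟩ := sgn hodd I hx
    have key : ∀ u v w : ℤˣ, v * w = 1 ∨ u * w = 1 ∨ u * v = 1 := by decide
    rw [← hg1, ← hg2, ← hg3]
    rcases key (s (e.symm (-1, 1, 1))) (s (e.symm (1, -1, 1))) (s (e.symm (1, 1, -1))) with h | h | h <;>
      rw [← map_mul, ← map_mul] at h
    · exact Or.inl ((hs _).1.1 h)
    · exact Or.inr (Or.inl ((hs _).1.1 h))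
    · exact Or.inr (Or.inr ((hs _).1.1 h))
  have hz : MonoidHom.FixedPointFree (f (-1, -1, -1)) := by
    intro y hy
    refine mem_bot.1 (hgen ((f (-1, -1, -1)).toMonoidHom.eqLocus (MonoidHom.id P)) ⊥ (fun a ha x hx => ?_)
      (fun x hx hxE => mem_bot.2 ?_) hy)
    · obtain ⟨v, rfl⟩ := hfs a ha
      show f (-1, -1, -1) (f v x) = f v x
      rw [← MulAut.mul_apply, ← map_mul, mul_comm, map_mul, MulAut.mul_apply, show f (-1, -1, -1) x = x from hx]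
    · rcases hE3 x hxE with h | h | h
      · exact (cyc hP hodd _ h ((hg1 a1).1 (p1 _ rfl)) hx (q1 _ rfl)).resolve_right o1
      · exact (cyc hP hodd _ h ((hg2 a2).1 (p2 _ rfl)) hx (q2 _ rfl)).resolve_right o2
      · exact (cyc hP hodd _ h ((hg3 a3).1 (p3 _ rfl)) hx (q3 _ rfl)).resolve_right o3
  have hcomm := hz.commute_all_of_involutive fun x => by
    rw [← MulAut.mul_apply, ← map_mul, show ((-1, -1, -1) * (-1, -1, -1) : ℤˣ × ℤˣ × ℤˣ) = 1 by decide, map_one,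
      MulAut.one_apply]
  have dz : C (f (-1, -1, -1)) := ⟨1, fun x => by
    rw [zpowers_one_eq_bot, mem_bot]
    exact ⟨hz x, by rintro rfl; exact map_one _⟩⟩
  have enum : ∀ v : ℤˣ × ℤˣ × ℤˣ, (v = (-1, 1, 1) ∨ v = (1, -1, 1) ∨ v = (1, 1, -1)) ∨
      (v = 1 ∨ v = (1, -1, -1) ∨ v = (-1, 1, -1) ∨ v = (-1, -1, 1)) ∨ v = (-1, -1, -1) := by decide
  have hN : ∀ T, (T ∈ I ∧ T ≠ 1 ∧ ¬ C T) ↔ T = f (-1, 1, 1) ∨ T = f (1, -1, 1) ∨ T = f (1, 1, -1) := by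
    intro T
    constructor
    · rintro ⟨h1, h2, h3⟩
      obtain ⟨v, rfl⟩ := hfs T h1
      rcases enum v with (rfl | rfl | rfl) | (rfl | rfl | rfl | rfl) | rfl
      · simp
      · simp
      · simp
      · exact absurd (map_one f) h2
      · exact absurd d1 h3
      · exact absurd d2 h3
      · exact absurd d3 h3
      · exact absurd dz h3
    · rintro (rfl | rfl | rfl)
      · exact ⟨hfI _, hf1 _ (by decide), c1⟩
      · exact ⟨hfI _, hf1 _ (by decide), c2⟩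
      · exact ⟨hfI _, hf1 _ (by decide), c3⟩
  have hN' : {T | T ∈ I ∧ T ≠ 1 ∧ ¬ C T} = {f (-1, 1, 1), f (1, -1, 1), f (1, 1, -1)} := Set.ext hN
  refine ⟨⟨⟨hcomm⟩⟩, ⟨g1, g2, g3, eq_top_iff.2 (hgen ⊤ _ (fun _ _ _ _ => trivial) fun x _ hx => ?_)⟩, ?_, ?_, ?_, ?_⟩
  · rcases hE3 x hx with h | h | h <;> exact zpowers_le.2 (subset_closure (by simp)) h
  · rintro ⟨a, b, hab⟩
    letI : CommGroup P := { mul_comm := hcomm }
    exact rank3 hP hodd o1 o2 o3 (f (-1, 1, 1)) (f (1, -1, 1)) (q1 _ rfl) (p2 _ rfl) (p3 _ rfl) (p1 _ rfl) (q2 _ rfl)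
      (p3 _ rfl) a b hab
  · change Nat.card ({T | T ∈ I ∧ T ≠ 1 ∧ ¬ C T} : Set (MulAut P)) = 3
    rw [hN', Nat.card_coe_set_eq, Set.ncard_eq_three]
    exact ⟨_, _, _, hfi.ne (by decide), hfi.ne (by decide), hfi.ne (by decide), rfl⟩
  · change closure {T | T ∈ I ∧ T ≠ 1 ∧ ¬ C T} = I
    refine le_antisymm ((closure_le _).2 fun T hT => hT.1) fun T hT => ?_
    obtain ⟨v, rfl⟩ := hfs T hT
    have key : ∀ v : ℤˣ × ℤˣ × ℤˣ, ∃ i j k : Fin 2,
        ((-1, 1, 1) : ℤˣ × ℤˣ × ℤˣ) ^ (i : ℕ) * (1, -1, 1) ^ (j : ℕ) * (1, 1, -1) ^ (k : ℕ) = v := by decide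
    obtain ⟨i, j, k, rfl⟩ := key v
    rw [hN', map_mul, map_mul, map_pow, map_pow, map_pow]
    exact mul_mem (mul_mem (pow_mem (subset_closure (by simp)) _) (pow_mem (subset_closure (by simp)) _))
      (pow_mem (subset_closure (by simp)) _)
  · ext S
    constructor
    · intro hS
      obtain ⟨v, rfl⟩ := hfs S (hI₀.le hS)
      have mk : ∀ v w, v ≠ 1 → w ≠ 1 → ¬ C (f v) → ¬ C (f w) → ∃ T T' : MulAut P, T ∈ I ∧ T' ∈ I ∧ T ≠ 1 ∧ T' ≠ 1 ∧
          ¬ C T ∧ ¬ C T' ∧ f (v * w) = T * T' := fun v w h1 h2 h3 h4 =>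
        ⟨_, _, hfI v, hfI w, hf1 v h1, hf1 w h2, h3, h4, map_mul f v w⟩
      rcases enum v with (rfl | rfl | rfl) | (rfl | rfl | rfl | rfl) | rfl
      · exact absurd (hdisj _ hS (hf1 _ (by decide))) c1
      · exact absurd (hdisj _ hS (hf1 _ (by decide))) c2
      · exact absurd (hdisj _ hS (hf1 _ (by decide))) c3
      · exact mk _ _ (by decide) (by decide) c1 c1
      · exact mk _ _ (by decide) (by decide) c2 c3
      · exact mk _ _ (by decide) (by decide) c1 c3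
      · exact mk _ _ (by decide) (by decide) c1 c2
      · have := mul_mem hS i1
        rw [← map_mul] at this
        exact absurd (hdisj _ this (hf1 _ (by decide))) c1
    · rintro ⟨T, T', h1, h2, h3, h4, h5, h6, rfl⟩
      exact hprod T h1 T' h2 h3 h4 h5 h6

end Cfsg.Agent.S4412
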