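import Cfsg.Statements.S4413
import Cfsg.Agent.H2.XS

set_option autoImplicit false
open Cfsg

namespace Cfsg.Agent.S4413

open Subgroup

@[ext] structure M where
  a : ZMod 2
  b : ZMod 2
  c : ZMod 2
  d : ZMod 2
  m : ZMod 2
deriving DecidableEq

instance : Fintype M := Fintype.ofEquiv (ZMod 2 × ZMod 2 × ZMod 2 × ZMod 2 × ZMod 2)
  ⟨fun v => ⟨v.1, v.2.1, v.2.2.1, v.2.2.2.1, v.2.2.2.2⟩, fun x => (x.a, x.b, x.c, x.d, x.m), fun _ => rfl, fun _ => rfl⟩

def be (x y : M) : ZMod 2 := y.a * x.d + y.a * x.c + y.a * x.b + y.b * x.d + y.b * x.c + y.c * x.d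

instance : Mul M := ⟨fun x y => ⟨x.a + y.a, x.b + y.b, x.c + y.c, x.d + y.d, x.m + y.m + be x y⟩⟩
instance : One M := ⟨⟨0, 0, 0, 0, 0⟩⟩
instance : Inv M := ⟨fun x => ⟨x.a, x.b, x.c, x.d, x.m + be x x⟩⟩

theorem mul_def (x y : M) : x * y = ⟨x.a + y.a, x.b + y.b, x.c + y.c, x.d + y.d, x.m + y.m + be x y⟩ := rfl

instance : Group M := Group.ofLeftAxioms (fun x y w => by
  simp only [mul_def, be]; ext <;> simp only <;> ring) (by decide +kernel) (by decide +kernel)

def zM : M := ⟨0, 0, 0, 0, 1⟩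
def ga : Fin 5 → M := ![⟨1, 0, 0, 0, 0⟩, ⟨0, 1, 0, 0, 0⟩, ⟨0, 0, 1, 0, 0⟩, ⟨0, 0, 0, 1, 0⟩, ⟨1, 1, 1, 1, 0⟩]
def idx (x : M) : Fin 5 := if x.a + x.b = 1 then (if x.a = 1 then 0 else 1) else if x.c + x.d = 1 then
  (if x.c = 1 then 2 else 3) else 4

theorem f1 : ∀ x : M, x * x = 1 → (∃ y, x * y ≠ y * x) → x = ga (idx x) ∨ x = ga (idx x) * zM := by decide +kernel
theorem f2 : ∀ x : M, idx (x * zM) = idx x := by decide +kernel
theorem f3 : ∀ i, idx (ga i) = i ∧ ga i * ga i = 1 ∧ ∃ y, ga i * y ≠ y * ga i := by decide +kernel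
theorem f4 : ∀ x : M, x ≠ 1 → (∀ y, x * y = y * x) → x = zM := by decide +kernel
theorem f5 : zM ≠ 1 ∧ ∀ y, zM * y = y * zM := by decide +kernel
theorem f6 : ∀ (g : M) i, idx (g * ga i * g⁻¹) = i := by decide +kernel
theorem f7 : ∀ s0 s1 s2 s3 : Fin 2, ∃ q : M, q * ga 0 * q⁻¹ = ga 0 * zM ^ (s0 : ℕ) ∧ q * ga 1 * q⁻¹ = ga 1 * zM ^ (s1 : ℕ) ∧
    q * ga 2 * q⁻¹ = ga 2 * zM ^ (s2 : ℕ) ∧ q * ga 3 * q⁻¹ = ga 3 * zM ^ (s3 : ℕ) := by decide +kernel
theorem f8 : ∀ x : M, x = ga 0 ^ x.a.val * (ga 1 ^ x.b.val * (ga 2 ^ x.c.val * (ga 3 ^ x.d.val * zM ^ x.m.val))) := by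
  decide +kernel
theorem f9 : ∀ x : M, x ≠ 1 → x = zM ∨ ∃ y, y * x * y⁻¹ * x⁻¹ = zM := by decide +kernel

theorem aut_z (φ : MulAut M) : φ zM = zM := f4 _ (by rw [Ne, map_eq_one_iff _ φ.injective]; exact f5.1) fun y => by
  obtain ⟨y, rfl⟩ := φ.surjective y
  rw [← map_mul, ← map_mul, f5.2]

theorem aut_ga (φ : MulAut M) (i : Fin 5) : φ (ga i) = ga (idx (φ (ga i))) ∨ φ (ga i) = ga (idx (φ (ga i))) * zM := by
  obtain ⟨-, h1, y, h2⟩ := f3 i
  exact f1 _ (by rw [← map_mul, h1, map_one]) ⟨φ y, by rwa [← map_mul, ← map_mul, φ.injective.ne_iff]⟩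

def piE : MulAut M →* Function.End (Fin 5) where
  toFun φ i := idx (φ (ga i))
  map_one' := funext fun i => (f3 i).1
  map_mul' φ ψ := funext fun i => by
    change idx (φ (ψ (ga i))) = idx (φ (ga (idx (ψ (ga i)))))
    rcases aut_ga ψ i with h | h
    · rw [← h]
    · conv_lhs => rw [h, map_mul, aut_z, f2]

def piM : MulAut M →* Equiv.Perm (Fin 5) := piE.toHomPerm

theorem piM_apply (φ : MulAut M) (i : Fin 5) : piM φ i = idx (φ (ga i)) := rfl

theorem ker_piM (φ : MulAut M) : piM φ = 1 ↔ ∃ q, MulAut.conj q = φ := by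
  constructor
  · intro h
    have h1 : ∀ i, ∃ s : Fin 2, φ (ga i) = ga i * zM ^ (s : ℕ) := fun i => by
      have h2 : idx (φ (ga i)) = i := by rw [← piM_apply, h]; rfl
      have := aut_ga φ i
      rw [h2] at this
      rcases this with e | e
      · exact ⟨0, by simpa using e⟩
      · exact ⟨1, by simpa using e⟩
    choose s hs using h1
    obtain ⟨q, h0, h1, h2, h3⟩ := f7 (s 0) (s 1) (s 2) (s 3)
    refine ⟨q, MulEquiv.ext fun x => ?_⟩
    rw [f8 x]
    simp only [map_mul, map_pow, aut_z]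
    simp only [MulAut.conj_apply, h0, h1, h2, h3, hs]
  · rintro ⟨q, rfl⟩
    exact Equiv.ext fun i => f6 q i

section
variable {P : Type*} [Group P]

def pw (a : P) (i : ZMod 2) : P := a ^ i.val

theorem pw0 (a : P) : pw a 0 = 1 := pow_zero a
theorem pw1 (a : P) : pw a 1 = a := pow_one a
theorem z01 : ∀ i : ZMod 2, i = 0 ∨ i = 1 := by decide

theorem pw_add {a : P} (h : a * a = 1) (i j : ZMod 2) (w : P) : pw a i * (pw a j * w) = pw a (i + j) * w := by
  rcases z01 i with rfl | rfl <;> rcases z01 j with rfl | rfl <;>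
    simp [pw0, pw1, ← mul_assoc, h, show (1 + 1 : ZMod 2) = 0 from rfl]

theorem pw_comm {a z : P} (h : z * a = a * z) (i j : ZMod 2) (w : P) : pw z j * (pw a i * w) = pw a i * (pw z j * w) := by
  rw [← mul_assoc, ← mul_assoc, pw, pw, (Commute.pow_pow h _ _).eq]

theorem pw_anti {a b z : P} (h : b * a = a * b * z) (i j : ZMod 2) (w : P) :
    pw b j * (pw a i * w) = pw a i * (pw b j * (pw z (i * j) * w)) := by
  rcases z01 i with rfl | rfl <;> rcases z01 j with rfl | rfl <;>
    simp [pw0, pw1, ← mul_assoc, h, show (1 + 1 : ZMod 2) = 0 from rfl]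

def hom {a b c d z : P} (ha : a * a = 1) (hb : b * b = 1) (hc : c * c = 1) (hd : d * d = 1) (hz : z * z = 1)
    (zc : ∀ x, z * x = x * z) (ba : b * a = a * b * z) (ca : c * a = a * c * z) (da : d * a = a * d * z)
    (cb : c * b = b * c * z) (db : d * b = b * d * z) (dc : d * c = c * d * z) : M →* P :=
  MonoidHom.mk' (fun x => pw a x.a * (pw b x.b * (pw c x.c * (pw d x.d * (pw z x.m * 1))))) fun x y => by
    simp only [mul_assoc, one_mul]
    simp only [pw_comm (zc a), pw_anti da, pw_anti ca, pw_anti ba, pw_add ha, pw_add hz]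
    simp only [pw_comm (zc b), pw_anti db, pw_anti cb, pw_add hb, pw_add hz]
    simp only [pw_comm (zc c), pw_anti dc, pw_add hc, pw_add hz]
    simp only [pw_comm (zc d), pw_add hd, pw_add hz, mul_def, be]
    congr 6
    ring

theorem equiv [Finite P] (h32 : Nat.card P = 32) {a b c d z : P} (ha : a * a = 1) (hb : b * b = 1) (hc : c * c = 1)
    (hd : d * d = 1) (hz : z * z = 1) (z1 : z ≠ 1)
    (zc : ∀ x, z * x = x * z) (ba : b * a = a * b * z) (ca : c * a = a * c * z) (da : d * a = a * d * z)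
    (cb : c * b = b * c * z) (db : d * b = b * d * z) (dc : d * c = c * d * z) : ∃ e : M ≃* P,
    e (ga 0) = a ∧ e (ga 1) = b ∧ e (ga 2) = c ∧ e (ga 3) = d ∧ e (ga 4) = a * (b * (c * d)) := by
  let f := hom ha hb hc hd hz zc ba ca da cb db dc
  have hf : ∀ x, f x = pw a x.a * (pw b x.b * (pw c x.c * (pw d x.d * (pw z x.m * 1)))) := fun _ => rfl
  have hfz : f zM = z := by simp [hf, zM, pw0, pw1]
  have hi : Function.Injective f := (injective_iff_map_eq_one f).2 fun x hx => by
    by_contra h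
    rcases f9 x h with rfl | ⟨y, e⟩
    · exact z1 (hfz.symm.trans hx)
    · apply z1
      rw [← hfz, ← e]; simp [hx]
  refine ⟨MulEquiv.ofBijective f ((Nat.bijective_iff_injective_and_card f).2 ⟨hi, ?_⟩), ?_⟩
  · rw [h32, Nat.card_eq_fintype_card]; rfl
  · simp [hf, ga, pw0, pw1]
end

theorem piM_surj : Function.Surjective piM := by
  have hM : Nat.card M = 32 := by rw [Nat.card_eq_fintype_card]; rfl
  obtain ⟨s, s0, s1, s2, s3, s4⟩ := equiv hM (a := ga 1) (b := ga 0) (c := ga 2) (d := ga 3) (z := zM) (by decide)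
    (by decide) (by decide) (by decide) (by decide) f5.1 f5.2 (by decide) (by decide) (by decide) (by decide) (by decide)
    (by decide)
  obtain ⟨r, r0, r1, r2, r3, r4⟩ := equiv hM (a := ga 1) (b := ga 2) (c := ga 3) (d := ga 4) (z := zM) (by decide)
    (by decide) (by decide) (by decide) (by decide) f5.1 f5.2 (by decide) (by decide) (by decide) (by decide) (by decide)
    (by decide)
  have hs : piM s = Equiv.swap 0 1 := Equiv.ext fun i => by
    rw [piM_apply]
    fin_cases i
    · exact (congrArg idx s0).trans (by decide)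
    · exact (congrArg idx s1).trans (by decide)
    · exact (congrArg idx s2).trans (by decide)
    · exact (congrArg idx s3).trans (by decide)
    · exact (congrArg idx s4).trans (by decide)
  have hr : piM r = finRotate 5 := Equiv.ext fun i => by
    rw [piM_apply]
    fin_cases i
    · exact (congrArg idx r0).trans (by decide)
    · exact (congrArg idx r1).trans (by decide)
    · exact (congrArg idx r2).trans (by decide)
    · exact (congrArg idx r3).trans (by decide)
    · exact (congrArg idx r4).trans (by decide)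
  rw [← MonoidHom.range_eq_top, eq_top_iff, ← Equiv.Perm.closure_cycle_adjacent_swap (σ := finRotate 5)
    isCycle_finRotate support_finRotate 0, closure_le]
  rintro _ (rfl | rfl)
  · exact ⟨r, hr⟩
  · exact ⟨s, hs⟩

section
variable {P : Type*} [Group P] [Finite P] {z : P}

theorem anti (h : H2.XS (⊤ : Subgroup P) z) {x y : P} (hne : x * y ≠ y * x) : y * x = x * y * z := by
  have := h.conj (mem_top y) (mem_top x) hne.symm
  rw [mul_inv_eq_iff_eq_mul] at this
  rw [this, mul_assoc, ← h.zc y trivial, mul_assoc]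

theorem pair (h : H2.XS (⊤ : Subgroup P) z) (K : Subgroup P) {x y : P} (hx : x ∈ K) (hy : y ∈ K) (hne : x * y ≠ y * x) :
    (∃ a ∈ K, ∃ b ∈ K, a * a = 1 ∧ b * b = 1 ∧ a * b ≠ b * a) ∨ (x * x = z ∧ y * y = z) := by
  have e : x * y * (x * y) = x * x * (y * y) * z := by
    calc x * y * (x * y) = x * (y * x) * y := by group
      _ = x * x * y * (z * y) := by rw [anti h hne]; group
      _ = _ := by rw [← h.zc y trivial]; group
  rcases h.sq x trivial with h1 | h1 <;> rcases h.sq y trivial with h2 | h2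
  · exact Or.inl ⟨x, hx, y, hy, h1, h2, hne⟩
  · refine Or.inl ⟨x, hx, x * y, mul_mem hx hy, h1, by rw [e, h1, h2, one_mul, h.z2], fun f => hne ?_⟩
    rw [mul_assoc] at f; exact mul_left_cancel f
  · refine Or.inl ⟨x * y, mul_mem hx hy, y, hy, by rw [e, h1, h2, mul_one, h.z2], h2, fun f => hne ?_⟩
    rw [← mul_assoc] at f; exact mul_right_cancel f
  · exact Or.inr ⟨h1, h2⟩

theorem noE8 (h : H2.XS (⊤ : Subgroup P) z) (hm : ∀ A : Subgroup P, Cfsg.IsElementaryAbelian 2 A → Nat.card A ≤ 4)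
    {s t p r : P} (hs : s * s = 1) (ht : t * t = 1) (hst : s * t = t * s) (hp : p * s ≠ s * p) (h1 : r * s = s * r)
    (h2 : r * t ≠ t * r) : False := by
  have hc : ∀ x ∈ ({z, s, t} : Set P), ∀ y ∈ ({z, s, t} : Set P), x * y = y * x := by
    rintro x (rfl | rfl | rfl) y (rfl | rfl | rfl) <;>
      first | rfl | exact h.zc _ trivial | exact (h.zc _ trivial).symm | exact hst | exact hst.symm
  have hcm := isMulCommutative_closure hc
  have hel : Cfsg.IsElementaryAbelian 2 (closure ({z, s, t} : Set P)) := ⟨hcm, fun x hx => by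
    induction hx using closure_induction with
    | mem x hx => rcases hx with rfl | rfl | rfl <;> rw [pow_two] <;> first | exact h.z2 | assumption
    | one => simp
    | mul x y hx hy h1 h2 =>
      rw [Commute.mul_pow (congrArg Subtype.val (hcm.is_comm.comm ⟨x, hx⟩ ⟨y, hy⟩)), h1, h2, one_mul]
    | inv x _ h1 => rw [inv_pow, h1, inv_one]⟩
  have hV : closure ({z, s} : Set P) < closure {z, s, t} := by
    refine lt_of_le_of_ne (closure_mono (by simp [Set.insert_subset_iff])) fun e => h2 ?_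
    have : t ∈ closure ({z, s} : Set P) := e ▸ subset_closure (by simp)
    refine (closure_le (centralizer {r})).2 ?_ this r rfl
    rintro _ (rfl | rfl)
    · exact mem_centralizer_singleton_iff.2 (h.zc r trivial).symm
    · exact mem_centralizer_singleton_iff.2 h1.symm
  have hZ : zpowers z < closure ({z, s} : Set P) := by
    refine lt_of_le_of_ne (zpowers_le.2 (subset_closure (by simp))) fun e => hp ?_
    have : s ∈ zpowers z := e ▸ subset_closure (by simp)
    exact (zpowers_le.2 (mem_centralizer_singleton_iff.2 (h.zc p trivial).symm) : zpowers z ≤ centralizer {p}) this p rfl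
  have a1 := L.mul_card_le_of_lt (h.p.to_le le_top) hV
  have a2 := L.mul_card_le_of_lt (h.p.to_le le_top) hZ
  have a3 := hm _ hel
  rw [Nat.card_zpowers, h.ord] at a2
  omega

theorem second (h : H2.XS (⊤ : Subgroup P) z) (h32 : Nat.card P = 32) {x y : P} (hne : x * y ≠ y * x) :
    ∃ u v : P, x * u = u * x ∧ y * u = u * y ∧ x * v = v * x ∧ y * v = v * y ∧ u * v ≠ v * u := by
  by_contra! hh
  have dec : ∀ p : P, ∃ i j : Fin 2, x * (p * y ^ (i : ℕ) * x ^ (j : ℕ)) = p * y ^ (i : ℕ) * x ^ (j : ℕ) * x ∧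
      y * (p * y ^ (i : ℕ) * x ^ (j : ℕ)) = p * y ^ (i : ℕ) * x ^ (j : ℕ) * y := by
    intro p
    simp only [h.comm_mul_iff trivial trivial trivial]
    by_cases h1 : x * p = p * x <;> by_cases h2 : y * p = p * y
    · exact ⟨0, 0, by simp [h1, h2]⟩
    · exact ⟨0, 1, by simp [h1, h2, hne.symm]⟩
    · exact ⟨1, 0, by simp [h1, h2, hne]⟩
    · exact ⟨1, 1, by simp [h1, h2, hne, hne.symm]⟩
  have cen : ∀ c, x * c = c * x → y * c = c * y → c = 1 ∨ c = z := fun c h1 h2 => h.cen c trivial fun p _ => by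
    obtain ⟨i, j, h3, h4⟩ := dec p
    have h5 : Commute c (p * y ^ (i : ℕ) * x ^ (j : ℕ)) := hh _ _ h1 h2 h3 h4
    have h6 := (h5.mul_right ((Commute.symm h1).pow_right j).inv_right).mul_right ((Commute.symm h2).pow_right i).inv_right
    rwa [mul_inv_cancel_right, mul_inv_cancel_right] at h6
  have := Nat.card_le_card_of_surjective
    (fun v : Fin 2 × Fin 2 × Fin 2 => z ^ (v.1 : ℕ) * (x ^ (v.2.2 : ℕ))⁻¹ * (y ^ (v.2.1 : ℕ))⁻¹) fun p => by
      obtain ⟨i, j, h3, h4⟩ := dec p
      rcases cen _ h3 h4 with e | e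
      · exact ⟨(0, i, j), by simp only [Fin.val_zero, pow_zero]; rw [← e]; group⟩
      · exact ⟨(1, i, j), by simp only [Fin.val_one, pow_one]; rw [← e]; group⟩
  rw [h32] at this
  simp at this

theorem mix (h : H2.XS (⊤ : Subgroup P) z) (h32 : Nat.card P = 32) {a b u v : P} (ha : a * a = 1) (hb : b * b = 1)
    (hab : a * b ≠ b * a) (hu : u * u = z) (hv : v * v = z) (huv : u * v ≠ v * u) (au : a * u = u * a)
    (bu : b * u = u * b) (av : a * v = v * a) (bv : b * v = v * b) : Nonempty (M ≃* P) := by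
  have e : a * b * (a * b) = z := by
    calc a * b * (a * b) = a * (b * a) * b := by group
      _ = a * a * b * (z * b) := by rw [anti h hab]; group
      _ = a * a * (b * b) * z := by rw [← h.zc b trivial]; group
      _ = _ := by rw [ha, hb, one_mul, one_mul]
  have sq : ∀ w, w * w = z → a * w = w * a → b * w = w * b → a * b * w * (a * b * w) = 1 := fun w h1 h2 h3 => by
    rw [← pow_two, (Commute.mul_left h2 h3).mul_pow, pow_two, pow_two, e, h1, h.z2]
  have c := fun x y y' => h.comm_mul_iff (x := x) (y := y) (y' := y') trivial trivial trivial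
  have c' := fun x y y' => h.comm_mul_iff' (x := x) (y := y) (y' := y') trivial trivial trivial
  obtain ⟨f, -⟩ := equiv h32 ha hb (sq u hu au bu) (sq v hv av bv) h.z2 h.z1 (fun x => (h.zc x trivial).symm) (anti h hab)
    (anti h (by simp [c, hab, au])) (anti h (by simp [c, hab, av])) (anti h (by simp [c, hab.symm, bu]))
    (anti h (by simp [c, hab.symm, bv])) (anti h (by
      rw [Ne, c, c' (a * b), c' v, c' v, c u]; simp [au.symm, bu.symm, av, bv, huv]))
  exact ⟨f⟩

theorem model (h : H2.XS (⊤ : Subgroup P) z) (h32 : Nat.card P = 32)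
    (hm : ∀ A : Subgroup P, Cfsg.IsElementaryAbelian 2 A → Nat.card A ≤ 4) : Nonempty (M ≃* P) := by
  obtain ⟨x, -, y, -, hne⟩ := h.nab
  have mc : ∀ {a b w : P}, w ∈ centralizer {a, b} ↔ a * w = w * a ∧ b * w = w * b := by
    intro a b w; simp [mem_centralizer_iff]
  have c := fun x y y' => h.comm_mul_iff (x := x) (y := y) (y' := y') trivial trivial trivial
  have c' := fun x y y' => h.comm_mul_iff' (x := x) (y := y) (y' := y') trivial trivial trivial
  rcases pair h ⊤ trivial trivial hne with ⟨a, -, b, -, ha, hb, hab⟩ | ⟨hx, hy⟩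
  · obtain ⟨u, v, h1, h2, h3, h4, huv⟩ := second h h32 hab
    rcases pair h (centralizer {a, b}) (mc.2 ⟨h1, h2⟩) (mc.2 ⟨h3, h4⟩) huv with ⟨s, hs, t, ht, s2, t2, hst⟩ | ⟨hu, hv⟩
    · exact (noE8 h hm ha s2 (mc.1 hs).1 hab.symm (mc.1 ht).1.symm hst.symm).elim
    · exact mix h h32 ha hb hab hu hv huv h1 h2 h3 h4
  · obtain ⟨u, v, h1, h2, h3, h4, huv⟩ := second h h32 hne
    rcases pair h (centralizer {x, y}) (mc.2 ⟨h1, h2⟩) (mc.2 ⟨h3, h4⟩) huv with ⟨s, hs, t, ht, s2, t2, hst⟩ | ⟨hu, hv⟩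
    · exact mix h h32 s2 t2 hst hx hy hne (mc.1 hs).1.symm (mc.1 ht).1.symm (mc.1 hs).2.symm (mc.1 ht).2.symm
    · refine (noE8 h hm (s := x * u) (t := y * v) (p := y) (r := x) ?_ ?_ ?_ ?_ ?_ ?_).elim
      · rw [← pow_two, Commute.mul_pow h1, pow_two, pow_two, hx, hu, h.z2]
      · rw [← pow_two, Commute.mul_pow h4, pow_two, pow_two, hy, hv, h.z2]
      · rw [c, c' y, c' v]; simp [hne, h2.symm, h3, huv]
      · simp [c, hne.symm, h2]
      · simp [c, h1]
      · simp [c, hne, h3]
end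

/-- Let P be an extraspecial 2-group of order 32 with no elementary abelian subgroup of order 8 (the central product of a dihedral and a quaternion group of order 8). Then the inner automorphism group of P has order 16 and the outer automorphism group Aut(P)/Inn(P) is isomorphic to the symmetric group of degree 5; in particular Aut(P) has order 1920. -/
theorem result {P : Type*} [Group P] [Finite P]
    (hex : Cfsg.IsExtraspecial 2 P) (h32 : Nat.card P = 32)
    (hminus : ∀ A : Subgroup P, Cfsg.IsElementaryAbelian 2 A → Nat.card ↥A ≤ 4)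
    [(MulAut.conj : P →* MulAut P).range.Normal] :
    Nat.card ↥(MulAut.conj : P →* MulAut P).range = 16 ∧ Nat.card (MulAut P) = 1920 ∧
      Nonempty ((MulAut P ⧸ (MulAut.conj : P →* MulAut P).range) ≃* Equiv.Perm (Fin 5)) := by
  obtain ⟨z, hz⟩ := H2.xs_of (L.isExtraspecial_top_iff.2 hex)
  obtain ⟨e⟩ := model hz h32 hminus
  let π : MulAut P →* Equiv.Perm (Fin 5) := piM.comp (MulAut.congr e).symm.toMonoidHom
  have hs : Function.Surjective π := piM_surj.comp (MulAut.congr e).symm.surjective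
  have hk : (MulAut.conj : P →* MulAut P).range = π.ker := by
    ext φ
    rw [MonoidHom.mem_ker]
    change _ ↔ piM ((MulAut.congr e).symm φ) = 1
    rw [ker_piM]
    constructor
    · rintro ⟨q, rfl⟩
      exact ⟨e.symm q, MulEquiv.ext fun x => e.injective (by simp [MulAut.congr])⟩
    · rintro ⟨q, hq⟩
      refine ⟨e q, MulEquiv.ext fun x => ?_⟩
      have := congrArg (fun f : MulAut M => e (f (e.symm x))) hq
      simpa [MulAut.congr] using this
  have h16 : Nat.card (MulAut.conj : P →* MulAut P).range = 16 := by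
    have h1 := (MulAut.conj : P →* MulAut P).ker.card_mul_index
    have h2 : (MulAut.conj : P →* MulAut P).ker = center P := by
      ext x
      rw [MonoidHom.mem_ker, mem_center_iff, MulEquiv.ext_iff]
      exact forall_congr' fun y => by rw [MulAut.conj_apply, MulAut.one_apply, mul_inv_eq_iff_eq_mul, eq_comm]
    rw [index_ker, h2, ← L.top_inf_centralizer_top, hz.center, Nat.card_zpowers, hz.ord, h32] at h1
    omega
  refine ⟨h16, ?_, ⟨(QuotientGroup.quotientMulEquivOfEq hk).trans (QuotientGroup.quotientKerEquivOfSurjective π hs)⟩⟩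
  rw [← π.ker.card_mul_index, index_ker, ← hk, h16, MonoidHom.range_eq_top.2 hs, card_top, Nat.card_perm, Nat.card_fin]
  rfl

end Cfsg.Agent.S4413
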