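import Cfsg.Statements.S4420


set_option autoImplicit false
open Cfsg

namespace Cfsg.Agent.S4420

open Subgroup

/-- Structure of groups in which every element outside some proper subgroup has square 1. Let H be a finite group with a proper subgroup A such that every element outside A has square 1. Then H has an abelian normal subgroup B of index 2 such that every element outside B is an involution inverting every element of B; and if H is not an elementary abelian 2-group, B is the only abelian normal subgroup of index 2 with this property. -/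
theorem result {H : Type*} [Group H] [Finite H] (A : Subgroup H) (hA : A ≠ ⊤) (hD : ∀ x : H, x ∉ A → x ^ 2 = 1) :
    ∃ B : Subgroup H, B.Normal ∧ IsMulCommutative ↥B ∧ B.index = 2 ∧
      (∀ x : H, x ∉ B → x ^ 2 = 1 ∧ ∀ b ∈ B, x * b * x⁻¹ = b⁻¹) ∧
      (¬ (IsMulCommutative H ∧ ∀ x : H, x ^ 2 = 1) →
        ∀ B' : Subgroup H, B'.Normal → IsMulCommutative ↥B' → B'.index = 2 →
          (∀ x : H, x ∉ B' → x ^ 2 = 1 ∧ ∀ b ∈ B', x * b * x⁻¹ = b⁻¹) → B' = B) := by
  obtain ⟨B, b1, b2⟩ := (eq_top_or_exists_le_coatom A).resolve_left hA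
  replace hD : ∀ x, x ∉ B → x * x = 1 := fun x h => pow_two x ▸ hD x fun h' => h (b2 h')
  have inv : ∀ x, x ∉ B → ∀ b ∈ B, x * b * x⁻¹ = b⁻¹ := fun x h b hb => by
    rw [inv_eq_of_mul_eq_one_left (hD x h), eq_inv_iff_mul_eq_one, mul_assoc]
    exact hD _ fun h' => h ((B.mul_mem_cancel_right hb).1 h')
  obtain ⟨x, hx⟩ : ∃ x, x ∉ B := by simpa [eq_top_iff'] using b1.1
  have cj : ∀ b ∈ B, x * b * x ∈ B := fun b hb => by
    have := inv x hx b hb
    rw [inv_eq_of_mul_eq_one_left (hD x hx)] at this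
    exact this ▸ inv_mem hb
  let K : Subgroup H :=
    { carrier := {y | y * x ∈ B ∨ y ∈ B}
      one_mem' := Or.inr B.one_mem
      mul_mem' := by
        rintro a b (h | h) (k | k)
        · exact Or.inr (by simpa [mul_assoc, ← mul_assoc x x, hD x hx] using B.mul_mem h (cj _ k))
        · exact Or.inl (by simpa [mul_assoc, ← mul_assoc x x, hD x hx] using B.mul_mem h (cj _ k))
        · exact Or.inl (mul_assoc a b x ▸ B.mul_mem h k)
        · exact Or.inr (B.mul_mem h k)
      inv_mem' := by
        rintro a (h | h)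
        · exact Or.inl (by simpa [mul_assoc, hD x hx, inv_eq_of_mul_eq_one_left (hD x hx)] using B.inv_mem (cj _ h))
        · exact Or.inr (B.inv_mem h) }
  have i2 : B.index = 2 := index_eq_two_iff_exists_notMem_and.2 ⟨x, hx, fun b =>
    (b1.2 K (lt_of_le_not_ge (fun _ => Or.inr) fun h => hx (h (Or.inl (hD x hx ▸ B.one_mem))))).ge (mem_top b)⟩
  have cm : ∀ a ∈ B, ∀ b ∈ B, a * b = b * a := fun a ha b hb => by
    apply inv_injective
    rw [← inv x hx _ (B.mul_mem ha hb), mul_inv_rev, ← inv x hx a ha, ← inv x hx b hb]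
    group
  refine ⟨B, normal_of_index_eq_two i2, ⟨⟨fun a b => Subtype.ext (cm _ a.2 _ b.2)⟩⟩, i2,
    fun x h => ⟨pow_two x ▸ hD x h, inv x h⟩, fun hn C _ _ c1 c2 => by_contra fun ne => hn ?_⟩
  obtain ⟨y, y1, y2⟩ : ∃ y ∈ B, y ∉ C := by
    by_contra! h
    exact ne (by_contra fun e => by simp [b1.2 C (lt_of_le_of_ne h (Ne.symm e))] at c1)
  have sq : ∀ z : H, z ^ 2 = 1 := fun z => by
    by_contra h
    have z1 : z ∈ B := by_contra fun k => h (pow_two z ▸ hD z k)
    have := (c2 y y2).2 z (by_contra fun k => h (c2 z k).1)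
    rw [cm y y1 z z1, mul_inv_cancel_right] at this
    exact h (by rw [pow_two]; exact mul_eq_one_iff_eq_inv.2 this)
  exact ⟨⟨⟨Commute.of_orderOf_dvd_two fun g => orderOf_dvd_of_pow_eq_one (sq g)⟩⟩, sq⟩

end Cfsg.Agent.S4420
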