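import Cfsg.Statements.S4459
import Cfsg.Agent.H3.Cx
import Cfsg.Agent.S4845

set_option autoImplicit false
open Cfsg

namespace Cfsg.Agent.S4459

open scoped commutatorElement
open H1
open Subgroup H3 Cfsg.Agent.S4845

universe u

section
variable {G : Type u} [Group G] [Finite G]

theorem card_ite {α : Type*} [Fintype α] (P : α → Prop) [DecidablePred P] (k : ℕ) :
    ∑ x, (if P x then k else 0) = Nat.card {x // P x} * k := by
  rw [Nat.card_eq_fintype_card, Fintype.card_subtype, ← Finset.sum_filter, Finset.sum_const, smul_eq_mul]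

theorem idx_lt {A B : Subgroup G} (h : A ≤ B) {x : G} (hx : x ∈ B) (hx' : x ∉ A) : B.index ≠ A.index := by
  intro e
  have := relIndex_mul_index h
  rw [e, mul_eq_right₀ index_ne_zero_of_finite, relIndex_eq_one] at this
  exact hx' (this hx)

theorem abelZ {p : ℕ} (hp : p.Prime) (hcd : ∀ χ, IsIrrCharacter G χ → charDegree χ = 1 ∨ charDegree χ = p)
    {β : G → ℂ} (hβ : IsIrrCharacter G β) (hd : charDegree β = p) (hc : commutator G ≤ charCenter β) :
    ∀ a b : charCenter β, a * b = b * a := by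
  classical
  have := Fintype.ofFinite G
  haveI := charCenter_normal (irr_class hβ)
  have hi2 := van2 hβ hc
  refine comm_of_deg_one fun θ hθ => ?_
  by_contra h1
  obtain ⟨χ, hχ, hi⟩ := exists_irr_over (charCenter β) hθ
  obtain ⟨e, he, -, hdeg⟩ := deg_over (charCenter β) hχ hθ hi
  have hdv : charDegree θ ∣ charDegree χ := hdeg ▸ dvd_mul_left _ _
  have h2 : charDegree χ = p := (hcd χ hχ).resolve_left fun e => h1 (Nat.dvd_one.1 (e ▸ hdv))
  have h3 : charDegree θ = p := ((Nat.dvd_prime hp).1 (h2 ▸ hdv)).resolve_left h1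
  have hr := restrict_eq_of_deg_le (charCenter β) (chr hχ) hθ hi (by rw [h2, h3])
  have s1 : ∑ g, ‖(χ * β) g‖ ^ 2 = ∑ z : charCenter β, (p : ℝ) ^ 2 * ‖θ z‖ ^ 2 := by
    rw [← Finset.sum_subset (Finset.subset_univ (Finset.univ.filter (· ∈ charCenter β)))
      (fun g _ hg => by simp [van hβ hc (g := g) (by simpa using hg)]),
      Finset.sum_subtype (p := (· ∈ charCenter β)) _ (by simp)]
    refine Finset.sum_congr rfl fun z _ => ?_
    rw [Pi.mul_apply, norm_mul, (mem_charCenter (chr hβ) _).1 z.2, deg_eq (chr hβ), hd, hr]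
    simp [mul_pow, mul_comm]
  have s2 := irr_inner_self hθ
  rw [inner_self_eq] at s2
  have s3 : (Nat.card (charCenter β) : ℝ)⁻¹ * ∑ z, ‖θ z‖ ^ 2 = 1 := by exact_mod_cast s2
  have hN : (Nat.card (charCenter β) : ℝ) ≠ 0 := by exact_mod_cast Nat.card_pos.ne'
  have hp0 : (p : ℝ) ≠ 0 := by exact_mod_cast hp.ne_zero
  have hn : classInner (χ * β) (χ * β) = 1 := by
    rw [inner_self_eq, s1, ← Finset.mul_sum, ← card_mul_index (charCenter β), ← hi2, hd]
    rw [inv_mul_eq_one₀ hN] at s3
    rw [← s3]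
    push_cast
    have hN' : (Nat.card (charCenter β) : ℂ) ≠ 0 := by exact_mod_cast Nat.card_pos.ne'
    have hp' : (p : ℂ) ≠ 0 := by exact_mod_cast hp.ne_zero
    field_simp
  have h4 : charDegree (χ * β) = p * p :=
    deg_of_eq (by rw [Pi.mul_apply, deg_eq (chr hχ), deg_eq (chr hβ), h2, hd]; push_cast; rfl)
  have := hp.one_lt
  rcases hcd _ (isIrr_of_norm_one (char_mul (chr hχ) (chr hβ)) hn) with e | e <;> rw [h4] at e <;> nlinarith

theorem core [Group.IsNilpotent G] {p : ℕ} (hp : p.Prime)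
    (hcd : ∀ χ, IsIrrCharacter G χ → charDegree χ = 1 ∨ charDegree χ = p) (Z : Subgroup G) [hZ : Z.Normal]
    (hab : ∀ a b : Z, a * b = b * a) (hc : commutator G ≤ Z) (hi : Z.index = p ^ 2) (hz : center G ≤ Z)
    (hW : ∀ x ∉ Z, ∃ z ∈ Z, x * z * x⁻¹ * z⁻¹ ≠ 1) : (center G).index = p ^ 3 := by
  classical
  have := Fintype.ofFinite G
  have hcz : commutator Z = ⊥ := (commutator_eq_bot_iff_center_eq_top _).2 (eq_top_iff.2 fun a _ =>
    mem_center_iff.2 fun b => hab b a)
  have sep : ∀ v : Z, v ≠ 1 → ∃ f : Z →* ℂˣ, f v ≠ 1 := fun v hv => exists_hom_ne_one (by rwa [hcz])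
  let a : G → Z →* Z := fun g => MonoidHom.mk' (fun z => MulAut.conjNormal g z * z⁻¹) fun x y => by
    rw [map_mul, mul_inv_rev]; simp only [mul_assoc]; congr 1; rw [← mul_assoc, hab]
  have ha : ∀ g (z : Z), (a g z : G) = g * z * g⁻¹ * (z : G)⁻¹ := fun g z => rfl
  let I : (Z →* ℂˣ) → Subgroup G := fun f => inertia Z fun z => (f z : ℂ)
  have hI : ∀ f g, g ∈ I f ↔ ∀ z, f (a g z) = 1 := fun f g => by
    rw [mem_inertia']
    refine forall_congr' fun z => ?_
    show _ ↔ f (MulAut.conjNormal g z * z⁻¹) = 1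
    rw [map_mul, map_inv, mul_inv_eq_one, Units.val_inj]; rfl
  have hZI : ∀ f, Z ≤ I f := fun f => le_inertia Z (irr_class (isIrr_hom f))
  have hix : ∀ f, (I f).index ∣ p := fun f => by
    obtain ⟨χ, hχ, h⟩ := exists_irr_over Z (isIrr_hom f)
    obtain ⟨e, -, -, hdeg⟩ := deg_over Z hχ (isIrr_hom f) h
    have : (I f).index ∣ charDegree χ := hdeg ▸ (dvd_mul_left _ _).mul_right _
    rcases hcd χ hχ with e | e <;> rw [e] at this
    · exact this.trans (one_dvd _)
    · exact this
  have hker : ∀ x ∉ Z, (a x).ker = (center G).subgroupOf Z := by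
    intro x hx
    ext u
    rw [MonoidHom.mem_ker, mem_subgroupOf]
    refine ⟨fun hu => mem_center_iff.2 fun t => ?_, fun hu => Subtype.ext ?_⟩
    swap
    · rw [ha, mem_center_iff.1 hu x]; simp
    have hxu : x * u = u * x := by
      have := congrArg Subtype.val hu
      rwa [ha, coe_one, mul_inv_eq_one, mul_inv_eq_iff_eq_mul] at this
    have k1 : ∀ f, x ∉ I f → f (a t u) = 1 := by
      intro f hf
      haveI : (I f).Normal := ⟨fun n hn g => by
        have := mul_mem (hZI f (hc (commutator_mem_commutator (mem_top g) (mem_top n)))) hn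
        rwa [commutatorElement_def, inv_mul_cancel_right] at this⟩
      have e : I f ⊔ zpowers x = ⊤ := by
        rw [← index_eq_one]
        have d := (index_dvd_of_le (le_sup_left : I f ≤ I f ⊔ zpowers x))
        have n := idx_lt (le_sup_left : I f ≤ I f ⊔ zpowers x) (mem_sup_right (mem_zpowers x)) hf
        rcases (Nat.dvd_prime hp).1 (hix f) with q | q <;> rw [q] at d n
        · exact Nat.dvd_one.1 d
        · exact ((Nat.dvd_prime hp).1 d).resolve_right n
      obtain ⟨i, hi, _, ⟨k, rfl⟩, rfl⟩ := mem_sup_of_normal_left.1 (e ▸ mem_top t : t ∈ I f ⊔ zpowers x)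
      rw [← (hI f i).1 hi u]
      congr 1
      refine Subtype.ext ?_
      have : x ^ k * u = u * x ^ k := (Commute.zpow_left hxu k)
      rw [ha, ha, mul_assoc i, this]; group
    obtain ⟨z, hzZ, hz1⟩ := hW x hx
    obtain ⟨f₀, hf₀⟩ := sep (a x ⟨z, hzZ⟩) fun e => hz1 (congrArg Subtype.val e)
    have n0 : x ∉ I f₀ := fun e => hf₀ ((hI _ _).1 e _)
    have : a t u = 1 := by
      by_contra k
      obtain ⟨f, hf⟩ := sep _ k
      have m : x ∈ I f := by by_contra q; exact hf (k1 f q)
      have := k1 (f * f₀) fun q => hf₀ (by simpa [(hI _ _).1 m] using (hI _ _).1 q ⟨z, hzZ⟩)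
      exact hf (by simpa [k1 f₀ n0] using this)
    have := congrArg Subtype.val this
    rwa [ha, coe_one, mul_inv_eq_one, mul_inv_eq_iff_eq_mul] at this
  set m := (center G).relIndex Z with hm
  set N := Nat.card Z with hN
  have hG : Nat.card G = N * p ^ 2 := by rw [← hi, card_mul_index]
  have N0 : 0 < N := Nat.card_pos
  have r1 : ∀ x ∉ Z, (a x).range.index * m = N := fun x hx => by
    rw [hm, relIndex, ← hker x hx, index_ker, mul_comm, card_mul_index]
  have cnt : ∑ f, Nat.card (I f) = ∑ g, (a g).range.index := by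
    have e1 : ∀ f, Nat.card (I f) = ∑ g, if g ∈ I f then 1 else 0 := fun f => by rw [card_ite, mul_one]
    have e2 : ∀ g, (a g).range.index = ∑ f, if g ∈ I f then 1 else 0 := fun g => by
      haveI : (a g).range.Normal := ⟨fun n hn c => by rw [hab c n, mul_inv_cancel_right]; exact hn⟩
      rw [card_ite, mul_one, ← card_hom_trivial_on _ (hcz ▸ bot_le)]
      exact Nat.card_congr (Equiv.subtypeEquivRight fun f => by
        rw [hI]; exact ⟨fun h z => h _ ⟨z, rfl⟩, fun h _ ⟨z, e⟩ => e ▸ h z⟩)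
    simp only [e1, e2]
    exact Finset.sum_comm
  have p1 := hp.one_lt
  have lo : N * (p * N) < ∑ f, Nat.card (I f) := by
    have : ∑ _f : Z →* ℂˣ, p * N = N * (p * N) := by
      rw [Finset.sum_const, smul_eq_mul, Finset.card_univ, ← Nat.card_eq_fintype_card, card_hom_of_comm hab]
    rw [← this]
    refine Finset.sum_lt_sum (fun f _ => ?_) ⟨1, Finset.mem_univ _, ?_⟩
    · have e := card_mul_index (I f)
      have l := Nat.le_of_dvd hp.pos (hix f)
      rw [hG] at e
      refine Nat.le_of_mul_le_mul_right (c := p) ?_ hp.pos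
      calc p * N * p = N * p ^ 2 := by ring
        _ ≤ _ := e ▸ Nat.mul_le_mul_left _ l
    · have : I 1 = ⊤ := eq_top_iff.2 fun g _ => (hI _ _).2 fun _ => rfl
      rw [this, card_top, hG]; nlinarith [mul_pos N0 hp.pos]
  have hi' : (∑ g, (a g).range.index) * m + N * N ≤ N * (N * m) + N * p ^ 2 * N := by
    have e1 := card_ite (fun g : G => g ∈ Z) N
    have e2 := card_ite (fun g : G => g ∈ Z) (N * m)
    have e3 : ∑ _g : G, N = N * p ^ 2 * N := by
      rw [Finset.sum_const, smul_eq_mul, Finset.card_univ, ← Nat.card_eq_fintype_card, hG]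
    change _ = N * _ at e1 e2
    rw [← e1, ← e2, ← e3, Finset.sum_mul, ← Finset.sum_add_distrib, ← Finset.sum_add_distrib]
    refine Finset.sum_le_sum fun g _ => ?_
    split_ifs with h
    · exact Nat.add_le_add_right (Nat.mul_le_mul_right _ (Nat.le_of_dvd N0 (index_dvd_card _))) _
    · rw [r1 g h]; omega
  have m0 : 0 < m := Nat.pos_of_ne_zero index_ne_zero_of_finite
  have mle : m ≤ p := by
    rw [← cnt] at hi'
    have h1 := Nat.mul_lt_mul_of_pos_right lo m0
    have h2 : N * N * (p * m + 1) < N * N * (m + p ^ 2) := by nlinarith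
    have h3 := Nat.lt_of_mul_lt_mul_left h2
    by_contra! k
    obtain ⟨q, rfl⟩ : ∃ q, p = q + 1 := ⟨p - 1, by omega⟩
    nlinarith [Nat.mul_le_mul_left q (show q + 2 ≤ m by omega)]
  have pm : p ∣ m := by
    by_contra k
    have cop : Nat.Coprime (p ^ 2) m := ((hp.coprime_iff_not_dvd).2 k).pow_left 2
    obtain ⟨x, hx⟩ : ∃ x, x ∉ Z := by
      by_contra! q
      rw [(eq_top_iff' Z).2 q, index_top] at hi
      nlinarith
    obtain ⟨z, hzZ, hz1⟩ := hW x hx
    have n1 : Z.map (QuotientGroup.mk' (center G)) ≠ ⊥ := by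
      rw [Ne, Subgroup.map_eq_bot_iff, QuotientGroup.ker_mk']
      intro q
      exact hz1 (by rw [mem_center_iff.1 (q hzZ) x]; simp)
    haveI : (Z.map (QuotientGroup.mk' (center G))).Normal := hZ.map _ (QuotientGroup.mk'_surjective _)
    obtain ⟨⟨_, ⟨u, hu, rfl⟩, hu2⟩, hu1⟩ := ne_bot_iff_exists_ne_one.1 (inf_center_ne_bot' _ n1)
    refine hu1 (Subtype.ext ((QuotientGroup.eq_one_iff u).2 (mem_center_iff.2 fun t => ?_)))
    have c : t * u * t⁻¹ * u⁻¹ ∈ center G := by
      rw [← QuotientGroup.eq_one_iff]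
      have := mem_center_iff.1 hu2 (t : G ⧸ center G)
      simp only [QuotientGroup.mk'_apply] at this
      simp only [QuotientGroup.mk_mul, QuotientGroup.mk_inv, this]; group
    set c₀ := t * u * t⁻¹ * u⁻¹ with hc₀
    have e0 : t * u * t⁻¹ = c₀ * u := by rw [hc₀]; group
    have e1 : ∀ n : ℕ, t ^ n * u * (t ^ n)⁻¹ = c₀ ^ n * u := by
      intro n
      induction n with
      | zero => simp
      | succ n ih =>
        calc _ = t * (t ^ n * u * (t ^ n)⁻¹) * t⁻¹ := by group
          _ = (t * c₀ ^ n) * u * t⁻¹ := by rw [ih]; group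
          _ = c₀ ^ n * (t * u * t⁻¹) := by rw [mem_center_iff.1 (pow_mem c n) t]; group
          _ = _ := by rw [e0, pow_succ, mul_assoc (c₀ ^ n)]
    have e2 : c₀ ^ p ^ 2 = 1 := by
      have := e1 (p ^ 2)
      have q : t ^ p ^ 2 * u = u * t ^ p ^ 2 := congrArg Subtype.val (hab ⟨_, hi ▸ Z.pow_index_mem t⟩ ⟨u, hu⟩)
      rw [q, mul_inv_cancel_right] at this
      exact mul_eq_right.1 this.symm
    have e3 : c₀ ^ m = 1 := by
      have q : u ^ m ∈ center G := by
        have := ((center G).subgroupOf Z).pow_index_mem ⟨u, hu⟩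
        exact mem_subgroupOf.1 this
      have := congrArg (· ^ m) e0
      simp only [conj_pow] at this
      rw [Commute.mul_pow (show Commute c₀ u from (mem_center_iff.1 c u).symm), mem_center_iff.1 q t,
        mul_inv_cancel_right] at this
      exact mul_eq_right.1 this.symm
    have e4 : c₀ = 1 := by
      have := pow_gcd_eq_one.2 ⟨e2, e3⟩
      rwa [cop, pow_one] at this
    rw [e4, one_mul] at e0
    exact mul_inv_eq_iff_eq_mul.1 e0
  rw [← relIndex_mul_index hz, ← hm, hi, le_antisymm mle (Nat.le_of_dvd m0 pm)]; ring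
end

/-- Let G be a non-abelian finite group and p a prime. Then the irreducible character degrees of G are exactly 1 and p if and only if either G has an abelian normal subgroup of index p or the centre of G has index p³. -/
theorem result {G : Type*} [Group G] [Finite G] (hG : ∃ a b : G, a * b ≠ b * a) (p : ℕ) (hp : p.Prime) : ((∀ χ : Cfsg.IrrCharacter G, Cfsg.charDegree (χ : G → ℂ) = 1 ∨ Cfsg.charDegree (χ : G → ℂ) = p) ∧ ∃ χ : Cfsg.IrrCharacter G, Cfsg.charDegree (χ : G → ℂ) = p) ↔ ((∃ A : Subgroup G, A.Normal ∧ (∀ a ∈ A, ∀ b ∈ A, a * b = b * a) ∧ A.index = p) ∨ (Subgroup.center G).index = p ^ 3) := by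
  obtain ⟨a, b, hab⟩ := hG
  have hna : ¬ ∀ a b : G, a * b = b * a := fun h => hab (h a b)
  constructor
  · rintro ⟨h1, χ₀, h2⟩
    have hcd : ∀ χ, IsIrrCharacter G χ → charDegree χ = 1 ∨ charDegree χ = p := fun χ hχ => h1 ⟨χ, hχ⟩
    have nm : ∀ T : Subgroup G, commutator G ≤ T → T.Normal := fun T hT => ⟨fun n hn g => by
      have := mul_mem (hT (commutator_mem_commutator (mem_top g) (mem_top n))) hn
      rwa [commutatorElement_def, inv_mul_cancel_right] at this⟩
    rcases two_degrees hcd ⟨_, χ₀.2, h2⟩ hp.one_lt.ne' with ⟨T, t1, t2, t3⟩ | ⟨hn, -⟩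
    · exact Or.inl ⟨T, nm T t3, fun a ha b hb => congrArg Subtype.val (t1.1.1 ⟨a, ha⟩ ⟨b, hb⟩), t2⟩
    by_contra! hno
    obtain ⟨hno, hne⟩ := hno
    obtain ⟨β, hβ, k1, k2⟩ : ∃ β, IsIrrCharacter G β ∧ (∀ n ∈ ⁅commutator G, (⊤ : Subgroup G)⁆, β n = β 1) ∧
        charDegree β ≠ 1 := by
      by_contra! k
      have h := comm_le_of_deg ⁅commutator G, (⊤ : Subgroup G)⁆ k
      obtain ⟨n, e⟩ := Subgroup.nilpotent_iff_lowerCentralSeries.1 hn
      have : ∀ n, commutator G ≤ (⊤ : Subgroup G).lowerCentralSeries n := by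
        intro n
        induction n with
        | zero => exact le_top
        | succ n ih => exact h.trans (commutator_mono ih le_rfl)
      have q := (commutator_eq_bot_iff_center_eq_top _).1 (le_bot_iff.1 (e ▸ this n))
      exact hna fun a b => mem_center_iff.1 (q ▸ mem_top b) a
    have hd := (hcd β hβ).resolve_left k2
    have hc : commutator G ≤ charCenter β := fun g hg => (mem_charCenter_iff_comm hβ g).2 fun x =>
      (mem_charKer (chr hβ) _).2 (k1 _ (by
        rw [commutator_comm]; exact commutator_mem_commutator (mem_top x) hg))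
    haveI := charCenter_normal (irr_class hβ)
    have hz := abelZ hp hcd hβ hd hc
    have hi : (charCenter β).index = p ^ 2 := by rw [← van2 hβ hc, hd]
    refine hne (core hp hcd _ hz hc hi (center_le_charCenter hβ) fun x hx => ?_)
    by_contra! k
    have k' : ∀ z ∈ charCenter β, x * z = z * x := fun z hz => by
      have := k z hz
      rwa [mul_inv_eq_one, mul_inv_eq_iff_eq_mul] at this
    have c1 : charCenter β ⊔ zpowers x ≤ centralizer (charCenter β : Set G) :=
      sup_le (fun a ha => mem_centralizer_iff.2 fun b hb => congrArg Subtype.val (hz ⟨b, hb⟩ ⟨a, ha⟩))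
        (zpowers_le.2 (mem_centralizer_iff.2 fun b hb => (k' b hb).symm))
    have c2 : charCenter β ⊔ zpowers x ≤ centralizer {x} :=
      sup_le (fun a ha => mem_centralizer_singleton_iff.2 (k' a ha).symm)
        (zpowers_le.2 (mem_centralizer_singleton_iff.2 rfl))
    have c3 : ∀ a ∈ charCenter β ⊔ zpowers x, ∀ b ∈ charCenter β ⊔ zpowers x, a * b = b * a := fun a ha b hb =>
      (mem_centralizer_singleton_iff.1 ((sup_le
        (fun z hz => mem_centralizer_singleton_iff.2 (mem_centralizer_iff.1 (c1 ha) z hz))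
        (zpowers_le.2 (mem_centralizer_singleton_iff.2 (mem_centralizer_singleton_iff.1 (c2 ha)).symm)) :
          charCenter β ⊔ zpowers x ≤ centralizer {a}) hb)).symm
    have d := index_dvd_of_le (le_sup_left : charCenter β ≤ charCenter β ⊔ zpowers x)
    have n := idx_lt (le_sup_left : charCenter β ≤ charCenter β ⊔ zpowers x) (mem_sup_right (mem_zpowers x)) hx
    rw [hi] at d n
    obtain ⟨i, i1, i2⟩ := (Nat.dvd_prime_pow hp).1 d
    interval_cases i
    · rw [pow_zero, index_eq_one] at i2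
      exact hna fun a b => c3 a (i2 ▸ mem_top a) b (i2 ▸ mem_top b)
    · exact hno _ (nm _ (hc.trans le_sup_left)) c3 (by rw [i2, pow_one])
    · exact n i2
  · intro h
    have hcd : ∀ χ, IsIrrCharacter G χ → charDegree χ = 1 ∨ charDegree χ = p := by
      intro χ hχ
      rcases h with ⟨A, hA, h1, h2⟩ | h
      · have := Fintype.ofFinite G
        exact (Nat.dvd_prime hp).1 (h2 ▸ ito A h1 hχ (deg_eq (chr hχ)))
      · have d := degree_dvd_index_of_le_charCenter hχ (deg_eq (chr hχ)) _ (center_le_charCenter hχ)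
        have l := degree_sq_le_index hχ (deg_eq (chr hχ)) _ (center_le_charCenter hχ)
        rw [h] at d l
        obtain ⟨i, -, i2⟩ := (Nat.dvd_prime_pow hp).1 d
        rw [i2, ← pow_mul, Nat.pow_le_pow_iff_right hp.one_lt] at l
        have : i = 0 ∨ i = 1 := by omega
        rcases this with rfl | rfl <;> simp [i2]
    refine ⟨fun χ => hcd _ χ.2, ?_⟩
    by_contra! k
    exact hna (comm_of_deg_one fun χ hχ => (hcd χ hχ).resolve_right (k ⟨χ, hχ⟩))

end Cfsg.Agent.S4459
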