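import Cfsg.Statements.S4520
import Cfsg.Agent.H4.Dade

set_option autoImplicit false
open Cfsg

namespace Cfsg.Agent.S4520

open H4 H1 MonoidAlgebra
open scoped Pointwise


/-- Let N be a normal subgroup of odd index in the finite group G, M a maximal ideal of the algebraic integers containing 2, and k coprime to the order of G with k ^ (2 ^ e) ≡ 1 modulo the order of G for some e and g ^ k = g⁻¹ for every element g of odd order. Let θ be an irreducible character of N and χ an irreducible character of G over θ, both unchanged by composing with g ↦ g ^ k. Then χ lies in the principal 2-block of G if and only if θ lies in the principal 2-block of N. -/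
theorem result {G : Type*} [Group G] [Fintype G] (M : Ideal Cfsg.AlgInt) (hM : Cfsg.IsPModular 2 M) (N : Subgroup G) [N.Normal] [Fintype N] (hidx : Odd N.index) (k e : ℕ) (hk : Nat.Coprime k (Nat.card G)) (hke : k ^ (2 ^ e) ≡ 1 [MOD Nat.card G]) (hk₂ : ∀ g : G, Odd (orderOf g) → g ^ k = g⁻¹) (θ : Cfsg.IrrCharacter N) (hθ : ∀ n : N, (θ : N → ℂ) (n ^ k) = (θ : N → ℂ) n) (χ : Cfsg.IrrCharacter G) (hχ : ∀ g : G, (χ : G → ℂ) (g ^ k) = (χ : G → ℂ) g) (hover : Cfsg.classInner (fun n : N => (χ : G → ℂ) n) (θ : N → ℂ) ≠ 0) : χ ∈ Cfsg.principalBlock M G ↔ θ ∈ Cfsg.principalBlock M N := by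
  refine ⟨fun h => under_principal hM h hover, fun h => ?_⟩
  have hB := isPBlock_blockOf (M := M) χ.2
  have h2 := mem_blockOf_self hM χ
  obtain ⟨P, hP⟩ := exists_dg hM hB
  obtain ⟨Q, hQ⟩ := exists_dg hM (isPBlock_principal (M := M) (G := N))
  have h3 := (isBI_eB hM hB).card_inf_eq hM le_top (NS_eq_top N).ge (isBI_aE hM isPBlock_principal)
    ((cov_iff hM hB isPBlock_principal).1 ⟨χ, h2, θ, h, hover⟩) ((dg_iff_ADG_map hM isPBlock_principal).1 hQ)
    ((dg_iff_ADG_top hM hB).1 hP)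
  rw [Subgroup.card_map_of_injective Subtype.val_injective, dg_card hM isPBlock_principal hQ,
    blockDefect_principal hM] at h3
  have h4 := Subgroup.card_le_of_le (inf_le_left : P ⊓ N ≤ P)
  rw [h3, dg_card hM hB hP, Nat.pow_le_pow_iff_right one_lt_two] at h4
  have h5 := factorization_index_add (p := 2) N
  rw [Nat.factorization_eq_zero_of_not_dvd (Nat.two_dvd_ne_zero.2 (Nat.odd_iff.1 hidx))] at h5
  have h6 := mB_add_blockDefect (p := 2) ⟨χ, h2⟩
  rw [← principal_of_stable hM hB (by omega) (·⁻¹) inv_surjective (fun _ _ => rfl) fun ψ hψ =>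
    ⟨⟨_, H3.irr_conj ψ.2⟩, ?_, fun g => (irr_inv ψ g).symm⟩]
  · exact h2
  · have h3 := sameBlock_conj (H3.irr_char χ.2) (H3.irr_char ψ.2) hψ
    have h4 : Cfsg.SameBlock M χ.1 (⟨_, H3.irr_conj χ.2⟩ : Cfsg.IrrCharacter G).1 :=
      sameBlock_of_reg hM fun g hg => by
        rw [← hχ, hk₂ g (Nat.odd_iff.2 (Nat.two_dvd_ne_zero.1 hg)), irr_inv]
    exact (sameBlock_iff_lam hM χ.2 (H3.irr_conj ψ.2)).2 (((sameBlock_iff_lam hM χ.2 (H3.irr_conj χ.2)).1 h4).trans
      ((sameBlock_iff_lam hM (H3.irr_conj χ.2) (H3.irr_conj ψ.2)).1 h3))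

end Cfsg.Agent.S4520
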