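import Cfsg.Statements.S4521
import Cfsg.Agent.H4.Misc

set_option autoImplicit false
open Cfsg

namespace Cfsg.Agent.S4521

open H4 H1 MonoidAlgebra
open scoped Pointwise


/-- Let the finite group G be generated by subgroups U₁ and U₂ that commute elementwise and whose intersection is a p-group, and let M be a maximal ideal of the algebraic integers containing the prime p. If the irreducible character χ of G has the irreducible constituents ψ₁ on U₁ and ψ₂ on U₂, then χ lies in the principal block of G if and only if ψ₁ and ψ₂ lie in the principal blocks of U₁ and U₂. -/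
theorem result {G : Type*} [Group G] [Fintype G] (p : ℕ) [Fact p.Prime] (M : Ideal Cfsg.AlgInt) (hM : Cfsg.IsPModular p M) (U₁ U₂ : Subgroup G) [Fintype U₁] [Fintype U₂] (hcomm : ∀ u ∈ U₁, ∀ v ∈ U₂, u * v = v * u) (hgen : U₁ ⊔ U₂ = ⊤) (hZ : IsPGroup p ↥(U₁ ⊓ U₂)) (χ : Cfsg.IrrCharacter G) (ψ₁ : Cfsg.IrrCharacter U₁) (ψ₂ : Cfsg.IrrCharacter U₂) (h₁ : Cfsg.classInner (fun u : U₁ => (χ : G → ℂ) u) (ψ₁ : U₁ → ℂ) ≠ 0) (h₂ : Cfsg.classInner (fun u : U₂ => (χ : G → ℂ) u) (ψ₂ : U₂ → ℂ) ≠ 0) : χ ∈ Cfsg.principalBlock M G ↔ (ψ₁ ∈ Cfsg.principalBlock M U₁ ∧ ψ₂ ∈ Cfsg.principalBlock M U₂) := by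
  have h1 : U₁ ≤ CS U₂ := fun u hu w hw => (hcomm u hu w hw).symm
  have h2 : U₂ ≤ CS U₁ := fun u hu w hw => hcomm w hw u hu
  haveI : U₁.Normal := Subgroup.normalizer_eq_top_iff.1 (top_le_iff.1 (hgen ▸ sup_le Subgroup.le_normalizer
    (h2.trans (CS_le_NS _))))
  haveI : U₂.Normal := Subgroup.normalizer_eq_top_iff.1 (top_le_iff.1 (hgen ▸ sup_le (h1.trans (CS_le_NS _))
    Subgroup.le_normalizer))
  have hB := isPBlock_blockOf (M := M) χ.2
  have h0 := isPBlock_principal (M := M) (G := G)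
  constructor
  · intro h
    have hb₁ := isPBlock_blockOf (M := M) ψ₁.2
    have hb₂ := isPBlock_blockOf (M := M) ψ₂.2
    exact ⟨eq_principal_of_cov hM hb₁ ((cov_iff hM h0 hb₁).1 ⟨χ, h, ψ₁, mem_blockOf_self hM _, h₁⟩) ▸
      mem_blockOf_self hM _, eq_principal_of_cov hM hb₂ ((cov_iff hM h0 hb₂).1
        ⟨χ, h, ψ₂, mem_blockOf_self hM _, h₂⟩) ▸ mem_blockOf_self hM _⟩
  rintro ⟨k1, k2⟩
  have k3 := (cov_iff hM hB isPBlock_principal).1 ⟨χ, mem_blockOf_self hM _, ψ₁, k1, h₁⟩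
  have k4 := (cov_iff hM hB isPBlock_principal).1 ⟨χ, mem_blockOf_self hM _, ψ₂, k2, h₂⟩
  have hs : ∀ (U : Subgroup G) [U.Normal], ∀ u ∈ U, cls (k M) u ∈ Sup (k M) (U : Set G) := fun U _ u hu =>
    acls_top (R := k M) u ▸ acls_mem_Sup (NS_eq_top U).ge hu
  rw [← block_eq_of_lamB_eB hM hB h0]
  · exact mem_blockOf_self hM χ
  rw [Fix_linear_ext (f' := lamB M (principalBlock M G)) (Z_le_Fix ⊤ (eB_mem_Z _)) fun g hg => ?_,
    lamB_eB_self hM h0]
  · exact one_ne_zero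
  have h3 := not_dvd_of_eB_ne_zero hM h0 hg
  obtain ⟨a, ha, b, hb, rfl⟩ := (mem_sup_of_le_normalizer_right (h1.trans (CS_le_NS _))).1 (hgen.ge trivial : g ∈ _)
  have hc : Commute a b := hcomm a ha b hb
  have h4 : pq p (a * b) = pq p a * pq p b := by
    have e1 : Commute (pp p a) (pp p b) := Commute.pp_right (Commute.pp_right hc).symm |>.symm
    have e2 : Commute (pq p a) (pq p b) := Commute.pq_right (Commute.pq_right hc).symm |>.symm
    have e3 : Commute (pq p a) (pp p b) := Commute.pq_right (Commute.pp_right hc).symm |>.symm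
    have e4 : Commute (pp p a) (pq p b) := Commute.pp_right (Commute.pq_right hc).symm |>.symm
    have e5 : a * b = pp p a * pp p b * (pq p a * pq p b) := by
      rw [mul_assoc, ← mul_assoc (pp p b), ← e3.eq, mul_assoc, pp_mul_pq, ← mul_assoc, pp_mul_pq]
    rw [e5]
    refine pq_mul_of_commute hM.1 (((commute_pp_pq a).mul_right e4).mul_left (e3.symm.mul_right (commute_pp_pq b)))
      (isPElt_of_mem hM.1 (isPGroup_sup_of_CS (isPGroup_zpowers hM.1 (isPElt_pp hM.1 a))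
        (isPGroup_zpowers hM.1 (isPElt_pp hM.1 b)) (Subgroup.zpowers_le.2 (C1_le_normalizer_zpowers _
          (mem_centralizer_singleton.2 e1)))) (Subgroup.mul_mem_sup (Subgroup.mem_zpowers _)
            (Subgroup.mem_zpowers _)))
      (not_dvd_orderOf_mul hM.1 e2 (not_dvd_orderOf_pq hM.1 a) (not_dvd_orderOf_pq hM.1 b))
  rw [acls_top, ← pq_of_not_dvd hM.1 h3, h4, ← cls_mul_cls h1 hgen hZ (pq_mem ha) (pq_mem hb)
    (not_dvd_orderOf_pq hM.1 a), lamB_mul hM hB (cls_mem_Z _) (cls_mem_Z _),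
    lamB_mul hM h0 (cls_mem_Z _) (cls_mem_Z _),
    lamB_eq_aL hM isPBlock_principal hB k3 (cls_mem_Z _) (hs _ _ (pq_mem ha)),
    lamB_eq_aL hM isPBlock_principal hB k4 (cls_mem_Z _) (hs _ _ (pq_mem hb)),
    lamB_eq_aL hM isPBlock_principal h0 (principal_cov hM U₁) (cls_mem_Z _) (hs _ _ (pq_mem ha)),
    lamB_eq_aL hM isPBlock_principal h0 (principal_cov hM U₂) (cls_mem_Z _) (hs _ _ (pq_mem hb))]

end Cfsg.Agent.S4521
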