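import Cfsg.Statements.S4540
import Cfsg.Agent.H4.Gal

set_option autoImplicit false
open Cfsg

namespace Cfsg.Agent.S4540

open H4 H1 MonoidAlgebra
open scoped Pointwise


/-- Let B be a 2-block of the finite group G (relative to a maximal ideal M of the algebraic integers containing 2) of defect d with defect group D. Let z be an element of D commuting with every element of D, and let b be a block of the centralizer C of z with defect group D that induces B (a major subsection (z, b)). If b has 2-regular rank at most three, then 3·k(B) ≤ 3·k₀(B) + 2·Σ 2 ^ h(χ), where k(B) is the number of members of B, k₀(B) the number of members of height zero, and the sum runs over the members χ of B of positive height h(χ); this bound is at most 3·2 ^ d, so in particular B contains at most 2 ^ d irreducible characters. -/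
theorem result {G : Type*} [Group G] [Finite G] (M : Ideal Cfsg.AlgInt) (hM : Cfsg.IsPModular 2 M) (B : Set (Cfsg.IrrCharacter G)) (hB : Cfsg.IsPBlock M B) (D : Subgroup G) (hD : Cfsg.IsDefectGroup 2 M B D) (z : G) (hzD : z ∈ D) (hzc : ∀ d ∈ D, d * z = z * d) (b : Set (Cfsg.IrrCharacter ↥(Subgroup.centralizer ({z} : Set G)))) (hb : Cfsg.IsInducedBlock M (Subgroup.centralizer ({z} : Set G)) b B) (hbD : Cfsg.IsDefectGroup 2 M b (D.subgroupOf (Subgroup.centralizer ({z} : Set G)))) (hl : Cfsg.blockRank 2 b ≤ 3) : 3 * Nat.card B ≤ 3 * Nat.card {χ : Cfsg.IrrCharacter G // χ ∈ B ∧ Cfsg.blockHeight 2 B (χ : G → ℂ) = 0} + 2 * (∑ᶠ χ ∈ {χ : Cfsg.IrrCharacter G | χ ∈ B ∧ 1 ≤ Cfsg.blockHeight 2 B (χ : G → ℂ)}, 2 ^ Cfsg.blockHeight 2 B (χ : G → ℂ)) ∧ 3 * Nat.card {χ : Cfsg.IrrCharacter G // χ ∈ B ∧ Cfsg.blockHeight 2 B (χ : G → ℂ) = 0} + 2 * (∑ᶠ χ ∈ {χ : Cfsg.IrrCharacter G | χ ∈ B ∧ 1 ≤ Cfsg.blockHeight 2 B (χ : G → ℂ)}, 2 ^ Cfsg.blockHeight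 2 B (χ : G → ℂ)) ≤ 3 * 2 ^ Cfsg.blockDefect 2 B := by
  classical
  cases nonempty_fintype (C1 z)
  have hz : Sec 2 (cEl z) := sec_cEl (isPElt_of_mem Fact.out (dg_isPGroup hD) hzD)
  have hd := defect_eq_of_dg hM hb hD hbD fun d hd => mem_centralizer_singleton.2 (hzc d hd).symm
  obtain ⟨n, hn⟩ := hz.exists_pow
  have hS : Nat.card {χ : IrrCharacter G // χ ∈ B ∧ blockHeight 2 B χ.1 = 0} =
      ((fs B).filter fun χ => blockHeight 2 B χ.1 = 0).card := by
    rw [← Nat.card_eq_finsetCard]; exact Nat.card_congr (Equiv.subtypeEquivRight fun χ => by simp)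
  have hT : fs {χ : IrrCharacter G | χ ∈ B ∧ 1 ≤ blockHeight 2 B χ.1} =
      (fs B).filter fun χ => ¬ blockHeight 2 B χ.1 = 0 := by ext; simp [Nat.one_le_iff_ne_zero]
  have e : ∀ a : ℕ, a * ((fs B).filter fun χ => blockHeight 2 B χ.1 = 0).card +
      2 * ∑ χ ∈ (fs B).filter fun χ => ¬ blockHeight 2 B χ.1 = 0, 2 ^ blockHeight 2 B χ.1 =
      ∑ χ ∈ fs B, if blockHeight 2 B χ.1 = 0 then a else 2 * 2 ^ blockHeight 2 B χ.1 := fun a => by
    rw [Finset.sum_ite, Finset.sum_const, Finset.mul_sum, smul_eq_mul, mul_comm]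
  rw [hS, finsum_mem_eq_fs, hT, e, ← card_fs, Finset.card_eq_sum_ones, Finset.mul_sum]
  refine ⟨Finset.sum_le_sum fun χ _ => ?_, ?_⟩
  · split_ifs with h
    · rfl
    · have := Nat.pow_le_pow_right two_pos (Nat.pos_of_ne_zero h); omega
  rw [← Nat.cast_le (α := ℝ)]; push_cast
  by_cases h : ∃ χ ∈ B, blockHeight 2 B χ.1 = 0 ∧ aD 2 n (cEl z) b χ = 1
  · obtain ⟨χ, h1, h2, h3⟩ := h
    have h4 := hz.sum_aQ (n := n) hM hb χ
    rw [h3, mul_one, hd, Nat.cast_ofNat] at h4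
    rw [← h4, Finset.mul_sum]
    refine Finset.sum_le_sum fun ψ hψ => ?_
    have h5 := hz.le_aQ hM hn hb hd h1 (mem_fs.1 hψ) h2
    rw [pow_mul, Nat.cast_ofNat] at h5
    have h6 : (1 : ℝ) ≤ 2 ^ blockHeight 2 B ψ.1 := one_le_pow₀ one_le_two
    split_ifs <;> nlinarith
  · have h4 := hz.sum_aD (n := n) hM hb
    have h5 : (blockRank 2 b : ℝ) ≤ 3 := by exact_mod_cast hl
    rw [hd, Nat.cast_ofNat] at h4
    refine (Finset.sum_le_sum fun ψ hψ => ?_).trans (h4.trans_le (by rw [mul_comm]; gcongr))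
    split_ifs with h6
    · obtain ⟨m, hm⟩ := hz.aD_two_odd hM hn hb (mem_fs.1 hψ) h6
      have : m ≠ 0 := fun e => h ⟨ψ, mem_fs.1 hψ, h6, by simp [hm, e]⟩
      rw [hm]; exact_mod_cast (by omega : 3 ≤ 2 * m + 1)
    · exact hz.le_aD_two hM hn hb hd (mem_fs.1 hψ) h6

end Cfsg.Agent.S4540
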