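import Cfsg.Statements.S4541
import Cfsg.Agent.H4.Gal

set_option autoImplicit false
open Cfsg

namespace Cfsg.Agent.S4541

open H4 H1 MonoidAlgebra
open scoped Pointwise


/-- Let B be a 2-block of the finite group G (relative to a maximal ideal M of the algebraic integers containing 2), u a 2-element, and b a block of the centralizer of u inducing B (a subsection (u, b)), of defect q and 2-regular rank l; write s for the integer square root of l and k₀(B) for the number of members of B of height zero. If s is odd then k₀(B) ≤ s·2 ^ q, and otherwise (s + 1)·k₀(B) ≤ l·2 ^ q; in particular k₀(B) ≤ 2 ^ q when l ≤ 3. -/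
theorem result {G : Type*} [Group G] [Finite G] (M : Ideal Cfsg.AlgInt) (hM : Cfsg.IsPModular 2 M) (B : Set (Cfsg.IrrCharacter G)) (hB : Cfsg.IsPBlock M B) (u : G) (hu : ∃ j : ℕ, orderOf u = 2 ^ j) (b : Set (Cfsg.IrrCharacter ↥(Subgroup.centralizer ({u} : Set G)))) (hb : Cfsg.IsInducedBlock M (Subgroup.centralizer ({u} : Set G)) b B) : (Odd (Nat.sqrt (Cfsg.blockRank 2 b)) → Nat.card {χ : Cfsg.IrrCharacter G // χ ∈ B ∧ Cfsg.blockHeight 2 B (χ : G → ℂ) = 0} ≤ Nat.sqrt (Cfsg.blockRank 2 b) * 2 ^ Cfsg.blockDefect 2 b) ∧ (¬ Odd (Nat.sqrt (Cfsg.blockRank 2 b)) → (Nat.sqrt (Cfsg.blockRank 2 b) + 1) * Nat.card {χ : Cfsg.IrrCharacter G // χ ∈ B ∧ Cfsg.blockHeight 2 B (χ : G → ℂ) = 0} ≤ Cfsg.blockRank 2 b * 2 ^ Cfsg.blockDefect 2 b) ∧ (Cfsg.blockRank 2 b ≤ 3 → Nat.card {χ : Cfsg.IrrCharacter G // χ ∈ B ∧ Cfsg.blockHeight 2 B (χ : G → ℂ) = 0} ≤ 2 ^ Cfsg.blockDefect 2 b) := by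
  classical
  cases nonempty_fintype (C1 u)
  have hz : Sec 2 (cEl u) := sec_cEl hu
  obtain ⟨n, hn⟩ := hz.exists_pow
  set S := (fs B).filter fun χ => blockHeight 2 B χ.1 = 0
  have hS : Nat.card {χ : IrrCharacter G // χ ∈ B ∧ blockHeight 2 B χ.1 = 0} = S.card := by
    rw [← Nat.card_eq_finsetCard]; exact Nat.card_congr (Equiv.subtypeEquivRight fun χ => by simp [S])
  obtain ⟨χ₀, h1, h2⟩ := exists_height_zero hM hB
  obtain ⟨χ, h3, h4⟩ := S.exists_min_image (aD 2 n (cEl u) b) ⟨χ₀, Finset.mem_filter.2 ⟨mem_fs.2 h1, h2⟩⟩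
  have h5 := Finset.mem_filter.1 h3
  obtain ⟨m, hm⟩ := hz.aD_two_odd hM hn hb (mem_fs.1 h5.1) h5.2
  have h6 := (Finset.sum_le_sum h4).trans ((Finset.sum_le_sum_of_subset_of_nonneg (Finset.filter_subset _ _)
    fun χ _ _ => aD_nonneg _ _ χ).trans_eq (hz.sum_aD hM hb))
  have h7 := (Finset.sum_le_sum fun ψ (hψ : ψ ∈ S) => hz.one_le_aQ hM hn hb (mem_fs.1 h5.1)
    (mem_fs.1 (Finset.mem_filter.1 hψ).1) h5.2 (Finset.mem_filter.1 hψ).2).trans
    ((Finset.sum_le_sum_of_subset_of_nonneg (Finset.filter_subset _ _)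
    fun ψ _ _ => aQ_nonneg _ _ χ ψ).trans_eq (hz.sum_aQ hM hb χ))
  rw [Finset.sum_const, nsmul_eq_mul, hm] at h6 h7
  have h8 : S.card * (2 * m + 1) ≤ 2 ^ blockDefect 2 b * blockRank 2 b := by exact_mod_cast h6
  have h9 : S.card * 1 ≤ 2 ^ blockDefect 2 b * (2 * m + 1) := by exact_mod_cast h7
  have l0 := rank_pos (p := 2) (block_nonempty hM hb.1)
  rw [hS]
  generalize S.card = k at *
  generalize 2 ^ blockDefect 2 b = q at *
  generalize blockRank 2 b = l at *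
  have s1 := Nat.sqrt_le l
  have s2 := Nat.lt_succ_sqrt l
  have a1 : Odd l.sqrt → k ≤ l.sqrt * q := fun ⟨t, ht⟩ => by
    rw [ht] at s1 s2 ⊢
    rcases le_or_gt m t with h | h
    · nlinarith [Nat.mul_le_mul_left q h]
    · refine Nat.le_of_mul_le_mul_right (c := 2 * t + 3) ?_ (by omega)
      have e1 : l ≤ (2 * t + 1) * (2 * t + 3) := by simp only [Nat.succ_eq_add_one] at s2; nlinarith
      nlinarith [Nat.mul_le_mul_left k (show 2 * t + 3 ≤ 2 * m + 1 by omega), Nat.mul_le_mul_left q e1]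
  refine ⟨a1, fun h => ?_, fun h => ?_⟩
  · obtain ⟨t, ht⟩ := Nat.not_odd_iff_even.1 h
    rw [ht] at s1 s2 ⊢
    rcases le_or_gt t m with h | h
    · nlinarith [Nat.mul_le_mul_left k h]
    · have e1 : (t + t + 1) * (2 * m + 1) ≤ l := by nlinarith
      nlinarith [Nat.mul_le_mul_left q e1, Nat.mul_le_mul_left (t + t + 1) h9]
  · have : l.sqrt = 1 := (Nat.eq_sqrt.2 ⟨by omega, by omega⟩).symm
    simpa [this] using a1

end Cfsg.Agent.S4541
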