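import Cfsg.Statements.S4550
import Cfsg.Agent.H4.Prin

set_option autoImplicit false
open Cfsg

namespace Cfsg.Agent.S4550

open H4 H1 MonoidAlgebra
open scoped Pointwise


/-- Let G be a finite group of even order and M a maximal ideal of the algebraic integers containing 2. Let k be a natural number with g ^ k = g ^ 3 for every 2-element g and g ^ k = g for every element g of odd order (such k exist); an irreducible character χ is unchanged by g ↦ g ^ k exactly when it is fixed by the field automorphism that cubes the 2-power roots of unity and fixes the roots of unity of odd order. Then the number of members χ of the principal 2-block of odd degree with χ (g ^ k) = χ g for all g is even. -/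
theorem result {G : Type*} [Group G] [Finite G] (M : Ideal Cfsg.AlgInt) (hM : Cfsg.IsPModular 2 M) (hev : Even (Nat.card G)) (k : ℕ) (hk₁ : ∀ g : G, (∃ j : ℕ, orderOf g = 2 ^ j) → g ^ k = g ^ 3) (hk₂ : ∀ g : G, Odd (orderOf g) → g ^ k = g) : Even (Nat.card {χ : Cfsg.IrrCharacter G // χ ∈ Cfsg.principalBlock M G ∧ Odd (Cfsg.charDegree (χ : G → ℂ)) ∧ ∀ g : G, (χ : G → ℂ) (g ^ k) = (χ : G → ℂ) g}) := by
  classical
  have hk : k.Coprime (Nat.card G) := Nat.coprime_of_dvd fun q hq h1 h2 => by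
    have := Fact.mk hq
    obtain ⟨g, hg⟩ := exists_prime_orderOf_dvd_card' q h2
    have h3 := orderOf_dvd_iff_pow_eq_one.1 (hg ▸ h1)
    rcases hq.eq_two_or_odd' with rfl | h
    · rw [hk₁ g ⟨1, hg⟩, ← orderOf_dvd_iff_pow_eq_one, hg] at h3; omega
    · rw [hk₂ g (hg ▸ h)] at h3; exact hq.ne_one (by rw [← hg, h3, orderOf_one])
  obtain ⟨σ, hσ⟩ := H3.exists_galois_pow Nat.card_pos.ne' hk
  have h1 : ∀ (χ : IrrCharacter G) g, (gal σ χ).1 g = χ.1 (g ^ k) := fun χ g =>
    H3.ringHom_char_apply σ hσ (H3.irr_char χ.2) (orderOf_dvd_natCard g)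
  have h2 : ∀ g : G, g ^ k ^ 2 ^ (Nat.card G).factorization 2 = g := fun g => by
    have k1 : ∀ j, pp 2 g ^ k ^ j = pp 2 g ^ 3 ^ j := fun j => by
      induction j with
      | zero => rfl
      | succ j ih => rw [pow_succ, pow_mul, ih, hk₁ _ ((isPElt_pp Nat.prime_two g).pow Nat.prime_two _), ← pow_mul, ← pow_succ]
    have k2 : ∀ j, pq 2 g ^ k ^ j = pq 2 g := fun j => by
      induction j with
      | zero => simp
      | succ j ih => rw [pow_succ, pow_mul, ih, hk₂ _ (Nat.odd_iff.2 (Nat.two_dvd_ne_zero.1 (not_dvd_orderOf_pq Nat.prime_two g)))]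
    have k3 := Nat.ModEq.pow_totient (x := 3) (n := 2 ^ ((Nat.card G).factorization 2 + 1)) (Nat.Coprime.pow_right _ (by decide))
    obtain ⟨a, ha⟩ := isPElt_pp Nat.prime_two g
    rw [Nat.totient_prime_pow_succ Nat.prime_two, show 2 - 1 = 1 from rfl, mul_one] at k3
    conv_lhs => rw [← pp_mul_pq (p := 2) g, (commute_pp_pq g).mul_pow, k1, k2, pow_eq_pow_iff_modEq.2 (k3.of_dvd (ha ▸ pow_dvd_pow 2
      (((Nat.prime_two.pow_dvd_iff_le_factorization Nat.card_pos.ne').1 (ha ▸ orderOf_dvd_natCard _)).trans (Nat.le_succ _)))),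
      pow_one, pp_mul_pq]
  let f : Function.End {χ : IrrCharacter G // χ ∈ principalBlock M G ∧ Odd (charDegree χ.1)} := fun χ =>
    ⟨gal σ χ.1, (gal_principal hM σ).2 χ.2.1, by rw [charDegree_gal]; exact χ.2.2⟩
  have h3 : ∀ j χ g, ((f ^ j) χ).1.1 g = χ.1.1 (g ^ k ^ j) := fun j => by
    induction j with
    | zero => intro χ g; simp [Function.End.one_def]
    | succ j ih => intro χ g; rw [pow_succ' f, pow_succ', pow_mul, ← ih, ← h1]; rfl
  have := Fintype.ofFinite {χ : IrrCharacter G // χ ∈ principalBlock M G ∧ Odd (charDegree χ.1)}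
  have h4 := Equiv.Perm.card_fixedPoints_modEq (f := f) (p := 2) (n := (Nat.card G).factorization 2)
    (funext fun χ => Subtype.ext (Subtype.ext (funext fun g => by rw [h3, h2]; rfl)))
  have h5 := dvd_card_of_dvd _ _ (dvd_sum_sq hM isPBlock_principal hev.two_dvd) (by decide)
  rw [← Nat.card_eq_fintype_card, ← Nat.card_eq_fintype_card] at h4
  rw [← Nat.card_eq_finsetCard, Nat.card_congr (Equiv.subtypeEquivRight (q := fun χ => χ ∈ principalBlock M G ∧
    Odd (charDegree χ.1)) fun χ => by simp [Nat.odd_iff])] at h5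
  rw [even_iff_two_dvd, ← Nat.card_congr (α := f.fixedPoints) ⟨fun χ => ⟨χ.1.1, χ.1.2.1, χ.1.2.2, fun g => by
    rw [← h1]; exact congrArg (fun ψ => ψ.1.1 g) χ.2⟩, fun χ => ⟨⟨χ.1, χ.2.1, χ.2.2.1⟩, Subtype.ext (Subtype.ext (funext fun g =>
      (h1 _ g).trans (χ.2.2.2 g)))⟩, fun _ => rfl, fun _ => rfl⟩]
  exact (h4.dvd_iff dvd_rfl).1 h5

end Cfsg.Agent.S4550
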