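import Cfsg.Statements.S4565
import Cfsg.Agent.H3.Cw
import Cfsg.Agent.H3.Df

set_option autoImplicit false
open Cfsg

namespace Cfsg.Agent.S4565

open H3

/-- Let χ be an irreducible character of the finite group H that is fully ramified over the normal subgroup Z: the restriction of χ to Z is e times an irreducible character of Z with e ^ 2 equal to the index of Z. If Z ≠ H, then H/Z has no cyclic subgroup that is its own centralizer. -/
theorem result {H : Type*} [Group H] [Finite H] (Z : Subgroup H) [Z.Normal] (χ : Cfsg.IrrCharacter H) (hfr : ∃ (θ : Cfsg.IrrCharacter ↥Z) (e : ℕ), e ^ 2 = Z.index ∧ ∀ z : ↥Z, (χ : H → ℂ) z = (e : ℂ) * (θ : ↥Z → ℂ) z) (hZ : Z ≠ ⊤) (C : Subgroup (H ⧸ Z)) (hC : IsCyclic C) : Subgroup.centralizer (C : Set (H ⧸ Z)) ≠ C := by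
  intro h
  obtain ⟨θ, e, he, h1⟩ := hfr
  obtain ⟨c, hc⟩ := (Subgroup.isCyclic_iff_exists_zpowers_eq_top C).1 hC
  obtain ⟨g, rfl⟩ := QuotientGroup.mk'_surjective Z c
  let U := C.comap (QuotientGroup.mk' Z)
  have hZU : Z ≤ U := fun x hx => by simp [U, (QuotientGroup.eq_one_iff x).2 hx]
  have e0 : (e : ℂ) ≠ 0 := fun a => irr_one_ne_zero χ.2 (by simpa [a] using h1 1)
  have hinv := invariant_of_restrict Z (irr_class χ.2) e0 h1
  have hgU : g ∈ U := by
    change QuotientGroup.mk' Z g ∈ C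
    rw [← hc]; exact Subgroup.mem_zpowers _
  obtain ⟨η, a, b⟩ := extend_of_cyclic (Z.subgroupOf U) (by
      refine ⟨⟨(⟨g, hgU⟩ : U), fun y => ?_⟩⟩
      obtain ⟨y, rfl⟩ := QuotientGroup.mk_surjective y
      obtain ⟨k, hk⟩ := Subgroup.mem_zpowers_iff.1 (hc.ge y.2)
      refine ⟨k, ?_⟩
      rw [← map_zpow] at hk
      exact (QuotientGroup.mk_zpow _ _ _).symm.trans (QuotientGroup.eq.2 (by
        simpa [Subgroup.mem_subgroupOf] using QuotientGroup.eq.1 hk)))
    (irr_subgroupOf Z hZU θ.2)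
    fun x => funext fun y => congrFun (hinv x) ⟨y, Subgroup.mem_subgroupOf.1 y.2⟩
  have := not_good Z χ.2 θ.2 he h1 U hZU (irr_char a) (fun z => b ⟨⟨z, hZU z.2⟩, z.2⟩) ⟨g, hgU⟩
    fun x => by
      change _ ↔ QuotientGroup.mk' Z x ∈ C
      rw [← h, ← hc, H1.centralizer_zpowers, Subgroup.mem_centralizer_singleton_iff,
        ← QuotientGroup.eq_one_iff]
      simp [mul_inv_eq_iff_eq_mul]
  rw [(QuotientGroup.eq_one_iff g).2 this |> (QuotientGroup.mk'_apply Z g).trans,
    Subgroup.zpowers_one_eq_bot] at hc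
  subst hc
  refine hZ (eq_top_iff.2 fun x _ => (QuotientGroup.eq_one_iff x).1 ?_)
  rw [← Subgroup.mem_bot, ← h]
  simp [Subgroup.mem_centralizer_iff]

end Cfsg.Agent.S4565
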