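import Cfsg.Statements.S4566
import Cfsg.Agent.H3.Chr
import Cfsg.Agent.H3.Brauer

set_option autoImplicit false
open Cfsg

namespace Cfsg.Agent.S4566

/-- Let N be a central subgroup of the finite group G, ψ a faithful irreducible (hence degree-one) character of N, and χ an irreducible character of G whose restriction to N contains ψ. If g ∈ G and some x ∈ G has commutator x⁻¹ g⁻¹ x g in N but different from 1, then χ g = 0. -/
theorem result {G : Type*} [Group G] [Fintype G] (N : Subgroup G) [Fintype N] (hN : N ≤ Subgroup.center G) (ψ : Cfsg.IrrCharacter ↥N) (hfaith : ∀ n : ↥N, (ψ : ↥N → ℂ) n = (ψ : ↥N → ℂ) 1 → n = 1) (χ : Cfsg.IrrCharacter G) (hover : Cfsg.classInner (fun n : ↥N => (χ : G → ℂ) n) (ψ : ↥N → ℂ) ≠ 0) (g x : G) (hcomm : x⁻¹ * g⁻¹ * x * g ∈ N) (hne : x⁻¹ * g⁻¹ * x * g ≠ 1) : (χ : G → ℂ) g = 0 := by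
  have : N.Normal := ⟨fun n hn g => by
    rw [Subgroup.mem_center_iff.1 (hN hn) g, mul_inv_cancel_right]; exact hn⟩
  have hinv : ∀ g, H3.cj N (ψ : N → ℂ) g = ψ := H3.cj_of_central N hN _
  obtain ⟨e, -, -, he⟩ := H3.clifford_invariant_nat N χ.2 ψ.2 hinv hover
  obtain ⟨lam, hl⟩ := H3.irr_exists_hom_of_comm ψ.2 fun a b =>
    Subtype.ext (Subgroup.mem_center_iff.1 (hN b.2) a)
  have h1 := H3.char_mul_of_homog N χ.2 lam (e := e) (fun c => by rw [he, hl]) g
  have hc : g⁻¹ * x * g * x⁻¹ ∈ N := by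
    have := this.conj_mem _ hcomm x
    convert this using 1; group
  have h2 := h1 ⟨_, hc⟩
  have h3 : g * (g⁻¹ * x * g * x⁻¹) = x * g * x⁻¹ := by group
  simp only [h3] at h2
  rw [H3.irr_class χ.2] at h2
  by_contra h0
  have h4 : (lam ⟨_, hc⟩ : ℂ) = 1 := mul_right_cancel₀ h0 (by rw [one_mul]; exact h2.symm)
  have := hfaith ⟨_, hc⟩ (by rw [hl]; simpa using h4)
  apply hne
  have h5 : g⁻¹ * x * g * x⁻¹ = 1 := congrArg Subtype.val this
  calc _ = x⁻¹ * (g⁻¹ * x * g * x⁻¹) * x := by group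
    _ = 1 := by rw [h5]; group

end Cfsg.Agent.S4566
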