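import Cfsg.Statements.S4567
import Cfsg.Agent.H3.Cw
import Cfsg.Agent.S4566
import Cfsg.Agent.H4.Defect

set_option autoImplicit false
open Cfsg

namespace Cfsg.Agent.S4567

open H3

open Classical in
theorem sum_cent_classes {Q : Type*} [Group Q] [Fintype Q] (P : ConjClasses Q → Prop) :
    ∑ q : Q, (if P (ConjClasses.mk q) then Nat.card (Subgroup.centralizer ({q} : Set Q)) else 0) =
      Nat.card Q * Nat.card {C // P C} := by
  have := Fintype.ofFinite (ConjClasses Q)
  rw [← Finset.sum_fiberwise Finset.univ ConjClasses.mk, Nat.card_eq_fintype_card (α := {C // P C}),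
    Fintype.card_subtype, mul_comm, ← smul_eq_mul, ← Finset.sum_const, Finset.sum_filter]
  refine Finset.sum_congr rfl fun C _ => ?_
  obtain ⟨g, rfl⟩ := ConjClasses.exists_rep C
  rw [Finset.sum_congr rfl (g := fun _ => if P (ConjClasses.mk g) then
    Nat.card (Subgroup.centralizer ({g} : Set Q)) else 0), Finset.sum_const, smul_eq_mul]
  · split_ifs
    · rw [← card_class_mul_card_centralizer g, Nat.card_eq_fintype_card (α := {x // IsConj g x}),
        Fintype.card_subtype]
      simp only [ConjClasses.mk_eq_mk_iff_isConj, isConj_comm (g := g)]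
    · simp
  · intro x hx
    have := (Finset.mem_filter.1 hx).2
    rw [this, H4.card_C1_isConj (ConjClasses.mk_eq_mk_iff_isConj.1 this)]

/-- Let N be a central subgroup of the finite group G and ψ a faithful irreducible (hence degree-one) character of N. Call a coset g N special when every x ∈ G whose commutator x⁻¹ g⁻¹ x g lies in N actually commutes with g (this depends only on the coset). Then the number of irreducible characters of G whose restriction to N contains ψ equals the number of conjugacy classes of G/N consisting of special cosets. -/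
theorem result {G : Type*} [Group G] [Fintype G] (N : Subgroup G) [N.Normal] [Fintype N] (hN : N ≤ Subgroup.center G) (ψ : Cfsg.IrrCharacter ↥N) (hfaith : ∀ n : ↥N, (ψ : ↥N → ℂ) n = (ψ : ↥N → ℂ) 1 → n = 1) : Nat.card {χ : Cfsg.IrrCharacter G // Cfsg.classInner (fun n : ↥N => (χ : G → ℂ) n) (ψ : ↥N → ℂ) ≠ 0} = Nat.card {C : ConjClasses (G ⧸ N) // ∃ g : G, ConjClasses.mk (g : G ⧸ N) = C ∧ ∀ x : G, x⁻¹ * g⁻¹ * x * g ∈ N → x * g = g * x} := by
  classical
  have := Fintype.ofFinite (G ⧸ N)
  have hcomm : ∀ (n : N) (g : G), g * n = n * g := fun n g => Subgroup.mem_center_iff.1 (hN n.2) g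
  obtain ⟨l, hl⟩ := irr_exists_hom_of_comm ψ.2 fun a b => Subtype.ext (hcomm b a)
  have hl' : ∀ n, l n = 1 → n = 1 := fun n e => hfaith n (by simp [hl, e])
  -- the coset sums
  have a : ∀ (χ : IrrCharacter G) (g : G), ∑ n : N, (starRingEnd ℂ) (l n) * χ.1 (n * g) =
      if classInner (fun n : N => χ.1 n) ψ.1 ≠ 0 then Nat.card N * χ.1 g else 0 := fun χ g => by
    obtain ⟨f, hf⟩ := exists_hom_charCenter (irr_one_ne_zero χ.2)
    let μ := f.comp (Subgroup.inclusion (hN.trans (center_le_charCenter χ.2)))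
    have h1 : ∀ (n : N) g, χ.1 (n * g) = μ n * χ.1 g := fun n g => by
      rw [← hcomm]; exact hf ⟨n, _⟩ g
    have h2 : (fun n : N => χ.1 n) = χ.1 1 • fun n => (μ n : ℂ) := funext fun n => by
      simpa [mul_comm] using h1 n 1
    have h3 := inner_hom μ l
    rw [h2, H3.inner_smul_left, hl, h3]
    rw [classInner, inv_mul_eq_iff_eq_mul₀ (card_ne_zero' N)] at h3
    simp only [h1, ← mul_assoc, ← Finset.sum_mul]
    simp only [mul_comm ((starRingEnd ℂ) _), h3]
    by_cases e : μ = l <;> simp [e, irr_one_ne_zero χ.2]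
  let Sp : G → Prop := fun g => ∀ x : G, x⁻¹ * g⁻¹ * x * g ∈ N → x * g = g * x
  have b : ∀ g : G, Nat.card N * ∑ χ : IrrCharacter G with classInner (fun n : N => χ.1 n) ψ.1 ≠ 0,
      χ.1 g * (starRingEnd ℂ) (χ.1 g) =
      if Sp g then (Nat.card (Subgroup.centralizer ({g} : Set G)) : ℂ) else 0 := fun g => by
    have h1 : Nat.card N * ∑ χ : IrrCharacter G with classInner (fun n : N => χ.1 n) ψ.1 ≠ 0,
        χ.1 g * (starRingEnd ℂ) (χ.1 g) = ∑ n : N, (starRingEnd ℂ) (l n) *
          ∑ χ : IrrCharacter G, χ.1 (n * g) * (starRingEnd ℂ) (χ.1 g) := by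
      simp only [Finset.mul_sum, ← mul_assoc]
      rw [Finset.sum_comm, Finset.sum_filter]
      simp only [← Finset.sum_mul, a, ite_mul, zero_mul]
    split_ifs with h
    · rw [h1, Finset.sum_eq_single 1, column_orth]
      · simp only [OneMemClass.coe_one, one_mul, IsConj.refl, if_true, map_one, Units.val_one]
      · intro n _ hn
        rw [column_orth, if_neg, mul_zero]
        intro e
        obtain ⟨x, hx⟩ := isConj_iff.1 e.symm
        have e1 : x⁻¹⁻¹ * g⁻¹ * x⁻¹ * g = (n : G)⁻¹ := by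
          rw [eq_inv_iff_mul_eq_one, mul_assoc, hcomm, ← hx]; group
        have := h x⁻¹ (e1 ▸ inv_mem n.2)
        rw [mul_assoc x, ← this, mul_inv_cancel_left, eq_comm, mul_eq_right] at hx
        exact hn (Subtype.ext hx)
      · simp
    · simp only [Sp, not_forall] at h
      obtain ⟨x, h2, h3⟩ := h
      rw [Finset.sum_eq_zero, mul_zero]
      intro χ hχ
      rw [S4566.result N hN ψ hfaith χ (Finset.mem_filter.1 hχ).2 g x h2, zero_mul]
      intro e
      apply h3
      calc _ = g * x * (x⁻¹ * g⁻¹ * x * g) := by group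
        _ = _ := by rw [e, mul_one]
  let P : ConjClasses (G ⧸ N) → Prop := fun C => ∃ g : G, ConjClasses.mk (g : G ⧸ N) = C ∧ Sp g
  have c : ∀ g : G, P (ConjClasses.mk (g : G ⧸ N)) ↔ Sp g := fun g => by
    refine ⟨fun ⟨y, h1, h2⟩ x hx => ?_, fun h => ⟨g, rfl, h⟩⟩
    obtain ⟨t, ht⟩ := isConj_iff.1 (ConjClasses.mk_eq_mk_iff_isConj.1 h1)
    obtain ⟨t, rfl⟩ := QuotientGroup.mk_surjective t
    rw [← QuotientGroup.mk_mul, ← QuotientGroup.mk_inv, ← QuotientGroup.mk_mul,
      QuotientGroup.eq] at ht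
    obtain ⟨n, rfl⟩ : ∃ n : N, g = t * y * t⁻¹ * n := ⟨⟨_, ht⟩, by group⟩
    have h3 := h2 (t⁻¹ * x * t) (by
      have := ‹N.Normal›.conj_mem _ hx t⁻¹
      convert this using 1
      have h4 := hcomm n⁻¹
      simp only [InvMemClass.coe_inv] at h4
      calc _ = t⁻¹ * (x⁻¹ * (t * y⁻¹ * t⁻¹ * x * (t * y * t⁻¹)) * (n : G)⁻¹ * n) * t⁻¹⁻¹ := by group
        _ = _ := by rw [mul_assoc x⁻¹, h4]; group)
    calc _ = t * (t⁻¹ * x * t * y) * t⁻¹ * n := by group
      _ = t * y * t⁻¹ * (x * n) := by rw [h3]; group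
      _ = _ := by rw [hcomm]; group
  have d : ∀ g, Sp g → Nat.card (Subgroup.centralizer ({g} : Set G)) =
      Nat.card N * Nat.card (Subgroup.centralizer ({(g : G ⧸ N)} : Set (G ⧸ N))) := fun g h => by
    rw [← H1.card_comap_mk']
    congr 2
    ext x
    rw [Subgroup.mem_comap, Subgroup.mem_centralizer_singleton_iff,
      Subgroup.mem_centralizer_singleton_iff]
    refine ⟨fun e => congrArg QuotientGroup.mk e, fun e => h x ?_⟩
    simpa [mul_assoc] using QuotientGroup.eq.1 e.symm
  have e := Finset.sum_congr rfl fun g (_ : g ∈ Finset.univ) => b g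
  have f : ∀ χ : IrrCharacter G, ∑ g, χ.1 g * (starRingEnd ℂ) (χ.1 g) = Nat.card G := fun χ => by
    simpa only [mul_comm] using sum_conj_mul_irr χ.2
  rw [← Finset.mul_sum, Finset.sum_comm, Finset.sum_congr rfl fun χ _ => f χ, Finset.sum_const,
    sum_eq_sum_quotient N] at e
  have k : ∀ (q : G ⧸ N) (n : N), (if Sp (q.out * n) then (Nat.card (Subgroup.centralizer
      ({q.out * n} : Set G)) : ℂ) else 0) = Nat.card N * (if P (ConjClasses.mk q) then
        Nat.card (Subgroup.centralizer ({q} : Set (G ⧸ N))) else 0 : ℕ) := fun q n => by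
    have : ((q.out * n : G) : G ⧸ N) = q := by simp
    simp only [← c, this]
    split_ifs with h
    · rw [d _ ((c _).1 (this.symm ▸ h)), this, Nat.cast_mul]
    · simp
  simp only [k, Finset.sum_const, Finset.card_univ, nsmul_eq_mul, ← Finset.mul_sum,
    ← Nat.cast_sum, ← Nat.card_eq_fintype_card] at e
  have m : (∑ q : G ⧸ N, if P (ConjClasses.mk q) then Nat.card (Subgroup.centralizer
      ({q} : Set (G ⧸ N))) else 0) = Nat.card (G ⧸ N) * Nat.card {C // P C} := by
    convert sum_cent_classes P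
  rw [m, N.card_eq_card_quotient_mul_card_subgroup] at e
  rw [Nat.card_eq_fintype_card, Fintype.card_subtype]
  have h1 := card_ne_zero' N
  have h2 := card_ne_zero' (G ⧸ N)
  push_cast at e
  have m : _ = (Nat.card {C // P C} : ℂ) :=
    mul_right_cancel₀ (mul_ne_zero h2 h1) (mul_left_cancel₀ h1 (e.trans (by ring)))
  exact_mod_cast m

end Cfsg.Agent.S4567
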