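import Cfsg.Statements.S4574
import Cfsg.Agent.H3.Chr

set_option autoImplicit false
open Cfsg

namespace Cfsg.Agent.S4574

/-- Let χ be an irreducible character of the finite group G, of degree d, and let Z(χ) be the set of elements g with |χ g| = d (the centre of χ). Then χ vanishes on at least (d ^ 2 - 1) · |Z(χ)| elements of G, with equality when every value |χ g| is 0, 1 or d. -/
theorem result {G : Type*} [Group G] [Fintype G] [DecidableEq G] (χ : G → ℂ) (hχ : Cfsg.IsIrrCharacter G χ) : (Cfsg.charDegree χ ^ 2 - 1) * (Finset.univ.filter (fun g : G => ‖χ g‖ = (Cfsg.charDegree χ : ℝ))).card ≤ (Finset.univ.filter (fun g : G => χ g = 0)).card ∧ ((∀ g : G, ‖χ g‖ = 0 ∨ ‖χ g‖ = 1 ∨ ‖χ g‖ = (Cfsg.charDegree χ : ℝ)) → (Cfsg.charDegree χ ^ 2 - 1) * (Finset.univ.filter (fun g : G => ‖χ g‖ = (Cfsg.charDegree χ : ℝ))).card = (Finset.univ.filter (fun g : G => χ g = 0)).card) := by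
  classical
  set d := Cfsg.charDegree χ with hd
  have hc := H3.irr_char hχ
  have hZ : ∀ g, g ∈ H3.charCenter χ ↔ ‖χ g‖ = d := fun g => by
    rw [H3.mem_charCenter hc, H3.norm_one_eq_deg hc]
  have hd0 : 0 < d := H3.deg_pos hχ
  set Z := Finset.univ.filter (fun g : G => ‖χ g‖ = (d : ℝ)) with hZ'
  set A := Finset.univ.filter (fun g : G => χ g = 0) with hA
  set B := Finset.univ.filter (fun g : G => ‖χ g‖ ≠ (d : ℝ) ∧ χ g ≠ 0) with hB
  have hsum : ∀ f : G → ℝ, ∑ g, f g = ∑ g ∈ Z, f g + ∑ g ∈ A, f g + ∑ g ∈ B, f g := by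
    intro f
    rw [← Finset.sum_filter_add_sum_filter_not Finset.univ (fun g : G => ‖χ g‖ = (d : ℝ)),
      add_assoc, ← Finset.sum_filter_add_sum_filter_not (Finset.univ.filter
        fun g : G => ¬ ‖χ g‖ = (d : ℝ)) (fun g => χ g = 0), Finset.filter_filter,
        Finset.filter_filter]
    congr 2
    refine Finset.sum_congr ?_ fun _ _ => rfl
    ext g
    simp only [hA, Finset.mem_filter, Finset.mem_univ, true_and, and_iff_right_iff_imp]
    intro h; rw [h, norm_zero]; exact_mod_cast hd0.ne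
  have h1 := hsum fun g => ‖χ g‖ ^ 2
  have h2 := hsum fun _ => 1
  rw [H3.sum_norm_sq_irr hχ, Finset.sum_congr rfl (g := fun _ => (d : ℝ) ^ 2)
    (fun g hg => by rw [(Finset.mem_filter.1 hg).2]), Finset.sum_eq_zero (s := A)
    (fun g hg => by rw [(Finset.mem_filter.1 hg).2]; simp)] at h1
  simp only [Finset.sum_const, nsmul_eq_mul, mul_one, Finset.card_univ,
    ← Nat.card_eq_fintype_card] at h1 h2
  have h3 := H3.card_le_sum_norm_sq (H3.char_gen hc) B (fun k hk g hg => by
      simp only [hB, Finset.mem_filter, Finset.mem_univ, true_and, ← hZ, Ne] at hg ⊢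
      exact ⟨by rw [H3.pow_mem_iff_of_coprime _ hk]; exact hg.1,
        H3.gen_pow_ne_zero (H3.char_gen hc) hk hg.2⟩)
    (fun g hg => (Finset.mem_filter.1 hg).2.2)
  have h4 : (((d ^ 2 - 1) * Z.card : ℕ) : ℝ) = (d ^ 2 - 1) * Z.card := by
    rw [Nat.cast_mul, Nat.cast_sub (Nat.one_le_pow _ _ hd0)]; simp
  refine ⟨?_, fun h => ?_⟩
  · have : (((d ^ 2 - 1) * Z.card : ℕ) : ℝ) ≤ A.card := by rw [h4]; linarith
    exact_mod_cast this
  · have h5 : ∑ g ∈ B, ‖χ g‖ ^ 2 = B.card := by
      rw [Finset.sum_congr rfl (g := fun _ => (1 : ℝ)) fun g hg => by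
        have := (Finset.mem_filter.1 hg).2
        rcases h g with h | h | h
        · exact absurd (norm_eq_zero.1 h) this.2
        · simp [h]
        · exact absurd h this.1]
      simp
    have : (((d ^ 2 - 1) * Z.card : ℕ) : ℝ) = A.card := by rw [h4]; linarith
    exact_mod_cast this

end Cfsg.Agent.S4574
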