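import Cfsg.Statements.S4575
import Cfsg.Agent.H4.Gal

set_option autoImplicit false
open Cfsg

namespace Cfsg.Agent.S4575

open H4 H1 MonoidAlgebra
open scoped Pointwise


/-- Let B be a 2-block of the finite group G (relative to a maximal ideal M of the algebraic integers containing 2) of defect d with defect group D. Let z be an element of D commuting with every element of D, and let b be a block of the centralizer of z with defect group D that induces B (a major subsection (z, b)). If the number of irreducible characters in B exceeds the 2-regular rank of b by at most three, then B contains at most 2 ^ d irreducible characters. -/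
theorem result {G : Type*} [Group G] [Finite G] (M : Ideal Cfsg.AlgInt) (hM : Cfsg.IsPModular 2 M) (B : Set (Cfsg.IrrCharacter G)) (hB : Cfsg.IsPBlock M B) (D : Subgroup G) (hD : Cfsg.IsDefectGroup 2 M B D) (z : G) (hzD : z ∈ D) (hzc : ∀ d ∈ D, d * z = z * d) (b : Set (Cfsg.IrrCharacter ↥(Subgroup.centralizer ({z} : Set G)))) (hb : Cfsg.IsInducedBlock M (Subgroup.centralizer ({z} : Set G)) b B) (hbD : Cfsg.IsDefectGroup 2 M b (D.subgroupOf (Subgroup.centralizer ({z} : Set G)))) (h : Nat.card B ≤ Cfsg.blockRank 2 b + 3) : Nat.card B ≤ 2 ^ Cfsg.blockDefect 2 B := by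
  classical
  cases nonempty_fintype (C1 z)
  have hz : Sec 2 (cEl z) := sec_cEl (isPElt_of_mem Fact.out (dg_isPGroup hD) hzD)
  have hd := defect_eq_of_dg hM hb hD hbD fun d hd => mem_centralizer_singleton.2 (hzc d hd).symm
  obtain ⟨n, hn⟩ := hz.exists_pow
  obtain h0 | h0 := (blockDefect 2 B).eq_zero_or_pos
  · rw [card_eq_one_of_defect hM hB h0]; exact Nat.one_le_two_pow
  set q : ℝ := 2 ^ blockDefect 2 B with hq
  have q0 : 0 < q := by positivity
  obtain ⟨x, hx⟩ : ∃ x : IrrCharacter G → IrrCharacter G → ℕ → ℂ, ∀ χ ψ k, x χ ψ k = cF 2 (cEl z ^ k) b χ.1 ψ.1 :=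
    ⟨_, fun _ _ _ => rfl⟩
  have e1 : ∀ χ ∈ B, ∀ k, ¬ 2 ∣ k → ∑ ψ ∈ (fs B).erase χ, ‖x χ ψ k‖ ^ 2 = ‖x χ χ k‖ * (q - ‖x χ χ k‖) := fun χ hχ k hk => by
    have := (hz.pow hk).sum_norm_cF_sq hM hb χ.1
    rw [← Finset.add_sum_erase _ _ (mem_fs.2 hχ), hd, Nat.cast_ofNat] at this
    simp only [hx]; linarith
  have e2 : ∀ χ ∈ B, ∀ k, ¬ 2 ∣ k → ‖(q : ℂ) - x χ χ k‖ = q - ‖x χ χ k‖ := fun χ hχ k hk => by
    have h1 := e1 χ hχ k hk ▸ Finset.sum_nonneg fun _ _ => sq_nonneg _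
    have h2 : 0 ≤ q - ‖x χ χ k‖ := by by_contra! h; nlinarith
    rw [hx, ← norm_cF_self, ← hx, ← Complex.ofReal_sub, Complex.norm_real, Complex.norm_real, norm_norm,
      Real.norm_of_nonneg h2]
  have e3 : ∀ χ, (fun k => (q : ℂ) - x χ χ k) ∈ SF (2 ^ (n + 1)) := fun χ => by
    simp only [hx]
    exact sub_mem (GV.const (mem_zmul_iff.2 ⟨2 ^ blockDefect 2 B, by simp [hq]⟩))
      (cF_mem_SF hM hz.center (by positivity) hn b (H3.irr_gen χ.2) (H3.irr_gen χ.2))
  have e4 : v M (q : ℂ) = v M ((2 : ℕ) : ℂ) ^ blockDefect 2 B := by simp [hq]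
  have e5 : ∀ χ ∈ B, avg 2 n (fun k => ‖(q : ℂ) - x χ χ k‖) = q - aD 2 n (cEl z) b χ := fun χ hχ => by
    rw [avg, Finset.sum_congr rfl fun k hk => e2 χ hχ k (mem_Kp.1 hk).2, Finset.sum_sub_distrib, sub_div,
      Finset.sum_const, nsmul_eq_mul, mul_div_cancel_left₀ _ card_Kp_pos.ne']
    simp only [hx]; rfl
  rw [← card_fs, ← Nat.cast_le (α := ℝ)] at h ⊢; push_cast at h ⊢
  by_cases h1 : ∃ χ ∈ B, blockHeight 2 B χ.1 = 0 ∧ q - aD 2 n (cEl z) b χ = 1
  · obtain ⟨χ, h1, h2, h3⟩ := h1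
    have h4 : ∀ k, ¬ 2 ∣ k → v M ((q : ℂ) - x χ χ k) = 1 := fun k hk => by
      have := ((hz.pow hk).v_cF hM hb hd h1 h1).1 h2
      rw [h2, pow_zero, ← hx] at this
      rw [Valuation.map_sub_eq_of_lt_right, this]
      rw [this, e4]; exact pow_lt_one₀ zero_le (v_p_lt_one hM) h0.ne'
    have h5 := (le_div_iff₀' card_Kp_pos).2 (SF.le_sum_norm hM (e3 χ) ((Valuation.pos_iff _).1
      ((h4 1 (by norm_num)).symm ▸ zero_lt_one)) (j := 0) (fun k hk => (h4 k hk).le) 2)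
    have h6 := Finset.sum_le_sum fun ψ (hψ : ψ ∈ (fs B).erase χ) =>
      (one_le_pow₀ (by norm_num)).trans (hz.le_aQ hM hn hb hd h1 (mem_fs.1 (Finset.mem_of_mem_erase hψ)) h2)
    have h7 : ∑ ψ ∈ (fs B).erase χ, aQ 2 n (cEl z) b χ ψ + avg 2 n (fun k => ‖(q : ℂ) - x χ χ k‖ ^ 2) = q := by
      have := avg_congr (n := n) (c := q) (g := fun k => ‖(q : ℂ) - x χ χ k‖) (f := fun k =>
        ∑ ψ ∈ (fs B).erase χ, ‖x χ ψ k‖ ^ 2 + ‖(q : ℂ) - x χ χ k‖ ^ 2) fun k hk => by rw [e1 χ h1 k hk, e2 χ h1 k hk]; ring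
      rw [e5 χ h1, h3, mul_one] at this
      refine Eq.trans ?_ this
      simp only [aQ, avg_sum, hx]
      simp only [avg, Finset.sum_add_distrib, add_div]
    rw [Finset.sum_const, nsmul_eq_mul, Finset.cast_card_erase_of_mem (mem_fs.2 h1)] at h6
    simp only [avg] at h7
    simp only [zero_mul, pow_zero] at h5
    linarith
  · have h2 := Finset.sum_le_sum fun χ (hχ : χ ∈ fs B) => show 3 ≤ q - aD 2 n (cEl z) b χ by
      rw [mem_fs] at hχ
      obtain ⟨t, ht⟩ : ∃ t : ℕ, q = 2 * t := ⟨2 ^ (blockDefect 2 B - 1), by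
        rw [hq]; push_cast; rw [← pow_succ', Nat.sub_add_cancel h0]⟩
      by_cases h2 : blockHeight 2 B χ.1 = 0
      · obtain ⟨m, hm⟩ := hz.aD_two_odd hM hn hb hχ h2
        have h3 : 0 ≤ q - aD 2 n (cEl z) b χ :=
          e5 χ hχ ▸ div_nonneg (Finset.sum_nonneg fun _ _ => norm_nonneg _) (Nat.cast_nonneg _)
        have h4 : q - aD 2 n (cEl z) b χ ≠ 1 := fun e => h1 ⟨χ, hχ, h2, e⟩
        rw [hm, ht] at h3 h4 ⊢
        have h5 : (0 : ℤ) ≤ 2 * t - (2 * m + 1) := by exact_mod_cast h3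
        have h6 : (2 * t - (2 * m + 1) : ℤ) ≠ 1 := by exact_mod_cast h4
        exact_mod_cast (by omega : (3 : ℤ) ≤ 2 * t - (2 * m + 1))
      · obtain ⟨m, hm, -⟩ := hz.aD_two (b := b) hM hn χ
        have h3 := height_add_two_le hM hB hχ h2
        obtain ⟨ψ, h4, h5⟩ := exists_height_zero hM hB
        have h6 := (lt_div_iff₀' card_Kp_pos).2 (SF.lt_sum_norm hM (e3 χ) (fun e => by
          have h6 := e2 χ hχ 1 (by norm_num)
          have h7 := e1 χ hχ 1 (by norm_num)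
          rw [← h6, e, norm_zero, mul_zero, Finset.sum_eq_zero_iff_of_nonneg fun _ _ => sq_nonneg _] at h7
          have h8 := h7 ψ (Finset.mem_erase.2 ⟨fun e => h2 (e ▸ h5), mem_fs.2 h4⟩)
          rw [hx, ← conj_cF, Complex.norm_conj, sq_eq_zero_iff, norm_eq_zero] at h8
          exact (hz.pow (by norm_num)).cF_ne_zero hM hb hd h4 hχ h5 h8) (j := 1) fun k hk =>
            Valuation.map_sub_lt _ (e4 ▸ (v_pow_lt_iff hM).2 (by omega))
              ((hx χ χ k ▸ ((hz.pow hk).v_cF hM hb hd hχ hχ).2 h2).trans_le ((v_pow_le_iff hM).2 (by omega))))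
        have h7 := h6.trans_eq (e5 χ hχ)
        rw [hm, ht] at h7 ⊢
        have h8 : (2 : ℤ) < 2 * t - m := by exact_mod_cast h7
        exact_mod_cast (by omega : (3 : ℤ) ≤ 2 * t - m)
    rw [Finset.sum_sub_distrib, hz.sum_aD hM hb, Finset.sum_const, Finset.sum_const, nsmul_eq_mul, nsmul_eq_mul, hd,
      Nat.cast_ofNat, ← hq] at h2
    nlinarith

end Cfsg.Agent.S4575
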