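import Cfsg.Statements.S4580
import Cfsg.Agent.H4.Prin

set_option autoImplicit false
open Cfsg

namespace Cfsg.Agent.S4580

open H4 H1 MonoidAlgebra
open scoped Pointwise
open scoped ComplexConjugate in
theorem reg_real {G : Type*} [Group G] [Finite G] {M : Ideal Cfsg.AlgInt} (hM : Cfsg.IsPModular 2 M)
    {χ : Cfsg.IrrCharacter G} (h : ∀ g, ¬ 2 ∣ orderOf g → conj (χ.1 g) = χ.1 g) (h1 : Odd (Cfsg.charDegree χ.1)) :
    χ ∈ Cfsg.principalBlock M G := by
  have hB := isPBlock_blockOf (M := M) χ.2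
  have h2 := mem_blockOf_self hM χ
  rw [← principal_of_stable hM hB (defect_eq_of_nu h2 (Nat.factorization_eq_zero_of_not_dvd
    (Nat.two_dvd_ne_zero.2 (Nat.odd_iff.1 h1)))) (·⁻¹) inv_surjective (fun _ _ => rfl) fun ψ hψ =>
    ⟨⟨_, H3.irr_conj ψ.2⟩, ?_, fun g => (irr_inv ψ g).symm⟩]
  · exact h2
  · have h3 := sameBlock_conj (H3.irr_char χ.2) (H3.irr_char ψ.2) hψ
    have h4 : Cfsg.SameBlock M χ.1 (⟨_, H3.irr_conj χ.2⟩ : Cfsg.IrrCharacter G).1 :=
      sameBlock_of_reg hM fun g hg => (h g hg).symm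
    exact (sameBlock_iff_lam hM χ.2 (H3.irr_conj ψ.2)).2 (((sameBlock_iff_lam hM χ.2 (H3.irr_conj χ.2)).1 h4).trans
      ((sameBlock_iff_lam hM (H3.irr_conj χ.2) (H3.irr_conj ψ.2)).1 h3))

/-- Let N be a normal subgroup of the finite group G, M a maximal ideal of the algebraic integers containing 2, and θ a real-valued irreducible character of N of odd degree that extends to G (some irreducible character of G restricts to θ). Then θ has an extension to G lying in the principal 2-block of G. -/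
theorem result {G : Type*} [Group G] [Finite G] (N : Subgroup G) [N.Normal] (M : Ideal Cfsg.AlgInt) (hM : Cfsg.IsPModular 2 M) (θ : Cfsg.IrrCharacter N) (hreal : ∀ n : N, ((θ : N → ℂ) n).im = 0) (hodd : Odd (Cfsg.charDegree (θ : N → ℂ))) (hext : ∃ η : Cfsg.IrrCharacter G, ∀ n : N, (η : G → ℂ) n = (θ : N → ℂ) n) :
    ∃ η : Cfsg.IrrCharacter G, (∀ n : N, (η : G → ℂ) n = (θ : N → ℂ) n) ∧ η ∈ Cfsg.principalBlock M G := by
  open scoped ComplexConjugate in
  obtain ⟨η, hη⟩ := hext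
  have e : (fun n : N => η.1 n) = θ.1 := funext hη
  obtain ⟨μ, h1, h2⟩ := H3.linear_twist N (H3.char_conj (H3.irr_char η.2)) (H3.irr_char η.2) (by rw [e]; exact θ.2)
    (fun n hn => by rw [hη ⟨n, hn⟩]; exact Complex.conj_eq_iff_im.2 (hreal _))
  obtain ⟨a, m, hm, hG⟩ := Nat.exists_eq_two_pow_mul_odd (n := Nat.card G) Nat.card_pos.ne'
  obtain ⟨j, hj⟩ := hm
  have h3 : ∀ n : N, (η.1 * fun g => ((μ ^ (j + 1)) g : ℂ)) n = θ.1 n := fun n => by
    simp [h1 n n.2, hη]
  refine ⟨⟨_, H3.irr_mul_hom η.2 (μ ^ (j + 1))⟩, h3, reg_real hM (fun g hg => ?_) ?_⟩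
  · have h4 : μ g ^ m = 1 := by
      rw [← map_pow, orderOf_dvd_iff_pow_eq_one.1 (?_ : orderOf g ∣ m), map_one]
      exact (Nat.Coprime.pow_right a ((Nat.Prime.coprime_iff_not_dvd Nat.prime_two).2 hg).symm).dvd_of_dvd_mul_left
        (hG ▸ orderOf_dvd_natCard g)
    have h5 : (μ g : ℂ) ^ m = 1 := by rw [← Units.val_pow_eq_pow_val, h4, Units.val_one]
    simp only [Pi.mul_apply, map_mul, h2 g, ← H3.hom_inv_eq_conj, MonoidHom.pow_apply, map_inv, inv_pow,
      Units.val_pow_eq_pow_val, Units.val_inv_eq_inv_val, map_pow]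
    have h6 : (μ g : ℂ) ≠ 0 := Units.ne_zero _
    rw [hj] at h5
    field_simp
    linear_combination (-η.1 g) * (μ g : ℂ) * h5
  · have : Cfsg.charDegree (η.1 * fun g => ((μ ^ (j + 1)) g : ℂ)) = Cfsg.charDegree θ.1 := by
      have := h3 1
      unfold Cfsg.charDegree
      simp only [OneMemClass.coe_one] at this
      rw [this]
    exact this ▸ hodd

end Cfsg.Agent.S4580
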