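import Cfsg.Statements.S4582
import Cfsg.Agent.H2.Control
import Cfsg.Agent.H1.SylowIn

set_option autoImplicit false
open Cfsg

namespace Cfsg.Agent.S4582

open Subgroup
open scoped commutatorElement

/-- Let N be a normal subgroup of the finite group G, P a Sylow 2-subgroup of G and Q = P ∩ N. Suppose that P/QP' and Q/Q' are elementary abelian (every square of an element of P lies in the subgroup generated by Q and the derived subgroup of P, and every square of an element of Q lies in the derived subgroup of Q), and that the commutator factor group N/N' has odd order. Then P/P' is elementary abelian. -/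
theorem result {G : Type*} [Group G] [Finite G] (N : Subgroup G) [N.Normal] (P : Sylow 2 G)
    (hP : ∀ x ∈ (P : Subgroup G), x ^ 2 ∈ ((P : Subgroup G) ⊓ N) ⊔ ⁅(P : Subgroup G), (P : Subgroup G)⁆)
    (hQ : ∀ x ∈ (P : Subgroup G) ⊓ N, x ^ 2 ∈ ⁅(P : Subgroup G) ⊓ N, (P : Subgroup G) ⊓ N⁆)
    (hodd : Odd (Nat.card (Abelianization N))) :
    ∀ x ∈ (P : Subgroup G), x ^ 2 ∈ ⁅(P : Subgroup G), (P : Subgroup G)⁆ := by
  classical
  set L := (P : Subgroup G) ⊔ N
  have PL : (P : Subgroup G) ≤ L := le_sup_left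
  set H := (P : Subgroup G).subgroupOf L
  let φ : H →* Abelianization P := Abelianization.of.comp (subgroupOfEquivOfLe PL).toMonoidHom
  have one : ∀ (y : P), Abelianization.of y = 1 ↔ (y : G) ∈ ⁅(P : Subgroup G), (P : Subgroup G)⁆ := fun y => by
    rw [← MonoidHom.mem_ker, Abelianization.ker_of, ← map_subtype_commutator]
    exact ⟨fun h => ⟨y, h, rfl⟩, fun ⟨z, hz, e⟩ => Subtype.ext e ▸ hz⟩
  have pA : IsPGroup 2 (Abelianization P) := P.isPGroup'.to_quotient _
  set V := MonoidHom.transfer φ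
  have h1 : ∀ g, MonoidHom.transfer (φ ^ 2) g = V g ^ 2 := fun g => by
    haveI := Fintype.ofFinite (Quotient (MulAction.orbitRel (zpowers g) (L ⧸ H)))
    rw [MonoidHom.transfer_eq_prod_quotient_orbitRel_zpowers_quot, MonoidHom.transfer_eq_prod_quotient_orbitRel_zpowers_quot,
      ← Finset.prod_pow]
    rfl
  have h2 : ∀ n : L, (n : G) ∈ N → V n = 1 := fun n hn => by
    obtain ⟨k, hk⟩ := pA (V n)
    have := pow_card_eq_one' (x := Abelianization.of (⟨n, hn⟩ : N))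
    have h3 := congrArg (Abelianization.lift (V.comp (inclusion (le_sup_right : N ≤ L)))) this
    rw [map_pow, map_one, Abelianization.lift_apply_of] at h3
    exact orderOf_eq_one_iff.1 (Nat.eq_one_of_dvd_coprimes ((Nat.coprime_two_left.2 hodd).pow_left k)
      (orderOf_dvd_of_pow_eq_one hk) (orderOf_dvd_of_pow_eq_one h3))
  intro x hx
  have h3 : V ⟨x, PL hx⟩ ^ 2 = 1 := by
    have : (((P : Subgroup G) ⊓ N) ⊔ ⁅(P : Subgroup G), (P : Subgroup G)⁆) ≤ V.ker.map L.subtype :=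
      sup_le (fun y hy => ⟨⟨y, PL hy.1⟩, h2 _ hy.2, rfl⟩) (commutator_le.2 fun a ha b hb => ⟨⁅(⟨a, PL ha⟩ : L), (⟨b, PL hb⟩ : L)⁆, by
        rw [SetLike.mem_coe, MonoidHom.mem_ker, map_commutatorElement, commutatorElement_eq_one_iff_mul_comm, mul_comm], rfl⟩)
    obtain ⟨y, hy, e⟩ := this (hP x hx)
    rw [← map_pow, ← hy]; exact congrArg _ (Subtype.ext e.symm)
  rw [← h1, H2.transfer_eq_pow_of (φ ^ 2) (Abelianization.of ⟨x, hx⟩ ^ 2)] at h3
  · obtain ⟨k, hk⟩ := pA (Abelianization.of ⟨x, hx⟩ ^ 2)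
    have hi : H.index.Coprime 2 := Nat.coprime_two_right.2 (Nat.odd_iff.2 (Nat.two_dvd_ne_zero.1
      ((H1.isSylowIn_top P).of_le PL le_top).not_dvd))
    exact (one (⟨x, hx⟩ ^ 2)).1 (orderOf_eq_one_iff.1 (Nat.eq_one_of_dvd_coprimes (hi.pow_right k)
      (orderOf_dvd_of_pow_eq_one h3) (orderOf_dvd_of_pow_eq_one hk)))
  · rintro k ⟨t, ht⟩ hm
    obtain ⟨p, hp, n, hn, rfl⟩ := mem_sup_of_normal_right.1 ht
    have m1 : p⁻¹ * x ^ k * p ∈ (P : Subgroup G) := mul_mem (mul_mem (inv_mem hp) (pow_mem hx k)) hp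
    have m2 : (p * n)⁻¹ * x ^ k * (p * n) ∈ (P : Subgroup G) := hm
    have m3 : (p⁻¹ * x ^ k * p)⁻¹ * ((p * n)⁻¹ * x ^ k * (p * n)) ∈ (P : Subgroup G) ⊓ N := ⟨Subgroup.mul_mem _ (Subgroup.inv_mem _ m1) m2, by
      have := mul_mem (‹N.Normal›.conj_mem' _ (inv_mem hn) (p⁻¹ * x ^ k * p)) hn
      simpa [mul_assoc] using this⟩
    have h4 := (one (⟨_, m3.1⟩ ^ 2)).2 (commutator_mono inf_le_left inf_le_left (hQ _ m3))
    have e : (⟨_, m3.1⟩ : P) = ((⟨p, hp⟩ : P)⁻¹ * ⟨x, hx⟩ ^ k * ⟨p, hp⟩)⁻¹ * ⟨_, m2⟩ := rfl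
    rw [e, map_pow, map_mul, map_inv, map_mul, map_mul, map_inv, mul_right_comm, inv_mul_cancel, one_mul, mul_pow, inv_pow,
      inv_mul_eq_one, map_pow, ← pow_mul, mul_comm, pow_mul] at h4
    exact h4.symm

end Cfsg.Agent.S4582
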