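import Cfsg.Statements.S4583
import Cfsg.Agent.H4.Dade

set_option autoImplicit false
open Cfsg

namespace Cfsg.Agent.S4583

open H4 H1 MonoidAlgebra
open scoped Pointwise
theorem sum_Br {G F : Type*} [Group G] [Fintype G] [Field F] {p : ℕ} [Fact p.Prime] [CharP F p] {P : Subgroup G}
    (hP : IsPGroup p P) {a : F[G]} (ha : a ∈ Fix F P) : ∑ g, (Br P a).coeff g = ∑ g, a.coeff g := by
  have := congrArg (·.coeff 1) (Br_mapA (1 : G →* Unit) hP ha)
  rw [Subsingleton.elim (P.map _) ⊥, Br_bot] at this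
  simpa [coeff_mapA] using this.symm

theorem lam_res {G : Type*} [Group G] [Finite G] {p : ℕ} [Fact p.Prime] {M : Ideal Cfsg.AlgInt}
    (hM : Cfsg.IsPModular p M) (P : Sylow p G) {H : Subgroup G} (h : (P : Subgroup G) ≤ H) :
    lamB M (Cfsg.principalBlock M H) (resA H (eB M (Cfsg.principalBlock M G))) ≠ 0 := by
  classical
  cases nonempty_fintype G
  haveI := charP_k hM
  have h1 := Z_le_Fix H (eB_mem_Z (M := M) (Cfsg.principalBlock M G))
  obtain ⟨K, -, h2, -, h3⟩ := exists_Br_e0 hM P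
  have h4 := sum_Br P.2 (Fix_anti h (trunc_mem_ZA h1).1)
  rw [Br, trunc_trunc, Set.inter_comm, ← trunc_trunc] at h4
  erw [h3] at h4
  rw [lamB_eq hM isPBlock_principal (triv_mem_principal hM), lam_triv (resA_mem_Z h1)]
  simp only [coeff_resA]
  rw [← Finset.sum_subtype (Finset.univ.filter (· ∈ H)) (by simp), Finset.sum_filter]
  simp only [coeff_trunc, SetLike.mem_coe] at h4
  rw [← h4]
  have h5 : ¬ p ∣ Nat.card (H ⊓ K : Subgroup G) := fun e => h2 (e.trans (Subgroup.card_dvd_of_le inf_le_right))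
  rw [← natCast_eq_zero_iff hM] at h2 h5
  convert mul_ne_zero (inv_ne_zero h2) h5 using 1
  rw [Nat.card_eq_fintype_card (α := (H ⊓ K : Subgroup G)), Fintype.card_subtype, Finset.card_filter]
  push_cast
  rw [Finset.mul_sum]
  refine Finset.sum_congr rfl fun g _ => ?_
  by_cases e : g ∈ H <;> by_cases e' : g ∈ K <;> simp [e, e', coeff_sig]

/-- Let N be a normal subgroup of the finite group G, p a prime, M a maximal ideal of the algebraic integers containing p, and P a Sylow p-subgroup of G. Let θ be an irreducible character of N of degree prime to p lying in the principal p-block of N, and suppose θ extends to the subgroup NP (some irreducible character of NP restricts to θ). Then some irreducible character χ of G of degree prime to p in the principal p-block of G lies over θ (θ is a constituent of the restriction of χ to N). -/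
theorem result {G : Type*} [Group G] [Finite G] (N : Subgroup G) [N.Normal] (p : ℕ) [Fact p.Prime] (M : Ideal Cfsg.AlgInt) (hM : Cfsg.IsPModular p M) (P : Sylow p G)
    (θ : Cfsg.IrrCharacter N) (hθ : θ ∈ Cfsg.principalBlock M N) (hdeg : ¬ p ∣ Cfsg.charDegree (θ : N → ℂ))
    (hext : ∃ η : Cfsg.IrrCharacter ↥(N ⊔ (P : Subgroup G)), ∀ n : N, (η : ↥(N ⊔ (P : Subgroup G)) → ℂ) (Subgroup.inclusion le_sup_left n) = (θ : N → ℂ) n) :
    ∃ χ : Cfsg.IrrCharacter G, χ ∈ Cfsg.principalBlock M G ∧ ¬ p ∣ Cfsg.charDegree (χ : G → ℂ) ∧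
      haveI := Fintype.ofFinite N; Cfsg.classInner (fun n : N => (χ : G → ℂ) n) (θ : N → ℂ) ≠ 0 := by
  classical
  cases nonempty_fintype G
  obtain ⟨η, hη⟩ := hext
  have h0 : N ≤ N ⊔ (P : Subgroup G) := le_sup_left
  obtain ⟨n, hn⟩ : ∃ n, (N.subgroupOf (N ⊔ (P : Subgroup G))).index = p ^ n := by
    obtain ⟨m, hm⟩ := IsPGroup.iff_card.1 P.2
    have : N.relIndex (N ⊔ (P : Subgroup G)) ∣ p ^ m := by
      rw [sup_comm, Subgroup.relIndex_sup_right, ← hm]
      exact Subgroup.relIndex_dvd_card _ _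
    exact ((Nat.dvd_prime_pow Fact.out).1 this).imp fun _ h => h.2
  have h1 : η ∈ Cfsg.principalBlock M _ := over_principal hM hn (infl_principal hM
    (f := (Subgroup.subgroupOfEquivOfLe h0).toMonoidHom) (Subgroup.subgroupOfEquivOfLe h0).surjective hθ)
    (inner_ne_zero_of_res fun n => hη ⟨_, Subgroup.mem_subgroupOf.1 n.2⟩)
  have h2 : η.1 1 = Cfsg.charDegree θ.1 := (hη 1).trans (irr_one_eq θ)
  have h3 := congrArg (red M) (sum_over η (Cfsg.principalBlock M G))
  have h4 := resA_mem_Z (Z_le_Fix (N ⊔ (P : Subgroup G)) (fI_mem_Z (Cfsg.principalBlock M G)))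
  have h5 := resA_mem_IntA (N ⊔ (P : Subgroup G)) (fI_mem_IntA (G := G) hM isPBlock_principal)
  choose m hm using fun χ : Cfsg.IrrCharacter G => H3.inner_char_nat (H3.irr_char η.2)
    (H3.char_restrict (H3.irr_char χ.2) (N ⊔ (P : Subgroup G)))
  rw [h2, ← Nat.cast_mul, red_mul (natCast_mem _ _) (om_mem_O η.2 h4 h5), ← lamB_redA hM isPBlock_principal h1 h4 h5,
    redA_resA, redA_fI, red_natCast, Finset.sum_congr rfl (g := fun χ => ((m χ * Cfsg.charDegree χ.1 : ℕ) : ℂ))
    fun χ _ => by rw [hm, irr_one_eq, Nat.cast_mul], ← Nat.cast_sum, red_natCast, Nat.cast_sum] at h3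
  obtain ⟨χ, h6, h7⟩ := Finset.exists_ne_zero_of_sum_ne_zero (h3.trans_ne (mul_ne_zero (by
    rw [Ne, natCast_eq_zero_iff hM, (Fact.out : p.Prime).dvd_mul]
    exact fun h => h.elim (fun h => P.not_dvd_index (h.trans (Subgroup.index_dvd_of_le le_sup_right))) hdeg)
    (lam_res hM P le_sup_right)))
  rw [Ne, natCast_eq_zero_iff hM] at h7
  refine ⟨χ, mem_fs.1 h6, fun e => h7 (e.mul_left _), ?_⟩
  letI := Fintype.ofFinite N
  refine inner_trans (Subgroup.inclusion h0) (H3.char_restrict (H3.irr_char χ.2) _) η.2 (H3.irr_char θ.2)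
    (fun e => h7 ?_) (by rw [funext hη, H3.irr_inner_self θ.2]; exact one_ne_zero)
  rw [H3.inner_eq_zero_symm, hm, Nat.cast_eq_zero] at e
  simp [e]

end Cfsg.Agent.S4583
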