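import Cfsg.Statements.S4584
import Cfsg.Agent.L.PG4
import Cfsg.Agent.H1.Basic

set_option autoImplicit false
open Cfsg

namespace Cfsg.Agent.S4584

open Subgroup

theorem key {P : Type*} [Group P] [Finite P] {p : ℕ} [hp : Fact p.Prime] (hP : Nat.card P = p ^ 4)
    (h : ¬ IsMulCommutative P) : Nat.card (commutator P) * Nat.card (center P) = p ^ 3 := by
  have hT : IsPGroup p (⊤ : Subgroup P) := L.isPGroup_of_card (n := 4) (by rw [card_top, hP])
  have h1 := hp.out.one_lt
  obtain ⟨B, -, hB, cB⟩ := L.exists_normal_card' hT le_rfl le_normalizer 2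
    (by rw [card_top, hP]; exact Nat.pow_le_pow_right (by omega) (by omega))
  have hBc := L.isMulCommutative_of_card_le_sq (L.isPGroup_of_card cB) cB.le
  have hi := L.relIndex_centralizer_le_pow hT 2 le_top hB cB
  rw [relIndex_top_right] at hi
  have hC := (centralizer (B : Set P)).card_mul_index
  haveI : B.Normal := normalizer_eq_top_iff.1 (top_le_iff.1 hB)
  obtain ⟨M, hBM, hMC, hM, cM⟩ := L.exists_normal_card hT (L.le_centralizer_of_comm hBc) le_top hB
    (top_le_iff.2 (normalizer_eq_top _)) 1 (by
      rw [cB, ← pow_add]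
      refine Nat.le_of_mul_le_mul_right ?_ (pow_pos hp.out.pos 1)
      rw [← pow_add, ← hP, ← hC]
      exact Nat.mul_le_mul_left _ (by simpa using hi))
  rw [cB, ← pow_add] at cM
  have hr : B.relIndex M = p := by
    have := H1.card_mul_relIndex hBM
    rw [cB, cM, pow_succ p 2] at this
    exact Nat.eq_of_mul_eq_mul_left (pow_pos hp.out.pos _) this
  have hMc := L.isMulCommutative_of_relIndex_prime (hr ▸ hp.out) hBM (le_centralizer_iff.1 hMC)
  have hr' : M.relIndex ⊤ = p := by
    have := M.card_mul_index
    rw [cM, hP, pow_succ p 3] at this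
    rw [relIndex_top_right]
    exact Nat.eq_of_mul_eq_mul_left (pow_pos hp.out.pos _) this
  have hnc : ¬ IsMulCommutative (⊤ : Subgroup P) := fun h' =>
    h (L.commutator_eq_bot_iff_comm'.1 (L.commutator_eq_bot_iff_comm.2 h'))
  obtain ⟨b, hb⟩ : ∃ b, b ∉ M := by
    by_contra hh
    push Not at hh
    exact hnc ((eq_top_iff' M).2 hh ▸ hMc)
  have hs := L.sup_zpowers_eq_of_relIndex_prime (hr' ▸ hp.out) le_top (mem_top b) hb
  have := (L.card_commutator_mul hMc (hM (mem_top b))).1
  rw [hs, cM] at this
  rw [← this, _root_.commutator_def]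
  suffices hh : center P = M ⊓ centralizer {b} by rw [hh]
  refine le_antisymm (le_inf (fun z hz => ?_) (center_le_centralizer _)) ?_
  · by_contra hz'
    refine hnc ?_
    rw [← L.sup_zpowers_eq_of_relIndex_prime (hr' ▸ hp.out) le_top (mem_top z) hz']
    exact L.isMulCommutative_sup_zpowers hMc (center_le_centralizer _ hz)
  · rw [← centralizer_univ, ← coe_top, le_centralizer_iff, ← hs, sup_le_iff, zpowers_le]
    exact ⟨le_centralizer_iff.1 (inf_le_left.trans (L.le_centralizer_of_comm hMc)),
      fun x hx => (hx.2 b rfl).symm⟩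

/-- Let p be a prime and P a group of order p^4. Then the derived subgroup P' has order p if and only if the centre Z(P) has index p^2 in P. -/
theorem result {P : Type*} [Group P] [Finite P] (p : ℕ) [Fact p.Prime] (hP : Nat.card P = p ^ 4) :
    Nat.card (commutator P) = p ↔ (Subgroup.center P).index = p ^ 2 := by
  have hp : p.Prime := Fact.out
  have hZ := (center P).card_mul_index
  by_cases h : IsMulCommutative P
  · rw [L.commutator_eq_bot_iff_comm'.2 h, card_bot, center_eq_top, index_top]
    exact iff_of_false hp.one_lt.ne (Nat.one_lt_pow (by omega) hp.one_lt).ne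
  have := key hP h
  rw [hP] at hZ
  have h0 : 0 < Nat.card (center P) := Nat.card_pos
  constructor
  · intro h1
    rw [h1, pow_succ' p 2] at this
    rw [Nat.eq_of_mul_eq_mul_left hp.pos this, pow_add p 2 2] at hZ
    exact Nat.eq_of_mul_eq_mul_left (pow_pos hp.pos _) hZ
  · intro h1
    rw [h1, pow_add p 2 2] at hZ
    rw [Nat.eq_of_mul_eq_mul_right (pow_pos hp.pos _) hZ, pow_succ' p 2] at this
    exact Nat.eq_of_mul_eq_mul_right (pow_pos hp.pos _) this

end Cfsg.Agent.S4584
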