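import Cfsg.Statements.S4585
import Cfsg.Agent.S4584

set_option autoImplicit false
open Cfsg

namespace Cfsg.Agent.S4585

open Subgroup

/-- Let p be a prime and P a group of order p^4. Then P' has index p^2 in P if and only if P has maximal nilpotency class, that is, nilpotency class exactly 3. -/
theorem result {P : Type*} [Group P] [Finite P] (p : ℕ) [Fact p.Prime] (hP : Nat.card P = p ^ 4) :
    (commutator P).index = p ^ 2 ↔ Group.nilpotencyClass P = 3 := by
  have hp : p.Prime := Fact.out
  have hT : IsPGroup p (⊤ : Subgroup P) := L.isPGroup_of_card (n := 4) (by rw [card_top, hP])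
  have hC := (commutator P).card_mul_index
  rw [L.nilpotencyClass_eq_iff (n := 2) hP]
  constructor
  · intro h1 h2
    rw [h1, hP, pow_add p 2 2] at hC
    have h3 := Nat.eq_of_mul_eq_mul_right (pow_pos hp.pos _) hC
    have hn : ¬ IsMulCommutative P := fun h => by
      rw [L.commutator_eq_bot_iff_comm'.2 h, card_bot] at h3
      exact (Nat.one_lt_pow (by omega) hp.one_lt).ne h3
    have h4 := S4584.key hP hn
    rw [h3, pow_succ p 2] at h4
    have h5 : commutator P ≤ center P := by
      rw [← centralizer_univ, ← coe_top, ← commutator_eq_bot_iff_le_centralizer]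
      exact h2
    have := card_le_of_le h5
    rw [h3, Nat.eq_of_mul_eq_mul_left (pow_pos hp.pos _) h4] at this
    have := hp.one_lt
    nlinarith
  · intro h
    refine le_antisymm (L.index_commutator_le_of_lcs (n := 1) hP h) ?_
    have := L.sq_mul_card_commutator_le hT fun hc => h (by
      have : (⊤ : Subgroup P).lowerCentralSeries 1 = ⊥ := L.commutator_eq_bot_iff_comm (P := ⊤) |>.2 inferInstance
      show ⁅(⊤ : Subgroup P).lowerCentralSeries 1, ⊤⁆ = ⊥
      rw [this, commutator_bot_left])
    rw [card_top, ← hC, mul_comm, ← _root_.commutator_def] at this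
    exact Nat.le_of_mul_le_mul_left this Nat.card_pos

end Cfsg.Agent.S4585
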