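import Cfsg.Statements.S4586
import Cfsg.Agent.L.PG4
import Cfsg.Agent.H1.Basic

set_option autoImplicit false
open Cfsg

namespace Cfsg.Agent.S4586

open Subgroup

/-- Let p be a prime, P a finite p-group and N a normal subgroup of P of index p. For x ∈ P write c(x) for the number of elements n of N whose commutator x n x⁻¹ n⁻¹ lies in the derived subgroup N' (so c(x)/#N' is the order of the centralizer of x acting on N/N'). Then [P : P'] = p² if and only if c(x) = p·#N' for every x ∈ P outside N, and also if and only if c(x) = p·#N' for some x ∈ P outside N. -/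
theorem result {P : Type*} [Group P] [Finite P] (p : ℕ) [Fact p.Prime] (hP : IsPGroup p P) (N : Subgroup P) [N.Normal] (hN : N.index = p) :
    ((commutator P).index = p ^ 2 ↔ ∀ x : P, x ∉ N →
        Nat.card {n : N // x * n * x⁻¹ * (n : P)⁻¹ ∈ (commutator N).map N.subtype} = p * Nat.card (commutator N)) ∧
    ((commutator P).index = p ^ 2 ↔ ∃ x : P, x ∉ N ∧
        Nat.card {n : N // x * n * x⁻¹ * (n : P)⁻¹ ∈ (commutator N).map N.subtype} = p * Nat.card (commutator N)) := by
  have hp : p.Prime := Fact.out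
  rw [L.map_commutator_subtype]
  have hc : Nat.card (commutator N) = Nat.card (⁅N, N⁆ : Subgroup P) := by
    rw [← L.map_commutator_subtype, card_map_of_injective N.subtype_injective]
  rw [hc]
  have key : ∀ x : P, x ∉ N → (commutator P).index * Nat.card (⁅N, N⁆ : Subgroup P) =
      p * Nat.card {n : N // x * n * x⁻¹ * (n : P)⁻¹ ∈ ⁅N, N⁆} := fun x hx => by
    set f := QuotientGroup.mk' ⁅N, N⁆ with hf
    have hk : f.ker = ⁅N, N⁆ := QuotientGroup.ker_mk' _
    have hkN : f.ker ≤ N := hk.le.trans (commutator_le_left _ _)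
    have hM : IsMulCommutative (N.map f) := L.commutator_eq_bot_iff_comm.1 (by
      rw [← map_commutator, Subgroup.map_eq_bot_iff, hk])
    haveI : (N.map f).Normal := Normal.map inferInstance f (QuotientGroup.mk'_surjective _)
    have h1 := (L.card_commutator_mul hM (b := f x) (by rw [normalizer_eq_top]; trivial)).1
    have hs : N ⊔ zpowers x = ⊤ := L.sup_zpowers_eq_of_relIndex_prime
      (by rw [relIndex_top_right, hN]; exact hp) le_top (mem_top x) hx
    rw [← MonoidHom.map_zpowers, ← Subgroup.map_sup, hs, ← map_commutator, ← _root_.commutator_def] at h1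
    have h2 : Nat.card {n : N // x * n * x⁻¹ * (n : P)⁻¹ ∈ ⁅N, N⁆} =
        Nat.card ((N.map f ⊓ centralizer {f x}).comap f) := by
      rw [comap_inf, comap_map_eq_self hkN]
      have e : ∀ n : P, n ∈ (centralizer {f x}).comap f ↔ x * n * x⁻¹ * n⁻¹ ∈ ⁅N, N⁆ := fun n => by
        refine Iff.trans ?_ (SetLike.ext_iff.1 hk _)
        rw [mem_comap, mem_centralizer_singleton_iff, MonoidHom.mem_ker, map_mul, map_mul, map_mul,
          map_inv, map_inv, mul_inv_eq_one, mul_inv_eq_iff_eq_mul, eq_comm]
      exact Nat.card_congr ⟨fun n => ⟨n.1.1, n.1.2, (e _).2 n.2⟩, fun n => ⟨⟨n.1, n.2.1⟩, (e _).1 n.2.2⟩,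
        fun _ => rfl, fun _ => rfl⟩
    have h3 := H1.card_comap_mk' ⁅N, N⁆ ((commutator P).map f)
    have h4 := H1.card_comap_mk' ⁅N, N⁆ (N.map f)
    rw [← hf, comap_map_eq_self (H := commutator P) (hk.le.trans (commutator_mono le_top le_top))] at h3
    rw [← hf, comap_map_eq_self hkN] at h4
    rw [h2, hf, H1.card_comap_mk', ← hf]
    have h5 := (commutator P).card_mul_index
    rw [← N.card_mul_index, hN, h3, h4, ← h1] at h5
    refine Nat.eq_of_mul_eq_mul_left (Nat.card_pos (α := (commutator P).map f)) ?_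
    linear_combination h5
  have key' : ∀ x : P, x ∉ N → ((commutator P).index = p ^ 2 ↔
      Nat.card {n : N // x * n * x⁻¹ * (n : P)⁻¹ ∈ ⁅N, N⁆} = p * Nat.card (⁅N, N⁆ : Subgroup P)) := fun x hx => by
    have := key x hx
    constructor
    · intro h
      rw [h, pow_two, mul_assoc] at this
      exact (Nat.eq_of_mul_eq_mul_left hp.pos this).symm
    · intro h
      rw [h, ← mul_assoc, ← pow_two] at this
      exact Nat.eq_of_mul_eq_mul_right Nat.card_pos this
  obtain ⟨x, hx⟩ : ∃ x, x ∉ N := by
    by_contra hh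
    push Not at hh
    rw [(eq_top_iff' N).2 hh, index_top] at hN
    exact hp.one_lt.ne hN
  exact ⟨⟨fun h y hy => (key' y hy).1 h, fun h => (key' x hx).2 (h x hx)⟩,
    ⟨fun h => ⟨x, hx, (key' x hx).1 h⟩, fun ⟨y, hy, h⟩ => (key' y hy).2 h⟩⟩

end Cfsg.Agent.S4586
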