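import Cfsg.Statements.S4588
import Cfsg.Agent.H4.Kb2

set_option autoImplicit false
open Cfsg

namespace Cfsg.Agent.S4588

open H4 H1 MonoidAlgebra
open scoped Pointwise


/-- Let G be a finite group, p a prime and M a maximal ideal of the algebraic integers containing p. If some p-element x of G (possibly x = 1) has centralizer whose order has p-part at most p², then the principal p-block of G contains at most p² irreducible characters of degree prime to p. -/
theorem result {G : Type*} [Group G] [Finite G] (p : ℕ) [Fact p.Prime] (M : Ideal Cfsg.AlgInt) (hM : Cfsg.IsPModular p M)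
    (hx : ∃ x : G, (∃ k : ℕ, orderOf x = p ^ k) ∧ (Nat.card (Subgroup.centralizer ({x} : Set G))).factorization p ≤ 2) :
    Nat.card {χ : Cfsg.IrrCharacter G // χ ∈ Cfsg.principalBlock M G ∧ ¬ p ∣ Cfsg.charDegree (χ : G → ℂ)} ≤ p ^ 2 := by
  have hp : p.Prime := Fact.out
  have h0 : ∀ χ ∈ fs {χ : IrrCharacter G | χ ∈ principalBlock M G ∧ ¬ p ∣ charDegree χ.1}, χ ∈ principalBlock M G ∧
      blockHeight p (principalBlock M G) χ.1 = 0 := fun χ h => ⟨(mem_fs.1 h).1, by
    rw [blockHeight_eq, show nu p χ.1 = 0 from Nat.factorization_eq_zero_of_not_dvd (mem_fs.1 h).2, Nat.zero_sub]⟩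
  have key : ∀ x : G, x ≠ 1 → IsPElt p x → (Nat.card (C1 x)).factorization p ≤ 2 →
      (fs {χ : IrrCharacter G | χ ∈ principalBlock M G ∧ ¬ p ∣ charDegree χ.1}).card ≤ p ^ 2 := fun x h1 hx h2 => by
    have hz := sec_cEl hx
    have h4 : Subgroup.zpowers (cEl x) ≤ Subgroup.center _ := Subgroup.zpowers_le.2 hz.center
    have : (Subgroup.zpowers (cEl x)).Normal := ⟨fun y hy g => by rwa [Subgroup.mem_center_iff.1 (h4 hy) g, mul_inv_cancel_right]⟩
    have hx' := isPGroup_zpowers hp (isPElt_coe.1 hx : IsPElt p (cEl x))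
    obtain ⟨D, h5⟩ := hx'.exists_le_sylow
    have h6 := D.card_eq_multiplicity
    have h7 := card_map_mul (QuotientGroup.mk' (Subgroup.zpowers (cEl x))) (P := D) (by rwa [QuotientGroup.ker_mk'])
    rw [QuotientGroup.ker_mk'] at h7
    refine (hz.card_le_of_cyc hM ((third_main hM (hz.defined hM isPBlock_principal)).2 rfl) h0
      ((dg_principal_iff hM).2 (isSylowIn_top D)) (isCyclic_of_card_dvd_prime (p := p) ?_) h5).trans
      (h6 ▸ Nat.pow_le_pow_right hp.pos h2)
    obtain ⟨m, hm⟩ := hx'.card_eq_or_dvd.resolve_left (mt Subgroup.card_eq_one.1 fun e =>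
      h1 (congrArg Subtype.val (Subgroup.zpowers_eq_bot.1 e)))
    refine Nat.dvd_of_mul_dvd_mul_right hp.pos (Dvd.dvd.trans ⟨m, by rw [mul_assoc, ← hm, h7]⟩ ?_)
    rw [h6, ← sq]
    exact pow_dvd_pow p h2
  refine (card_fs {χ : IrrCharacter G | χ ∈ principalBlock M G ∧ ¬ p ∣ charDegree χ.1}).ge.trans ?_
  obtain ⟨x, h1, h2⟩ := hx
  by_cases h3 : x = 1
  swap
  · exact key x h3 h1 h2
  rw [h3, show Subgroup.centralizer ({1} : Set G) = ⊤ by simp, Subgroup.card_top] at h2
  by_cases h4 : p ∣ Nat.card G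
  · obtain ⟨y, hy⟩ := exists_prime_orderOf_dvd_card' p h4
    exact key y (fun e => hp.ne_one (by rw [← hy, e, orderOf_one])) ⟨1, by rw [hy, pow_one]⟩
      (((Nat.factorization_le_iff_dvd Nat.card_pos.ne' Nat.card_pos.ne').2 (Subgroup.card_subgroup_dvd_card _) p).trans h2)
  · refine le_trans (Finset.card_le_card (t := fs (principalBlock M G)) fun χ h => mem_fs.2 (mem_fs.1 h).1) ?_
    rw [card_fs, card_eq_one_of_defect hM isPBlock_principal (by
      rw [defect_eq_of_nu (triv_mem_principal hM) nu_triv, Nat.factorization_eq_zero_of_not_dvd h4])]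
    exact Nat.one_le_pow _ _ hp.pos

end Cfsg.Agent.S4588
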