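import Cfsg.Statements.S4593
import Cfsg.Agent.H9.LB3
import Cfsg.Agent.H1.SZ

set_option autoImplicit false
open Cfsg

namespace Cfsg.Agent.S4593

section
open H9 Subgroup
open scoped commutatorElement
open H9 Subgroup in open scoped commutatorElement in
theorem ab_syl_le {G : Type*} [Group G] [Finite G] {S H : Subgroup G} (hS : Syl 2 S H) (hc : S ≤ centralizer (S : Set G))
    (hO : Op' 2 H = ⊥) : S ≤ ⁅H, H⁆ ⊔ (H ⊓ centralizer (H : Set G)) := by
  have s1 : S ≤ H ⊓ normalizer (S : Set G) := le_inf hS.le le_normalizer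
  have hS' := hS.mono s1 inf_le_left
  obtain ⟨n, hn⟩ := IsPGroup.iff_card.1 hS.isP
  have c : (S.relIndex (H ⊓ normalizer (S : Set G))).Coprime 2 :=
    (Nat.prime_two.coprime_iff_not_dvd.2 hS'.not_dvd).symm
  obtain ⟨K, k1, -, k3, k4⟩ := H1.exists_complement_rel s1 inf_le_right (hn ▸ c.symm.pow_left n)
  rw [← cop_commutator_sup (k1.trans inf_le_right) (copA_of_p' hS.isP (k4 ▸ c))]
  refine sup_le_sup (commutator_mono hS.le (k1.trans inf_le_left)) fun x hx => ?_
  have xH := hS.le hx.1
  have px := isPGroup_zpowers_of_mem hS.isP hx.1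
  have := (inZ_sub xH).1 (zstar_elt _ ⟨x, xH⟩ (iso_of_syl (S := S.subgroupOf H) (by simpa using hS.subgroupOf le_rfl)
    hx.1 fun g hg => Subtype.ext (by
      obtain ⟨c, hc1, hc2⟩ := ((hS.cj_of_mem (le_normalizer (inv_mem g.2))).mono (K := H ⊓ centralizer {x})
        (le_inf (hS.cj_of_mem (le_normalizer (inv_mem g.2))).le (le_centralizer_singleton_iff.2 (by
          rw [← cj_centralizer, mem_cj, inv_inv]; exact hc hg))) inf_le_left).conj
        (hS.mono (le_inf hS.le (le_centralizer_singleton_iff.2 (hc hx.1))) inf_le_left)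
      rw [← cj_mul, ← mem_normalizer_iff_cj] at hc2
      have a : K ⊔ S ≤ centralizer {x} := sup_le (le_centralizer_singleton_iff.2 hx.2)
        (le_centralizer_singleton_iff.2 (hc hx.1))
      have b := mul_mem (inv_mem (mem_inf.1 hc1).2) (a (k3 ▸ mem_inf.2 ⟨mul_mem hc1.1 (inv_mem g.2), hc2⟩))
      rw [inv_mul_cancel_left, inv_mem_iff, mem_centralizer_singleton_iff] at b
      simp [b])) ((px.comap_subtype (K := H)).to_le (zpowers_le.2 (mem_zpowers x))))
  rw [hO, le_bot_iff, ← le_centralizer_iff', le_centralizer_iff] at this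
  exact ⟨xH, this (mem_zpowers x)⟩
end

/-- Let G be a finite group with trivial centre and no nontrivial normal subgroup of odd order, whose Sylow 2-subgroups are abelian, and let P be a Sylow 2-subgroup. Every automorphism of G of 2-power order that fixes P elementwise is inner. -/
theorem result {G : Type*} [Group G] [Finite G] (hZ : Subgroup.center G = ⊥) (hcore : Cfsg.pPrimeCore 2 G = ⊥) (P : Sylow 2 G) (hab : IsMulCommutative (P : Subgroup G))
    (α : MulAut G) (h2 : ∃ j : ℕ, orderOf α = 2 ^ j) (hfix : ∀ x ∈ (P : Subgroup G), α x = x) :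
    ∃ g : G, ∀ x : G, α x = g * x * g⁻¹ := by
  open H9 Subgroup in open scoped commutatorElement in
  have inj : Function.Injective (MulAut.conj : G →* MulAut G) := (injective_iff_map_eq_one _).2 fun g hg =>
    mem_bot.1 (hZ ▸ mem_center_iff.2 fun x => (mul_inv_eq_iff_eq_mul.1 (MulEquiv.congr_fun hg x)).symm)
  have cc : ∀ (β : MulAut G) g, β * MulAut.conj g * β⁻¹ = MulAut.conj (β g) := fun β g => by ext; simp
  obtain ⟨j, hj⟩ := h2
  have pa : IsPGroup 2 (zpowers α) := IsPGroup.of_card (by rw [Nat.card_zpowers, hj])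
  have ac : zpowers α ≤ centralizer ((P : Subgroup G).map MulAut.conj : Set (MulAut G)) := zpowers_le.2 (by
    rintro _ ⟨x, hx, rfl⟩
    rw [eq_comm, ← mul_inv_eq_iff_eq_mul, cc, hfix x hx])
  have n1 : ∀ X, X ≤ normalizer ((⊤ : Subgroup G).map MulAut.conj : Set (MulAut G)) := fun X => le_normalizer_of_cj_le (by
    rintro β - _ ⟨_, ⟨g, -, rfl⟩, rfl⟩
    exact ⟨β g, trivial, (cc β g).symm⟩)
  obtain ⟨hS, -⟩ := ((syl_top_of_sylow P).map MulAut.conj).sup_of_normalizer pa
    (ac.trans (centralizer_le_normalizer' _)) (n1 _)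
  have := ab_syl_le hS (by
    rw [centralizer_sup]
    exact le_inf (sup_le (L.le_centralizer_of_comm inferInstance) ac)
      (sup_le (le_centralizer_iff.1 ac) (L.le_centralizer_of_comm inferInstance)))
    (by rw [Op'_sup_p pa (n1 _), ← map_Op'_of_injective _ inj, Op'_top, hcore, Subgroup.map_bot])
  obtain ⟨g, -, rfl⟩ : α ∈ (⊤ : Subgroup G).map MulAut.conj := by
    refine (this.trans (sup_le ?_ (fun β hβ => ?_))) (mem_sup_right (mem_zpowers α))
    · refine commutator_sup_le le_normalizer (n1 _) (commutator_le_left' (n1 _)) ?_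
      rw [commutator_comm]
      exact commutator_sup_le le_normalizer (n1 _) (commutator_le_left' (n1 _))
        ((le_centralizer_iff'.1 (L.le_centralizer_of_comm inferInstance)).le.trans bot_le)
    · refine ⟨1, trivial, MulEquiv.ext fun g => inj ?_⟩
      rw [← cc β, ← hβ.2 _ (mem_sup_left ⟨g, trivial, rfl⟩)]
      simp
  exact ⟨g, fun _ => rfl⟩

end Cfsg.Agent.S4593
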