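import Cfsg.Statements.S4602
import Cfsg.Agent.H1.PLen
import Cfsg.Agent.H1.CS

set_option autoImplicit false
open Cfsg

namespace Cfsg.Agent.S4602

open Subgroup H9
theorem relIndex_sup' {G : Type*} [Group G] [Finite G] (K N : Subgroup G) [N.Normal] : K.relIndex (K ⊔ N) = K.relIndex N := by
  have h1 := relIndex_mul_card (le_sup_left : K ≤ K ⊔ N)
  have h2 := relIndex_mul_card (le_sup_right : N ≤ K ⊔ N)
  rw [relIndex_sup_of_le_normalizer le_normalizer_of_normal] at h2
  have h3 := relIndex_mul_card_inf N K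
  have h4 := relIndex_mul_card_inf K N
  rw [inf_comm] at h4
  have a : 0 < Nat.card (N ⊓ K : Subgroup G) := Nat.card_pos
  have b : 0 < N.relIndex K := Nat.pos_of_ne_zero index_ne_zero_of_finite
  apply Nat.eq_of_mul_eq_mul_right (Nat.mul_pos b a)
  rw [h3, h1, ← h2, ← h4, ← h3]; ring
theorem le_core {G : Type*} [Group G] [Finite G] {p q : ℕ} [Fact p.Prime] [hq : Fact q.Prime] (Q : Sylow q G)
    (h : (Q : Subgroup G) ≤ Cfsg.pPrimeCore p G) : ¬ q ∣ (Cfsg.pPrimeCore p G).index :=
  fun h' => Q.not_dvd_index (h'.trans (index_dvd_of_le h))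
theorem mem_core {G : Type*} [Group G] [Finite G] {p q : ℕ} [Fact p.Prime] [hq : Fact q.Prime] (hpq : p ≠ q)
    (hsolv : Cfsg.IsPSolvable p G) {Q : Subgroup G} (hQ : IsPGroup q Q) (P : Sylow p G)
    (h : (P : Subgroup G) ≤ normalizer (Q : Set G)) : Q ≤ Cfsg.pPrimeCore p G := by
  let π := QuotientGroup.mk' (Cfsg.pPrimeCore p G)
  have hs : Function.Surjective π := QuotientGroup.mk'_surjective _
  have hC := H1.PS.hh ((H1.PS.quot (psol_of_isPSolvable hsolv)) (Cfsg.pPrimeCore p G)) H1.pPrimeCore_quotient_pPrimeCore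
  have hO : Cfsg.pCore p (G ⧸ Cfsg.pPrimeCore p G) ≤ (P : Subgroup G).map π :=
    IsPGroup.le_sylow_of_normal H1.pCore_isPGroup (P.mapSurjective hs)
  have hc := IsPGroup.coprime_card_of_ne q p (Ne.symm hpq) _ _ (hQ.map π) (H1.pCore_isPGroup (G := G ⧸ Cfsg.pPrimeCore p G))
  have h1 : Q.map π ≤ Cfsg.pCore p _ := by
    refine le_trans ?_ hC
    rw [← commutator_eq_bot_iff_le_centralizer, eq_bot_iff, ← inf_eq_bot_of_coprime hc]
    exact le_inf (commutator_le_left' ((hO.trans (map_mono h)).trans (le_normalizer_map π)))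
      (commutator_le_right _ _)
  have h2 : Q.map π = ⊥ := by rw [← inf_eq_bot_of_coprime hc, inf_eq_left.2 h1]
  rwa [Subgroup.map_eq_bot_iff, QuotientGroup.ker_mk'] at h2

/-- Let G be a finite p-solvable group and q a prime different from p. Some Sylow p-subgroup of G normalizes some Sylow q-subgroup of G if and only if q does not divide the order of G/O_{p'}(G), the quotient by the largest normal subgroup of order prime to p. -/
theorem result {G : Type*} [Group G] [Finite G] (p q : ℕ) [Fact p.Prime] [Fact q.Prime] (hpq : p ≠ q) (hsolv : Cfsg.IsPSolvable p G) :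
    (∃ (P : Sylow p G) (Q : Sylow q G), (P : Subgroup G) ≤ Subgroup.normalizer ((Q : Subgroup G) : Set G)) ↔ ¬ q ∣ (Cfsg.pPrimeCore p G).index := by
  constructor
  · rintro ⟨P, Q, h⟩
    exact le_core Q (mem_core hpq hsolv Q.isPGroup' P h)
  · intro h
    obtain ⟨Q, hQ⟩ := H1.exists_sylow_le_of_not_dvd h
    have h1 := ((syl_top_of_sylow Q).mono hQ le_top).frattini le_top le_normalizer_of_normal
    rw [top_inf_eq, sup_comm] at h1
    have h2 := relIndex_sup' (normalizer ((Q : Subgroup G) : Set G)) (Cfsg.pPrimeCore p G)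
    rw [h1, relIndex_top_right] at h2
    obtain ⟨P, hP⟩ := H1.exists_sylow_le_of_not_dvd (p := p) (K := normalizer ((Q : Subgroup G) : Set G))
      (fun h' => H1.not_dvd_card_pPrimeCore ((h2 ▸ h').trans (relIndex_dvd_card _ _)))
    exact ⟨P, Q, hP⟩

end Cfsg.Agent.S4602
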