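import Cfsg.Statements.S4601
import Cfsg.Agent.S4602
import Cfsg.Agent.H1.Misc
import Cfsg.Agent.H2.Fus29
import Cfsg.Agent.H1.Hall

set_option autoImplicit false
open Cfsg

namespace Cfsg.Agent.S4601

open Subgroup H9 Cfsg.Agent.S4602
universe u
theorem aux {p q : ℕ} [hp : Fact p.Prime] [hq : Fact q.Prime] (n : ℕ) : ∀ (G : Type u) [Group G] [Finite G], Nat.card G = n →
    Cfsg.IsPSolvable q G → (∀ y : G, (∃ k : ℕ, orderOf y = q ^ k) → ¬ p ∣ (centralizer ({y} : Set G)).index) →
    ∃ (P : Sylow p G) (Q : Sylow q G), (P : Subgroup G) ≤ normalizer ((Q : Subgroup G) : Set G) := by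
  induction n using Nat.strong_induction_on with
  | _ n ih =>
  intro G _ _ hn hs h
  rcases subsingleton_or_nontrivial G with h0 | h0
  · exact ⟨default, default, fun x _ => by rw [Subsingleton.elim x 1]; exact one_mem _⟩
  obtain ⟨N, hN, hN1, hN2⟩ := H1.exists_normal_of_isPSolvable hs (MonoidHom.id G) Function.surjective_id h0
  let π := QuotientGroup.mk' N
  have hπ : Function.Surjective π := QuotientGroup.mk'_surjective _
  obtain ⟨P', Q', h1⟩ := ih _ (by
      rw [← hn, card_eq_card_quotient_mul_card_subgroup N]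
      exact lt_mul_of_one_lt_right Nat.card_pos ((one_lt_card_iff_ne_bot N).2 hN1)) (G ⧸ N) rfl (H2.psv_of_surj hs π hπ) (by
    rintro y ⟨k, hk⟩
    obtain ⟨x, rfl⟩ := hπ y
    obtain ⟨a, ha, b, hb, e, ha', hb'⟩ := H1.exists_p_part q x
    have hb1 : π b = 1 := by
      rw [← orderOf_eq_one_iff]
      have h2 : orderOf (π b) ∣ q ^ k := hk ▸ orderOf_dvd_of_mem_zpowers (by
        obtain ⟨j, rfl⟩ := hb
        exact ⟨j, (map_zpow π x j).symm⟩)
      exact Nat.eq_one_of_dvd_coprimes (Nat.Coprime.pow_left k ((Nat.Prime.coprime_iff_not_dvd hq.out).2 hb')) h2 (orderOf_map_dvd π b)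
    rw [e, map_mul, hb1, mul_one]
    intro hd
    refine h a ha' (hd.trans ((index_dvd_of_le ?_).trans (index_map_dvd _ hπ)))
    rintro _ ⟨c, hc, rfl⟩
    rw [mem_centralizer_singleton_iff, ← map_mul, ← map_mul, mem_centralizer_singleton_iff.1 hc])
  obtain ⟨P, rfl⟩ := Sylow.mapSurjective_surjective hπ p P'
  obtain ⟨Q, rfl⟩ := Sylow.mapSurjective_surjective hπ q Q'
  have h2 : (P : Subgroup G) ≤ normalizer (((Q : Subgroup G) ⊔ N : Subgroup G) : Set G) := by
    have := comap_mono (f := π) h1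
    rw [comap_normalizer_eq_of_surjective _ hπ, Sylow.coe_mapSurjective, Sylow.coe_mapSurjective, comap_map_eq,
      comap_map_eq, QuotientGroup.ker_mk'] at this
    exact le_sup_left.trans this
  rcases hN2 with hN2 | hN2
  · rw [sup_eq_left.2 (hN2.le_sylow_of_normal Q)] at h2
    exact ⟨P, Q, h2⟩
  obtain ⟨P0, h3, h4⟩ := cop_exists_syl (A := Q) (K := N) le_normalizer_of_normal (copA_of_p Q.isPGroup' hN2) p
  have h5 : P0 ≤ centralizer ((Q : Subgroup G) : Set G) := by
    intro x hx y hy
    have h6 := cop_syl_centralizer (A := zpowers y) le_normalizer_of_normal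
      (copA_of_p (Q.isPGroup'.to_le (zpowers_le.2 hy)) hN2) h3 ((zpowers_le.2 hy).trans h4)
    rw [zpowers_eq_closure, centralizer_closure] at h6
    have h7 := h6.trans_index inf_le_left (by
      rw [inf_relIndex_left]
      obtain ⟨k, hk⟩ := IsPGroup.iff_orderOf.mp Q.isPGroup' ⟨y, hy⟩
      exact fun hd => h y ⟨k, by simpa using hk⟩ (hd.trans (H1.relIndex_dvd_index_of_normal' N _)))
    have h8 := h7.maximal h3.isP h3.le inf_le_left
    exact (mem_centralizer_singleton_iff.1 ((h8.le hx).2)).symm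
  have h6 : (P : Subgroup G) ≤ normalizer ((Q : Subgroup G) : Set G) ⊔ N := by
    intro g hg
    obtain ⟨m, hm, x, hx, rfl⟩ := ((syl_top_of_sylow Q).mono le_sup_left le_top).frattini' (h2 hg)
    exact mul_mem (sup_le_sup_right le_normalizer N hm) (mem_sup_left hx)
  obtain ⟨R, hR⟩ := H1.exists_sylow_le_of_not_dvd (p := p) (K := normalizer ((Q : Subgroup G) : Set G)) (by
    rw [← relIndex_mul_index (le_sup_left (b := N)), relIndex_sup', hp.out.dvd_mul]
    rintro (hd | hd)
    · exact h3.not_dvd (hd.trans (relIndex_dvd_of_le_left _ (h5.trans (centralizer_le_normalizer _))))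
    · exact P.not_dvd_index (hd.trans (index_dvd_of_le h6)))
  exact ⟨R, Q, hR⟩

/-- Let p and q be primes and G a finite group that is p-solvable or q-solvable, in which no q-element has conjugacy class size divisible by p. Then some Sylow p-subgroup of G normalizes some Sylow q-subgroup of G. -/
theorem result {G : Type*} [Group G] [Finite G] (p q : ℕ) [Fact p.Prime] [Fact q.Prime] (hsolv : Cfsg.IsPSolvable p G ∨ Cfsg.IsPSolvable q G)
    (h : ∀ y : G, (∃ k : ℕ, orderOf y = q ^ k) → ¬ p ∣ (Subgroup.centralizer ({y} : Set G)).index) :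
    ∃ (P : Sylow p G) (Q : Sylow q G), (P : Subgroup G) ≤ Subgroup.normalizer ((Q : Subgroup G) : Set G) := by
  by_cases hpq : p = q
  · subst hpq
    exact ⟨default, default, le_normalizer⟩
  rcases hsolv with hs | hs
  · refine (Cfsg.Agent.S4602.result p q hpq hs).2 (le_core default fun y hy => ?_)
    obtain ⟨k, hk⟩ := IsPGroup.iff_orderOf.mp (default : Sylow q G).isPGroup' ⟨y, hy⟩
    obtain ⟨P, hP⟩ := H1.exists_sylow_le_of_not_dvd (h y ⟨k, by simpa using hk⟩)
    refine mem_core hpq hs ((default : Sylow q G).isPGroup'.to_le (zpowers_le.2 hy)) P ?_ (mem_zpowers y)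
    refine hP.trans (le_trans ?_ (centralizer_le_normalizer _))
    rw [zpowers_eq_closure, centralizer_closure]
  · exact aux _ G rfl hs h

end Cfsg.Agent.S4601
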