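import Cfsg.Statements.S4604
import Cfsg.Agent.H3.Brauer2
import Cfsg.Agent.H3.Chr

set_option autoImplicit false
open Cfsg

namespace Cfsg.Agent.S4604

open H3

/-- Let G be a finite group, p a prime and p^a the p-part of the order of G. Let x, y ∈ G and let x′, y′ be their p-regular parts: x′ has order prime to p, commutes with x·x′⁻¹, and x·x′⁻¹ has p-power order (likewise for y). Then x′ and y′ are conjugate in G if and only if for every irreducible character χ of G the algebraic integer χ(x)^(p^a) − χ(y)^(p^a) is p times an algebraic integer. -/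
theorem result {G : Type*} [Group G] [Finite G] (p : ℕ) [Fact p.Prime] (x y x' y' : G)
    (hx : (∃ k : ℕ, orderOf (x * x'⁻¹) = p ^ k) ∧ Commute (x * x'⁻¹) x' ∧ ¬ p ∣ orderOf x')
    (hy : (∃ k : ℕ, orderOf (y * y'⁻¹) = p ^ k) ∧ Commute (y * y'⁻¹) y' ∧ ¬ p ∣ orderOf y') :
    IsConj x' y' ↔ ∀ χ : Cfsg.IrrCharacter G, ∃ γ : Cfsg.AlgInt,
      (χ : G → ℂ) x ^ (p ^ (Nat.card G).factorization p) - (χ : G → ℂ) y ^ (p ^ (Nat.card G).factorization p) = (p : ℂ) * (γ : ℂ) := by
  classical
  have := Fintype.ofFinite G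
  have hp : p.Prime := Fact.out
  set a := (Nat.card G).factorization p
  have hmn : Nat.card G = p ^ a * (Nat.card G / p ^ a) :=
    (Nat.mul_div_cancel' (Nat.ordProj_dvd _ _)).symm
  have hn : ¬ p ∣ Nat.card G / p ^ a := Nat.not_dvd_ordCompl hp Nat.card_pos.ne'
  set n := Nat.card G / p ^ a
  have hcop : (p ^ a).Coprime n := ((Nat.Prime.coprime_iff_not_dvd hp).2 hn).pow_left _
  have key : ∀ x x' : G, (∃ k : ℕ, orderOf (x * x'⁻¹) = p ^ k) ∧ Commute (x * x'⁻¹) x' ∧
      ¬ p ∣ orderOf x' → x ^ p ^ a = x' ^ p ^ a ∧ orderOf x' ∣ n := by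
    rintro x x' ⟨⟨k, h1⟩, h2, h3⟩
    refine ⟨?_, orderOf_dvd_right_of_coprime hmn
      (((Nat.Prime.coprime_iff_not_dvd hp).2 h3).symm.pow_right _)⟩
    have := h2.mul_pow (p ^ a)
    rw [inv_mul_cancel_right, orderOf_dvd_iff_pow_eq_one.1 (orderOf_dvd_left_of_coprime hmn
      (u := x * x'⁻¹) (h1 ▸ ((Nat.Prime.coprime_iff_not_dvd hp).2 hn).pow_left _)), one_mul] at this
    exact this
  obtain ⟨h1, h2⟩ := key x x' hx
  obtain ⟨h3, h4⟩ := key y y' hy
  constructor
  · intro h χ
    obtain ⟨b, c, d⟩ := char_pow_congr hp a (irr_char χ.2) x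
    obtain ⟨b', c', d'⟩ := char_pow_congr hp a (irr_char χ.2) y
    refine ⟨⟨b - b', c.sub c'⟩, ?_⟩
    rw [d, d', h1, h3, class_isConj (irr_class χ.2) (h.pow _)]
    simp [mul_sub]
  · intro h
    obtain ⟨k, hk0, hk1⟩ := Nat.chineseRemainder hcop 0 1
    replace hk0 : p ^ a ∣ k := (Nat.modEq_zero_iff_dvd).mp hk0
    have h5 : IsConj (x' ^ p ^ a) (y' ^ p ^ a) := by
      by_contra e
      have hθ : IsClassFunction G fun z => n * classInd (x' ^ p ^ a) (z ^ k) := fun g z => by
        simp only [conj_pow]; rw [class_classInd]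
      have e1 := class_apply_eq_sum hθ (x' ^ p ^ a)
      have e2 := class_apply_eq_sum hθ (y' ^ p ^ a)
      rw [pow_eq_self_of_dvd hk1 ((orderOf_pow_dvd _).trans ‹_›)] at e1 e2
      rw [show classInd (x' ^ p ^ a) (x' ^ p ^ a) = 1 by simp only [classInd, IsConj.refl, if_true], mul_one] at e1
      rw [show classInd (x' ^ p ^ a) (y' ^ p ^ a) = 0 by simp only [classInd, e, if_false],
        mul_zero] at e2
      choose γ hγ using h
      choose b c d using fun χ : IrrCharacter G => char_pow_congr hp a (irr_char χ.2) x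
      choose b' c' d' using fun χ : IrrCharacter G => char_pow_congr hp a (irr_char χ.2) y
      refine hn (Int.natCast_dvd_natCast.1 (dvd_of_eq_mul hp.ne_zero (IsIntegral.sum
        (s := Finset.univ) (fun χ : IrrCharacter G => classInner (fun z => n * classInd
          (x' ^ p ^ a) (z ^ k)) χ * (γ χ - b χ + b' χ)) fun χ _ =>
        (section_integral hmn hcop hk0 hk1 _ (irr_gen χ.2)).mul
          (((γ χ).2.sub (c χ)).add (c' χ))) ?_))
      refine ((sub_zero _).symm.trans (congrArg₂ (· - ·) ((Int.cast_natCast n).trans e1) e2)).trans ?_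
      rw [← Finset.sum_sub_distrib, Finset.mul_sum]
      refine Finset.sum_congr rfl fun χ _ => ?_
      have := hγ χ
      rw [d, d', h1, h3] at this
      generalize classInner _ χ.1 = w
      linear_combination w * this
    obtain ⟨j, rfl⟩ := hk0
    have := h5.pow j
    rwa [← pow_mul, ← pow_mul, pow_eq_self_of_dvd hk1 h2, pow_eq_self_of_dvd hk1 h4] at this

end Cfsg.Agent.S4604
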