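import Cfsg.Statements.S4607
import Cfsg.Agent.H4.SLoc

set_option autoImplicit false
open Cfsg

namespace Cfsg.Agent.S4607

open H4 H1 MonoidAlgebra
open scoped Pointwise


/-- Let G be a finite group, p a prime, M a maximal ideal of the algebraic integers containing p, and B a p-block of G with defect group D. Then B contains exactly two irreducible characters if and only if D has order 2. -/
theorem result {G : Type*} [Group G] [Finite G] (p : ℕ) [Fact p.Prime] (M : Ideal Cfsg.AlgInt) (hM : Cfsg.IsPModular p M) (B : Set (Cfsg.IrrCharacter G)) (hB : Cfsg.IsPBlock M B) (D : Subgroup G) (hD : Cfsg.IsDefectGroup p M B D) : Nat.card B = 2 ↔ Nat.card D = 2 := by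
  have h1 := dg_card hM hB hD
  constructor
  · intro h
    have h2 := rank_le_card (p := p) B
    have h3 := rank_pos (p := p) (block_nonempty hM hB)
    have h4 : blockRank p B ≠ 2 := fun e => by
      have := card_eq_one_of_defect hM hB (defect_eq_zero_of_rank hM hB (h.trans e.symm)); omega
    rw [h1, ← card_eq_of_small hM hB (by omega) (by omega), h]
  · intro h
    obtain ⟨e, hm⟩ := exists_maxP hM hB hD
    have := Fact.mk Nat.prime_two
    have hc : IsCyclic D := isCyclic_of_prime_card h
    have := Fintype.ofFinite G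
    obtain ⟨χ, hχ⟩ := block_nonempty hM hB
    refine ((aNil_of_ab hM hm (cyclic_le_CS hc) fun g hg x hx => ?_).ab hM hB hD (cyclic_le_CS hc) hχ).1.trans h
    have h2 : g * x * g⁻¹ ∈ D := (Subgroup.mem_normalizer_iff.1 (mem_Stab.1 hg).1 x).1 hx
    obtain ⟨y, -, hy⟩ := (Nat.card_eq_two_iff' (1 : D)).1 h
    by_cases e : x = 1
    · simp [e]
    · have := (hy ⟨_, h2⟩ (by simpa using e)).trans (hy ⟨x, hx⟩ (by simpa using e)).symm
      exact (mul_inv_eq_iff_eq_mul.1 (congrArg Subtype.val this)).symm

end Cfsg.Agent.S4607
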