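import Cfsg.Statements.S4619
import Cfsg.Agent.H3.Chr

set_option autoImplicit false
open scoped Pointwise
open Cfsg

namespace Cfsg.Agent.S4619

/-- Let P be a Sylow p-subgroup of the finite group G that is a trivial-intersection set: P meets each conjugate g P g⁻¹ with g outside N_G(P) trivially. Then for every nontrivial subgroup Q of P the normalizer of Q lies in the normalizer of P, and any g ∈ G conjugating Q into P lies in N_G(P). -/
theorem result {G : Type*} [Group G] [Finite G] (p : ℕ) [Fact p.Prime] (P : Sylow p G) (hTI : (∀ g : G, g ∉ Subgroup.normalizer ((P : Subgroup G) : Set G) → (P : Subgroup G) ⊓ (MulAut.conj g • (P : Subgroup G)) = ⊥)) (Q : Subgroup G) (hQ : Q ≤ (P : Subgroup G)) (hQ1 : Q ≠ ⊥) :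
    Subgroup.normalizer (Q : Set G) ≤ Subgroup.normalizer ((P : Subgroup G) : Set G) ∧
      ∀ g : G, MulAut.conj g • Q ≤ (P : Subgroup G) → g ∈ Subgroup.normalizer ((P : Subgroup G) : Set G) := by
  have h : ∀ g : G, MulAut.conj g • Q ≤ (P : Subgroup G) →
      g ∈ Subgroup.normalizer ((P : Subgroup G) : Set G) := fun g hg => by
    by_contra hc
    have h1 : MulAut.conj g • Q ≤ ⊥ := hTI g hc ▸ le_inf hg
      (Subgroup.pointwise_smul_le_pointwise_smul_iff.2 hQ)
    refine hQ1 (eq_bot_iff.2 fun x hx => ?_)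
    have := h1 (Subgroup.smul_mem_pointwise_smul x (MulAut.conj g) Q hx)
    simpa using this
  refine ⟨fun g hg => h g ?_, h⟩
  intro x hx
  rw [Subgroup.mem_pointwise_smul_iff_inv_smul_mem] at hx
  have := (Subgroup.mem_normalizer_iff.1 hg _).1 hx
  exact hQ (by simpa [mul_assoc] using this)

end Cfsg.Agent.S4619
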