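import Cfsg.Statements.S4620
import Cfsg.Agent.H2.MinN
import Cfsg.Agent.H9.Syl

set_option autoImplicit false
open scoped Pointwise
open Cfsg

namespace Cfsg.Agent.S4620

open Subgroup H9

theorem key {H : Type*} [Group H] [Finite H] {p : ℕ} [Fact p.Prime] (hOp : Cfsg.pCore p H = ⊥)
    (hOp' : Cfsg.pPrimeCore p H = ⊥) {P : Subgroup H} (hP : Syl p P ⊤)
    (hTI : ∀ g : H, g ∉ normalizer (P : Set H) → P ⊓ cj g P = ⊥) {A B : Subgroup H}
    (hA : SN A ⊤) (hB : SN B ⊤) (hA1 : A ≠ ⊥) (hB1 : B ≠ ⊥) (h : B ≤ centralizer (A : Set H)) : False := by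
  have ne : ∀ {C : Subgroup H}, SN C ⊤ → C ≠ ⊥ → P ⊓ C ≠ ⊥ := fun {C} hC h1 h0 => by
    have := hC.le_Op' ((hP.inf_sn hC).eq_bot_iff.1 h0)
    rw [Op'_top, hOp'] at this
    exact h1 (le_bot_iff.1 this)
  have h1 : B ≤ normalizer (P : Set H) := fun b hb => by
    by_contra hn
    refine ne hA hA1 (eq_bot_iff.2 fun x hx => ?_)
    rw [← hTI b hn]
    refine ⟨hx.1, mem_cj.2 ?_⟩
    have := comm_of_mem_centralizer (h hb) hx.2
    rw [mul_assoc, this, inv_mul_cancel_left]
    exact hx.1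
  have h2 : SN (P ⊓ B) ⊤ := SN.step inf_le_right (normalizer_inf h1 le_normalizer) hB
  have := h2.le_Op (hP.isP.to_le inf_le_left)
  rw [Op_top, hOp] at this
  exact ne hB hB1 (le_bot_iff.1 this)

/-- Let H be a finite group with no nontrivial normal p-subgroup and no nontrivial normal subgroup of order prime to p, whose Sylow p-subgroup P is nontrivial and a trivial-intersection set (P meets its conjugates by elements outside N_H(P) trivially). Then H has a unique minimal normal subgroup N; N is non-abelian simple with trivial centralizer in H (so H embeds in Aut(N)), and a Sylow p-subgroup of N is again a nontrivial trivial-intersection set in N. -/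
theorem result {H : Type*} [Group H] [Finite H] (p : ℕ) [Fact p.Prime] (hOp : Cfsg.pCore p H = ⊥) (hOp' : Cfsg.pPrimeCore p H = ⊥) (P : Sylow p H) (hP1 : (P : Subgroup H) ≠ ⊥)
    (hTI : ∀ g : H, g ∉ Subgroup.normalizer ((P : Subgroup H) : Set H) → (P : Subgroup H) ⊓ (MulAut.conj g • (P : Subgroup H)) = ⊥) :
    ∃ N : Subgroup H, N.Normal ∧ N ≠ ⊥ ∧ (∀ K : Subgroup H, K.Normal → K ≠ ⊥ → N ≤ K) ∧
      IsSimpleGroup N ∧ ¬ IsMulCommutative N ∧ Subgroup.centralizer (N : Set H) = ⊥ ∧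
      ∀ Q : Sylow p N, (Q : Subgroup N) ≠ ⊥ ∧
        ∀ n : N, n ∉ Subgroup.normalizer ((Q : Subgroup N) : Set N) → (Q : Subgroup N) ⊓ (MulAut.conj n • (Q : Subgroup N)) = ⊥ := by
  have hP := syl_top_of_sylow P
  have htop : (⊤ : Subgroup H) ≠ ⊥ := fun h => hP1 (le_bot_iff.1 (h ▸ le_top))
  obtain ⟨N, -, hN⟩ := H2M.exists_minN htop
  haveI := hN.1
  have K := fun {A B : Subgroup H} => key (A := A) (B := B) hOp hOp' hP hTI
  have hC : centralizer (N : Set H) = ⊥ := by
    by_contra h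
    exact K (SN.of_normal_top N) (SN.of_normal_top _) hN.2.1 h le_rfl
  haveI : Nontrivial N := (nontrivial_iff_ne_bot _).2 hN.2.1
  refine ⟨N, hN.1, hN.2.1, fun L hL hL1 => ?_, ?_, fun h => hN.2.1 ?_, hC, fun Q => ?_⟩
  · rcases hN.2.2 (N ⊓ L) inferInstance inf_le_left with h | h
    · refine absurd (eq_bot_iff.2 fun x hx => ?_) hL1
      rw [← hC]
      exact fun y hy => (commute_of_normal_of_disjoint N L hN.1 hL (disjoint_iff.2 h) y x hy hx).eq
    · exact h.ge.trans inf_le_right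
  · obtain ⟨n, V, hn, h1, h2, h3, -⟩ := H2M.char_simple hN.char_simple
    have hs : ∀ i, SN ((V i).map N.subtype) ⊤ := fun i =>
      haveI := (h1 i).1
      SN.step (map_subtype_le _) (map_subtype_le_normalizer _) (SN.of_normal_top N)
    have hne : ∀ i, (V i).map N.subtype ≠ ⊥ := fun i h =>
      (h1 i).2.1 ((map_eq_bot_iff_of_injective _ N.subtype_injective).1 h)
    have hall : ∀ i, i = (⟨0, hn⟩ : Fin n) := fun i => by
      by_contra hi
      refine K (hs i) (hs ⟨0, hn⟩) (hne _) (hne _) ?_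
      rintro _ ⟨x, hx, rfl⟩ _ ⟨y, hy, rfl⟩
      exact congrArg Subtype.val (H2M.comm_of_indep (fun i => (h1 i).1) h2 hi y x hy hx).eq
    have ht : V ⟨0, hn⟩ = ⊤ := eq_top_iff.2 (h3 ▸ iSup_le fun i => by rw [hall i])
    haveI := H2M.simple_of_indep h1 h2 h3 ⟨0, hn⟩
    exact ((MulEquiv.subgroupCongr ht).trans topEquiv).symm.isSimpleGroup
  · rw [eq_bot_iff, ← hC]
    exact le_centralizer N
  · have hQ := syl_of_sylow Q
    obtain ⟨g, -, hg⟩ := hP.exists_le_cj hQ.isP le_top
    have hPg : Syl p (cj g P) ⊤ := hP.cj_of_mem (le_normalizer (mem_top g))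
    have e : cj g (P : Subgroup H) ⊓ N = (Q : Subgroup N).map N.subtype :=
      hQ.maximal (hPg.isP.to_le inf_le_left) inf_le_right (le_inf hg hQ.le)
    refine ⟨fun h => ?_, fun n hn => ?_⟩
    · rw [h, Subgroup.map_bot] at hQ
      have := le_pPrimeCore (N := N) (hQ.eq_bot_iff.1 rfl)
      rw [hOp'] at this
      exact hN.2.1 (le_bot_iff.1 this)
    · have h1 : g⁻¹ * n * g ∉ normalizer ((P : Subgroup H) : Set H) := fun h => hn (by
        have h2 : (n : H) ∈ normalizer ((cj g (P : Subgroup H) : Subgroup H) : Set H) := by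
          rw [← cj_normalizer]; exact mem_cj.2 h
        have h3 : (n : H) ∈ normalizer (((Q : Subgroup N).map N.subtype : Subgroup H) : Set H) := by
          rw [← e]
          exact normalizer_inf (X := zpowers (n : H)) (zpowers_le.2 h2) le_normalizer_of_normal (mem_zpowers _)
        have h4 := (map_normalizer_subtype N (Q : Subgroup N)).ge ⟨n.2, h3⟩
        obtain ⟨m, hm, hmn⟩ := h4
        exact (Subtype.ext hmn : m = n) ▸ hm)
      have h5 := hTI _ h1
      rw [eq_bot_iff]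
      rintro x ⟨hx1, hx2⟩
      have hx3 : n⁻¹ * x * n ∈ (Q : Subgroup N) := mem_cj.1 hx2
      have a1 : (x : H) ∈ cj g (P : Subgroup H) := hg ⟨x, hx1, rfl⟩
      have a2 : ((n⁻¹ * x * n : N) : H) ∈ cj g (P : Subgroup H) := hg ⟨_, hx3, rfl⟩
      have : g⁻¹ * x * g ∈ (⊥ : Subgroup H) := by
        rw [← h5]
        refine ⟨mem_cj.1 a1, mem_cj.2 ?_⟩
        have := mem_cj.1 a2
        simpa [mul_assoc] using this
      rw [mem_bot] at this ⊢
      apply Subtype.ext
      have h6 : (x : H) = g * (g⁻¹ * x * g) * g⁻¹ := by group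
      rw [h6, this]; simp

end Cfsg.Agent.S4620
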