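import Cfsg.Statements.S4623
import Cfsg.Agent.H5.PW

set_option autoImplicit false
open Cfsg

namespace Cfsg.Agent.S4623

open H5.PW Equiv

/-- For every prime p and every n, a Sylow p-subgroup P of the symmetric group on n letters has P/P' elementary abelian (the p-th power of every element of P lies in the derived subgroup of P), and the same holds for a Sylow p-subgroup of the alternating group on n letters. -/
theorem result (p : ℕ) [Fact p.Prime] (n : ℕ) (P : Sylow p (Equiv.Perm (Fin n))) (Q : Sylow p (alternatingGroup (Fin n))) :
    (∀ x : (P : Subgroup (Equiv.Perm (Fin n))), x ^ p ∈ commutator (P : Subgroup (Equiv.Perm (Fin n)))) ∧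
    (∀ x : (Q : Subgroup (alternatingGroup (Fin n))), x ^ p ∈ commutator (Q : Subgroup (alternatingGroup (Fin n)))) := by
  refine ⟨ea_sym _ P, ?_⟩
  obtain ⟨φ, h1, h2, h3⟩ := exists_sym (p := p) (Fin n) default
  exact (EA.ker _ h2 (ea_sym _ _) fun f hf => by
    have : f ^ p = 1 := funext fun i => Multiplicative.toAdd.injective (by simp)
    refine (congrArg (· ∈ commutator _) ?_).mpr (one_mem _)
    exact Subtype.ext (by simp [← map_pow, this])).congr (sylow_ker Perm.sign _ (alternatingGroup _).subtype_injective (Subgroup.range_subtype _) φ h1 h3 Q).some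


end Cfsg.Agent.S4623
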