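import Cfsg.Statements.S4624
import Cfsg.Agent.H5.PW
import Cfsg.Agent.S0261
import Cfsg.Agent.S0244

set_option autoImplicit false
open Cfsg

namespace Cfsg.Agent.S4624

open H5 H5.PW Matrix QuaternionGroup

theorem ea_quat {k : ℕ} (hk : 1 ≤ k) : EA 2 (QuaternionGroup (2 ^ k)) := by
  have h : ∀ i, (a i : QuaternionGroup (2 ^ k)) ^ 2 ∈ commutator _ := fun i => by
    refine (congrArg (· ∈ commutator _) ?_).mpr (Subgroup.commutator_mem_commutator (Subgroup.mem_top (a i)) (Subgroup.mem_top (xa 0)))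
    rw [commutatorElement_def, eq_mul_inv_iff_mul_eq, eq_mul_inv_iff_mul_eq]; simp [sq]
  rintro (i | i)
  · exact h i
  · obtain ⟨k, rfl⟩ := Nat.exists_eq_add_of_le' hk
    convert h (2 ^ k : ℕ) using 1
    simp [sq, pow_succ]; ring_nf

theorem ea_sl {F : Type*} [Field F] [Fintype F] (hF : Odd (Fintype.card F)) (P : Sylow 2 (Matrix.SpecialLinearGroup (Fin 2) F)) : EA 2 P :=
  let ⟨_, h, ⟨e⟩⟩ := S0261.result hF P; (ea_quat h).congr e

/-- Let F be a finite field of odd order and n ≥ 1. A Sylow 2-subgroup P of the symplectic group Sp_{2n}(F) has P/P' elementary abelian: the square of every element of P lies in the derived subgroup of P. -/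
theorem result {F : Type*} [Field F] [Fintype F] (hF : Odd (Fintype.card F)) (n : ℕ) (hn : 1 ≤ n) (P : Sylow 2 (Matrix.symplecticGroup (Fin n) F)) :
    ∀ x : (P : Subgroup (Matrix.symplecticGroup (Fin n) F)), x ^ 2 ∈ commutator (P : Subgroup (Matrix.symplecticGroup (Fin n) F)) := by
  classical
  let e : Matrix.SpecialLinearGroup (Fin 2) F ≃* Matrix.SpecialLinearGroup (Fin 1 ⊕ Fin 1) F := slCongr (finSumFinEquiv (m := 1) (n := 1)).symm
  let ρ : Matrix.SpecialLinearGroup (Fin 2) F →* symplecticGroup (Fin 1) F :=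
    (Matrix.SpecialLinearGroup.coeMonoidHom.comp e.toMonoidHom).codRestrict _ fun g => (S0244.result _).2 (e g).2
  let Q : Sylow 2 (Matrix.SpecialLinearGroup (Fin 2) F) := default
  let T : Sylow 2 (Equiv.Perm (Fin n)) := default
  obtain ⟨φ, h⟩ := exists_sp (T := T) (α := Fin n) (n := n) one_ne_zero (by simp) (ρ.comp Q.1.subtype)
    fun a b h => Subtype.ext (e.injective (Subtype.ext (congrArg (fun x : symplecticGroup (Fin 1) F => x.1) h)))
  refine ((ea_sl hF Q).wr (ea_sym _ T)).congr (sylow_equiv φ h ?_ P).some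
  have h1 := Fintype.one_lt_card (α := F)
  have k := card_SL_mul (ι := Fin 2) (F := F)
  have : Nat.card (Matrix.SpecialLinearGroup (Fin 2) F) = spOrd (Fintype.card F) 1 := Nat.eq_of_mul_eq_mul_left (Nat.sub_pos_of_lt h1) (k.trans ((Fin.prod_univ_two _).trans (by
    simp [spOrd, sq, ← Nat.mul_sub_one]; ring)))
  rw [card_wr, card_sylow, card_sylow, Nat.card_congr (spEquiv n).toEquiv, Form.card_isom_symp rfl (sympF_nondeg n) (m := n) (by simp; ring), v_sp h1 hF,
    this, v_sp h1 hF, Nat.card_perm, ← pow_mul, ← pow_add]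
  simp [mul_comm]


end Cfsg.Agent.S4624
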