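import Cfsg.Statements.S4628
import Cfsg.Agent.S4624

set_option autoImplicit false
open Cfsg

namespace Cfsg.Agent.S4628

open H5 H5.PW Matrix

variable {F : Type*} [Field F] [Fintype F]

theorem ea_ker (hF : Odd (Fintype.card F)) (D : Sylow 2 (GL (Fin 2) F)) : EA 2 (GeneralLinearGroup.det.comp D.1.subtype).ker :=
  (S4624.ea_sl hF default).congr (sylow_ker _ _ Matrix.SpecialLinearGroup.toGL_injective range_toGL _ D.1.subtype_injective (card_sylow D) default).some.symm

theorem exists_d : ∃ (D : Sylow 2 (GL (Fin 2) F)) (d : CommGroup.primaryComponent Fˣ 2 →* D), (∀ c, GeneralLinearGroup.det (d c).1 = c) ∧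
    ∀ x : D, GeneralLinearGroup.det x.1 ∈ CommGroup.primaryComponent Fˣ 2 := by
  let d : Fˣ →* GL (Fin 2) F := MonoidHom.toHomUnits
    { toFun := fun c => !![c.1, 0; 0, 1], map_one' := one_fin_two.symm, map_mul' := fun a b => by simp }
  obtain ⟨D, h⟩ := ((CommGroup.primaryComponent.isPGroup (G := Fˣ) (p := 2)).map d).exists_le_sylow
  refine ⟨D, (d.comp (Subgroup.subtype _)).codRestrict _ fun c => h ⟨c, c.2, rfl⟩, fun c => Units.ext (by simp [d]), fun x => ?_⟩
  obtain ⟨k, e⟩ := D.2 x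
  exact ⟨k, by rw [← map_pow, ← Subgroup.coe_pow, e]; simp⟩

theorem sq_one (hq : 4 ∣ Fintype.card F + 1) (c : CommGroup.primaryComponent Fˣ 2) : c ^ 2 = 1 := by
  obtain ⟨k, e⟩ := CommGroup.primaryComponent.isPGroup c
  obtain ⟨j, -, h⟩ := (Nat.dvd_prime_pow Nat.prime_two).1 (orderOf_dvd_of_pow_eq_one e)
  have := (orderOf_dvd_natCard c.1).trans card_units_eq.dvd
  rw [Subgroup.orderOf_coe, h] at this
  have : j ≤ 1 := by_contra fun c => by have := (pow_dvd_pow 2 (show 2 ≤ j by omega)).trans this; omega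
  exact orderOf_dvd_iff_pow_eq_one.1 (h ▸ pow_dvd_pow 2 this)

/-- Let F be a finite field of odd order q with 4 dividing q + 1, and m ≥ 1. Then a Sylow 2-subgroup P of SL_{2m+1}(F) has P/P' elementary abelian: the square of every element of P lies in the derived subgroup of P. -/
theorem result {F : Type*} [Field F] [Fintype F] (hF : Odd (Fintype.card F)) (hq : 4 ∣ Fintype.card F + 1) (m : ℕ) (hm : 1 ≤ m) (P : Sylow 2 (Matrix.SpecialLinearGroup (Fin (2 * m + 1)) F)) :
    ∀ x : (P : Subgroup (Matrix.SpecialLinearGroup (Fin (2 * m + 1)) F)), x ^ 2 ∈ commutator (P : Subgroup (Matrix.SpecialLinearGroup (Fin (2 * m + 1)) F)) := by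
  obtain ⟨D, d, h1, h2⟩ := exists_d (F := F)
  have hD : EA 2 D := fun x => by
    have := ea_mul ((ea_ker hF D).map (Subgroup.subtype _) ⟨x * (d ⟨_, h2 x⟩)⁻¹, by simp [h1]⟩) (y := d ⟨_, h2 x⟩) (by
      rw [← map_pow, sq_one hq, map_one]; exact one_mem _)
    simpa using this
  obtain ⟨φ, k1, k2, -⟩ := exists_gl hF D (default : Sylow 2 (Equiv.Perm (Fin m))) (Fintype.card_fin m)
  let ψ : GL (Fin (2 * m)) F →* Matrix.SpecialLinearGroup (Fin (2 * m) ⊕ Fin 1) F :=
    { toFun := fun g => ⟨fromBlocks g.1 0 0 (scalar _ (GeneralLinearGroup.det g)⁻¹.1), by simp [g.det_ne_zero]⟩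
      map_one' := Subtype.ext (by simp), map_mul' := fun a b => Subtype.ext (by change fromBlocks _ _ _ _ = fromBlocks _ _ _ _ * fromBlocks _ _ _ _; simp [fromBlocks_multiply, mul_comm]) }
  refine (hD.wr (ea_sym _ _)).congr (sylow_equiv ((slCongr finSumFinEquiv).toMonoidHom.comp (ψ.comp φ)) ((slCongr _).injective.comp
    fun a b e => k1 (Units.ext (fromBlocks_inj.1 (congrArg Subtype.val e)).1)) (k2.trans (congrArg _ ?_)) P).some
  have h := Fintype.one_lt_card (α := F)
  have := v_gl_succ hF (2 * m)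
  rw [← card_SL_mul_eq_card_GL, padicValNat.mul (by omega) Nat.card_pos.ne', v_odd h hF (by simp)] at this
  omega


end Cfsg.Agent.S4628
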