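import Cfsg.Statements.S4627
import Cfsg.Agent.S4628

set_option autoImplicit false
open Cfsg

namespace Cfsg.Agent.S4627

open H5 H5.PW Matrix SemidirectProduct

/-- Let F be a finite field of odd order q and m ≥ 1. If 4 divides q + 1, or if 4 divides q − 1 and m is a power of 2, then a Sylow 2-subgroup P of SL_{2m}(F) has P/P' elementary abelian: the square of every element of P lies in the derived subgroup of P. -/
theorem result {F : Type*} [Field F] [Fintype F] (hF : Odd (Fintype.card F)) (m : ℕ) (hm : 1 ≤ m)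
    (hq : 4 ∣ Fintype.card F + 1 ∨ (4 ∣ Fintype.card F - 1 ∧ ∃ j : ℕ, m = 2 ^ j)) (P : Sylow 2 (Matrix.SpecialLinearGroup (Fin (2 * m)) F)) :
    ∀ x : (P : Subgroup (Matrix.SpecialLinearGroup (Fin (2 * m)) F)), x ^ 2 ∈ commutator (P : Subgroup (Matrix.SpecialLinearGroup (Fin (2 * m)) F)) := by
  classical
  obtain ⟨D, d, h1, h2⟩ := S4628.exists_d (F := F)
  have := NeZero.mk (show m ≠ 0 by omega)
  obtain ⟨T, hT⟩ : ∃ T : Sylow 2 (Equiv.Perm (Multiplicative (ZMod m))), (∃ j, m = 2 ^ j) → ∀ a, ∃ t : T, t • (1 : Multiplicative (ZMod m)) = a := by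
    by_cases c : ∃ j, m = 2 ^ j
    · obtain ⟨j, c⟩ := c
      obtain ⟨T, h⟩ := ((IsPGroup.of_card (G := Multiplicative (ZMod m)) (by simpa using c)).of_surjective _
        (MulAction.toPermHom _ (Multiplicative (ZMod m))).rangeRestrict_surjective).exists_le_sylow
      exact ⟨T, fun _ a => ⟨⟨_, h ⟨a, rfl⟩⟩, mul_one a⟩⟩
    · exact ⟨default, (absurd · c)⟩
  obtain ⟨φ, k1, k2, k3, k4⟩ := exists_gl hF D T (m := m) (by simp)
  refine (EA.ker _ k3 (ea_sym _ T) fun f hf => ?_).congr (sylow_ker _ _ Matrix.SpecialLinearGroup.toGL_injective range_toGL φ k1 k2 P).some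
  let C := CommGroup.primaryComponent Fˣ 2
  let K := (GeneralLinearGroup.det.comp φ).ker
  let θ : (Multiplicative (ZMod m) → C) →* Wr D T (Multiplicative (ZMod m)) := inl.comp (d.compLeft _)
  have hθ : ∀ g, ∏ a, g a = 1 → θ g ∈ K := fun g h => (k4 _).trans (by simpa [h1] using congrArg Subtype.val h)
  let w : Multiplicative (ZMod m) → C := fun a => ⟨_, h2 (f a)⟩
  have hw : ∏ a, w a = 1 := Subtype.ext (by simpa using (k4 f).symm.trans hf)
  let ψ := (inl.comp ((GeneralLinearGroup.det.comp D.1.subtype).ker.subtype.compLeft _)).codRestrict K fun g =>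
    (k4 _).trans (Finset.prod_eq_one fun a _ => (g a).2)
  have := ea_mul ((S4628.ea_ker hF D).pi.map ψ fun a => ⟨f a * (d (w a))⁻¹, by simp [h1, w]⟩) (y := ⟨θ w, hθ w hw⟩) ?_
  · refine (congrArg (· ^ 2 ∈ commutator K) (Subtype.ext ((map_mul inl _ _).symm.trans (congrArg inl (funext fun a => ?_))))).mp this
    exact inv_mul_cancel_right (f a) _
  rcases hq with hq | ⟨-, hq⟩
  · exact (congrArg (· ∈ commutator K) (Subtype.ext (by
      rw [Subgroup.coe_pow, ← map_pow, show w ^ 2 = 1 from funext fun a => S4628.sq_one hq _, map_one]; rfl))).mpr (one_mem _)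
  let r : (Multiplicative (ZMod m) → C) →* (Multiplicative (ZMod m) → C) :=
    .id _ / (MonoidHom.mulSingle (fun _ => C) 1).comp (∏ a, Pi.evalMonoidHom _ a)
  have hr : ∀ g, r g = g / Pi.mulSingle 1 (∏ a, g a) := fun g => by simp [r]
  let η := Abelianization.of.comp ((θ.comp r).codRestrict K fun g => hθ _ (by simp [hr]))
  have hη : ∀ g h, η g = .of ⟨θ g, hθ g h⟩ := fun g h => congrArg Abelianization.of (Subtype.ext (congrArg θ (by simp [hr, h])))
  have k : ∀ a c, η (Pi.mulSingle a c) ^ 2 = 1 := fun a c => by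
    have e1 : η (Pi.mulSingle 1 c) = 1 := (congrArg Abelianization.of (Subtype.ext ((congrArg θ (by simp [hr])).trans θ.map_one))).trans (map_one _)
    let δ : T →* Abelianization K := .mk' (fun t => η (Pi.mulSingle (t • 1) c)) fun s t => by
      have : η (Pi.mulSingle ((s * t) • 1) c / Pi.mulSingle (s • 1) c) = η (Pi.mulSingle (t • 1) c / Pi.mulSingle 1 c) := by
        rw [hη _ (by simp), hη _ (by simp), ← isConj_iff_eq]
        refine Abelianization.of.map_isConj (isConj_iff.2 ⟨⟨inr s, k3 s⟩, Subtype.ext ?_⟩).symm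
        refine ((congrArg _ (map_inv inr s).symm).trans (inl_aut s _).symm).trans (congrArg inl (funext fun i => ?_))
        change d (_ / _) = d (_ / _)
        simp [Pi.mulSingle_apply, inv_smul_eq_iff, mul_smul]
      rw [map_div, map_div, e1, div_one, div_eq_iff_eq_mul'] at this
      exact this
    obtain ⟨t, rfl⟩ := hT hq a
    exact (map_pow δ t 2).symm.trans (Abelianization.commutator_subset_ker δ (ea_sym _ T t))
  rw [ea_iff, ← hη w hw, ← Finset.univ_prod_mulSingle w, map_prod, ← Finset.prod_pow]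
  exact Finset.prod_eq_one fun a _ => k a _


end Cfsg.Agent.S4627
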