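import Cfsg.Statements.S4706
import Cfsg.Agent.H3.Dtwo
import Cfsg.Agent.S4702
import Cfsg.Agent.S1013
import Cfsg.Agent.S0676
import Cfsg.Agent.S0157

set_option autoImplicit false
open Cfsg

namespace Cfsg.Agent.S4706

open H3

/-- Let p > 2 be a prime and G a permutation group on p letters whose Sylow p-subgroup P has normalizer of order 2p. Then either P is normal in G, or p − 1 = 2^a for some a and G is isomorphic to SL(2, 2^a). -/
theorem result {α : Type*} [Fintype α] [DecidableEq α] {p : ℕ} [Fact p.Prime] (hp : 2 < p) (hα : Fintype.card α = p) (G : Subgroup (Equiv.Perm α)) (P : Sylow p G) (hN : Nat.card (Subgroup.normalizer ((P : Subgroup G) : Set G)) = 2 * p) : (P : Subgroup G).Normal ∨ ∃ (a : ℕ) (F : Type) (_ : Field F) (_ : Fintype F), p = 2 ^ a + 1 ∧ Fintype.card F = 2 ^ a ∧ Nonempty (G ≃* Matrix.SpecialLinearGroup (Fin 2) F) := by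
  refine or_iff_not_imp_left.2 fun hn => ?_
  have hp' : p.Prime := Fact.out
  have := Fintype.ofFinite G
  have hα' := Nat.card_eq_fintype_card.trans hα
  have h2 : 2 * p ∣ Nat.card G := hN ▸ Subgroup.card_subgroup_dvd_card _
  have h5 : 5 ≤ p := hp'.five_le_of_ne_two_of_ne_three hp.ne' fun e => hn (by
    refine Subgroup.normalizer_eq_top_iff.1 (Subgroup.eq_top_of_card_eq _ (Nat.dvd_antisymm
      (Subgroup.card_subgroup_dvd_card _) ?_))
    have := Subgroup.card_subgroup_dvd_card G
    rwa [Nat.card_perm, hα', e, show Nat.factorial 3 = 2 * 3 from rfl, ← e, ← hN] at this)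
  have hG := (dvd_mul_left p 2).trans h2
  obtain ⟨c, hc⟩ := exists_prime_orderOf_dvd_card' p hG
  obtain ⟨a, ha⟩ : ∃ a : α, c • a ≠ a := by
    by_contra! e
    exact H1.ne_one_of_orderOf_prime hp' hc (Subtype.ext (Equiv.ext e))
  obtain ⟨e, he⟩ := PM.coord_of hc hα' ha
  have : MulAction.IsPretransitive G α := ⟨fun u v =>
    let ⟨g, hg⟩ := (PM.tr_coord he).exists_smul_eq u v; ⟨g, hg⟩⟩
  have i2 := H1.card_mul_relIndex (Subgroup.le_normalizer (H := (P : Subgroup G)))
  rw [(PM.card_norm hα' P).1, hN, mul_comm] at i2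
  have := Cfsg.Agent.S1013.result hα G P (by
    rw [P.card_eq_index_normalizer]
    exact Subgroup.one_lt_index_of_ne_top fun e => hn (Subgroup.normalizer_eq_top_iff.1 e))
    ((Nat.eq_of_mul_eq_mul_right hp'.pos i2 : Subgroup.relIndex _ _ = 2) ▸ Nat.prime_two :
      (Subgroup.relIndex _ _).Prime)
  have hq : ¬ (Nat.card G).Prime := fun e =>
    Nat.not_prime_mul (by omega) (by omega) (((Nat.dvd_prime e).1 h2).resolve_left (by omega) ▸ e)
  have h3 := Cfsg.Agent.S0676.result hα G (mt H1.prime_card_of_solvable hq) P (hN ▸ even_two_mul p)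
  obtain ⟨x, h, hP⟩ := exists_d2 P h5 hG hN (H1.not_norm_le_cent hq hG P)
  have hχ := (Cfsg.Agent.S0157.result (G := G) α (by omega)).2
    (MulAction.isMultiplyPretransitive_of_le (n := 3) (by simp) (by omega))
  have reg : ∀ (g : G) (a : α), g • a = a → ¬ p ∣ orderOf g := fun g a hg e =>
    P.not_dvd_index (by
      have e1 := (MulAction.stabilizer G a).card_mul_index
      rw [MulAction.index_stabilizer_of_transitive, hα', ← (P : Subgroup G).index_mul_card,
        (PM.card_norm hα' P).1] at e1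
      exact Nat.eq_of_mul_eq_mul_right hp'.pos e1 ▸ e.trans (H1.orderOf_dvd_card_of_mem hg))
  obtain ⟨a, -, h6, F, _, _, h7⟩ := Cfsg.Agent.S4702.result (by omega)
    (hα ▸ hp'.odd_of_ne_two hp.ne') G h3 fun g hg => by
      obtain ⟨⟨b, hb⟩⟩ := (Nat.card_pos_iff.1 (by omega : 0 < Nat.card (MulAction.fixedBy α g))).1
      have q := h.quad hχ (fun y hy h1 => by
        have : IsEmpty (MulAction.fixedBy α y) := ⟨fun a => h1 (h.toSC.eq_one hy (reg y a a.2))⟩
        simp) (by simp [hα]) (reg g b hb)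
      have l1 : Nat.card (MulAction.fixedBy α g) ≤ Nat.card (MulAction.fixedBy α (g * g)) :=
        Nat.card_mono (Set.toFinite _) fun a (ha : g • a = a) => show _ = _ by rw [mul_smul, ha, ha]
      have l2 : p ≤ Nat.card (MulAction.fixedBy α g) := by
        generalize Nat.card (MulAction.fixedBy α g) = u at *
        generalize Nat.card (MulAction.fixedBy α (g * g)) = v at *
        have : ((u : ℤ) - 1 - 1) ^ 2 - (v - 1 - 1) = (p - 3) * (u - 1 - 1) := by exact_mod_cast q
        nlinarith
      have := Set.eq_of_subset_of_ncard_le (Set.subset_univ (MulAction.fixedBy α g))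
        (by rw [Set.ncard_univ, hα']; exact l2)
      exact Subtype.ext (Equiv.ext fun a => this.ge (Set.mem_univ a))
  exact ⟨a, F, _, _, hα ▸ h6, h7⟩

end Cfsg.Agent.S4706
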