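import Cfsg.Statements.S4741
import Cfsg.Agent.H4.Maj2

set_option autoImplicit false
open Cfsg

namespace Cfsg.Agent.S4741

open H4 H1 MonoidAlgebra
open scoped Pointwise


/-- Let p be a prime, M a maximal ideal of the algebraic integers containing p, and D a subgroup of the finite group G. Let x₁, …, x_r be pairwise non-conjugate elements of G such that D is a Sylow p-subgroup of the centralizer of each xᵢ, and such that for any conjugates g of some xᵢ and h of some xⱼ the element g h⁻¹ is never a non-identity p-element. Then there are r distinct p-blocks B₁, …, B_r of G, each having D as a defect group, such that for every choice of characters χᵢ ∈ Bᵢ of height zero the determinant of the r × r matrix (χᵢ(xⱼ)) does not lie in the local ideal at M. -/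
theorem result {G : Type*} [Group G] [Finite G] (p : ℕ) [Fact p.Prime] (M : Ideal Cfsg.AlgInt) (hM : Cfsg.IsPModular p M) (D : Subgroup G) {r : ℕ} (x : Fin r → G) (hx : ∀ i j : Fin r, IsConj (x i) (x j) → i = j) (hD : ∀ i : Fin r, ∃ S : Sylow p ↥(Subgroup.centralizer ({x i} : Set G)), (S : Subgroup ↥(Subgroup.centralizer ({x i} : Set G))).map (Subgroup.centralizer ({x i} : Set G)).subtype = D) (hsep : ∀ i j : Fin r, ∀ g h : G, IsConj (x i) g → IsConj (x j) h → ∀ k : ℕ, 0 < k → orderOf (g * h⁻¹) ≠ p ^ k) : ∃ B : Fin r → Set (Cfsg.IrrCharacter G), Function.Injective B ∧ (∀ i : Fin r, Cfsg.IsPBlock M (B i) ∧ Cfsg.IsDefectGroup p M (B i) D) ∧ ∀ χ : Fin r → Cfsg.IrrCharacter G, (∀ i : Fin r, χ i ∈ B i ∧ Cfsg.blockHeight p (B i) (χ i : G → ℂ) = 0) → ¬ Cfsg.MemLocalIdeal M (Matrix.det (Matrix.of fun i j : Fin r => (χ i : G → ℂ) (x j))) := by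
  classical
  have hD' : ∀ i, IsSylowIn p D (C1 (x i)) := fun i => by
    obtain ⟨S, h⟩ := hD i; exact h ▸ isSylowIn_map_subtype S
  obtain ⟨B, h1, h2, h3⟩ := sep_blocks hM x hx hD' fun i j g hg h => by
    obtain ⟨k, hk⟩ := h
    rcases k.eq_zero_or_pos with rfl | h0
    · simpa [mul_inv_eq_one] using hk
    · exact absurd hk (hsep j i g _ hg (IsConj.refl _) k h0)
  refine ⟨B, h1, h2, fun χ hχ => ?_⟩
  have hp : p.Prime := Fact.out
  have hO : ∀ i j, (Matrix.of fun i j : Fin r => (χ i).1 (x j)) i j ∈ O M := fun i j => irr_mem_O _ _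
  rw [memLocalIdeal_iff hM (det_mem_Alg (A := Matrix.of fun i j => (χ i).1 (x j)) fun i j => irr_mem_Alg _ _)
    (red_det hO).1, (red_det hO).2]
  set m := (Nat.card G).factorization p - (Nat.card D).factorization p
  have a1 : ∀ j, red M (((p ^ m : ℕ) : ℂ) / (C1 (x j)).index) ≠ 0 := fun j => by
    rw [red_natCast_div_ne_zero_iff hM (pow_pos hp.pos _).ne' Subgroup.index_ne_zero_of_finite, hp.factorization_pow,
      Finsupp.single_eq_same]
    have := factorization_index_add (p := p) (C1 (x j))
    have := factorization_of_sylow (hD' j)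
    omega
  have a2 : ∀ i, red M ((χ i).1 1 / (p ^ m : ℕ)) ≠ 0 := fun i => by
    rw [irr_one_eq, red_natCast_div_ne_zero_iff hM (charDegree_ne_zero (χ i).2) (pow_pos hp.pos _).ne',
      hp.factorization_pow, Finsupp.single_eq_same]
    have := nu_add_blockDefect (p := p) (hχ i).1
    have := dg_factorization hM (h2 i).1 (h2 i).2
    have := (hχ i).2
    unfold nu at *
    omega
  have : (Matrix.of fun i j : Fin r => (χ i).1 (x j)).map (red M) = Matrix.of fun i j =>
      red M ((χ i).1 1 / (p ^ m : ℕ)) * (Matrix.of fun i j => red M (((p ^ m : ℕ) : ℂ) / (C1 (x j)).index) *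
        (Matrix.of fun i j => lamB M (B i) (cls (k M) (x j))) i j) i j := by
    ext i j
    simp only [Matrix.map_apply, Matrix.of_apply]
    rw [red_irr_eq hM (h2 i).1 (hχ i).1 (by rw [← dg_factorization hM (h2 i).1 (h2 i).2,
      factorization_of_sylow (hD' j)]), ← mul_assoc, ← red_mul (mem_O_of_red_ne_zero (a2 i))
      (mem_O_of_red_ne_zero (a1 j)), mul_comm, div_mul_div_cancel₀ (q_ne_zero m)]
  rw [this, Matrix.det_mul_column, Matrix.det_mul_row]
  exact mul_ne_zero (Finset.prod_ne_zero_iff.2 fun i _ => a2 i)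
    (mul_ne_zero (Finset.prod_ne_zero_iff.2 fun i _ => a1 i) h3)

end Cfsg.Agent.S4741
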