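import Cfsg.Statements.S4743
import Cfsg.Agent.H4.DZ
import Cfsg.Agent.H4.Quot
import Cfsg.Agent.H1.Hall
import Cfsg.Agent.H1.Cores

set_option autoImplicit false
open Cfsg

namespace Cfsg.Agent.S4743

open H4 H1 MonoidAlgebra
open scoped Pointwise


/-- Let p ≠ q be primes dividing the order of the finite group G, suppose the centralizer of every non-identity p-element has order prime to q, and suppose G is p-solvable or q-solvable. Then G has an irreducible character of p-defect zero or an irreducible character of q-defect zero. -/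
theorem result {G : Type*} [Group G] [Finite G] (p q : ℕ) [Fact p.Prime] [Fact q.Prime] (hppq : p ≠ q) (hpG : p ∣ Nat.card G) (hqG : q ∣ Nat.card G) (hC : ∀ g : G, g ≠ 1 → (∃ k : ℕ, orderOf g = p ^ k) → ¬ q ∣ Nat.card ↥(Subgroup.centralizer ({g} : Set G))) (hsolv : Cfsg.IsPSolvable p G ∨ Cfsg.IsPSolvable q G) : (∃ χ : Cfsg.IrrCharacter G, (Cfsg.charDegree (χ : G → ℂ)).factorization p = (Nat.card G).factorization p) ∨ (∃ χ : Cfsg.IrrCharacter G, (Cfsg.charDegree (χ : G → ℂ)).factorization q = (Nat.card G).factorization q) := by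
  have key : ∀ (p q : ℕ) [Fact p.Prime] [Fact q.Prime], p ∣ Nat.card (pPrimeCore q G) → (∀ g : G, g ≠ 1 → IsPElt q g →
      ¬ p ∣ Nat.card (C1 g)) → DZ q G := fun p q _ _ h1 h2 => by
    obtain ⟨z, hz⟩ := exists_prime_orderOf_dvd_card' p h1
    rw [← Subgroup.orderOf_coe] at hz
    refine (dz_or (not_dvd_C1 h2 hz.symm.dvd)).resolve_right fun ⟨g, h, h3, h4, h5, h6⟩ => h5 (h6.eq_one Fact.out ?_)
    obtain ⟨a, rfl⟩ := isConj_iff.1 h3
    obtain ⟨b, rfl⟩ := isConj_iff.1 h4
    exact not_dvd_orderOf_of_mem H1.not_dvd_card_pPrimeCore (mul_mem (Subgroup.Normal.conj_mem inferInstance _ z.2 a)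
      (inv_mem (Subgroup.Normal.conj_mem inferInstance _ z.2 b)))
  have key2 : ∀ (p q : ℕ) [Fact p.Prime] [Fact q.Prime], p ≠ q → p ∣ Nat.card G → (∀ g : G, g ≠ 1 → IsPElt q g →
      ¬ p ∣ Nat.card (C1 g)) → (∀ g : G, g ≠ 1 → IsPElt p g → ¬ q ∣ Nat.card (C1 g)) → IsPSolvable p G → DZ p G ∨ DZ q G :=
    fun p q hp hq hpq h0 h1 h2 h3 => by
    by_cases h4 : q ∣ Nat.card (pPrimeCore p G)
    · exact .inl (key q p h4 h2)
    refine .inr (key p q ?_ h1)
    obtain ⟨N, h5, h6, h7⟩ := exists_normal_of_isPSolvable h3 _ (QuotientGroup.mk'_surjective (pPrimeCore p G))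
      (QuotientGroup.nontrivial_iff.2 fun e => H1.not_dvd_card_pPrimeCore (p := p) (G := G) (by rwa [e, Subgroup.card_top]))
    have h8 : Nat.card (N.comap (QuotientGroup.mk' (pPrimeCore p G))) = Nat.card N * Nat.card (pPrimeCore p G) := by
      rw [← card_map_mul (QuotientGroup.mk' (pPrimeCore p G)) (Subgroup.ker_le_comap _ N),
        Subgroup.map_comap_eq_self_of_surjective (QuotientGroup.mk'_surjective _), QuotientGroup.ker_mk']
    rcases h7 with h7 | h7
    · obtain ⟨n, hn⟩ := h7.exists_card_eq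
      refine Dvd.dvd.trans ?_ (Subgroup.card_dvd_of_le (H1.le_pPrimeCore (N := N.comap (QuotientGroup.mk' (pPrimeCore p G))) ?_))
      · exact h8 ▸ (h7.card_eq_or_dvd.resolve_left (mt Subgroup.card_eq_one.1 h6)).mul_right _
      · rw [h8, hn]
        exact (((Nat.coprime_primes hp.out hq.out).2 hpq).pow_left n).mul_left ((hq.out.coprime_iff_not_dvd.2 h4).symm)
    · refine (h6 ?_).elim
      rw [← Subgroup.map_comap_eq_self_of_surjective (QuotientGroup.mk'_surjective (pPrimeCore p G)) N, Subgroup.map_eq_bot_iff,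
        QuotientGroup.ker_mk']
      exact H1.le_pPrimeCore (h8 ▸ h7.mul_left H1.pPrimeCore_coprime)
  have hC' : ∀ g : G, g ≠ 1 → IsPElt q g → ¬ p ∣ Nat.card (C1 g) := fun g h1 h2 =>
    not_dvd_C1 hC (by_contra fun e => h1 (h2.eq_one Fact.out e))
  rcases hsolv with h | h
  · exact key2 p q hppq hpG hC' hC h
  · exact (key2 q p hppq.symm hqG hC hC' h).symm

end Cfsg.Agent.S4743
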