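import Cfsg.Statements.S4746
import Cfsg.Agent.H4.DZ

set_option autoImplicit false
open Cfsg

namespace Cfsg.Agent.S4746

open H4 H1 MonoidAlgebra
open scoped Pointwise


/-- Let p be an odd prime and G a finite group of even order divisible by p in which the centralizer of every non-identity p-element has odd order. Then G has an irreducible character of p-defect zero or an irreducible character of even degree. -/
theorem result {G : Type*} [Group G] [Finite G] (p : ℕ) [Fact p.Prime] (hp2 : p ≠ 2) (hpG : p ∣ Nat.card G) (h2G : 2 ∣ Nat.card G) (hC : ∀ g : G, g ≠ 1 → (∃ k : ℕ, orderOf g = p ^ k) → Odd (Nat.card ↥(Subgroup.centralizer ({g} : Set G)))) : (∃ χ : Cfsg.IrrCharacter G, (Cfsg.charDegree (χ : G → ℂ)).factorization p = (Nat.card G).factorization p) ∨ ∃ χ : Cfsg.IrrCharacter G, Even (Cfsg.charDegree (χ : G → ℂ)) := by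
  refine or_iff_not_imp_left.2 fun h0 => ?_
  obtain ⟨s, hs⟩ := exists_prime_orderOf_dvd_card' 2 h2G
  obtain ⟨h1, t, -, h⟩ := exists_inv_sylow hp2 (fun g h1 h2 => (hC g h1 h2).not_two_dvd_nat) h0 hs (default : Sylow p G)
  obtain ⟨⟨z, hz⟩, h6⟩ := Subgroup.ne_bot_iff_exists_ne_one.1 h1
  have h2 : z ≠ 1 := fun e => h6 (Subtype.ext e)
  have h3 := hC z h2 (isPElt_of_mem Fact.out (default : Sylow p G).isPGroup' hz)
  obtain ⟨M, hM⟩ := exists_isPModular Nat.prime_two
  by_contra! hc
  have h4 := congrArg (red M) (H3.column_orth z z)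
  have h5 := congrArg (red M) (H3.column_orth z 1)
  have := charP_k hM
  rw [if_pos (IsConj.refl z), red_natCast, red_sum _ _ fun χ _ => mul_mem (irr_mem_O χ z) (conj_irr_mem_O χ z),
    Finset.sum_congr rfl fun χ _ => by
      rw [← irr_inv, ← h z hz, H3.irr_class χ.2, red_mul (irr_mem_O χ z) (irr_mem_O χ z), ← sq]] at h4
  rw [if_neg (by simpa using h2), red_zero, red_sum _ _ fun χ _ => mul_mem (irr_mem_O χ z) (conj_irr_mem_O χ 1),
    Finset.sum_congr rfl (g := fun χ => red M (χ.1 z)) fun χ _ => by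
      obtain ⟨n, hn⟩ := Nat.not_even_iff_odd.1 (hc χ)
      rw [red_mul (irr_mem_O χ z) (conj_irr_mem_O χ 1), irr_one_eq, map_natCast, red_natCast, hn, Nat.cast_add, Nat.cast_one, Nat.cast_mul,
        p_eq_zero hM, zero_mul, zero_add, mul_one]] at h5
  rw [← sum_pow_char, h5, zero_pow two_ne_zero, eq_comm, natCast_eq_zero_iff hM] at h4
  exact h3.not_two_dvd_nat h4

end Cfsg.Agent.S4746
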