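import Cfsg.Statements.S4748
import Cfsg.Agent.H3.Chr2
import Cfsg.Agent.S0016
import Cfsg.Agent.S0058
import Cfsg.Agent.L.PG3

set_option autoImplicit false
open scoped Pointwise
open Cfsg

namespace Cfsg.Agent.S4748

theorem big {P : Type*} [Group P] [Finite P] {p : ℕ} [hp : Fact p.Prime] (hP : IsPGroup p P)
    (h : ∀ A : Subgroup P, IsMulCommutative A → IsCyclic A) :
    Nat.card P ≤ 2 ∨ ∃ s : P, ∀ d, orderOf s ≤ d + 1 → Nat.card P < d ^ 2 := by
  have hel : ∀ B : Subgroup P, Nat.card B = p → Cfsg.IsElementaryAbelian p B := fun B hB => by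
    have : IsCyclic B := isCyclic_of_prime_card hB
    obtain ⟨b, -, rfl⟩ := H1.exists_eq_zpowers_of_isCyclic (A := B) inferInstance
    exact L.isElem_zpowers (by rw [Nat.card_zpowers] at hB; exact orderOf_dvd_iff_pow_eq_one.1 hB.dvd)
  have key : ∀ A Z : Subgroup P, Nat.card A = p → Nat.card Z = p → Z ≤ Subgroup.center P →
      A = Z := fun A Z hA hZ hZc => by
    have h1 := L.isElem_sup (hel A hA) (hel Z hZ)
      (Subgroup.le_centralizer_iff.1 (hZc.trans (Subgroup.center_le_centralizer _)))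
    have h4 : Nat.card (A ⊔ Z : Subgroup P) ≤ p := by
      by_contra h'
      exact L.not_isCyclic_of_elem h1 (not_le.1 h') (h _ h1.1)
    rw [Subgroup.eq_of_le_of_card_ge (le_sup_left : A ≤ A ⊔ Z) (h4.trans hA.ge)]
    exact (Subgroup.eq_of_le_of_card_ge (le_sup_right : Z ≤ A ⊔ Z) (h4.trans hZ.ge)).symm
  rcases subsingleton_or_nontrivial P with _ | _
  · left; simp [Nat.card_unique]
  have hZ : p ∣ Nat.card (Subgroup.center P) := by
    have := hP.center_nontrivial
    obtain ⟨n, hn, e⟩ := (hP.to_subgroup (Subgroup.center P)).nontrivial_iff_card.1 inferInstance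
    exact e ▸ dvd_pow_self p hn.ne'
  obtain ⟨z, hz⟩ := exists_prime_orderOf_dvd_card' p hZ
  have h1 : Nat.card (Subgroup.zpowers (z : P)) = p := by
    rw [Nat.card_zpowers, Subgroup.orderOf_coe, hz]
  rcases S0016.result p hP fun A B hA hB => by
    rw [key A _ hA h1 (Subgroup.zpowers_le.2 z.2), key B _ hB h1 (Subgroup.zpowers_le.2 z.2)]
    with c | ⟨-, n, ⟨e⟩⟩
  · obtain ⟨s, hs⟩ := c.exists_ofOrder_eq_natCard
    refine (le_or_gt _ 2).imp_right fun h => ⟨s, fun d hd => ?_⟩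
    rw [hs] at hd
    nlinarith
  · right
    rw [Nat.card_congr e.toEquiv, Nat.card_eq_fintype_card, QuaternionGroup.card]
    rcases n with _ | n
    · refine ⟨e.symm (.xa 0), fun d hd => ?_⟩
      rw [e.symm.orderOf_eq, QuaternionGroup.orderOf_xa] at hd
      nlinarith
    · refine ⟨e.symm (.a 1), fun d hd => ?_⟩
      rw [e.symm.orderOf_eq, QuaternionGroup.orderOf_a_one] at hd
      have : 2 ≤ 2 ^ (n + 1) := le_self_pow₀ (by norm_num) (by simp)
      nlinarith

/-- Let G be a finite p-solvable group whose Sylow p-subgroup P meets each conjugate g P g⁻¹ with g outside N_G(P) trivially, and let χ be a faithful character of G (χ g = χ 1 only for g = 1) whose degree d satisfies d² ≤ |P|. Then P is normal in G. -/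
theorem result {G : Type*} [Group G] [Finite G] (p : ℕ) [Fact p.Prime] (hsolv : Cfsg.IsPSolvable p G) (P : Sylow p G) (hTI : ∀ g : G, g ∉ Subgroup.normalizer ((P : Subgroup G) : Set G) → (P : Subgroup G) ⊓ (MulAut.conj g • (P : Subgroup G)) = ⊥) (χ : G → ℂ) (hχ : Cfsg.IsCharacter G χ) (hfaith : ∀ g : G, χ g = χ 1 → g = 1) (hdeg : Cfsg.charDegree χ ^ 2 ≤ Nat.card ↥(P : Subgroup G)) : (P : Subgroup G).Normal := by
  classical
  by_contra hn
  have hp : p.Prime := Fact.out
  obtain ⟨g, hg⟩ : ∃ g, g ∉ Subgroup.normalizer ((P : Subgroup G) : Set G) := by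
    by_contra! h; exact hn (Subgroup.normalizer_eq_top_iff.1 (Subgroup.eq_top_iff' _ |>.2 h))
  have h0 : pCore p G = ⊥ := eq_bot_iff.2 (hTI g hg ▸ le_inf (H1.pCore_le_sylow P)
    (H1.pCore_le_sylow (g • P)))
  set K := pPrimeCore p G
  have hK : ∀ A ≤ (P : Subgroup G), (Nat.card A).Coprime (Nat.card K) := fun A h =>
    H1.isPGroup_coprime (P.2.to_le h) H1.pPrimeCore_coprime
  have h1 : ∀ x ∈ (P : Subgroup G), x ≠ 1 → ∀ k ∈ K, k * x = x * k →
      ∀ y ∈ (P : Subgroup G), k * y = y * k := fun x hx h k hk e y hy => by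
    have a : k ∈ Subgroup.normalizer ((P : Subgroup G) : Set G) := by
      by_contra c
      exact h (Subgroup.mem_bot.1 (hTI k c ▸ Subgroup.mem_inf.2 ⟨hx, ⟨x, hx, by simp [e]⟩⟩))
    have : k * y * k⁻¹ * y⁻¹ = 1 := Subgroup.disjoint_def.1
      (Subgroup.disjoint_of_coprime_natCard (hK _ le_rfl))
      ((P : Subgroup G).mul_mem (H1.conj_mem_of_mem_normalizer a hy) (Subgroup.inv_mem _ hy))
      (by simpa [mul_assoc] using K.mul_mem hk ((inferInstance : K.Normal).conj_mem _
        (K.inv_mem hk) y))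
    exact mul_inv_eq_iff_eq_mul.1 (mul_inv_eq_one.1 this)
  have h2 : ∀ x ∈ (P : Subgroup G), x ≠ 1 → ∃ k ∈ K, k * x ≠ x * k := fun x hx h => by
    by_contra! c
    exact h (Subgroup.disjoint_def.1 (Subgroup.disjoint_of_coprime_natCard (hK _ le_rfl)) hx
      (H3.cent_pPrimeCore_le hsolv h0 c))
  rcases big P.2 fun A hA => by
    by_contra c
    have e := (A.equivMapOfInjective _ (P : Subgroup G).subtype_injective)
    have := S0058.result (A.map (P : Subgroup G).subtype) K (fun h => c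
      (isCyclic_of_surjective _ e.symm.surjective)) Subgroup.le_normalizer_of_normal
      (hK _ (Subgroup.map_subtype_le _))
    obtain ⟨x, hx⟩ := Subgroup.ne_bot_iff_exists_ne_one.1 fun h : A = ⊥ => c (h ▸ inferInstance)
    obtain ⟨k, a, b⟩ := h2 x x.1.2 fun h => hx (Subtype.ext (Subtype.ext h))
    have d : K ≤ Subgroup.centralizer {((x : (P : Subgroup G)) : G)} := this ▸ iSup₂_le
      fun y hy k hk => Subgroup.mem_centralizer_singleton_iff.2 (h1 y (Subgroup.map_subtype_le _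
        hy.1) hy.2 k hk.1 (Subgroup.mem_centralizer_singleton_iff.1 hk.2) _ x.1.2)
    exact b (Subgroup.mem_centralizer_singleton_iff.1 (d a))
    with c | ⟨s, hs⟩
  · refine hn ⟨fun n h x => ?_⟩
    rwa [H3.comm_of_deg_lt hχ hfaith (fun q hq _ => by nlinarith [hq.two_le]) x n,
      mul_inv_cancel_right]
  by_cases h3 : s = 1
  · simpa [h3] using hs 0
  obtain ⟨k, a, b⟩ := h2 s s.2 fun h => h3 (Subtype.ext h)
  have hsL : (s : G) ∈ K ⊔ Subgroup.zpowers (s : G) := Subgroup.mem_sup_right (Subgroup.mem_zpowers _)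
  obtain ⟨c, d, e⟩ := H3.sub_setup (Subgroup.le_normalizer_of_normal (Subgroup.mem_top _)) rfl hsL
  have := Fintype.ofFinite (K ⊔ Subgroup.zpowers (s : G) : Subgroup G)
  obtain ⟨ψ, f1, -, f2, f3, -⟩ := H3.exists_constituent_ne (H3.char_restrict hχ _)
    (g := ⟨k, Subgroup.mem_sup_left a⟩ * ⟨s, hsL⟩ * ⟨k, Subgroup.mem_sup_left a⟩⁻¹ * ⟨s, hsL⟩⁻¹)
    fun h => b (mul_inv_eq_iff_eq_mul.1 (mul_inv_eq_one.1 (hfaith _ h)))
  have h4 := (H3.fpf_deg _ d (by
    rw [e, Subgroup.orderOf_mk, ← Nat.card_zpowers]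
    exact (hK _ (Subgroup.zpowers_le.2 s.2)).symm) (fun x hx h k hk e => Subtype.ext (h1 x (by
      obtain ⟨j, rfl⟩ := hx; exact Subgroup.zpow_mem _ s.2 j) (fun h' => h (Subtype.ext h')) k hk
      (congrArg Subtype.val e) s s.2)) f1 f2).1
  rw [Subgroup.orderOf_mk, Subgroup.orderOf_coe] at h4
  exact (hs _ (h4.trans (Nat.succ_le_succ f3))).not_ge hdeg

end Cfsg.Agent.S4748
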