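import Cfsg.Statements.S4750
import Cfsg.Agent.H3.Tf

set_option autoImplicit false
open scoped Pointwise
open Cfsg

namespace Cfsg.Agent.S4750

open H3 Subgroup
open scoped ComplexConjugate

/-- Let P be a Sylow p-subgroup of the finite group G that meets each conjugate g P g⁻¹ with g outside N_G(P) trivially, χ a character of G with χ(1)² ≤ |P|, and H a subgroup of G containing N_G(P). Then the inner product of χ with itself over G equals the inner product over H of the restriction of χ to H. -/
theorem result {G : Type*} [Group G] [Fintype G] [DecidableEq G] (p : ℕ) [Fact p.Prime] (P : Sylow p G) (hTI : ∀ g : G, g ∉ Subgroup.normalizer ((P : Subgroup G) : Set G) → (P : Subgroup G) ⊓ (MulAut.conj g • (P : Subgroup G)) = ⊥) (χ : G → ℂ) (hχ : Cfsg.IsCharacter G χ) (hdeg : Cfsg.charDegree χ ^ 2 ≤ Nat.card ↥(P : Subgroup G)) (H : Subgroup G) [Fintype ↥H] (hH : Subgroup.normalizer ((P : Subgroup G) : Set G) ≤ H) : Cfsg.classInner χ χ = Cfsg.classInner (fun h : ↥H => χ h) (fun h : ↥H => χ h) := by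
  obtain ⟨n, hn⟩ := char_one_nat hχ
  by_cases h0 : χ = 0
  · subst h0; simp [classInner]
  have hd : charDegree χ = n := by simp [charDegree, hn]
  have h1 : IsCharacter G (χ * fun g => conj (χ g)) := char_mul hχ (char_conj hχ)
  have h2 : ∀ {K : Type _} [Group K] [Fintype K] (a : K → ℂ),
      classInner a a = classInner (a * fun g => conj (a g)) (fun _ => 1) := fun a => by
    simp [classInner]
  have h3 : classInner (χ * fun g => conj (χ g)) (fun _ => 1) ≠ 0 := fun h => h0 (inner_self_eq_zero (by rw [h2, h]))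
  have h4 := char_sub_of_inner_ne_zero h1 isIrr_one h3
  obtain ⟨m, hm⟩ := char_one_nat h4
  have h5 : m + 1 = n ^ 2 := by
    have : ((m + 1 : ℕ) : ℂ) = (n ^ 2 : ℕ) := by
      push_cast; rw [← hm]; simp [hn, sq]
    exact_mod_cast this
  have h6 := tf_char P.isPGroup' (tf_free P hTI hH) (le_normalizer.trans hH) h4 hm (by rw [hd] at hdeg; omega)
  rw [H3.inner_sub_left, irr_inner_self isIrr_one] at h6
  have h7 := H3.inner_sub_left ((fun h : H => χ h) * fun h : H => conj (χ h)) (fun _ => 1) (fun _ => 1)
  rw [irr_inner_self isIrr_one] at h7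
  rw [h2, h2]
  exact (sub_left_inj.1 (h7.symm.trans h6)).symm

end Cfsg.Agent.S4750
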