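import Cfsg.Statements.S4754
import Cfsg.Agent.H3.Chr

set_option autoImplicit false
open Cfsg

namespace Cfsg.Agent.S4754

/-- For elements x, y of a finite group G, the conjugacy class of x y equals the set of all products of a conjugate of x with a conjugate of y if and only if χ(1) χ(a x a⁻¹ b y b⁻¹) = χ(x) χ(y) for all a, b ∈ G and every irreducible character χ. -/
theorem result {G : Type*} [Group G] [Finite G] (x y : G) : (∀ z : G, IsConj (x * y) z ↔ ∃ a b : G, z = a * x * a⁻¹ * (b * y * b⁻¹)) ↔ ∀ (a b : G) (χ : Cfsg.IrrCharacter G), (χ : G → ℂ) 1 * (χ : G → ℂ) (a * x * a⁻¹ * (b * y * b⁻¹)) = (χ : G → ℂ) x * (χ : G → ℂ) y := by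
  have := Fintype.ofFinite G
  constructor
  · intro h a b χ
    have h1 := H3.sum_conj_mul χ.2 x (b * y * b⁻¹)
    have h2 : ∀ a, (χ : G → ℂ) (a * x * a⁻¹ * (b * y * b⁻¹)) = (χ : G → ℂ) (x * y) := fun a =>
      (H3.class_isConj (H3.irr_class χ.2) ((h _).2 ⟨a, b, rfl⟩)).symm
    simp only [h2, Finset.sum_const, Finset.card_univ, nsmul_eq_mul, ← Nat.card_eq_fintype_card,
      H3.irr_class χ.2 y b] at h1 ⊢
    apply mul_left_cancel₀ (H3.card_ne_zero' G)
    linear_combination h1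
  · intro h z
    constructor
    · intro hz
      obtain ⟨c, rfl⟩ := isConj_iff.1 hz
      exact ⟨c, c, by group⟩
    · rintro ⟨a, b, rfl⟩
      refine H3.isConj_of_irr_eq fun χ hχ => mul_left_cancel₀ (H3.irr_one_ne_zero hχ) ?_
      rw [h a b ⟨χ, hχ⟩, ← h 1 1 ⟨χ, hχ⟩]; simp

end Cfsg.Agent.S4754
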