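import Cfsg.Statements.S4755
import Cfsg.Agent.H3.Chr

set_option autoImplicit false
open Cfsg

namespace Cfsg.Agent.S4755

/-- Let x, y be non-identity elements of the finite group G such that χ(x' y') = χ(x') χ(y') for all conjugates x' of x, y' of y and every irreducible character χ. Then the conjugacy class of x y is the set of all products of a conjugate of x with a conjugate of y; every irreducible character of degree greater than 1 vanishes at x y; and the conjugacy class of x y is the coset of the commutator subgroup containing x y. -/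
theorem result {G : Type*} [Group G] [Finite G] (x y : G) (hx : x ≠ 1) (hy : y ≠ 1) (h : ∀ (a b : G) (χ : Cfsg.IrrCharacter G), (χ : G → ℂ) (a * x * a⁻¹ * (b * y * b⁻¹)) = (χ : G → ℂ) (a * x * a⁻¹) * (χ : G → ℂ) (b * y * b⁻¹)) : (∀ z : G, IsConj (x * y) z ↔ ∃ a b : G, z = a * x * a⁻¹ * (b * y * b⁻¹)) ∧ (∀ χ : Cfsg.IrrCharacter G, (χ : G → ℂ) 1 ≠ 1 → (χ : G → ℂ) (x * y) = 0) ∧ (∀ z : G, IsConj (x * y) z ↔ (x * y)⁻¹ * z ∈ commutator G) := by
  classical
  have := Fintype.ofFinite G
  have h0 : ∀ (a b : G) (χ : Cfsg.IrrCharacter G), (χ : G → ℂ) (a * x * a⁻¹ * (b * y * b⁻¹)) =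
      (χ : G → ℂ) (x * y) := fun a b χ => by
    have := h 1 1 χ
    simp only [one_mul, inv_one, mul_one] at this
    rw [h, this, H3.irr_class χ.2, H3.irr_class χ.2]
  have h2 : ∀ χ : Cfsg.IrrCharacter G, (χ : G → ℂ) 1 ≠ 1 → (χ : G → ℂ) (x * y) = 0 := by
    intro χ h1
    have h3 := H3.sum_conj_mul χ.2 x y
    have h4 := h0 (b := 1) (χ := χ)
    have h5 := h 1 1 χ
    simp only [one_mul, inv_one, mul_one] at h4 h5
    simp only [h4, Finset.sum_const, Finset.card_univ, nsmul_eq_mul,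
      ← Nat.card_eq_fintype_card] at h3
    have : (Nat.card G : ℂ) * (((χ : G → ℂ) 1 - 1) * (χ : G → ℂ) (x * y)) = 0 := by
      linear_combination h3 - Nat.card G * h5
    simpa [H3.card_ne_zero' G, sub_ne_zero.2 h1] using this
  refine ⟨fun z => ⟨fun hz => ?_, ?_⟩, h2, fun z => ⟨fun hz => ?_, fun hz => ?_⟩⟩
  · obtain ⟨c, rfl⟩ := isConj_iff.1 hz
    exact ⟨c, c, by group⟩
  · rintro ⟨a, b, rfl⟩
    exact H3.isConj_of_irr_eq fun χ hχ => (h0 a b ⟨χ, hχ⟩).symm
  · obtain ⟨c, rfl⟩ := isConj_iff.1 hz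
    have := Subgroup.commutator_mem_commutator (Subgroup.mem_top (x * y)⁻¹) (Subgroup.mem_top c)
    simpa [commutatorElement_def, mul_assoc, commutator] using this
  · refine H3.isConj_of_zero_or_eq fun χ hχ => ?_
    by_cases h1 : χ 1 = 1
    · have := (H3.mem_charKer (H3.irr_char hχ) _).1 ((H3.degree_one_iff_commutator_le hχ).1 h1 hz)
      rw [← H3.char_mul_ker (H3.irr_char hχ) this (x * y), mul_inv_cancel_left]
      exact Or.inr rfl
    · exact Or.inl (h2 ⟨χ, hχ⟩ h1)

end Cfsg.Agent.S4755
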