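import Cfsg.Statements.S4757
import Cfsg.Agent.H3.Cx
import Cfsg.Agent.H1.Cores

set_option autoImplicit false
open Cfsg

namespace Cfsg.Agent.S4757

open H3
open scoped ComplexConjugate

/-- Let u ≠ 1 be an element of the finite group G and c a complex number such that every non-principal irreducible character χ satisfies χ(1) − χ(u) = c or χ(u) = 0. Then the following are equivalent: (a) u has order 2, G is generated by u together with O(G), the largest normal subgroup of G of odd order, and the centralizer of u is {1, u}; (b) G is not perfect; (c) c = 2. -/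
theorem result {G : Type*} [Group G] [Finite G] (u : G) (hu : u ≠ 1) (c : ℂ) (hyp : ∀ χ : Cfsg.IrrCharacter G, (χ : G → ℂ) ≠ (fun _ => (1 : ℂ)) → ((χ : G → ℂ) 1 - (χ : G → ℂ) u = c ∨ (χ : G → ℂ) u = 0)) : ((orderOf u = 2 ∧ Subgroup.zpowers u ⊔ Cfsg.oddCore G = ⊤ ∧ Subgroup.centralizer ({u} : Set G) = Subgroup.zpowers u) ↔ commutator G ≠ ⊤) ∧ (commutator G ≠ ⊤ ↔ c = 2) := by
  classical
  have hsum : ∑ χ : IrrCharacter G, (χ.1 1 - χ.1 u) * conj (χ.1 u) =
      -(Nat.card (Subgroup.centralizer ({u} : Set G)) : ℂ) := by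
    have h1 := column_orth (1 : G) u
    have h2 := column_orth u u
    rw [if_neg (fun h => hu (isConj_one_right.1 h))] at h1
    rw [if_pos (IsConj.refl u)] at h2
    simp only [sub_mul, Finset.sum_sub_distrib]
    rw [h1, h2]; ring
  have hpos : 0 < Nat.card (Subgroup.centralizer ({u} : Set G)) := Nat.card_pos
  have hnn : ¬ ∀ χ : IrrCharacter G, 0 ≤ ((χ.1 1 - χ.1 u) * conj (χ.1 u)).re := fun h => by
    have := congrArg Complex.re hsum
    rw [Complex.re_sum] at this
    have h3 := Finset.sum_nonneg fun χ (_ : χ ∈ Finset.univ) => h χ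
    rw [this] at h3
    simp only [Complex.neg_re, Complex.natCast_re] at h3
    have : (0 : ℝ) < Nat.card (Subgroup.centralizer ({u} : Set G)) := by exact_mod_cast hpos
    linarith
  have hc0 : c ≠ 0 := fun h => hnn fun χ => by
    by_cases e : χ.1 = fun _ => 1
    · simp [e]
    · rcases hyp χ e with a | a
      · rw [a, h]; simp
      · rw [a]; simp
  have hcb : c = 2 → commutator G ≠ ⊤ := fun h hp => hnn fun χ => by
    by_cases e : χ.1 = fun _ => 1
    · simp [e]
    · rcases hyp χ e with a | a
      · obtain ⟨n, hn, e1⟩ := irr_one_nat χ.2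
        have hn1 : n ≠ 1 := fun e2 => charKer_ne_top χ.2 e (top_le_iff.1
          (hp ▸ (degree_one_iff_commutator_le χ.2).1 (by rw [e1, e2]; simp)))
        have e3 : χ.1 u = ((n - 2 : ℕ) : ℂ) := by
          rw [Nat.cast_sub (by omega), ← e1]; push_cast; rw [← h, ← a]; ring
        rw [a, h, e3]; simp
      · rw [a]; simp
  have hba : commutator G ≠ ⊤ → c = 2 ∧ (orderOf u = 2 ∧ Subgroup.zpowers u ⊔ Cfsg.oddCore G = ⊤ ∧
      Subgroup.centralizer ({u} : Set G) = Subgroup.zpowers u) := fun h => by
    obtain ⟨g, hg⟩ : ∃ g, g ∉ commutator G := by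
      by_contra a; push Not at a; exact h (eq_top_iff.2 fun g _ => a g)
    obtain ⟨f, hf⟩ := exists_hom_ne_one hg
    have hl : ∀ l : G →* ℂˣ, l ≠ 1 → 1 - (l u : ℂ) = c := fun l a => by
      rcases hyp ⟨_, isIrr_hom l⟩ (fun e => a (hom_fun_injective e)) with b | b
      · simpa using b
      · exact absurd b (Units.ne_zero _)
    have hf1 : f ≠ 1 := fun e => hf (by rw [e]; rfl)
    have a1 := hl f hf1
    have a2 := hl f⁻¹ (fun e => hf (by simpa using DFunLike.congr_fun e g))
    have hfu : (f u : ℂ) = -1 := by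
      have e1 : (f u : ℂ) * f u = 1 := by
        have : (f u : ℂ) = (f⁻¹ u : ℂˣ) := by linear_combination a2 - a1
        nth_rw 2 [this]; simp
      rcases mul_self_eq_one_iff.1 e1 with b | b
      · exact absurd (by rw [← a1, b]; ring) hc0
      · exact b
    have hc : c = 2 := by rw [← a1, hfu]; ring
    have hff : f * f = 1 := by
      by_contra a
      have := hl _ a
      rw [MonoidHom.mul_apply, Units.val_mul, hfu] at this
      exact hc0 (by rw [← this]; ring)
    have hz : ∀ χ : IrrCharacter G, χ ≠ ⟨_, isIrr_one⟩ → χ ≠ ⟨_, isIrr_hom f⟩ → χ.1 u = 0 := by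
      intro χ b1 b2
      rcases hyp χ (fun e => b1 (Subtype.ext e)) with a | a
      · rcases hyp ⟨_, irr_mul_hom χ.2 f⟩ (fun e => b2 (Subtype.ext (funext fun x => by
          have e1 : χ.1 x * f x = 1 := congrFun e x
          have e2 : (f x : ℂ) * f x = 1 := by
            rw [← Units.val_mul, ← MonoidHom.mul_apply, hff]; rfl
          show χ.1 x = f x
          linear_combination (f x : ℂ) * e1 - χ.1 x * e2))) with a' | a'
        · simp only [Pi.mul_apply, map_one, Units.val_one, hfu] at a'
          linear_combination (a' - a) / 2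
        · simp only [Pi.mul_apply, hfu] at a'
          linear_combination -a'
      · exact a
    have hC : Nat.card (Subgroup.centralizer ({u} : Set G)) = 2 := by
      have h2 := sum_norm_sq_char u
      have hne : (⟨_, isIrr_one⟩ : IrrCharacter G) ≠ ⟨_, isIrr_hom f⟩ := fun e =>
        hf1 (hom_fun_injective (congrArg Subtype.val e).symm)
      rw [Finset.sum_eq_add_of_mem _ _ (Finset.mem_univ _) (Finset.mem_univ _) hne
        (fun χ _ b => by rw [hz χ b.1 b.2]; simp)] at h2
      simp only [hfu, norm_one, norm_neg] at h2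
      exact_mod_cast (by linarith : (Nat.card (Subgroup.centralizer ({u} : Set G)) : ℝ) = 2)
    have hle : Subgroup.zpowers u ≤ Subgroup.centralizer ({u} : Set G) :=
      Subgroup.zpowers_le.2 (Subgroup.mem_centralizer_singleton_iff.2 rfl)
    have hCe : Subgroup.zpowers u = Subgroup.centralizer ({u} : Set G) :=
      (eq_bot_or_eq_of_prime (by rw [hC]; exact Nat.prime_two) hle).resolve_left
        (by simpa using hu)
    have ho : orderOf u = 2 := by rw [← Nat.card_zpowers, hCe, hC]
    have huu : u * u = 1 := by rw [← sq, ← ho, pow_orderOf_eq_one]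
    have hfp : ∀ k ∈ f.ker, u * k = k * u → k = 1 := fun k hk e => by
      have : k ∈ Subgroup.zpowers u := hCe ▸ Subgroup.mem_centralizer_singleton_iff.2 e.symm
      rw [mem_zpowers_iff_mem_range_orderOf, ho] at this
      simp only [Finset.mem_image, Finset.mem_range] at this
      obtain ⟨i, hi, rfl⟩ := this
      interval_cases i
      · simp
      · rw [pow_one, MonoidHom.mem_ker] at hk
        rw [hk] at hfu; norm_num at hfu
    have hodd : (Nat.card f.ker).Coprime 2 := by
      rw [Nat.coprime_comm, Nat.Prime.coprime_iff_not_dvd Nat.prime_two]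
      intro hd
      haveI := Fact.mk Nat.prime_two
      obtain ⟨k, hk⟩ := exists_prime_orderOf_dvd_card' 2 hd
      obtain ⟨x, -, e⟩ := frob_conj f.ker (fun k hk => (MonoidHom.normal_ker f).conj_mem k hk u) hfp k.2
      have e1 : (k : G) * k = 1 := by
        rw [← Subgroup.coe_mul, ← sq, ← hk, pow_orderOf_eq_one]; rfl
      have e2 : (k : G) * u * (k * u) = 1 := by
        rw [e]; calc _ = x⁻¹ * (u * u) * x := by group
          _ = 1 := by rw [huu]; group
      have e3 : (k : G) = 1 := hfp k k.2 (by
        calc u * k = (k * k) * u * k * (u * u) := by rw [e1, huu]; group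
          _ = k * (k * u * (k * u)) * u := by group
          _ = k * u := by rw [e2]; group)
      rw [show k = 1 from Subtype.ext e3, orderOf_one] at hk; omega
    refine ⟨hc, ho, eq_top_iff.2 fun x _ => ?_, hCe.symm⟩
    have hK : f.ker ≤ oddCore G := H1.le_pPrimeCore hodd
    have e2 : (f x : ℂ) * f x = 1 := by
      rw [← Units.val_mul, ← MonoidHom.mul_apply, hff]; rfl
    rcases mul_self_eq_one_iff.1 e2 with b | b
    · exact Subgroup.mem_sup_right (hK (Units.ext b))
    · have : u⁻¹ * x ∈ f.ker := by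
        rw [MonoidHom.mem_ker, map_mul, map_inv, inv_mul_eq_one]; exact Units.ext (hfu.trans b.symm)
      have := Subgroup.mul_mem_sup (Subgroup.mem_zpowers u) (hK this)
      rwa [mul_inv_cancel_left] at this
  refine ⟨⟨fun ⟨ho, ht, _⟩ hp => ?_, fun h => (hba h).2⟩, fun h => (hba h).1, hcb⟩
  have hle : commutator G ≤ oddCore G := by
    refine Subgroup.Normal.quotient_commutative_iff_commutator_le.1 ⟨⟨fun a b => ?_⟩⟩
    have : ∀ a : G ⧸ oddCore G, a ∈ Subgroup.zpowers (u : G ⧸ oddCore G) := fun a => by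
      obtain ⟨a, rfl⟩ := QuotientGroup.mk_surjective a
      obtain ⟨y, ⟨i, rfl⟩, z, hz, rfl⟩ := Subgroup.mem_sup_of_normal_right.1 (ht ▸ Subgroup.mem_top a)
      exact ⟨i, by simp [(QuotientGroup.eq_one_iff z).2 hz]⟩
    obtain ⟨i, rfl⟩ := this a
    obtain ⟨j, rfl⟩ := this b
    exact zpow_mul_comm _ _ _
  have := H1.pPrimeCore_eq_top_iff.1 (top_le_iff.1 (hp ▸ hle))
  have h2 : 2 ∣ Nat.card G := ho ▸ orderOf_dvd_natCard u
  exact absurd (Nat.Coprime.coprime_dvd_left h2 this) (by norm_num)

end Cfsg.Agent.S4757
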