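import Cfsg.Statements.S4762
import Cfsg.Agent.H3.Cx

set_option autoImplicit false
open Cfsg

namespace Cfsg.Agent.S4762

open H3
open scoped commutatorElement

/-- Let p be a prime and G a finite nilpotent group. Then G has exactly one irreducible complex character of degree divisible by p if and only if p = 2 and G is an extraspecial 2-group. -/
theorem result {G : Type*} [Group G] [Finite G] [Group.IsNilpotent G] (p : ℕ) [Fact p.Prime] : Nat.card {χ : Cfsg.IrrCharacter G // p ∣ Cfsg.charDegree (χ : G → ℂ)} = 1 ↔ (p = 2 ∧ Cfsg.IsExtraspecial 2 G) := by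
  classical
  have hp : p.Prime := Fact.out
  constructor
  · intro h
    obtain ⟨⟨χ, hχ⟩, hu⟩ := Nat.card_eq_one_iff_exists.1 h
    have hu' : ∀ ψ, IsIrrCharacter G ψ → p ∣ charDegree ψ → ψ = χ.1 := fun ψ a b =>
      congrArg (fun x => x.1.1) (hu ⟨⟨ψ, a⟩, b⟩)
    have hv : ∀ g, g ∉ commutator G → χ.1 g = 0 := fun g =>
      vanish_of_twist fun f => hu' _ (irr_mul_hom χ.2 f) (by rwa [deg_mul_hom])
    have hin : ∀ g, χ.1 g ≠ 0 → g ∈ commutator G := fun g a => by_contra fun b => a (hv g b)
    have h1 : χ.1 1 ≠ 1 := fun e => by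
      rw [(deg_eq_one_iff (irr_char χ.2)).2 e] at hχ
      exact hp.one_lt.ne' (Nat.dvd_one.1 hχ)
    have hs : pCore p G ⊔ pPrimeCore p G = ⊤ :=
      top_le_iff.1 (H1.fitting_eq_top_iff.2 ‹_› ▸ H1.fitting_le_pCore_sup_pPrimeCore p)
    have hG : IsPGroup p G := by
      have hq : IsPGroup p (G ⧸ pPrimeCore p G) := by
        refine (H1.pCore_isPGroup (p := p) (G := G)).of_surjective
          ((QuotientGroup.mk' _).comp (pCore p G).subtype) fun y => ?_
        obtain ⟨y, rfl⟩ := QuotientGroup.mk'_surjective _ y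
        obtain ⟨u, c, v, d, rfl⟩ := Subgroup.mem_sup_of_normal_right.1 (hs ▸ Subgroup.mem_top y)
        exact ⟨⟨u, c⟩, by simp [(QuotientGroup.eq_one_iff v).2 d]⟩
      have hna : ¬ ∀ a b : G ⧸ pPrimeCore p G, a * b = b * a := fun hc => by
        refine not_dvd_of_normal (P := pCore p G) (fun a ha b hb => ?_) ?_ χ.2 hχ
        · have e1 : a * b * a⁻¹ * b⁻¹ ∈ pPrimeCore p G := by
            rw [← QuotientGroup.eq_one_iff]
            simp only [QuotientGroup.mk_mul, QuotientGroup.mk_inv, hc (a : G ⧸ _) b]; group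
          have e2 : a * b * a⁻¹ * b⁻¹ ∈ pCore p G :=
            mul_mem (mul_mem (mul_mem ha hb) (inv_mem ha)) (inv_mem hb)
          have : a * b * a⁻¹ * b⁻¹ = 1 := by
            rw [← Subgroup.mem_bot, ← H1.pCore_inf_pPrimeCore (p := p)]; exact ⟨e2, e1⟩
          calc _ = a * b * a⁻¹ * b⁻¹ * (b * a) := by group
            _ = _ := by rw [this, one_mul]
        · exact fun e => H1.not_dvd_card_pPrimeCore (e.trans (H1.index_dvd_card_of_sup_eq_top hs))
      obtain ⟨α, a, b⟩ := exists_nonlin hna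
      have c := hu' _ (irr_comp_surj a (QuotientGroup.mk' _) (QuotientGroup.mk'_surjective _)) (by
        rw [deg_comp]
        by_contra e
        exact b ((deg_eq_one_iff (irr_char a)).1 (pdeg_one hq a e)))
      have d : pPrimeCore p G ≤ frattini G := fun x hx => H1.commutator_le_frattini (hin x (by
        rw [← c]
        simpa [(QuotientGroup.eq_one_iff x).2 hx] using irr_one_ne_zero a))
      have := frattini_nongenerating (top_le_iff.1 (hs ▸ sup_le_sup_left d _))
      exact IsPGroup.of_surjective (this ▸ H1.pCore_isPGroup) (⊤ : Subgroup G).subtype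
        fun x => ⟨⟨x, trivial⟩, rfl⟩
    have a := sum_nonlin (G := G)
    have b : (Finset.univ.filter fun ψ : IrrCharacter G => ψ.1 1 ≠ 1) = {χ} := by
      ext ψ
      simp only [Finset.mem_filter, Finset.mem_univ, true_and, Finset.mem_singleton]
      refine ⟨fun e => Subtype.ext (hu' _ ψ.2 ?_), fun e => e ▸ h1⟩
      by_contra e'
      exact e ((deg_eq_one_iff (irr_char ψ.2)).1 (pdeg_one hG ψ.2 e'))
    rw [b, Finset.sum_singleton, ← (commutator G).card_mul_index] at a
    obtain ⟨k, hk⟩ := pdeg hG χ.2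
    obtain ⟨j, hj⟩ := (hG.to_subgroup (commutator G)).exists_card_eq
    have hk0 : ¬ commutator G ≤ charKer χ.1 := fun e =>
      h1 ((degree_one_iff_commutator_le χ.2).2 e)
    have hj0 : j ≠ 0 := by
      rintro rfl
      exact hk0 ((Subgroup.card_eq_one.1 hj).trans_le bot_le)
    obtain ⟨m, hm⟩ : ∃ m, p ^ j = m + 1 := ⟨_, (Nat.succ_pred_eq_of_pos (pow_pos hp.pos j)).symm⟩
    have c : m ∣ p ^ (k * 2) := ⟨(commutator G).index, by
      rw [hk, hj, hm, ← pow_mul] at a; linarith⟩
    obtain ⟨i, -, rfl⟩ := (Nat.dvd_prime_pow hp).1 c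
    have hi : i = 0 := by
      by_contra e
      have := (Nat.dvd_add_right (dvd_pow_self p e)).1 (hm ▸ dvd_pow_self p hj0)
      exact hp.one_lt.ne' (Nat.dvd_one.1 this)
    subst hi
    have h2 : p = 2 := (Nat.prime_dvd_prime_iff_eq hp Nat.prime_two).1
      ((dvd_pow_self p hj0).trans (dvd_of_eq (by simpa using hm)))
    subst h2
    have h3 : Nat.card (commutator G) = 2 := hj.trans hm
    have := hG.isNilpotent
    have h4 : commutator G = Subgroup.center G := by
      refine le_antisymm ?_ fun z hz => hin z fun e => ?_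
      · rcases eq_bot_or_eq_of_prime (h3 ▸ hp)
          (inf_le_left : commutator G ⊓ Subgroup.center G ≤ _) with e | e
        · exact absurd e (inf_center_ne_bot' _ fun e => hk0 (e.trans_le bot_le))
        · exact e ▸ inf_le_right
      · have := (mem_charCenter (irr_char χ.2) z).1 (center_le_charCenter χ.2 hz)
        rw [e, norm_zero, eq_comm, norm_eq_zero] at this
        exact irr_one_ne_zero χ.2 this
    refine ⟨rfl, ⟨hG, le_antisymm (H1.frattini_le_of_elementary hp h4.le fun x => ?_)
      (h4 ▸ H1.commutator_le_frattini), h4⟩, h4 ▸ h3⟩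
    rw [Subgroup.mem_center_iff]
    intro y
    have e1 : ⁅x, y⁆ ∈ commutator G :=
      Subgroup.commutator_mem_commutator (Subgroup.mem_top _) (Subgroup.mem_top _)
    have e2 : ⁅x, y⁆ ^ 2 = 1 := by
      have := pow_card_eq_one' (x := (⟨_, e1⟩ : commutator G))
      rw [h3] at this
      exact congrArg Subtype.val this
    have e3 := Subgroup.mem_center_iff.1 (h4 ▸ e1) x
    have e4 : x * y = ⁅x, y⁆ * (y * x) := by rw [commutatorElement_def]; group
    generalize ⁅x, y⁆ = c at e2 e3 e4
    rw [sq] at e2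
    rw [sq, mul_assoc, e4, ← mul_assoc x c, e3, mul_assoc c, ← mul_assoc x y, e4]
    simp only [← mul_assoc, e2, one_mul]
  · rintro ⟨rfl, ⟨h1, h2, h3⟩, h4⟩
    have hc := es_count h3 (h4.symm ▸ hp)
    rw [h4] at hc
    rw [← Nat.succ.inj hc]
    refine Nat.card_congr (Equiv.subtypeEquivRight fun χ => ⟨fun h e => ?_, fun h => ?_⟩)
    · rw [(deg_eq_one_iff (irr_char χ.2)).2 e] at h
      omega
    · by_contra e
      exact h ((deg_eq_one_iff (irr_char χ.2)).1 (pdeg_one h1 χ.2 e))

end Cfsg.Agent.S4762
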