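import Cfsg.Statements.S4763
import Cfsg.Agent.H3.Gl3
import Cfsg.Agent.H3.Chr
import Cfsg.Agent.H1.CS

set_option autoImplicit false
open Cfsg

namespace Cfsg.Agent.S4763

open H3 Subgroup Finset
open scoped Classical

theorem card_split {α : Type*} [Finite α] (q : α → Prop) : Nat.card α = Nat.card {x // q x} + Nat.card {x // ¬ q x} := by
  rw [← Nat.card_sum, Nat.card_congr (Equiv.sumCompl q)]

/-- Let p be a prime and G a finite group that is not nilpotent and has a normal p-complement (a normal subgroup of order prime to p and index a power of p). If G has exactly one irreducible complex character of degree divisible by p, then G has exactly one conjugacy class whose size is divisible by p. -/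
theorem result {G : Type*} [Group G] [Finite G] (p : ℕ) [Fact p.Prime] (hnil : ¬ Group.IsNilpotent G) (N : Subgroup G) [N.Normal] (hN : (Nat.card N).Coprime p) (hidx : ∃ k : ℕ, N.index = p ^ k) (hone : Nat.card {χ : Cfsg.IrrCharacter G // p ∣ Cfsg.charDegree (χ : G → ℂ)} = 1) : Nat.card {C : ConjClasses G // p ∣ Nat.card C.carrier} = 1 := by
  have hp : p.Prime := Fact.out
  letI := Fintype.ofFinite G
  obtain ⟨k, hk⟩ := hidx
  obtain ⟨P⟩ : Nonempty (Sylow p G) := inferInstance
  have cop : (Nat.card N).Coprime N.index := hk ▸ hN.pow_right k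
  have nd : ¬ p ∣ Nat.card N := hp.coprime_iff_not_dvd.1 hN.symm
  have hP : Nat.card (P : Subgroup G) = N.index := by
    rw [P.card_eq_multiplicity, ← N.card_mul_index, Nat.factorization_mul Nat.card_pos.ne' FiniteIndex.index_ne_zero, Finsupp.add_apply,
      Nat.factorization_eq_zero_of_not_dvd nd, zero_add, hk, hp.factorization_pow, Finsupp.single_eq_same]
  have cp : N.IsComplement' P := isComplement'_of_coprime (by rw [hP, card_mul_index]) (hP ▸ cop)
  have dec : ∀ g : G, ∃ n ∈ N, ∃ u ∈ (P : Subgroup G), n * u = g := fun g => let ⟨x, e⟩ := cp.2 g; ⟨_, x.1.2, _, x.2.2, e⟩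
  have tri : ∀ g ∈ N, g ∈ (P : Subgroup G) → g = 1 := fun g a b => mem_bot.1 (cp.disjoint.le_bot ⟨a, b⟩)
  obtain ⟨⟨χ0, hχ0⟩, un⟩ := (Nat.card_eq_one_iff_exists.1 hone)
  replace un : ∀ χ, IsIrrCharacter G χ → p ∣ charDegree χ → χ = χ0.1 := fun χ a b =>
    congrArg (fun x => x.1.1) (un ⟨⟨χ, a⟩, b⟩)
  have rs : ∀ χ θ, IsIrrCharacter G χ → IsIrrCharacter N θ → classInner (fun n : N => χ n) θ ≠ 0 → ¬ p ∣ charDegree χ →
      (fun n : N => χ n) = θ := fun χ θ a b c d => by
    obtain ⟨e, e1, e2⟩ := degree_ratio_dvd N b a c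
    obtain ⟨i, -, rfl⟩ := (Nat.dvd_prime_pow hp).1 (hk ▸ e2)
    rcases i with _ | i
    · exact eq_of_sub_char_of_degree (char_sub_of_inner_ne_zero (char_restrict (irr_char a) N) b c) (by simpa using e1)
    · rw [ideg_eq a, ideg_eq b] at e1
      exact (d (by rw [show charDegree χ = _ by exact_mod_cast e1]; exact (dvd_pow_self p i.succ_ne_zero).mul_right _)).elim
  have one : ∀ β, IsIrrCharacter G β → (∀ n ∈ N, β n = β 1) → β 1 = 1 := fun β a b => by_contra fun c => hnil (by
    have b0 := irr_one_ne_zero a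
    have i1 : ∀ θ, IsIrrCharacter N θ → classInner (fun n : N => β n) θ ≠ 0 → θ = fun _ => 1 := fun θ d e =>
      (irr_eq_of_inner_ne_zero isIrr_one d fun f => e (by
        rw [show (fun n : N => β n) = β 1 • fun _ => (1 : ℂ) from funext fun n => by simp [b n n.2], H3.inner_smul_left, f,
          mul_zero])).symm
    have pb : p ∣ charDegree β := by_contra fun d => by
      obtain ⟨θ, e, f⟩ := exists_irr_under N a
      exact c (congrFun ((rs β θ a e f d).trans (i1 θ e f)) 1)
    have all : ∀ θ, IsIrrCharacter N θ → θ = fun _ => 1 := fun θ d => by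
      obtain ⟨χ, e, f⟩ := exists_irr_over N d
      by_cases g : p ∣ charDegree χ
      · exact i1 θ d (by rwa [un β a pb, ← un χ e g])
      have r := rs χ θ e d f g
      have m := gallagher_irr N (irr_char e) (r ▸ d) a b
      have q := (un _ m (by
        rw [deg_of_eq (n := charDegree β * charDegree χ) (by rw [Pi.mul_apply, ideg_eq a, ideg_eq e, Nat.cast_mul])]
        exact pb.mul_right _)).trans (un β a pb).symm
      refine r ▸ funext fun n => mul_left_cancel₀ b0 ?_
      have := congrFun q n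
      rwa [Pi.mul_apply, b n n.2, ← mul_one (β 1), mul_assoc, one_mul] at this
    have : N = ⊥ := eq_bot_iff.2 fun n hn => by_contra fun e => by
      obtain ⟨θ, f, g⟩ := exists_irr_ne_of_ne_one (G := N) (g := ⟨n, hn⟩) fun f => e (congrArg Subtype.val f)
      exact g (by rw [all θ f])
    rw [this, index_bot] at hk
    exact (IsPGroup.of_card hk).isNilpotent)
  have cm : commutator G ≤ N := fun g hg => by_contra fun a => by
    obtain ⟨θ, b, c⟩ := exists_irr_ne_of_ne_one (G := G ⧸ N) (g := g) (mt (QuotientGroup.eq_one_iff g).1 a)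
    have d := irr_comp_surj b (QuotientGroup.mk' N) (QuotientGroup.mk'_surjective N)
    exact c ((mem_charKer (irr_char d) g).1 ((degree_one_iff_commutator_le d).1 (one _ d fun n hn => by
      simp [(QuotientGroup.eq_one_iff n).2 hn]) hg))
  have ab : ∀ u ∈ (P : Subgroup G), ∀ v ∈ (P : Subgroup G), u * v = v * u := fun u a v b =>
    commutatorElement_eq_one_iff_mul_comm.1 (tri _ (cm (commutator_mem_commutator (mem_top u) (mem_top v)))
      (mul_mem (mul_mem (mul_mem a b) (inv_mem a)) (inv_mem b)))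
  have hn : ∀ s ∈ (P : Subgroup G), ∀ g ∈ N, s * g * s⁻¹ ∈ N := fun s _ g a => Normal.conj_mem inferInstance g a s
  have ok : Ok (P : Subgroup G) N := ⟨norm_of_conj hn, hP ▸ cop⟩
  have sv : Group.IsSolvable (P : Subgroup G) := have := P.isPGroup'.isNilpotent; inferInstance
  obtain ⟨R, h⟩ := exists_glSys _ sv
  have h1 := card_inv_irr hn fun _ => True
  have h2 := h.card ok (fun _ => True) (fun _ => True) fun _ _ _ => Iff.rfl
  have h3 := card_irrOn (fixP N P) fun _ => True
  simp only [true_and, Nat.card_congr (Equiv.subtypeUnivEquiv fun _ => trivial)] at h1 h3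
  simp only [true_and, and_true] at h1 h2 h3
  rw [h2, ← h3, card_irr_eq_card_conjClasses] at h1
  -- characters
  set I := {χ : IrrCharacter N // ∀ s ∈ (P : Subgroup G), ∀ g g' : N, (g' : G) = s * g * s⁻¹ → χ.1 g' = χ.1 g}
  choose ex e1 e2 using fun θ : I => extend_of_coprime_card N θ.1.2 (fun g => by
    obtain ⟨n, a, u, b, rfl⟩ := dec g
    rw [← cj_cj, cj_of_mem N (irr_class θ.1.2) a]
    exact funext fun x => θ.2 u b _ _ rfl) cop
  have e3 : ∀ θ, (fun n : N => ex θ n) = θ.1.1 := fun θ => funext (e2 θ).1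
  have c1 : Nat.card (I × {f : G →* ℂˣ // ∀ n ∈ N, f n = 1}) = Nat.card {χ : IrrCharacter G // ¬ p ∣ charDegree χ.1} := by
    refine Nat.card_eq_of_bijective (fun x => ⟨⟨_, irr_mul_hom (e1 x.1) x.2.1⟩, fun a => nd ?_⟩) ⟨fun x y a => ?_, fun χ => ?_⟩
    · refine a.trans (degree_dvd_card x.1.1.2 ?_)
      rw [← ideg_eq (irr_mul_hom (e1 x.1) x.2.1), ← e3]; simp
    · have a' : (ex x.1 * fun g => (x.2.1 g : ℂ)) = ex y.1 * fun g => (y.2.1 g : ℂ) := congrArg (fun x => x.1.1) a
      have b : x.1 = y.1 := Subtype.ext (Subtype.ext (funext fun n => by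
        simpa [x.2.2 n n.2, y.2.2 n n.2, (e2 _).1] using congrFun a' n))
      rw [← b, mul_comm, mul_comm (ex _)] at a'
      exact Prod.ext b (Subtype.ext (hom_fun_injective (gallagher_inj N (irr_char (e1 _)) (e3 _ ▸ x.1.1.2) (isIrr_hom _)
        (fun n c => by simp [x.2.2 n c]) (isIrr_hom _) (fun n c => by simp [y.2.2 n c]) a')))
    · obtain ⟨θ, a, b⟩ := exists_irr_under N χ.1.2
      have r := rs _ θ χ.1.2 a b χ.2
      let t : I := ⟨⟨θ, a⟩, fun s _ g g' c => by simp only [← r, c, irr_class χ.1.2 (g : G) s]⟩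
      obtain ⟨μ, m1, m2⟩ := linear_twist N (irr_char χ.1.2) (irr_char (e1 t)) (e3 t ▸ a) fun n c =>
        (congrFun r ⟨n, c⟩).trans ((e2 t).1 ⟨n, c⟩).symm
      exact ⟨(t, ⟨μ, m1⟩), Subtype.ext (Subtype.ext (funext fun g => by simp [m2 g, mul_comm]))⟩
  -- classes
  have ci : ∀ g : G, Nat.card (ConjClasses.mk g).carrier = (centralizer {g}).index := fun g => by
    rw [← card_class_eq_index]
    exact Nat.card_congr (Equiv.subtypeEquivRight fun x => by
      rw [ConjClasses.mem_carrier_iff_mk_eq, ConjClasses.mk_eq_mk_iff_isConj, isConj_comm])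
  choose rp hr using fun C : ConjClasses (fixP N P) => ConjClasses.mk_surjective C
  have cc : ∀ (c : fixP N P) (u : (P : Subgroup G)), (c : G) * u ∈ centralizer ((P : Subgroup G) : Set G) := fun c u =>
    mul_mem c.2.2 fun v a => ab v a u u.2
  have c2 : Nat.card (ConjClasses (fixP N P) × (P : Subgroup G)) = Nat.card {C : ConjClasses G // ¬ p ∣ Nat.card C.carrier} := by
    refine Nat.card_eq_of_bijective (fun x => ⟨ConjClasses.mk (rp x.1 * x.2), fun a => P.not_dvd_index ?_⟩) ⟨fun x y a => ?_, fun C => ?_⟩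
    · rw [ci] at a
      exact a.trans (index_dvd_of_le fun v b => mem_centralizer_singleton_iff.2 (cc _ _ v b))
    · obtain ⟨g, b⟩ := isConj_iff.1 (ConjClasses.mk_eq_mk_iff_isConj.1 (congrArg Subtype.val a))
      obtain ⟨n, n1, v, v1, rfl⟩ := dec g
      rw [show n * v * (rp x.1 * x.2) * (n * v)⁻¹ = n * (v * (rp x.1 * x.2) * v⁻¹) * n⁻¹ by group, cc _ _ v v1,
        mul_inv_cancel_right] at b
      obtain ⟨z, z1, z2⟩ := conj_in_fix ok (Or.inl sv) (cc _ _) n1 (b ▸ cc _ _)
      rw [b, ← mul_assoc, mul_assoc _ (x.2 : G), (inv_mem z1.2 : z⁻¹ ∈ centralizer _) _ x.2.2, ← mul_assoc] at z2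
      have u : (x.2 : G) = y.2 := mul_inv_eq_one.1 (tri _ (by
        rw [show (x.2 : G) * (y.2 : G)⁻¹ = (z * rp x.1 * z⁻¹)⁻¹ * rp y.1 by
          rw [eq_inv_mul_iff_mul_eq, ← mul_assoc, z2, mul_inv_cancel_right]]
        exact mul_mem (inv_mem (mul_mem (mul_mem z1.1 (rp x.1).2.1) (inv_mem z1.1))) (rp y.1).2.1) (mul_mem x.2.2 (inv_mem y.2.2)))
      rw [u, mul_left_inj] at z2
      refine Prod.ext ?_ (Subtype.ext u)
      rw [← hr x.1, ← hr y.1]
      exact ConjClasses.mk_eq_mk_iff_isConj.2 (isConj_iff.2 ⟨⟨z, z1⟩, Subtype.ext z2⟩)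
    · obtain ⟨C, a⟩ := C
      obtain ⟨g, rfl⟩ := ConjClasses.mk_surjective C
      obtain ⟨Q, b⟩ := H1.exists_sylow_le_of_not_dvd (ci g ▸ a)
      obtain ⟨w, rfl⟩ := MulAction.exists_smul_eq G P Q
      have c : w⁻¹ * g * w ∈ centralizer ((P : Subgroup G) : Set G) := fun v d => by
        have := mem_centralizer_singleton_iff.1 (b (H2.conj_mem_cj.2 d))
        rw [show v * (w⁻¹ * g * w) = w⁻¹ * (w * v * w⁻¹ * g) * w by group, this]; group
      obtain ⟨n, n1, u, u1, e⟩ := dec (w⁻¹ * g * w)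
      let t : fixP N P := ⟨n, n1, by
        rw [eq_mul_inv_of_mul_eq e]; exact Subgroup.mul_mem _ c (Subgroup.inv_mem _ fun v a => ab v a u u1)⟩
      obtain ⟨z, z1⟩ := isConj_iff.1 (ConjClasses.mk_eq_mk_iff_isConj.1 (hr (ConjClasses.mk t)))
      refine ⟨(ConjClasses.mk t, ⟨u, u1⟩), Subtype.ext (ConjClasses.mk_eq_mk_iff_isConj.2 (isConj_iff.2 ⟨w * z, ?_⟩))⟩
      have z2 : (z : G) * rp (ConjClasses.mk t) * (z : G)⁻¹ = n := congrArg Subtype.val z1
      rw [show w * z * (rp (ConjClasses.mk t) * u) * (w * z)⁻¹ = w * (z * rp (ConjClasses.mk t) * (u * (z : G)⁻¹)) * w⁻¹ by group,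
        (inv_mem z.2.2 : (z : G)⁻¹ ∈ centralizer _) u u1, ← mul_assoc _ (z : G)⁻¹ u, z2, e]
      group
  have s1 := card_split fun χ : IrrCharacter G => p ∣ charDegree χ.1
  have s2 := card_split fun C : ConjClasses G => p ∣ Nat.card C.carrier
  rw [Nat.card_prod, card_hom_trivial_on N cm, h1] at c1
  rw [Nat.card_prod, hP] at c2
  rw [card_irr_eq_card_conjClasses, hone] at s1
  omega

end Cfsg.Agent.S4763
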