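import Cfsg.Statements.S4765
import Cfsg.Agent.H3.G2e
import Cfsg.Agent.H3.Chr

set_option autoImplicit false
open Cfsg

namespace Cfsg.Agent.S4765

open H3 H3.G2 H5

/-- Let F be a finite field of characteristic p with at least 4 elements. Then PSL(2,F) has exactly one irreducible complex character of degree divisible by p, and its degree is the order of F. -/
theorem result (p : ℕ) [Fact p.Prime] (F : Type*) [Field F] [Fintype F] [CharP F p] (hF : 4 ≤ Fintype.card F) : Nat.card {χ : Cfsg.IrrCharacter (Matrix.ProjectiveSpecialLinearGroup (Fin 2) F) // p ∣ Cfsg.charDegree (χ : Matrix.ProjectiveSpecialLinearGroup (Fin 2) F → ℂ)} = 1 ∧ ∀ χ : Cfsg.IrrCharacter (Matrix.ProjectiveSpecialLinearGroup (Fin 2) F), p ∣ Cfsg.charDegree (χ : Matrix.ProjectiveSpecialLinearGroup (Fin 2) F → ℂ) → Cfsg.charDegree (χ : Matrix.ProjectiveSpecialLinearGroup (Fin 2) F → ℂ) = Fintype.card F := by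
  classical
  obtain ⟨w, hw⟩ := exists_not_rt (F := F)
  obtain ⟨f, hf, hk⟩ := exists_surj (F := F) (S := PSL2 F) (.inl ⟨MulEquiv.refl _⟩)
  obtain ⟨n, hp, hn⟩ := FiniteField.card F p
  have h0 : p ∣ Fintype.card F := hn ▸ dvd_pow_self p n.ne_zero
  have h1 : ¬ p ∣ Fintype.card F + 1 := fun h => hp.not_dvd_one ((Nat.dvd_add_right h0).1 h)
  have h2 : ¬ p ∣ Fintype.card F - 1 := fun h => hp.not_dvd_one (by
    have := Nat.dvd_sub h0 h; rwa [Nat.sub_sub_self (by omega)] at this)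
  have key : ∀ χ : IrrCharacter (PSL2 F), p ∣ charDegree χ.1 → charDegree χ.1 = Fintype.card F := fun χ h => by
    rcases degs_le hf ⟨χ, rfl⟩ with e | e | e | e | ⟨⟨k, hk⟩, e | e⟩ <;> rw [e] at h
    exacts [absurd h hp.not_dvd_one, e, absurd h h1, absurd h h2,
      absurd (h.trans (Nat.div_dvd_of_dvd (by omega))) h1, absurd (h.trans (Nat.div_dvd_of_dvd (by omega))) h2]
  refine ⟨?_, key⟩
  obtain ⟨ψ, e1, e2⟩ := deflate hf hk irr_St St_neg
  refine (card_irr_of_inj (fun _ : Unit => ψ) (p ∣ charDegree ·) (fun _ => e1) (fun _ => ?_)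
    (fun χ a b => ⟨(), ?_⟩) fun _ _ _ => rfl).trans (by simp)
  · rwa [chdeg (show ψ 1 = Fintype.card F by rw [← St_one, ← e2, map_one])]
  · have := sdeg_q hw (irr_comp_surj a f hf) (by rw [map_one, ideg_eq a, key ⟨χ, a⟩ b])
    ext g; obtain ⟨g, rfl⟩ := hf g
    rw [e2, ← this]

end Cfsg.Agent.S4765
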