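import Cfsg.Statements.S4768
import Cfsg.Agent.H3.Cx
import Cfsg.Agent.H3.Jordan
import Cfsg.Agent.H1.CS

set_option autoImplicit false
open Cfsg

namespace Cfsg.Agent.S4768

open scoped Pointwise
open H1
open Subgroup H3

universe u

section
variable {G : Type u} [Group G] [Finite G] {p : ℕ} [hp : Fact p.Prime]

omit [Finite G] in
theorem chr {χ : G → ℂ} (h : IsIrrCharacter G χ) : IsCharacter G χ := by
  obtain ⟨n, ρ, -, e⟩ := h; exact ⟨n, ρ, e⟩

omit [Finite G] in
theorem anti : Antitone (derivedSeries G) :=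
  antitone_nat_of_succ_le fun n => commutator_le_left (derivedSeries G n) (derivedSeries G n)

theorem twostep (hG : IsPSolvable p G) (N : Subgroup G) [N.Normal] (hN : IsPGroup p N) (h0 : N ≠ ⊥)
    (hab : ∀ a ∈ N, ∀ b ∈ N, a * b = b * a)
    (h : ∀ χ, IsIrrCharacter G χ → p ∣ charDegree χ → ∀ n ∈ N, χ n = χ 1) (P : Sylow p G) :
    derivedSeries P 2 = ⊥ := by
  classical
  have := Fintype.ofFinite G
  have := Fintype.ofFinite N
  have hcz : commutator N = ⊥ := (commutator_eq_bot_iff_center_eq_top _).2 (eq_top_iff.2 fun a _ =>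
    mem_center_iff.2 fun b => Subtype.ext (hab _ b.2 _ a.2))
  obtain ⟨v, hv⟩ := ne_bot_iff_exists_ne_one.1 h0
  obtain ⟨f, hf⟩ := exists_hom_ne_one (g := v) (by rwa [hcz])
  have hθ := isIrr_hom f
  set θ : N → ℂ := fun n => (f n : ℂ) with hθd
  have ov : ∀ χ, IsIrrCharacter G χ → classInner (fun n : N => χ n) θ ≠ 0 → ¬ p ∣ charDegree χ := by
    intro χ hχ hc hd
    have := ker_of_constituent (char_restrict (chr hχ) N) hθ hc (g := v) (h χ hχ hd v v.2)
    exact hf (Units.ext (by simpa [hθd] using this))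
  have hNT : N ≤ inertia N θ := le_inertia N (irr_class hθ)
  set T := inertia N θ with hT
  have ovv : ∀ ψ, IsIrrCharacter T ψ → classInner (fun n : N => ψ ⟨n, hNT n.2⟩) θ ≠ 0 →
      ¬ p ∣ T.index * charDegree ψ := by
    intro ψ hψ hc
    have := ov _ (clifford_corr_irr N hθ hT hNT hψ hc) (by rwa [clifford_corr_inner N hθ hT hNT hψ hc])
    rwa [deg_of_eq (n := T.index * charDegree ψ) (by rw [indFun_one, ideg_eq hψ]; simp)] at this
  obtain ⟨χ₀, hχ₀, c₀⟩ := exists_irr_over N hθ
  obtain ⟨ψ, hψ, -, c₁⟩ := clifford_corr_surj N hθ hT hNT hχ₀ c₀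
  have c₂ := c₁ ▸ c₀
  have d₁ := ovv ψ hψ c₂
  obtain ⟨e, -, -, he⟩ := clifford_inertia N hNT hθ hT.le hψ c₂
  have e1 : ψ 1 = e := (he 1).trans (by simp [hθd])
  obtain ⟨δ, hδ⟩ := exists_detHom (chr hψ)
  have hδf : ∀ n : N, δ ⟨n, hNT n.2⟩ = f n ^ charDegree ψ := fun n => Units.ext (by
    have := detChar_of_center hψ (z := ⟨n, hNT n.2⟩) (ω := f n)
      ((mem_charCenter (chr hψ) _).2 (by rw [he, e1, norm_mul, hθd, norm_hom, mul_one])) (by rw [he, e1, mul_comm])
    rw [hδ] at this
    simpa using this)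
  obtain ⟨m, hm⟩ := hN.exists_card_eq
  obtain ⟨k, hk⟩ := exists_pow_mul_eq_self (x := f) (a := charDegree ψ) (b := Nat.card N)
    (hm ▸ ((hp.out.coprime_iff_not_dvd.2 fun q => d₁ (q.mul_left _)).symm.pow_right m))
    (by ext x; simpa using hom_pow_card f x) Nat.card_pos.ne'
  have hη : ∀ n : N, (((δ ^ k) ⟨n, hNT n.2⟩ : ℂˣ) : ℂ) = θ n := fun n => by
    rw [MonoidHom.pow_apply, hδf, ← pow_mul, ← MonoidHom.pow_apply, hk]
  have hq : ∀ β, IsIrrCharacter (T ⧸ N.subgroupOf T) β → ¬ p ∣ charDegree β := by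
    intro β hβ hd
    have hβ' := irr_comp_surj hβ (QuotientGroup.mk' (N.subgroupOf T)) (QuotientGroup.mk'_surjective _)
    refine ovv _ (irr_mul_hom hβ' (δ ^ k)) ?_ (by rw [deg_mul_hom, deg_comp]; exact hd.mul_left _)
    have : (fun n : N => ((fun x => β (QuotientGroup.mk' (N.subgroupOf T) x)) * fun g => (((δ ^ k) g : ℂˣ) : ℂ))
        ⟨n, hNT n.2⟩) = β 1 • θ := funext fun n => by
      rw [Pi.mul_apply, hη, QuotientGroup.mk'_apply, (QuotientGroup.eq_one_iff (⟨n, hNT n.2⟩ : T)).2 (mem_subgroupOf.2 n.2)]; rfl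
    rw [this, H3.inner_smul_left, irr_inner_self hθ, mul_one]
    exact irr_one_ne_zero hβ
  have hs : IsPSolvable p (T ⧸ N.subgroupOf T) :=
    H2.psv_of_surj (H2.psv_of_inj hG T.subtype Subtype.val_injective) _ (QuotientGroup.mk'_surjective _)
  obtain ⟨Q, hQ⟩ := H1.exists_sylow_le_of_not_dvd (p := p) (K := T) fun q => d₁ (q.mul_right _)
  let g : Q →* T ⧸ N.subgroupOf T := (QuotientGroup.mk' _).comp (inclusion hQ)
  obtain ⟨R, hR⟩ := ((Q.isPGroup'.to_subgroup ⊤).map g).exists_le_sylow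
  haveI := ito_psolv hs hq R
  have hc := comm_of_not_dvd hq R.isPGroup'
  have k1 : derivedSeries Q 1 ≤ g.ker := by
    rw [derivedSeries_one, _root_.commutator_def, commutator_le]
    intro a _ b _
    rw [MonoidHom.mem_ker, map_commutatorElement, commutatorElement_eq_one_iff_mul_comm]
    exact congrArg Subtype.val (hc.1.1 ⟨_, hR (mem_map_of_mem g (mem_top a))⟩ ⟨_, hR (mem_map_of_mem g (mem_top b))⟩)
  have k2 : derivedSeries Q 2 = ⊥ := by
    rw [derivedSeries_succ, eq_bot_iff, commutator_le]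
    intro a ha b hb
    rw [mem_bot, commutatorElement_eq_one_iff_mul_comm]
    exact Subtype.ext (hab _ (mem_subgroupOf.1 ((QuotientGroup.eq_one_iff (inclusion hQ a)).1 (k1 ha))) _
      (mem_subgroupOf.1 ((QuotientGroup.eq_one_iff (inclusion hQ b)).1 (k1 hb))))
  have := map_derivedSeries_eq (f := (Sylow.equiv Q P).toMonoidHom) (Sylow.equiv Q P).surjective 2
  rw [← this, k2, Subgroup.map_bot]

def infl (p : ℕ) (N : Subgroup G) [N.Normal] (χ : {χ : IrrCharacter (G ⧸ N) // p ∣ charDegree (χ : G ⧸ N → ℂ)}) :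
    {χ : IrrCharacter G // p ∣ charDegree (χ : G → ℂ)} :=
  ⟨⟨fun x => χ.1.1 (QuotientGroup.mk' N x), irr_comp_surj χ.1.2 _ (QuotientGroup.mk'_surjective N)⟩,
    by rw [deg_comp]; exact χ.2⟩

theorem infl_inj (p : ℕ) (N : Subgroup G) [N.Normal] : Function.Injective (infl p N) := fun a b e => by
  refine Subtype.ext (Subtype.ext (funext fun x => ?_))
  obtain ⟨x, rfl⟩ := QuotientGroup.mk_surjective x
  exact congrFun (congrArg (fun c => c.1.1) e) x
end

theorem main (p : ℕ) [hp : Fact p.Prime] (G : Type u) [Group G] [Finite G] : IsPSolvable p G → ∀ P : Sylow p G,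
    derivedSeries P (Nat.card {χ : IrrCharacter G // p ∣ charDegree (χ : G → ℂ)} + 1) = ⊥ := by
  refine H1.group_induction (P := fun G _ _ => IsPSolvable p G → ∀ P : Sylow p G,
    derivedSeries P (Nat.card {χ : IrrCharacter G // p ∣ charDegree (χ : G → ℂ)} + 1) = ⊥) ?_ G
  intro G _ _ ih h P
  rcases subsingleton_or_nontrivial G with _ | c
  · exact eq_bot_of_subsingleton _
  have key : ∀ (N : Subgroup G) [N.Normal], N ≠ ⊥ → ∀ x ∈ derivedSeries P
      (Nat.card {χ : IrrCharacter (G ⧸ N) // p ∣ charDegree (χ : G ⧸ N → ℂ)} + 1), (x : G) ∈ N := by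
    intro N _ h0 x hx
    have := ih _ (H1.card_quotient_lt h0) (H2.psv_of_surj h _ (QuotientGroup.mk'_surjective N))
      (P.mapSurjective (QuotientGroup.mk'_surjective N))
    let g : P →* P.mapSurjective (QuotientGroup.mk'_surjective N) :=
      ((QuotientGroup.mk' N).comp (P : Subgroup G).subtype).codRestrict _ fun x => by
        rw [Sylow.coe_mapSurjective]; exact mem_map_of_mem _ x.2
    have k := map_derivedSeries_le_derivedSeries g _ (mem_map_of_mem g hx)
    rw [this, mem_bot] at k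
    exact (QuotientGroup.eq_one_iff _).1 (congrArg Subtype.val k)
  obtain ⟨M, _, a, b | b⟩ := H1.exists_normal_of_isPSolvable h (MonoidHom.id G) Function.surjective_id c
  · have h0 := H2.center_ne_bot b a
    haveI : (M ⊓ centralizer (M : Set G)).Normal := inferInstance
    have hab : ∀ x ∈ M ⊓ centralizer (M : Set G), ∀ y ∈ M ⊓ centralizer (M : Set G), x * y = y * x :=
      fun x hx y hy => mem_centralizer_iff.1 hy.2 x hx.1
    have hN : IsPGroup p ↥(M ⊓ centralizer (M : Set G)) := b.to_le inf_le_left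
    generalize M ⊓ centralizer (M : Set G) = N at *
    by_cases hk : ∀ χ, IsIrrCharacter G χ → p ∣ charDegree χ → ∀ n ∈ N, χ n = χ 1
    · rcases Nat.eq_zero_or_pos (Nat.card {χ : IrrCharacter G // p ∣ charDegree (χ : G → ℂ)}) with e | e
      · have hd : ∀ χ, IsIrrCharacter G χ → ¬ p ∣ charDegree χ := fun χ hχ q =>
          (Nat.card_pos_iff.2 ⟨⟨⟨⟨χ, hχ⟩, q⟩⟩, inferInstance⟩).ne' e
        haveI := ito_psolv h hd P
        have hc := comm_of_not_dvd hd P.isPGroup'
        rw [e, derivedSeries_one, commutator_eq_bot_iff_center_eq_top]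
        exact eq_top_iff.2 fun a _ => mem_center_iff.2 fun b => hc.1.1 b a
      · exact le_bot_iff.1 (twostep h N hN h0 hab hk P ▸ anti (by omega))
    · push Not at hk
      obtain ⟨χ, hχ, hd, n, hn, hne⟩ := hk
      have lt : Nat.card {χ : IrrCharacter (G ⧸ N) // p ∣ charDegree (χ : G ⧸ N → ℂ)} <
          Nat.card {χ : IrrCharacter G // p ∣ charDegree (χ : G → ℂ)} := by
        refine lt_of_le_of_ne (Nat.card_le_card_of_injective _ (infl_inj p N)) fun e => ?_
        obtain ⟨φ, hφ⟩ := ((Nat.bijective_iff_injective_and_card _).2 ⟨infl_inj p N, e⟩).2 ⟨⟨χ, hχ⟩, hd⟩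
        have q : (fun x => φ.1.1 (QuotientGroup.mk' N x)) = χ := congrArg (fun c => c.1.1) hφ
        refine hne ?_
        rw [← q]
        simp [(QuotientGroup.eq_one_iff n).2 hn]
      refine le_bot_iff.1 (le_trans (anti (Nat.succ_le_succ lt)) ?_)
      rw [derivedSeries_succ, commutator_le]
      intro x hx y hy
      rw [mem_bot, commutatorElement_eq_one_iff_mul_comm]
      exact Subtype.ext (hab _ (key N h0 x hx) _ (key N h0 y hy))
  · refine (eq_bot_iff_forall _).2 fun x hx => ?_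
    have k := key M a x (anti (Nat.succ_le_succ (Nat.card_le_card_of_injective _ (infl_inj p M))) hx)
    obtain ⟨j, hj⟩ := P.isPGroup' x
    have d1 : orderOf (x : G) ∣ Nat.card M := by
      simpa using orderOf_dvd_natCard (⟨x, k⟩ : M)
    have d2 : orderOf (x : G) ∣ p ^ j := orderOf_dvd_of_pow_eq_one (congrArg Subtype.val hj)
    exact Subtype.ext (orderOf_eq_one_iff.1 (Nat.eq_one_of_dvd_coprimes (b.pow_right j) d1 d2))

/-- Let p be a prime, G a finite p-solvable group and P a Sylow p-subgroup of G. If n is the number of irreducible complex characters of G whose degree is divisible by p, then the (n+1)-st term of the derived series of P is trivial. (The p-solvable case has a direct inductive proof.) -/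
theorem result {G : Type*} [Group G] [Finite G] (p : ℕ) [Fact p.Prime] (hG : Cfsg.IsPSolvable p G) (P : Sylow p G) : derivedSeries ↥(P : Subgroup G) (Nat.card {χ : Cfsg.IrrCharacter G // p ∣ Cfsg.charDegree (χ : G → ℂ)} + 1) = ⊥ := by
  exact main p G hG P

end Cfsg.Agent.S4768
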