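import Cfsg.Statements.S4774
import Cfsg.Agent.H3.G2e

set_option autoImplicit false
open Cfsg

namespace Cfsg.Agent.S4774

open H3 H3.G2 H5

/-- Let F be a finite field of odd characteristic t with q > 5 elements and let S be isomorphic to PSL(2,F) or to SL(2,F). Then the vertices of the character degree graph of S are the primes dividing q(q²−1); the prime t is adjacent to no vertex; two distinct primes dividing q² − 1 are adjacent exactly when one of them is 2, or both divide q + 1, or both divide q − 1. -/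
theorem result (F : Type*) [Field F] [Fintype F] (t : ℕ) [Fact t.Prime] [CharP F t] (ht : t ≠ 2) (q : ℕ) (hq : Fintype.card F = q) (h5 : 5 < q) {S : Type*} [Group S] [Finite S] (hS : Nonempty (S ≃* Matrix.ProjectiveSpecialLinearGroup (Fin 2) F) ∨ Nonempty (S ≃* Matrix.SpecialLinearGroup (Fin 2) F)) : Cfsg.degreePrimes S = {r : ℕ | r.Prime ∧ r ∣ q * (q ^ 2 - 1)} ∧ ∀ r s : ℕ, (Cfsg.degreeGraph S).Adj r s ↔ (r ≠ s ∧ r.Prime ∧ s.Prime ∧ r ∣ q ^ 2 - 1 ∧ s ∣ q ^ 2 - 1 ∧ (r = 2 ∨ s = 2 ∨ (r ∣ q + 1 ∧ s ∣ q + 1) ∨ (r ∣ q - 1 ∧ s ∣ q - 1))) := by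
  classical
  subst hq
  obtain ⟨f, hf, hk⟩ := exists_surj hS
  obtain ⟨k, ho⟩ : Odd (Fintype.card F) := odd_iff.2 (by rwa [ringChar.eq F t])
  obtain ⟨a1, a2, a3⟩ := degs_ge hf hk (by omega) h5.ne'
  obtain ⟨n, hp, hn⟩ := FiniteField.card F t
  have e : Fintype.card F ^ 2 - 1 = (Fintype.card F + 1) * (Fintype.card F - 1) := by simpa using Nat.sq_sub_sq _ 1
  have d1 : (Fintype.card F + 1) / 2 ∣ Fintype.card F + 1 := Nat.div_dvd_of_dvd (by omega)
  have d2 : (Fintype.card F - 1) / 2 ∣ Fintype.card F - 1 := Nat.div_dvd_of_dvd (by omega)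
  have t1 : 2 ∣ Fintype.card F + 1 := by omega
  have t2 : 2 ∣ Fintype.card F - 1 := by omega
  refine ⟨Set.ext fun r => and_congr_right fun hr => ?_, fun r s => and_congr_right fun hrs =>
    and_congr_right fun hr => and_congr_right fun hs => ?_⟩
  · rw [e, hr.dvd_mul, hr.dvd_mul]
    refine ⟨fun ⟨d, h1, h2⟩ => ?_, by rintro (h | h | h); exacts [⟨_, a1, h⟩, ⟨_, a2, h⟩, ⟨_, a3, h⟩]⟩
    rcases degs_le hf h1 with rfl | rfl | rfl | rfl | ⟨-, rfl | rfl⟩
    exacts [absurd h2 hr.not_dvd_one, .inl h2, .inr (.inl h2), .inr (.inr h2), .inr (.inl (h2.trans d1)),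
      .inr (.inr (h2.trans d2))]
  · have c := (Nat.coprime_primes hr hs).2 hrs
    rw [e, hr.dvd_mul, hs.dvd_mul]
    refine ⟨fun ⟨d, h1, h2⟩ => ?_, fun ⟨h1, h2, h⟩ => ?_⟩
    · have b1 := dvd_of_mul_right_dvd h2
      have b2 := dvd_of_mul_left_dvd h2
      rcases degs_le hf h1 with rfl | rfl | rfl | rfl | ⟨-, rfl | rfl⟩
      · exact absurd b1 hr.not_dvd_one
      · rw [hn] at b1 b2
        exact absurd (((Nat.prime_dvd_prime_iff_eq hr hp).1 (hr.dvd_of_dvd_pow b1)).trans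
          ((Nat.prime_dvd_prime_iff_eq hs hp).1 (hs.dvd_of_dvd_pow b2)).symm) hrs
      · tauto
      · tauto
      · have := b1.trans d1; have := b2.trans d1; tauto
      · have := b1.trans d2; have := b2.trans d2; tauto
    · have : (r ∣ Fintype.card F + 1 ∧ s ∣ Fintype.card F + 1) ∨ (r ∣ Fintype.card F - 1 ∧ s ∣ Fintype.card F - 1) := by
        rcases h with rfl | rfl | h <;> tauto
      rcases this with h | h
      exacts [⟨_, a2, c.mul_dvd_of_dvd_of_dvd h.1 h.2⟩, ⟨_, a3, c.mul_dvd_of_dvd_of_dvd h.1 h.2⟩]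

end Cfsg.Agent.S4774
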