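import Cfsg.Statements.S4784
import Cfsg.Agent.H3.Cw

set_option autoImplicit false
open Cfsg

namespace Cfsg.Agent.S4784

open H3

/-- Let H be a subgroup of the finite group G and consider the permutation character of G on the cosets of H (the function induced from the principal character of H). Then exactly one irreducible constituent of it is real-valued with Frobenius–Schur indicator +1 (namely the principal character) if and only if the normal core of H has odd index in G. -/
theorem result {G : Type*} [Group G] [Fintype G] (H : Subgroup G) : Nat.card {χ : Cfsg.IrrCharacter G // Cfsg.classInner (Cfsg.indFun H (fun _ : H => (1 : ℂ))) (χ : G → ℂ) ≠ 0 ∧ (∀ g : G, (starRingEnd ℂ) ((χ : G → ℂ) g) = (χ : G → ℂ) g) ∧ (Nat.card G : ℂ)⁻¹ * ∑ g : G, (χ : G → ℂ) (g * g) = 1} = 1 ↔ Odd H.normalCore.index := by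
  classical
  have := Fintype.ofFinite H
  have h1 : ∀ g, indFun H (fun _ => (1 : ℂ)) g = Nat.card (MulAction.fixedBy (G ⧸ H) g) :=
    congrFun (indFun_one_eq_perm H)
  have h2 : classInner (indFun H fun _ => (1 : ℂ)) (fun _ => 1) = 1 := by
    rw [inner_indFun_left H _ (class_const 1), irr_inner_self isIrr_one]
  have h3 : ∀ g, g ∈ H.normalCore ↔ MulAction.fixedBy (G ⧸ H) g = Set.univ := fun g => by
    rw [Subgroup.normalCore_eq_ker, MonoidHom.mem_ker, Set.eq_univ_iff_forall, Equiv.ext_iff]; rfl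
  have hc := char_indFun H (char_one (G := H))
  rw [Nat.card_eq_one_iff_exists]
  constructor
  · rintro ⟨χ, h⟩
    have h' : ∀ ψ, IsIrrCharacter G ψ → classInner (indFun H fun _ => (1 : ℂ)) ψ ≠ 0 →
        fs ψ = 1 → ψ = fun _ => 1 := fun ψ a b c => congrArg (fun z => z.1.1)
      ((h ⟨⟨ψ, a⟩, b, fun g => Complex.conj_eq_iff_im.2 (real_of_fs a (c.trans_ne one_ne_zero) g),
        c⟩).trans (h ⟨⟨_, isIrr_one⟩, h2.trans_ne one_ne_zero, by simp, fs_one⟩).symm)
    by_contra e
    obtain ⟨t, ht⟩ := exists_prime_orderOf_dvd_card' (G := G ⧸ H.normalCore)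
      (hp := ⟨Nat.prime_two⟩) 2 (Nat.not_odd_iff_even.1 e).two_dvd
    obtain ⟨t, rfl⟩ := QuotientGroup.mk_surjective t
    obtain ⟨a, b⟩ := orderOf_eq_prime_iff.1 ht
    rw [sq, ← QuotientGroup.mk_mul, QuotientGroup.eq_one_iff, h3] at a
    rw [Ne, QuotientGroup.eq_one_iff, h3] at b
    have s : ∀ g : G, MulAction.fixedBy (G ⧸ H) g ⊆ MulAction.fixedBy (G ⧸ H) (g * g) :=
      fun g x hx => by
        rw [MulAction.mem_fixedBy] at hx ⊢
        rw [mul_smul, hx, hx]
    have c : ∑ g : G, Nat.card (MulAction.fixedBy (G ⧸ H) g) <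
        ∑ g : G, Nat.card (MulAction.fixedBy (G ⧸ H) (g * g)) :=
      Finset.sum_lt_sum (fun g _ => Set.ncard_le_ncard (s g))
        ⟨t, Finset.mem_univ _, Set.ncard_lt_ncard (ssubset_of_subset_of_ne (s t) (a ▸ b))⟩
    obtain ⟨m, d, f⟩ := char_eq_sum_nat hc
    have k : fs (indFun H fun _ => (1 : ℂ)) = ∑ χ : IrrCharacter G, m χ * fs χ.1 := by
      rw [f]
      simp only [fs, Finset.sum_apply, Pi.smul_apply, smul_eq_mul, Finset.mul_sum]
      rw [Finset.sum_comm]
      exact Finset.sum_congr rfl fun _ _ => Finset.sum_congr rfl fun _ _ => by ring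
    have l : (fs (indFun H fun _ => (1 : ℂ))).re ≤ 1 := by
      rw [k, ← Finset.add_sum_erase _ _ (Finset.mem_univ ⟨_, isIrr_one⟩), ← d, h2, fs_one,
        Complex.add_re, Complex.re_sum]
      simp only [mul_one, Complex.one_re, add_le_iff_nonpos_right]
      refine Finset.sum_nonpos fun ψ hψ => ?_
      rcases fs_cases ψ.2 with e | e | e
      · simp [e]
      · by_cases e' : m ψ = 0
        · simp [e']
        · exact absurd (Subtype.ext (h' _ ψ.2 (d ψ ▸ by exact_mod_cast e') e))
            (Finset.mem_erase.1 hψ).1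
      · simp [e]
    simp only [classInner, h1, map_one, mul_one] at h2
    rw [inv_mul_eq_one₀ (card_ne_zero' G)] at h2
    replace h2 : Nat.card G = ∑ g : G, Nat.card (MulAction.fixedBy (G ⧸ H) g) := by
      exact_mod_cast h2
    simp only [fs, h1] at l
    rw [← Nat.cast_sum, ← Complex.ofReal_natCast, ← Complex.ofReal_natCast, ← Complex.ofReal_inv,
      ← Complex.ofReal_mul, Complex.ofReal_re, inv_mul_le_iff₀ (by exact_mod_cast Nat.card_pos),
      mul_one, Nat.cast_le] at l
    omega
  · intro h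
    refine ⟨⟨⟨_, isIrr_one⟩, h2.trans_ne one_ne_zero, by simp, fs_one⟩, ?_⟩
    rintro ⟨⟨χ, hχ⟩, a, b, c⟩
    obtain ⟨ψ, d, e⟩ := exists_deflate_irr (QuotientGroup.mk' H.normalCore)
      (QuotientGroup.mk'_surjective _) hχ fun g hg => ker_of_constituent hc hχ a (by
        rw [h1, h1, (h3 g).1 ((QuotientGroup.eq_one_iff g).1 hg), (h3 1).1 (one_mem _)])
    have := irr_real_odd h d fun g => by
      obtain ⟨g, rfl⟩ := QuotientGroup.mk'_surjective _ g
      rw [e]; exact Complex.conj_eq_iff_im.1 (b g)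
    exact Subtype.ext (Subtype.ext (funext fun g => (e g).symm.trans (congrFun this _)))

end Cfsg.Agent.S4784
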