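import Cfsg.Statements.S4796
import Cfsg.Agent.H3.Cy
import Cfsg.Agent.H1.Frob

set_option autoImplicit false
open Cfsg

namespace Cfsg.Agent.S4796

open H3

/-- Let G be a finite group with a faithful irreducible complex character χ whose codegree #G / χ(1) is a prime p (for a faithful character the kernel is trivial, so the codegree is #G / χ(1)). Then either G is cyclic of order p, or G is a Frobenius group whose Frobenius kernel has order p: some proper non-trivial subgroup H satisfies H ∩ gHg⁻¹ = 1 for every element g outside H, and the set of elements lying in no conjugate of H, together with the identity, has exactly p elements. -/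
theorem result {G : Type*} [Group G] [Finite G] (χ : Cfsg.IrrCharacter G) (hfaith : ∀ g : G, (χ : G → ℂ) g = (χ : G → ℂ) 1 → g = 1) (p : ℕ) (hp : p.Prime) (hcod : Nat.card G = p * Cfsg.charDegree (χ : G → ℂ)) : (IsCyclic G ∧ Nat.card G = p) ∨ ∃ H : Subgroup G, Cfsg.IsFrobeniusComplement H ∧ Nat.card ↥(Cfsg.frobeniusKernel H) = p := by
  obtain ⟨P, _, h1, h2, h3, h4⟩ := codeg_prime χ.2 hp hcod (ker_bot_of_faithful (irr_char χ.2) hfaith)
  have := Fact.mk hp
  by_cases h : charDegree χ.1 = 1
  · rw [h, mul_one] at hcod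
    exact Or.inl ⟨isCyclic_of_prime_card hcod, hcod⟩
  obtain ⟨H, hH⟩ := Subgroup.exists_right_complement'_of_coprime (N := P) (by
    rw [h1, h2]; exact (Nat.coprime_of_lt_prime (deg_pos χ.2).ne' h3 hp))
  have h5 : Nat.card H = charDegree χ.1 := hH.symm.index_eq_card ▸ h2
  have h6 : IsFrobeniusComplement H := H1.isFrob_of_fpf hH.sup_eq_top
    (fun e => hp.one_lt.ne' (by rw [← h1, e, Subgroup.card_bot]))
    (fun e => h (by rw [← h5, e, Subgroup.card_bot])) (H1.fpf_iff.2 fun x hx k hk e => by
      by_contra! c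
      have d := (eq_bot_or_eq_of_prime (h1 ▸ hp) ((Subgroup.zpowers_le).2 hk)).resolve_left
        (by simpa using c.2)
      refine c.1 (Subgroup.disjoint_def.1 hH.disjoint (h4 ?_) hx)
      rw [← d, H1.centralizer_zpowers, Subgroup.mem_centralizer_singleton_iff]
      exact e)
  obtain ⟨N, -, a, b, -⟩ := H1.IsFrob.exists_kernel h6
  refine Or.inr ⟨H, h6, ?_⟩
  rw [← a]
  exact Nat.eq_of_mul_eq_mul_right (deg_pos χ.2) (by rw [← hcod, ← h5]; exact b.card_mul_card)

end Cfsg.Agent.S4796
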