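import Cfsg.Statements.S4797
import Cfsg.Agent.H3.Cy

set_option autoImplicit false
open Cfsg

namespace Cfsg.Agent.S4797

open H3

/-- The codegree of an irreducible complex character χ of a finite group G is [G : ker χ] / χ(1), where ker χ is the set of elements at which χ takes the value χ(1). A non-trivial finite group is perfect if and only if no irreducible complex character of it has prime codegree. -/
theorem result {G : Type*} [Group G] [Finite G] [Nontrivial G] : commutator G = ⊤ ↔ ∀ χ : Cfsg.IrrCharacter G, ¬ ((Nat.card G / (Nat.card {g : G // (χ : G → ℂ) g = (χ : G → ℂ) 1} * Cfsg.charDegree (χ : G → ℂ)))).Prime := by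
  constructor
  · intro h χ hp
    have := charKer_normal (irr_class χ.2)
    have a := codeg_mul χ.2
    obtain ⟨ψ, b, c⟩ := exists_deflate_irr (QuotientGroup.mk' (charKer χ.1))
      (QuotientGroup.mk'_surjective _) χ.2 fun g hg =>
        (mem_charKer (irr_char χ.2) g).1 ((QuotientGroup.eq_one_iff g).1 hg)
    have d : charDegree ψ = charDegree χ.1 := by rw [← deg_comp (QuotientGroup.mk' _), funext c]
    obtain ⟨P, _, h1, h2, h3, h4⟩ := codeg_prime b hp (by rw [d, a]; rfl) (by
      rw [eq_bot_iff]
      intro x hx
      obtain ⟨x, rfl⟩ := QuotientGroup.mk'_surjective _ x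
      rw [mem_charKer (irr_char b), c, ← map_one (QuotientGroup.mk' _), c] at hx
      exact (QuotientGroup.eq_one_iff x).2 ((mem_charKer (irr_char χ.2) x).2 hx))
    have := Fact.mk hp
    have := isCyclic_of_prime_card h1
    have e : commutator (G ⧸ charKer χ.1) = ⊤ := by
      rw [commutator_def, ← Subgroup.map_top_of_surjective _ (QuotientGroup.mk'_surjective _),
        ← Subgroup.map_commutator, ← commutator_def, h]
    have f := comm_le_cent P
    rw [e, top_le_iff] at f
    rw [f, top_le_iff] at h4
    have g : commutator (G ⧸ charKer χ.1) = ⊥ := by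
      rw [commutator_def, Subgroup.commutator_eq_bot_iff_le_centralizer, ← h4, f]; exact le_top
    rw [h4, ← e, g, Subgroup.card_bot] at h1
    exact hp.one_lt.ne h1
  · intro h
    by_contra e
    have : Nontrivial (G ⧸ commutator G) := QuotientGroup.nontrivial_iff.2 e
    have : Group.IsSolvable (G ⧸ commutator G) :=
      inferInstanceAs (Group.IsSolvable (Abelianization G))
    obtain ⟨M', _, hM'⟩ := H1.exists_normal_prime_index (G := G ⧸ commutator G)
    let M := M'.comap (QuotientGroup.mk' _)
    have hM : M.index = M'.index := M'.index_comap_of_surjective (QuotientGroup.mk'_surjective _)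
    rw [← hM] at hM'
    have a := card_hom_trivial_on M (H1.commutator_le_of_prime_index hM')
    have : Nontrivial {f : G →* ℂˣ // ∀ n ∈ M, f n = 1} :=
      Finite.one_lt_card_iff_nontrivial.1 (a ▸ hM'.one_lt)
    obtain ⟨⟨f, b⟩, c⟩ := exists_ne (⟨1, fun _ _ => rfl⟩ : {f : G →* ℂˣ // ∀ n ∈ M, f n = 1})
    have d := codeg_mul (isIrr_hom f)
    refine h ⟨_, isIrr_hom f⟩ ?_
    rw [deg_hom, mul_one _] at d
    simp only [deg_hom]
    rw [d]
    have k : M ≤ charKer fun g => (f g : ℂ) := fun x hx =>
      (mem_charKer (char_hom f) x).2 (by simp [b x hx])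
    rcases (Nat.dvd_prime hM').1 (Subgroup.index_dvd_of_le k) with l | l
    · refine absurd (Subtype.ext (MonoidHom.ext fun x => ?_)) c
      have := (mem_charKer (char_hom f) x).1 (Subgroup.index_eq_one.1 l ▸ Subgroup.mem_top x)
      simpa using this
    · rwa [l]

end Cfsg.Agent.S4797
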