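import Cfsg.Statements.S4798
import Cfsg.Agent.H3.Chr

set_option autoImplicit false
open Cfsg

namespace Cfsg.Agent.S4798

/-- Let p be a prime and χ a faithful irreducible complex character of the finite group G (χ(g) = χ(1) only for g = 1), so that its codegree is #G / χ(1). Then #G / χ(1) is a power of p if and only if χ is induced from a character of a Sylow p-subgroup of G. -/
theorem result {G : Type*} [Group G] [Fintype G] (p : ℕ) [Fact p.Prime] (χ : Cfsg.IrrCharacter G) (hfaith : ∀ g : G, (χ : G → ℂ) g = (χ : G → ℂ) 1 → g = 1) : (∃ k : ℕ, Nat.card G = p ^ k * Cfsg.charDegree (χ : G → ℂ)) ↔ ∃ (P : Sylow p G) (θ : ↥(P : Subgroup G) → ℂ), Cfsg.IsCharacter ↥(P : Subgroup G) θ ∧ (χ : G → ℂ) = Cfsg.indFun (P : Subgroup G) θ := by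
  classical
  have hp : p.Prime := Fact.out
  constructor
  · rintro ⟨k, hk⟩
    obtain ⟨P⟩ : Nonempty (Sylow p G) := inferInstance
    have hd0 := H3.deg_pos χ.2
    obtain ⟨a, m, hm, hd⟩ := Nat.exists_eq_pow_mul_and_not_dvd hd0.ne' p hp.ne_one
    obtain ⟨θ, h1, h2, h3⟩ : ∃ θ, Cfsg.IsIrrCharacter P θ ∧
        Cfsg.classInner (fun x : P => (χ : G → ℂ) x) θ ≠ 0 ∧ ¬ p ^ (a + 1) ∣ Cfsg.charDegree θ := by
      by_contra hc
      push Not at hc
      obtain ⟨c, hc1, hc2⟩ := H3.char_eq_sum_nat (H3.char_restrict (H3.irr_char χ.2) P)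
      have h1 := congrFun hc2 1
      simp only [OneMemClass.coe_one, Finset.sum_apply, Pi.smul_apply, smul_eq_mul, H3.ideg] at h1
      have h2 : Cfsg.charDegree (χ : G → ℂ) = ∑ θ : Cfsg.IrrCharacter P,
        c θ * Cfsg.charDegree (θ : P → ℂ) := by exact_mod_cast h1
      have h3 : p ^ (a + 1) ∣ Cfsg.charDegree (χ : G → ℂ) := h2 ▸ Finset.dvd_sum fun θ _ => by
        by_cases e : c θ = 0
        · simp [e]
        · exact (hc θ θ.2 (fun e' => e (by exact_mod_cast (hc1 θ).symm.trans e'))).mul_left _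
      rw [hd, pow_succ, Nat.mul_dvd_mul_iff_left (pow_pos hp.pos a)] at h3
      exact hm h3
    obtain ⟨j, hj⟩ := H3.degree_prime_pow P.isPGroup' h1
    rw [H3.deg_of_eq hj, Nat.pow_dvd_pow_iff_le_right hp.one_lt] at h3
    refine ⟨P, θ, H3.irr_char h1, ?_⟩
    have hI := H3.char_indFun _ (H3.irr_char h1)
    have h4 := H3.char_sub_of_inner_ne_zero hI χ.2 (by
      rw [H3.inner_indFun_left _ _ (H3.irr_class χ.2)]
      exact fun e => h2 (H3.inner_eq_zero_symm.1 e))
    have h5 : Cfsg.indFun (P : Subgroup G) θ 1 = ((P : Subgroup G).index * p ^ j : ℕ) := by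
      rw [H3.indFun_one, hj]; simp
    have h6 := H3.degree_le_of_sub h4 h5 (H3.ideg χ)
    have h7 : (P : Subgroup G).index ∣ m := by
      have h8 := (P : Subgroup G).index_dvd_card
      rw [hk, hd, ← mul_assoc, ← pow_add] at h8
      exact ((hp.coprime_iff_not_dvd.2 P.not_dvd_index).symm.pow_right _).dvd_of_dvd_mul_left h8
    have h8 : (P : Subgroup G).index * p ^ j ≤ Cfsg.charDegree (χ : G → ℂ) := by
      rw [hd, mul_comm]
      exact Nat.mul_le_mul (Nat.pow_le_pow_right hp.pos (by omega))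
        (Nat.le_of_dvd (Nat.pos_of_ne_zero fun e => hm (by simp [e])) h7)
    exact (H3.eq_of_sub_char_of_degree h4 (by rw [h5, H3.ideg, le_antisymm h8 h6])).symm
  · rintro ⟨P, θ, h1, h2⟩
    have h3 := H3.irr_of_indFun_irr _ h1 (h2 ▸ χ.2)
    obtain ⟨j, hj⟩ := H3.degree_prime_pow P.isPGroup' h3
    obtain ⟨n, hn⟩ := IsPGroup.iff_card.1 P.isPGroup'
    have h4 := H3.degree_dvd_card h3 hj
    rw [hn, Nat.pow_dvd_pow_iff_le_right hp.one_lt] at h4
    refine ⟨n - j, ?_⟩
    rw [H3.deg_of_eq (n := (P : Subgroup G).index * p ^ j) (by rw [h2, H3.indFun_one, hj]; simp),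
      ← (P : Subgroup G).card_mul_index, hn, mul_comm _ (p ^ j), ← mul_assoc, ← pow_add,
      Nat.sub_add_cancel h4]

end Cfsg.Agent.S4798
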