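import Cfsg.Statements.S4801
import Cfsg.Agent.H3.Chr

set_option autoImplicit false
open Cfsg

namespace Cfsg.Agent.S4801

/-- The codegree of an irreducible complex character χ of a finite group G is [G : ker χ] / χ(1), where ker χ is the set of elements at which χ takes the value χ(1). Let S be a finite simple group and G a finite group such that every codegree of an irreducible character of S is a codegree of an irreducible character of G. Then the order of S divides the order of G. -/
theorem result {S : Type*} [Group S] [Finite S] (hS : IsSimpleGroup S) {G : Type*} [Group G] [Finite G] (hsub : ∀ χ : Cfsg.IrrCharacter S, ∃ ψ : Cfsg.IrrCharacter G, (Nat.card S / (Nat.card {g : S // (χ : S → ℂ) g = (χ : S → ℂ) 1} * Cfsg.charDegree (χ : S → ℂ))) = (Nat.card G / (Nat.card {g : G // (ψ : G → ℂ) g = (ψ : G → ℂ) 1} * Cfsg.charDegree (ψ : G → ℂ)))) : Nat.card S ∣ Nat.card G := by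
  classical
  rw [← Nat.factorization_prime_le_iff_dvd Nat.card_pos.ne' Nat.card_pos.ne']
  intro p hp
  by_cases h0 : p ∣ Nat.card S
  swap
  · simp [Nat.factorization_eq_zero_of_not_dvd h0]
  obtain ⟨χ, h1, h2⟩ : ∃ χ : Cfsg.IrrCharacter S, (χ : S → ℂ) ≠ (fun _ => 1) ∧
      ¬ p ∣ Cfsg.charDegree (χ : S → ℂ) := by
    by_contra hc
    push Not at hc
    let o : Cfsg.IrrCharacter S := ⟨_, H3.isIrr_one⟩
    rw [← H3.sum_deg_sq, ← Finset.add_sum_erase _ _ (Finset.mem_univ o)] at h0
    have := (Nat.dvd_add_left (Finset.dvd_sum fun χ hχ => Dvd.dvd.pow (hc χ fun e =>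
      (Finset.mem_erase.1 hχ).1 (Subtype.ext e)) two_ne_zero)).1 h0
    rw [H3.deg_of_eq (n := 1) (by simp [o])] at this
    exact hp.one_lt.ne' (by simpa using this)
  obtain ⟨ψ, h⟩ := hsub χ
  have h3 := H3.codeg_mul χ.2
  have h4 := H3.codeg_mul ψ.2
  rw [h, ((H3.charKer_normal (H3.irr_class χ.2)).eq_bot_or_eq_top).resolve_right
    (H3.charKer_ne_top χ.2 h1), Subgroup.index_bot] at h3
  have h5 := (Dvd.intro _ h4).trans (Subgroup.index_dvd_card _)
  have h6 := ne_zero_of_dvd_ne_zero Nat.card_pos.ne' h5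
  rw [← h3, Nat.factorization_mul h6 (H3.deg_pos χ.2).ne']
  simp only [Finsupp.add_apply, Nat.factorization_eq_zero_of_not_dvd h2, add_zero]
  exact (Nat.factorization_le_iff_dvd h6 Nat.card_pos.ne').2 h5 p

end Cfsg.Agent.S4801
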