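import Cfsg.Statements.S4802
import Cfsg.Agent.H3.Chr

set_option autoImplicit false
open Cfsg

namespace Cfsg.Agent.S4802

/-- Let N < M be normal subgroups of the finite group G and g ∈ M ∖ N. Then the conjugacy class of g is exactly M ∖ N if and only if every irreducible complex character of G whose kernel contains N takes the same value at all elements of M ∖ N, and every irreducible complex character of G whose kernel does not contain N vanishes at g. -/
theorem result {G : Type*} [Group G] [Finite G] (N M : Subgroup G) [N.Normal] [M.Normal] (hNM : N < M) (g : G) (hgM : g ∈ M) (hgN : g ∉ N) : {h : G | IsConj g h} = (M : Set G) \ (N : Set G) ↔ ((∀ χ : Cfsg.IrrCharacter G, (∀ x ∈ N, (χ : G → ℂ) x = (χ : G → ℂ) 1) → ∀ x ∈ M, x ∉ N → ∀ y ∈ M, y ∉ N → (χ : G → ℂ) x = (χ : G → ℂ) y) ∧ (∀ χ : Cfsg.IrrCharacter G, (∃ x ∈ N, (χ : G → ℂ) x ≠ (χ : G → ℂ) 1) → (χ : G → ℂ) g = 0)) := by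
  have := Fintype.ofFinite G
  classical
  constructor
  · intro h
    have h1 : ∀ x ∈ M, x ∉ N → IsConj g x := fun x a b => by
      have : x ∈ (M : Set G) \ (N : Set G) := ⟨a, b⟩
      rwa [← h] at this
    refine ⟨fun χ _ x a b y c d => H3.class_isConj (H3.irr_class χ.2)
      ((h1 x a b).symm.trans (h1 y c d)), fun χ hk => ?_⟩
    have h2 := H3.sum_coset_eq_zero N χ.2 hk g
    rw [Finset.sum_congr rfl (g := fun _ => (χ : G → ℂ) g) fun n _ =>
      (H3.class_isConj (H3.irr_class χ.2) (h1 _ (M.mul_mem (hNM.le n.2) hgM) fun e =>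
        hgN ((N.mul_mem_cancel_left n.2).1 e))).symm] at h2
    simpa using h2
  · rintro ⟨h1, h2⟩
    ext z
    constructor
    · intro hz
      obtain ⟨c, rfl⟩ := isConj_iff.1 hz
      exact ⟨Subgroup.Normal.conj_mem inferInstance _ hgM c, fun e => hgN
        (by simpa [mul_assoc] using Subgroup.Normal.conj_mem' (inferInstance : N.Normal) _ e c)⟩
    · rintro ⟨a, b⟩
      refine H3.isConj_of_zero_or_eq fun χ hχ => ?_
      by_cases hk : ∃ x ∈ N, χ x ≠ χ 1
      · exact Or.inl (h2 ⟨χ, hχ⟩ hk)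
      · push Not at hk
        exact Or.inr (h1 ⟨χ, hχ⟩ hk z a b g hgM hgN)

end Cfsg.Agent.S4802
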