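import Cfsg.Statements.S4808
import Cfsg.Agent.H3.Chr

set_option autoImplicit false
open Cfsg

namespace Cfsg.Agent.S4808

/-- The codegree of an irreducible complex character χ of a finite group G is [G : ker χ] / χ(1), where ker χ is the set of elements at which χ takes the value χ(1). A prime divides the order of G if and only if it divides the codegree of some irreducible complex character of G. -/
theorem result {G : Type*} [Group G] [Finite G] (p : ℕ) (hp : p.Prime) : p ∣ Nat.card G ↔ ∃ χ : Cfsg.IrrCharacter G, p ∣ (Nat.card G / (Nat.card {g : G // (χ : G → ℂ) g = (χ : G → ℂ) 1} * Cfsg.charDegree (χ : G → ℂ))) := by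
  classical
  constructor
  · intro h
    by_contra hc
    push Not at hc
    have := Fact.mk hp
    obtain ⟨P⟩ : Nonempty (Sylow p G) := inferInstance
    let N := Subgroup.normalClosure ((P : Subgroup G) : Set G)
    have h1 := H3.sum_deg_sq (G := G)
    rw [← Finset.sum_filter_add_sum_filter_not _ (fun χ : Cfsg.IrrCharacter G =>
      ∀ n ∈ N, χ.1 n = χ.1 1), H3.sum_deg_sq_ker] at h1
    have h2 : ¬ p ∣ N.index := fun e => P.not_dvd_index
      (e.trans (Subgroup.index_dvd_of_le Subgroup.le_normalClosure))
    rw [← h1] at h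
    refine h2 ((Nat.dvd_add_left (Finset.dvd_sum fun χ hχ => Dvd.dvd.pow ?_ two_ne_zero)).1 h)
    have h3 := H3.codeg_mul χ.2
    by_contra h4
    have h5 : ¬ p ∣ (H3.charKer (χ : G → ℂ)).index := fun e => by
      rw [← h3] at e
      exact (hp.dvd_mul.1 e).elim (hc χ) h4
    have := H3.charKer_normal (H3.irr_class χ.2)
    refine (Finset.mem_filter.1 hχ).2 fun n hn => (H3.mem_charKer (H3.irr_char χ.2) _).1
      (Subgroup.normalClosure_le_normal (fun x hx => H1.mem_of_coprime_index ?_) hn)
    obtain ⟨k, hk⟩ := IsPGroup.iff_orderOf.1 P.isPGroup' ⟨x, hx⟩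
    rw [← Subgroup.orderOf_coe] at hk
    rw [hk]
    exact (hp.coprime_iff_not_dvd.2 h5).pow_left k
  · rintro ⟨χ, h⟩
    exact (h.mul_right _).trans ((H3.codeg_mul χ.2).dvd.trans (Subgroup.index_dvd_card _))

end Cfsg.Agent.S4808
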