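import Cfsg.Statements.S4812
import Cfsg.Agent.H3.G2e

set_option autoImplicit false
open Cfsg

namespace Cfsg.Agent.S4812

open H3 H3.G2 H5

/-- Let F be a finite field of characteristic 2 with q ≥ 4 elements and let S be isomorphic to PSL(2,F) or to SL(2,F). Then the vertices of the character degree graph of S are the primes dividing q(q²−1), and two distinct primes are adjacent exactly when both divide q + 1 or both divide q − 1; so the graph has the three connected components {2}, the primes dividing q + 1 and the primes dividing q − 1, each complete. -/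
theorem result (F : Type*) [Field F] [Fintype F] [CharP F 2] (q : ℕ) (hq : Fintype.card F = q) (h4 : 4 ≤ q) {S : Type*} [Group S] [Finite S] (hS : Nonempty (S ≃* Matrix.ProjectiveSpecialLinearGroup (Fin 2) F) ∨ Nonempty (S ≃* Matrix.SpecialLinearGroup (Fin 2) F)) : Cfsg.degreePrimes S = {r : ℕ | r.Prime ∧ r ∣ q * (q ^ 2 - 1)} ∧ ∀ r s : ℕ, (Cfsg.degreeGraph S).Adj r s ↔ (r ≠ s ∧ r.Prime ∧ s.Prime ∧ ((r ∣ q + 1 ∧ s ∣ q + 1) ∨ (r ∣ q - 1 ∧ s ∣ q - 1))) := by
  classical
  subst hq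
  obtain ⟨f, hf, hk⟩ := exists_surj hS
  have ho : ¬ Odd (Fintype.card F) := fun h => odd_iff.1 h (ringChar.eq F 2)
  obtain ⟨a1, a2, a3⟩ := degs_ge hf hk h4 (fun e => ho (by rw [e]; decide))
  obtain ⟨n, hp, hn⟩ := FiniteField.card F 2
  have e : Fintype.card F ^ 2 - 1 = (Fintype.card F + 1) * (Fintype.card F - 1) := by simpa using Nat.sq_sub_sq _ 1
  refine ⟨Set.ext fun r => and_congr_right fun hr => ?_, fun r s => and_congr_right fun hrs =>
    and_congr_right fun hr => and_congr_right fun hs => ?_⟩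
  · rw [e, hr.dvd_mul, hr.dvd_mul]
    refine ⟨fun ⟨d, h1, h2⟩ => ?_, by rintro (h | h | h); exacts [⟨_, a1, h⟩, ⟨_, a2, h⟩, ⟨_, a3, h⟩]⟩
    rcases degs_le hf h1 with rfl | rfl | rfl | rfl | ⟨h, -⟩
    exacts [absurd h2 hr.not_dvd_one, .inl h2, .inr (.inl h2), .inr (.inr h2), absurd h ho]
  · have c := (Nat.coprime_primes hr hs).2 hrs
    refine ⟨fun ⟨d, h1, h2⟩ => ?_, by
      rintro (h | h); exacts [⟨_, a2, c.mul_dvd_of_dvd_of_dvd h.1 h.2⟩, ⟨_, a3, c.mul_dvd_of_dvd_of_dvd h.1 h.2⟩]⟩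
    have b1 := dvd_of_mul_right_dvd h2
    have b2 := dvd_of_mul_left_dvd h2
    rcases degs_le hf h1 with rfl | rfl | rfl | rfl | ⟨h, -⟩
    · exact absurd b1 hr.not_dvd_one
    · rw [hn] at b1 b2
      exact absurd (((Nat.prime_dvd_prime_iff_eq hr hp).1 (hr.dvd_of_dvd_pow b1)).trans
        ((Nat.prime_dvd_prime_iff_eq hs hp).1 (hs.dvd_of_dvd_pow b2)).symm) hrs
    exacts [.inl ⟨b1, b2⟩, .inr ⟨b1, b2⟩, absurd h ho]

end Cfsg.Agent.S4812
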