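import Cfsg.Statements.S4814
import Cfsg.Agent.H3.Chr

set_option autoImplicit false
open Cfsg

namespace Cfsg.Agent.S4814

/-- Let G be a finite group such that the sum, over the irreducible complex characters χ of G, of 1/χ(1)² is less than 2. Then every element of G is a product of two commutators. -/
theorem result {G : Type*} [Group G] [Finite G]
    (h : ∑ᶠ χ : Cfsg.IrrCharacter G, 1 / ‖(χ : G → ℂ) 1‖ ^ 2 < (2 : ℝ)) (g : G) :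
    ∃ a b c d : G, (a * b * a⁻¹ * b⁻¹) * (c * d * c⁻¹ * d⁻¹) = g := by
  classical
  have := Fintype.ofFinite G
  by_contra hc
  push Not at hc
  have h1 := H3.card_sol (fun x : (G × G) × G × G => x.1.1 * x.1.2 * x.1.1⁻¹ * x.1.2⁻¹ *
    (x.2.1 * x.2.2 * x.2.1⁻¹ * x.2.2⁻¹ * g⁻¹))
  have : IsEmpty {x : (G × G) × G × G // x.1.1 * x.1.2 * x.1.1⁻¹ * x.1.2⁻¹ *
    (x.2.1 * x.2.2 * x.2.1⁻¹ * x.2.2⁻¹ * g⁻¹) = 1} := ⟨fun x => hc x.1.1.1 x.1.1.2 x.1.2.1 x.1.2.2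
      (by rw [← mul_inv_eq_one, mul_assoc]; exact x.2)⟩
  rw [@Nat.card_of_isEmpty _ this, Nat.cast_zero, mul_zero] at h1
  have h2 : ∀ χ : Cfsg.IrrCharacter G, (χ : G → ℂ) 1 * ∑ x : (G × G) × G × G, (χ : G → ℂ)
      (x.1.1 * x.1.2 * x.1.1⁻¹ * x.1.2⁻¹ * (x.2.1 * x.2.2 * x.2.1⁻¹ * x.2.2⁻¹ * g⁻¹)) =
      (Nat.card G : ℂ) ^ 4 * ((χ : G → ℂ) g⁻¹ / (χ : G → ℂ) 1 ^ 3) := by
    intro χ
    have h0 := H3.irr_one_ne_zero χ.2
    have h3 := H3.sum_comm_mul χ.2 g⁻¹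
    rw [Fintype.sum_prod_type_right]
    dsimp only
    rw [Finset.sum_congr rfl (fun y _ => eq_div_of_mul_eq
      (pow_ne_zero 2 h0) (H3.sum_comm_mul χ.2 _)), ← Finset.sum_div, ← Finset.mul_sum,
      eq_div_of_mul_eq (pow_ne_zero 2 h0) h3]
    field_simp
  simp only [h2, ← Finset.mul_sum] at h1
  have h3 := (mul_eq_zero.1 h1.symm).resolve_left (pow_ne_zero _ (H3.card_ne_zero' G))
  rw [finsum_eq_sum_of_fintype] at h
  let o : Cfsg.IrrCharacter G := ⟨_, H3.isIrr_one⟩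
  rw [← Finset.add_sum_erase _ _ (Finset.mem_univ o)] at h h3
  have h4 : ‖∑ χ ∈ Finset.univ.erase o, (χ : G → ℂ) g⁻¹ / (χ : G → ℂ) 1 ^ 3‖ ≤
      ∑ χ ∈ Finset.univ.erase o, 1 / ‖(χ : G → ℂ) 1‖ ^ 2 := by
    refine (norm_sum_le _ _).trans (Finset.sum_le_sum fun χ _ => ?_)
    have h0 := norm_pos_iff.2 (H3.irr_one_ne_zero χ.2)
    rw [norm_div, norm_pow, div_le_div_iff₀ (by positivity) (by positivity)]
    have := H3.norm_char_le' (H3.irr_char χ.2) g⁻¹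
    calc _ ≤ ‖(χ : G → ℂ) 1‖ * ‖(χ : G → ℂ) 1‖ ^ 2 := by gcongr
      _ = _ := by ring
  rw [eq_neg_of_add_eq_zero_right h3] at h4
  simp [o] at h4 h
  linarith

end Cfsg.Agent.S4814
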