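import Cfsg.Statements.S4828
import Cfsg.Agent.H4.Cent

set_option autoImplicit false
open Cfsg

namespace Cfsg.Agent.S4828

open H4 H1 MonoidAlgebra
open scoped Pointwise


/-- Let p be a prime, M a maximal ideal of the algebraic integers containing p, and (Q, e) a Brauer pair of the finite group G (Q a p-subgroup, e a block of C_G(Q)). Then (Q, e) is a maximal Brauer pair of some block of G if and only if e contains an irreducible character θ such that θ takes the value θ(1) at every element of Z(Q) = Q ∩ C_G(Q), the p-part of θ(1) times the p-part of the order of Z(Q) equals the p-part of the order of C_G(Q) (θ has defect zero as a character of C_G(Q)/Z(Q)), and every element of N_G(Q) of p-power order that stabilizes e lies in Q·C_G(Q) (the stabilizer of e in N_G(Q) has index prime to p over Q·C_G(Q)). -/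
theorem result {G : Type*} [Group G] [Finite G] (p : ℕ) [Fact p.Prime] (M : Ideal Cfsg.AlgInt) (hM : Cfsg.IsPModular p M) (Q : Subgroup G) (e : Set (Cfsg.IrrCharacter (Subgroup.centralizer (Q : Set G)))) (he : Cfsg.IsBrauerPair p M Q e) :
    (∃ B : Set (Cfsg.IrrCharacter G), Cfsg.IsMaximalBrauerPair p M B Q e) ↔
      ∃ θ ∈ e, (∀ z : Subgroup.centralizer (Q : Set G), (z : G) ∈ Q → (θ : Subgroup.centralizer (Q : Set G) → ℂ) z = (θ : Subgroup.centralizer (Q : Set G) → ℂ) 1) ∧
        (Cfsg.charDegree (θ : Subgroup.centralizer (Q : Set G) → ℂ)).factorization p + (Nat.card ↥(Q ⊓ Subgroup.centralizer (Q : Set G))).factorization p = (Nat.card (Subgroup.centralizer (Q : Set G))).factorization p ∧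
        (∀ g : G, g ∈ Subgroup.normalizer (Q : Set G) → Cfsg.StabilizesBlock (Subgroup.centralizer (Q : Set G)) e g → (∃ k : ℕ, orderOf g = p ^ k) → g ∈ Q ⊔ Subgroup.centralizer (Q : Set G)) := by
  obtain ⟨hQ, hb⟩ := he
  have h1 := isBI_aE hM hb
  have z1 : (Q ⊓ CS Q).subgroupOf (CS Q) ≤ Subgroup.center _ := fun x hx => Subgroup.mem_center_iff.2 fun y =>
    Subtype.ext (y.2 _ hx.1).symm
  have z2 : Nat.card ((Q ⊓ CS Q).subgroupOf (CS Q)) = Nat.card (Q ⊓ CS Q : Subgroup G) :=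
    Nat.card_congr (Subgroup.subgroupOfEquivOfLe inf_le_right).toEquiv
  constructor
  · rintro ⟨B, hB⟩
    obtain ⟨h2, -, h3⟩ := (isMaximal_iff hM).1 hB
    have h4 := (dg_iff_ADG hM hb inf_le_right).2 ((h3.ADG_stab hM).not_dvd_CS hM h1).1
    obtain ⟨θ, ⟨h5, h6⟩, -⟩ := exists_canon hM hb h4 (top_unique fun g _ => Subgroup.mem_sup_right fun x hx =>
      (Subgroup.mem_center_iff.1 (z1 hx) g).symm)
    refine ⟨θ, h5, fun z hz => h6 z ⟨hz, z.2⟩, ?_, fun g h7 h8 h9 => ?_⟩
    · rw [← z2, ← nu, (height_zero_of_ker hM hb h4 h5 h6).2, ← Finsupp.add_apply,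
        ← Nat.factorization_mul (Subgroup.index_ne_zero_of_finite) Nat.card_pos.ne', Subgroup.index_mul_card]
    · have := Subgroup.normal_subgroupOf_of_le_normalizer ((Stab_le _ (aE M _ e)).trans (NS_le_NS_sup_CS Q))
      have h10 := (mem_Stab_iff hM hb).2 ⟨h7, h8⟩
      obtain ⟨n, h9⟩ := h9
      exact Subgroup.mem_subgroupOf.1 ((QuotientGroup.eq_one_iff (N := (Q ⊔ CS Q).subgroupOf _) ⟨g, h10⟩).1
        (orderOf_eq_one_iff.1 (Nat.eq_one_of_dvd_coprimes
          (((Fact.out : p.Prime).coprime_iff_not_dvd.2 (h3.not_dvd hM)).pow_left n)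
          ((orderOf_map_dvd (QuotientGroup.mk' _) _).trans (by rw [← h9, Subgroup.orderOf_mk])) (orderOf_dvd_natCard _))))
  · rintro ⟨θ, h2, h3, h4, h5⟩
    have := H3.normal_of_le_center z1
    have h6 := (dg_iff_ADG hM hb inf_le_right).1 (dg_of_rel_defect hM hb h2 ((hQ.to_inf_left).comap_subtype)
      (fun y _ x hx => (Subgroup.mem_center_iff.1 (z1 hx) y).symm) (z1.trans (H3.center_le_charCenter θ.2))
      (by rw [z2, nu, h4]))
    have h7 := (ADG_sup_CS_iff hM hQ h1).2 h6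
    obtain ⟨B, h8⟩ := defined_CS hM hQ hb
    refine ⟨B, (isMaximal_iff hM).2 ⟨h8.2.1, hb, maxP_of_ADG_stab hM (isBI_eB hM h8.2.1) h1
      ((ind_CS_iff hM hQ hb h8.2.1).1 h8) ⟨le_Stab_NS h1, hQ, h7.ne, fun R r1 r2 r3 => h7.max R (fun g hg => ?_) r2 r3⟩⟩⟩
    obtain ⟨r4, r5⟩ := (mem_Stab_iff hM hb).1 (r1 hg)
    exact h5 g r4 r5 (isPElt_of_mem Fact.out r2 hg)

end Cfsg.Agent.S4828
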