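import Cfsg.Statements.S4838
import Cfsg.Agent.H3.Gag

set_option autoImplicit false
open Cfsg

namespace Cfsg.Agent.S4838

/-- Let G be a finite group of order greater than 2 with an irreducible character χ nonzero on exactly two conjugacy classes, N the normal p-subgroup of elements where χ is nonzero, and P a Sylow p-subgroup of G. Then (a) for every x outside N the centralizer of x in G has the same order as the centralizer of xN in G/N; (b) the centre of P lies in N, and equals N exactly when P is normal in G; (c) N, viewed inside P, is a term of the upper central series of P. -/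
theorem result {G : Type*} [Group G] [Finite G] (hG : 2 < Nat.card G) (χ : Cfsg.IrrCharacter G) (hχ : Nat.card {C : ConjClasses G // ∃ g ∈ C.carrier, (χ : G → ℂ) g ≠ 0} = 2) (p : ℕ) [Fact p.Prime] (N : Subgroup G) [N.Normal] (hN : ∀ g : G, g ∈ N ↔ (χ : G → ℂ) g ≠ 0) (hNp : IsPGroup p N) (hN1 : N ≠ ⊥) (P : Sylow p G) :
    (∀ x : G, x ∉ N → Nat.card (Subgroup.centralizer ({x} : Set G)) = Nat.card (Subgroup.centralizer ({(x : G ⧸ N)} : Set (G ⧸ N)))) ∧
      ((Subgroup.center ↥(P : Subgroup G)).map (P : Subgroup G).subtype ≤ N ∧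
        ((Subgroup.center ↥(P : Subgroup G)).map (P : Subgroup G).subtype = N ↔ (P : Subgroup G).Normal)) ∧
      (∃ i : ℕ, Subgroup.upperCentralSeries ↥(P : Subgroup G) i = N.subgroupOf (P : Subgroup G)) := by
  have h := H3.gag_of hG χ.2 hχ hN
  have hNP : N ≤ P := hNp.le_sylow_of_normal P
  have h1 : (Subgroup.center (P : Subgroup G)).map (P : Subgroup G).subtype ≤ N := by
    rintro _ ⟨y, a, rfl⟩
    by_contra c
    have := h.card_le hNp P (Z := ⊥) c fun g b => by
      exact mul_inv_eq_one.2 (mul_inv_eq_iff_eq_mul.2
        (congrArg Subtype.val (Subgroup.mem_center_iff.1 a ⟨g, b⟩)))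
    exact h.ne (Subgroup.card_le_one_iff_eq_bot N |>.1 (by simpa using this))
  refine ⟨fun x => h.card_cent, ⟨h1, fun e => ?_, fun hP => h1.antisymm (h.le_of_normal _ fun e => ?_)⟩, ?_⟩
  · obtain ⟨x, a, b⟩ := H1.exists_mem_ne_one h.ne
    have : Subgroup.centralizer (N : Set G) = P := P.is_maximal'
      ((h.cent_p hNp a b).to_le (Subgroup.centralizer_le (by simpa))) fun g hg n hn => by
        obtain ⟨n, c, rfl⟩ := e.ge hn
        exact (congrArg Subtype.val (Subgroup.mem_center_iff.1 c ⟨g, hg⟩)).symm
    rw [← this]; infer_instance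
  · have : Nontrivial (P : Subgroup G) := (Subgroup.nontrivial_iff_ne_bot _).2
      fun e => h.ne (eq_bot_iff.2 (e ▸ hNP))
    exact (Subgroup.nontrivial_iff_ne_bot _).1 P.2.center_nontrivial
      ((Subgroup.map_eq_bot_iff_of_injective _ (P : Subgroup G).subtype_injective).1 e)
  by_contra! c
  have key : ∀ i, Subgroup.upperCentralSeries (P : Subgroup G) i ≤ N.subgroupOf P := fun i => by
    induction i with
    | zero => simp
    | succ i ih =>
      intro y hy
      by_contra d
      have := h.card_le hNp P (Z := (Subgroup.upperCentralSeries (P : Subgroup G) i).map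
        (P : Subgroup G).subtype) d fun g b => by
          have := Subgroup.inv_mem _ (Subgroup.mem_upperCentralSeries_succ_iff.1 hy ⟨g, b⟩)
          exact ⟨_, this, by simp [commutatorElement_def, mul_assoc]⟩
      rw [Subgroup.card_map_of_injective (P : Subgroup G).subtype_injective,
        ← H1.card_subgroupOf hNP] at this
      exact c i (Subgroup.eq_of_le_of_card_ge ih this)
  have := P.2.isNilpotent
  obtain ⟨i, e⟩ := this.nilpotent
  exact c i (le_antisymm (key i) (e ▸ le_top))

end Cfsg.Agent.S4838
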