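import Cfsg.Statements.S4839
import Cfsg.Agent.H3.Gag

set_option autoImplicit false
open Cfsg

namespace Cfsg.Agent.S4839

/-- Let G be a finite group of order greater than 2 with an irreducible character χ nonzero on exactly two conjugacy classes, and let N be the normal p-subgroup of elements where χ is nonzero. Then N is the whole p-core O_p(G) if and only if G is a doubly transitive Frobenius group with kernel N: G has a Frobenius complement H whose Frobenius kernel is N and whose order is one less than that of N. -/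
theorem result {G : Type*} [Group G] [Finite G] (hG : 2 < Nat.card G) (χ : Cfsg.IrrCharacter G) (hχ : Nat.card {C : ConjClasses G // ∃ g ∈ C.carrier, (χ : G → ℂ) g ≠ 0} = 2) (p : ℕ) [Fact p.Prime] (N : Subgroup G) [N.Normal] (hN : ∀ g : G, g ∈ N ↔ (χ : G → ℂ) g ≠ 0) (hNp : IsPGroup p N) (hN1 : N ≠ ⊥) :
    N = Cfsg.pCore p G ↔ ∃ H : Subgroup G, Cfsg.IsFrobeniusComplement H ∧ Cfsg.frobeniusKernel H = (N : Set G) ∧ Nat.card H + 1 = Nat.card N := by
  have h := H3.gag_of hG χ.2 hχ hN
  obtain ⟨z, a, b⟩ := H1.exists_mem_ne_one h.ne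
  constructor
  · intro h0
    have h1 : ∀ z ∈ N, z ≠ 1 → Subgroup.centralizer ({z} : Set G) = N := fun z a b =>
      (h.cent_le hNp h0 a b).antisymm fun n c =>
        Subgroup.mem_centralizer_singleton_iff.2 (h.comm c a)
    have h2 := h.index_cent a b
    rw [h1 z a b] at h2
    obtain ⟨H, hH⟩ := Subgroup.exists_right_complement'_of_coprime (N := N)
      (h2 ▸ (Nat.coprime_self_add_left.2 (Nat.coprime_one_left _)))
    have h3 : Nat.card H = N.index := hH.symm.index_eq_card.symm
    have h4 : H1.Fpf H N := H1.fpf_iff.2 fun x c k d e => by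
      by_cases f : k = 1
      · exact Or.inr f
      · exact Or.inl (Subgroup.disjoint_def.1 hH.disjoint
          (h1 k d f ▸ Subgroup.mem_centralizer_singleton_iff.2 e) c)
    have h5 := H1.isFrob_of_fpf hH.sup_eq_top h.ne (fun e => by
      rw [← N.card_mul_index, ← h2, ← h3, e] at hG; simp at hG) h4
    refine ⟨H, h5, ?_, h3 ▸ h2⟩
    obtain ⟨M, _, m1, m2, -⟩ := H1.IsFrob.exists_kernel h5
    rw [← m1, SetLike.coe_set_eq]
    have h6 : Nat.card M = Nat.card N := m2.index_eq_card.symm.trans hH.index_eq_card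
    refine (Subgroup.eq_of_le_of_card_ge (h.le_of_normal M fun e => h.ne ?_) h6.le).symm
    rwa [e, Subgroup.card_bot, eq_comm, Subgroup.card_eq_one] at h6
  · rintro ⟨H, h1, h2, h3⟩
    obtain ⟨M, _, m1, m2, -⟩ := H1.IsFrob.exists_kernel h1
    obtain rfl : M = N := SetLike.coe_set_eq.1 (m1.trans h2)
    refine (H1.le_pCore hNp).antisymm (H1.le_of_coprime_index (H1.isPGroup_coprime'
      H1.pCore_isPGroup (h.not_dvd hNp (by rw [m2.symm.index_eq_card, h3]))))

end Cfsg.Agent.S4839
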