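import Cfsg.Statements.S4843
import Cfsg.Agent.H3.Fb
import Cfsg.Agent.H1.Fitting
import Cfsg.Agent.H9.Rad

set_option autoImplicit false
open Cfsg

namespace Cfsg.Agent.S4843

open H3 Subgroup Finset
open scoped Classical ComplexConjugate

theorem key {G : Type*} [Group G] [Finite G] {χ : G → ℂ} (hχ : IsIrrCharacter G χ) (hf : ∀ g : G, χ g = χ 1 → g = 1) {k : ℕ}
    (hk : Nat.Coprime k (Nat.card G)) (hirr : IsIrrCharacter G (fun g => χ g * χ (g ^ k))) (N : Subgroup G) [hN : N.Normal]
    (h : ∀ x ∈ N, ∀ y ∈ N, y⁻¹ * (x * y * x⁻¹) ∈ center G) : N ≤ center G := fun y hy => by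
  letI := Fintype.ofFinite G
  have pw : ∀ (H : Subgroup G) w, w ^ k ∈ H → w ∈ H := fun H w a => by
    obtain ⟨m, e⟩ := exists_pow_eq_self_of_coprime (hk.coprime_dvd_right (orderOf_dvd_natCard w))
    exact e ▸ pow_mem a m
  obtain ⟨n, X, hX⟩ := char_exists_matrix (char_mul (char_comp (irr_char hχ) (MonoidHom.fst G G))
    (char_comp (char_pow_coprime (irr_char hχ) hk) (MonoidHom.snd G G)))
  have tX : ∀ a b, (X (a, b)).trace = χ a * χ (b ^ k) := fun a b => (congrFun hX (a, b)).symm
  obtain ⟨c, hc⟩ := mschur (X := X.comp ((MonoidHom.id G).prod (MonoidHom.id G))) (B := ∑ x : N, X (((x : G) ^ k)⁻¹, x))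
    (by simpa [tX] using hirr) fun g => by
      rw [sum_mul, mul_sum]
      refine (Fintype.sum_equiv (MulAut.conjNormal g : N ≃* N).toEquiv _ _ fun x => ?_).symm
      simp only [MonoidHom.comp_apply, ← map_mul]
      congr 1
      simp [conj_pow, ← mul_assoc]
  have e : ∀ a b, ∑ x : N, χ (a * ((x : G) ^ k)⁻¹) * χ ((b * x) ^ k) = c * (χ a * χ (b ^ k)) := fun a b => by
    have := congrArg (fun M => (X (a, b) * M).trace) hc
    simpa [mul_sum, Matrix.trace_sum, ← map_mul, tX] using this
  have e1 := e 1 1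
  have e2 := e (y ^ k) y⁻¹
  obtain ⟨f, hf'⟩ := exists_hom_charCenter (irr_one_ne_zero hχ)
  rw [Fintype.sum_equiv (Equiv.mulLeft (⟨y, hy⟩ : N)⁻¹) _ (fun x => χ (1 * ((x : G) ^ k)⁻¹) * χ ((1 * x) ^ k)) fun x => by
    simp only [Equiv.coe_mulLeft, Subgroup.coe_mul, Subgroup.coe_inv, one_mul]
    by_cases a : χ ((y⁻¹ * x) ^ k) = 0
    · rw [a, mul_zero, mul_zero]
    have m := pow_mem (mul_mem (inv_mem hy) x.2) k
    have b := hf' ⟨_, center_le_charCenter hχ (h y hy _ m)⟩
    have b1 := b ((y⁻¹ * x) ^ k)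
    rw [mul_inv_cancel_left, irr_class hχ] at b1
    have b2 := b 1
    rw [one_mul, mul_left_eq_self₀.1 b1.symm |>.resolve_right a, one_mul] at b2
    have d : Commute y (y⁻¹ * x) := (mem_centralizer_singleton_iff.1 (pw _ _ (mem_centralizer_singleton_iff.2
      (mul_inv_eq_iff_eq_mul.1 (inv_mul_eq_one.1 (hf _ b2)).symm).symm))).symm
    have d' : Commute y⁻¹ x := by simpa using ((Commute.refl y).mul_right d).inv_left
    rw [d'.mul_pow, mul_inv_rev, inv_pow, inv_inv, class_mul_comm (irr_class hχ)], e1] at e2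
  have c0 : c ≠ 0 := by
    rintro rfl
    simp only [one_mul, zero_mul, char_inv (irr_char hχ), Complex.conj_mul', ← Complex.ofReal_pow, ← Complex.ofReal_sum,
      Complex.ofReal_eq_zero] at e1
    have := (sum_eq_zero_iff_of_nonneg fun _ _ => sq_nonneg _).1 e1 1 (mem_univ _)
    simp [irr_one_ne_zero hχ] at this
  have e3 := congrArg norm (mul_left_cancel₀ c0 e2)
  rw [one_pow, inv_pow, char_inv (irr_char hχ), norm_mul, norm_mul, Complex.norm_conj] at e3
  refine pw _ _ ((charCenter_eq_center hχ (eq_bot_iff.2 fun g a => hf g ((mem_charKer (irr_char hχ) g).1 a))).le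
    ((mem_charCenter (irr_char hχ) _).2 ((mul_self_inj_of_nonneg (norm_nonneg _) (norm_nonneg _)).1 e3.symm)))

/-- Let G be a finite group with a faithful irreducible character χ (taking the value χ(1) only at the identity) and let k be prime to the order of G, so that g ↦ χ(g^k) is a Galois conjugate of χ. If the pointwise product g ↦ χ(g)·χ(g^k) is again an irreducible character, then the Fitting subgroup of G equals its centre. -/
theorem result {G : Type*} [Group G] [Finite G] (χ : Cfsg.IrrCharacter G) (hfaith : ∀ g : G, (χ : G → ℂ) g = (χ : G → ℂ) 1 → g = 1) (k : ℕ) (hk : Nat.Coprime k (Nat.card G)) (hirr : Cfsg.IsIrrCharacter G (fun g => (χ : G → ℂ) g * (χ : G → ℂ) (g ^ k))) : Cfsg.fittingSubgroup G = Subgroup.center G := by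
  refine le_antisymm (by_contra fun a => ?_) H1.center_le_fitting
  let π := QuotientGroup.mk' (center G)
  let F := (fittingSubgroup G).map π
  haveI : F.Normal := Normal.map inferInstance _ (QuotientGroup.mk'_surjective _)
  haveI := H1.fitting_isNilpotent (G := G)
  have b := H9.inf_centralizer_ne_bot_of_nilpotent (nilpotent_of_surjective _ (π.subgroupMap_surjective (fittingSubgroup G)))
    le_rfl le_normalizer fun e => a (by simpa [π] using (Subgroup.map_eq_bot_iff _).1 e)
  have c := key χ.2 hfaith hk hirr ((F ⊓ centralizer (F : Set _)).comap π) fun x hx y hy => (QuotientGroup.eq_one_iff _).1 (by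
    change π _ = 1
    rw [map_mul, map_mul, map_mul, ← hx.2 _ hy.1]; simp)
  refine b (eq_bot_iff.2 fun x hx => ?_)
  obtain ⟨x, rfl⟩ := QuotientGroup.mk'_surjective _ x
  exact (QuotientGroup.eq_one_iff _).2 (c hx)

end Cfsg.Agent.S4843
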