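import Cfsg.Statements.S4856
import Cfsg.Agent.H3.Chr

set_option autoImplicit false
open Cfsg

namespace Cfsg.Agent.S4856

/-- For an element z of a finite group G, the number of pairs (x, y) of elements with x y x⁻¹ y⁻¹ = z equals the order of G times the sum over the irreducible characters χ of χ(z)/χ(1). -/
theorem result {G : Type*} [Group G] [Finite G] (z : G) : (Nat.card {xy : G × G // xy.1 * xy.2 * xy.1⁻¹ * xy.2⁻¹ = z} : ℂ) = (Nat.card G : ℂ) * ∑ᶠ χ : Cfsg.IrrCharacter G, (χ : G → ℂ) z / (χ : G → ℂ) 1 := by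
  have := Fintype.ofFinite G
  have h := H3.card_sol (fun xy : G × G => xy.2 * xy.1 * xy.2⁻¹ * xy.1⁻¹ * z)
  have e : Nat.card {xy : G × G // xy.2 * xy.1 * xy.2⁻¹ * xy.1⁻¹ * z = 1} =
      Nat.card {xy : G × G // xy.1 * xy.2 * xy.1⁻¹ * xy.2⁻¹ = z} :=
    Nat.card_congr (Equiv.subtypeEquivRight fun xy => by
      rw [mul_eq_one_iff_inv_eq]; simp [mul_assoc])
  rw [e] at h
  apply mul_left_cancel₀ (H3.card_ne_zero' G)
  rw [h, finsum_eq_sum_of_fintype, Finset.mul_sum, Finset.mul_sum]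
  refine Finset.sum_congr rfl fun χ _ => ?_
  have h1 := H3.sum_comm_mul χ.2 z
  have h0 := H3.irr_one_ne_zero χ.2
  rw [← Equiv.sum_comp (Equiv.prodComm G G)] at h1
  simp only [Equiv.prodComm_apply, Prod.fst_swap, Prod.snd_swap] at h1
  field_simp
  linear_combination h1

end Cfsg.Agent.S4856
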