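import Cfsg.Statements.S4866
import Cfsg.Agent.H3.Cz

set_option autoImplicit false
open Cfsg

namespace Cfsg.Agent.S4866

open H3

/-- Let K be a normal subgroup of odd index in the finite group G. Then G has as many orbits on the real-valued irreducible complex characters of K (acting by conjugation) as it has orbits on the conjugacy classes of K that are real in K; equivalently, the number of G-orbits of real-valued irreducible characters of K equals the number of G-conjugacy classes of elements of K that are conjugate in K to their inverses. -/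
theorem result {G : Type*} [Group G] [Finite G] (K : Subgroup G) [K.Normal] (hodd : Odd K.index) : Nat.card (Quot (fun θ η : {θ : Cfsg.IrrCharacter ↥K // (∀ k : ↥K, ((θ : ↥K → ℂ) k).im = 0)} => ∃ g : G, ∀ k k' : ↥K, (k' : G) = g * (k : G) * g⁻¹ → (η.1 : ↥K → ℂ) k' = (θ.1 : ↥K → ℂ) k)) = Nat.card (Quot (fun x y : {x : ↥K // IsConj x x⁻¹} => ∃ g : G, (y.1 : G) = g * x.1 * g⁻¹)) := by
  classical
  have := Fintype.ofFinite G
  have := Fintype.ofFinite K
  refine Eq.trans ?_ ((card_real_irr_eq (G := G)).trans ?_)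
  · choose F h1 h2 h3 h4 h5 using fun θ : {θ : IrrCharacter K // ∀ k, (θ.1 k).im = 0} =>
      real_over K hodd θ.1.2 θ.2
    refine Nat.card_congr (Equiv.ofBijective (Quot.lift (fun θ => ⟨⟨F θ, h1 θ⟩, h3 θ⟩) ?_) ⟨?_, ?_⟩)
    · rintro θ η ⟨g, hg⟩
      refine Subtype.ext (Subtype.ext (h5 η _ (h1 θ) (h3 θ) ?_))
      rw [← inner_restrict_cj K (irr_class (h1 θ)) _ g, show cj K η.1.1 g = θ.1.1 from
        funext fun k => hg k _ rfl, h2]
      exact one_ne_zero
    · rintro ⟨θ⟩ ⟨η⟩ e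
      replace e : F θ = F η := congrArg (fun z => z.1.1) e
      obtain ⟨g, hg⟩ := cj_of_inner_ne_zero K (h1 η) η.1.2 θ.1.2 ((h2 η).trans_ne one_ne_zero)
        (e ▸ (h2 θ).trans_ne one_ne_zero)
      refine Quot.sound ⟨g, fun k k' e => ?_⟩
      exact (congrArg η.1.1 (Subtype.ext e)).trans (congrFun hg k).symm
    · rintro ⟨χ, hχ⟩
      obtain ⟨θ, a, b⟩ := exists_irr_under K χ.2
      exact ⟨Quot.mk _ ⟨⟨θ, a⟩, real_under K hodd χ.2 hχ a b⟩,
        Subtype.ext (Subtype.ext (h5 ⟨⟨θ, a⟩, real_under K hodd χ.2 hχ a b⟩ _ χ.2 hχ b).symm)⟩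
  · symm
    have key : ∀ x : K, IsConj x x⁻¹ → ∀ g : G, ConjClasses.mk g = ConjClasses.mk x.1 →
        IsConj g g⁻¹ := fun x hx g e => by
      obtain ⟨c, rfl⟩ := isConj_iff.1 (ConjClasses.mk_eq_mk_iff_isConj.1 e).symm
      obtain ⟨d, hd⟩ := isConj_iff.1 hx
      replace hd : d.1 * x * d.1⁻¹ = x.1⁻¹ := congrArg Subtype.val hd
      exact isConj_iff.2 ⟨c * d * c⁻¹, by rw [mul_inv_rev (c * x), mul_inv_rev c, ← hd]; group⟩
    refine Nat.card_congr (Equiv.ofBijective (Quot.lift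
      (fun x => ⟨ConjClasses.mk x.1.1, key _ x.2⟩) ?_) ⟨?_, ?_⟩)
    · rintro x y ⟨g, hg⟩
      exact Subtype.ext (ConjClasses.mk_eq_mk_iff_isConj.2 (isConj_iff.2 ⟨g, hg.symm⟩))
    · rintro ⟨x⟩ ⟨y⟩ e
      obtain ⟨g, hg⟩ := isConj_iff.1 (ConjClasses.mk_eq_mk_iff_isConj.1 (congrArg Subtype.val e))
      exact Quot.sound ⟨g, hg.symm⟩
    · rintro ⟨C, hC⟩
      obtain ⟨x, rfl⟩ := ConjClasses.exists_rep C
      have a := hC x rfl
      have b : x ∈ K := by
        rw [← QuotientGroup.eq_one_iff]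
        exact eq_one_of_isConj_inv hodd (by simpa using (QuotientGroup.mk' K).map_isConj a)
      obtain ⟨c, hc⟩ := isConj_iff.1 a
      have d : ∀ n, c ^ (2 * n + 1) * x * (c ^ (2 * n + 1))⁻¹ = x⁻¹ := fun n => by
        induction n with
        | zero => simpa using hc
        | succ n ih =>
          have e : c * x⁻¹ * c⁻¹ = x := inv_injective (by
            rw [← hc, mul_inv_rev, mul_inv_rev, inv_inv, hc, inv_inv, ← hc, mul_assoc])
          calc _ = c ^ (2 * n + 1) * (c * (c * x * c⁻¹) * c⁻¹) * (c ^ (2 * n + 1))⁻¹ := by group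
            _ = _ := by rw [hc, e, ih]
      obtain ⟨n, hn⟩ := hodd
      exact ⟨Quot.mk _ ⟨⟨x, b⟩, isConj_iff.2 ⟨⟨c ^ (2 * n + 1), hn ▸ K.pow_index_mem c⟩,
        Subtype.ext (d n)⟩⟩, rfl⟩

end Cfsg.Agent.S4866
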