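import Cfsg.Statements.S4873
import Cfsg.Agent.H3.Cy

set_option autoImplicit false
open Cfsg

namespace Cfsg.Agent.S4873

open H3

/-- Let N be a normal subgroup of odd index in the finite group G. Then every irreducible complex character of N with Frobenius–Schur indicator +1 lies under exactly one irreducible character of G with Frobenius–Schur indicator +1. -/
theorem result {G : Type*} [Group G] [Finite G] (N : Subgroup G) [N.Normal] (hodd : Odd N.index) (φ : Cfsg.IrrCharacter ↥N) (hφ : (Nat.card ↥N : ℂ)⁻¹ * ∑ᶠ g : ↥N, (φ : ↥N → ℂ) (g * g) = 1) : ∃! χ : Cfsg.IrrCharacter G, (Nat.card G : ℂ)⁻¹ * ∑ᶠ g : G, (χ : G → ℂ) (g * g) = 1 ∧ (∑ᶠ n : ↥N, (χ : G → ℂ) n * (starRingEnd ℂ) ((φ : ↥N → ℂ) n)) ≠ 0 := by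
  have := Fintype.ofFinite G
  have := Fintype.ofFinite N
  simp only [finsum_eq_sum_of_fintype] at hφ ⊢
  replace hφ : fs φ.1 = 1 := hφ
  have e : ∀ χ : G → ℂ, (∑ n : N, χ n * (starRingEnd ℂ) (φ.1 n)) ≠ 0 ↔
      classInner (fun n : N => χ n) φ.1 ≠ 0 := fun χ => by
    simp [classInner, Nat.card_pos.ne', -Nat.card_eq_fintype_card]
  obtain ⟨χ, a, b, c, d, f⟩ := real_over N hodd φ.2 (real_of_fs φ.2 (hφ.trans_ne one_ne_zero))
  exact ⟨⟨χ, a⟩, ⟨d.trans hφ, (e _).2 (b.trans_ne one_ne_zero)⟩, fun ψ h => Subtype.ext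
    (f _ ψ.2 (real_of_fs ψ.2 (h.1.trans_ne one_ne_zero)) ((e _).1 h.2))⟩

end Cfsg.Agent.S4873
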