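import Cfsg.Statements.S4911
import Cfsg.Agent.H3.Gl3
import Cfsg.Agent.H3.Perm

set_option autoImplicit false
open Cfsg

namespace Cfsg.Agent.S4911

/-- Let P and K be subgroups of a finite group with P a p-group normalizing K and K of order prime to p. Then the number of P-invariant real-valued irreducible complex characters of K equals the number of conjugacy classes of K that are real (closed under inversion) and P-invariant. Moreover, if every real-valued irreducible character of K is P-invariant, then every real element of K (one conjugate in K to its inverse) is conjugate in K to an element centralized by P. -/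
theorem result {G : Type*} [Group G] [Finite G] (p : ℕ) [Fact p.Prime] (P K : Subgroup G) (hP : IsPGroup p ↥P) (hK : ¬ p ∣ Nat.card ↥K) (hPK : P ≤ Subgroup.normalizer (K : Set G)) : Nat.card {θ : Cfsg.IrrCharacter ↥K // (∀ k : ↥K, ((θ : ↥K → ℂ) k).im = 0) ∧ (∀ x ∈ P, ∀ k k' : ↥K, (k' : G) = x * (k : G) * x⁻¹ → (θ : ↥K → ℂ) k' = (θ : ↥K → ℂ) k)} = Nat.card {c : ConjClasses ↥K // (∀ k : ↥K, ConjClasses.mk k = c → IsConj k k⁻¹) ∧ ∀ k : ↥K, ConjClasses.mk k = c → ∀ x ∈ P, ∀ k' : ↥K, (k' : G) = x * (k : G) * x⁻¹ → ConjClasses.mk k' = c} ∧ ((∀ θ : Cfsg.IrrCharacter ↥K, (∀ k : ↥K, ((θ : ↥K → ℂ) k).im = 0) → (∀ x ∈ P, ∀ k k' : ↥K, (k' : G) = x * (k : G) * x⁻¹ → (θ : ↥K → ℂ) k' = (θ : ↥K → ℂ) k)) → ∀ k : ↥K, IsConj k k⁻¹ → ∃ k' : ↥K, IsConj k k' ∧ ∀ x ∈ P, x * (k' : G) * x⁻¹ = (k' : G)) := by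
  have hp : p.Prime := Fact.out
  have hsolv : Group.IsSolvable P := by have := hP.isNilpotent; infer_instance
  obtain ⟨R, h⟩ := H3.exists_glSys P hsolv
  have hcop : (Nat.card K).Coprime (Nat.card P) := by
    obtain ⟨n, hn⟩ := IsPGroup.iff_card.1 hP
    rw [hn]; exact ((Nat.Prime.coprime_iff_not_dvd hp).2 hK).symm.pow_right n
  have ok : H3.Ok P K := ⟨hPK, hcop⟩
  have hn : ∀ s ∈ P, ∀ g ∈ K, s * g * s⁻¹ ∈ K := fun s hs g hg =>
    H1.conj_mem_of_mem_normalizer (hPK hs) hg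
  have re : ∀ {H : Subgroup G} {f : G → ℂ}, H3.IrrOn H f →
      ((∀ k : H, (f k).im = 0) ↔ (fun x => starRingEnd ℂ (f x)) = f) := fun {H f} hf =>
    ⟨fun a => (hf.gal _).ext hf fun x => Complex.conj_eq_iff_im.2 (a x),
      fun a x => Complex.conj_eq_iff_im.1 (congrFun a x)⟩
  have h1 := H3.card_inv_irr hn fun χ => ∀ k, (χ k).im = 0
  have h2 := h.card ok (fun χ => ∀ k : K, (χ k).im = 0)
    (fun χ => ∀ k : H3.fixP K P, (χ k).im = 0) fun χ β r => by
      rw [re (h.dom ok r).1, re (h.dom ok r).2.2]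
      have r' := h.gal (starRingEnd ℂ) ok r
      exact ⟨fun e => h.uniq ok (e ▸ r') r, fun e => h.inj ok (e ▸ r') r⟩
  have h3 := H3.card_irrOn (H3.fixP K P) fun χ => ∀ k, (χ k).im = 0
  have h4 := H3.card_inv_classes ok (Or.inl hsolv)
    (fun c => ∀ k : K, ConjClasses.mk k = c → IsConj k k⁻¹)
    (fun c => ∀ k, ConjClasses.mk k = c → IsConj k k⁻¹) fun c => by
      have A : ∀ {H : Type _} [Group H] (a : H),
          (∀ k, ConjClasses.mk k = ConjClasses.mk a → IsConj k k⁻¹) ↔ IsConj a a⁻¹ := fun a =>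
        ⟨fun e => e a rfl, fun e k hk => by
          have hk := ConjClasses.mk_eq_mk_iff_isConj.1 hk
          exact hk.trans (e.trans (by
            obtain ⟨y, rfl⟩ := isConj_iff.1 hk
            exact isConj_iff.2 ⟨y⁻¹, by group⟩))⟩
      rw [A, A, isConj_iff, isConj_iff]
      constructor
      · rintro ⟨y, hy⟩
        have hy' : (y : G) * c * (y : G)⁻¹ = (c : G)⁻¹ := congrArg Subtype.val hy
        obtain ⟨z, hz, e⟩ := H3.conj_in_fix ok (Or.inl hsolv) c.2.2 y.2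
          (hy' ▸ Subgroup.inv_mem _ c.2.2)
        exact ⟨⟨z, hz⟩, Subtype.ext (e.trans hy')⟩
      · rintro ⟨y, hy⟩
        exact ⟨⟨y, y.2.1⟩, Subtype.ext (congrArg Subtype.val hy :)⟩
  have main := h1.trans (h2.trans (h3.symm.trans (H3.card_real_irr_eq.trans h4.symm)))
  refine ⟨main, fun hall k hk => ?_⟩
  have e1 := Nat.card_congr (Equiv.subtypeEquivRight (p := fun θ : IrrCharacter K =>
    (∀ k : K, ((θ : K → ℂ) k).im = 0) ∧ ∀ x ∈ P, ∀ k k' : K, (k' : G) = x * (k : G) * x⁻¹ →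
      (θ : K → ℂ) k' = (θ : K → ℂ) k) (q := fun θ => ∀ k : K, ((θ : K → ℂ) k).im = 0)
      fun θ => ⟨And.left, fun a => ⟨a, hall θ a⟩⟩)
  rw [e1, H3.card_real_irr_eq] at main
  have hs := (Function.Injective.bijective_of_nat_card_le (f := Subtype.map id fun _ => And.left)
    (Subtype.map_injective _ Function.injective_id) main.le).2
  obtain ⟨⟨c, a, b⟩, hc⟩ := hs ⟨ConjClasses.mk k, fun g hg => by
    have hg := ConjClasses.mk_eq_mk_iff_isConj.1 hg
    exact hg.trans (hk.trans (by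
      obtain ⟨y, rfl⟩ := isConj_iff.1 hg
      exact isConj_iff.2 ⟨y⁻¹, by group⟩))⟩
  obtain rfl : c = ConjClasses.mk k := congrArg Subtype.val hc
  obtain ⟨x, hx, h5⟩ := H3.exists_cent_conj ok (Or.inl hsolv) (k := k) fun s hs => by
    obtain ⟨y, hy⟩ := isConj_iff.1 (ConjClasses.mk_eq_mk_iff_isConj.1 (b k rfl s hs
      ⟨_, hn s hs k k.2⟩ rfl).symm)
    exact ⟨y, y.2, (congrArg Subtype.val hy).symm⟩
  refine ⟨⟨x, hx⟩ * k * ⟨x, hx⟩⁻¹, isConj_iff.2 ⟨_, rfl⟩, fun s hs => ?_⟩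
  exact mul_inv_eq_iff_eq_mul.2 (h5 s hs)

end Cfsg.Agent.S4911
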