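import Cfsg.Statements.S4916
import Cfsg.Agent.H4.Prin

set_option autoImplicit false
open Cfsg

namespace Cfsg.Agent.S4916

open H4 H1 MonoidAlgebra
open scoped Pointwise


/-- Let G be a finite group, p a prime and M a maximal ideal of the algebraic integers containing p. Then the principal character is the only irreducible character of degree prime to p in the principal p-block of G if and only if p does not divide the order of G. -/
theorem result {G : Type*} [Group G] [Finite G] (p : ℕ) [Fact p.Prime] (M : Ideal Cfsg.AlgInt) (hM : Cfsg.IsPModular p M) : (∀ χ : Cfsg.IrrCharacter G, χ ∈ Cfsg.principalBlock M G → ¬ p ∣ Cfsg.charDegree (χ : G → ℂ) → (χ : G → ℂ) = fun _ => (1 : ℂ)) ↔ ¬ p ∣ Nat.card G := by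
  refine ⟨fun h h1 => ?_, fun h χ hχ _ => ?_⟩
  · classical
    refine card_ne_one_of_dvd _ _ (dvd_sum_sq hM isPBlock_principal h1) (Finset.card_eq_one.2 ⟨triv G, ?_⟩)
    refine Finset.eq_singleton_iff_unique_mem.2 ⟨?_, fun χ hχ => ?_⟩
    · simp [triv_mem_principal hM, charDegree_triv, (Fact.out : p.Prime).ne_one]
    · simp only [Finset.mem_filter, mem_fs] at hχ
      exact Subtype.ext (h χ hχ.1 hχ.2)
  · rw [block_eq_of_mem hM isPBlock_principal (isPBlock_singleton hM h (triv G)) (triv_mem_principal hM) rfl] at hχ
    rw [Set.mem_singleton_iff.1 hχ]; rfl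

end Cfsg.Agent.S4916
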