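import Cfsg.Statements.S4931
import Cfsg.Agent.H3.Chr3
import Cfsg.Agent.H2.Fus13
import Cfsg.Agent.H1.SylowIn

set_option autoImplicit false
open Cfsg

namespace Cfsg.Agent.S4931

open H3
open scoped commutatorElement

/-- Let G be a finite group, p a prime and P a Sylow p-subgroup of G with normalizer N. Then every irreducible complex character of N of degree not divisible by p is the restriction of an irreducible character of G if and only if there is a normal subgroup K of G with KN = G and K ∩ N = 1. -/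
theorem result {G : Type*} [Group G] [Finite G] (p : ℕ) [Fact p.Prime] (P : Sylow p G) :
    (∀ θ : Cfsg.IrrCharacter ↥(Subgroup.normalizer ((P : Subgroup G) : Set G)), ¬ p ∣ Cfsg.charDegree (θ : ↥(Subgroup.normalizer ((P : Subgroup G) : Set G)) → ℂ) →
        ∃ χ : Cfsg.IrrCharacter G, ∀ x : ↥(Subgroup.normalizer ((P : Subgroup G) : Set G)), (χ : G → ℂ) x = (θ : ↥(Subgroup.normalizer ((P : Subgroup G) : Set G)) → ℂ) x) ↔
      ∃ K : Subgroup G, K.Normal ∧ K ⊔ Subgroup.normalizer ((P : Subgroup G) : Set G) = ⊤ ∧ K ⊓ Subgroup.normalizer ((P : Subgroup G) : Set G) = ⊥ := by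
  classical
  set N := Subgroup.normalizer ((P : Subgroup G) : Set G) with hN
  have hPN : (P : Subgroup G) ≤ N := Subgroup.le_normalizer
  constructor
  · intro h
    have key : ∀ L : Subgroup G, ⁅(P : Subgroup G), (P : Subgroup G)⁆ ≤ L →
        N ≤ Subgroup.normalizer (L : Set G) → ∀ n ∈ N, n ∉ L →
        ∃ χ, IsIrrCharacter G χ ∧ χ n ≠ χ 1 ∧ (L ⊓ N) ≤ charKer χ := by
      intro L h1 h2 n hn hL
      haveI : (L.subgroupOf N).Normal := (Subgroup.normal_subgroupOf_iff_le_normalizer_inf).2
        (H1.le_normalizer_inf h2 Subgroup.le_normalizer)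
      obtain ⟨ψ, hψ, hne⟩ := exists_irr_ne_of_ne_one (G := N ⧸ L.subgroupOf N) (g := (⟨n, hn⟩ : N))
        (fun e => hL ((QuotientGroup.eq_one_iff (⟨n, hn⟩ : N)).1 e))
      haveI : ((P : Subgroup G).subgroupOf N).Normal := Subgroup.normal_subgroupOf_iff_le_normalizer hPN |>.2 le_rfl
      haveI := Subgroup.Normal.map this (QuotientGroup.mk' (L.subgroupOf N)) (QuotientGroup.mk'_surjective _)
      have hd : ¬ p ∣ charDegree ψ := by
        refine not_dvd_of_normal (P := ((P : Subgroup G).subgroupOf N).map (QuotientGroup.mk' (L.subgroupOf N))) ?_ ?_ hψ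
        · rintro _ ⟨a, ha, rfl⟩ _ ⟨b, hb, rfl⟩
          rw [← map_mul, ← map_mul, QuotientGroup.mk'_apply, QuotientGroup.mk'_apply, QuotientGroup.eq]
          have := h1 (Subgroup.commutator_mem_commutator (inv_mem hb) (inv_mem ha))
          rw [commutatorElement_def] at this
          rw [Subgroup.mem_subgroupOf]
          convert this using 1
          simp only [Subgroup.coe_mul, Subgroup.coe_inv, Subgroup.coe_subtype]; group
        · refine fun e => P.not_dvd_index ((e.trans (Subgroup.index_map_dvd _ (QuotientGroup.mk'_surjective _))).trans ?_)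
          exact Subgroup.relIndex_dvd_index_of_le hPN
      obtain ⟨χ, e⟩ := h ⟨_, irr_comp_surj hψ _ (QuotientGroup.mk'_surjective (L.subgroupOf N))⟩
        (by rwa [deg_comp])
      have e1 : χ.1 1 = ψ 1 := e 1
      refine ⟨χ.1, χ.2, ?_, fun x hx => (mem_charKer (irr_char χ.2) x).2 ?_⟩
      · rw [e1]; exact (e ⟨n, hn⟩) ▸ hne
      · rw [e1, e ⟨x, hx.2⟩]
        show ψ _ = _
        rw [QuotientGroup.mk'_apply, (QuotientGroup.eq_one_iff _).2 (by exact hx.1)]
    set Q := Subgroup.normalClosure ((P : Subgroup G) : Set G)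
    have hPQ : (P : Subgroup G) ≤ Q := Subgroup.le_normalClosure
    have h1 : Q ⊓ N ≤ P := fun n hn => by
      by_contra a
      obtain ⟨χ, hχ, b, c⟩ := key P ((Subgroup.commutator_le_sup _ _).trans (sup_idem _).le) le_rfl n hn.2 a
      haveI := charKer_normal (irr_class hχ)
      exact b ((mem_charKer (irr_char hχ) n).1
        (Subgroup.normalClosure_le_normal ((le_inf le_rfl hPN).trans c) hn.1))
    have hS : H2.IsSylowIn p (P : Subgroup G) Q := (H2.isSylowIn_top P).of_le hPQ le_top
    have hF := H2.sat_sub (hSH := hPQ) hS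
    have hle : ⁅(P : Subgroup G), (P : Subgroup G)⁆ ≤ P := (Subgroup.commutator_le_sup _ _).trans (sup_idem _).le
    have h2 : (P : Subgroup G) ⊓ H2.Op p Q = ⊥ := by
      rw [← H2.hyp_sub (hSH := hPQ) hS]
      refine hF.inner_iff_hyp.1 (hF.inner_of_sc (H2.sc_sub_iff.2 ⟨hle, fun x hx a _ ha => ?_⟩) le_rfl
        (H2.commutator_le_Phi P.2) ?_)
      · by_contra b
        obtain ⟨χ, hχ, b, c⟩ := key _ le_rfl (H1.le_normalizer_commutator le_rfl le_rfl) _ (hPN ha) b
        exact b ((irr_class hχ x a).trans ((mem_charKer (irr_char hχ) x).1 (c ⟨hx, hPN (hle hx)⟩)))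
      · rw [H2.Aut_sub le_rfl, ← H2.AutS_inf_normalizer]
        exact H2.isPGroup_AutS (P.2.to_le h1) _
    refine ⟨H2.Op p Q, ?_, ?_, ?_⟩
    · rw [← Subgroup.normalizer_eq_top_iff, eq_top_iff]
      exact (Subgroup.normalizer_eq_top_iff.2 inferInstance).ge.trans (H2.normalizer_le_normalizer_Op p Q)
    · rw [eq_top_iff, ← ((H1.isSylowIn_top P).of_le hPQ le_top).frattini_top]
      exact sup_le (hS.Op_sup.ge.trans (sup_le le_sup_left (hPN.trans le_sup_right))) le_sup_right
    · rw [eq_bot_iff, ← h2]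
      exact le_inf ((inf_le_inf_right _ (H2.Op_le p Q)).trans h1) inf_le_left
  · rintro ⟨K, hK, h1, h2⟩ θ -
    have hb : Function.Bijective ((QuotientGroup.mk' K).comp N.subtype) := by
      constructor
      · refine (injective_iff_map_eq_one _).2 fun a ha => Subtype.ext ?_
        have : (a : G) ∈ K ⊓ N := ⟨(QuotientGroup.eq_one_iff (a : G)).1 ha, a.2⟩
        rwa [h2] at this
      · intro y
        obtain ⟨y, rfl⟩ := QuotientGroup.mk'_surjective K y
        obtain ⟨u, c, v, d, rfl⟩ := Subgroup.mem_sup_of_normal_left.1 (h1 ▸ Subgroup.mem_top y)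
        exact ⟨⟨v, d⟩, by simp [(QuotientGroup.eq_one_iff u).2 c]⟩
    let e := MulEquiv.ofBijective _ hb
    refine ⟨⟨_, irr_comp_surj θ.2 (e.symm.toMonoidHom.comp (QuotientGroup.mk' K))
      (e.symm.surjective.comp (QuotientGroup.mk'_surjective K))⟩, fun x => ?_⟩
    exact congrArg θ.1 (e.symm_apply_apply x)

end Cfsg.Agent.S4931
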