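import Cfsg.Statements.S4937
import Cfsg.Agent.H4.Dade

set_option autoImplicit false
open Cfsg

namespace Cfsg.Agent.S4937

open H4 H1 MonoidAlgebra
open scoped Pointwise


/-- Let G be a finite group, p a prime, M a maximal ideal of the algebraic integers containing p, N a normal subgroup of G and P a Sylow p-subgroup of N such that G = N·C_G(P). Let θ be an irreducible character in the principal p-block of N that is the restriction of some irreducible character of G. Then θ is the restriction of an irreducible character χ of G lying in the principal p-block of G such that, for every subgroup J of G containing N, the restriction of χ to J is an irreducible character of J lying in the principal p-block of J. -/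
theorem result {G : Type*} [Group G] [Finite G] (p : ℕ) [Fact p.Prime] (M : Ideal Cfsg.AlgInt) (hM : Cfsg.IsPModular p M) (N : Subgroup G) [N.Normal] (P : Sylow p ↥N)
    (hcov : N ⊔ Subgroup.centralizer (((P : Subgroup ↥N).map N.subtype : Subgroup G) : Set G) = ⊤)
    (θ : Cfsg.IrrCharacter ↥N) (hθ : θ ∈ Cfsg.principalBlock M ↥N)
    (hext : ∃ ψ : Cfsg.IrrCharacter G, ∀ x : ↥N, (ψ : G → ℂ) x = (θ : ↥N → ℂ) x) :
    ∃ χ : Cfsg.IrrCharacter G, χ ∈ Cfsg.principalBlock M G ∧ (∀ x : ↥N, (χ : G → ℂ) x = (θ : ↥N → ℂ) x) ∧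
      ∀ J : Subgroup G, N ≤ J → ∃ ξ : Cfsg.IrrCharacter ↥J, ξ ∈ Cfsg.principalBlock M ↥J ∧ ∀ y : ↥J, (ξ : ↥J → ℂ) y = (χ : G → ℂ) y := by
  obtain ⟨ψ, hψ⟩ := hext
  obtain ⟨c, hc⟩ := exists_GU hM (Subgroup.map_subtype_le (P : Subgroup N)) (by
    rw [Subgroup.relIndex, Subgroup.subgroupOf, Subgroup.comap_map_eq_self_of_injective (Subgroup.subtype_injective _)]
    exact P.not_dvd_index) hcov
  obtain ⟨χ, h1, h2⟩ := hc.exists_twist hM hθ hψ
  refine ⟨χ, hc.principal hM hθ h1 h2 (MonoidHom.id G) (fun a ha => Z_le_Fix _ (mapA_mem_Z Function.surjective_id ha))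
    fun _ => rfl, h1, fun J hJ => ?_⟩
  have h3 : Cfsg.IsIrrCharacter J fun y : J => χ.1 y := H3.irr_of_restrict_irr (N.subgroupOf J)
    (H3.char_restrict (H3.irr_char χ.2) J) (by
      convert H3.irr_subgroupOf N hJ θ.2 using 2 with x
      exact h1 ⟨_, Subgroup.mem_subgroupOf.1 x.2⟩)
  exact ⟨⟨_, h3⟩, hc.principal hM hθ h1 h2 J.subtype (fun a ha => Fix_anti hJ (incA_mem_Fix ha)) fun _ => rfl,
    fun _ => rfl⟩

end Cfsg.Agent.S4937
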