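import Cfsg.Statements.S4996
import Cfsg.Agent.H3.Chr

set_option autoImplicit false
open Cfsg

namespace Cfsg.Agent.S4996

/-- Let N be a normal subgroup of the finite group G and χ an irreducible complex character of G. Then the restriction of χ to N is not irreducible if and only if χ vanishes on some whole coset Nx of N in G. -/
theorem result {G : Type*} [Group G] [Finite G] (N : Subgroup G) [N.Normal] (χ : Cfsg.IrrCharacter G) : ¬ Cfsg.IsIrrCharacter ↥N (fun n : ↥N => (χ : G → ℂ) n) ↔ ∃ x : G, ∀ n : ↥N, (χ : G → ℂ) ((n : G) * x) = 0 := by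
  classical
  have := Fintype.ofFinite G
  have hc := H3.irr_char χ.2
  have hη := H3.char_mul hc (H3.char_conj hc)
  set η := (χ : G → ℂ) * fun g => (starRingEnd ℂ) ((χ : G → ℂ) g) with hη'
  have hψ := H3.char_cavg N hη
  let z : G → ℝ := fun g => (Nat.card N : ℝ)⁻¹ * ∑ n : N, ‖(χ : G → ℂ) (n * g)‖ ^ 2
  have hz : ∀ g, H3.cavg N η g = z g := fun g => by
    simp only [H3.cavg, hη', z, Pi.mul_apply, Complex.mul_conj, Complex.normSq_eq_norm_sq]
    push_cast; rfl
  have h0 : (0 : ℝ) < Nat.card N := by exact_mod_cast Nat.card_pos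
  have hz0 : ∀ g, 0 ≤ z g := fun g => by positivity
  have hz1 : ∀ g, z g = 0 ↔ ∀ n : N, (χ : G → ℂ) (n * g) = 0 := fun g => by
    simp only [z, mul_eq_zero, inv_eq_zero, h0.ne', false_or]
    rw [Finset.sum_eq_zero_iff_of_nonneg fun _ _ => by positivity]
    simp
  have hs : ∑ g, z g = Nat.card G := by
    have := H3.sum_cavg N η
    simp only [hz] at this
    simp only [hη', Pi.mul_apply, mul_comm ((χ : G → ℂ) _), H3.sum_conj_mul_irr χ.2] at this
    exact_mod_cast this
  have hcN := H3.char_restrict hc N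
  have hin : Cfsg.classInner (fun n : N => (χ : G → ℂ) n) (fun n : N => (χ : G → ℂ) n) = z 1 := by
    rw [H3.inner_self_eq]; simp [z]
  constructor
  · intro hirr
    by_contra hcon
    have hpos : ∀ g, 0 < z g := fun g => lt_of_le_of_ne (hz0 g) fun e =>
      hcon ⟨g, (hz1 g).1 e.symm⟩
    have h2 := H3.card_le_sum_re (H3.char_gen hψ) (Finset.univ.erase 1) (fun k hk g hg => by
      simp only [Finset.mem_erase, Finset.mem_univ, and_true] at hg ⊢
      intro e
      exact hg ((powCoprime hk.symm).injective (by simpa using e))) z (fun g _ => hz g)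
      fun g _ => hpos g
    rw [← Finset.add_sum_erase _ _ (Finset.mem_univ 1)] at hs
    rw [Finset.card_erase_of_mem (Finset.mem_univ _), Finset.card_univ, ← Nat.card_eq_fintype_card,
      Nat.cast_sub Nat.card_pos] at h2
    obtain ⟨m, hm⟩ := H3.inner_char_nat hcN hcN
    have h3 : z 1 = m := by rw [hin] at hm; exact_mod_cast hm
    have h4 : (m : ℝ) ≤ 1 := by push_cast at h2; linarith
    have h5 : (0 : ℝ) < m := h3 ▸ hpos 1
    have h6 : m = 1 := by
      have a : m ≤ 1 := by exact_mod_cast h4
      have b : 0 < m := by exact_mod_cast h5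
      omega
    exact hirr (H3.isIrr_of_norm_one hcN (by rw [hm, h6]; simp))
  · rintro ⟨x, hx⟩ hirr
    have h1 : z 1 = 1 := by
      have := H3.irr_inner_self hirr
      rw [hin] at this; exact_mod_cast this
    have h2 := H3.isIrr_of_degree_one hψ (by rw [hz, h1]; simp)
    obtain ⟨f, hf⟩ := H3.exists_hom_of_degree_one hψ (by rw [hz, h1]; simp)
    have := congrFun hf x
    rw [hz, (hz1 x).2 hx] at this
    exact (f x).ne_zero (by rw [← this]; simp)

end Cfsg.Agent.S4996
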