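import Cfsg.Statements.S5001
import Cfsg.Agent.H4.Maj2

set_option autoImplicit false
open Cfsg

namespace Cfsg.Agent.S5001

open H4 H1 MonoidAlgebra
open scoped Pointwise


/-- Let p be a prime, G a finite group and B a p-block of G (relative to a maximal ideal M of the algebraic integers containing p) with defect group D. Let Z be a central p-subgroup of G contained in D and λ a linear character of Z (a homomorphism to the nonzero complex numbers). Say an irreducible character χ of G lies over λ when χ(z) = χ(1)λ(z) for all z ∈ Z. If some irreducible character in B lying over λ has height zero, then λ extends to a linear character of D. -/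
theorem result {G : Type*} [Group G] [Finite G] (p : ℕ) [Fact p.Prime] (M : Ideal Cfsg.AlgInt) (hM : Cfsg.IsPModular p M) (B : Set (Cfsg.IrrCharacter G)) (hB : Cfsg.IsPBlock M B) (D : Subgroup G) (hD : Cfsg.IsDefectGroup p M B D) (Z : Subgroup G) (hZc : Z ≤ Subgroup.center G) (hZp : IsPGroup p ↥Z) (hZD : Z ≤ D) (lam : ↥Z →* ℂˣ) (χ : Cfsg.IrrCharacter G) (hχ : χ ∈ B) (hover : (∀ z : ↥Z, (χ : G → ℂ) z = (χ : G → ℂ) 1 * (lam z : ℂ))) (h0 : Cfsg.blockHeight p B (χ : G → ℂ) = 0) : (∃ μ : ↥D →* ℂˣ, ∀ z : ↥Z, μ ⟨(z : G), hZD z.2⟩ = lam z) := by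
  classical
  have hp : p.Prime := Fact.out
  have := Fintype.ofFinite D
  obtain ⟨y, h1, h2, h3⟩ := (isDefectGroup_iff hM hB).1 hD
  have h4 := red_ne_zero_of_defectClass hM hB h1 h2 hχ h0
  have h5 : (fun d : D => χ.1 (y * d)) ∈ OC D M :=
    OC_comp (Subgroup.inclusion h3.le) (OC_shift (OC_restrict (C1 y) (irr_mem_OC χ)) (cEl_mem_center y))
  have h6 := H3.class_apply_eq_sum (OC_class h5) 1
  simp only [OneMemClass.coe_one, mul_one] at h6
  rw [h6, red_sum _ _ fun ψ _ => mul_mem (OC_inner h5 (H3.irr_char ψ.2)) (irr_mem_O _ _)] at h4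
  obtain ⟨ψ, -, h7⟩ := Finset.exists_ne_zero_of_sum_ne_zero h4
  rw [red_mul (OC_inner h5 (H3.irr_char ψ.2)) (irr_mem_O _ _)] at h7
  obtain ⟨n, hn⟩ := H3.degree_prime_pow h3.isPGroup ψ.2
  have h8 : ψ.1 1 = 1 := by
    rcases n with _ | n
    · simpa using hn
    · exact absurd (by rw [hn, red_natCast, natCast_eq_zero_iff hM]; exact dvd_pow_self _ n.succ_ne_zero)
        (right_ne_zero_of_mul h7)
  obtain ⟨μ, hμ⟩ := H3.exists_hom_of_degree_one (H3.irr_char ψ.2) h8
  refine ⟨μ, fun z => Units.ext ?_⟩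
  have hz : (⟨z, hZD z.2⟩ : D) ∈ Subgroup.center D :=
    Subgroup.mem_center_iff.2 fun g => Subtype.ext (Subgroup.mem_center_iff.1 (hZc z.2) g)
  have h9 := inner_shift (fun d : D => χ.1 (y * d)) ψ.2 hz
  have : (fun g : D => χ.1 (y * ((⟨z, hZD z.2⟩ * g : D) : G))) = (lam z : ℂ) • fun d : D => χ.1 (y * d) := by
    funext g
    show χ.1 (y * (z * g)) = lam z * χ.1 (y * g)
    rw [← mul_assoc, Subgroup.mem_center_iff.1 (hZc z.2) y, mul_assoc, irr_mul_central χ.2 (hZc z.2), hover,
      mul_div_cancel_left₀ _ (H3.irr_one_ne_zero χ.2)]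
  rw [this, H3.inner_smul_left, h8, div_one] at h9
  have := mul_right_cancel₀ (ne_zero_of_red_ne_zero (left_ne_zero_of_mul h7)) h9
  rw [this, hμ]

end Cfsg.Agent.S5001
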