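import Cfsg.Statements.S5011
import Cfsg.Agent.H3.Chr

set_option autoImplicit false
open Cfsg

namespace Cfsg.Agent.S5011

/-- Let G be a finite non-abelian simple group and ρ an irreducible complex representation of G on a space of dimension greater than one (irreducible in the sense that the only subspaces invariant under every ρ(x) are 0 and the whole space). Then for every non-identity element g of G, the centralizer of g does not act irreducibly: there is a non-zero proper subspace invariant under ρ(c) for every c commuting with g. -/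
theorem result {G : Type*} [Group G] [Finite G] [IsSimpleGroup G]
    (hG : ¬ IsMulCommutative G) {V : Type*} [AddCommGroup V] [Module ℂ V] [FiniteDimensional ℂ V]
    (ρ : Representation ℂ G V)
    (hirr : ∀ W : Submodule ℂ V, (∀ x : G, ∀ v ∈ W, ρ x v ∈ W) → W = ⊥ ∨ W = ⊤)
    (hdim : 1 < Module.finrank ℂ V) (g : G) (hg : g ≠ 1) :
    ∃ W : Submodule ℂ V, W ≠ ⊥ ∧ W ≠ ⊤ ∧ ∀ c ∈ Subgroup.centralizer ({g} : Set G), ∀ v ∈ W, ρ c v ∈ W := by
  by_contra hc
  push Not at hc
  have hne : Nontrivial V := (Module.finrank_pos_iff (R := ℂ)).1 (by omega)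
  have : ρ.IsIrreducible := by
    refine { exists_pair_ne := ⟨⊥, ⊤, fun e => ?_⟩, eq_bot_or_eq_top := fun W => ?_ }
    · have := congrArg Subrepresentation.toSubmodule e
      exact bot_ne_top (α := Submodule ℂ V) this
    · rcases hirr W.toSubmodule (fun x v hv => W.apply_mem_toSubmodule x hv) with h | h
      · exact Or.inl (Subrepresentation.toSubmodule_injective h)
      · exact Or.inr (Subrepresentation.toSubmodule_injective h)
  obtain ⟨c, hc'⟩ := Module.End.exists_eigenvalue (ρ g)
  have h1 : Module.End.eigenspace (ρ g) c = ⊤ := by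
    by_contra h
    obtain ⟨x, hx, v, hv, h2⟩ := hc _ hc' h
    refine h2 ?_
    rw [Module.End.mem_eigenspace_iff] at hv ⊢
    have : g * x = x * g := hx g rfl
    rw [← Module.End.mul_apply, ← map_mul, this, map_mul, Module.End.mul_apply, hv, map_smul]
  have h2 : ρ g = c • LinearMap.id := LinearMap.ext fun v =>
    Module.End.mem_eigenspace_iff.1 (h1 ▸ Submodule.mem_top)
  have hχ := H3.isIrr_character ρ
  have h3 : g ∈ H3.charCenter ρ.character := by
    rw [H3.mem_charCenter (H3.irr_char hχ), Representation.char_one, Complex.norm_natCast,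
      H3.rep_scalar_iff]
    exact ⟨c, h2⟩
  have h4 := ((H3.charCenter_normal (H3.irr_class hχ)).eq_bot_or_eq_top).resolve_left
    fun e => hg (by rwa [e] at h3)
  have h5 := H3.degree_one_of_charCenter_eq_top hχ fun x => h4 ▸ Subgroup.mem_top x
  rw [Representation.char_one] at h5
  have : Module.finrank ℂ V = 1 := by exact_mod_cast h5
  omega

end Cfsg.Agent.S5011
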