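import Cfsg.Statements.S5125
import Cfsg.Agent.H2.Fus10

set_option autoImplicit false
open Cfsg

namespace Cfsg.Agent.S5125

open H2 Subgroup in

/-- Let F be a saturated fusion system over a finite p-group S and Q a subgroup strongly closed in F. If Q has a subgroup Q₁ that is normal in F, with Q/Q₁ abelian and Aut_F(Q₁) a p-group, then Q is normal in F. -/
theorem result {Ω : Type*} [Group Ω] {S : Subgroup Ω} [Finite S] (p : ℕ) [Fact p.Prime] (hS : IsPGroup p S) (F : Cfsg.FusionSystem S) (hF : F.IsSaturated p) (Q Q₁ : Subgroup Ω) (hQ : F.StronglyClosed Q) (hQ₁Q : Q₁ ≤ Q) (hQ₁ : F.IsNormal Q₁) (hab : ⁅Q, Q⁆ ≤ Q₁) (hAut : IsPGroup p ↥(F.autGroup Q₁)) : F.IsNormal Q := by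
  refine Sat.normal_of_chain ⟨hS, hF⟩ hQ (fun i => if i = 0 then Q₁ else Q) 1 (by simp) (fun i _ => ?_) ?_
    fun i hi => ?_
  · split_ifs
    exacts [normal_sc hQ₁, hQ]
  · intro P hc hr α hα hco x _ hx
    have h1 := normal_le_cr hS hQ₁ hc hr
    have h2 := (Aut.mor hc.1 hα).mono h1
    have h3 := sc_Stab (normal_sc hQ₁) h2 le_rfl
    have h4 := eq_one_of_coprime_of_mem (isPGroup_Aut_iff.2 hAut) (h2.res_mem h3)
      (Nat.Coprime.coprime_dvd_left (orderOf_res_dvd h3) hco)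
    exact (res_eq_one_iff h3).1 h4 x hx
  · interval_cases i
    simpa using hab

end Cfsg.Agent.S5125
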