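import Cfsg.Statements.S5126
import Cfsg.Agent.H2.Fus14

set_option autoImplicit false
open Cfsg

namespace Cfsg.Agent.S5126

open H2 Subgroup in

/-- In a saturated fusion system over a finite p-group S, the normalizer system of a fully normalized, centric, radical subgroup R is constrained, and in every model of that normalizer system the largest normal p-subgroup is the image of R. -/
theorem result {Ω : Type*} [Group Ω] {S : Subgroup Ω} [Finite S] (p : ℕ) [Fact p.Prime] (hS : IsPGroup p S) (F : Cfsg.FusionSystem S) (hF : F.IsSaturated p) (R : Subgroup Ω) (hRn : F.IsFullyNormalized R) (hRc : F.IsCentric R) (hRr : F.IsRadical p R) (E : Cfsg.FusionSystem (Cfsg.FusionSystem.normalizerIn S R)) (hE : F.IsNormalizerSystem R E) {G : Type*} [Group G] (ι : ↥(Cfsg.FusionSystem.normalizerIn S R) →* G) : E.IsConstrained p ∧ (E.IsModel p G ι → (Cfsg.pCore p G : Subgroup G) = (R.subgroupOf (Cfsg.FusionSystem.normalizerIn S R)).map ι) := by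
  have hF' : Sat p F := ⟨hS, hF⟩
  have hE' := isNormalizerSystem_iff.1 hE
  have hR : R ≤ Cfsg.FusionSystem.normalizerIn S R := le_inf hRn.1 le_normalizer
  have h1 := hF'.normalizer_sat hRn hE
  have h2 := hE'.normal hR
  have h3 := centric_sub hE'.sub hRc hR
  refine ⟨⟨h1.sat, R, h2, h3⟩, fun h => ?_⟩
  have h4 : E.IsRadical p R := radical_iff.2 ⟨hR, by rw [hE'.Aut_self hR]; exact (radical_iff.1 hRr).2⟩
  rw [← Oc_top, (model_iff.1 h).Oc_eq, le_antisymm (normal_le_cr h1.pg (core_normal E) h3 h4) (le_core h2)]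
  exact (imageAlong_eq ι hR).symm

end Cfsg.Agent.S5126
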