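import Cfsg.Statements.S5131
import Cfsg.Agent.H2.Fus10

set_option autoImplicit false
open Cfsg

namespace Cfsg.Agent.S5131

open H2 Subgroup in

/-- Let F be a fusion system over a finite p-group S and F' a fusion system over S'. If α : S → S' is a morphism of fusion systems from F to F' (every map of F induces along α a map of F'), then the kernel of α is strongly closed in S with respect to F. -/
theorem result {Ω : Type*} [Group Ω] {S : Subgroup Ω} [Finite S] (p : ℕ) [Fact p.Prime] (hS : IsPGroup p S) (F : Cfsg.FusionSystem S) {Ω' : Type*} [Group Ω'] {S' : Subgroup Ω'} (F' : Cfsg.FusionSystem S') (α : S →* Ω') (hα : F.IsMorphism F' α) : F.StronglyClosed ((α.ker).map S.subtype) := by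
  refine stronglyClosed_of (map_subtype_le _) fun P σ hσ x hx hx' => ?_
  obtain ⟨φ', -, h2⟩ := hα.2 P _ hσ.toHom_mem
  have := (inducedAlong_iff (φ := hσ.homOn.toHom) (fun _ => rfl) (fn_coe φ') hσ (imageAlong_eq α hσ.le).ge).1 h2
  exact ker_apply_of_ind hσ this hx hx'

end Cfsg.Agent.S5131
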