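import Cfsg.Statements.S5138
import Cfsg.Agent.H2.Fus28

set_option autoImplicit false
open Cfsg

namespace Cfsg.Agent.S5138

open H2 Subgroup in

/-- Let F be a saturated fusion system over a finite p-group S and E₁, E₂ normal subsystems over T₁, T₂ with [T₁, T₂] = 1. Then there is a normal subsystem of F over T₁T₂ which, if moreover T₁ ∩ T₂ lies in the centre of E₁ and in the centre of E₂, is a central product of E₁ and E₂ (the factor system of a direct product of E₁ and E₂ modulo a subgroup of its centre meeting both factors trivially). -/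
theorem result {Ω : Type*} [Group Ω] {S : Subgroup Ω} [Finite S] (p : ℕ) [Fact p.Prime] (hS : IsPGroup p S) (F : Cfsg.FusionSystem S) (hF : F.IsSaturated p) {T₁ T₂ : Subgroup Ω} (E₁ : Cfsg.FusionSystem T₁) (E₂ : Cfsg.FusionSystem T₂) (hE₁ : E₁.IsNormalIn F p) (hE₂ : E₂.IsNormalIn F p) (hc : ⁅T₁, T₂⁆ = ⊥) : ∃ D : Cfsg.FusionSystem (T₁ ⊔ T₂), D.IsNormalIn F p ∧ (T₁ ⊓ T₂ ≤ E₁.center → T₁ ⊓ T₂ ≤ E₂.center → Cfsg.FusionSystem.IsCentralProductOf E₁ E₂ D) := by
  have := nrm_finite hE₁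
  have := nrm_finite hE₂
  rw [nrm_iff hS] at hE₁ hE₂
  have : Finite ↥(T₁ ⊔ T₂) := finite_of_le (sup_le hE₁.inv.le hE₂.inv.le)
  obtain ⟨D, k1, k2⟩ := hE₁.exists_cp hE₂ (commutator_eq_bot_iff_le_centralizer.1 hc) rfl
  exact ⟨D, (nrm_iff hS).2 k1, fun h1 h2 => (cp_iff hE₁.satE hE₂.satE).2 (k2 h1 h2)⟩

end Cfsg.Agent.S5138
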