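import Cfsg.Statements.S5148
import Cfsg.Agent.H2.Fus10

set_option autoImplicit false
open Cfsg

namespace Cfsg.Agent.S5148

open H2 Subgroup in

/-- A quasisimple fusion system over a finite p-group S (saturated, equal to its p-residual subsystem, with simple — in particular nontrivial — factor system modulo its centre) has S nonabelian. -/
theorem result {Ω : Type*} [Group Ω] {S : Subgroup Ω} [Finite S] (p : ℕ) [Fact p.Prime] (hS : IsPGroup p S) (F : Cfsg.FusionSystem S) (hq : F.Quasisimple p) : ¬ IsMulCommutative S := by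
  intro hab
  have hF : Sat p F := ⟨hS, hq.1⟩
  have hZ := normal_sc (normal_of_central (center_central F))
  obtain ⟨E, hE⟩ := exists_quot F (wc_of_sc hZ)
  have h1 := hF.surjM_of_factor hE hZ
  have h2 := h1.sat hF
  have h3 := hq.2.2 E hE
  have h4 := (simple_abelian h2.pg h3 fun x _ y _ => by
    obtain ⟨x, rfl⟩ := QuotientGroup.mk'_surjective _ x
    obtain ⟨y, rfl⟩ := QuotientGroup.mk'_surjective _ y
    rw [← map_mul, ← map_mul, hab.is_comm.comm]).2
  rw [h2.inner_iff_hyp, h1.hyp_eq hF, hq.2.1, h1.img_top] at h4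
  exact h3.2.1 h4

end Cfsg.Agent.S5148
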