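import Cfsg.Statements.S5153
import Cfsg.Agent.H2.Fus10

set_option autoImplicit false
open Cfsg

namespace Cfsg.Agent.S5153

open H2 Subgroup in

/-- Let F be a saturated fusion system over a finite p-group S and E a subnormal subsystem of F over T. Then every subgroup of T that is fully normalized in F is fully normalized in E. -/
theorem result {Ω : Type*} [Group Ω] {S : Subgroup Ω} [Finite S] (p : ℕ) [Fact p.Prime] (hS : IsPGroup p S) (F : Cfsg.FusionSystem S) (hF : F.IsSaturated p) {T : Subgroup Ω} (E : Cfsg.FusionSystem T) (hE : E.IsSubnormalIn F p) (P : Subgroup Ω) (hPT : P ≤ T) (hP : F.IsFullyNormalized P) : E.IsFullyNormalized P := by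
  have key : ∀ {T : Subgroup Ω} {E : Cfsg.FusionSystem T} {S : Subgroup Ω} {F : Cfsg.FusionSystem S} {q}, E.IsSubnormalIn F q → q = p →
      Finite S → IsPGroup p S → P ≤ T → F.IsFullyNormalized P → E.IsSubsystemOf F ∧ E.IsFullyNormalized P := by
    intro T E S F q h
    induction h with
    | refl => exact fun _ _ _ _ h => ⟨fun _ => le_rfl, h⟩
    | step h0 h ih =>
      rintro rfl _ hS hPT hP
      have := nrm_finite h
      have h1 := (nrm_iff hS).1 h
      have key2 : ∀ {T : Subgroup Ω} {E : Cfsg.FusionSystem T} {S : Subgroup Ω} {F : Cfsg.FusionSystem S} {q}, E.IsSubnormalIn F q → T ≤ S := by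
        intro T E S F q h
        induction h with
        | refl => exact le_rfl
        | step _ h ih => exact ih.trans h.1.2.2.2.1.1
      have h2 := ih rfl this h1.satE.pg hPT (h1.satF.fn_sub h1.inv.sc h1.inv.sub (hPT.trans (key2 h0)) hP)
      exact ⟨fun P => (h2.1 P).trans (h1.inv.sub P), h2.2⟩
  exact (key hE rfl inferInstance hS hPT hP).2

end Cfsg.Agent.S5153
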