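import Cfsg.Statements.S5162
import Cfsg.Agent.H2.Fus28

set_option autoImplicit false
open Cfsg

namespace Cfsg.Agent.S5162

open H2 Subgroup in

/-- Let F be a saturated fusion system over a finite p-group S that is a central product of two saturated subsystems F₁ (over S₁) and F₂ (over S₂) inside S. Then every component of F is a component of F₁ or a component of F₂. -/
theorem result {Ω : Type*} [Group Ω] {S : Subgroup Ω} [Finite S] (p : ℕ) [Fact p.Prime] (hS : IsPGroup p S) (F : Cfsg.FusionSystem S) (hF : F.IsSaturated p) {S₁ S₂ : Subgroup Ω} (F₁ : Cfsg.FusionSystem S₁) (F₂ : Cfsg.FusionSystem S₂) (h₁ : F₁.IsSaturated p) (h₂ : F₂.IsSaturated p) (h₁F : F₁.IsSubsystemOf F) (h₂F : F₂.IsSubsystemOf F) (hc : Cfsg.FusionSystem.IsCentralProductOf F₁ F₂ F) {T : Subgroup Ω} (C : Cfsg.FusionSystem T) (hC : C.IsComponentIn F p) : C.IsComponentIn F₁ p ∨ C.IsComponentIn F₂ p := by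
  have := finite_of_le (sub_le h₁F)
  have := finite_of_le (sub_le h₂F)
  have k1 : Sat p F₁ := ⟨hS.to_le (sub_le h₁F), h₁⟩
  have k2 : Sat p F₂ := ⟨hS.to_le (sub_le h₂F), h₂⟩
  rw [comp_iff k1.pg, comp_iff k2.pg]
  exact ((cp_iff k1 k2).1 hc).comp ⟨hS, hF⟩ k1 k2 ((comp_iff hS).1 hC)

end Cfsg.Agent.S5162
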