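import Cfsg.Statements.S5193
import Cfsg.Agent.H2.FF2

set_option autoImplicit false
open Cfsg

namespace Cfsg.Agent.S5193

open H2 Subgroup in

/-- Glauberman's Theorem for fusion systems. Let F be a saturated fusion system over a finite p-group S, let J(S) be the subgroup generated by the abelian subgroups of S of largest order, and let N be the normalizer fusion system of J(S) in F (a fusion system over N_S(J(S)) = S). Then every p-th power of an element of Z(S) that lies in the centre of N lies in the centre of F; and if p is odd, or if the symmetric group of degree 4 is not involved in any model of the normalizer system of a fully normalized F-centric subgroup (F is S₄-free), then the centre of N equals the centre of F. -/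
theorem result {Ω : Type*} [Group Ω] {S : Subgroup Ω} [Finite S] (p : ℕ) [Fact p.Prime] (hS : IsPGroup p S) (F : Cfsg.FusionSystem S) (hF : F.IsSaturated p) (N : Cfsg.FusionSystem (Cfsg.FusionSystem.normalizerIn S (Cfsg.thompsonSubgroupAOf S))) (hN : F.IsNormalizerSystem (Cfsg.thompsonSubgroupAOf S) N) : Subgroup.closure ((fun z : Ω => z ^ p) '' ((S ⊓ Subgroup.centralizer (S : Set Ω) : Subgroup Ω) : Set Ω)) ⊓ N.center ≤ F.center ∧ (p ≠ 2 ∨ F.IsSectionFree p (Equiv.Perm (Fin 4)) → N.center = F.center) := by
  have hF' : Sat p F := ⟨hS, hF⟩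
  have hN0 := isNormalizerSystem_iff.1 hN
  haveI := hN0.finite
  have hN' : IsNK F (H9.JA S) ⊤ N := H9.JA_eq S ▸ hN0
  have hn : S ≤ normalizer (H9.JA S : Set Ω) := H9.normalizer_JA le_normalizer
  refine ⟨FG.center_mho (W := H9.fJA) H9.char_fJA (fun Q _ _ _ => by
    rw [H9.fJA, ← H9.Zc_top]; exact (H9.Zc_le_ZA _).trans inf_le_left)
    (fun G _ _ H T hT h => H9.JA_rel hT (by rwa [H9.iF_fJA] at h)) hF' (by rwa [H9.iF_fJA]), fun h => ?_⟩
  refine le_antisymm (fun z hz => ?_) (FG.center_le_N hF' (H9.JA_le S) hn hN')
  have h1 : z ∈ S ⊓ centralizer (S : Set Ω) := by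
    have := FG.center_le N hz
    rwa [hN'.eq_top hn] at this
  exact FG.center_JA hF' (FG.free_of_s4 hF' h) h1 fun σ h2 h3 =>
    FG.fix_of_N (H9.JA_le S) hn hN' hz (FG.Zc_le_JA S h1) h2 h3

end Cfsg.Agent.S5193
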