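import Cfsg.Statements.S5194
import Cfsg.Agent.H2.FF2

set_option autoImplicit false
open Cfsg

namespace Cfsg.Agent.S5194

open H2 Subgroup in

/-- Thompson's normal p-complement Theorem for fusion systems. Let F be a saturated fusion system over a finite p-group S such that p is odd or F is S₄-free (the symmetric group of degree 4 is not involved in any model of the normalizer system of a fully normalized F-centric subgroup), and let J(S) be the subgroup generated by the abelian subgroups of S of largest order. If the centralizer fusion system of Z(S) in F is the inner fusion system of C_S(Z(S)) = S and the normalizer fusion system of J(S) in F is the inner fusion system of N_S(J(S)) = S, then F is the inner fusion system of S. -/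
theorem result {Ω : Type*} [Group Ω] {S : Subgroup Ω} [Finite S] (p : ℕ) [Fact p.Prime] (hS : IsPGroup p S) (F : Cfsg.FusionSystem S) (hF : F.IsSaturated p) (hp : p ≠ 2 ∨ F.IsSectionFree p (Equiv.Perm (Fin 4))) (hC : ∀ C : Cfsg.FusionSystem (Cfsg.FusionSystem.centralizerIn S (S ⊓ Subgroup.centralizer (S : Set Ω))), F.IsCentralizerSystem (S ⊓ Subgroup.centralizer (S : Set Ω)) C → ∀ P : Subgroup Ω, C.Hom P = (Cfsg.innerFusionSystem (Cfsg.FusionSystem.centralizerIn S (S ⊓ Subgroup.centralizer (S : Set Ω)))).Hom P) (hN : ∀ N : Cfsg.FusionSystem (Cfsg.FusionSystem.normalizerIn S (Cfsg.thompsonSubgroupAOf S)), F.IsNormalizerSystem (Cfsg.thompsonSubgroupAOf S) N → ∀ P : Subgroup Ω, N.Hom P = (Cfsg.innerFusionSystem (Cfsg.FusionSystem.normalizerIn S (Cfsg.thompsonSubgroupAOf S))).Hom P) : ∀ P : Subgroup Ω, F.Hom P = (Cfsg.innerFusionSystem S).Hom P := by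
  have hF' : Sat p F := ⟨hS, hF⟩
  rw [H9.JA_eq] at hN
  refine isInner_iff.2 (FG.inner_of_thompson hF' (FG.free_of_s4 hF' hp) (fun A σ hσ => ?_)
    ((FG.ni_iff_forall (H9.JA_le S) (H9.normalizer_JA le_normalizer)).1 hN))
  obtain ⟨C, h1⟩ := exists_isNK F (inf_le_left : S ⊓ centralizer (S : Set Ω) ≤ S) ⊥
    ((centralizerIn_eq S _).trans (Nk_bot S _).symm)
  obtain ⟨s, h2, h3⟩ := isInner_iff.1 (hC C (isCentralizerSystem_iff.2 h1)) A σ (h1.mor (fun x hx =>
    ⟨hσ.mor.le hx, fun z hz => (hz.2 x (hσ.mor.le hx)).symm⟩) hσ)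
  exact ⟨s, h2.1, h3⟩

end Cfsg.Agent.S5194
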