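import Cfsg.Statements.S5201
import Cfsg.Agent.H2.Fus29

set_option autoImplicit false
open Cfsg

namespace Cfsg.Agent.S5201

open H2 Subgroup in

/-- A reduction to normal subsystems. Let F be a saturated fusion system over a finite p-group S and E a normal subsystem of F over T whose centralizer in S lies in T (every subgroup Y of C_S(T) with E contained in the centralizer fusion system of Y in F satisfies Y ≤ T), and suppose Aut_F(T)/Aut_E(T) is p-solvable. Then F and E have the same residual limit: if F∞ is the residual limit of F (reached by alternately passing to the p-residual and the p'-residual subsystem until nothing changes) and E∞ that of E, then F∞ and E∞ have the same maps. -/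
theorem result {Ω : Type*} [Group Ω] {S : Subgroup Ω} [Finite S] (p : ℕ) [Fact p.Prime] (hS : IsPGroup p S) (F : Cfsg.FusionSystem S) (hF : F.IsSaturated p) {T : Subgroup Ω} (E : Cfsg.FusionSystem T) (hE : E.IsNormalIn F p) (hCE : ∀ Y : Subgroup Ω, Y ≤ Cfsg.FusionSystem.centralizerIn S T → (∀ C : Cfsg.FusionSystem (Cfsg.FusionSystem.centralizerIn S Y), F.IsCentralizerSystem Y C → E.IsSubsystemOf C) → Y ≤ T) [hn : ((E.autGroup T).subgroupOf (F.autGroup T)).Normal] (hsolv : Cfsg.IsPSolvable p (↥(F.autGroup T) ⧸ (E.autGroup T).subgroupOf (F.autGroup T))) {U V : Subgroup Ω} (Finf : Cfsg.FusionSystem U) (hFinf : Finf.IsResidualLimitOf F p) (Einf : Cfsg.FusionSystem V) (hEinf : Einf.IsResidualLimitOf E p) : ∀ P : Subgroup Ω, Finf.Hom P = Einf.Hom P := by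
  have := nrm_finite hE
  rw [nrm_iff hS] at hE
  have : Finite ↥(T ⊔ S ⊓ centralizer (T : Set Ω)) := finite_of_le (sup_le hE.inv.le inf_le_left)
  obtain ⟨D, k1, k2, k3, k4⟩ := hE.exists_env (fun B => aut_le_of_psv hE.inv.sub hsolv) rfl
  obtain ⟨_, m1, m2, -⟩ := rl_spec hFinf hE.satF
  exact rl_eq hE hFinf hEinf ((m2.le_hyp (m1.sn_of_stbl m2 k1.toWN (k4 _ _ m1 m2)).sub).trans (hE.hyp_le_of_env
    (hCE _ hE.cen_CS.1 fun C hC => hE.cen_CS.sub (isCentralizerSystem_iff.1 hC)) rfl k1.toWN k2 k3.le))

end Cfsg.Agent.S5201
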