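import Cfsg.Statements.S5203
import Cfsg.Agent.H2.Fus29

set_option autoImplicit false
open Cfsg

namespace Cfsg.Agent.S5203

open H2 Subgroup in

/-- Let F be a saturated fusion system over a finite p-group S and E a normal subsystem of F over T that has p-power index in F. Then every residual limit of E has the same maps as every residual limit of F (the residual limit is reached by alternately passing to the p-residual and the p'-residual subsystem until nothing changes). -/
theorem result {Ω : Type*} [Group Ω] {S : Subgroup Ω} [Finite S] (p : ℕ) [Fact p.Prime] (hS : IsPGroup p S) (F : Cfsg.FusionSystem S) (hF : F.IsSaturated p) {T : Subgroup Ω} (E : Cfsg.FusionSystem T) (hE : E.IsNormalIn F p) (hidx : E.HasPPowerIndexIn F p) {U V : Subgroup Ω} (Finf : Cfsg.FusionSystem U) (hFinf : Finf.IsResidualLimitOf F p) (Einf : Cfsg.FusionSystem V) (hEinf : Einf.IsResidualLimitOf E p) : ∀ P : Subgroup Ω, Finf.Hom P = Einf.Hom P := by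
  have := nrm_finite hE
  rw [nrm_iff hS] at hE
  obtain ⟨_, k1, k2, -⟩ := rl_spec hFinf hE.satF
  exact rl_eq hE hFinf hEinf ((k2.le_hyp k1.sub).trans (ppi_iff.1 hidx).hyp)

end Cfsg.Agent.S5203
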