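import Cfsg.Statements.S5212
import Cfsg.Agent.H9.ESb

set_option autoImplicit false
open Cfsg

namespace Cfsg.Agent.S5212

/-- Let S be a finite metacyclic 2-group that is not homocyclic abelian (a direct product of cyclic groups of one common order), not dihedral, not semidihedral and not generalized quaternion. Then every saturated fusion system over S is the inner fusion system of S. -/
theorem result {Ω : Type*} [Group Ω] {S : Subgroup Ω} [Finite S] (hS : IsPGroup 2 S) (F : Cfsg.FusionSystem S) (hF : F.IsSaturated 2) (hm : Cfsg.IsMetacyclic ↥S) (hh : ¬ ∃ n k : ℕ, Nonempty (↥S ≃* Multiplicative (Fin k → ZMod (2 ^ n)))) (hd : ¬ ∃ m : ℕ, Nonempty (↥S ≃* DihedralGroup m)) (hq : ¬ ∃ m : ℕ, Nonempty (↥S ≃* QuaternionGroup m)) (hsd : ¬ Cfsg.IsQuasiDihedral ↥S) : ∀ P : Subgroup Ω, F.Hom P = (Cfsg.innerFusionSystem S).Hom P := by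
  open H9 Subgroup in open scoped commutatorElement in
  have hF' : H2.Sat 2 F := ⟨hS, hF⟩
  refine H2.isInner_iff.2 (hF'.inner_of_normal (FG.sc_meta hF' (H2.sc_top F) hm (by
    rintro (⟨n, -, e⟩ | e | ⟨n, -, e⟩)
    exacts [hd ⟨n, e⟩, hsd e, hq ⟨n, e⟩])) (H2.isPGroup_Aut_iff.2 (IsPGroup.to_subgroup (by_contra fun h => ?_) _)))
  obtain ⟨N, _, a, b⟩ := hm
  rcases Cfsg.Agent.H2.meta_two hS a b h with e | ⟨n, ⟨e⟩⟩
  exacts [hq ⟨2, e⟩, hh ⟨n, 2, ⟨e.trans ((MulEquiv.prodMultiplicative _ _).symm.trans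
    (AddEquiv.toMultiplicative (LinearEquiv.finTwoArrow ℤ _).symm.toAddEquiv))⟩⟩]

end Cfsg.Agent.S5212
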