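import Cfsg.Statements.S5222
import Cfsg.Agent.H2.Fus13

set_option autoImplicit false
open Cfsg

namespace Cfsg.Agent.S5222

open H2 Subgroup in

/-- Let F be a saturated fusion system over a finite p-group S whose normalizer fusion system of S is the inner fusion system of S (Aut_F(S) is a p-group). Then for every subgroup Q of S with [S, S] ≤ Q ≤ Φ(S), the normalizer fusion system of Q in F is the inner fusion system of N_S(Q) = S. -/
theorem result {Ω : Type*} [Group Ω] {S : Subgroup Ω} [Finite S] (p : ℕ) [Fact p.Prime] (hS : IsPGroup p S) (F : Cfsg.FusionSystem S) (hF : F.IsSaturated p) (hN : ∀ N : Cfsg.FusionSystem (Cfsg.FusionSystem.normalizerIn S S), F.IsNormalizerSystem S N → ∀ P : Subgroup Ω, N.Hom P = (Cfsg.innerFusionSystem (Cfsg.FusionSystem.normalizerIn S S)).Hom P) (Q : Subgroup Ω) (h1 : (commutator ↥S).map S.subtype ≤ Q) (h2 : Q ≤ (frattini ↥S).map S.subtype) : ∀ N : Cfsg.FusionSystem (Cfsg.FusionSystem.normalizerIn S Q), F.IsNormalizerSystem Q N → ∀ P : Subgroup Ω, N.Hom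 P = (Cfsg.innerFusionSystem (Cfsg.FusionSystem.normalizerIn S Q)).Hom P := by
  have hF' : Sat p F := ⟨hS, hF⟩
  have hT : S ≤ Cfsg.FusionSystem.normalizerIn S S := le_inf le_rfl le_normalizer
  obtain ⟨N, hN'⟩ := exists_normalizerSystem F le_rfl
  have hA : IsPGroup p (Aut F S) := by
    rw [← (isNormalizerSystem_iff.1 hN').Aut_self hT]
    exact (isInner_iff.1 (hN N hN')).isPGroup (hS.to_le inf_le_left) hT
  rw [map_commutator_sub] at h1
  have hQ := h2.trans (Phi_le S)
  have hn := le_normalizer_of_commutator_le h1 hQ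
  obtain ⟨E, hE⟩ := exists_isNK_top F hQ hn
  have hE' := hF'.NK_sat (FK_top.2 (fn_of_normal F hQ hn)) hE
  have := hE'.inner_of_sc (normal_sc (hE.normal hQ)) h1 h2 (hA.to_le (Aut_mono_sub hE.sub S))
  intro M hM
  exact isInner_iff.2 (this.of_sub ((isNormalizerSystem_iff.1 hM).sub_of hE) (le_inf le_rfl hn))

end Cfsg.Agent.S5222
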