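import Cfsg.Statements.S5223
import Cfsg.Agent.H2.Fus10

set_option autoImplicit false
open Cfsg

namespace Cfsg.Agent.S5223

open H2 Subgroup in

/-- Let F be a saturated fusion system over a finite p-group S. Suppose there are subgroups Q₀ = S, Q₁, …, Qₙ = 1 (not required to be nested) such that for each i < n the focal subgroup of Qᵢ (generated by the elements x⁻¹φ(x), x ∈ Qᵢ, φ a map of F defined on the cyclic group generated by x) lies in Qᵢ₊₁. Then F is the inner fusion system of S. -/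
theorem result {Ω : Type*} [Group Ω] {S : Subgroup Ω} [Finite S] (p : ℕ) [Fact p.Prime] (hS : IsPGroup p S) (F : Cfsg.FusionSystem S) (hF : F.IsSaturated p) (n : ℕ) (Q : Fin (n + 1) → Subgroup Ω) (hQ0 : Q 0 = S) (hQn : Q (Fin.last n) = ⊥) (hstep : ∀ i : Fin n, Subgroup.closure {y : Ω | ∃ x ∈ Q i.castSucc, ∃ φ ∈ F.Hom (Subgroup.zpowers x), y = x⁻¹ * φ ⟨x, Subgroup.mem_zpowers x⟩} ≤ Q i.succ) : ∀ P : Subgroup Ω, F.Hom P = (Cfsg.innerFusionSystem S).Hom P := by
  have hF' : Sat p F := ⟨hS, hF⟩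
  refine isInner_iff.2 (hF'.inner_of_coprime fun P hP α hα hc x hx => ?_)
  have h1 := (hF'.fcr_of hP).1.1
  refine fix_of_chain (hS.to_le h1) (Aut.homOn hα) (fun x hx => Aut.mem hα hx) hc
    (fun i => Q ⟨n - i, by omega⟩) n (fun y _ hy => ?_) (fun i hi y hy hy' => ?_) x hx ?_
  · have : y ∈ Q (Fin.last n) := hy
    rw [hQn, mem_bot] at this
    rw [this, (Aut.homOn hα).map_one]
  · have h2 := (Aut.mor h1 hα).mono (zpowers_le.2 hy)
    have := hstep ⟨n - (i + 1), by omega⟩ (subset_closure ⟨y, hy', _, h2.toHom_mem, rfl⟩)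
    have e : (⟨n - i, by omega⟩ : Fin (n + 1)) = (⟨n - (i + 1), by omega⟩ : Fin n).succ :=
      Fin.ext (by simp only [Fin.succ_mk]; omega)
    rw [e]; exact this
  · have : (⟨n - n, by omega⟩ : Fin (n + 1)) = 0 := Fin.ext (Nat.sub_self n)
    simp only [this, hQ0]; exact h1 hx

end Cfsg.Agent.S5223
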