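import Cfsg.Statements.S5225
import Cfsg.Agent.H2.Fus13

set_option autoImplicit false
open Cfsg

namespace Cfsg.Agent.S5225

open H2 Subgroup in

/-- Yoshida's Theorem for fusion systems. Let F be a saturated fusion system over a finite p-group S and N the normalizer fusion system of S in F. If the focal subgroups of F and N differ (N does not control transfer in F), then S has a quotient isomorphic to the wreath product C_p ≀ C_p (realised as a Sylow p-subgroup of the symmetric group of degree p²). -/
theorem result {Ω : Type*} [Group Ω] {S : Subgroup Ω} [Finite S] (p : ℕ) [Fact p.Prime] (hS : IsPGroup p S) (F : Cfsg.FusionSystem S) (hF : F.IsSaturated p) (N : Cfsg.FusionSystem (Cfsg.FusionSystem.normalizerIn S S)) (hN : F.IsNormalizerSystem S N) (hne : N.focalSubgroup ≠ F.focalSubgroup) : ∃ (W : Sylow p (Equiv.Perm (Fin (p ^ 2)))) (f : ↥S →* ↥(W : Subgroup (Equiv.Perm (Fin (p ^ 2))))), Function.Surjective f := by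
  have hF' : Sat p F := ⟨hS, hF⟩
  obtain ⟨E, hE⟩ := exists_isNK_top F le_rfl le_normalizer
  have hN' := isNormalizerSystem_iff.1 hN
  refine hF'.yoshida (hF'.NK_sat (FK_top.2 (fn_top F)) hE) hE.sub (hE.Aut_self le_rfl).ge ?_
  rwa [le_antisymm (focal_mono (hE.sub_of hN')) (focal_mono (hN'.sub_of hE))]

end Cfsg.Agent.S5225
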