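import Cfsg.Statements.S5226
import Cfsg.Agent.H2.Fus10

set_option autoImplicit false
open Cfsg

namespace Cfsg.Agent.S5226

open H2 Subgroup in

/-- Let F be a saturated fusion system over a finite p-group S and Q a subgroup of S. Then Q is normal in F (F equals the normalizer system of Q) if and only if Q is strongly closed in F and admits a central series 1 = Q₀ ≤ Q₁ ≤ ⋯ ≤ Qₙ = Q ([Qᵢ₊₁, Q] ≤ Qᵢ) all of whose proper terms are weakly closed in F. -/
theorem result {Ω : Type*} [Group Ω] {S : Subgroup Ω} [Finite S] (p : ℕ) [Fact p.Prime] (hS : IsPGroup p S) (F : Cfsg.FusionSystem S) (hF : F.IsSaturated p) (Q : Subgroup Ω) : F.IsNormal Q ↔ F.StronglyClosed Q ∧ ∃ (n : ℕ) (C : Fin (n + 1) → Subgroup Ω), C 0 = ⊥ ∧ C (Fin.last n) = Q ∧ Monotone C ∧ (∀ i : Fin n, ⁅C i.succ, Q⁆ ≤ C i.castSucc) ∧ ∀ i : Fin n, F.WeaklyClosed (C i.castSucc) := by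
  have hF' : Sat p F := ⟨hS, hF⟩
  constructor
  · intro h
    have := finite_of_le h.1
    obtain ⟨n, hn⟩ := exists_Zs_eq (hS.to_le h.1)
    exact ⟨normal_sc h, n, fun i => Zs Q i, Zs_zero Q, hn, fun i j hij => Zs_mono Q hij,
      fun i => commutator_Zs_le' Q i, fun i => wc_of_sc (normal_sc (normal_Zs h _))⟩
  · rintro ⟨hQ, n, C, h0, h1, h2, h3, h4⟩
    refine hF'.normal_of_wc_chain hQ (fun i => if h : i < n + 1 then C ⟨i, h⟩ else ⊥) n ?_ (fun i hi => ?_) ?_
      (fun i hi => ?_) fun i hi => ?_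
    · rw [dif_pos n.lt_succ_self]; exact h1
    · rw [dif_pos (by omega)]; exact h4 ⟨i, hi⟩
    · rw [dif_pos n.succ_pos]; exact h0
    · rw [dif_pos (by omega), ← h1]; exact h2 (Fin.le_last _)
    · rw [dif_pos (by omega), dif_pos (by omega), commutator_comm]; exact h3 ⟨i, hi⟩

end Cfsg.Agent.S5226
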