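import Cfsg.Statements.S5233
import Cfsg.Agent.H2.Res2
import Cfsg.Agent.H1.ES2

set_option autoImplicit false
open Cfsg

namespace Cfsg.Agent.S5233

open H2 Subgroup commutatorElement in

/-- Let F be a saturated fusion system over a finite p-group S and P a subgroup of S strongly closed in F that is generalized extraspecial (its Frattini subgroup equals its commutator subgroup and has order p) and not isomorphic to E × A with A elementary abelian and E dihedral of order 8 (p = 2) or extraspecial of order p³ and exponent p (p odd). Then P is normal in F. -/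
theorem result {Ω : Type*} [Group Ω] {S : Subgroup Ω} [Finite S] (p : ℕ) [Fact p.Prime] (hS : IsPGroup p S) (F : Cfsg.FusionSystem S) (hF : F.IsSaturated p) (P : Subgroup Ω) (hP : F.StronglyClosed P) (hge : frattini ↥P = commutator ↥P ∧ Nat.card ↥(commutator ↥P) = p) (h2 : p = 2 → ¬ ∃ (A : Type) (_ : CommGroup A), (∀ a : A, a ^ 2 = 1) ∧ Nonempty (↥P ≃* DihedralGroup 4 × A)) (hodd : p ≠ 2 → ¬ ∃ (E : Type) (_ : Group E) (A : Type) (_ : CommGroup A), Cfsg.IsExtraspecial p E ∧ Nat.card E = p ^ 3 ∧ Monoid.exponent E = p ∧ (∀ a : A, a ^ p = 1) ∧ Nonempty (↥P ≃* E × A)) : F.IsNormal P := by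
  have hF' : H2.Sat p F := ⟨hS, hF⟩
  have hp := (Fact.out : p.Prime)
  have := finite_of_le hP.1
  have pg := hS.to_le hP.1
  obtain ⟨z, a, b, hw, hab, hz⟩ := exists_ws pg hge.2
  have hq : ∀ x : P, x ^ p ∈ zpowers z := fun x => by rw [hz, ← hge.1]; exact H1.pow_mem_frattini pg x
  have hw' := ws_map P.subtype_injective hw
  rw [← MonoidHom.range_eq_map, range_subtype] at hw'
  have hq' : ∀ x ∈ P, x ^ p ∈ zpowers (P.subtype z) := fun x hx => by
    rw [← MonoidHom.map_zpowers]; exact mem_map_of_mem P.subtype (hq ⟨x, hx⟩)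
  by_cases h : F.StronglyClosed (zpowers (P.subtype z))
  · refine hF'.normal_of_chain' hP (fun i => if i = 0 then ⊥ else if i = 1 then zpowers (P.subtype z) else P) 2 le_rfl
      (fun i hi => ?_) rfl fun i hi => ?_
    · interval_cases i
      exacts [sc_bot F, h, hP]
    · interval_cases i
      · exact commutator_le.2 fun g hg c hc => H1.cm_iff.2 (H1.cm_of_zp (hw'.cen g hg) hc)
      · exact commutator_le.2 hw'.comm
  obtain ⟨y, hy, ⟨x, hx, hxy⟩, hC⟩ := hF'.gen_extra hP hw' hq' a.2 b.2 (congrArg Subtype.val hab) h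
  exfalso
  let e : Shrink.{0} P ≃* P := Shrink.mulEquiv
  have : Finite (Shrink.{0} P) := Finite.of_equiv _ e.symm.toEquiv
  have hw0 := ws_map (f := e.symm.toMonoidHom) e.symm.injective hw
  rw [← MonoidHom.range_eq_map, MonoidHom.range_eq_top_of_surjective _ e.symm.surjective] at hw0
  have key : ∀ x : P, ¬ Commute x.1 y → _ := fun x hxy => gen_extra (x := e.symm x) (y := e.symm ⟨y, hy⟩) hw0 (fun g => by
      rw [← MonoidHom.map_zpowers]; exact ⟨_, hq (e g), by simp⟩)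
    (fun h => hxy (show _ = _ by simpa using congrArg Subtype.val (h.map e).eq)) (by
      have m : ∀ g ∈ centralizer {e.symm ⟨y, hy⟩}, (e g).1 ∈ P ⊓ centralizer {y} := fun g hg => ⟨(e g).2, fun c hc => by
        simpa [show c = y from hc] using congrArg (fun t => (e t).1) (hg _ rfl)⟩
      exact ⟨⟨⟨fun a b => Subtype.ext (e.injective (Subtype.ext (by
        simpa using congrArg Subtype.val (hC.1.1.1 ⟨_, m a a.2⟩ ⟨_, m b b.2⟩))))⟩⟩,
        fun a ha => e.injective (Subtype.ext (by simpa using hC.2 _ (m a ha)))⟩)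
  have hz1 : (z : Ω) ^ p = 1 := hw'.zp
  have hcz : ∀ g ∈ P, g * z = z * g := fun g hg => hw'.cen g hg
  have hyC : y ∈ P ⊓ centralizer {y} := ⟨hy, fun c hc => by rw [show c = y from hc]⟩
  have cm : ∀ g ∈ P, g ^ p ≠ 1 → ¬ Commute g y := fun g hg h1 h2 =>
    h1 (hC.2 g ⟨hg, fun c hc => by rw [show c = y from hc, h2.eq]⟩)
  by_cases h1 : ∀ g ∈ P, g ^ p = 1
  · have hp2 : p ≠ 2 := by
      rintro rfl
      have i : ∀ g ∈ P, g⁻¹ = g := fun g hg => inv_eq_of_mul_eq_one_right (by rw [← sq, h1 g hg])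
      exact hxy (by rw [Commute, SemiconjBy, ← i _ (mul_mem hx hy), mul_inv_rev, i x hx, i y hy])
    obtain ⟨A, k1, k2, k3, ⟨k4⟩⟩ := key ⟨x, hx⟩ hxy
    let _ : CommGroup A := { mul_comm := k1.1.1.1 }
    have : Nontrivial (closure {e.symm ⟨x, hx⟩, e.symm ⟨y, hy⟩}) :=
      Finite.one_lt_card_iff_nontrivial.1 (k3 ▸ Nat.one_lt_pow three_ne_zero hp.one_lt)
    refine hodd hp2 ⟨_, _, A, _, k2, k3, (Monoid.exponent_eq_prime_iff hp).2 fun g hg => orderOf_eq_prime ?_ hg,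
      fun a => Subtype.ext (k1.2 a a.2), ⟨e.symm.trans k4⟩⟩
    exact Subtype.ext (e.injective (Subtype.ext (by simpa using h1 _ (e g).2)))
  push Not at h1
  obtain ⟨x, hx, h1⟩ := h1
  have hxy := cm x hx h1
  have hzx := zp_eq hw'.zp (hq' x hx) h1
  rcases eq_or_ne p 2 with rfl | hp2
  · obtain ⟨A, k1, -, -, ⟨k4⟩⟩ := key ⟨x, hx⟩ hxy
    let _ : CommGroup A := { mul_comm := k1.1.1.1 }
    have t : ∀ w ∈ zpowers (P.subtype z), w ≠ 1 → w = x ^ 2 := fun w hw1 hw2 => by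
      rw [((H1.zp2 hw'.zp).1 hw1).resolve_left hw2, ((H1.zp2 hw'.zp).1 (hq' x hx)).resolve_left h1]
    have o4 : orderOf x = 4 := orderOf_eq_prime_pow (p := 2) (n := 1) h1 (by
      rw [show 2 ^ (1 + 1) = 2 * 2 from rfl, pow_mul, ← t _ (mem_zpowers _) fun e => by simpa [e] using hw'.ord]; exact hw'.zp)
    have o4' : orderOf (e.symm ⟨x, hx⟩) = 4 := by rw [MulEquiv.orderOf_eq, ← o4, orderOf_mk]
    have s1 : e.symm ⟨y, hy⟩ * e.symm ⟨y, hy⟩ = 1 := e.injective (Subtype.ext (by simpa [sq] using hC.2 y hyC))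
    have s2 : e.symm ⟨y, hy⟩ * e.symm ⟨x, hx⟩ * (e.symm ⟨y, hy⟩)⁻¹ = (e.symm ⟨x, hx⟩)⁻¹ := e.injective (Subtype.ext (by
      have := t _ (hw'.comm y hy x hx) fun e => hxy (H1.cm_iff.1 e).symm
      have h4 : x ^ 4 = 1 := o4 ▸ pow_orderOf_eq_one x
      rw [commutatorElement_def, mul_inv_eq_iff_eq_mul, ← pow_succ] at this
      simpa [this, eq_inv_iff_mul_eq_one, ← pow_succ] using h4))
    have s3 := H5.dihHom_injective 4 _ _ o4' s1 s2 fun ⟨k, hk⟩ => hxy (by
      have : x ^ k = y := by simpa using congrArg (fun t => (e t).1) hk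
      exact this ▸ (Commute.refl x).zpow_right k)
    exact h2 rfl ⟨A, _, fun a => Subtype.ext (k1.2 a a.2), ⟨(e.symm.trans k4).trans (MulEquiv.prodCongr
      ((MonoidHom.ofInjective s3).trans (MulEquiv.subgroupCongr (H5.dihHom_range ..))).symm (MulEquiv.refl A))⟩⟩
  have c2 : ∀ g ∈ P, ∀ c ∈ P, (g * c) ^ p = g ^ p * c ^ p := fun g hg c hc => L.mul_pow_of_class2 (P := P)
    (commutator_eq_bot_iff_le_centralizer.2 ((commutator_le.2 hw'.comm).trans
      (zpowers_le.2 fun g hg => hw'.cen g hg))) (fun w hw1 => by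
        obtain ⟨k, rfl⟩ := commutator_le.2 hw'.comm hw1
        obtain ⟨m, hm⟩ := hp.dvd_choose_self two_ne_zero (lt_of_le_of_ne hp.two_le hp2.symm)
        simp only [hm, pow_mul, ← zpow_natCast _ p, zpow_comm _ k]; simp [hz1]) hg hc
  have c3 : ∀ g ∈ P, ∃ k : ℕ, (x ^ k)⁻¹ * g ∈ P ⊓ centralizer {y} := fun g hg => by
    have t : ∀ g ∈ P, y⁻¹ * (g * y * g⁻¹) ∈ zpowers (P.subtype z) := fun g hg => by
      simpa [commutatorElement_def, mul_assoc] using hw'.comm _ (inv_mem hy) g hg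
    obtain ⟨j, hj⟩ := mem_zpowers_iff.1 (t g hg)
    obtain ⟨k, hk⟩ := exists_transv (t := MulAut.conj x) hw'.zp (t x hx) (by simp [hcz x hx])
      (fun e => hxy (mul_inv_eq_iff_eq_mul.1 e)) j
    rw [← map_pow, hj, mul_inv_cancel_left, MulAut.conj_apply] at hk
    refine ⟨k, P.mul_mem (P.inv_mem (pow_mem hx k)) hg, fun c hc => ?_⟩
    rw [show c = y from hc]
    calc y * ((x ^ k)⁻¹ * g) = (x ^ k)⁻¹ * (x ^ k * y * (x ^ k)⁻¹) * g := by group
      _ = _ := by rw [hk]; group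
  have hc : P ⊓ centralizer {y} ≤ centralizer ((P ⊓ centralizer {y} : Subgroup Ω) : Set Ω) := fun a ha b hb =>
    congrArg Subtype.val (hC.1.1.1 ⟨b, hb⟩ ⟨a, ha⟩)
  have c4 : F.StronglyClosed (P ⊓ centralizer {y}) := sc_omega hP (n := p) fun g => ⟨fun hg => ⟨hg.1, hC.2 g hg⟩, fun hg => by
    by_contra h5
    have hn : ¬ Commute g y := fun h6 => h5 ⟨hg.1, fun c hc => by rw [show c = y from hc, h6.eq]⟩
    have t : ∀ g ∈ P, y⁻¹ * (g * y * g⁻¹) ∈ zpowers (P.subtype z) := fun g hg => by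
      simpa [commutatorElement_def, mul_assoc] using hw'.comm _ (inv_mem hy) g hg
    obtain ⟨j, hj⟩ := mem_zpowers_iff.1 (t x hx)
    obtain ⟨k, hk⟩ := exists_transv (t := MulAut.conj g) hw'.zp (t g hg.1) (by simp [hcz g hg.1])
      (fun e => hn (mul_inv_eq_iff_eq_mul.1 e)) j
    rw [← map_pow, hj, mul_inv_cancel_left, MulAut.conj_apply] at hk
    have h6 : (g ^ k)⁻¹ * x ∈ P ⊓ centralizer {y} := ⟨P.mul_mem (P.inv_mem (pow_mem hg.1 k)) hx, fun c hc => by
      rw [show c = y from hc]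
      calc y * ((g ^ k)⁻¹ * x) = (g ^ k)⁻¹ * (g ^ k * y * (g ^ k)⁻¹) * x := by group
        _ = _ := by rw [hk]; group⟩
    have := c2 _ (pow_mem hg.1 k) _ h6.1
    rw [hC.2 _ h6, pow_right_comm, hg.2, mul_inv_cancel_left] at this
    exact h1 (by simpa using this)⟩
  have hzC : x ^ p ∈ P ⊓ centralizer {y} := ⟨pow_mem hx p, fun c hc => by
    rw [show c = y from hc, (hw'.pow_cen hx hy).eq]⟩
  obtain ⟨β, b1, -, b3, -, -, b4⟩ := hF'.exists_neg hp2 hP (hF'.normal_of_abelian c4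
    (commutator_eq_bot_iff_le_centralizer.2 hc)) inf_le_left hc hzC (hC.2 _ hzC) (fun g hg c hc => by
      simpa [hzx, commutatorElement_def, mul_assoc] using hw'.comm _ (inv_mem hc.1) g hg) hx (by group)
    (fun h5 => hxy (h5 y hyC).symm) (fun g hg => by
      obtain ⟨k, hk⟩ := c3 g hg
      refine ⟨k, fun c hc' => ?_⟩
      calc g * c * g⁻¹ = x ^ k * ((x ^ k)⁻¹ * g * c) * g⁻¹ := by group
        _ = _ := by rw [← hc hk c hc']; group) (hzx.symm ▸ h)
  have b5 : x⁻¹ * β x ∈ P ⊓ centralizer {y} := ⟨P.mul_mem (P.inv_mem hx) (Aut.mem b1 hx), fun c hc => by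
    rw [show c = y from hc, b4 y hyC]⟩
  have b6 := c2 x hx _ b5.1
  rw [mul_inv_cancel_left, hC.2 _ b5, mul_one, ← (Aut.homOn b1).map_pow hx, b3, inv_eq_iff_mul_eq_one, ← sq] at b6
  exact hp2 ((Nat.prime_dvd_prime_iff_eq hp Nat.prime_two).1
    (orderOf_eq_prime (hC.2 _ hzC) h1 ▸ orderOf_dvd_of_pow_eq_one b6))

end Cfsg.Agent.S5233
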