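import Cfsg.Statements.S5236
import Cfsg.Agent.H2.Small

set_option autoImplicit false
open Cfsg

namespace Cfsg.Agent.S5236

open H2 Subgroup in

/-- Let p be an odd prime, F a saturated fusion system over a finite p-group S and P a subgroup of S strongly closed in F. Then P is normal in F if and only if Ω₁(P) (the subgroup generated by the elements of order p of P) has a chain of subgroups 1 = Q₀ ≤ Q₁ ≤ ⋯ ≤ Qₙ = Ω₁(P), each strongly closed in F, with [Qᵢ₊₁, P] ≤ Qᵢ for all i. -/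
theorem result {Ω : Type*} [Group Ω] {S : Subgroup Ω} [Finite S] (p : ℕ) [Fact p.Prime] (hS : IsPGroup p S) (F : Cfsg.FusionSystem S) (hF : F.IsSaturated p) (hp : p ≠ 2) (P : Subgroup Ω) (hP : F.StronglyClosed P) : F.IsNormal P ↔ ∃ (n : ℕ) (Q : Fin (n + 1) → Subgroup Ω), Q 0 = ⊥ ∧ Q (Fin.last n) = Cfsg.omegaOne p P ∧ Monotone Q ∧ (∀ i : Fin (n + 1), F.StronglyClosed (Q i)) ∧ ∀ i : Fin n, ⁅Q i.succ, P⁆ ≤ Q i.castSucc := by
  have hF' : H2.Sat p F := ⟨hS, hF⟩
  have := finite_of_le hP.1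
  have hO : omegaOne p P ≤ P := (closure_le _).2 fun _ h => h.1
  have hinv : ∀ α : Equiv.Perm Ω, HomOn P α → α ∈ Stab P → ∀ x ∈ omegaOne p P, α x ∈ omegaOne p P := fun α h1 h2 => by
    refine img_le_iff.1 ?_
    rw [omegaOne, (h1.mono hO).img_closure]
    refine closure_mono ?_
    rintro _ ⟨y, hy, rfl⟩
    exact ⟨(h2 y).2 hy.1, by rw [← h1.map_pow hy.1, hy.2, h1.map_one]⟩
  constructor
  · intro h
    obtain ⟨n, hn⟩ := exists_Zs_eq (hS.to_le hP.1)
    refine ⟨n, fun i => omegaOne p P ⊓ Zs P i, by simp [Zs_zero], by simp [hn, hO],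
      fun i j hij => inf_le_inf_left _ (Zs_mono P hij), fun i => sc_inf (normal_sc (normal_of_invariant h hO
        fun α hα => hinv α (Aut.homOn hα) (Aut_le_Stab F P hα))) (normal_sc (normal_Zs h i)), fun i => ?_⟩
    refine le_inf (commutator_le.2 fun x hx y hy => ?_) ((commutator_mono inf_le_right le_rfl).trans (commutator_Zs_le' P i))
    have := hinv _ (homOn_cg P y) (cg_mem_Stab.2 (le_normalizer hy)) _ (inv_mem hx.1)
    simpa [commutatorElement_def, mul_assoc] using mul_mem hx.1 this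
  · rintro ⟨n, Q, h0, h1, -, h2, h3⟩
    refine hF'.normal_of_wc (wc_of_sc hP) fun R _ hc hr => ?_
    have := finite_of_le (inf_le_left.trans hc.1 : R ⊓ P ≤ S)
    obtain ⟨D, hD⟩ := exists_smD (hS.to_le (inf_le_left.trans hc.1 : R ⊓ P ≤ S))
    refine le_of_mem_Oc hS hc hr hP.1 (hc.1.trans (sc_normalizer hP)) fun a ha hn => ?_
    refine hD.mem_Oc hS hc.1 hP (L := modFix (Aut F R) R P (Aut_le_Stab F R)) (fun _ h => h.1)
      (Aut_le_normalizer_modFix hc.1 fun α hα x hx hx' => sc_apply hP (Aut.mor hc.1 hα) hx hx')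
      (fun α hα _ => hα.2) (fun i => if h : i < n + 1 then Q ⟨i, h⟩ else ⊤) n ?_ (by simpa using h0)
      (fun i hi α hα x hx hx' => ?_) ⟨cP_mem_Aut F hc.1 (hP.1 ha) hn, fun x hx => ?_⟩ fun i hi x hx hx' => ?_
    · rw [dif_pos n.lt_succ_self]
      refine le_trans (fun x hx => Subgroup.subset_closure (show _ ∧ _ from ⟨(hD.le hx).2, ?_⟩)) h1.ge
      simpa [sm, hp] using hD.exp x hx
    · rw [dif_pos (by omega)] at hx' ⊢
      exact sc_apply (h2 _) (Aut.mor hc.1 hα.1) (hD.le hx).1 hx'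
    · rw [cP_apply hn hx]
      have := (mem_normalizer_iff.1 (sc_normalizer hP (inv_mem (hc.1 hx))) a).1 ha
      simpa [mul_assoc] using mul_mem this (inv_mem ha)
    · rw [dif_pos (by omega)] at hx' ⊢
      rw [cP_apply hn (hD.le hx).1]
      have := h3 ⟨i, hi⟩ (commutator_mem_commutator (inv_mem hx') ha)
      simpa [commutatorElement_def, mul_assoc] using this

end Cfsg.Agent.S5236
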