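import Cfsg.Statements.S5243
import Cfsg.Agent.H2.Fus17

set_option autoImplicit false
open Cfsg

namespace Cfsg.Agent.S5243

open H2 Subgroup in

/-- Let F be a saturated fusion system over a finite p-group S, E a normal subsystem of F over T ≤ S, and χ a surjective homomorphism from Aut_F(T) onto a nontrivial finite group Δ of order prime to p whose kernel contains Aut_E(T). Then there is a proper normal subsystem F₀ of F over S containing E such that Aut_{F₀}(S) consists of those α ∈ Aut_F(S) whose restriction to T is an element of Aut_F(T) in the kernel of χ; moreover every p'-residual subsystem O^{p'}(F) of F is contained in F₀. -/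
theorem result {Ω : Type*} [Group Ω] {S : Subgroup Ω} [Finite S] (p : ℕ) [Fact p.Prime] (hS : IsPGroup p S) (F : Cfsg.FusionSystem S) (hF : F.IsSaturated p) {T : Subgroup Ω} (hTS : T ≤ S) (E : Cfsg.FusionSystem T) (hE : E.IsNormalIn F p) {Δ : Type*} [Group Δ] [Finite Δ] [Nontrivial Δ] (hΔ : (Nat.card Δ).Coprime p) (χ : ↥(F.autGroup T) →* Δ) (hχ : Function.Surjective χ) (hker : (E.autGroup T).subgroupOf (F.autGroup T) ≤ χ.ker) : ∃ F₀ : Cfsg.FusionSystem S, F₀.IsNormalIn F p ∧ ¬ (∀ P : Subgroup Ω, F₀.Hom P = F.Hom P) ∧ E.IsSubsystemOf F₀ ∧ (∀ α : MulAut ↥S, α ∈ F₀.autGroup S ↔ α ∈ F.autGroup S ∧ ∃ β : ↥(F.autGroup T), χ β = 1 ∧ ∀ t : ↥T, (((β : MulAut ↥T) t : ↥T) : Ω) = ((α ⟨(t : Ω), hTS t.2⟩ : ↥S) : Ω)) ∧ ∀ R : Cfsg.FusionSystem S, F.IsPPrimeResidual p R → R.IsSubsystemOf F₀ := by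
  have := nrm_finite hE
  have h := ((nrm_iff hS).1 hE).toWN
  have hT := h.inv.sc
  let e := autEquiv F T
  have he : ∀ (b : F.autGroup T) (x : T), (e b).1 x = b.1 x := fun b x => by
    rw [autEquiv_coe, ext_apply_coe]
  let χ' : Aut F T →* Δ := χ.comp e.symm.toMonoidHom
  have hχ' : ∀ b, χ' (e b) = χ b := fun b => by simp [χ']
  obtain ⟨D, h1, h2, h3, h4⟩ := h.exists_of_char hΔ χ' fun β hβ => by
    obtain ⟨b, rfl⟩ := e.surjective β
    rw [autEquiv_coe, ext_mem_Aut] at hβ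
    exact (hχ' b).trans (hker hβ)
  refine ⟨D, (nrm_iff hS).2 h1, fun h5 => ?_, h3, fun α => ?_, fun R hR => hR.2.2 D h1.satE.sat (pi_iff.2 h2)⟩
  · obtain rfl := fs_ext h5
    obtain ⟨d, hd⟩ := exists_ne (1 : Δ)
    obtain ⟨b, rfl⟩ := hχ d
    obtain ⟨β, ⟨β', k1, rfl⟩, ν, k2, k3, k4⟩ := h.satF.frattini (sc_fn hT) (L := χ'.ker.map (Aut D T).subtype)
      (map_subtype_le _) (le_normalizer_of_conj (by
        rintro a ha _ ⟨c, hc, rfl⟩
        exact ⟨_, χ'.normal_ker.conj_mem c hc ⟨a, ha⟩, rfl⟩)) (e b).2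
    have k5 : S ≤ Nk S T (χ'.ker.map (Aut D T).subtype) := fun s hs => by
      have k6 := cP_mem_Aut D hTS hs (sc_normalizer hT hs)
      obtain ⟨k, hk⟩ := hS ⟨s, hs⟩
      refine ⟨hs, sc_normalizer hT hs, ⟨_, k6⟩, eq_one_of_pow_of_coprime (n := p) (k := k) ?_
        (hΔ.coprime_dvd_left (orderOf_dvd_natCard _)), rfl⟩
      rw [← map_pow, show (⟨_, k6⟩ : Aut D T) ^ p ^ k = 1 from Subtype.ext (by
        rw [coe_pow, ← cP_pow (sc_normalizer hT hs), show s ^ p ^ k = 1 from congrArg Subtype.val hk]; exact cP_one T),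
        map_one]
    have k6 := k2.mono (k5.trans le_sup_right)
    have k7 := k6.mem_Stab le_rfl fun _ => k6.mem
    obtain ⟨-, γ, k8, k9⟩ := (h4 _).1 (k6.res_mem k7)
    refine hd ?_
    rw [← hχ', show e b = β' * γ from Subtype.ext (Sym_ext (Aut_le_Sym _ _ (e b).2) (Aut_le_Sym _ _ (β' * γ).2)
      fun x hx => by rw [k4 x hx, ← res_apply k7 (hTS hx), ← k9 x hx]; rfl), map_mul, k8, show χ' β' = 1 from k1, mul_one]
  · rw [← ext_mem_Aut, h4, ext_mem_Aut]
    refine and_congr_right' ⟨fun ⟨β, k1, k2⟩ => ?_, fun ⟨b, k1, k2⟩ => ⟨e b, (hχ' b).trans k1, fun x hx => ?_⟩⟩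
    · obtain ⟨b, rfl⟩ := e.surjective β
      exact ⟨b, (hχ' b).symm.trans k1, fun t => by rw [← he, k2 t t.2, ext_apply]⟩
    · rw [he b ⟨x, hx⟩, k2, ext_apply]

end Cfsg.Agent.S5243
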