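import Cfsg.Statements.S5244
import Cfsg.Agent.H9.ES5

set_option autoImplicit false
open Cfsg

namespace Cfsg.Agent.S5244

/-- Let p be an odd prime, S a finite nonabelian p-group with a unique abelian subgroup A of index p, and F a saturated fusion system over S with no nontrivial normal subgroup (O_p(F) = 1) in which A is not F-essential. Then some subgroup Z(S)⟨x⟩ with x ∈ S outside A is F-essential, the centre Z(S) is contained in the commutator subgroup of S, and S has maximal nilpotency class (if S has order pⁿ with n ≥ 3, the term of index n − 2 of its lower central series, counting S itself as the term of index 0, is nontrivial). -/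
theorem result {Ω : Type*} [Group Ω] {S : Subgroup Ω} [Finite S] (p : ℕ) [Fact p.Prime] (hS : IsPGroup p S) (F : Cfsg.FusionSystem S) (hF : F.IsSaturated p) (hp : p ≠ 2) (hna : ¬ IsMulCommutative ↥S) (A : Subgroup Ω) (hA : A ≤ S ∧ IsMulCommutative ↥A ∧ (A.subgroupOf S).index = p) (huniq : ∀ B : Subgroup Ω, B ≤ S → IsMulCommutative ↥B → (B.subgroupOf S).index = p → B = A) (hcore : F.core = ⊥) (hAe : ¬ F.IsEssential p A) : (∃ x ∈ S, x ∉ A ∧ F.IsEssential p ((S ⊓ Subgroup.centralizer (S : Set Ω)) ⊔ Subgroup.zpowers x)) ∧ (S ⊓ Subgroup.centralizer (S : Set Ω)) ≤ (commutator ↥S).map S.subtype ∧ ∀ n : ℕ, Nat.card S = p ^ n → 3 ≤ n → Subgroup.lowerCentralSeries S (n - 2) ≠ ⊥ := by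
  open H9 Subgroup in open scoped commutatorElement in
  obtain ⟨F', a, b, c, -⟩ := FG.exists_top (p := p) ⟨hS, hF⟩
  obtain ⟨A, rfl⟩ : ∃ B : Subgroup S, A = B.map S.subtype := ⟨_, (map_subgroupOf_eq_of_le hA.1).symm⟩
  obtain ⟨⟨x, c1, c2⟩, c3, c4⟩ := (FG.ua_of hS hna hA.2.1 hA.2.2 huniq).pearl hp a (c hcore) (mt (b A).2 hAe)
  rw [← map_center_subtype]
  refine ⟨⟨x, x.2, fun e => c1 ((mem_map_iff_mem S.subtype_injective).1 e), ?_⟩, map_mono c3, fun n h1 h2 e => c4 n h1 h2 ?_⟩
  · have := (b _).2 c2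
    rwa [Subgroup.map_sup, MonoidHom.map_zpowers] at this
  · rwa [← top_subtype_lowerCentralSeries, map_eq_bot_iff_of_injective _ S.subtype_injective] at e

end Cfsg.Agent.S5244
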