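import Cfsg.Statements.S5245
import Cfsg.Agent.H2.Fus13

set_option autoImplicit false
open Cfsg

namespace Cfsg.Agent.S5245

open H2 Subgroup in

/-- Let F be an extremely sparse fusion system over a finite p-group S (saturated, not the inner system, and every saturated fusion system over any subgroup T of S contained in F is F itself or the inner system of T). Then S is normal in F, the focal and hyperfocal subgroups of F are both S, and Aut_F(S) is generated by the inner automorphisms of S together with a single automorphism of prime order q ≠ p (F is the fusion system of the semidirect product of S by a cyclic group of prime order). -/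
theorem result {Ω : Type*} [Group Ω] {S : Subgroup Ω} [Finite S] (p : ℕ) [Fact p.Prime] (hS : IsPGroup p S) (F : Cfsg.FusionSystem S) (hF : F.IsSaturated p) (hxs : ¬ (∀ P : Subgroup Ω, F.Hom P = (Cfsg.innerFusionSystem S).Hom P) ∧ ∀ (T : Subgroup Ω) (E : Cfsg.FusionSystem T), E.IsSaturated p → E.IsSubsystemOf F → (T = S ∧ ∀ P : Subgroup Ω, E.Hom P = F.Hom P) ∨ (∀ P : Subgroup Ω, E.Hom P = (Cfsg.innerFusionSystem T).Hom P)) : F.IsNormal S ∧ F.focalSubgroup = S ∧ F.hyperfocalSubgroup p = S ∧ ∃ (q : ℕ) (β : MulAut ↥S), q.Prime ∧ q ≠ p ∧ β ∈ F.autGroup S ∧ orderOf β = q ∧ (F.autGroup S : Subgroup (MulAut ↥S)) = Cfsg.Inn ↥S ⊔ Subgroup.zpowers β := by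
  have hF' : Sat p F := ⟨hS, hF⟩
  obtain ⟨h0, hx⟩ := hxs
  rw [isInner_iff] at h0
  obtain ⟨P, hP, α₀, hα₀, hc₀, x₀, hx₀, hne⟩ : ∃ P, (P = S ∨ F.IsEssential p P) ∧ ∃ α ∈ Aut F P, (orderOf α).Coprime p ∧
      ∃ x ∈ P, α x ≠ x := by
    by_contra h
    push Not at h
    exact h0 (hF'.inner_of_coprime h)
  obtain ⟨hn, hc, -⟩ := hF'.fcr_of hP
  have hPS := hn.1
  have := finite_of_le hPS
  have hfin : IsOfFinOrder α₀ := by
    simpa using (Aut F P).subtype.isOfFinOrder (isOfFinOrder_of_finite (⟨α₀, hα₀⟩ : Aut F P))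
  obtain ⟨q, hq, m, hm⟩ := Nat.exists_prime_and_dvd (n := orderOf α₀) (fun h => hne (by rw [orderOf_eq_one_iff.1 h]; rfl))
  set α := α₀ ^ m
  have hα : α ∈ Aut F P := pow_mem hα₀ m
  have ho : orderOf α = q := by
    have hm0 : m ≠ 0 := fun h => hfin.orderOf_pos.ne' (by simp [hm, h])
    rw [orderOf_pow_of_dvd hm0 ⟨q, by rw [hm, mul_comm]⟩, hm, Nat.mul_div_cancel _ (Nat.pos_of_ne_zero hm0)]
  have hαc : (orderOf α).Coprime p := hc₀.coprime_dvd_left (orderOf_pow_dvd m)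
  have hα1 : α ≠ 1 := fun h => hq.ne_one (by rw [← ho, h, orderOf_one])
  have hqp : q ≠ p := fun h => (Fact.out : p.Prime).ne_one (by rwa [ho, h, Nat.coprime_self] at hαc)
  set K := AutS P P ⊔ zpowers α with hK
  have hKle : K ≤ Aut F P := sup_le (AutS_le_Aut F hPS hPS) (zpowers_le.2 hα)
  have := finite_of_le hKle
  have hsyl : IsSylowIn p (AutS P P) K := ⟨le_sup_left, isPGroup_AutS (hS.to_le hPS) P, fun h => by
    rw [hK, sup_comm, relIndex_sup_of_le_normalizer (zpowers_le.2 (Aut_le_normalizer_Inn F P hα))] at h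
    have h2 := h.trans (relIndex_dvd_card _ _)
    rw [Nat.card_zpowers] at h2
    exact (Fact.out : p.Prime).ne_one (Nat.eq_one_of_dvd_coprimes hαc h2 dvd_rfl)⟩
  have hI : AutS S P ⊓ K = AutS P P :=
    hsyl.eq_of_le ((isPGroup_AutS hS P).to_le inf_le_left) inf_le_right (le_inf (AutS_mono hPS P) le_sup_left)
  have hFK : FK F P K := hF'.FK_iff.2 ⟨hF'.fc_of_fn hn, by rwa [hI, inf_eq_right.2 hKle]⟩
  have hT : Nk S P K = P := le_antisymm (fun a ha => mem_of_cP_mem_Inn (centric_self hc) hPS ha.1 ha.2.1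
    (hI.le ⟨cP_mem_AutS ha.1 ha.2.1, ha.2.2⟩)) fun a ha => ⟨hPS ha, le_normalizer ha, mem_sup_left (cP_mem_AutS ha (le_normalizer ha))⟩
  obtain ⟨E, hE⟩ := exists_isNK F hPS K hT.symm
  have hαE : α ∈ Aut E P := (hE.Aut_eq le_rfl le_rfl).2 ⟨hα, Aut_le_Stab _ _ hα, by
    rw [res_of_mem_Sym (Aut_le_Sym _ _ hα)]; exact mem_sup_right (mem_zpowers α)⟩
  obtain ⟨rfl, e⟩ := (hx P E (hF'.NK_sat hFK hE).sat hE.sub).resolve_right fun h =>
    hα1 (eq_one_of_coprime ((isInner_iff.1 h).isPGroup (hS.to_le hPS) le_rfl) hαE hαc)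
  obtain rfl := fs_ext e
  have hh : E.hyperfocalSubgroup p = P := by
    have := finite_of_le (hyp_le (p := p) E)
    obtain ⟨D, h1, h2⟩ := hF'.exists_ppi (hyp_le E) le_rfl
    refine ((hx _ D h1.sat h2.sub).resolve_right fun h => hα1 ?_).1
    have hs := sc_Stab hF'.hyp_sc (Aut.mor le_rfl hα) (hyp_le E)
    have h3 := ((Aut.mor le_rfl hα).mono (hyp_le (p := p) E)).res_mem hs
    have h4 := hαc.coprime_dvd_left (orderOf_res_dvd hs)
    have h5 := (res_eq_one_iff hs).1 (eq_one_of_coprime ((isInner_iff.1 h).isPGroup h1.pg le_rfl)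
      (h2.Op_le le_rfl (mem_Op h3 h4)) h4)
    exact Sym_ext (Aut_le_Sym _ _ hα) (one_mem _) fun x hx => fix_of_coprime hS (Aut.homOn hα) hαc hx
      (mul_mem (inv_mem hx) (Aut.mem hα hx)) (h5 _ (mem_hyp' le_rfl hα hαc hx))
  obtain ⟨β, hβ, e⟩ := exists_ext_eq hα
  refine ⟨hE.normal le_rfl, le_antisymm (focal_le E) (hh.ge.trans (hyp_le_focal E)), hh, q, β, hq, hqp, hβ, ?_, ?_⟩
  · rw [← ho, ← e, orderOf_injective _ (ext_injective P)]
  · rw [← map_ext_inj, Subgroup.map_sup, map_Inn, MonoidHom.map_zpowers, e]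
    refine le_antisymm (fun σ hσ => ?_) hKle
    have := ((hE.Aut_eq le_rfl le_rfl).1 hσ).2.2
    rwa [res_of_mem_Sym (Aut_le_Sym _ _ hσ)] at this

end Cfsg.Agent.S5245
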