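import Cfsg.Statements.S5254
import Cfsg.Agent.H9.ES5

set_option autoImplicit false
open Cfsg

namespace Cfsg.Agent.S5254

/-- Let p be an odd prime, S a finite nonabelian p-group with a unique abelian subgroup A of index p, and F a saturated fusion system over S. Then every F-essential subgroup P is A, or Z(S)⟨x⟩ for some x ∈ S outside A, or (when the second centre Z₂(S) lies in A) Z₂(S)⟨x⟩ for some x ∈ S outside A; and P has index p in its normalizer in S. -/
theorem result {Ω : Type*} [Group Ω] {S : Subgroup Ω} [Finite S] (p : ℕ) [Fact p.Prime] (hS : IsPGroup p S) (F : Cfsg.FusionSystem S) (hF : F.IsSaturated p) (hp : p ≠ 2) (hna : ¬ IsMulCommutative ↥S) (A : Subgroup Ω) (hA : A ≤ S ∧ IsMulCommutative ↥A ∧ (A.subgroupOf S).index = p) (huniq : ∀ B : Subgroup Ω, B ≤ S → IsMulCommutative ↥B → (B.subgroupOf S).index = p → B = A) (P : Subgroup Ω) (hP : F.IsEssential p P) : (P = A ∨ (∃ x ∈ S, x ∉ A ∧ P = (S ⊓ Subgroup.centralizer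 (S : Set Ω)) ⊔ Subgroup.zpowers x) ∨ (((upperCentralSeries ↥S 2).map S.subtype) ≤ A ∧ ∃ x ∈ S, x ∉ A ∧ P = ((upperCentralSeries ↥S 2).map S.subtype) ⊔ Subgroup.zpowers x)) ∧ (P.subgroupOf (S ⊓ Subgroup.normalizer (P : Set Ω))).index = p := by
  open H9 Subgroup in open scoped commutatorElement in
  obtain ⟨F', a, b, -⟩ := FG.exists_top (p := p) ⟨hS, hF⟩
  obtain ⟨A, rfl⟩ : ∃ B : Subgroup S, A = B.map S.subtype := ⟨_, (map_subgroupOf_eq_of_le hA.1).symm⟩
  obtain ⟨P, rfl⟩ : ∃ B : Subgroup S, P = B.map S.subtype := ⟨_, (map_subgroupOf_eq_of_le hP.1.1).symm⟩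
  have m : ∀ x : S, x ∉ A → (x : Ω) ∉ A.map S.subtype := fun x h e => h ((mem_map_iff_mem S.subtype_injective).1 e)
  obtain ⟨c, d⟩ := (FG.ua_of hS hna hA.2.1 hA.2.2 huniq).ess a (FG.CR.of_ess a ((b P).1 hP))
  refine ⟨c.imp (congrArg _) (Or.imp (fun ⟨x, h1, h2⟩ => ⟨x, x.2, m x h1, by
      rw [h2, Subgroup.map_sup, map_center_subtype, MonoidHom.map_zpowers]; rfl⟩)
    fun ⟨h0, x, h1, h2⟩ => ⟨map_mono h0, x, x.2, m x h1, by rw [h2, Subgroup.map_sup, MonoidHom.map_zpowers]; rfl⟩), ?_⟩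
  rw [← map_normalizer_subtype]
  exact (relIndex_map_map_of_injective _ _ S.subtype_injective).trans d

end Cfsg.Agent.S5254
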