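import Cfsg.Statements.S5257
import Cfsg.Agent.H9.ES5

set_option autoImplicit false
open Cfsg

namespace Cfsg.Agent.S5257

/-- Let p be an odd prime, S a finite nonabelian p-group with a unique abelian subgroup A of index p, and F a saturated fusion system over S having an F-essential subgroup other than A. Then the second centre Z₂(S) lies in A; Z(S) ∩ [S, S] has order p; Z(S)[S, S] has index p in A; Z(S) has index p in Z₂(S); and S/Z(S) has maximal nilpotency class (if S/Z(S) has order pᵐ with m ≥ 3 then the term of index m − 2 of the lower central series of S, counting S as index 0, is not contained in Z(S)). -/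
theorem result {Ω : Type*} [Group Ω] {S : Subgroup Ω} [Finite S] (p : ℕ) [Fact p.Prime] (hS : IsPGroup p S) (F : Cfsg.FusionSystem S) (hF : F.IsSaturated p) (hp : p ≠ 2) (hna : ¬ IsMulCommutative ↥S) (A : Subgroup Ω) (hA : A ≤ S ∧ IsMulCommutative ↥A ∧ (A.subgroupOf S).index = p) (huniq : ∀ B : Subgroup Ω, B ≤ S → IsMulCommutative ↥B → (B.subgroupOf S).index = p → B = A) (P : Subgroup Ω) (hP : F.IsEssential p P) (hPA : P ≠ A) : ((upperCentralSeries ↥S 2).map S.subtype) ≤ A ∧ Nat.card ↥((S ⊓ Subgroup.centralizer (S : Set Ω)) ⊓ ((commutator ↥S).map S.subtype)) = p ∧ (((S ⊓ Subgroup.centralizer (S : Set Ω)) ⊔ ((commutator ↥S).map S.subtype)).subgroupOf A).index = p ∧ (((S ⊓ Subgroup.centralizer (S : Set Ω))).subgroupOf ((upperCentralSeries ↥S 2).map S.subtype)).index = p ∧ ∀ m : ℕ, ((S ⊓ Subgroup.centralizer (S : Set Ω)).subgroupOf S).index = p ^ m → 3 ≤ m → ¬ Subgroup.lowerCentralSeries S (m - 2) ≤ (S ⊓ Subgroup.centralizer (S : Set Ω)) := by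
  open H9 Subgroup in open scoped commutatorElement in
  obtain ⟨F', a, b, -⟩ := FG.exists_top (p := p) ⟨hS, hF⟩
  obtain ⟨A, rfl⟩ : ∃ B : Subgroup S, A = B.map S.subtype := ⟨_, (map_subgroupOf_eq_of_le hA.1).symm⟩
  obtain ⟨P, rfl⟩ : ∃ B : Subgroup S, P = B.map S.subtype := ⟨_, (map_subgroupOf_eq_of_le hP.1.1).symm⟩
  obtain ⟨c1, c2, c3, c4, c5⟩ := (FG.ua_of hS hna hA.2.1 hA.2.2 huniq).str a (FG.CR.of_ess a ((b P).1 hP))
    fun e => hPA (congrArg _ e)
  rw [← map_center_subtype, ← Subgroup.map_sup, ← map_inf _ _ _ S.subtype_injective, card_map_subtype,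
    subgroupOf_map_subtype']
  refine ⟨map_mono c1, c2, (relIndex_map_map_of_injective _ _ S.subtype_injective).trans c3,
    (relIndex_map_map_of_injective _ _ S.subtype_injective).trans c4, fun m h1 h2 e => c5 m h1 h2 ?_⟩
  rwa [← top_subtype_lowerCentralSeries, map_le_map_iff_of_injective S.subtype_injective] at e

end Cfsg.Agent.S5257
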