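import Cfsg.Statements.S5271
import Cfsg.Agent.H9.WE

set_option autoImplicit false
open Cfsg

namespace Cfsg.Agent.S5271

/-- A nilpotency criterion for fusion systems. Let F be a saturated fusion system over a finite p-group S of order at least p². Call a subgroup Q of S weakly embedded in F when there is a subgroup P of S strongly closed in F such that both the product QP and the intersection Q ∩ P are strongly closed in F. Then F is the inner fusion system of S if and only if there is a subgroup D of S with 1 < D < S such that every subgroup of S of the same order as D is weakly embedded in F and, for every fully normalized subgroup H of S of that order, the normalizer fusion system of H in F is the inner fusion system of N_S(H). -/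
theorem result {Ω : Type*} [Group Ω] {S : Subgroup Ω} [Finite S] (p : ℕ) [Fact p.Prime] (hS : IsPGroup p ↥S) (F : Cfsg.FusionSystem S) (hF : F.IsSaturated p) (hcard : p ^ 2 ≤ Nat.card S) : (∀ P : Subgroup Ω, F.Hom P = (Cfsg.innerFusionSystem S).Hom P) ↔ ∃ D : Subgroup Ω, ⊥ < D ∧ D < S ∧ (∀ Q : Subgroup Ω, Q ≤ S → Nat.card ↥Q = Nat.card ↥D → ∃ P : Subgroup Ω, F.StronglyClosed P ∧ F.StronglyClosed (Q ⊔ P) ∧ F.StronglyClosed (Q ⊓ P)) ∧ (∀ H : Subgroup Ω, F.IsFullyNormalized H → Nat.card ↥H = Nat.card ↥D → ∀ N : Cfsg.FusionSystem (Cfsg.FusionSystem.normalizerIn S H), F.IsNormalizerSystem H N → ∀ P : Subgroup Ω, N.Hom P = (Cfsg.innerFusionSystem (Cfsg.FusionSystem.normalizerIn S H)).Hom P) := by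
  open H9 Subgroup in open scoped commutatorElement in
  open H2 H9.WE Subgroup in
  have hF' : Sat p F := ⟨hS, hF⟩
  have hp : p.Prime := Fact.out
  rw [isInner_iff]
  refine ⟨fun h => ?_, fun ⟨D, _, h1, h2, h3⟩ => ?_⟩
  · obtain ⟨n, hn⟩ := IsPGroup.iff_card.1 hS
    rw [hn, Nat.pow_le_pow_iff_right hp.one_lt] at hcard
    obtain ⟨n, rfl⟩ := Nat.exists_eq_add_of_le' hcard
    obtain ⟨D, -, a, -, b⟩ := nb hS bot_le le_rfl le_normalizer_of_normal le_normalizer (k := n + 1)
      (by rw [card_bot]; exact Nat.one_le_pow _ _ hp.pos) (hn ▸ Nat.pow_le_pow_right hp.pos (by omega))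
    refine ⟨D, bot_lt_iff_ne_bot.2 ?_, lt_of_le_of_ne a ?_, fun Q c d => ⟨⊥, sc_bot F, ?_, ?_⟩, fun H c d N e => ?_⟩
    · rintro rfl
      rw [card_bot] at b
      exact (Nat.one_lt_pow n.succ_ne_zero hp.one_lt).ne b
    · rintro rfl
      exact absurd (Nat.pow_right_injective hp.two_le (b.symm.trans hn)) (by omega)
    · rw [sup_bot_eq]
      exact normal_sc (h.normal c (idx hS c hn (d.trans b)))
    · rw [inf_bot_eq]
      exact sc_bot F
    · exact isInner_iff.2 (h.of_sub (isNormalizerSystem_iff.1 e).sub (le_inf le_rfl (idx hS (fn_iff.1 c).1 hn (d.trans b))))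
  · have := fin h1.le
    obtain ⟨k, hk⟩ := IsPGroup.iff_card.1 (hS.to_le h1.le)
    refine hF'.inner_iff_hyp.2 (le_bot_iff.1 (main hF' (hk ▸ H9.card_lt_of_lt h1) (hk ▸ h2) (fun H a b R c σ d => ?_) _ ⊥
      (sc_bot F) (by rw [card_bot]; exact Nat.one_le_pow _ _ hp.pos) rfl))
    obtain ⟨N, e⟩ := exists_normalizerSystem F (stronglyClosed_iff'.1 a).1
    obtain ⟨s, hs, f⟩ := isInner_iff.1 (h3 H (sc_fn a) (b.trans hk.symm) N e) R σ ((isNormalizerSystem_iff.1 e).mor_of
      (le_inf d.le (d.le.trans (sc_normalizer a))) d le_rfl c (sc_Stab a d c) trivial)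
    exact ⟨s, hs.1, f⟩

end Cfsg.Agent.S5271
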