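import Cfsg.Statements.S5275
import Cfsg.Agent.H9.FG4

set_option autoImplicit false
open Cfsg

namespace Cfsg.Agent.S5275

/-- A Glauberman–Thompson nilpotency criterion for fusion systems relative to a strongly closed subgroup. Let p be an odd prime, F a saturated fusion system over a finite p-group S, and D a subgroup of S that is strongly closed in F. Let Z(J(D)) be the centre of the subgroup of D generated by the abelian subgroups of D of largest order. Then F is the inner fusion system of S if and only if the normalizer fusion system of Z(J(D)) in F is the inner fusion system of N_S(Z(J(D))) = S. -/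
theorem result {Ω : Type*} [Group Ω] {S : Subgroup Ω} [Finite S] (p : ℕ) [Fact p.Prime] (hS : IsPGroup p ↥S) (F : Cfsg.FusionSystem S) (hF : F.IsSaturated p) (hp : p ≠ 2) (D : Subgroup Ω) (hD : F.StronglyClosed D) : (∀ P : Subgroup Ω, F.Hom P = (Cfsg.innerFusionSystem S).Hom P) ↔ ∀ N : Cfsg.FusionSystem (Cfsg.FusionSystem.normalizerIn S (Cfsg.centerThompsonAOf D)), F.IsNormalizerSystem (Cfsg.centerThompsonAOf D) N → ∀ P : Subgroup Ω, N.Hom P = (Cfsg.innerFusionSystem (Cfsg.FusionSystem.normalizerIn S (Cfsg.centerThompsonAOf D))).Hom P := by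
  open H9 Subgroup in open scoped commutatorElement in
  rw [H2.isInner_iff, FG.ni_iff_forall (by rw [ZA_eq]; exact inf_le_left.trans ((JA_le _).trans hD.1))
    (by rw [ZA_eq]; exact normalizer_Zc (normalizer_JA (H2.sc_normalizer hD))), ZA_eq, ← iF_fZA]
  exact ⟨fun h => FG.ni_of_inner h _, FG.inner_of_ZA_sc hp ⟨hS, hF⟩ hD⟩

end Cfsg.Agent.S5275
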