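import Cfsg.Statements.S5276
import Cfsg.Agent.H2.Fus13

set_option autoImplicit false
open Cfsg

namespace Cfsg.Agent.S5276

open H2 Subgroup in

/-- Let p be a prime and F a saturated fusion system over a finite p-group S. Then F is the inner fusion system of S if and only if the normalizer fusion system of S itself in F is the inner fusion system (equivalently, Aut_F(S) is induced by S) and the Frattini subgroup Φ(S) is strongly closed in F. -/
theorem result {Ω : Type*} [Group Ω] {S : Subgroup Ω} [Finite S] (p : ℕ) [Fact p.Prime] (hS : IsPGroup p ↥S) (F : Cfsg.FusionSystem S) (hF : F.IsSaturated p) : (∀ P : Subgroup Ω, F.Hom P = (Cfsg.innerFusionSystem S).Hom P) ↔ (∀ N : Cfsg.FusionSystem (Cfsg.FusionSystem.normalizerIn S S), F.IsNormalizerSystem S N → ∀ P : Subgroup Ω, N.Hom P = (Cfsg.innerFusionSystem (Cfsg.FusionSystem.normalizerIn S S)).Hom P) ∧ F.StronglyClosed ((frattini ↥S).map S.subtype) := by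
  have hF' : Sat p F := ⟨hS, hF⟩
  have hT : S ≤ Cfsg.FusionSystem.normalizerIn S S := le_inf le_rfl le_normalizer
  rw [isInner_iff]
  refine ⟨fun h => ⟨fun N hN => isInner_iff.2 (h.of_sub (isNormalizerSystem_iff.1 hN).sub hT),
    normal_sc (h.normal (Phi_le S) (le_normalizer.trans (normalizer_Phi S)))⟩, fun h => ?_⟩
  obtain ⟨N, hN⟩ := exists_normalizerSystem F le_rfl
  refine hF'.inner_of_sc h.2 (commutator_le_Phi hS) le_rfl ?_
  rw [← (isNormalizerSystem_iff.1 hN).Aut_self hT]
  exact (isInner_iff.1 (h.1 N hN)).isPGroup (hS.to_le inf_le_left) hT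

end Cfsg.Agent.S5276
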