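import Cfsg.Statements.S5291
import Cfsg.Agent.H2.Fus10

set_option autoImplicit false
open Cfsg

namespace Cfsg.Agent.S5291

open H2 Subgroup in

/-- Let F be a saturated fusion system over a finite p-group S and E a weakly normal subsystem of F over a subgroup T. Suppose a subgroup R of T is normal in E (E = N_E(R)), and let R* be the subgroup of T generated by the images of R under all maps of F with source R. Then R* is normal in F (F = N_F(R*)). -/
theorem result {Ω : Type*} [Group Ω] {S : Subgroup Ω} [Finite S] (p : ℕ) [Fact p.Prime] (hS : IsPGroup p S)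
    (F : Cfsg.FusionSystem S) (hF : F.IsSaturated p)
    {T : Subgroup Ω} (E : Cfsg.FusionSystem T) (hE : E.IsWeaklyNormalIn F p)
    (R : Subgroup Ω) (hR : E.IsNormal R) :
    F.IsNormal (Subgroup.closure {x : Ω | ∃ φ ∈ F.Hom R, ∃ r : R, x = φ r}) := by
  have := wn_finite hE
  have h := (wn_iff hS).1 hE
  have key : Subgroup.closure {x : Ω | ∃ φ ∈ F.Hom R, ∃ r : R, x = φ r} =
      sSup {X | ∃ α ∈ Aut F T, X = img α R} := by
    apply le_antisymm
    · rw [closure_le]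
      rintro _ ⟨φ, hφ, r, rfl⟩
      obtain ⟨σ, h1, h2⟩ := exists_mor hφ
      obtain ⟨α, hα, ρ, h3, h4⟩ := h.inv.frat hR.1 h1
      refine (le_sSup (s := {X | ∃ α ∈ Aut F T, X = img α R}) ⟨α, hα, rfl⟩ : img α R ≤ _) ?_
      rw [h2, h4 r r.2]
      exact mem_img_of_mem (sc_apply (normal_sc hR) h3 r.2 r.2)
    · refine sSup_le ?_
      rintro _ ⟨α, hα, rfl⟩
      exact img_le_iff.2 fun x hx => subset_closure ⟨_, ((Aut.mor h.inv.le hα).mono hR.1).toHom_mem, ⟨x, hx⟩, rfl⟩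
  rw [key]
  set Y := sSup {X | ∃ α ∈ Aut F T, X = img α R}
  have hY : Y ≤ T := sSup_le (by rintro _ ⟨α, hα, rfl⟩; exact (h.inv.normal_img hα hR).1)
  have hi : ∀ α ∈ Aut F T, ∀ x ∈ Y, α x ∈ Y := fun α hα x hx => by
    have : Y ≤ img ⇑α⁻¹ Y := sSup_le (by
      rintro _ ⟨β, hβ, rfl⟩
      have : img β R = img ⇑α⁻¹ (img ⇑(α * β) R) := by
        rw [← ((Aut.homOn (mul_mem hα hβ)).mono hR.1).img_mul, inv_mul_cancel_left]
      rw [this]
      exact img_mono _ (le_sSup ⟨_, mul_mem hα hβ, rfl⟩))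
    simpa using ((Aut.homOn (inv_mem hα)).mono hY).mem_img'.1 (this hx)
  have h1 := sSup_prop (S := T) (fun X => E.IsNormal X ∧ X ≤ Y) (fun _ h => h.1.1) ⟨normal_bot E, bot_le⟩
    fun _ _ h1 h2 => ⟨normal_sup h1.1 h2.1, sup_le h1.2 h2.2⟩
  have h2 : Y ≤ sSup {X | E.IsNormal X ∧ X ≤ Y} := sSup_le (by
    rintro _ ⟨α, hα, rfl⟩
    exact le_sSup ⟨h.inv.normal_img hα hR, le_sSup ⟨α, hα, rfl⟩⟩)
  exact h.satF.normal_of_inv h.inv (le_antisymm h1.2 h2 ▸ h1.1) hi

end Cfsg.Agent.S5291
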