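import Cfsg.Statements.S5292
import Cfsg.Agent.H2.Fus29

set_option autoImplicit false
universe u
open Cfsg

namespace Cfsg.Agent.S5292

open H2 Subgroup in

/-- Let F be a saturated fusion system over a finite p-group S. Then F is the fusion system of some finite p-solvable group on a Sylow p-subgroup if and only if F is constrained (some subgroup normal in F is centric in F) and the group of automorphisms that F induces on its largest normal subgroup O_p(F) is p-solvable. -/
theorem result {Ω : Type u} [Group Ω] {S : Subgroup Ω} [Finite S] (p : ℕ) [Fact p.Prime] (hS : IsPGroup p S)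
    (F : Cfsg.FusionSystem S) (hF : F.IsSaturated p) :
    (∃ (G : Type u) (_ : Group G) (_ : Finite G) (ι : S →* G), Cfsg.IsPSolvable p G ∧ F.IsRealizedBy ι ∧
        ∃ T : Sylow p G, (T : Subgroup G) = ι.range) ↔
      (F.IsConstrained p ∧ Cfsg.IsPSolvable p ↥(F.autGroup F.core)) := by
  have hF' : Sat p F := ⟨hS, hF⟩
  refine ⟨fun ⟨G, _, _, ι, h1, h2, T, h3⟩ => ?_, fun ⟨h1, h2⟩ => ?_⟩
  · rw [realized_iso, group_eq_sub] at h2
    exact ⟨(con_iff hS).2 (((noSt_group (h3 ▸ isSylowIn_top T) h1).of_iso hF' h2).con hF'), (h2.psv_aut (core_le F)).2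
      (psv_of_surj (psv_of_inj h1 _ (subtype_injective _)) _ (MonoidHom.rangeRestrict_surjective _))⟩
  · obtain ⟨G, _, ι, k⟩ := exists_model hS h1
    have := k.fin
    refine ⟨G, _, this, ι, ?_, k.realized, k.syl.toSylowTop, rfl⟩
    rw [k.iso.psv_aut (core_le F), ← k.Oc_eq] at h2
    have k1 : IsPSolvable p (normalizer (Oc p (⊤ : Subgroup G) : Set G)) := psv_of_ker _ h2 fun x => by
      obtain ⟨n, hn⟩ := isPGroup_Oc p ⊤ ⟨x.1.1, k.cons ⟨trivial, (cP_eq_one_iff x.1.2).1 ((cPHom_apply _).symm.trans x.2)⟩⟩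
      exact ⟨n, Subtype.ext (Subtype.ext (by simpa using congrArg Subtype.val hn))⟩
    exact psv_of_surj k1 (Subgroup.subtype _) fun g => ⟨⟨g, le_normalizer_Oc p ⊤ trivial⟩, rfl⟩

end Cfsg.Agent.S5292
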