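import Cfsg.Statements.S5297
import Cfsg.Agent.H2.Small

set_option autoImplicit false
universe u
open Cfsg

namespace Cfsg.Agent.S5297

open H2 Subgroup in

/-- Let F be a saturated fusion system over a finite p-group S. If every map of F between cyclic subgroups of the hyperfocal subgroup of F of order p or 4 is a map of the normalizer system of S (it extends to a map of F defined on all of S), then S is normal in F. -/
theorem result {Ω : Type u} [Group Ω] {S : Subgroup Ω} [Finite S] (p : ℕ) [Fact p.Prime] (hS : IsPGroup p S)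
    (F : Cfsg.FusionSystem S) (hF : F.IsSaturated p)
    (h : ∀ A B : Subgroup Ω, A ≤ (F.hyperfocalSubgroup p) → B ≤ (F.hyperfocalSubgroup p) → IsCyclic ↥A → (Nat.card ↥A = p ∨ Nat.card ↥A = 4) → IsCyclic ↥B → (Nat.card ↥B = p ∨ Nat.card ↥B = 4) →
      F.homSet A B ⊆ F.normalizerHom S A) :
    F.IsNormal S := by
  have hF' : H2.Sat p F := ⟨hS, hF⟩
  obtain ⟨n, hn⟩ := exists_Zs_eq hS
  refine hF'.normal_top_of_small fun P D hP hD => ⟨Zs S, n, hn.ge.trans' (hD.le.trans (inf_le_left.trans hP.1)), Zs_zero S,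
    fun i _ α hα x hx hx' => ?_, fun s hs i _ x _ hx => conj_mem_Zs hx hs⟩
  have h1 := hD.le hx
  have h0 := (Aut.mor hP.1 hα).mono (zpowers_le.2 h1.1)
  rcases sm_card (hD.exp x hx) with rfl | h2
  · rw [h0.homOn.map_one]; exact one_mem _
  have h3 := h (zpowers x) (img α (zpowers x)) (zpowers_le.2 h1.2) (sc_img_le hF'.hyp_sc h0 (zpowers_le.2 h1.2))
    inferInstance h2 (by rw [h0.homOn.img_zpowers]; infer_instance) (by rwa [h0.card_img])
    (show h0.homOn.toHom ∈ _ from ⟨h0.toHom_mem, fun x => mem_img_of_mem x.2⟩)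
  obtain ⟨τ, h4, h5, h6⟩ := ext_top_iff.1 ((mem_normalizerHom_iff (σ := α) fun _ => rfl).1 h3).2
  rw [← h5 x (mem_zpowers x)]
  exact Zs_apply (h4.homOn.mono le_sup_right) h6 hx'

end Cfsg.Agent.S5297
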