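import Cfsg.Statements.S5298
import Cfsg.Agent.H2.Small

set_option autoImplicit false
universe u
open Cfsg

namespace Cfsg.Agent.S5298

open H2 Subgroup in

/-- Let F be a saturated fusion system over a finite p-group S. If every map of F between cyclic subgroups of the hyperfocal subgroup of F of order p or 4 is conjugation by an element of S, then F is the inner fusion system of S. -/
theorem result {Ω : Type u} [Group Ω] {S : Subgroup Ω} [Finite S] (p : ℕ) [Fact p.Prime] (hS : IsPGroup p S)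
    (F : Cfsg.FusionSystem S) (hF : F.IsSaturated p)
    (h : ∀ A B : Subgroup Ω, A ≤ (F.hyperfocalSubgroup p) → B ≤ (F.hyperfocalSubgroup p) → IsCyclic ↥A → (Nat.card ↥A = p ∨ Nat.card ↥A = 4) → IsCyclic ↥B → (Nat.card ↥B = p ∨ Nat.card ↥B = 4) →
      F.homSet A B ⊆ (Cfsg.innerFusionSystem S).Hom A) :
    ∀ P : Subgroup Ω, F.Hom P = (Cfsg.innerFusionSystem S).Hom P := by
  have hF' : H2.Sat p F := ⟨hS, hF⟩
  obtain ⟨n, hn⟩ := exists_Zs_eq hS
  refine isInner_iff.2 (hF'.inner_of_coprime fun P hP α hα hc => ?_)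
  have hP := (hF'.fcr_of hP).1.1
  have := finite_of_le (inf_le_left.trans hP : P ⊓ F.hyperfocalSubgroup p ≤ S)
  obtain ⟨D, hD⟩ := exists_smD (hS.to_le (inf_le_left.trans hP : P ⊓ F.hyperfocalSubgroup p ≤ S))
  have hDP := hD.le.trans inf_le_left
  have key := fix_of_chain (hS.to_le (hDP.trans hP)) ((Aut.homOn hα).mono hDP) (fun x hx => hD.apply hP hF'.hyp_sc hα hx)
    hc (Zs S) n (fun x _ hx => by rw [Zs_zero, mem_bot] at hx; rw [hx, (Aut.homOn hα).map_one]) fun i _ x hx hx' => by
      have h1 := hD.le hx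
      have h0 := (Aut.mor hP hα).mono (zpowers_le.2 h1.1)
      rcases sm_card (hD.exp x hx) with rfl | h2
      · rw [h0.homOn.map_one, inv_one, one_mul]; exact one_mem _
      have h3 := h (zpowers x) (img α (zpowers x)) (zpowers_le.2 h1.2) (sc_img_le hF'.hyp_sc h0 (zpowers_le.2 h1.2))
        inferInstance h2 (by rw [h0.homOn.img_zpowers]; infer_instance) (by rwa [h0.card_img])
        (show h0.homOn.toHom ∈ _ from ⟨h0.toHom_mem, fun x => mem_img_of_mem x.2⟩)
      obtain ⟨-, s, h4, h5⟩ := mor_inner_iff.1 ((mor_iff_of (f := α) _ fun _ => rfl).2 h3)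
      rw [h5 x (mem_zpowers x)]
      exact conj_mem_Zs hx' h4
  rw [hD.eq_one hS hP hF'.hyp_sc hα hc (fun x hx => mem_hyp' hP hα hc hx)
    fun x hx => key x hx (hn.ge (hP (hDP hx)))]
  exact fun _ _ => rfl

end Cfsg.Agent.S5298
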