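import Cfsg.Statements.S5300
import Cfsg.Agent.H2.Small

set_option autoImplicit false
universe u
open Cfsg

namespace Cfsg.Agent.S5300

open H2 Subgroup in
theorem cent {Ω : Type*} [Group Ω] {S : Subgroup Ω} {p : ℕ} [hp : Fact p.Prime] (hS : IsPGroup p S) {x s : Ω}
    (hs : s ∈ S) (h : s * x * s⁻¹ ∈ zpowers x) : ∃ k : ℤ, x⁻¹ * (s * x * s⁻¹) ∈ zpowers (x ^ p) ∨ ∀ n : ℕ, x ^ p ^ n ≠ 1 := by
  refine ⟨0, ?_⟩
  by_contra! hh
  obtain ⟨h1, m, h2⟩ := hh
  obtain ⟨k, hk⟩ := mem_zpowers_iff.1 h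
  obtain ⟨n, hn⟩ := hS ⟨s, hs⟩
  have hn : s ^ p ^ n = 1 := congrArg Subtype.val hn
  have h3 : ∀ j : ℕ, s ^ j * x * (s ^ j)⁻¹ = x ^ k ^ j := fun j => by
    induction j with
    | zero => simp
    | succ j ih => rw [pow_succ', mul_inv_rev, mul_assoc s, mul_assoc s, ← mul_assoc _ _ s⁻¹, ih, ← mul_assoc, ← conj_zpow, ← hk,
        ← zpow_mul, pow_succ']
  have h4 := h3 (p ^ n)
  rw [hn, one_mul, inv_one, mul_one] at h4
  have h5 : (p : ℤ) ∣ k ^ p ^ n - k := by
    rw [← ZMod.intCast_zmod_eq_zero_iff_dvd]; push_cast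
    rw [ZMod.pow_card_pow, sub_self]
  obtain ⟨t, ht⟩ := h5
  refine h1 (mem_zpowers_iff.2 ⟨-t, ?_⟩)
  rw [← hk, ← zpow_natCast, ← zpow_mul, show k = k ^ p ^ n + p * -t by linear_combination -ht, zpow_add, ← h4]
  group

open H2 Subgroup in

/-- Let F be a saturated fusion system over a finite p-group S. If every cyclic subgroup of the focal subgroup of F of order p (of order 2 or 4 when p = 2) is normal in S, then S is normal in F. -/
theorem result {Ω : Type u} [Group Ω] {S : Subgroup Ω} [Finite S] (p : ℕ) [Fact p.Prime] (hS : IsPGroup p S)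
    (F : Cfsg.FusionSystem S) (hF : F.IsSaturated p)
    (hnorm : ∀ x ∈ F.focalSubgroup, (x ^ p = 1 ∨ (p = 2 ∧ x ^ 4 = 1)) → ∀ s ∈ S, s * x * s⁻¹ ∈ Subgroup.zpowers x) :
    F.IsNormal S := by
  have hF' : H2.Sat p F := ⟨hS, hF⟩
  refine hF'.normal_top_of_small fun P D hP hD => ⟨fun i => if i = 0 then ⊥ else if i = 1 then omegaOne p D else D, 2,
    le_rfl, rfl, fun i _ α hα x hx hx' => ?_, fun s hs i hi x hx hx' => ?_⟩
  · have h1 := (Aut.homOn hα).mono (hD.le.trans inf_le_left)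
    have h2 := fun x => hD.apply (x := x) hP.1 hF'.hyp_sc hα
    beta_reduce at hx' ⊢
    split_ifs at hx' ⊢
    · rw [mem_bot.1 hx', h1.map_one]; exact one_mem _
    · refine img_le_iff.1 ?_ x hx'
      have h3 : omegaOne p D ≤ D := (closure_le _).2 fun _ h => h.1
      rw [omegaOne, (h1.mono h3).img_closure]
      refine closure_mono ?_
      rintro _ ⟨y, hy, rfl⟩
      exact ⟨h2 y hy.1, by rw [← h1.map_pow hy.1, hy.2, h1.map_one]⟩
    · exact h2 x hx
  · have key : ∀ y ∈ D, y⁻¹ * (s * y * s⁻¹) ∈ zpowers (y ^ p) := fun y hy => by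
      obtain ⟨_, h | h⟩ := cent hS hs (hnorm y (hyp_le_focal F (hD.le hy).2) (sm_cases (hD.exp y hy)) s hs)
      · exact h
      · obtain ⟨n, hn⟩ := hS ⟨y, hP.1 (hD.le hy).1⟩
        exact (h n (congrArg Subtype.val hn)).elim
    interval_cases i
    · have : omegaOne p D ≤ centralizer {s} := (closure_le _).2 fun y hy => by
        have := key y hy.1
        rw [hy.2, zpowers_one_eq_bot, mem_bot, inv_mul_eq_one, eq_mul_inv_iff_mul_eq] at this
        exact mem_centralizer_singleton_iff.2 this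
      have h1 := mem_centralizer_singleton_iff.1 (this hx')
      simp [← h1]
    · refine (zpowers_le (H := omegaOne p D)).2 (Subgroup.subset_closure ⟨pow_mem hx _, ?_⟩) (key x hx)
      rcases sm_cases (hD.exp x hx) with h | ⟨rfl, h⟩
      · rw [h, one_pow]
      · rwa [← pow_mul]

end Cfsg.Agent.S5300
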