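import Cfsg.Statements.S5301
import Cfsg.Agent.H2.Fus10

set_option autoImplicit false
universe u
open Cfsg

namespace Cfsg.Agent.S5301

open H2 Subgroup in

/-- Let F be a saturated fusion system over a finite p-group S. If for every subgroup P of S that is fully normalized, centric and radical in F the automorphism group that F induces on P has a normal Sylow p-subgroup, then S is normal in F. -/
theorem result {Ω : Type u} [Group Ω] {S : Subgroup Ω} [Finite S] (p : ℕ) [Fact p.Prime] (hS : IsPGroup p S)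
    (F : Cfsg.FusionSystem S) (hF : F.IsSaturated p)
    (hcl : ∀ P : Subgroup Ω, F.IsFullyNormalized P → F.IsCentric P → F.IsRadical p P →
      ∃ R : Sylow p ↥(F.autGroup P), (R : Subgroup ↥(F.autGroup P)).Normal) :
    F.IsNormal S := by
  have hF' : Sat p F := ⟨hS, hF⟩
  refine hF'.normal_top_of fun P hn hc hr => ?_
  obtain ⟨R, hR⟩ := hcl P hn hc hr
  refine le_of_mem_Oc hS hc hr le_rfl (hc.1.trans le_normalizer) fun a ha hna => ?_
  obtain ⟨α, hα, e⟩ := exists_ext_eq (cP_mem_Aut F hc.1 ha hna)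
  rw [← map_pCore_aut, ← e]
  refine mem_map_of_mem _ ⟨⟨α, hα⟩, ?_, rfl⟩
  have h1 : (R : Subgroup (F.autGroup P)) ≤ Cfsg.pCore p _ := by
    rw [← Oc_top]; exact le_Oc le_top (by rw [normalizer_eq_top]) R.2
  refine h1 ((isSylowIn_top R).le_of_normalizes (Q := zpowers ⟨α, hα⟩) ?_ le_top (by rw [normalizer_eq_top]; exact le_top)
    (mem_zpowers _))
  obtain ⟨k, hk⟩ := exists_pow_eq_one_of_mem hS ha
  refine isPGroup_zpowers ⟨k, Subtype.ext (ext_injective P ?_)⟩
  rw [coe_pow, map_pow, e, ← cP_pow hna, hk, cP_one]; exact (map_one _).symm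

end Cfsg.Agent.S5301
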