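import Cfsg.Statements.S5312
import Cfsg.Agent.H2.Fus28

set_option autoImplicit false
open Cfsg

namespace Cfsg.Agent.S5312

open H2 Subgroup in

/-- Let F be a saturated fusion system over a finite p-group S. Every component C of F is a normal subsystem of every generalized Fitting subsystem of F. -/
theorem result {Ω : Type*} [Group Ω] {S : Subgroup Ω} [Finite S] (p : ℕ) [Fact p.Prime] (hS : IsPGroup p S) (F : Cfsg.FusionSystem S) (hF : F.IsSaturated p)
    {T : Subgroup Ω} (C : Cfsg.FusionSystem T) (hC : C.IsComponentIn F p)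
    {U : Subgroup Ω} (D : Cfsg.FusionSystem U) (hD : D.IsGeneralizedFittingOf F p) : C.IsNormalIn D p := by
  have := gf_finite hD
  rw [gf_iff hS] at hD
  rw [comp_iff hS] at hC
  have := hC.1.finite
  exact (nrm_iff hD.nrm.satE.pg).2 (hD.comp_nrm hC)

end Cfsg.Agent.S5312
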