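import Cfsg.Statements.S5317
import Cfsg.Agent.H2.Two
import Cfsg.Agent.H5.SL2Cl
import Cfsg.Agent.H5.SubF

set_option autoImplicit false
open Cfsg

namespace Cfsg.Agent.S5317

open H2 H5 Subgroup in

/-- Let F be a finite field of odd order q with q² ≡ 1 mod 16 (so that a Sylow 2-subgroup of PSL(2,q), dihedral of order the 2-part of (q²−1)/2, has order at least 8). Then the 2-fusion system of PSL(2,F) on a Sylow 2-subgroup is simple: saturated, over a nontrivial 2-group, with no normal subsystem other than the trivial one and itself. -/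
theorem result {F : Type*} [Field F] [Fintype F] (hodd : Fintype.card F % 2 = 1) (h16 : 16 ∣ Fintype.card F ^ 2 - 1)
    (S : Sylow 2 (Matrix.ProjectiveSpecialLinearGroup (Fin 2) F)) :
    (Cfsg.groupFusionSystem (S : Subgroup (Matrix.ProjectiveSpecialLinearGroup (Fin 2) F))).IsSimple 2 := by
  haveI := Matrix.ProjectiveSpecialLinearGroup.rank_two_simple (F := F) (by
    rw [Nat.card_eq_fintype_card]
    have := Fintype.one_lt_card (α := F)
    by_contra a
    obtain e | e : Fintype.card F = 2 ∨ Fintype.card F = 3 := by omega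
    all_goals simp [e] at h16)
  have h8 : 8 ∣ Nat.card (PSL2 F) := by
    have := card_PSL2_mul (F := F)
    rw [show Nat.gcd 2 (Fintype.card F - 1) = 2 from Nat.gcd_eq_left (by omega), mul_assoc, mul_comm (_ - 1),
      ← Nat.pow_two_sub_pow_two _ 1, one_pow] at this
    exact Nat.dvd_of_mul_dvd_mul_left two_pos (this ▸ h16.mul_left _)
  have hG := no_two_of_simple (G := PSL2 F) ((show 4 ∣ 8 by norm_num).trans h8)
  have h9 : 2 ^ 3 ∣ Nat.card S := S.pow_dvd_card_of_pow_dvd_card h8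
  obtain ⟨p, hp⟩ := CharP.exists F
  haveI := Fact.mk (CharP.char_is_prime F p)
  obtain ⟨n, T, D, h, hS⟩ := le_D_of_isPGroup p (r := 2) (by
    rintro rfl
    obtain ⟨k, -, hk⟩ := FiniteField.card F 2
    rw [hk] at hodd
    exact absurd (dvd_pow_self 2 k.ne_zero) (by omega)) (S.2.map psl)
  haveI := h.cyc
  haveI : IsCyclic (S ⊓ T.comap psl : Subgroup (PSL2 F)) := isCyclic_of_injective
    ((psl.comp (Subgroup.subtype _)).codRestrict T fun x => x.2.2) fun a b e => Subtype.ext (psl_inj (congrArg Subtype.val e))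
  obtain ⟨a, ha⟩ := exists_zpowers_eq (S ⊓ T.comap psl : Subgroup (PSL2 F))
  have h1 : ∀ s ∈ (S : Subgroup (PSL2 F)), s ∉ zpowers a → s * s = 1 := fun s hs b =>
    psl_inj (by rw [map_mul, h.inv _ (hS ⟨s, hs, rfl⟩) fun c => b (ha ▸ mem_inf.2 ⟨hs, c⟩), map_one])
  have haS : zpowers a ≤ S := ha ▸ inf_le_left
  obtain ⟨b, hb, hb'⟩ : ∃ b ∈ (S : Subgroup (PSL2 F)), b ∉ zpowers a := by
    by_contra! c
    rw [eq_bot_iff.2 (le_of_cyc S hG (T := ⊥) (fun x hx g _ => by simp [mem_bot.1 hx]) bot_le (haS (mem_zpowers a))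
      fun x hx => mem_sup_right (c x hx)), card_bot] at h9
    omega
  have h2 : (zpowers a).relIndex S = 2 := L.relIndex_eq_two hb hb' fun g hg hg' => ha ▸ mem_inf.2 ⟨mul_mem hg hb, mem_comap.2 <| (map_mul psl g b).symm ▸
    L.mul_mem_of_relIndex_two h.idx (hS ⟨g, hg, rfl⟩) (hS ⟨b, hb, rfl⟩) (fun c => hg' (ha ▸ mem_inf.2 ⟨hg, c⟩))
      (fun c => hb' (ha ▸ mem_inf.2 ⟨hb, c⟩))⟩
  obtain ⟨k, hk⟩ := S.2.exists_card_eq
  obtain ⟨m, rfl⟩ := Nat.exists_eq_add_of_le' ((Nat.pow_dvd_pow_iff_le_right one_lt_two).1 (hk ▸ h9))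
  have h3 := H1.card_inf_mul_relIndex (zpowers a) S
  rw [inf_eq_left.2 haS, h2, hk, Nat.card_zpowers, pow_succ] at h3
  have b2 := h1 b hb hb'
  refine simple_mc S (n := m + 1) ⟨haS (mem_zpowers a), hb, Nat.eq_of_mul_eq_mul_right two_pos h3, hb', h2, by omega, Or.inl ⟨(sq b).trans b2, ?_⟩⟩
    ((sq b).trans b2) hG
  have := h1 (a * b) (mul_mem (haS (mem_zpowers a)) hb) fun c => hb' ((mul_mem_cancel_left (mem_zpowers a)).1 c)
  rw [inv_eq_of_mul_eq_one_right b2, eq_inv_iff_mul_eq_one, ← mul_right_inj a, ← mul_assoc, ← mul_assoc, ← mul_assoc,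
    mul_assoc (a * b), this, one_mul, mul_one]

end Cfsg.Agent.S5317
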