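import Cfsg.Statements.S5330
import Cfsg.Agent.H2.Res

set_option autoImplicit false
open Cfsg

namespace Cfsg.Agent.S5330

open H2 Subgroup in

/-- Let F be a saturated fusion system over a finite abelian p-group S. Then S is the internal direct product of the centre of the system and the focal subgroup: Z(F) ∩ foc(F) = 1 and Z(F)·foc(F) = S. -/
theorem result {Ω : Type*} [Group Ω] {S : Subgroup Ω} [Finite S] (p : ℕ) [Fact p.Prime] (hS : IsPGroup p S) (F : Cfsg.FusionSystem S) (hF : F.IsSaturated p) (hab : ∀ x ∈ S, ∀ y ∈ S, x * y = y * x) : F.center ⊓ F.focalSubgroup = ⊥ ∧ F.center ⊔ F.focalSubgroup = S := by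
  have hF' : H2.Sat p F := ⟨hS, hF⟩
  have hn := hF'.normal_top_of_abelian hab
  obtain ⟨K, h1, h2, h3, h4⟩ := hF'.center_split hn inf_le_left
  have h5 : S ⊓ centralizer (S : Set Ω) = S := inf_eq_left.2 fun x hx y hy => hab y hy x hx
  refine ⟨?_, (sup_le (center_le F) (focal_le F)).antisymm ?_⟩
  · rw [inf_comm, hF'.focal_inf_center, commutator_eq_bot_iff_le_centralizer.2 (inf_eq_left.1 h5), bot_inf_eq]
  · exact (h5.symm.trans h3.symm).le.trans (sup_le_sup_left (h4 _ fun α hα x hx => (Aut.mor le_rfl hα).mem_focal hx.1) _)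

end Cfsg.Agent.S5330
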