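import Cfsg.Statements.S5331
import Cfsg.Agent.H9.ES7

set_option autoImplicit false
open Cfsg

namespace Cfsg.Agent.S5331

section
open H9 Subgroup
open scoped commutatorElement
theorem l2 {m : ℕ} {x : ZMod (2 ^ m)} (h : 2 • x = 0) (h0 : x ≠ 0) : 2 * x.val = 2 ^ m :=
  ((ZMod.neg_eq_self_iff x).1 (neg_eq_of_add_eq_zero_left ((two_nsmul x).symm.trans h))).resolve_left h0

theorem l1 {m k : ℕ} {x : ZMod (2 ^ m)} (h : 2 • x = 0) (hk : ∃ w, 2 ^ k • w = x) (h' : m = k + 1 → x = 0) :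
    ∃ w, 2 ^ (k + 1) • w = x := by
  by_cases h0 : x = 0
  · exact ⟨0, by rw [h0, smul_zero]⟩
  have e := l2 h h0
  obtain ⟨w, rfl⟩ := hk
  obtain ⟨j, rfl⟩ : ∃ j, m = k + 1 + j + 1 := by
    by_contra! hn
    obtain ⟨j, rfl⟩ : ∃ j, k = m + j := Nat.exists_eq_add_of_le (by
      have := hn (m - k - 2)
      have : m ≠ k + 1 := fun e => h0 (h' e)
      omega)
    exact h0 (by rw [pow_add, nsmul_eq_mul, Nat.cast_mul, ZMod.natCast_self, zero_mul, zero_mul])
  refine ⟨(2 ^ j : ℕ), ?_⟩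
  replace e := e.trans (pow_succ' 2 (k + 1 + j))
  rw [← ZMod.natCast_zmod_val (2 ^ k • w), Nat.eq_of_mul_eq_mul_left two_pos e, nsmul_eq_mul, ← Nat.cast_mul, ← pow_add]

theorem l3 {n k : ℕ} {a : Fin n → ℕ} (ha : Function.Injective a) {u v : (i : Fin n) → ZMod (2 ^ a i)}
    (hu : 2 • u = 0) (hv : 2 • v = 0) (hu' : ∃ w, 2 ^ k • w = u) (hv' : ∃ w, 2 ^ k • w = v) :
    (∃ w, 2 ^ (k + 1) • w = u) ∨ (∃ w, 2 ^ (k + 1) • w = v) ∨ ∃ w, 2 ^ (k + 1) • w = u - v := by
  have key : ∀ u : (i : Fin n) → ZMod (2 ^ a i), 2 • u = 0 → (∃ w, 2 ^ k • w = u) → (∀ i, a i = k + 1 → u i = 0) →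
      ∃ w, 2 ^ (k + 1) • w = u := fun u h1 ⟨w, h2⟩ h3 => by
    choose f hf using fun i => l1 (congrFun h1 i) ⟨w i, congrFun h2 i⟩ (h3 i)
    exact ⟨f, funext hf⟩
  by_contra! h
  obtain ⟨i, h1, h2⟩ : ∃ i, a i = k + 1 ∧ u i ≠ 0 := by
    by_contra! e; obtain ⟨w, hw⟩ := key u hu hu' e; exact h.1 w hw
  obtain ⟨j, h3, h4⟩ : ∃ i, a i = k + 1 ∧ v i ≠ 0 := by
    by_contra! e; obtain ⟨w, hw⟩ := key v hv hv' e; exact h.2.1 w hw
  obtain rfl := ha (h1.trans h3.symm)
  obtain ⟨w, rfl⟩ := hu'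
  obtain ⟨w', rfl⟩ := hv'
  obtain ⟨x, hx⟩ := key _ (by rw [smul_sub, hu, hv, sub_zero]) ⟨w - w', smul_sub _ _ _⟩ fun j e => by
    obtain rfl := ha (h1.trans e.symm)
    exact sub_eq_zero.2 (ZMod.val_injective _ (Nat.eq_of_mul_eq_mul_left two_pos
      ((l2 (congrFun hu i) h2).trans (l2 (congrFun hv i) h4).symm)))
  exact h.2.2 x hx
end

/-- Let S be a finite abelian 2-group that is a direct product of cyclic groups of pairwise distinct orders 2^{a_1} < 2^{a_2} < ⋯ < 2^{a_n} (all a_i ≥ 1). Then every saturated fusion system over S is the inner one: its maps are exactly the conjugations by elements of S. -/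
theorem result {Ω : Type*} [Group Ω] {S : Subgroup Ω} [Finite S] (n : ℕ) (a : Fin n → ℕ) (ha : StrictMono a) (ha1 : ∀ i, 1 ≤ a i) (e : ↥S ≃* Multiplicative ((i : Fin n) → ZMod (2 ^ a i))) (F : Cfsg.FusionSystem S) (hF : F.IsSaturated 2) (P : Subgroup Ω) : F.Hom P = (Cfsg.innerFusionSystem S).Hom P := by
  open H9 Subgroup in open scoped commutatorElement in
  have hab : IsMulCommutative S := comm_of_equiv e.symm inferInstance
  have hS : IsPGroup 2 S := IsPGroup.of_card (n := ∑ i, a i) (by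
    rw [Nat.card_congr e.toEquiv, ← Finset.prod_pow_eq_pow_sum]; simp [Nat.card_pi])
  have hF' : H2.Sat 2 F := ⟨hS, hF⟩
  have h := FG.top_inner hF' fun M _ _ Q _ f g hg => by
    have hQ := hS.of_equiv f
    have aQ := comm_of_equiv f hab
    have f := f.symm.trans e
    have n : ∀ (X Y : Subgroup M) [Y.Normal], X ≤ normalizer (Y : Set M) := fun X Y _ => le_top.trans (top_le_normalizer Y)
    have hD := hQ.to_le (L.omegaOne_le 2 Q)
    have c : (Nat.card (zpowers g)).Coprime 2 := by rwa [Nat.card_zpowers]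
    have m : ∀ k (x : Q), (x : M) ∈ mho (2 ^ k) Q ↔ ∃ w, 2 ^ k • w = (f x).toAdd := fun k x =>
      ((pow_hom_ab aQ _).1 _).trans ⟨fun ⟨y, hy, b⟩ => ⟨(f ⟨y, hy⟩).toAdd, by
        rw [← toAdd_pow, ← map_pow]; exact congrArg _ (congrArg _ (Subtype.ext b))⟩, fun ⟨w, b⟩ =>
        ⟨_, (f.symm (.ofAdd w)).2, by rw [← coe_pow, ← map_pow, ← ofAdd_nsmul, b]; simp⟩⟩
    have o : ∀ x : Q, (x : M) ∈ omegaOne 2 Q → 2 • (f x).toAdd = 0 := fun x hx => by
      rw [← toAdd_pow, ← map_pow, show x ^ 2 = 1 from Subtype.ext (((pow_hom_ab aQ _).2.1 _).1 hx).2, map_one, toAdd_one]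
    have t : ∀ k, Tr 2 (zpowers g) (omegaOne 2 Q) (omegaOne 2 Q ⊓ mho (2 ^ k) Q) := fun k => by
      induction k with
      | zero =>
        rw [inf_eq_left.2 fun x hx => ((pow_hom_ab aQ _).1 x).2 ⟨x, L.omegaOne_le 2 Q hx, by simp⟩]
        exact Tr.start (n _ _)
      | succ k ih =>
        refine ih.step hD (n _ _) (commutator_le.2 fun y hy s _ => ?_)
        have hy' := Normal.conj_mem inferInstance _ (inv_mem hy) s
        have e : ⁅y, s⁆ = y * (s * y⁻¹ * s⁻¹) := by rw [commutatorElement_def]; group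
        refine ⟨e ▸ mul_mem hy.1 hy'.1, ?_⟩
        have l := L.omegaOne_le 2 Q
        rcases l3 ha.injective (o ⟨_, l hy.1⟩ hy.1) (o ⟨_, l (inv_mem hy').1⟩ (inv_mem hy').1) ((m k _).1 hy.2)
          ((m k _).1 (inv_mem hy').2) with b | b | b
        · exact e ▸ mul_mem ((m _ _).2 b) (Normal.conj_mem inferInstance _ (inv_mem ((m _ _).2 b)) s)
        · have b := inv_mem_iff.1 ((m _ _).2 b)
          have b' := inv_mem (Normal.conj_mem inferInstance _ b s⁻¹)
          exact e ▸ mul_mem (by simpa [mul_assoc] using b') b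
        · rw [← toAdd_div, ← map_div] at b
          simpa [e, div_eq_mul_inv] using (m _ _).2 b
    obtain ⟨k, hk⟩ := L.exists_card_eq_pow hQ
    refine le_centralizer_iff.1 (le_centralizer_of_omega_comm c hQ aQ (n _ _) (commutator_eq_bot_iff_le_centralizer.1
      (le_bot_iff.1 ((t k _ le_rfl c).trans (inf_le_right.trans fun y hy => ?_))))) (mem_zpowers g)
    obtain ⟨x, a, rfl⟩ := ((pow_hom_ab aQ _).1 y).1 hy
    exact hk ▸ congrArg Subtype.val (pow_card_eq_one' (x := (⟨x, a⟩ : Q)))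
  refine H2.isInner_iff.2 (hF'.inner_of_coprime ?_) P
  rintro R (rfl | hR) α hα - x hx
  · obtain ⟨s, hs, b⟩ := h α hα
    rw [b x hx, H1.comm_of_mem hab hs hx, mul_inv_cancel_right]
  · exact (hF'.essential_ne hR (le_antisymm hR.1.1 ((le_inf le_rfl ((L.le_centralizer_of_comm hab).trans
      (centralizer_le hR.1.1))).trans (H2.centric_self hR.1)))).elim

end Cfsg.Agent.S5331
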