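import Cfsg.Statements.S5332
import Cfsg.Agent.H9.FG4

set_option autoImplicit false
open Cfsg

namespace Cfsg.Agent.S5332

open H2 in

/-- Let p be odd and F a saturated fusion system over a finite p-group S that is not the inner system of S. Then F contains a saturated constrained subsystem over S that is itself not the inner system. -/
theorem result {Ω : Type*} [Group Ω] {S : Subgroup Ω} [Finite S] (p : ℕ) [Fact p.Prime] (hS : IsPGroup p S) (F : Cfsg.FusionSystem S) (hF : F.IsSaturated p) (hp : p ≠ 2) (hne : ∃ P : Subgroup Ω, F.Hom P ≠ (Cfsg.innerFusionSystem S).Hom P) : ∃ E : Cfsg.FusionSystem S, E ≤ F ∧ E.IsConstrained p ∧ ∃ P : Subgroup Ω, E.Hom P ≠ (Cfsg.innerFusionSystem S).Hom P := by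
  have key : ∀ (S : Subgroup Ω) [Finite S] (F : FusionSystem S), Sat p F → ¬ IsInner F →
      ∃ E : FusionSystem S, E ≤ F ∧ E.IsConstrained p ∧ ¬ IsInner E := by
    refine FG.sub_induction (motive := fun S _ F => Sat p F → ¬ IsInner F →
      ∃ E : FusionSystem S, E ≤ F ∧ E.IsConstrained p ∧ ¬ IsInner E) fun S _ F ih hF h => ?_
    by_cases k : ∀ E : FusionSystem S, Sat p E → E.IsSubsystemOf F → ¬ F.IsSubsystemOf E → IsInner E
    · exact ⟨F, fun _ => le_rfl, (constrained_iff hF.pg).2 ⟨hF, FG.cons_of_sparse_odd hp hF k h⟩, h⟩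
    push Not at k
    obtain ⟨E, a1, a2, a3, a4⟩ := k
    obtain ⟨D, b1, b2⟩ := ih S E a2 a3 a1 a4
    exact ⟨D, fun P => (b1 P).trans (a2 P), b2⟩
  obtain ⟨E, h1, h2, h3⟩ := key S F ⟨hS, hF⟩ fun h => hne.elim fun P hP => hP (isInner_iff.2 h P)
  exact ⟨E, h1, h2, not_forall.1 fun h => h3 (isInner_iff.1 h)⟩

end Cfsg.Agent.S5332
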