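import Cfsg.Statements.S5600
import Cfsg.Agent.H8.GE
-- import your own Cfsg.Agent.* helpers here

set_option autoImplicit false
set_option maxRecDepth 200000
open scoped Pointwise
open Cfsg

namespace Cfsg.Agent.S5600

theorem w {E : Finset GolayPt} (hE : E.card = 6) : ∃ C, H8.GC C ∧ (C.fs 159 = E ∨ C.fs 63 = E) := by
  obtain ⟨x, s, hx, rfl, hs⟩ := Finset.card_eq_succ.1 hE
  obtain ⟨C, hC, rfl⟩ := H8.wSet (s := s) 31 (by rw [hs]; decide +kernel) (by omega)
  have e : ∀ C, H8.GC C → ∀ i < 24, C.fs (H7.bit i ||| 31) = insert (C.dec i) (C.fs 31) := fun C hC i hi => by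
    rw [C.fs_or, C.fs_bit (hC.n ▸ hi), Finset.insert_eq]
  by_cases h : x ∈ C.fs 5279
  · obtain ⟨C', ⟨hC', -, e', -⟩, _ | ⟨rfl, -⟩⟩ := hC.wlP H8.GE.e3e H8.GE.e3p (xs := [x])
      (.cons (by rw [show ((5248, 7) : ℕ × ℕ).1 = 5279 ^^^ (5279 &&& 31) by decide, ← H8.sdiff_fs]; exact Finset.mem_sdiff.2 ⟨h, hx⟩) .nil) (by simp)
    exact ⟨C', hC', .inl ((e C' hC' 7 (by norm_num)).trans (by rw [e' 31 (by simp)]))⟩
  · obtain ⟨C', ⟨hC', -, e', -⟩, _ | ⟨rfl, -⟩⟩ := hC.wlP H8.GE.e4e H8.GE.e4p (xs := [x])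
      (.cons ((H8.compl_fs hC.n (by decide) x).2 h) .nil) (by simp)
    exact ⟨C', hC', .inr ((e C' hC' 5 (by norm_num)).trans (by rw [e' 31 (by simp)]))⟩

theorem k {C : H7.Coding GolayPt} (hC : H8.GC C) {a : ℕ} {ps : List ℕ} (e : (List.range 24).filter a.testBit = ps) (h6 : (C.fs a).card = 6)
    {u : ℕ} (h1 : Nat.card (H8.SM M24 C ps [] []) = u) (h2 : Nat.card (H8.SM M24 C [] [a] []) = 720 * u) :
    (∀ σ : Equiv.Perm (C.fs a), ∃ g ∈ M24, ∀ p : C.fs a, g p = σ p) ∧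
      Nat.card {g : Equiv.Perm GolayPt // g ∈ M24 ∧ ∀ p ∈ C.fs a, g p = p} = u ∧ Nat.card (MulAction.stabilizer M24 (C.fs a)) = 720 * u := by
  refine ⟨fun σ => ?_, (H8.card_sub1 _ _ fun g => H8.fixS_iff (g := g) hC.n e).trans h1, by
    rw [← h2]; congr 3; ext g; simp [H8.mem_SM]⟩
  obtain ⟨g, -, h⟩ := H8.ind_all (C.fs a) (H8.SM M24 C [] [a] []) (H8.SM M24 C ps [] []) (fun g hg => hg.2.1 _ (by simp)) (fun g => by
      rw [← H8.fixS_iff hC.n e]
      refine (and_iff_right_of_imp fun h => ?_).symm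
      simp only [H8.mem_SM, List.not_mem_nil, false_imp_iff, implies_true, List.mem_singleton, forall_eq, true_and, and_true]
      exact (Finset.image_congr h).trans Finset.image_id) (by rw [h6, h1, h2]; rfl) σ
  exact ⟨g, g.2, h⟩

/-- Although the group of the length-24 code is only 5-transitive on the 24 points, it induces the full symmetric group on every 6-element subset: every permutation of a 6-set E is the restriction of an element of the group mapping E to itself. The pointwise stabiliser of E has order 16 when E lies in an octad and order 3 otherwise; in the latter case the setwise stabiliser of E has order 2160. -/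
theorem result (E : Finset Cfsg.GolayPt) (hE : E.card = 6) : (∀ σ : Equiv.Perm ↥E, ∃ g ∈ Cfsg.M24, ∀ p : ↥E, g p = σ p) ∧ ((∃ o ∈ Cfsg.octads, E ⊆ o) → Nat.card {g : Equiv.Perm Cfsg.GolayPt // g ∈ Cfsg.M24 ∧ ∀ p ∈ E, g p = p} = 16) ∧ ((¬ ∃ o ∈ Cfsg.octads, E ⊆ o) → Nat.card {g : Equiv.Perm Cfsg.GolayPt // g ∈ Cfsg.M24 ∧ ∀ p ∈ E, g p = p} = 3 ∧ Nat.card ↥(MulAction.stabilizer Cfsg.M24 E) = 2160) := by
  obtain ⟨C, hC, rfl | rfl⟩ := w hE
  · have := k hC (by decide) hE (H8.GE.e1fcard hC) (H8.GE.e1scard hC)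
    exact ⟨this.1, fun _ => this.2.1, fun h => absurd ((hC.inO (by norm_num)).2 (by decide +kernel)) h⟩
  · have := k hC (by decide) hE (H8.GE.e2fcard hC) (H8.GE.e2scard hC)
    exact ⟨this.1, fun h => absurd ((hC.inO (by norm_num)).1 h) (by decide +kernel), fun _ => this.2⟩

end Cfsg.Agent.S5600
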