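import Cfsg.Statements.S5521
import Cfsg.Agent.H8.GE
import Cfsg.Agent.S5600
-- import your own Cfsg.Agent.* helpers here

set_option autoImplicit false
set_option maxRecDepth 200000
open Cfsg

namespace Cfsg.Agent.S5521

/-- The Mathieu group M₂₄ in its natural action on the 24 coordinate positions of the binary Golay code has minimal base size exactly 7: every set of at most 6 positions is fixed pointwise by some non-identity element of M₂₄, while some set of 7 positions is fixed pointwise only by the identity. -/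
theorem result :
    (∀ B : Finset Cfsg.GolayPt, B.card ≤ 6 → ∃ g ∈ Cfsg.M24, g ≠ 1 ∧ ∀ b ∈ B, g b = b) ∧
    (∃ B : Finset Cfsg.GolayPt, B.card = 7 ∧ ∀ g ∈ Cfsg.M24, (∀ b ∈ B, g b = b) → g = 1) := by
  refine ⟨fun B hB => ?_, H7.fs 191, by decide +kernel, fun g hg h => congrArg Subtype.val (H8.eq_one_of_base (g := (⟨g, hg⟩ : M24)) H8.GC.std.n
    (H8.GC.std.ch H8.GE.m0c).base (a := 191) (by decide +kernel) h)⟩
  obtain ⟨E, h1, -, h2⟩ := Finset.exists_subsuperset_card_eq (Finset.subset_univ B) hB (show 6 ≤ _ by simp)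
  have h := (S5600.result E h2).2
  have : 1 < Nat.card {g : Equiv.Perm GolayPt // g ∈ M24 ∧ ∀ p ∈ E, g p = p} := by
    by_cases e : ∃ o ∈ octads, E ⊆ o
    · rw [h.1 e]; norm_num
    · rw [(h.2 e).1]; norm_num
  have := Finite.one_lt_card_iff_nontrivial.1 this
  obtain ⟨g, hg⟩ := exists_ne (α := {g : Equiv.Perm GolayPt // g ∈ M24 ∧ ∀ p ∈ E, g p = p}) ⟨1, one_mem _, fun _ _ => rfl⟩
  exact ⟨g, g.2.1, fun e => hg (Subtype.ext e), fun b hb => g.2.2 b (h1 hb)⟩

end Cfsg.Agent.S5521
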