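import Cfsg.Statements.S5529
import Cfsg.Agent.H8.M23g
import Cfsg.Agent.H8.Mathieu
-- import your own Cfsg.Agent.* helpers here

set_option autoImplicit false
set_option maxRecDepth 200000
open Cfsg

namespace Cfsg.Agent.S5529

/-- Generation of the Mathieu group M₂₃ (the stabiliser of a point in the Mathieu group M₂₄ acting on 24 points) by triples of prime orders. Let p ≤ q ≤ r be primes dividing |M₂₃| = 10200960 = 2⁷·3²·5·7·11·23, not both p and q equal to 2. Then M₂₃ contains elements x, y, z of orders p, q, r with xyz = 1 and ⟨x, y⟩ = M₂₃ if and only if (p, q, r) is none of: (2, 3, r) for any r, (2, 5, 5), (2, 5, 7), (3, 3, 3), (3, 3, 5), (3, 3, 7). -/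
theorem result (p q r : ℕ) (hp : p.Prime) (hq : q.Prime)
    (hr : r.Prime) (hpq : p ≤ q) (hqr : q ≤ r) (hp2 : ¬ (p = 2 ∧ q = 2))
    (hdvd : p ∣ 10200960 ∧ q ∣ 10200960 ∧ r ∣ 10200960) :
    (∃ x y z : Cfsg.Spor.M23, orderOf x = p ∧ orderOf y = q ∧ orderOf z = r ∧ x * y * z = 1 ∧
        Subgroup.closure {x, y} = ⊤) ↔
      ¬ ((p = 2 ∧ q = 3) ∨ (p = 2 ∧ q = 5 ∧ r = 5) ∨ (p = 2 ∧ q = 5 ∧ r = 7) ∨ (p = 3 ∧ q = 3 ∧ r ≤ 7)) := by
  obtain ⟨e⟩ := H8.isoM23
  have pr : ∀ s : ℕ, s.Prime → s ∣ 10200960 → s = 2 ∨ s = 3 ∨ s = 5 ∨ s = 7 ∨ s = 11 ∨ s = 23 := fun s hs h => by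
    have := Nat.mem_primeFactors.2 ⟨hs, h, by norm_num⟩
    rw [show Nat.primeFactors 10200960 = {2, 3, 5, 7, 11, 23} by decide +kernel] at this
    simpa using this
  refine ⟨fun h => ?_, fun h => H8.M23g.PQR.congr e.symm ?_⟩
  · obtain ⟨x, y, z, h1, h2, h3, h4, h5⟩ := H8.M23g.PQR.congr e h
    have R := fun i j k => H8.ree (i := i) (j := j) (k := k) h4 h5 _ H8.M23g.orb
    rw [Fintype.card_fin] at R
    rintro (⟨rfl, rfl⟩ | ⟨rfl, rfl, rfl⟩ | ⟨rfl, rfl, rfl⟩ | ⟨rfl, rfl, h⟩)
    · exact absurd (R _ _ _ (H8.M23g.c2 h1) (H8.M23g.c3 h2) (H8.M23g.c1 z)) (by norm_num)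
    · exact absurd (R _ _ _ (H8.M23g.c2 h1) (H8.M23g.c5 h2) (H8.M23g.c5 h3)) (by norm_num)
    · exact absurd (R _ _ _ (H8.M23g.c2 h1) (H8.M23g.c5 h2) (H8.M23g.c7 h3)) (by norm_num)
    rcases pr r hr hdvd.2.2 with rfl | rfl | rfl | rfl | rfl | rfl
    · omega
    · exact absurd (R _ _ _ (H8.M23g.c3 h1) (H8.M23g.c3 h2) (H8.M23g.c3 h3)) (by norm_num)
    · exact absurd (R _ _ _ (H8.M23g.c3 h1) (H8.M23g.c3 h2) (H8.M23g.c5 h3)) (by norm_num)
    · exact absurd (R _ _ _ (H8.M23g.c3 h1) (H8.M23g.c3 h2) (H8.M23g.c7 h3)) (by norm_num)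
    all_goals omega
  rcases pr p hp hdvd.1 with rfl | rfl | rfl | rfl | rfl | rfl <;> rcases pr q hq hdvd.2.1 with rfl | rfl | rfl | rfl | rfl | rfl <;>
    rcases pr r hr hdvd.2.2 with rfl | rfl | rfl | rfl | rfl | rfl
  exacts [by omega, by omega, by omega, by omega, by omega, by omega,
    by omega, by omega, by omega, by omega, by omega, by omega,
    by omega, by omega, by omega, by omega, H8.M23g.g2_5_11, H8.M23g.g2_5_23,
    by omega, by omega, by omega, H8.M23g.g2_7_7, H8.M23g.g2_7_11, H8.M23g.g2_7_23,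
    by omega, by omega, by omega, by omega, H8.M23g.g2_11_11, H8.M23g.g2_11_23,
    by omega, by omega, by omega, by omega, by omega, H8.M23g.g2_23_23,
    by omega, by omega, by omega, by omega, by omega, by omega,
    by omega, by omega, by omega, by omega, H8.M23g.g3_3_11, H8.M23g.g3_3_23,
    by omega, by omega, H8.M23g.g3_5_5, H8.M23g.g3_5_7, H8.M23g.g3_5_11, H8.M23g.g3_5_23,
    by omega, by omega, by omega, H8.M23g.g3_7_7, H8.M23g.g3_7_11, H8.M23g.g3_7_23,
    by omega, by omega, by omega, by omega, H8.M23g.g3_11_11, H8.M23g.g3_11_23,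
    by omega, by omega, by omega, by omega, by omega, H8.M23g.g3_23_23,
    by omega, by omega, by omega, by omega, by omega, by omega,
    by omega, by omega, by omega, by omega, by omega, by omega,
    by omega, by omega, H8.M23g.g5_5_5, H8.M23g.g5_5_7, H8.M23g.g5_5_11, H8.M23g.g5_5_23,
    by omega, by omega, by omega, H8.M23g.g5_7_7, H8.M23g.g5_7_11, H8.M23g.g5_7_23,
    by omega, by omega, by omega, by omega, H8.M23g.g5_11_11, H8.M23g.g5_11_23,
    by omega, by omega, by omega, by omega, by omega, H8.M23g.g5_23_23,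
    by omega, by omega, by omega, by omega, by omega, by omega,
    by omega, by omega, by omega, by omega, by omega, by omega,
    by omega, by omega, by omega, by omega, by omega, by omega,
    by omega, by omega, by omega, H8.M23g.g7_7_7, H8.M23g.g7_7_11, H8.M23g.g7_7_23,
    by omega, by omega, by omega, by omega, H8.M23g.g7_11_11, H8.M23g.g7_11_23,
    by omega, by omega, by omega, by omega, by omega, H8.M23g.g7_23_23,
    by omega, by omega, by omega, by omega, by omega, by omega,
    by omega, by omega, by omega, by omega, by omega, by omega,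
    by omega, by omega, by omega, by omega, by omega, by omega,
    by omega, by omega, by omega, by omega, by omega, by omega,
    by omega, by omega, by omega, by omega, H8.M23g.g11_11_11, H8.M23g.g11_11_23,
    by omega, by omega, by omega, by omega, by omega, H8.M23g.g11_23_23,
    by omega, by omega, by omega, by omega, by omega, by omega,
    by omega, by omega, by omega, by omega, by omega, by omega,
    by omega, by omega, by omega, by omega, by omega, by omega,
    by omega, by omega, by omega, by omega, by omega, by omega,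
    by omega, by omega, by omega, by omega, by omega, by omega,
    by omega, by omega, by omega, by omega, by omega, H8.M23g.g23_23_23]

end Cfsg.Agent.S5529
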