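import Cfsg.Statements.S5560
import Cfsg.Agent.H4.Inv2
import Cfsg.Agent.H1.Product

set_option autoImplicit false
open Cfsg

namespace Cfsg.Agent.S5560

open H4 H1 MonoidAlgebra
open scoped Pointwise


/-- A Z*-type result for an odd prime p. Let G be a finite group and d an involution of G such that the product of any two conjugates of d has order a power of p. Then the product of any two conjugates of d lies in the largest normal p-subgroup O_p(G); in other words the conjugacy class of d lies in the coset O_p(G)d, and d is central modulo O_p(G). -/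
theorem result {G : Type*} [Group G] [Finite G] {p : ℕ} (hp : p.Prime) (hp2 : p ≠ 2)
    (d : G) (hd : orderOf d = 2)
    (hprod : ∀ a ∈ conjugatesOf d, ∀ b ∈ conjugatesOf d, ∃ k : ℕ, orderOf (a * b) = p ^ k) :
    ∀ a ∈ conjugatesOf d, ∀ b ∈ conjugatesOf d, a * b ∈ Cfsg.pCore p G := by
  have := Fact.mk hp
  have h0 : ∀ g : G, g * d * g⁻¹ ∈ conjugatesOf d := fun g => isConj_iff.2 ⟨g, rfl⟩
  have h1 : ∀ g, IsPElt p (g * d * g⁻¹ * d) := fun g => hprod _ (h0 g) d (IsConj.refl d)
  have h : II d := II.of_odd hd fun g h2 => by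
    obtain ⟨k, hk⟩ := h1 g
    exact hp2 ((Nat.prime_dvd_prime_iff_eq Nat.prime_two hp).1 (Nat.prime_two.dvd_of_dvd_pow (hk ▸ h2))).symm
  obtain ⟨P, hP, h2⟩ := h.exists_sylow p
  have h3 : ∀ {P : Subgroup G}, d ∈ NS P → ∀ x ∈ P, x * d * x⁻¹ * d ∈ P := fun h2 x hx => by
    have := mul_mem hx ((Subgroup.mem_normalizer_iff.1 h2 _).1 (inv_mem hx))
    rwa [inv_of_two hd, ← mul_assoc, ← mul_assoc] at this
  have h4 : P.index.Coprime (C1 d).index := Nat.coprime_of_dvd fun q hq e1 e2 => by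
    have := Fact.mk hq
    obtain ⟨Q, hQ, h5⟩ := h.exists_sylow q
    by_cases e : q = p
    · exact hP.not_dvd (by rwa [Subgroup.relIndex_top_right, ← e])
    refine hQ.not_dvd_relIndex_of_le (M := C1 d) (fun x hx => ?_) (by rwa [Subgroup.relIndex_top_right])
    obtain ⟨k, hk⟩ := isPElt_of_mem hq hQ.isPGroup (h3 h5 x hx)
    have := (h1 x).eq_one hp fun h6 => e ((Nat.prime_dvd_prime_iff_eq hp hq).1 (hp.dvd_of_dvd_pow (hk ▸ h6))).symm
    rw [mul_eq_one_iff_eq_inv, inv_of_two hd, mul_inv_eq_iff_eq_mul] at this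
    exact mem_centralizer_singleton.2 this.symm
  have h5 : ∀ g, g * d * g⁻¹ * d ∈ P := fun g => by
    obtain ⟨x, hx, c, hc, rfl⟩ := fac_top_iff.1 (fac_of_coprime_index h4) g
    rw [← comm_eq_iff.2 (show x⁻¹ * (x * c) ∈ C1 d by simpa using hc)]
    exact h3 h2 x hx
  have h6 : (Subgroup.closure (Set.range fun g => g * d * g⁻¹ * d)).Normal := ⟨fun n hn x => by
    refine Subgroup.closure_induction (p := fun n _ => x * n * x⁻¹ ∈ _) ?_ (by simp) (fun a b _ _ ha hb => ?_)
      (fun a _ ha => ?_) hn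
    · rintro _ ⟨g, rfl⟩
      have := mul_mem (Subgroup.subset_closure (k := Set.range fun g => g * d * g⁻¹ * d) ⟨x * g, rfl⟩)
        (inv_mem (Subgroup.subset_closure ⟨x, rfl⟩))
      rw [mul_inv_rev, conj_inv, inv_of_two hd, mul_assoc, ← mul_assoc d, h.mul_self, one_mul] at this
      convert this using 1; group
    · rw [← conj_mul]; exact mul_mem ha hb
    · rw [← conj_inv]; exact inv_mem ha⟩
  have h7 := le_pCore (hP.isPGroup.to_le ((Subgroup.closure_le (k := Set.range fun g => g * d * g⁻¹ * d) P).2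
    (by rintro _ ⟨g, rfl⟩; exact h5 g)))
  intro a ha b hb
  obtain ⟨x, rfl⟩ := isConj_iff.1 ha
  obtain ⟨y, rfl⟩ := isConj_iff.1 hb
  have := (inferInstance : (Cfsg.pCore p G).Normal).conj_mem _ (h7 (Subgroup.subset_closure ⟨y⁻¹ * x, rfl⟩)) y
  convert this using 1; group

end Cfsg.Agent.S5560
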