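import Cfsg.Statements.S5562
import Cfsg.Agent.H2.Odd

set_option autoImplicit false
open Cfsg

namespace Cfsg.Agent.S5562

/-- Let G be a finite group, d an involution of G whose conjugates pairwise have products of odd order, and x any involution of G. Then the conjugacy class of d is the disjoint union, over the conjugates a of d commuting with x, of the sets of conjugates of d commuting with ax: every conjugate of d commutes with ax for exactly one conjugate a of d that commutes with x. -/
theorem result {G : Type*} [Group G] [Finite G] (d : G) (hd : orderOf d = 2)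
    (hodd : ∀ a ∈ conjugatesOf d, ∀ b ∈ conjugatesOf d, Odd (orderOf (a * b)))
    (x : G) (hx : orderOf x = 2) :
    ∀ e ∈ conjugatesOf d,
      ∃! a : G, a ∈ conjugatesOf d ∧ Commute a x ∧ Commute e (a * x) := by
  have sq : ∀ a ∈ conjugatesOf d, a * a = 1 := by
    intro a ha
    obtain ⟨g, rfl⟩ := isConj_iff.1 ha
    have : d * d = 1 := by rw [← pow_two, ← hd, pow_orderOf_eq_one]
    simp [mul_assoc, ← mul_assoc d d, this]
  have cj : ∀ a ∈ conjugatesOf d, ∀ g, g * a * g⁻¹ ∈ conjugatesOf d :=
    fun a ha g => IsConj.trans ha (isConj_iff.2 ⟨g, rfl⟩)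
  have hx2 : x * x = 1 := by rw [← pow_two, ← hx, pow_orderOf_eq_one]
  have hxi : x⁻¹ = x := inv_eq_of_mul_eq_one_left hx2
  intro e he
  have uniq : ∀ a ∈ conjugatesOf d, ∀ b ∈ conjugatesOf d, a * e * a = b * e * b → a = b := by
    intro a ha b hb h
    refine mul_right_cancel (H2O.eq_of_sq (hodd a ha e he) (hodd b hb e he) ?_)
    simp only [← mul_assoc, h]
  have iff : ∀ a ∈ conjugatesOf d, Commute e (a * x) ↔ a * e * a = x * e * x := by
    intro a ha
    constructor
    · intro h
      calc a * e * a = a * (e * (a * x)) * x := by simp [mul_assoc, hx2]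
        _ = _ := by rw [h.eq]; simp [← mul_assoc, sq a ha]
    · intro h
      show e * (a * x) = a * x * e
      calc e * (a * x) = a * (a * e * a) * x := by simp [← mul_assoc, sq a ha]
        _ = _ := by rw [h]; simp [mul_assoc, hx2]
  obtain ⟨a, ha, h1⟩ : ∃ a ∈ conjugatesOf d, a * e * a = x * e * x := by
    have he' := cj e he x
    rw [hxi] at he'
    obtain ⟨g, h1⟩ := H2O.exists_swap (sq e he) (sq _ he') (hodd e he _ he')
    exact ⟨_, cj e he g, h1⟩
  refine ⟨a, ⟨ha, ?_, (iff a ha).2 h1⟩, fun b hb => uniq b hb.1 a ha (((iff b hb.1).1 hb.2.2).trans h1.symm)⟩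
  refine (H7.conj_eq_self.1 (uniq _ (cj a ha x) a ha ?_)).symm
  rw [hxi]
  calc x * a * x * e * (x * a * x) = x * (a * (x * e * x) * a) * x := by group
    _ = _ := by rw [← h1]; simp [← mul_assoc, sq a ha]; simp [mul_assoc, sq a ha]; simp [← mul_assoc, h1]

end Cfsg.Agent.S5562
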