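import Cfsg.Statements.S5596
import Cfsg.Agent.H2.XS2

set_option autoImplicit false
open Cfsg

namespace Cfsg.Agent.S5596

open H2 H9 Subgroup in

/-- Setting: `z` is an involution of the finite group `G`; for each element `x`, `Q x` is the largest normal 2-subgroup of the centralizer of `x`; `Q z` is extraspecial and contains its own centralizer in `G`. A subgroup `U` is singular when it is elementary abelian, every non-identity element of `U` is conjugate to `z`, and any two non-identity elements `u`, `v` of `U` are orthogonal (`v ∈ Q u`). Write `QU` for the intersection of the `Q u` and `LU` for the join of the `Q u` over the non-identity `u` in `U`. If `U` is singular of order `2 ^ n` with `n ≥ 2`, then `U ≤ QU ≤ LU`, `LU` normalizes `U`, and `LU` induces on `U` its full automorphism group (the general linear group of dimension `n` over the field with two elements): every automorphism of `U` is conjugation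 by some element of `LU`. -/
theorem result {G : Type*} [Group G] [Finite G]
    (Q : G → Subgroup G)
    (hQ : ∀ x : G, Q x = (Cfsg.pCore 2 ↥(Subgroup.centralizer ({x} : Set G))).map (Subgroup.centralizer ({x} : Set G)).subtype)
    (z : G) (hz : orderOf z = 2) (hE : Cfsg.IsExtraspecial 2 ↥(Q z))
    (hC : Subgroup.centralizer ((Q z : Subgroup G) : Set G) ≤ Q z)
    (U : Subgroup G) (hU2 : ∀ u ∈ U, u * u = 1)
    (hS : ∀ u ∈ U, u ≠ 1 → ∃ g : G, g * z * g⁻¹ = u)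
    (hO : ∀ u ∈ U, ∀ v ∈ U, u ≠ 1 → v ≠ 1 → v ∈ Q u)
    (QU LU : Subgroup G) (hQU : QU = ⨅ u ∈ ((U : Set G) \ {1}), Q u) (hLU : LU = ⨆ u ∈ ((U : Set G) \ {1}), Q u)
    (n : ℕ) (hn : 2 ≤ n) (hcard : Nat.card ↥U = 2 ^ n) :
    U ≤ QU ∧ QU ≤ LU ∧ LU ≤ Subgroup.normalizer (U : Set G) ∧
      ∀ φ : ↥U ≃* ↥U, ∃ g ∈ LU, ∀ u : ↥U, g * (u : G) * g⁻¹ = ((φ u : ↥U) : G) := by
  have h := lx_of_Op hz ((hQ z).trans (Op_eq _ _)) hE hC
  have hl : ∀ u ∈ U, u ≠ 1 → LX (Q u) u := fun u hu h1 => by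
    obtain ⟨g, rfl⟩ := hS u hu h1
    have := h.cj g
    rwa [hQ z, Op_eq, cj_Op, cj_centralizer_singleton, ← Op_eq, ← hQ] at this
  have hUQ : ∀ u ∈ U, u ≠ 1 → U ≤ Q u := fun u hu h1 v hv => by
    by_cases e : v = 1
    exacts [e ▸ one_mem _, hO u hu v hv h1 e]
  have hL : ∀ u ∈ U, u ≠ 1 → Q u ≤ LU := fun u hu h1 => hLU ▸ le_iSup₂_of_le u ⟨hu, h1⟩ le_rfl
  have hN : LU ≤ normalizer (U : Set G) := hLU ▸ iSup₂_le fun u hu q hq =>
    H1.mem_normalizer_iff_conj_mem.2 fun v hv => by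
      rcases (hl u hu.1 hu.2).com q hq v (hUQ u hu.1 hu.2 hv) with e | e <;> rw [e]
      exacts [hv, mul_mem hv hu.1]
  obtain ⟨⟨u, hu⟩, h1⟩ := ne_bot_iff_exists_ne_one.1 (show U ≠ ⊥ from fun e => by
    rw [e, card_bot] at hcard; exact absurd hcard (Nat.one_lt_two_pow (by omega)).ne)
  have h1' : u ≠ 1 := fun e => h1 (Subtype.ext e)
  refine ⟨hQU ▸ le_iInf₂ fun u hu => hUQ u hu.1 hu.2, (hQU ▸ iInf₂_le u ⟨hu, h1'⟩ : QU ≤ Q u).trans (hL u hu h1'),
    hN, fun φ => ?_⟩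
  obtain ⟨W, ⟨g, hg, hW⟩, hmax⟩ := (wellFounded_gt (α := Subgroup U)).has_min
    {W | ∃ g ∈ LU, ∀ u ∈ W, g * (u : G) * g⁻¹ = φ u} ⟨⊥, 1, one_mem _, fun u hu => by simp [mem_bot.1 hu]⟩
  refine ⟨g, hg, fun x => hW x ?_⟩
  by_contra hx
  suffices ∃ g' ∈ LU, (∀ u ∈ W, g' * (u : G) * g'⁻¹ = φ u) ∧ g' * x * g'⁻¹ = φ x by
    obtain ⟨g', h2, h3, h4⟩ := this
    let W' : Subgroup U := ((MulAut.conj g').toMonoidHom.comp U.subtype).eqLocus (U.subtype.comp φ.toMonoidHom)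
    exact hmax W' ⟨g', h2, fun u hu => hu⟩ (lt_of_le_of_ne h3 fun e => hx (e ▸ (h4 : x ∈ W')))
  by_cases e : g * x * g⁻¹ = φ x
  · exact ⟨g, hg, hW, e⟩
  have h2 := conj_mem_of_le_normalizer hN hg x.2
  have h3 : g * x * g⁻¹ * φ x ≠ 1 := fun a => e (mul_right_cancel (a.trans (hU2 _ (φ x).2).symm))
  have h4 := U.mul_mem h2 (φ x).2
  obtain ⟨q, hq, h5, h6⟩ := (hl _ h4 h3).exists_step (W := (W.map φ.toMonoidHom).map U.subtype) (hUQ _ h4 h3) hU2
    (map_subtype_le _) h2 (φ x).2 (by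
      rintro ⟨_, ⟨w, hw, rfl⟩, a⟩
      have : (w : G) = x := by simpa using (hW w hw).trans a
      exact hx (Subtype.ext this ▸ hw)) (by
      rintro ⟨_, ⟨w, hw, rfl⟩, a⟩
      exact hx (φ.injective (Subtype.ext a) ▸ hw))
  refine ⟨q * g, mul_mem (hL _ h4 h3 hq) hg, fun w hw => ?_, by rw [← h6]; group⟩
  rw [← conj_eq_iff_comm.2 (h5 (φ w) ⟨_, ⟨w, hw, rfl⟩, rfl⟩), ← hW w hw]; group

end Cfsg.Agent.S5596
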