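import Cfsg.Statements.S5597
import Cfsg.Agent.H2.XS2

set_option autoImplicit false
open Cfsg

namespace Cfsg.Agent.S5597

open H2 H9 Subgroup in

/-- Setting: `z` is an involution of the finite group `G`; for each element `x`, `Q x` is the largest normal 2-subgroup of the centralizer of `x`; `Q z` is extraspecial and contains its own centralizer in `G`. A subgroup `U` is singular when it is elementary abelian, every non-identity element of `U` is conjugate to `z`, and any two non-identity elements `u`, `v` of `U` are orthogonal (`v ∈ Q u`). Write `QU` for the intersection of the `Q u` and `LU` for the join of the `Q u` over the non-identity `u` in `U`. If `U` is a non-trivial singular subgroup, then `LU` acts trivially on `QU / U` (every commutator of an element of `LU` with an element of `QU` lies in `U`), and for every `x` in `QU` outside `U` the centralizer of `U` in `LU` permutes the coset `x U` transitively: each `x u` with `u ∈ U` is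 a conjugate of `x` by an element of `LU` centralizing `U`. -/
theorem result {G : Type*} [Group G] [Finite G]
    (Q : G → Subgroup G)
    (hQ : ∀ x : G, Q x = (Cfsg.pCore 2 ↥(Subgroup.centralizer ({x} : Set G))).map (Subgroup.centralizer ({x} : Set G)).subtype)
    (z : G) (hz : orderOf z = 2) (hE : Cfsg.IsExtraspecial 2 ↥(Q z))
    (hC : Subgroup.centralizer ((Q z : Subgroup G) : Set G) ≤ Q z)
    (U : Subgroup G) (hU2 : ∀ u ∈ U, u * u = 1)
    (hS : ∀ u ∈ U, u ≠ 1 → ∃ g : G, g * z * g⁻¹ = u)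
    (hO : ∀ u ∈ U, ∀ v ∈ U, u ≠ 1 → v ≠ 1 → v ∈ Q u)
    (QU LU : Subgroup G) (hQU : QU = ⨅ u ∈ ((U : Set G) \ {1}), Q u) (hLU : LU = ⨆ u ∈ ((U : Set G) \ {1}), Q u)
    (hU : U ≠ ⊥) :
    (∀ g ∈ LU, ∀ x ∈ QU, g * x * g⁻¹ * x⁻¹ ∈ U) ∧
      ∀ x ∈ QU, x ∉ U → ∀ u ∈ U, ∃ g ∈ LU ⊓ Subgroup.centralizer (U : Set G), g * x * g⁻¹ = x * u := by
  have h := lx_of_Op hz ((hQ z).trans (Op_eq _ _)) hE hC
  have hl : ∀ u ∈ U, u ≠ 1 → LX (Q u) u := fun u hu h1 => by
    obtain ⟨g, rfl⟩ := hS u hu h1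
    have := h.cj g
    rwa [hQ z, Op_eq, cj_Op, cj_centralizer_singleton, ← Op_eq, ← hQ] at this
  have hUQ : ∀ u ∈ U, u ≠ 1 → U ≤ Q u := fun u hu h1 v hv => by
    by_cases e : v = 1
    exacts [e ▸ one_mem _, hO u hu v hv h1 e]
  have hL : ∀ u ∈ U, u ≠ 1 → Q u ≤ LU := fun u hu h1 => hLU ▸ le_iSup₂_of_le u ⟨hu, h1⟩ le_rfl
  have hq : ∀ u ∈ U, u ≠ 1 → QU ≤ Q u := fun u hu h1 => hQU ▸ iInf₂_le u ⟨hu, h1⟩
  have hN : ∀ u ∈ U, u ≠ 1 → Q u ≤ normalizer (U : Set G) := fun u hu h1 q hq =>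
    H1.mem_normalizer_iff_conj_mem.2 fun v hv => by
      rcases (hl u hu h1).com q hq v (hUQ u hu h1 hv) with e | e <;> rw [e]
      exacts [hv, mul_mem hv hu]
  refine ⟨fun g hg x hx => ?_, fun x hx hx' u hu => ?_⟩
  · have : ⁅LU, QU⁆ ≤ U := by
      rw [hLU]
      refine commutator_iSup_le (fun u => iSup_le fun hu => hN u hu.1 hu.2) fun u =>
        commutator_iSup_le (fun hu => hN u hu.1 hu.2) fun hu => ?_
      exact ((commutator_mono le_rfl (hq u hu.1 hu.2)).trans (hl u hu.1 hu.2).commutator.le).trans (zpowers_le.2 hu.1)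
    exact this (commutator_mem_commutator hg hx)
  by_cases h1 : u = 1
  · exact ⟨1, one_mem _, by simp [h1]⟩
  have hx1 := hq u hu h1 hx
  obtain ⟨N, a1, -, a3, a4⟩ := exists_hyp (hUQ u hu h1) (fun y hy => zpowers_le.2 hu ((hl u hu h1).sq_mem hy)) hx1 hx'
  obtain ⟨q, b1, b2⟩ := (hl u hu h1).dual (a1 hu) a4
  exact ⟨q, ⟨hL u hu h1 b1, fun v hv => ((b2 v (hUQ u hu h1 hv)).2 (a1 hv)).symm⟩,
    (hl u hu h1).conj b1 hx1 (mt (b2 x hx1).1 a3)⟩

end Cfsg.Agent.S5597
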