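import Cfsg.Statements.S5598
import Cfsg.Agent.H2.XS2

set_option autoImplicit false
open Cfsg

namespace Cfsg.Agent.S5598

open H2 H9 Subgroup in

/-- Setting: `z` is an involution of the finite group `G`; for each element `x`, `Q x` is the largest normal 2-subgroup of the centralizer of `x`; `Q z` is extraspecial and contains its own centralizer in `G`. A subgroup `U` is singular when it is elementary abelian, every non-identity element of `U` is conjugate to `z`, and any two non-identity elements `u`, `v` of `U` are orthogonal (`v ∈ Q u`). Write `QU` for the intersection of the `Q u` and `LU` for the join of the `Q u` over the non-identity `u` in `U`. If the singular subgroup `U` is generated by a set `T` of non-identity elements, then `QU` is already the intersection of the `Q t` over `t ∈ T`. -/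
theorem result {G : Type*} [Group G] [Finite G]
    (Q : G → Subgroup G)
    (hQ : ∀ x : G, Q x = (Cfsg.pCore 2 ↥(Subgroup.centralizer ({x} : Set G))).map (Subgroup.centralizer ({x} : Set G)).subtype)
    (z : G) (hz : orderOf z = 2) (hE : Cfsg.IsExtraspecial 2 ↥(Q z))
    (hC : Subgroup.centralizer ((Q z : Subgroup G) : Set G) ≤ Q z)
    (U : Subgroup G) (hU2 : ∀ u ∈ U, u * u = 1)
    (hS : ∀ u ∈ U, u ≠ 1 → ∃ g : G, g * z * g⁻¹ = u)
    (hO : ∀ u ∈ U, ∀ v ∈ U, u ≠ 1 → v ≠ 1 → v ∈ Q u)
    (QU LU : Subgroup G) (hQU : QU = ⨅ u ∈ ((U : Set G) \ {1}), Q u) (hLU : LU = ⨆ u ∈ ((U : Set G) \ {1}), Q u)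
    (T : Set G) (hT : Subgroup.closure T = U) (hT1 : (1 : G) ∉ T) :
    QU = ⨅ t ∈ T, Q t := by
  have h := lx_of_Op hz ((hQ z).trans (Op_eq _ _)) hE hC
  have hc : ∀ g u, cj g (Q u) = Q (g * u * g⁻¹) := fun g u => by
    rw [hQ u, Op_eq, cj_Op, cj_centralizer_singleton, ← Op_eq, ← hQ]
  have hl : ∀ u ∈ U, u ≠ 1 → LX (Q u) u := fun u hu h1 => by
    obtain ⟨g, rfl⟩ := hS u hu h1
    exact hc g z ▸ h.cj g
  rw [hQU]
  refine le_antisymm (le_iInf₂ fun t ht => iInf₂_le t ⟨hT ▸ subset_closure ht, fun e => hT1 (e ▸ ht)⟩) fun x hx => ?_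
  suffices ∀ u ∈ closure T, u = 1 ∨ x ∈ Q u from mem_iInf.2 fun u => mem_iInf.2 fun hu =>
    (this u (hT ▸ hu.1)).resolve_left hu.2
  intro u hu
  induction hu using closure_induction with
  | mem t ht => exact Or.inr (mem_iInf.1 (mem_iInf.1 hx t) ht)
  | one => exact Or.inl rfl
  | inv u hu ih => rwa [inv_eq_of_mul_eq_one_right (hU2 u (hT ▸ hu))]
  | mul v u hv hu iv iu =>
    rw [hT] at hu hv
    by_cases a : u = 1
    · rwa [a, mul_one]
    by_cases b : v = 1
    · rwa [b, one_mul]
    by_cases c : v = u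
    · exact Or.inl (c ▸ hU2 v hv)
    obtain ⟨y, hy, -, e⟩ := (hl u hu a).exists_conj (hO u hu v hv a b) b c
    refine Or.inr (e ▸ hc y v ▸ mem_cj.2 ?_)
    have := (hl u hu a).com _ (inv_mem hy) x (iu.resolve_left a)
    rw [inv_inv] at this
    rcases this with d | d <;> rw [d]
    exacts [iv.resolve_left b, mul_mem (iv.resolve_left b) (hO v hv u hu b a)]

end Cfsg.Agent.S5598
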