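import Cfsg.Statements.S5729
import Mathlib

set_option autoImplicit false
open Cfsg

namespace Cfsg.Agent.S5729

open MulAction

/-- Let a finite group G act faithfully and transitively on a set with n ≥ 3 points. Then either G is a Frobenius permutation group (Frobenius as a permutation group: transitive, some non-identity element fixes a point, and no non-identity element fixes two points) of order n(n − 1) and exactly |G|/n of its elements are derangements (fix no point), or the number of derangements is greater than |G|/n. -/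
theorem result {G Ω : Type*} [Group G] [Finite G] [MulAction G Ω] [FaithfulSMul G Ω] [Fintype Ω] (htr : MulAction.IsPretransitive G Ω) (hn : 3 ≤ Fintype.card Ω) :
    ((MulAction.IsPretransitive G Ω ∧ (∃ g : G, g ≠ 1 ∧ ∃ ω : Ω, g • ω = ω) ∧ ∀ g : G, g ≠ 1 → Nat.card (MulAction.fixedBy Ω g) ≤ 1) ∧ Nat.card G = Fintype.card Ω * (Fintype.card Ω - 1) ∧ Fintype.card Ω * Nat.card {g : G // ∀ ω : Ω, g • ω ≠ ω} = Nat.card G) ∨
    Nat.card G < Fintype.card Ω * Nat.card {g : G // ∀ ω : Ω, g • ω ≠ ω} := by
  classical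
  have := Fintype.ofFinite G
  let f : G → ℕ := fun g => Nat.card (fixedBy Ω g)
  have : Nontrivial Ω := Fintype.one_lt_card_iff_nontrivial.1 (by omega)
  have S1 : ∑ g, f g = Fintype.card G := by
    have := sum_card_fixedBy_eq_card_orbits_mul_card_group G Ω
    have u : Subsingleton (Quotient (orbitRel G Ω)) := (pretransitive_iff_subsingleton_quotient G Ω).1 htr
    have : Nonempty (Quotient (orbitRel G Ω)) := ⟨Quotient.mk _ (Classical.arbitrary Ω)⟩
    rw [Fintype.card_eq_one_iff_nonempty_unique.2 ⟨uniqueOfSubsingleton this.some⟩, one_mul] at *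
    simpa only [f, Nat.card_eq_fintype_card]
  have S2 : 2 * Fintype.card G ≤ ∑ g, f g * f g := by
    have h := sum_card_fixedBy_eq_card_orbits_mul_card_group G (Ω × Ω)
    obtain ⟨x, y, xy⟩ := exists_pair_ne Ω
    have : Nontrivial (Quotient (orbitRel G (Ω × Ω))) := ⟨Quotient.mk _ (x, y), Quotient.mk _ (x, x), fun e => by
      obtain ⟨g, hg⟩ := Quotient.exact e
      simp only [Prod.smul_mk, Prod.mk.injEq] at hg
      exact xy (hg.1.symm.trans hg.2)⟩
    refine (Nat.mul_le_mul_right _ Fintype.one_lt_card).trans (h.symm.trans (Finset.sum_congr rfl fun g _ => ?_)).le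
    rw [← Nat.card_eq_fintype_card, ← Nat.card_prod]
    exact Nat.card_congr ((Equiv.setCongr (by ext ⟨a, b⟩; simp)).trans (Equiv.Set.prod _ _))
  have fn : ∀ g, f g ≤ Fintype.card Ω := fun g =>
    Nat.card_eq_fintype_card (α := Ω) ▸ Nat.card_le_card_of_injective _ Subtype.val_injective
  set n := Fintype.card Ω with hn'
  have f0 : ∀ g, f g = 0 ↔ ∀ ω : Ω, g • ω ≠ ω := fun g => by
    simp [f, Set.eq_empty_iff_forall_notMem]
  have fn' : ∀ g, f g = n → g = 1 := fun g h => by
    have := (Set.eq_univ_iff_ncard (fixedBy Ω g)).2 (by rw [Nat.card_eq_fintype_card]; exact h)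
    exact eq_of_smul_eq_smul (α := Ω) fun x => by rw [one_smul]; exact (this ▸ Set.mem_univ x : x ∈ fixedBy Ω g)
  have f1 : f 1 = n := by simp [f, hn']
  have hD : Nat.card {g : G // ∀ ω : Ω, g • ω ≠ ω} = ∑ g, if f g = 0 then 1 else 0 := by
    rw [Nat.card_eq_fintype_card, Fintype.card_subtype, Finset.card_filter]; simp only [f0]
  set D := Nat.card {g : G // ∀ ω : Ω, g • ω ≠ ω}
  let e : G → ℤ := fun g => (f g - 1) * (n - f g) + n * (if f g = 0 then 1 else 0)
  have e0 : ∀ g, 0 ≤ e g := fun g => by
    have := fn g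
    simp only [e]; split_ifs with c
    · simp [c]
    · have : (1 : ℤ) ≤ f g := by omega
      have : (f g : ℤ) ≤ n := by omega
      nlinarith
  have E : ∑ g, e g = (n + 1) * Fintype.card G - ∑ g, (f g * f g : ℕ) - n * Fintype.card G + n * D := by
    rw [hD]; nth_rw 1 [← S1]
    simp only [e, Nat.cast_sum, Finset.mul_sum, ← Finset.sum_sub_distrib, Fintype.card, Finset.card_eq_sum_ones,
      ← Finset.sum_add_distrib]
    exact Finset.sum_congr rfl fun g _ => by push_cast; ring
  rw [Nat.card_eq_fintype_card]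
  refine or_iff_not_imp_right.2 fun c => ?_
  have E0 := Finset.sum_nonneg fun g (_ : g ∈ Finset.univ) => e0 g
  have c1 : n * D = Fintype.card G := by zify at *; linarith
  have c2 : ∑ g, e g = 0 := by zify at *; linarith
  have c3 : ∀ g, g ≠ 1 → f g ≤ 1 := fun g h => by
    have := (Finset.sum_eq_zero_iff_of_nonneg fun g _ => e0 g).1 c2 g (Finset.mem_univ g)
    by_contra d
    simp only [e, if_neg (show f g ≠ 0 by omega), mul_zero, add_zero, mul_eq_zero] at this
    exact h (fn' g (by omega))
  have c4 : ∑ g, (f g + if f g = 0 then 1 else 0) = ∑ g : G, (1 + if g = 1 then n - 1 else 0) :=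
    Finset.sum_congr rfl fun g _ => by
      by_cases d : g = 1
      · rw [d, f1, if_neg (by omega), if_pos rfl]; omega
      · have := c3 g d; rw [if_neg d]; split_ifs <;> omega
  rw [Finset.sum_add_distrib, Finset.sum_add_distrib, S1, ← hD] at c4
  simp only [Finset.sum_const, Finset.card_univ, smul_eq_mul, mul_one, Finset.sum_ite_eq', Finset.mem_univ, if_true,
    add_right_inj] at c4
  refine ⟨⟨htr, ?_, c3⟩, by rw [← c1, c4], c1⟩
  by_contra! d
  have : ∑ g, f g = f 1 := Finset.sum_eq_single 1 (fun g _ h => (f0 g).2 (d g h)) (by simp)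
  rw [S1, f1, ← c1, c4] at this
  have := Nat.eq_of_mul_eq_mul_left (show 0 < n by omega) (this.trans (mul_one n).symm)
  omega


end Cfsg.Agent.S5729
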