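import Cfsg.Statements.S5738
import Cfsg.Agent.H5.Sing

set_option autoImplicit false
open Cfsg

namespace Cfsg.Agent.S5738

open H5 Module

/-- Let F ⊆ K be finite fields with |F| = q and [K : F] = n ≥ 2, so |K| = q^n. Regard K as an n-dimensional F-vector space; the multiplications by non-zero elements of K form a cyclic subgroup of GL_F(K) of order q^n − 1 acting regularly on the non-zero vectors (a Singer group). Its normaliser in GL_F(K) has order n·(q^n − 1). -/
theorem result {F K : Type*} [Field F] [Fintype F] [Field K] [Fintype K] [Algebra F K] (n : ℕ) (hn : 2 ≤ n) (hdim : Module.finrank F K = n) :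
    Nat.card (Subgroup.normalizer (((Units.map ((Algebra.lmul F K : K →ₐ[F] Module.End F K) : K →* Module.End F K)).range : Subgroup (Module.End F K)ˣ) : Set (Module.End F K)ˣ)) = n * (Fintype.card K - 1) := by
  let f : (K ≃ₐ[F] K) × Kˣ → (End F K)ˣ := fun p => Units.map (Algebra.lmul F K : K →* End F K) p.2 *
    (LinearMap.GeneralLinearGroup.generalLinearEquiv F K).symm p.1.toLinearEquiv
  have hf : ∀ p x, (f p).1 x = p.2 * p.1 x := fun p x => rfl
  have inj : Function.Injective f := fun p p' h => by
    have e : ∀ x, p.2 * p.1 x = p'.2 * p'.1 x := fun x => by rw [← hf, h, hf]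
    have e1 : p.2 = p'.2 := Units.ext (by simpa using e 1)
    exact Prod.ext (AlgEquiv.ext fun x => mul_left_cancel₀ p.2.ne_zero ((e x).trans (by rw [e1]))) e1
  rw [← hdim, ← IsGalois.card_aut_eq_finrank, ← Nat.card_eq_fintype_card, ← Nat.card_units, ← Nat.card_prod,
    ← Nat.card_range_of_injective inj]
  refine Nat.card_congr (Equiv.setCongr (Set.ext fun g => ⟨fun h => ?_, ?_⟩))
  · have b0 : g.1 1 ≠ 0 := fun c => one_ne_zero ((LinearMap.GeneralLinearGroup.toLinearEquiv g).map_eq_zero_iff.1 c)
    have k : ∀ a x, g.1 (a * x) * g.1 1 = g.1 a * g.1 x := fun a x => by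
      by_cases c : a = 0
      · simp [c]
      obtain ⟨a', e⟩ := mem_sgp.1 ((Subgroup.mem_normalizer_iff.1 h _).1 ⟨Units.mk0 a c, rfl⟩)
      have e' : ∀ y, a' * g.1 y = g.1 (a * y) := fun y => by
        have := congrArg (fun t : End F K => (t * g.1) y) e
        simpa using this
      rw [← e', ← mul_one a, ← e']; ring
    let σ : K →ₐ[F] K := AlgHom.ofLinearMap ((g.1 1)⁻¹ • g.1) (by simp [b0]) fun x y => by
      simp only [LinearMap.smul_apply, smul_eq_mul]; field_simp; rw [mul_comm]; exact k x y
    refine ⟨(AlgEquiv.ofBijective σ (Finite.injective_iff_bijective.1 σ.injective), Units.mk0 _ b0), Units.ext (LinearMap.ext fun x => ?_)⟩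
    rw [hf]; exact mul_inv_cancel_left₀ b0 _
  · rintro ⟨p, rfl⟩
    have : Finite (End F K) := Finite.of_injective _ DFunLike.coe_injective
    refine Subgroup.mem_normalizer_fintype ?_
    rintro _ ⟨a, rfl⟩
    refine mem_sgp.2 ⟨p.1 a, ?_⟩
    rw [Units.val_mul, Units.eq_mul_inv_iff_mul_eq]
    ext x
    change p.1 a * (p.2 * p.1 x) = p.2 * p.1 (a * x)
    rw [map_mul]; ring


end Cfsg.Agent.S5738
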