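import Cfsg.Statements.S5739
import Cfsg.Agent.H5.Sing

set_option autoImplicit false
open Cfsg

namespace Cfsg.Agent.S5739

open H5 Module

/-- Let F ⊆ K be finite fields with |F| = q and [K : F] = n ≥ 2, and let M ≤ GL_F(K) be the Singer group of multiplications by non-zero elements of K. If g ∈ GL_F(K) does not normalise M, then the order of M ∩ gMg⁻¹ divides q^r − 1 for some proper divisor r of n. In particular, when n is prime, that order divides q − 1. -/
theorem result {F K : Type*} [Field F] [Fintype F] [Field K] [Fintype K] [Algebra F K] (n : ℕ) (hn : 2 ≤ n) (hdim : Module.finrank F K = n)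
    (g : (Module.End F K)ˣ) (hg : ((Units.map ((Algebra.lmul F K : K →ₐ[F] Module.End F K) : K →* Module.End F K)).range).map (MulAut.conj g).toMonoidHom ≠ (Units.map ((Algebra.lmul F K : K →ₐ[F] Module.End F K) : K →* Module.End F K)).range) :
    ∃ r : ℕ, 1 ≤ r ∧ r ∣ n ∧ r < n ∧ Nat.card ↥(((Units.map ((Algebra.lmul F K : K →ₐ[F] Module.End F K) : K →* Module.End F K)).range).map (MulAut.conj g).toMonoidHom ⊓ (Units.map ((Algebra.lmul F K : K →ₐ[F] Module.End F K) : K →* Module.End F K)).range) ∣ Fintype.card F ^ r - 1 := by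
  set M := (Units.map ((Algebra.lmul F K : K →ₐ[F] Module.End F K) : K →* Module.End F K)).range
  have : Finite (End F K) := Finite.of_injective _ DFunLike.coe_injective
  have : IsCyclic M := isCyclic_of_surjective _ (sgpEquiv (Algebra.lmul F K)).surjective
  obtain ⟨x, hx⟩ := (Subgroup.isCyclic_iff_exists_zpowers_eq_top _).1
    (Subgroup.isCyclic_of_le (inf_le_right : M.map (MulAut.conj g).toMonoidHom ⊓ M ≤ M))
  obtain ⟨⟨y, hy, e⟩, ⟨a, rfl⟩⟩ : x ∈ M.map (MulAut.conj g).toMonoidHom ⊓ M := hx ▸ Subgroup.mem_zpowers x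
  have i : IsIntegral F a.1 := .of_finite F _
  have d : (minpoly F a.1).natDegree ∣ n := hdim ▸ minpoly.degree_dvd i
  refine ⟨_, minpoly.natDegree_pos i, d, (Nat.le_of_dvd (by omega) d).lt_of_ne fun c => hg ?_, ?_⟩
  · have C := cent_eq_sgp AlgEquiv.refl (Algebra.lmul F K) rfl (x := Units.map (Algebra.lmul F K : K →* End F K) a) ⟨a, rfl⟩ fun b => by
      obtain ⟨p, rfl⟩ := gen_of_deg (c.trans hdim.symm) b
      exact ⟨p, (Polynomial.aeval_algHom_apply _ _ _).symm⟩
    refine Subgroup.eq_of_le_of_card_ge ?_ (Subgroup.card_map_of_injective (MulAut.conj g).injective).ge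
    rintro _ ⟨z, hz, rfl⟩
    refine C.le (Subgroup.mem_centralizer_singleton_iff.2 ?_)
    obtain ⟨b, rfl⟩ := hy
    obtain ⟨c, rfl⟩ := hz
    rw [← e, ← map_mul, ← map_mul, ← map_mul, ← map_mul, mul_comm]
  · rw [← hx, Nat.card_zpowers, orderOf_dvd_iff_pow_eq_one, ← map_pow, ← Nat.card_eq_fintype_card]
    rw [show a ^ _ = 1 from Units.ext (pow_deg a.ne_zero), map_one]


end Cfsg.Agent.S5739
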