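import Cfsg.Statements.S5747
import Mathlib

set_option autoImplicit false
open Cfsg

namespace Cfsg.Agent.S5747

open MulAction

variable {G Ω : Type*} [Group G] [MulAction G Ω]

def P (H : Subgroup G) {t : ℕ} (f : Fin t → Ω) : Prop :=
  (∀ g ∈ H, (∀ i, g • f i = f i) → g = 1) ∧ ∀ i, ∃ g ∈ H, (∀ j < i, g • f j = f j) ∧ g • f i ≠ f i

theorem base_cons {H : Subgroup G} {t : ℕ} {f : Fin t → Ω} {a : Ω} :
    (∀ g ∈ H, (∀ i, g • (Fin.cons a f : Fin (t + 1) → Ω) i = (Fin.cons a f : Fin (t + 1) → Ω) i) → g = 1) ↔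
      ∀ g ∈ H ⊓ stabilizer G a, (∀ i, g • f i = f i) → g = 1 := by
  simp [Fin.forall_fin_succ]

theorem P_cons {H : Subgroup G} {t : ℕ} {f : Fin t → Ω} {a : Ω} :
    P H (Fin.cons a f : Fin (t + 1) → Ω) ↔ (∃ g ∈ H, g • a ≠ a) ∧ P (H ⊓ stabilizer G a) f := by
  rw [P, base_cons, P, Fin.forall_fin_succ]
  simp [Fin.forall_fin_succ, and_assoc, and_left_comm]

theorem extract {t : ℕ} (H : Subgroup G) (f : Fin t → Ω) (h : ∀ g ∈ H, (∀ i, g • f i = f i) → g = 1) :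
    ∃ s ≤ t, ∃ f' : Fin s → Ω, P H f' ∧ (s = t → P H f) := by
  induction t generalizing H with
  | zero => exact ⟨0, le_rfl, f, ⟨h, fun i => i.elim0⟩, fun _ => ⟨h, fun i => i.elim0⟩⟩
  | succ t ih =>
    obtain ⟨⟨a, f⟩, rfl⟩ := (Fin.consEquiv fun _ => Ω).surjective f
    obtain ⟨s, h1, f', h2, h3⟩ := ih _ f (base_cons.1 h)
    by_cases c : ∃ g ∈ H, g • a ≠ a
    · exact ⟨s + 1, by omega, Fin.cons a f', P_cons.2 ⟨c, h2⟩, fun e => P_cons.2 ⟨c, h3 (by omega)⟩⟩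
    · push Not at c
      rw [inf_eq_left.2 (show H ≤ stabilizer G a from c)] at h2
      exact ⟨s, by omega, f', h2, fun e => by omega⟩

theorem same (t : ℕ) (H : Subgroup G) (h : ∀ t (f : Fin t → Ω) (σ : Equiv.Perm (Fin t)), P H f → P H (f ∘ σ))
    (t' : ℕ) (f : Fin t → Ω) (f' : Fin t' → Ω) (h1 : P H f) (h2 : P H f') : t = t' := by
  induction t using Nat.strong_induction_on generalizing H t' with | _ t ih => ?_
  have Z : ∀ {s s'} {f : Fin s → Ω} {f' : Fin s' → Ω}, P H f → P H f' → s = 0 → s' = 0 := by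
    rintro _ s' f f' a b rfl
    by_contra c
    obtain ⟨g, g1, -, g2⟩ := b.2 ⟨0, by omega⟩
    simp [a.1 g g1 fun i => i.elim0] at g2
  rcases t with _ | t
  · exact (Z h1 h2 rfl).symm
  rcases t' with _ | t'
  · exact Z h2 h1 rfl
  obtain ⟨⟨a, f⟩, rfl⟩ := (Fin.consEquiv fun _ => Ω).surjective f
  obtain ⟨⟨b, f'⟩, rfl⟩ := (Fin.consEquiv fun _ => Ω).surjective f'
  obtain ⟨a1, a2⟩ := P_cons.1 h1
  obtain ⟨b1, b2⟩ := P_cons.1 h2
  have I : ∀ a, (∃ g ∈ H, g • a ≠ a) → ∀ t (f : Fin t → Ω) (σ : Equiv.Perm (Fin t)),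
      P (H ⊓ stabilizer G a) f → P (H ⊓ stabilizer G a) (f ∘ σ) := fun a ha t f σ k => by
    have := h _ _ (Equiv.Perm.decomposeFin.symm (0, σ)) (P_cons.2 ⟨ha, k⟩)
    refine (P_cons.1 (by convert this using 1; ext i; refine Fin.cases ?_ (fun i => ?_) i <;> simp)).2
  have W : ∀ a b, (∃ g ∈ H, g • a ≠ a) → (∃ g ∈ H ⊓ stabilizer G a, g • b ≠ b) → ∀ {s} (f : Fin s → Ω),
      (∀ g ∈ H ⊓ stabilizer G a, (∀ i, g • f i = f i) → g = 1) → ∃ s, ∃ c : Fin s → Ω,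
      P (H ⊓ stabilizer G a) (Fin.cons b c : Fin (s + 1) → Ω) ∧ P (H ⊓ stabilizer G b) (Fin.cons a c : Fin (s + 1) → Ω) := by
    intro a b ha hb s f hf
    obtain ⟨s, -, c, hc, -⟩ := extract (H ⊓ stabilizer G a ⊓ stabilizer G b) f fun g hg => hf g hg.1
    refine ⟨s, c, P_cons.2 ⟨hb, hc⟩, ?_⟩
    have := h _ _ (Equiv.swap 0 1) (P_cons.2 ⟨ha, P_cons.2 ⟨hb, hc⟩⟩)
    refine (P_cons.1 (by
      convert this using 1; ext i
      refine Fin.cases ?_ (fun i => Fin.cases ?_ (fun i => ?_) i) i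
      · simp
      · simp
      · rw [Function.comp_apply, Equiv.swap_apply_of_ne_of_ne (Fin.succ_ne_zero _) (Fin.succ_succ_ne_one _)]; simp)).2
  by_cases c : ∃ g ∈ H ⊓ stabilizer G a, g • b ≠ b
  · obtain ⟨s, c, c1, c2⟩ := W a b a1 c f a2.1
    obtain rfl := ih t (by omega) _ (I a a1) _ _ _ a2 c1
    rw [ih _ (by omega) _ (I b b1) _ _ _ c2 b2]
  have c' : ¬ ∃ g ∈ H ⊓ stabilizer G b, g • a ≠ a := fun c' => by
    obtain ⟨s, c, -, c2⟩ := W b a b1 c' f' b2.1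
    exact ‹¬ _› (P_cons.1 c2).1
  push Not at c c'
  have : H ⊓ stabilizer G a = H ⊓ stabilizer G b := le_antisymm (fun g hg => ⟨hg.1, c g hg⟩) fun g hg => ⟨hg.1, c' g hg⟩
  rw [ih t (by omega) _ (I a a1) _ _ _ a2 (this ▸ b2)]

/-- Let a finite group G act on a finite set Ω. An irredundant base is a sequence of points ω₁, …, ω_t whose pointwise stabiliser is trivial and in which each ω_i is moved by some element fixing ω₁, …, ω_{i−1}. Then all irredundant bases have the same length if and only if every reordering of an irredundant base is again an irredundant base. -/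
theorem result {G Ω : Type*} [Group G] [Finite G] [MulAction G Ω] [Fintype Ω] :
    (∀ (t t' : ℕ) (f : Fin t → Ω) (f' : Fin t' → Ω), ((∀ g : G, (∀ i : Fin t, g • f i = f i) → g = 1) ∧ ∀ i : Fin t, ∃ g : G, (∀ j : Fin t, j < i → g • f j = f j) ∧ g • f i ≠ f i) → ((∀ g : G, (∀ i : Fin t', g • f' i = f' i) → g = 1) ∧ ∀ i : Fin t', ∃ g : G, (∀ j : Fin t', j < i → g • f' j = f' j) ∧ g • f' i ≠ f' i) → t = t') ↔
    (∀ (t : ℕ) (f : Fin t → Ω) (σ : Equiv.Perm (Fin t)), ((∀ g : G, (∀ i : Fin t, g • f i = f i) → g = 1) ∧ ∀ i : Fin t, ∃ g : G, (∀ j : Fin t, j < i → g • f j = f j) ∧ g • f i ≠ f i) → ((∀ g : G, (∀ i : Fin t, g • (f ∘ σ) i = (f ∘ σ) i) → g = 1) ∧ ∀ i : Fin t, ∃ g : G, (∀ j : Fin t, j < i → g • (f ∘ σ) j = (f ∘ σ) j) ∧ g • (f ∘ σ) i ≠ (f ∘ σ) i)) := by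
  have e : ∀ {t} (f : Fin t → Ω), ((∀ g : G, (∀ i : Fin t, g • f i = f i) → g = 1) ∧ ∀ i : Fin t, ∃ g : G,
      (∀ j : Fin t, j < i → g • f j = f j) ∧ g • f i ≠ f i) ↔ P (⊤ : Subgroup G) f := fun f => by simp [P]
  simp only [e]
  refine ⟨fun h t f σ k => ?_, fun h t t' f f' => same t ⊤ h t' f f'⟩
  obtain ⟨s, -, f', h1, h2⟩ := extract ⊤ (f ∘ σ) fun g hg k' => k.1 g hg fun i => by simpa using k' (σ.symm i)
  exact h2 (h _ _ _ _ h1 k)


end Cfsg.Agent.S5747
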