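import Cfsg.Statements.S5748
import Cfsg.Agent.H3.Ab5
import Cfsg.Agent.FT.Final
import Cfsg.Agent.H1.Invol
import Cfsg.Agent.H5.SL2Cl

set_option autoImplicit false
open Cfsg

namespace Cfsg.Agent.S5748

open H3 SE

/-- A finite non-abelian simple group in which commuting is a transitive relation on the non-identity elements (equivalently, every non-identity element has abelian centraliser) is isomorphic to PSL₂ over a field with 2^f elements for some f ≥ 2; conversely these groups have that property. -/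
theorem result {G : Type*} [Group G] [Finite G] [IsSimpleGroup G] (hG : ¬ IsMulCommutative G) :
    (∀ a b c : G, a ≠ 1 → b ≠ 1 → c ≠ 1 → Commute a b → Commute b c → Commute a c) ↔
    ∃ (F : Type) (_ : Field F) (_ : Fintype F) (f : ℕ), 2 ≤ f ∧ Fintype.card F = 2 ^ f ∧ Nonempty (G ≃* Matrix.ProjectiveSpecialLinearGroup (Fin 2) F) := by
  haveI : Fact (Nat.Prime 2) := ⟨Nat.prime_two⟩
  have ns : ¬ Group.IsSolvable G := fun e => hG ⟨⟨IsSimpleGroup.comm_iff_isSolvable.2 e⟩⟩
  constructor
  · intro h
    have ev : Even (Nat.card G) := Nat.not_odd_iff_even.1 fun e => ns (FT.feit_thompson G e)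
    have ab : ∀ t : G, t ≠ 1 → ∀ a b, a * t = t * a → b * t = t * b → a * b = b * a := fun t i a b p q => by
      by_cases c : a = 1
      · simp [c]
      by_cases d : b = 1
      · simp [d]
      exact h a t b c i d p q.symm
    obtain ⟨T⟩ : Nonempty (Sylow 2 G) := inferInstance
    obtain ⟨k, s, hs, -⟩ := ac_of_sylow (fun t i => ab t i.1) T (fun c => by
      obtain ⟨H, e⟩ := H1.exists_index_two_of_isCyclic ev T c
      rcases (Subgroup.normal_of_index_eq_two e).eq_bot_or_eq_top with rfl | rfl
      · rw [Subgroup.index_bot] at e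
        haveI := isCyclic_of_prime_card e
        exact hG inferInstance
      · simp at e) fun n => by
      rcases n.eq_bot_or_eq_top with e | e
      · exact T.ne_bot_of_dvd_card ev.two_dvd e
      · haveI := (T.2.of_equiv ((MulEquiv.subgroupCongr e).trans Subgroup.topEquiv)).isNilpotent
        exact ns inferInstance
    obtain ⟨a, F, _, _, b, c, -, ⟨f⟩⟩ := k.sl (fun s i e p q g r => Cz_le_Nz s (mem_Cz.2
      (ab e q _ _ (mem_Cz.1 r) (mem_Cz.1 p).symm))) hs
    exact ⟨F, _, _, a, b, c, ⟨f.trans (slPsl F (two_eq_zero (by omega) c))⟩⟩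
  · rintro ⟨F, _, _, f, f2, c, ⟨e⟩⟩ a b d - p - q r
    haveI : CharP F 2 := CharTwo.of_one_ne_zero_of_two_eq_zero one_ne_zero (two_eq_zero (by omega) c)
    let φ : G →* H5.PG F := H5.psl.comp e.toMonoidHom
    have i : Function.Injective φ := H5.psl_inj.comp e.injective
    have q' := mem_Cz.2 (q.map φ)
    have r' := mem_Cz.2 (r.map φ).symm
    refine i ((map_mul _ _ _).trans (Eq.trans ?_ (map_mul _ _ _).symm))
    rcases H5.pg_cases (φ b) with h3 | ⟨h3, z, hz⟩ | ⟨h3, m, T, D, hT, hz⟩
    · exact (p ((map_eq_one_iff _ i).1 h3)).elim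
    · rw [Cz, H5.centralizer_UP hz h3] at q' r'
      exact H5.UP_comm q' r'
    · rw [Cz, hT.centralizer_eq hz fun e => hT.not_dvd 2 (orderOf_eq_prime ((sq _).trans e) h3 ▸ hT.orderOf_dvd hz)] at q' r'
      exact hT.comm q' r'

end Cfsg.Agent.S5748
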