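import Cfsg.Statements.S5752
import Cfsg.Agent.H2.TW

set_option autoImplicit false
open Cfsg

namespace Cfsg.Agent.S5752

open H9 H2TW Subgroup

/-- A form of the Thompson–Wielandt Theorem on primitive permutation groups. Let G be a finite group and M₁, M₂ two distinct conjugate maximal subgroups of G with trivial core in G; define two descending sequences of subgroups by A₀ = M₁, B₀ = M₂ and, for every i, A_{i+1} = the core in M₁ of A_i ∩ B_i and B_{i+1} = the core in M₂ of A_i ∩ B_i (the core in M of a subgroup Y ≤ M is the largest normal subgroup of M contained in Y). If A₂ and B₂ are both non-trivial, then for some prime p the subgroup generated by A₂ and B₂ is a p-group, and for each j the generalized Fitting subgroups of M_j and of its first core (A₁, resp. B₁) are their largest normal p-subgroups. -/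
theorem result {G : Type*} [Group G] [Finite G] (M₁ M₂ : Subgroup G) (hmax : IsCoatom M₁) (g : G)
    (hconj : M₂ = M₁.map (MulAut.conj g).toMonoidHom) (hne : M₁ ≠ M₂) (hcore : M₁.normalCore = ⊥)
    (A B : ℕ → Subgroup G) (hA0 : A 0 = M₁) (hB0 : B 0 = M₂)
    (hA : ∀ i, A (i + 1) = ((A i ⊓ B i).subgroupOf M₁).normalCore.map M₁.subtype)
    (hB : ∀ i, B (i + 1) = ((A i ⊓ B i).subgroupOf M₂).normalCore.map M₂.subtype) (hA2 : A 2 ≠ ⊥) (hB2 : B 2 ≠ ⊥) :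
    ∃ p : ℕ, p.Prime ∧ IsPGroup p ↥(A 2 ⊔ B 2) ∧
      Cfsg.generalizedFittingSubgroup ↥M₁ = Cfsg.pCore p ↥M₁ ∧ Cfsg.generalizedFittingSubgroup ↥(A 1) = Cfsg.pCore p ↥(A 1) ∧
      Cfsg.generalizedFittingSubgroup ↥M₂ = Cfsg.pCore p ↥M₂ ∧ Cfsg.generalizedFittingSubgroup ↥(B 1) = Cfsg.pCore p ↥(B 1) := by
  have h : St M₁ M₂ := by
    rw [hconj] at hne ⊢
    exact St.of_conj hmax hcore g hne
  have a1 : A 1 = cr M₁ (M₁ ⊓ M₂) := by rw [hA 0, hA0, hB0]; rfl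
  have b1 : B 1 = cr M₂ (M₁ ⊓ M₂) := by rw [hB 0, hA0, hB0]; rfl
  have a2 : A 2 = cr M₁ (A 1 ⊓ B 1) := hA 1
  have b2 : B 2 = cr M₂ (A 1 ⊓ B 1) := hB 1
  have n1 : M₁ ≤ normalizer (A 2 : Set G) := a2 ▸ cr_norm _ _
  have n2 : M₂ ≤ normalizer (B 2 : Set G) := b2 ▸ cr_norm _ _
  have l1 : A 2 ≤ cr M₂ (M₁ ⊓ M₂) := by rw [a2, ← b1]; exact (cr_le _ _).trans inf_le_right
  have l2 : B 2 ≤ cr M₁ (M₁ ⊓ M₂) := by rw [b2, ← a1]; exact (cr_le _ _).trans inf_le_left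
  obtain ⟨p, hp, h1, h2, h3, h4⟩ := h.main hA2 hB2 l1 n1 l2 n2
  refine ⟨p, hp.out, isP_sup h1 h2 ((l1.trans (cr_le' _ _)).trans n2), Fst_eq_Op_iff.1 h3, ?_,
    Fst_eq_Op_iff.1 h4, ?_⟩
  · rw [a1]
    exact Fst_eq_Op_iff.1 ((SN.of_normal (cr_le' _ _) (cr_norm _ _)).Fst_eq_Op h3)
  · rw [b1]
    exact Fst_eq_Op_iff.1 ((SN.of_normal (cr_le' _ _) (cr_norm _ _)).Fst_eq_Op h4)

end Cfsg.Agent.S5752
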