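import Cfsg.Statements.S5754
import Mathlib

set_option autoImplicit false
open Cfsg

namespace Cfsg.Agent.S5754

/-- Let V be a finite-dimensional vector space over a finite field F carrying an anisotropic quadratic form Q (Q(v) = 0 only for v = 0). Then the group of all maps v ↦ φ(v) + c, with φ an isometry of Q and c ∈ V, acts on V as a binary permutation group: given n ≥ 2 and two n-tuples u, u' of vectors such that every pair of corresponding entries of u is carried to that of u' by such a map, one such map carries u to u'. -/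
theorem result {F V : Type*} [Field F] [Finite F] [AddCommGroup V] [Module F V] [Module.Finite F V]
    (Q : QuadraticForm F V) (hQ : Q.Anisotropic) (n : ℕ) (hn : 2 ≤ n) (u u' : Fin n → V)
    (h2 : ∀ i j : Fin n, i ≠ j → ∃ (φ : Q.IsometryEquiv Q) (c : V), φ (u i) + c = u' i ∧ φ (u j) + c = u' j) :
    ∃ (φ : Q.IsometryEquiv Q) (c : V), ∀ i, φ (u i) + c = u' i := by
  suffices H : ∀ (k : ℕ) (w w' : Fin n → V), (∀ i, Q (w i) = Q (w' i)) →
      (∀ i j, QuadraticMap.polar Q (w i) (w j) = QuadraticMap.polar Q (w' i) (w' j)) →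
      ∃ φ : Q.IsometryEquiv Q, ∀ i : Fin n, i.val < k → φ (w i) = w' i by
    have E : ∀ i j, Q (u i - u j) = Q (u' i - u' j) := fun i j => by
      rcases eq_or_ne i j with rfl | h
      · simp
      obtain ⟨φ, c, h1, h2⟩ := h2 i j h
      rw [← h1, ← h2, add_sub_add_right_eq_sub, ← map_sub, φ.map_app]
    let o : Fin n := ⟨0, by omega⟩
    obtain ⟨φ, h⟩ := H n (fun i => u i - u o) (fun i => u' i - u' o) (fun i => E i o) fun i j => by
      have a : ∀ x y : V, QuadraticMap.polar Q x y = Q x + Q y - Q (x - y) := fun x y => by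
        have := QuadraticMap.polar_neg_right Q x y
        rw [QuadraticMap.polar, Q.map_neg, ← sub_eq_add_neg] at this
        linear_combination this
      simp only [a, sub_sub_sub_cancel_right, E]
    refine ⟨φ, u' o - φ (u o), fun i => ?_⟩
    have := h i i.2
    rw [map_sub] at this
    rw [← sub_add_cancel (u' i) (u' o), ← this]; abel
  intro k w w' h1 h2
  induction k with
  | zero => exact ⟨.refl Q, fun i h => by omega⟩
  | succ k ih =>
    obtain ⟨φ, h⟩ := ih
    by_cases hk : k < n; swap
    · exact ⟨φ, fun i hi => h i (by omega)⟩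
    set x := φ (w ⟨k, hk⟩)
    set d := x - w' ⟨k, hk⟩ with hd
    have P : ∀ a b, QuadraticMap.polar Q (φ a) (φ b) = QuadraticMap.polar Q a b := fun a b => by
      simp only [QuadraticMap.polar, ← map_add, φ.map_app]
    by_cases d0 : d = 0
    · exact ⟨φ, fun i hi => (Nat.lt_succ_iff_lt_or_eq.1 hi).elim (h i) fun e => by
        obtain rfl : i = ⟨k, hk⟩ := Fin.ext e
        exact sub_eq_zero.1 d0⟩
    have q0 : Q d ≠ 0 := fun e => d0 (hQ d e)
    let f : Module.Dual F V := (Q d)⁻¹ • (QuadraticMap.polarBilin Q).flip d
    have fd : f d = 2 := by simp [f]; field_simp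
    have fa : ∀ v, f v = (Q d)⁻¹ * QuadraticMap.polar Q v d := fun v => by simp [f]
    let r : Q.IsometryEquiv Q := ⟨Module.reflection fd, fun v => by
      change Q (Module.reflection fd v) = Q v
      rw [Module.reflection_apply, sub_eq_add_neg, ← neg_smul, QuadraticMap.map_add Q, Q.map_smul,
        QuadraticMap.polar_smul_right, fa]
      simp only [smul_eq_mul]; field_simp; ring⟩
    refine ⟨φ.trans r, fun i hi => ?_⟩
    change Module.reflection fd (φ (w i)) = _
    rw [Module.reflection_apply, fa]
    rcases Nat.lt_succ_iff_lt_or_eq.1 hi with e | e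
    · rw [hd, QuadraticMap.polar_sub_right, P, h i e, h2]; simp
    · obtain rfl : i = ⟨k, hk⟩ := Fin.ext e
      have : QuadraticMap.polar Q x d = Q d := by
        have a : w' ⟨k, hk⟩ = x + -d := by rw [hd]; abel
        have b : Q x = Q (w' ⟨k, hk⟩) := by rw [← h1, φ.map_app]
        rw [a, QuadraticMap.map_add Q, Q.map_neg, QuadraticMap.polar_neg_right] at b
        linear_combination b
      rw [this, inv_mul_cancel₀ q0, one_smul, hd]; abel


end Cfsg.Agent.S5754
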