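import Cfsg.Statements.S5887
import Cfsg.Agent.H5.As1

set_option autoImplicit false
open Cfsg

namespace Cfsg.Agent.S5887

open H5 H5.As Cfsg.Geo Module Matrix

theorem key {F ι : Type*} [Field F] [Fintype F] [Fintype ι] [DecidableEq ι] [Nonempty ι] {L : Subalgebra F (Matrix ι ι F)} (hL : IsField L)
    (hs : 2 * finrank F L < Fintype.card ι) : ∃ t : GL ι F, t.1.det = 1 ∧ (∀ l ∈ L, t.1 * l = l * t.1) ∧
      ∀ K : Subalgebra F (Matrix ι ι F), (∀ x ∈ K, x ≠ 0 → IsUnit x) → L ≤ K → (∀ k ∈ K, t.1 * k * (t⁻¹).1 ∈ K) → K ≤ L := by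
  letI := hL.toField
  have e := finrank_mul_finrank F L (ι → F)
  rw [finrank_fintype_fun_eq_card] at e
  have : Module.Finite L (ι → F) := .of_restrictScalars_finite F _ _
  have h3 : 2 < finrank L (ι → F) := by
    by_contra! c
    have := Nat.mul_le_mul_left (finrank F L) c
    omega
  let b := finBasis L (ι → F)
  let v := b ⟨0, by omega⟩
  let w := b ⟨1, by omega⟩
  let φ := b.coord ⟨1, by omega⟩
  have hv : φ v = 0 := by simp [φ, v]
  have hw : φ w = 1 := by simp [φ, w]
  have v0 : v ≠ 0 := b.ne_zero _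
  let M := LinearMap.toMatrix' ((φ.smulRight v).restrictScalars F)
  have hM : ∀ x, M *ᵥ x = (φ x).1 *ᵥ v := fun x => LinearMap.toMatrix'_mulVec _ _
  have hφ : ∀ (l : L) x, φ (l.1 *ᵥ x) = l * φ x := fun l x => map_smul φ l x
  have ext : ∀ {A B : Matrix ι ι F}, (∀ x, A *ᵥ x = B *ᵥ x) → A = B := fun h => Matrix.toLin'.injective (LinearMap.ext h)
  have M2 : M * M = 0 := ext fun x => by rw [← mulVec_mulVec, hM x, hM, hφ, hv, mul_zero]; simp
  have pw : ∀ k : ℕ, (1 + M) ^ k = 1 + (k : F) • M := fun k => by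
    induction k with
    | zero => simp
    | succ k ih => rw [pow_succ, ih, add_mul, mul_add, mul_add, smul_mul_assoc, smul_mul_assoc, M2]; simp [add_smul, add_assoc, add_comm]
  refine ⟨⟨1 + M, 1 - M, by rw [add_mul, mul_sub, mul_sub, M2]; simp, by rw [sub_mul, mul_add, mul_add, M2]; simp⟩, ?_, fun l hl => ?_,
    fun K hK le hn k hk => ?_⟩
  · change (1 + M).det = 1
    rw [← FiniteField.pow_card (1 + M).det, ← det_pow, pw, FiniteField.cast_card_eq_zero]; simp
  · change (1 + M) * l = l * (1 + M)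
    rw [add_mul, mul_add, one_mul, mul_one, ext (A := M * l) (B := l * M) fun x => by
      rw [← mulVec_mulVec, ← mulVec_mulVec, hM, hM, hφ ⟨l, hl⟩, mulVec_mulVec]; rfl]
  have z : ∀ a ∈ K, ∀ x ≠ 0, a *ᵥ x = 0 → a = 0 := fun a ha x hx h => by
    by_contra c
    exact hx ((mulVec_injective_iff_isUnit.2 (hK a ha c)) (h.trans (mulVec_zero _).symm))
  have hk' : (1 + M) * k * (1 - M) ∈ K := hn k hk
  obtain ⟨x, hx, x0⟩ := (Submodule.ne_bot_iff _).1 (LinearMap.ker_ne_bot_of_finrank_lt
    (f := (φ.restrictScalars F).prod ((φ.restrictScalars F).comp (toLin' k))) (by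
      rw [finrank_prod, finrank_fintype_fun_eq_card]; omega))
  have h1 : φ x = 0 := congrArg Prod.fst hx
  have h2 : φ (k *ᵥ x) = 0 := congrArg Prod.snd hx
  have c := sub_eq_zero.1 (z _ (sub_mem hk' hk) x x0 (by
    rw [sub_mulVec, ← mulVec_mulVec, ← mulVec_mulVec, sub_mulVec, add_mulVec, hM, hM, h1]
    simp [h2]))
  have c2 : M * k = k * M := by
    have := congrArg (· * (1 + M)) c
    simp only [mul_assoc] at this
    rw [show (1 - M) * (1 + M) = 1 by rw [sub_mul, mul_add, mul_add, M2]; simp, mul_one, add_mul, mul_add, one_mul, mul_one] at this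
    exact add_left_cancel this
  have := congrArg (· *ᵥ w) c2
  simp only [← mulVec_mulVec, hM, hw, OneMemClass.coe_one, one_mulVec] at this
  rw [sub_eq_zero.1 (z _ (sub_mem hk (le (φ (k *ᵥ w)).2)) v v0 (by rw [sub_mulVec, this, sub_self]))]
  exact Subtype.property _

/-- Let F be a finite field, n a positive integer and r a composite number (r > 1, not prime) that divides n with r < n. Let K be a subalgebra of the algebra of n × n matrices over F which is a field of degree r over F (commutative, every non-zero element invertible, of dimension r over F). Then the normaliser N of K in GL_n(F) (a group of type ΓL_{n/r}(F_{q^r})) is not a maximal subgroup of GL_n(F), and N ∩ SL_n(F) is not a maximal subgroup of SL_n(F): both lie properly inside the normaliser of an intermediate subfield of prime degree over F. -/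
theorem result {F : Type*} [Field F]
    [Fintype F] (n r : ℕ) (hr1 : 1 < r) (hrp : ¬ r.Prime) (hrn : r ∣ n) (hlt : r < n)
    (K : Subalgebra F (Matrix (Fin n) (Fin n) F)) (hK : Cfsg.Geo.IsFieldSubalgebra r K) :
    ¬ IsCoatom (Cfsg.Geo.subalgebraNormalizer K) ∧
      ¬ Cfsg.Geo.IsMaximalIn (Cfsg.Geo.specialLinear (Fin n) F)
        (Cfsg.Geo.subalgebraNormalizer K ⊓ Cfsg.Geo.specialLinear (Fin n) F) := by
  have : Nonempty (Fin n) := ⟨⟨0, by omega⟩⟩
  obtain ⟨s, hs, hsr⟩ := Nat.exists_prime_and_dvd hr1.ne'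
  obtain ⟨L, hL, mL⟩ := (fld hK).exists_sub (hK.finrank_eq ▸ hsr)
  have s2 := hs.two_le
  have lt : 2 * s ≤ r := by
    obtain ⟨c, rfl⟩ := hsr
    rcases c with _ | _ | c
    · omega
    · exact absurd (by simpa using hs) hrp
    · nlinarith
  have lt2 : 2 * r ≤ n := by
    obtain ⟨c, rfl⟩ := hrn
    rcases c with _ | _ | c
    · omega
    · omega
    · nlinarith
  have un : ∀ {r} {K : Subalgebra F (Matrix (Fin n) (Fin n) F)}, IsFieldSubalgebra r K → ∀ x ∈ K, x ≠ 0 → IsUnit x := fun h x hx h0 => by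
    obtain ⟨y, -, e⟩ := h.inv x hx h0
    exact .of_mul_eq_one y e
  obtain ⟨t, t1, t2, t3⟩ := key (fld hL).isField (by rw [hL.finrank_eq, Fintype.card_fin]; omega)
  obtain ⟨u, u1, -, u3⟩ := key (L := (⊥ : Subalgebra F (Matrix (Fin n) (Fin n) F))) (MulEquiv.isField (Field.toIsField F)
    (Algebra.botEquivOfInjective (algebraMap F _).injective).toMulEquiv) (by rw [Subalgebra.finrank_bot, Fintype.card_fin]; omega)
  have le : subalgebraNormalizer K ≤ subalgebraNormalizer L := fun g hg k => by
    rw [mL, mL, ← hg k, Units.conj_pow, mul_assoc, mul_assoc, Units.mul_right_inj, Units.mul_left_inj]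
  have tM : t ∈ subalgebraNormalizer L := fun k => ⟨fun h => by rwa [t2 k h, Units.mul_inv_cancel_right], fun h => by
    have := t2 _ h
    rw [Units.inv_mul_cancel_right, Units.mul_right_inj] at this
    rwa [← this]⟩
  have tN : t ∉ subalgebraNormalizer K := fun h => by
    have := Submodule.finrank_mono (show K.toSubmodule ≤ L.toSubmodule from t3 K (un hK) (fun x hx => ((mL x).1 hx).1) fun k hk => (h k).1 hk)
    rw [Subalgebra.finrank_toSubmodule, Subalgebra.finrank_toSubmodule, hK.finrank_eq, hL.finrank_eq] at this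
    omega
  have uM : u ∉ subalgebraNormalizer L := fun h => by
    have := hL.finrank_eq
    rw [le_bot_iff.1 (u3 L (un hL) bot_le fun k hk => (h k).1 hk), Subalgebra.finrank_bot] at this
    omega
  have ts : t ∈ specialLinear (Fin n) F := Units.ext t1
  have us : u ∈ specialLinear (Fin n) F := Units.ext u1
  refine ⟨fun h => uM (h.2 _ (lt_of_le_of_ne le fun e => tN (e ▸ tM)) ▸ trivial), fun h => ?_⟩
  rcases h.2 (subalgebraNormalizer L ⊓ specialLinear (Fin n) F) (inf_le_inf_right _ le) inf_le_right with e | e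
  · exact tN (e.le ⟨tM, ts⟩).1
  · exact uM (e.ge us).1


end Cfsg.Agent.S5887
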