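import Cfsg.Statements.S5890
import Cfsg.Agent.H5.PSL2Max

set_option autoImplicit false
open Cfsg

namespace Cfsg.Agent.S5890

open H5

/-- Let F be a finite field with q ≥ 4 elements, let L ≤ PGL₂(F) be the image of SL₂(F) (a copy of PSL₂(F), of index gcd(2, q − 1)), and let M be a maximal subgroup of PGL₂(F) that does not contain L. Suppose q ∉ {7, 9, 11} and that q is not a prime congruent to ±11 or ±19 modulo 40. Then M ∩ L is a maximal subgroup of L. (For the excluded q there are maximal subgroups of PGL₂(q) — dihedral groups of order 12 and 16 at q = 7, of order 20 and 16 at q = 9, of order 20 at q = 11, and S₄ at the excluded primes — whose intersection with L is not maximal in L.) -/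
theorem result {F : Type*} [Field F]
    [Fintype F] (h4 : 4 ≤ Fintype.card F) (h7 : Fintype.card F ≠ 7) (h9 : Fintype.card F ≠ 9) (h11 : Fintype.card F ≠ 11)
    (h40 : (Fintype.card F).Prime → Fintype.card F % 40 ∉ ({11, 19, 21, 29} : Finset ℕ))
    (M : Subgroup (Matrix.ProjGenLinGroup (Fin 2) F)) (hM : IsCoatom M)
    (hML : ¬ (Matrix.ProjGenLinGroup.mk.comp Matrix.SpecialLinearGroup.toGL).range ≤ M) :
    IsCoatom ((M ⊓ (Matrix.ProjGenLinGroup.mk.comp Matrix.SpecialLinearGroup.toGL).range).subgroupOf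
      (Matrix.ProjGenLinGroup.mk.comp Matrix.SpecialLinearGroup.toGL).range) := by
  change ¬ PS F ≤ M at hML
  change IsCoatom ((M ⊓ PS F).subgroupOf (PS F))
  rw [isCoatom_iff_covBy _ (PS F).subtype_injective, Subgroup.range_subtype, Subgroup.subgroupOf_map_subtype,
    inf_assoc, inf_idem]
  rcases Nat.even_or_odd (Fintype.card F) with he | hodd
  · rw [PS_eq_top he, inf_top_eq]; exact hM.covBy_top
  have ho := Nat.odd_iff.1 hodd
  rcases pgl_max_cases hodd h4 hM hML with ⟨x, rfl⟩ | ⟨n, T, h, hn⟩ | ⟨h1, h2, ⟨e⟩⟩ | ⟨c, k0, r, h1, h2, h4, rfl⟩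
  · exact stab_covBy_PS x
  · refine h.covBy_PS ?_
    simp only [Finset.mem_insert, Finset.mem_singleton]
    have := h.eq
    omega
  · obtain ⟨K, hK, ⟨e'⟩⟩ := S4_sub e
    have h5 := h40 h1
    simp only [Finset.mem_insert, Finset.mem_singleton] at h5
    have h6 : M ⊓ PS F = K := by
      refine le_antisymm (le_of_card_le (le_inf hK (A4_le_PS e')) ?_) (le_inf hK (A4_le_PS e'))
      have h8 := card_mul_relIndex (inf_le_left : M ⊓ PS F ≤ M)
      have h9 : (M ⊓ PS F).relIndex M ≠ 1 := fun k => h2 ((Subgroup.relIndex_eq_one.1 k).trans inf_le_right)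
      rw [card_equiv e, KB.card_S4] at h8
      rw [card_equiv e', KB.card_A4]
      rcases hr : (M ⊓ PS F).relIndex M with _ | _ | r
      · simp [hr] at h8
      · exact absurd hr h9
      · rw [hr] at h8; nlinarith
    rw [S4_le_PS e, isSquare_two_iff (two_ne_of_S4 e)] at h2
    rw [h6]
    exact A4_covBy h1 (by omega) (by omega) (by omega) e'
  · rw [cj_inf_PS, subPGL_inf_PS h4 h2, ← cj_of_normal c (PS F)]
    exact covBy_cj (subPSL_covBy hodd h1 (by rintro rfl; exact absurd h2 (by decide)) h4)


end Cfsg.Agent.S5890
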