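import Cfsg.Statements.S5891
import Cfsg.Agent.H5.PSL2Max

set_option autoImplicit false
open Cfsg

namespace Cfsg.Agent.S5891

open H5

/-- Let F be a finite field of odd order q > 3 and characteristic p, and let M be a maximal subgroup of PGL₂(F) not containing the image L of SL₂(F) (a copy of PSL₂(F) of index 2). Then one of the following holds: |M| = q(q − 1) (M is the stabiliser of a point of the projective line); q ≠ 5 and M is dihedral of order 2(q − 1); M is dihedral of order 2(q + 1); q = p ≡ ±3 (mod 8) and M ≅ S₄; or q = q₀^r for an odd prime r and M ≅ PGL₂(F₀) with |F₀| = q₀. -/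
theorem result {F : Type*} [Field F] [Fintype F]
    (hodd : Odd (Fintype.card F)) (h3 : 3 < Fintype.card F) (M : Subgroup (Matrix.ProjGenLinGroup (Fin 2) F)) (hM : IsCoatom M)
    (hML : ¬ (Matrix.ProjGenLinGroup.mk.comp Matrix.SpecialLinearGroup.toGL).range ≤ M) :
    Nat.card M = Fintype.card F * (Fintype.card F - 1) ∨
    (Fintype.card F ≠ 5 ∧ Nonempty (M ≃* DihedralGroup (Fintype.card F - 1))) ∨
    Nonempty (M ≃* DihedralGroup (Fintype.card F + 1)) ∨
    ((Fintype.card F).Prime ∧ (Fintype.card F % 8 = 3 ∨ Fintype.card F % 8 = 5) ∧ Nonempty (M ≃* Equiv.Perm (Fin 4))) ∨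
    (∃ (F₀ : Type) (_ : Field F₀) (_ : Fintype F₀) (r : ℕ), r.Prime ∧ Odd r ∧ Fintype.card F = Fintype.card F₀ ^ r ∧
        Nonempty (M ≃* Matrix.ProjGenLinGroup (Fin 2) F₀)) := by
  rcases pgl_max_cases hodd h3 hM hML with ⟨x, rfl⟩ | ⟨n, T, h, hn⟩ | ⟨h1, h2, ⟨e⟩⟩ | ⟨c, k0, r, h1, h2, h4, rfl⟩
  · exact Or.inl (card_stab x)
  · have := h.dihedral
    rcases h.eq with rfl | rfl
    · exact Or.inr (Or.inl ⟨by omega, this⟩)
    · exact Or.inr (Or.inr (Or.inl this))
  · rw [S4_le_PS e, isSquare_two_iff (two_ne_of_S4 e)] at h2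
    have := Nat.odd_iff.1 hodd
    exact Or.inr (Or.inr (Or.inr (Or.inl ⟨h1, by omega, ⟨e⟩⟩)))
  · obtain ⟨K, _, _, hK⟩ := exists_type0 k0
    exact Or.inr (Or.inr (Or.inr (Or.inr ⟨K, inferInstance, inferInstance, r, h1, h2, by rw [hK, h4],
      ⟨(cjEquiv c _).symm.trans (subPGL_equiv k0 hK).some⟩⟩)))


end Cfsg.Agent.S5891
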