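import Cfsg.Statements.S5892
import Cfsg.Agent.H5.PSL2Max

set_option autoImplicit false
open Cfsg

namespace Cfsg.Agent.S5892

open H5

/-- Let F be a finite field of odd order q ≥ 5 and characteristic p, and let M be a maximal subgroup of PSL₂(F). Then one of the following holds: |M| = q(q − 1)/2 (the stabiliser of a point of the projective line); q ≥ 13 and M is dihedral of order q − 1; q ∉ {7, 9} and M is dihedral of order q + 1; q = q₀² and M ≅ PGL₂(F₀) with |F₀| = q₀; q = q₀^r for an odd prime r and M ≅ PSL₂(F₀) with |F₀| = q₀; q ≡ ±1 (mod 10) with q = p or q = p², p ≡ ±3 (mod 10), and M ≅ A₅; q = p ≡ ±3 (mod 8), q ≢ ±1 (mod 10), and M ≅ A₄; or q = p ≡ ±1 (mod 8) and M ≅ S₄. -/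
theorem result {F : Type*} [Field F] [Fintype F] (p : ℕ)
    [Fact p.Prime] [CharP F p] (hodd : Odd (Fintype.card F)) (h5 : 5 ≤ Fintype.card F)
    (M : Subgroup (Matrix.ProjectiveSpecialLinearGroup (Fin 2) F)) (hM : IsCoatom M) :
    2 * Nat.card M = Fintype.card F * (Fintype.card F - 1) ∨
    (13 ≤ Fintype.card F ∧ (∃ k : ℕ, 2 * k = Fintype.card F - 1 ∧ Nonempty (M ≃* DihedralGroup k))) ∨
    (Fintype.card F ≠ 7 ∧ Fintype.card F ≠ 9 ∧ (∃ k : ℕ, 2 * k = Fintype.card F + 1 ∧ Nonempty (M ≃* DihedralGroup k))) ∨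
    (∃ (F₀ : Type) (_ : Field F₀) (_ : Fintype F₀), Fintype.card F = Fintype.card F₀ ^ 2 ∧
        Nonempty (M ≃* Matrix.ProjGenLinGroup (Fin 2) F₀)) ∨
    (∃ (F₀ : Type) (_ : Field F₀) (_ : Fintype F₀) (r : ℕ), r.Prime ∧ Odd r ∧ Fintype.card F = Fintype.card F₀ ^ r ∧
        Nonempty (M ≃* Matrix.ProjectiveSpecialLinearGroup (Fin 2) F₀)) ∨
    ((Fintype.card F % 10 = 1 ∨ Fintype.card F % 10 = 9) ∧
        (Fintype.card F = p ∨ (Fintype.card F = p ^ 2 ∧ (p % 10 = 3 ∨ p % 10 = 7))) ∧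
        Nonempty (M ≃* alternatingGroup (Fin 5))) ∨
    (Fintype.card F = p ∧ (p % 8 = 3 ∨ p % 8 = 5) ∧ ¬ (p % 10 = 1 ∨ p % 10 = 9) ∧
        Nonempty (M ≃* alternatingGroup (Fin 4))) ∨
    (Fintype.card F = p ∧ (p % 8 = 1 ∨ p % 8 = 7) ∧ Nonempty (M ≃* Equiv.Perm (Fin 4))) := by
  have hp : p.Prime := Fact.out
  have e0 := pslSub M
  rw [isCoatom_psl] at hM
  generalize M.map psl = H at e0 hM
  have ho := Nat.odd_iff.1 hodd
  have h2 := two_ne_zero_of_odd hodd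
  have hg := gcd_two_of_odd hodd
  have mx : ∀ L, H ≤ L → ¬ PS F ≤ L → H = L ⊓ PS F := fun L h1 h2 =>
    CovBy.eq_of hM (le_inf h1 hM.le) inf_le_right fun k => h2 (k.trans inf_le_left)
  have mx' : ∀ L, H ≤ L → L ≤ PS F → ¬ PS F ≤ L → H = L := fun L => CovBy.eq_of hM
  have ms : ∀ c (k0 : Subfield F), H ≤ cj c (subPGL k0) → k0 ≠ ⊤ → cj c (subPSL k0) ≤ H := fun c k0 h1 h3 =>
    (le_inf (cj_le_cj.2 (subPSL_le _)) (by rw [cj_le_iff, cj_of_normal]; exact subPSL_le_PS _)).trans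
      (mx _ h1 (not_PS_le h3 c)).ge
  have m7 : ∀ c (X : Subgroup (PG F)), 7 ≤ Fintype.card F → H ≤ cj c X → X ≤ PS F → Nat.card X ≤ 60 →
      Nat.card H = Nat.card X := fun c X h7 h1 h3 h4 => by
    rw [mx' _ h1 (by rwa [cj_le_iff, cj_of_normal]) (not_PS_le_cj (not_PS_le_small h7 h4)), card_cj]
  obtain ⟨k1, hk1⟩ := exists_prime_subfield (F := F) p
  have mp : ∀ c, H ≤ cj c (subPGL k1) → ¬ p ∣ Nat.card H → Fintype.card F = p := fun c h1 h3 => by
    rw [← hk1, eq_comm, ← subfield_eq_top_iff]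
    exact not_not.1 fun k => h3 (dvd_card_of_le p (ms c k1 h1 k))
  rcases dickson_proper p hM.lt.not_ge with ⟨x, hx⟩ | ⟨n, T, D, h, hl⟩ | ⟨k, ⟨e⟩⟩ | ⟨k, ⟨e⟩⟩ | ⟨k, ⟨e⟩⟩ | ⟨c, k0, k, h3, k'⟩
  · exact Or.inl (by rw [card_equiv e0, mx _ hx (not_PS_le_stab x), ← card_stab_PS x, hg])
  · obtain rfl := mx _ hl (not_PS_le_D h (by omega))
    obtain ⟨hc, ⟨e⟩⟩ := h.inf_PS_dihedral
    rw [hg] at hc e
    have a1 : n ≠ 4 := by
      rintro rfl
      obtain ⟨X, e', hX⟩ := klein_le_A4 h2 (isKleinFour_of_equiv e (inferInstanceAs (IsKleinFour (DihedralGroup 2)))) inf_le_right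
      have := mx' X (hX ▸ by rintro _ ⟨g, -, rfl⟩; exact emb_mem e' g) (A4_le_PS e') fun k => by
        have := Subgroup.card_le_of_le k
        rw [card_PS_of (q := 5) (by have := h.eq; omega) (N := 60) rfl, card_equiv e', KB.card_A4] at this; omega
      rw [this, card_equiv e', KB.card_A4] at hc; omega
    have a2 : Fintype.card F = 7 ∨ Fintype.card F = 9 → n ≠ 6 ∧ n ≠ 8 := fun h7 => by
      obtain ⟨X, ⟨e'⟩⟩ := exists_S4 h2
      have hX := (S4_le_PS e').2 ((isSquare_two_iff h2).2 (by omega))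
      have k : ∀ m, (m = 3 ∨ m = 4) → n ≠ 2 * m := fun m hm hn => by
        obtain ⟨c, hc'⟩ := h.le_S4 e' hX hm (by omega) ⟨2, by omega⟩
        have := m7 c X (by omega) hc' hX (by rw [card_equiv e', KB.card_S4]; omega)
        rw [card_equiv e', KB.card_S4] at this; omega
      exact ⟨k 3 (by simp), k 4 (by simp)⟩
    have a3 : n ≠ 10 := by
      rintro rfl
      have := h.eq
      obtain ⟨X, ⟨e'⟩⟩ := (exists_A5_iff (F := F)).2 (five_dvd_iff.2 (by omega))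
      obtain ⟨c, hc'⟩ := h.le_A5 e' (A5_le_PS e') (by omega) (by norm_num)
      have := m7 c X (by omega) hc' (A5_le_PS e') (by rw [card_equiv e', KB.card_A5])
      rw [card_equiv e', KB.card_A5] at this; omega
    rcases h.eq with rfl | rfl
    · exact Or.inr (Or.inl ⟨by omega, _, by omega, ⟨e0.trans e⟩⟩)
    · exact Or.inr (Or.inr (Or.inl ⟨by omega, by omega, _, by omega, ⟨e0.trans e⟩⟩))
  · obtain ⟨c, hc⟩ := A4_le_sub h2 k1 e
    have h6 := mp c (hc.trans (cj_le_cj.2 (subPSL_le _))) (by rwa [card_equiv e, KB.card_A4])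
    have a1 : ¬ (p % 8 = 1 ∨ p % 8 = 7) := fun h8 => by
      obtain ⟨X, hX, ⟨e'⟩⟩ := A4_le_S4 h2 e
      have := m7 1 X (by omega) (by simpa using hX) ((S4_le_PS e').2 ((isSquare_two_iff h2).2 (h6 ▸ h8)))
        (by rw [card_equiv e', KB.card_S4]; omega)
      rw [card_equiv e', KB.card_S4, card_equiv e, KB.card_A4] at this; omega
    have a2 : ¬ (p % 10 = 1 ∨ p % 10 = 9) := fun h8 => by
      obtain ⟨Y, ⟨e''⟩⟩ := (exists_A5_iff (F := F)).2 (five_dvd_iff.2 (by omega))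
      obtain ⟨X, hX, ⟨e'⟩⟩ := A4_le_A5 h2 e e''
      have := m7 1 X (by omega) (by simpa using hX) (A5_le_PS e') (by rw [card_equiv e', KB.card_A5])
      rw [card_equiv e', KB.card_A5, card_equiv e, KB.card_A4] at this; omega
    exact Or.inr (Or.inr (Or.inr (Or.inr (Or.inr (Or.inr (Or.inl ⟨h6, by omega, a2, ⟨e0.trans e⟩⟩))))))
  · obtain ⟨c, hc, -⟩ := S4_le_sub k1 e
    have h6 := mp c hc (by rwa [card_equiv e, KB.card_S4])
    exact Or.inr (Or.inr (Or.inr (Or.inr (Or.inr (Or.inr (Or.inr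
      ⟨h6, h6 ▸ (isSquare_two_iff h2).1 ((S4_le_PS e).1 hM.le), ⟨e0.trans e⟩⟩))))))
  · have h6 := five_dvd_iff.1 (exists_A5_iff.1 ⟨H, ⟨e⟩⟩)
    obtain ⟨n, -, hn⟩ := FiniteField.card F p
    have p5 : p ≠ 5 := by rintro rfl; simp at k
    have p2 : p % 2 = 1 := by rw [hn, Nat.odd_pow_iff n.ne_zero] at hodd; exact Nat.odd_iff.1 hodd
    have p5' : p % 5 ≠ 0 := fun e => p5 ((Nat.prime_dvd_prime_iff_eq Nat.prime_five hp).1 (by omega)).symm
    have q5 : Fintype.card F % 5 ≠ 0 := fun e => p5' (by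
      have := Nat.prime_five.dvd_of_dvd_pow (hn ▸ Nat.dvd_of_mod_eq_zero e); omega)
    have a1 : ∀ k0 : Subfield F, 7 ≤ Nat.card k0 → Nat.card k0 % 5 = 1 ∨ Nat.card k0 % 5 = 4 →
        Fintype.card F = Nat.card k0 := fun k0 h7 h8 => by
      obtain ⟨c, hc⟩ := A5_le_sub k0 (five_dvd_iff.2 (Or.inr h8)) e
      rw [eq_comm, ← subfield_eq_top_iff]
      by_contra k
      have := Subgroup.card_le_of_le (ms c k0 (hc.trans (cj_le_cj.2 (subPSL_le _))) k)
      have := card_subPSL_gt h7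
      rw [card_cj, card_equiv e, KB.card_A5] at *; omega
    refine Or.inr (Or.inr (Or.inr (Or.inr (Or.inr (Or.inl ⟨by omega, ?_, ⟨e0.trans e⟩⟩)))))
    by_cases h7 : p % 5 = 1 ∨ p % 5 = 4
    · have := hp.one_lt
      exact Or.inl (hk1 ▸ a1 k1 (by omega) (hk1 ▸ h7))
    · have h8 : p ^ 2 % 5 = 4 := by
        rcases (by omega : p % 5 = 2 ∨ p % 5 = 3) with e | e <;> simp [Nat.pow_mod, e]
      obtain ⟨j, hj⟩ : Even (n : ℕ) := by
        by_contra h9
        obtain ⟨j, hj⟩ := Nat.not_even_iff_odd.1 h9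
        have : (p ^ 2) ^ j % 5 = 1 ∨ (p ^ 2) ^ j % 5 = 4 := by
          clear hj
          induction j with
          | zero => simp
          | succ j ih => rcases ih with e | e <;> simp [pow_succ _ j, Nat.mul_mod, e, h8]
        rw [hn, hj, pow_succ, pow_mul, Nat.mul_mod] at h6
        rcases (by omega : p % 5 = 2 ∨ p % 5 = 3) with e | e <;> rcases this with e' | e' <;> simp [e, e'] at h6
      obtain ⟨k2, hk2⟩ := exists_subfield (F := F) (a := p ^ 2) (m := j) (by rw [hn, hj, ← pow_mul, two_mul])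
      have : 3 ≤ p := by have := hp.one_lt; omega
      exact Or.inr ⟨hk2 ▸ a1 k2 (by nlinarith) (by omega), by omega⟩
  · rcases k' with rfl | ⟨-, rfl⟩
    · obtain ⟨m, -, hm⟩ := card_eq_pow_subfield k0
      obtain ⟨k2, h6, h7⟩ := exists_subfield_sq hm (even_of_subPGL_le hm hodd (by
        have := hM.le; rwa [cj_le_iff, cj_of_normal] at this))
      have h8 := mx' _ (cj_le_cj.2 (subPGL_mono h6)) (by rw [cj_le_iff, cj_of_normal]; exact subPGL_le_PS h7 even_two)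
        (not_PS_le (ne_top_of_card h7 le_rfl) c)
      obtain ⟨K, _, _, hK⟩ := exists_type0 k2
      exact Or.inr (Or.inr (Or.inr (Or.inl ⟨K, inferInstance, inferInstance, by rw [hK, h7],
        ⟨(e0.trans (MulEquiv.subgroupCongr h8)).trans ((cjEquiv c _).symm.trans (subPGL_equiv k2 hK).some)⟩⟩)))
    · obtain ⟨k2, r, hr, h6, h7⟩ := exists_maximal_subfield k
      have h9 := not_PS_le (ne_top_of_card h7 hr.two_le) c
      have h8 := mx' _ (cj_le_cj.2 (subPSL_mono h6)) (by rw [cj_le_iff, cj_of_normal]; exact subPSL_le_PS _)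
        fun k => h9 (k.trans (cj_le_cj.2 (subPSL_le _)))
      obtain ⟨K, _, _, hK⟩ := exists_type0 k2
      refine Or.inr (Or.inr (Or.inr (Or.inr (Or.inl ⟨K, inferInstance, inferInstance, r, hr, ?_, by rw [hK, h7],
        ⟨(e0.trans (MulEquiv.subgroupCongr h8)).trans ((cjEquiv c _).symm.trans (subPSL_equiv k2 hK).some)⟩⟩))))
      refine Nat.not_even_iff_odd.1 fun he => (subPSL_lt (k0 := k2) hodd).not_ge ((cj_le_cj (c := c)).1 ?_)
      rw [← h8, ← mx' _ (h8.le.trans (cj_le_cj.2 (subPSL_le _)))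
        (by rw [cj_le_iff, cj_of_normal]; exact subPGL_le_PS h7 he) h9]


end Cfsg.Agent.S5892
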