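import Cfsg.Statements.S5893
import Cfsg.Agent.H5.PSL2Max

set_option autoImplicit false
open Cfsg

namespace Cfsg.Agent.S5893

open H5

/-- Let F be a finite field of even order q ≥ 4 and let M be a maximal subgroup of PSL₂(F) (= SL₂(F) = PGL₂(F)). Then one of the following holds: |M| = q(q − 1) (the stabiliser of a point of the projective line, elementary abelian of order q extended by a cyclic group of order q − 1); M is dihedral of order 2(q − 1); M is dihedral of order 2(q + 1); or q = q₀^r for a prime r with q₀ ≠ 2 and M ≅ PSL₂(F₀) with |F₀| = q₀. -/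
theorem result {F : Type*} [Field F] [Fintype F]
    (heven : Even (Fintype.card F)) (h4 : 4 ≤ Fintype.card F) (M : Subgroup (Matrix.ProjectiveSpecialLinearGroup (Fin 2) F)) (hM : IsCoatom M) :
    Nat.card M = Fintype.card F * (Fintype.card F - 1) ∨
    Nonempty (M ≃* DihedralGroup (Fintype.card F - 1)) ∨
    Nonempty (M ≃* DihedralGroup (Fintype.card F + 1)) ∨
    (∃ (F₀ : Type) (_ : Field F₀) (_ : Fintype F₀) (r : ℕ), r.Prime ∧ Fintype.card F₀ ≠ 2 ∧
        Fintype.card F = Fintype.card F₀ ^ r ∧ Nonempty (M ≃* Matrix.ProjectiveSpecialLinearGroup (Fin 2) F₀)) := by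
  have e0 := pslSub M
  rw [isCoatom_psl] at hM
  have : CharP F 2 := ringChar.of_eq (FiniteField.even_card_iff_char_two.2 (Nat.even_iff.1 heven))
  have mx : ∀ L, M.map psl ≤ L → ¬ PS F ≤ L → M.map psl = L := fun L h1 h2 =>
    CovBy.eq_of hM h1 (PS_eq_top heven ▸ le_top) h2
  rcases dickson_proper 2 hM.lt.not_ge with ⟨x, hx⟩ | ⟨n, T, D, h, hl⟩ | ⟨k, -⟩ | ⟨k, -⟩ | ⟨k, -⟩ | ⟨c, k0, k, h3, k'⟩
  · exact Or.inl (by rw [card_equiv e0, mx _ hx (not_PS_le_stab x), card_stab])
  · obtain rfl := mx _ hl (not_PS_le_D h (by omega))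
    obtain ⟨e⟩ := h.dihedral
    rcases h.eq with rfl | rfl
    · exact Or.inr (Or.inl ⟨e0.trans e⟩)
    · exact Or.inr (Or.inr (Or.inl ⟨e0.trans e⟩))
  · simp at k
  · simp at k
  · simp at k
  · have k' := k'.resolve_right fun h => Nat.not_even_iff_odd.2 h.1 heven
    obtain ⟨k1, r, hr, h1, h2⟩ := exists_maximal_subfield k
    have h5 := mx _ (k'.le.trans (cj_le_cj.2 (subPGL_mono h1))) (not_PS_le (ne_top_of_card h2 hr.two_le) c)
    obtain ⟨K, _, _, hK⟩ := exists_type0 k1
    have := Nat.card_le_card_of_injective _ (Subfield.inclusion h1).injective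
    rw [← subPSL_eq_subPGL heven] at h5
    exact Or.inr (Or.inr (Or.inr ⟨K, inferInstance, inferInstance, r, hr, by omega, by rw [hK, h2],
      ⟨(e0.trans (MulEquiv.subgroupCongr h5)).trans ((cjEquiv c _).symm.trans (subPSL_equiv k1 hK).some)⟩⟩))


end Cfsg.Agent.S5893
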