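import Cfsg.Statements.S5894
import Cfsg.Agent.H2.Half

set_option autoImplicit false
open Cfsg

namespace Cfsg.Agent.S5894

open MulAction Equiv Subgroup Pointwise in

/-- For every m ≥ 2 the symmetric group on 2m letters has a maximal subgroup M of index 2m together with a maximal subgroup H of M that is not second maximal: some maximal subgroup K of the symmetric group contains H without H being maximal in K. (One may take M the stabiliser of a letter, H ≅ S_m × S_{m−1} inside it, and K ≅ S_m ≀ S₂ the stabiliser of a partition into two m-sets, with H < S_m × S_m < K.) So the prime-index hypothesis in the second-maximality criterion cannot be relaxed to any even index ≥ 4. -/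
theorem result (m : ℕ) (hm : 2 ≤ m) :
    ∃ M H K : Subgroup (Equiv.Perm (Fin (2 * m))), IsCoatom M ∧ M.index = 2 * m ∧ H ≤ M ∧ IsCoatom (H.subgroupOf M) ∧
      IsCoatom K ∧ H ≤ K ∧ ¬ IsCoatom (H.subgroupOf K) := by
  classical
  let x : Fin (2 * m) := ⟨0, by omega⟩
  let O : Set (Fin (2 * m)) := {i | i.val < m}
  have hO : O.ncard = m := by
    have : O = (Fin.castLE (by omega : m ≤ 2 * m)) '' Set.univ := by
      ext i; simp only [O, Set.mem_setOf_eq, Set.image_univ, Set.mem_range]
      exact ⟨fun h => ⟨⟨i, h⟩, rfl⟩, by rintro ⟨j, rfl⟩; exact j.2⟩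
    rw [this, Set.ncard_image_of_injective _ (Fin.castLE_injective _), Set.ncard_univ, Nat.card_fin]
  have hOc : Oᶜ.ncard = m := by
    have := Set.ncard_add_ncard_compl O
    rw [Nat.card_fin] at this; omega
  obtain ⟨K', h1, h2⟩ := H2H.exists_half (Ω := Fin (2 * m)) (by simp; omega) O (hO.trans hOc.symm)
  obtain ⟨K, h3, h4⟩ := (eq_top_or_exists_le_coatom K').resolve_left h2
  haveI : Nontrivial (Fin (2 * m)) := Fin.nontrivial_iff_two_le.2 (by omega)
  have hxO : x ∈ O := by show 0 < m; omega
  refine ⟨stabilizer _ x, stabilizer _ x ⊓ stabilizer _ O, K, (isCoatom_stabilizer_iff_preprimitive _ x).2 inferInstance,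
    by rw [index_stabilizer_of_transitive, Nat.card_fin], inf_le_left, ?_, h3, inf_le_right.trans (h1.le.trans h4), ?_⟩
  · rw [inf_subgroupOf_left]
    refine H2H.coatom_in_stab x O hxO ⟨⟨1, by omega⟩, by show 1 < m; omega, by simp [x]⟩
      ⟨⟨m, by omega⟩, by simp [O]⟩ (by rw [Nat.card_fin, hO]; omega)
  · intro h
    have h5 : (stabilizer (Perm (Fin (2 * m))) x ⊓ stabilizer _ O).subgroupOf K < (stabilizer _ O).subgroupOf K := by
      refine lt_of_le_of_ne (fun x hx => hx.2) fun e => ?_
      let y : Fin (2 * m) := ⟨1, by omega⟩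
      have hs : swap x y ∈ stabilizer (Perm (Fin (2 * m))) O :=
        H2H.swap_mem hxO (by show 1 < m; omega)
      have : (⟨swap x y, h4 (h1.le hs)⟩ : K) ∈ (stabilizer (Perm (Fin (2 * m))) x ⊓ stabilizer _ O).subgroupOf K := e ▸ hs
      have h6 : swap x y x = x := this.1
      simp [x, y] at h6
    exact h1.not_ge (h4.trans (subgroupOf_eq_top.1 (h.2 _ h5)))

end Cfsg.Agent.S5894
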