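import Cfsg.Statements.S5895
import Cfsg.Agent.H5.Decomp

set_option autoImplicit false
open Cfsg

namespace Cfsg.Agent.S5895

open Subgroup MulAction Projectivization

/-- For every prime p and every d ≥ 2 there is a finite group G with a maximal subgroup M of index p^d and a maximal subgroup H of M that is not second maximal in G: some maximal subgroup K of G contains H without H being maximal in K. (One may take G the affine group V ⋊ GL(V) of V = 𝔽_p^d, M = GL(V), H the stabiliser in M of a line W of V, and K = V ⋊ H, with H < W ⋊ H < K.) So the prime-index hypothesis in the second-maximality criterion cannot be relaxed to prime-power index. -/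
theorem result (p d : ℕ) (hp : p.Prime)
    (hd : 2 ≤ d) :
    ∃ (G : Type) (_ : Group G) (_ : Finite G) (M H K : Subgroup G), IsCoatom M ∧ M.index = p ^ d ∧ H ≤ M ∧
      IsCoatom (H.subgroupOf M) ∧ IsCoatom K ∧ H ≤ K ∧ ¬ IsCoatom (H.subgroupOf K) := by
  have := Fact.mk hp
  let V := Fin d → ZMod p
  have fin : Finite (V ≃ᵃ[ZMod p] V) := Finite.of_injective _ DFunLike.coe_injective
  let _ : MulAction (V ≃ᵃ[ZMod p] V) V := { smul g v := g v, one_smul _ := rfl, mul_smul _ _ _ := rfl }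
  let M := stabilizer (V ≃ᵃ[ZMod p] V) (0 : V)
  have hM : ∀ g, g ∈ M ↔ g 0 = 0 := fun g => Iff.rfl
  have A : ∀ (g : V ≃ᵃ[ZMod p] V) v, g v = g.linear v + g 0 := fun g v => by simpa using g.map_vadd 0 v
  let e : V := Pi.single ⟨0, by omega⟩ 1
  let e' : V := Pi.single ⟨1, by omega⟩ 1
  have e0 : e ≠ 0 := by simp [e, V]
  have ee : ∀ c : ZMod p, c • e ≠ e' := fun c h => by simpa [e, e', V, Pi.single_apply, Fin.ext_iff] using congrFun h ⟨1, by omega⟩
  have : Nontrivial (Projectivization (ZMod p) V) := ⟨mk _ e e0, mk _ e' (by simp [e', V]), fun h => by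
    obtain ⟨c, h⟩ := (mk_eq_mk_iff' _ _ _ _ _).1 h.symm; exact ee c h⟩
  have : IsPreprimitive (V ≃ₗ[ZMod p] V) (Projectivization (ZMod p) V) :=
    isPreprimitive_of_is_two_pretransitive inferInstance
  have S := IsPreprimitive.isCoatom_stabilizer_of_isPreprimitive (V ≃ₗ[ZMod p] V) (mk (ZMod p) e e0)
  have S' : ∀ g : V ≃ₗ[ZMod p] V, g ∈ stabilizer _ (mk (ZMod p) e e0) ↔ ∃ c : ZMod p, c • e = g e := fun g => by
    rw [mem_stabilizer_iff, smul_mk, mk_eq_mk_iff']; rfl
  let K := (stabilizer (V ≃ₗ[ZMod p] V) (mk (ZMod p) e e0)).comap (AffineEquiv.linearHom (P₁ := V))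
  have T : ∀ v w : V, v ≠ 0 → w ≠ 0 → ∃ g : V ≃ₗ[ZMod p] V, g v = w := fun v w hv hw => by
    obtain ⟨g, h⟩ := exists_smul_eq (V ≃ₗ[ZMod p] V) (mk (ZMod p) v hv) (mk (ZMod p) w hw)
    obtain ⟨c, h⟩ := (mk_eq_mk_iff _ _ _ _ _).1 h.symm
    exact ⟨g.trans (LinearEquiv.smulOfUnit c), h⟩
  refine ⟨V ≃ᵃ[ZMod p] V, inferInstance, fin, M, M ⊓ K, K, ⟨fun h => ?_, fun X hX => ?_⟩, ?_, inf_le_left, ?_,
    isCoatom_comap_of_surjective (fun g => ⟨g.toAffineEquiv, rfl⟩) S, inf_le_right, fun h => ?_⟩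
  · exact e0 ((add_zero e).symm.trans ((hM _).1 (h ▸ mem_top (AffineEquiv.constVAdd (ZMod p) V e))))
  · obtain ⟨x, x1, x2⟩ := SetLike.exists_of_lt hX
    refine eq_top_iff.2 fun g _ => ?_
    by_cases c : g ∈ M
    · exact hX.le c
    obtain ⟨a, ha⟩ := T _ _ x2 c
    have := mul_mem (mul_mem (hX.le (show a.toAffineEquiv ∈ M from a.map_zero)) x1)
      (hX.le (show (a.toAffineEquiv * x)⁻¹ * g ∈ M from by
        rw [mem_stabilizer_iff, mul_smul, inv_smul_eq_iff]; exact ha.symm))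
    rwa [mul_inv_cancel_left] at this
  · have : IsPretransitive (V ≃ᵃ[ZMod p] V) V := ⟨fun x y => ⟨AffineEquiv.constVAdd _ _ (y - x), by
      change y - x + x = y; simp⟩⟩
    rw [index_stabilizer_of_transitive]; simp [V]
  · rw [inf_subgroupOf_left]
    exact isCoatom_comap_of_surjective (φ := AffineEquiv.linearHom.comp M.subtype)
      (fun g => ⟨⟨g.toAffineEquiv, g.map_zero⟩, rfl⟩) S
  · let L : Subgroup K :=
      { carrier := {g | ∃ c : ZMod p, c • e = g.1 0}
        one_mem' := ⟨0, by simp⟩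
        mul_mem' := by
          rintro a b ⟨c, h⟩ ⟨c', h'⟩
          obtain ⟨t, ht⟩ := (S' _).1 a.2
          refine ⟨c' * t + c, ?_⟩
          change _ = a.1 (b.1 0)
          rw [A, ← h', ← h, map_smul, add_smul, mul_smul, ht]; rfl
        inv_mem' := by
          rintro a ⟨c, h⟩
          obtain ⟨t, ht⟩ := (S' _).1 a⁻¹.2
          refine ⟨-(c * t), ?_⟩
          have := A a⁻¹.1 (a.1 0)
          rw [show a⁻¹.1 (a.1 0) = 0 from a.1.symm_apply_apply 0, ← h, map_smul] at this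
          rw [neg_smul, mul_smul, ht, neg_eq_iff_add_eq_zero]; exact this.symm }
    have t : ∀ v, AffineEquiv.constVAdd (ZMod p) V v ∈ K := fun v => (S' _).2 ⟨1, one_smul _ _⟩
    have := h.2 L (lt_of_le_of_ne (fun g hg => ⟨0, by rw [zero_smul]; exact hg.1.symm⟩) fun h => by
      have : (⟨_, t e⟩ : K) ∈ (M ⊓ K).subgroupOf K := h ▸ ⟨1, by simp⟩
      exact e0 ((add_zero e).symm.trans ((hM _).1 this.1)))
    obtain ⟨c, hc⟩ : (⟨_, t e'⟩ : K) ∈ L := this ▸ mem_top _
    exact ee c (hc.trans (add_zero e'))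


end Cfsg.Agent.S5895
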