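import Cfsg.Statements.S5896
import Cfsg.Agent.H5.SL

set_option autoImplicit false
open Cfsg

namespace Cfsg.Agent.S5896

open Subgroup MulAction Projectivization MatrixGroups

variable {R : Type} [CommRing R]

def U (x : R) : SL(2, R) := ⟨!![1, x; 0, 1], by simp⟩
def L (x : R) : SL(2, R) := ⟨!![1, 0; x, 1], by simp⟩
def D (u : Rˣ) : SL(2, R) := ⟨!![u, 0; 0, (u⁻¹ : Rˣ)], by simp⟩

theorem cU (x : R) : (U x).1 = !![1, x; 0, 1] := rfl
theorem cL (x : R) : (L x).1 = !![1, 0; x, 1] := rfl
theorem cD (u : Rˣ) : (D u).1 = !![(u : R), 0; 0, (u⁻¹ : Rˣ)] := rfl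

theorem step (X : Subgroup SL(2, R)) (a : R) (h : ∀ x, U (a * x) ∈ X ∧ L (a * x) ∈ X) (h1 : IsUnit (1 + a * a))
    (h2 : IsUnit (2 + a * a)) (x : R) : U (a ^ 3 * x) ∈ ⁅X, X⁆ ∧ L (a ^ 3 * x) ∈ ⁅X, X⁆ := by
  obtain ⟨u, hu⟩ := h1
  obtain ⟨v, hv⟩ := h2
  have a1 : (u : R) * (u⁻¹ : Rˣ) = 1 := by simp
  have a2 : (v : R) * (v⁻¹ : Rˣ) = 1 := by simp
  have d : D u ∈ X := by
    have : D u = L (a * -(u⁻¹ : Rˣ)) * U (a * 1) * L (a * 1) * U (a * -(u⁻¹ : Rˣ)) := by
      apply Subtype.ext; simp only [Matrix.SpecialLinearGroup.coe_mul, cU, cL, cD]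
      ext i j; fin_cases i <;> fin_cases j <;> simp <;> grind
    rw [this]; exact mul_mem (mul_mem (mul_mem (h _).2 (h _).1) (h _).2) (h _).1
  constructor
  · convert commutator_mem_commutator d (h (x * (v⁻¹ : Rˣ))).1
    rw [commutatorElement_def, eq_mul_inv_iff_mul_eq, eq_mul_inv_iff_mul_eq]
    apply Subtype.ext; simp only [Matrix.SpecialLinearGroup.coe_mul, cU, cL, cD]
    ext i j; fin_cases i <;> fin_cases j <;> simp <;> grind
  · convert commutator_mem_commutator (inv_mem d) (h (x * (v⁻¹ : Rˣ))).2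
    rw [commutatorElement_def, eq_mul_inv_iff_mul_eq, inv_inv, mul_assoc, eq_inv_mul_iff_mul_eq]
    apply Subtype.ext; simp only [Matrix.SpecialLinearGroup.coe_mul, cU, cL, cD]
    ext i j; fin_cases i <;> fin_cases j <;> simp <;> grind

theorem borel {F : Type} [Field F] (B : Subgroup SL(2, F)) (h : ∀ g ∈ B, g 1 0 = 0) : Group.IsSolvable B := by
  let f : B →* F := ⟨⟨fun g => g.1 0 0, rfl⟩, fun a b => by simp [Matrix.mul_apply, h b b.2]⟩
  have : Group.IsSolvable f.toHomUnits.ker := Group.isSolvable_of_comm fun a b => by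
    have k : ∀ a : f.toHomUnits.ker, a.1.1 0 0 = 1 ∧ a.1.1 1 0 = 0 ∧ a.1.1 1 1 = 1 := fun a => by
      have h1 : a.1.1 0 0 = 1 := congrArg Units.val a.2
      have := a.1.1.2
      rw [Matrix.det_fin_two, h1, h _ a.1.2] at this
      exact ⟨h1, h _ a.1.2, by simpa using this⟩
    ext i j; fin_cases i <;> fin_cases j <;> simp [Matrix.mul_apply, k a, k b, add_comm]
  exact Group.isSolvable_of_ker_le_range f.toHomUnits.ker.subtype f.toHomUnits (by simp)

/-- Finite perfect groups have solvable maximal subgroups of unbounded derived length: for every d there is a finite perfect group G (equal to its commutator subgroup) with a solvable maximal subgroup H whose derived length exceeds d, i.e. the d-th term of the derived series of H is non-trivial. (Take the derived subgroup of a wreath product S ≀ A₅ with S solvable of large derived length, and H the preimage of a maximal subgroup of A₅.) -/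
theorem result (d : ℕ) :
    ∃ (G : Type) (_ : Group G) (_ : Finite G) (H : Subgroup G), commutator G = ⊤ ∧ IsCoatom H ∧ Group.IsSolvable H ∧
      derivedSeries H d ≠ ⊥ := by
  have := Fact.mk Nat.prime_five
  let k := 3 ^ d + 1
  let R := ZMod (5 ^ k)
  have n5 : IsNilpotent (5 : R) := ⟨k, by exact_mod_cast ZMod.natCast_self (5 ^ k)⟩
  have u2 : IsUnit (2 : R) := (ZMod.isUnit_iff_coprime 2 _).2 (Nat.Coprime.pow_right _ (by norm_num))
  have u3 : IsUnit (3 : R) := (ZMod.isUnit_iff_coprime 3 _).2 (Nat.Coprime.pow_right _ (by norm_num))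
  let E : Subgroup SL(2, R) := closure (Set.range U ∪ Set.range L)
  have E1 : ∀ x, U x ∈ E ∧ L x ∈ E := fun x => ⟨subset_closure (.inl ⟨x, rfl⟩), subset_closure (.inr ⟨x, rfl⟩)⟩
  let c : R →+* ZMod 5 := ZMod.castHom (dvd_pow_self 5 (Nat.succ_ne_zero _)) _
  let π : E →* SL(2, ZMod 5) := (Matrix.SpecialLinearGroup.map c).comp E.subtype
  have hπ : ∀ g i j, π g i j = c (g.1 i j) := fun _ _ _ => rfl
  have S : Function.Surjective π := MonoidHom.range_eq_top.1 (H5.eq_top_of_transvection_mem _ fun i j h x => by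
    obtain ⟨y, rfl⟩ := ZMod.castHom_surjective (dvd_pow_self 5 (show k ≠ 0 from Nat.succ_ne_zero _)) x
    fin_cases i <;> fin_cases j
    · simp at h
    · exact ⟨⟨_, (E1 y).1⟩, by ext i j; fin_cases i <;> fin_cases j <;> simp [hπ, U, Matrix.SpecialLinearGroup.transvection, Matrix.transvection] <;> rfl⟩
    · exact ⟨⟨_, (E1 y).2⟩, by ext i j; fin_cases i <;> fin_cases j <;> simp [hπ, L, Matrix.SpecialLinearGroup.transvection, Matrix.transvection] <;> rfl⟩
    · simp at h)
  have e0 : (Pi.single 0 1 : Fin 2 → ZMod 5) ≠ 0 := by simp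
  let B := stabilizer SL(2, ZMod 5) (mk (ZMod 5) _ e0)
  have hB : ∀ g, g ∈ B ↔ g 1 0 = 0 := fun g => by
    rw [mem_stabilizer_iff, smul_mk, mk_eq_mk_iff']
    refine ⟨fun ⟨a, h⟩ => ?_, fun h => ⟨g 0 0, ?_⟩⟩
    · simpa [Matrix.SpecialLinearGroup.smul_def] using (congrFun h 1).symm
    · ext i; fin_cases i <;> simp [Matrix.SpecialLinearGroup.smul_def, h]
  have : Nontrivial (Projectivization (ZMod 5) (Fin 2 → ZMod 5)) := ⟨mk _ _ e0, mk _ (Pi.single 1 1) (by simp), fun h => by
    obtain ⟨c, h⟩ := (mk_eq_mk_iff' _ _ _ _ _).1 h; simpa using congrFun h 0⟩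
  refine ⟨E, inferInstance, inferInstance, B.comap π, ?_, isCoatom_comap_of_surjective S
    (IsPreprimitive.isCoatom_stabilizer_of_isPreprimitive _ _), ?_, fun h => ?_⟩
  · apply map_injective E.subtype_injective
    rw [commutator_def, map_commutator, ← MonoidHom.range_eq_map, range_subtype]
    refine le_antisymm (commutator_le_self _) ((closure_le _).2 ?_)
    have := step E 1 (fun x => E1 _) (by norm_num; exact u2) (by norm_num; exact u3)
    rintro _ (⟨x, rfl⟩ | ⟨x, rfl⟩)
    · simpa using (this x).1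
    · simpa using (this x).2
  · have := borel B fun g => (hB g).1
    have P : IsPGroup 5 (π.subgroupComap B).ker := fun g => ⟨k, by
      have : ∀ j, ∃ M : Matrix (Fin 2) (Fin 2) R, g.1.1.1.1 ^ 5 ^ j = 1 + (5 : R) ^ (j + 1) • M := fun j => by
        induction j with
        | zero =>
          have : ∀ i j, ∃ y : R, (g.1.1.1.1 - 1) i j = 5 * y := fun i j => by
            have e : c ((g.1.1.1.1 - 1) i j) = 0 := by
              have := congrArg (fun t : B => t.1 i j) g.2
              rw [Matrix.sub_apply, map_sub, ← hπ, sub_eq_zero]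
              exact this.trans (by simp [Matrix.one_apply])
            obtain ⟨z, hz⟩ := ZMod.natCast_zmod_surjective ((g.1.1.1.1 - 1) i j)
            rw [← hz, map_natCast, ZMod.natCast_eq_zero_iff] at e
            obtain ⟨y, rfl⟩ := e
            exact ⟨y, by rw [← hz]; push_cast; rfl⟩
          choose M hM using this
          exact ⟨Matrix.of M, by rw [← sub_eq_iff_eq_add']; ext i j; simpa using hM i j⟩
        | succ j ih =>
          obtain ⟨M, h⟩ := ih
          refine ⟨M + (10 * 5 ^ j : R) • M ^ 2 + (50 * (5 ^ j) ^ 2 : R) • M ^ 3 + (125 * (5 ^ j) ^ 3 : R) • M ^ 4 +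
            (125 * (5 ^ j) ^ 4 : R) • M ^ 5, ?_⟩
          rw [pow_succ 5 j, pow_mul, h, (Commute.one_left _).add_pow]
          simp only [Finset.sum_range_succ, Finset.sum_range_zero, one_pow, one_mul, smul_pow, Nat.choose,
            ← nsmul_eq_mul', pow_succ (5 : R), Nat.reduceSub, pow_zero, pow_one]
          module
      obtain ⟨M, h⟩ := this k
      have z : (5 : R) ^ (k + 1) = 0 := by
        rw [pow_succ (5 : R) k, show (5 : R) ^ k = 0 by exact_mod_cast ZMod.natCast_self (5 ^ k), zero_mul]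
      exact Subtype.ext (Subtype.ext (Subtype.ext (Subtype.ext (by simpa [z] using h))))⟩
    have := P.isNilpotent
    exact Group.isSolvable_of_ker_le_range (π.subgroupComap B).ker.subtype (π.subgroupComap B) (by simp)
  · let ι := E.subtype.comp (B.comap π).subtype
    have : ∀ j x, U ((5 : R) ^ 3 ^ j * x) ∈ (derivedSeries (B.comap π) j).map ι ∧
        L ((5 : R) ^ 3 ^ j * x) ∈ (derivedSeries (B.comap π) j).map ι := fun j => by
      induction j with
      | zero => exact fun x => ⟨⟨⟨⟨_, (E1 _).1⟩, (hB _).2 (by simp [hπ, U])⟩, trivial, rfl⟩,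
          ⟨⟨⟨_, (E1 _).2⟩, (hB _).2 (by simp [hπ, L, map_ofNat]; left; rfl)⟩, trivial, rfl⟩⟩
      | succ j ih =>
        have n : IsNilpotent ((5 : R) ^ 3 ^ j * 5 ^ 3 ^ j) := by rw [← pow_add]; exact n5.pow_of_pos (by positivity)
        rw [derivedSeries_succ, map_commutator, pow_succ 3 j, pow_mul]
        exact step _ _ ih (n.isUnit_one_add) (n.isUnit_add_left_of_commute u2 (.all _ _))
    have := (this d 1).1
    rw [h, Subgroup.map_bot, mem_bot] at this
    have : ((5 ^ 3 ^ d : ℕ) : R) = 0 := by simpa [U] using congrArg (fun g : SL(2, R) => g 0 1) this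
    have := Nat.le_of_dvd (by positivity) ((ZMod.natCast_eq_zero_iff _ _).1 this)
    exact this.not_gt (Nat.pow_lt_pow_right (by norm_num) (by omega))


end Cfsg.Agent.S5896
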