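import Cfsg.Statements.S5902
import Cfsg.Agent.S5901
import Cfsg.Agent.H1.Basic

set_option autoImplicit false
open Cfsg

namespace Cfsg.Agent.S5902

open Subgroup Pointwise H1 in

/-- Let G be a finite group, X a subgroup whose own subgroup lattice is complemented, and suppose X lies in exactly one maximal subgroup M of G. Then every subgroup H of G not contained in the normal core of M has a complement in the subgroup lattice of G (some C with H ⊔ C = G and H ⊓ C = 1); in particular the subgroup lattice of G modulo the normal core of M is complemented. -/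
theorem result {G : Type*} [Group G] [Finite G] (X M : Subgroup G)
    (hK : ComplementedLattice (Subgroup X))
    (hM : IsCoatom M) (hXM : X ≤ M) (huniq : ∀ M' : Subgroup G, IsCoatom M' → X ≤ M' → M' = M) :
    (∀ H : Subgroup G, ¬ H ≤ M.normalCore → ∃ C : Subgroup G, H ⊔ C = ⊤ ∧ H ⊓ C = ⊥) ∧
    ComplementedLattice (Subgroup (G ⧸ M.normalCore)) := by
  have key : ∀ H : Subgroup G, ¬ H ≤ M.normalCore → ∃ C : Subgroup G, H ⊔ C = ⊤ ∧ H ⊓ C = ⊥ := by
    intro H hH
    obtain ⟨g, hg⟩ : ∃ g : G, ¬ MulAut.conj g • H ≤ M := by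
      by_contra h
      push Not at h
      exact hH fun x hx g => conj_smul_le_iff.1 (h g) x hx
    obtain ⟨C, h1, h2⟩ := S5901.result ⊥ X M bot_le (fun e => hM.1 (eq_top_iff.2 (e ▸ hXM))) (fun Y _ hY => by
      obtain ⟨C, hC⟩ := exists_isCompl (Y.subgroupOf X)
      refine ⟨C.map X.subtype, bot_le, map_subtype_le _, ?_, ?_⟩
      · have := congrArg (map X.subtype) hC.sup_eq_top
        rwa [Subgroup.map_sup, subgroupOf_map_subtype, inf_eq_left.2 hY, ← MonoidHom.range_eq_map, range_subtype] at this
      · have := congrArg (map X.subtype) hC.inf_eq_bot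
        rwa [Subgroup.map_inf _ _ _ X.subtype_injective, subgroupOf_map_subtype, inf_eq_left.2 hY, Subgroup.map_bot] at this)
      hM hXM huniq _ hg (inf_bot_eq _)
    refine ⟨MulAut.conj g⁻¹ • C, ?_, ?_⟩
    · have := congrArg (MulAut.conj g⁻¹ • ·) h1
      simpa only [smul_sup, conj_inv_smul_smul, conj_smul_top] using this
    · have := congrArg (MulAut.conj g⁻¹ • ·) h2
      simpa only [smul_inf, conj_inv_smul_smul, smul_bot] using this
  refine ⟨key, ⟨fun H => ?_⟩⟩
  by_cases hH : H = ⊥
  · exact ⟨⊤, hH ▸ isCompl_bot_top⟩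
  obtain ⟨C, h1, h2⟩ := key (H.comap (QuotientGroup.mk' M.normalCore)) fun h => hH (by
    rw [eq_bot_iff]
    intro x hx
    obtain ⟨x, rfl⟩ := QuotientGroup.mk'_surjective _ x
    exact (QuotientGroup.eq_one_iff _).2 (h hx))
  refine ⟨C.map (QuotientGroup.mk' _), IsCompl.of_eq ?_ ?_⟩
  · rw [eq_bot_iff]
    rintro _ ⟨h3, x, hx, rfl⟩
    have : x ∈ H.comap (QuotientGroup.mk' M.normalCore) ⊓ C := ⟨h3, hx⟩
    rw [h2, mem_bot] at this
    simp [this]
  · have := congrArg (map (QuotientGroup.mk' M.normalCore)) h1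
    rwa [Subgroup.map_sup, map_comap_eq_self_of_surjective (QuotientGroup.mk'_surjective _),
      map_top_of_surjective _ (QuotientGroup.mk'_surjective _)] at this

end Cfsg.Agent.S5902
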