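import Cfsg.Statements.S5903
import Cfsg.Agent.S5901
import Cfsg.Agent.H1.Basic

set_option autoImplicit false
open Cfsg

namespace Cfsg.Agent.S5903

open Subgroup Pointwise H1 in

/-- Let G be a finite simple group, X a subgroup lying in exactly one maximal subgroup M of G, and N a subgroup of prime order with N ≤ X that is central in M. If the subgroup lattice of X/N is complemented, then the subgroup lattice of G is complemented. -/
theorem result {G : Type*} [Group G] [Finite G] [IsSimpleGroup G] (X M N : Subgroup G)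
    (hM : IsCoatom M) (hXM : X ≤ M) (huniq : ∀ M' : Subgroup G, IsCoatom M' → X ≤ M' → M' = M)
    (hNX : N ≤ X) (hN : (Nat.card N).Prime) (hcen : ∀ n ∈ N, ∀ m ∈ M, m * n = n * m)
    [(N.subgroupOf X).Normal] (hK : ComplementedLattice (Subgroup (X ⧸ N.subgroupOf X))) :
    ComplementedLattice (Subgroup G) := by
  haveI := Fact.mk hN
  have hint : ∀ Y : Subgroup G, N ≤ Y → Y ≤ X → ∃ C : Subgroup G, N ≤ C ∧ C ≤ X ∧ Y ⊔ C = X ∧ Y ⊓ C = N := by
    intro Y h1 hY
    obtain ⟨C, hC⟩ := exists_isCompl ((Y.subgroupOf X).map (QuotientGroup.mk' (N.subgroupOf X)))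
    have e : ((Y.subgroupOf X).map (QuotientGroup.mk' (N.subgroupOf X))).comap (QuotientGroup.mk' (N.subgroupOf X)) =
        Y.subgroupOf X := by
      rw [comap_map_eq, QuotientGroup.ker_mk', sup_eq_left]
      exact fun x hx => h1 hx
    refine ⟨(C.comap (QuotientGroup.mk' _)).map X.subtype, fun n hn => ⟨⟨n, hNX hn⟩, ?_, rfl⟩, map_subtype_le _, ?_, ?_⟩
    · have : (QuotientGroup.mk' (N.subgroupOf X)) ⟨n, hNX hn⟩ = 1 := (QuotientGroup.eq_one_iff _).2 hn
      show (QuotientGroup.mk' (N.subgroupOf X)) ⟨n, hNX hn⟩ ∈ C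
      rw [this]; exact C.one_mem
    · have := congrArg (fun Z => map X.subtype (comap (QuotientGroup.mk' (N.subgroupOf X)) Z)) hC.sup_eq_top
      rwa [← comap_sup_eq _ _ _ (QuotientGroup.mk'_surjective _), e, Subgroup.map_sup, subgroupOf_map_subtype,
        inf_eq_left.2 hY, comap_top, ← MonoidHom.range_eq_map, range_subtype] at this
    · have := congrArg (fun Z => map X.subtype (comap (QuotientGroup.mk' (N.subgroupOf X)) Z)) hC.inf_eq_bot
      rwa [comap_inf, e, Subgroup.map_inf _ _ _ X.subtype_injective, subgroupOf_map_subtype, inf_eq_left.2 hY,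
        MonoidHom.comap_bot, QuotientGroup.ker_mk', subgroupOf_map_subtype, inf_eq_left.2 hNX] at this
  refine ⟨fun H => ?_⟩
  by_cases hb : H = ⊥
  · exact ⟨⊤, hb ▸ isCompl_bot_top⟩
  by_cases ht : H = ⊤
  · exact ⟨⊥, ht ▸ isCompl_top_bot⟩
  obtain ⟨g, h1, h2⟩ : ∃ g : G, ¬ MulAut.conj g • H ≤ M ∧ ¬ N ≤ MulAut.conj g • H := by
    by_contra h
    push Not at h
    set K := sSup {Y : Subgroup G | (∃ g : G, Y = MulAut.conj g • N) ∧ Y ≤ H} with hK
    set L := sSup {Y : Subgroup G | (∃ g : G, Y = MulAut.conj g • N) ∧ ¬ Y ≤ H} with hL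
    have hKH : K ≤ H := sSup_le fun Y hY => hY.2
    have hLH : L ≤ centralizer (H : Set G) := by
      refine sSup_le ?_
      rintro _ ⟨⟨g, rfl⟩, h3⟩
      have h4 : MulAut.conj g⁻¹ • H ≤ M := by
        by_contra h5; exact h3 (conj_smul_le_iff_le.2 (h _ h5))
      refine conj_smul_le_iff.2 fun n hn y hy => ?_
      have := hcen n hn _ (conj_smul_le_iff.1 h4 y hy)
      calc y * (g * n * g⁻¹) = g * (g⁻¹ * y * g⁻¹⁻¹ * n) * g⁻¹ := by group
        _ = _ := by rw [this]; group
    have hNb : N ≠ ⊥ := fun e => by rw [e, card_bot] at hN; exact Nat.not_prime_one hN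
    have hKL : K ⊔ L = ⊤ := by
      rcases (inferInstance : (normalClosure (N : Set G)).Normal).eq_bot_or_eq_top with h3 | h3
      · exact absurd (eq_bot_iff.2 (h3 ▸ le_normalClosure)) hNb
      · rw [eq_top_iff, ← h3, normalClosure, closure_le]
        intro x hx
        obtain ⟨n, hn, hc⟩ := Group.mem_conjugatesOfSet_iff.1 hx
        obtain ⟨g, rfl⟩ := isConj_iff.1 hc
        have h4 : g * n * g⁻¹ ∈ MulAut.conj g • N := conj_smul_le_iff.1 le_rfl n hn
        by_cases h5 : MulAut.conj g • N ≤ H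
        · exact mem_sup_left ((le_sSup ⟨⟨g, rfl⟩, h5⟩ : _ ≤ K) h4)
        · exact mem_sup_right ((le_sSup ⟨⟨g, rfl⟩, h5⟩ : _ ≤ L) h4)
    have hHn : H.Normal := normalizer_eq_top_iff.1 (eq_top_iff.2 (hKL ▸ sup_le (hKH.trans le_normalizer)
      (hLH.trans (centralizer_le_normalizer _))))
    exact (hHn.eq_bot_or_eq_top).elim hb ht
  have h3 : MulAut.conj g • H ⊓ N = ⊥ := by
    rcases ((MulAut.conj g • H).subgroupOf N).eq_bot_or_eq_top_of_prime_card with h | h
    · exact disjoint_iff.1 (subgroupOf_eq_bot.1 h)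
    · exact absurd (subgroupOf_eq_top.1 h) h2
  obtain ⟨C, h4, h5⟩ := S5901.result N X M hNX (fun e => hM.1 (eq_top_iff.2 (e ▸ hXM))) hint hM hXM huniq _ h1 h3
  refine ⟨MulAut.conj g⁻¹ • C, IsCompl.of_eq ?_ ?_⟩
  · have := congrArg (MulAut.conj g⁻¹ • ·) h5
    simpa only [smul_inf, conj_inv_smul_smul, smul_bot] using this
  · have := congrArg (MulAut.conj g⁻¹ • ·) h4
    simpa only [smul_sup, conj_inv_smul_smul, conj_smul_top] using this

end Cfsg.Agent.S5903
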