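import Cfsg.Statements.S5905
import Cfsg.Agent.H5.Sym

set_option autoImplicit false
open Cfsg

namespace Cfsg.Agent.S5905

open H5 Equiv Equiv.Perm Subgroup

/-- Let Ω be a finite set and f : Ω → Fin b a map onto b ≥ 2 labels whose fibres all have the same size a ≥ 2 (a partition of Ω into b blocks of size a, so |Ω| = ab). Then the stabilizer of this partition in the symmetric group on Ω — the permutations g such that x and y lie in the same block exactly when g x and g y do, a group isomorphic to the imprimitive wreath product S_a ≀ S_b — is a maximal subgroup of the symmetric group. -/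
theorem result {Ω : Type*} [Fintype Ω] [DecidableEq Ω] (a b : ℕ) (ha : 2 ≤ a) (hb : 2 ≤ b)
    (f : Ω → Fin b) (hf : ∀ i : Fin b, Nat.card {x : Ω // f x = i} = a) :
    IsCoatom (Subgroup.closure {g : Equiv.Perm Ω | ∀ x y : Ω, f x = f y ↔ f (g x) = f (g y)}) := by
  rw [closure_pstab]
  obtain ⟨x, -⟩ := exists_over hf (by omega) ⟨0, by omega⟩
  obtain ⟨y, h1, h2⟩ := exists_mate hf ha x
  refine ⟨fun e => ?_, fun K hK => ?_⟩
  · obtain ⟨z, hz⟩ := exists_other hf (by omega) hb x
    have := (e ▸ mem_top (swap x z) : swap x z ∈ pstab f) x y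
    rw [swap_apply_left, swap_apply_of_ne_of_ne h1 (by rintro rfl; exact hz h2), h2] at this
    exact hz (this.1 rfl)
  obtain ⟨g, hg, hn⟩ := SetLike.exists_of_lt hK
  obtain ⟨u, v, e1, e2⟩ : ∃ u v, f u = f v ∧ f (g u) ≠ f (g v) := by
    by_contra! c; exact hn (mem_pstab_of c)
  rw [eq_top_iff, ← closure_isSwap, closure_le]
  rintro _ ⟨s, t, st, rfl⟩
  by_cases c : f s = f t
  · exact hK.le (swap_mem_pstab c)
  obtain ⟨h, h3, rfl, rfl⟩ := pstab_two hf (x := g u) (y := g v) (fun e => e2 (by rw [e])) st (by simp [c, e2])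
  rw [swap_apply_apply, swap_apply_apply]
  exact mul_mem (mul_mem (hK.le h3) (mul_mem (mul_mem hg (hK.le (swap_mem_pstab e1))) (inv_mem hg))) (inv_mem (hK.le h3))


end Cfsg.Agent.S5905
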