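import Cfsg.Statements.S5908
import Cfsg.Agent.H8.YU32
-- import your own Cfsg.Agent.* helpers here

set_option autoImplicit false
set_option maxRecDepth 200000
open Cfsg

namespace Cfsg.Agent.S5908

/-- The subgroup lattice of PSU₃(2) (the solvable group of order 72, realised over the field with 4 elements) is not complemented: some subgroup H has no subgroup X with H ⊔ X = ⊤ and H ⊓ X = ⊥. -/
theorem result {F : Type*} [Field F] [Fintype F] (hF : Fintype.card F = 4) :
    ¬ ComplementedLattice (Subgroup (Cfsg.PSU 3 F 2)) := by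
  intro hc
  obtain ⟨φ, h1, -, -⟩ := H8.U32Y.psu hF
  obtain ⟨C, hC⟩ := exists_isCompl ((Subgroup.center (QuaternionGroup 2)).comap φ)
  have a1 : ∀ x : QuaternionGroup 2, ∀ g, g * (x * x) = (x * x) * g := by decide
  have a2 : ∀ x : QuaternionGroup 2, x * x = 1 → ∀ g, g * x = x * g := by decide
  have le : C ≤ (Subgroup.center (QuaternionGroup 2)).comap φ := fun c hc => by
    have : c * c = 1 := (Subgroup.disjoint_def.1 hC.disjoint) (by
      rw [Subgroup.mem_comap, map_mul, Subgroup.mem_center_iff]; exact a1 _) (C.mul_mem hc hc)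
    rw [Subgroup.mem_comap, Subgroup.mem_center_iff]
    exact a2 _ (by rw [← map_mul, this, map_one])
  have top := hC.codisjoint.eq_top
  rw [sup_eq_left.2 le] at top
  obtain ⟨g, hg⟩ := h1 (QuaternionGroup.a 1)
  have : g ∈ (Subgroup.center (QuaternionGroup 2)).comap φ := top ▸ Subgroup.mem_top g
  rw [Subgroup.mem_comap, hg, Subgroup.mem_center_iff] at this
  exact absurd (this (QuaternionGroup.xa 0)) (by decide)

end Cfsg.Agent.S5908
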