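import Cfsg.Statements.S5909
import Cfsg.Agent.H5.Sym

set_option autoImplicit false
open Cfsg

namespace Cfsg.Agent.S5909

open H5 Equiv Equiv.Perm Subgroup

theorem three {Ω : Type*} [Fintype Ω] [DecidableEq Ω] (h8 : Fintype.card Ω ≠ 8) {b : ℕ} (hb : 3 ≤ b)
    {f : Ω → Fin b} (hf : ∀ i : Fin b, Nat.card {x : Ω // f x = i} = 2) {K : Subgroup (Perm Ω)}
    (hK : pstab f ⊓ alternatingGroup Ω ≤ K) (hn : ¬ K ≤ pstab f) : ∃ c ∈ K, c.IsThreeCycle := by
  choose τ τ1 τ2 using exists_mate hf le_rfl
  have U : ∀ x y, f y = f x → y = x ∨ y = τ x := fun x y h => by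
    by_contra! c
    have : ({y, x, τ x} : Finset Ω) ⊆ Finset.univ.filter fun z => f z = f x := by
      intro z hz; simp at hz ⊢; rcases hz with rfl | rfl | rfl <;> simp [h, τ2]
    have h1 := Finset.card_le_card this
    have := hf (f x)
    rw [Nat.card_eq_fintype_card, Fintype.card_subtype] at this
    rw [this, Finset.card_insert_of_notMem (by simp [c]), Finset.card_pair (τ1 x).symm] at h1
    omega
  have ττ : ∀ x, τ (τ x) = x := fun x => ((U x _ (by rw [τ2, τ2])).resolve_right (τ1 _))
  have D : ∀ x y, swap x (τ x) * swap y (τ y) ∈ K := fun x y => hK ⟨mul_mem (swap_mem_pstab (τ2 x).symm)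
    (swap_mem_pstab (τ2 y).symm), mul_mem_alternatingGroup_of_isSwap ⟨_, _, (τ1 x).symm, rfl⟩ ⟨_, _, (τ1 y).symm, rfl⟩⟩
  obtain ⟨g, hg, x, hx⟩ : ∃ g ∈ K, ∃ x, g (τ x) ≠ τ (g x) := by
    by_contra! c
    refine hn fun g hg => mem_pstab_of fun x y e => ?_
    rcases U x y e.symm with rfl | rfl
    · rfl
    · rw [c g hg, τ2]
  let ρ : Ω → Ω := fun z => g (τ (g⁻¹ z))
  have ρ1 : ∀ z, ρ z ≠ z := fun z e => τ1 (g⁻¹ z) (g.injective (by simpa [ρ] using e))
  have ρρ : ∀ z, ρ (ρ z) = z := fun z => by simp [ρ, ττ]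
  have D' : ∀ x y, swap x (ρ x) * swap y (ρ y) ∈ K := fun x y => by
    have := mul_mem (mul_mem hg (D (g⁻¹ x) (g⁻¹ y))) (inv_mem hg)
    rw [← conj_mul, ← swap_apply_apply, ← swap_apply_apply] at this
    simpa [ρ] using this
  obtain ⟨u, hu⟩ : ∃ u, ρ u ≠ τ u := ⟨g x, by simpa [ρ] using hx⟩
  clear_value ρ
  clear hx hg hn
  have C := card_fib hf
  have N : ∀ s : Finset Ω, s.card < Fintype.card Ω → ∃ t, t ∉ s := fun s h => by
    by_contra! c; exact h.not_ge (Finset.card_le_card (fun t _ => c t : Finset.univ ⊆ s))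
  have := ρ1 u; have := τ1 u
  by_cases h5 : 5 ≤ b
  · obtain ⟨w, hw⟩ := N {u, ρ u, τ u, ρ (τ u)} (Finset.card_le_four.trans_lt (by omega))
    obtain ⟨t, ht⟩ := N ({u, ρ u, w, ρ w} ∪ {τ u, τ (ρ u), τ w, τ (ρ w)}) ((Finset.card_union_le _ _).trans_lt (by
      have := Finset.card_le_four (a := u) (b := ρ u) (c := w) (d := ρ w)
      have := Finset.card_le_four (a := τ u) (b := τ (ρ u)) (c := τ w) (d := τ (ρ w))
      omega))
    simp only [Finset.mem_insert, Finset.mem_singleton, Finset.mem_union, not_or] at hw ht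
    refine ⟨_, mul_mem (D u t) (mul_mem (mul_mem (D' u w) (D t u)) (inv_mem (D' u w))), ?_⟩
    have e : ∀ z, z ≠ u → z ≠ ρ u → z ≠ w → z ≠ ρ w → (swap u (ρ u) * swap w (ρ w)) z = z := fun z a b c d => by
      rw [mul_apply, swap_apply_of_ne_of_ne c d, swap_apply_of_ne_of_ne a b]
    rw [← conj_mul, ← swap_apply_apply, ← swap_apply_apply, e t (by grind) (by grind) (by grind) (by grind),
      e (τ t) (by grind) (by grind) (by grind) (by grind), e (τ u) (by grind) (by grind) (by grind) (by grind),
      mul_apply, swap_apply_of_ne_of_ne (show u ≠ w by grind) (show u ≠ ρ w by grind), swap_apply_left, mul_assoc, swap_mul_self_mul,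
      swap_comm u, swap_comm (ρ u)]
    exact isThreeCycle_swap_mul_swap_same (by grind) (by grind) (by grind)
  obtain rfl : b = 3 := by omega
  by_cases c : ρ (τ u) = τ (ρ u)
  · obtain ⟨t, ht⟩ := N {u, ρ u, τ u, τ (ρ u)} (Finset.card_le_four.trans_lt (by omega))
    have e : ρ t = τ t := by
      by_contra e
      have := τ1 t; have := ρ1 t
      simp only [Finset.mem_insert, Finset.mem_singleton, not_or] at ht
      have := Finset.card_le_univ ({ρ t, τ t, t, τ (ρ u), τ u, ρ u, u} : Finset Ω)
      repeat rw [Finset.card_insert_of_notMem (by simp only [Finset.mem_insert, Finset.mem_singleton]; grind)] at this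
      simp at this; omega
    refine ⟨_, mul_mem (D u t) (D' t u), ?_⟩
    rw [e, mul_assoc, swap_mul_self_mul]
    exact isThreeCycle_swap_mul_swap_same (by grind) (by grind) (by grind)
  · have P : swap (τ (ρ u)) (τ u) * swap u (ρ u) ∈ K := by
      refine hK ⟨mem_pstab_of fun y z e => ?_, mul_mem_alternatingGroup_of_isSwap ⟨_, _, by grind, rfl⟩ ⟨_, _, by grind, rfl⟩⟩
      rcases U y z e.symm with rfl | rfl
      · rfl
      · have : (swap (τ (ρ u)) (τ u) * swap u (ρ u)) (τ y) = τ ((swap (τ (ρ u)) (τ u) * swap u (ρ u)) y) := by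
          simp only [mul_apply, swap_apply_def]; grind
        rw [this, τ2]
    refine ⟨_, mul_mem P (D' u (τ u)), ?_⟩
    rw [mul_assoc, swap_mul_self_mul, swap_comm]
    have := ρ1 (τ u)
    exact isThreeCycle_swap_mul_swap_same (by grind) (by grind) (by grind)

/-- Let Ω be a finite set whose size is not 8, and f : Ω → Fin b a labelling with b ≥ 2 whose fibres all have the same size a ≥ 2 (a partition into b blocks of size a). Then the even permutations preserving the partition — the intersection of the imprimitive wreath product S_a ≀ S_b with the alternating group — form a maximal subgroup of the alternating group on Ω. -/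
theorem result {Ω : Type*} [Fintype Ω] [DecidableEq Ω] (h8 : Fintype.card Ω ≠ 8) (a b : ℕ) (ha : 2 ≤ a) (hb : 2 ≤ b)
    (f : Ω → Fin b) (hf : ∀ i : Fin b, Nat.card {x : Ω // f x = i} = a) :
    IsCoatom ((Subgroup.closure {g : Equiv.Perm Ω | ∀ x y : Ω, f x = f y ↔ f (g x) = f (g y)} ⊓ alternatingGroup Ω).subgroupOf (alternatingGroup Ω)) := by
  rw [closure_pstab, inf_subgroupOf_right]
  obtain ⟨x, -⟩ := exists_over hf (by omega) ⟨0, by omega⟩
  obtain ⟨y, h1, h2⟩ := exists_mate hf ha x
  obtain ⟨z, hz⟩ := exists_other hf (by omega) hb x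
  have xz : x ≠ z := by rintro rfl; exact hz rfl
  have yz : y ≠ z := by rintro rfl; exact hz h2
  refine ⟨fun e => ?_, fun K hK => ?_⟩
  · have := (e ▸ mem_top (⟨_, (isThreeCycle_swap_mul_swap_same xz h1.symm yz.symm).mem_alternatingGroup⟩ :
      alternatingGroup Ω) : _ ∈ (pstab f).subgroupOf _) x y
    simp [swap_apply_of_ne_of_ne h1 yz, h2, hz.symm] at this
  have hK' : pstab f ⊓ alternatingGroup Ω ≤ K.map (alternatingGroup Ω).subtype := fun g hg =>
    ⟨⟨g, hg.2⟩, hK.le hg.1, rfl⟩
  have hn : ¬ K.map (alternatingGroup Ω).subtype ≤ pstab f := fun h => hK.not_ge fun g hg => h ⟨g, hg, rfl⟩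
  by_cases h3 : 3 ≤ a ∨ 3 ≤ b
  · obtain ⟨c, c1, c2⟩ : ∃ c ∈ K.map (alternatingGroup Ω).subtype, c.IsThreeCycle := by
      by_cases h : 3 ≤ a
      · obtain ⟨w, w1, w2, w3⟩ := exists_mate₂ hf h x y
        have := isThreeCycle_swap_mul_swap_same h1.symm w1.symm w2.symm
        exact ⟨_, hK' ⟨mul_mem (swap_mem_pstab h2.symm) (swap_mem_pstab w3.symm), this.mem_alternatingGroup⟩, this⟩
      · obtain rfl : a = 2 := by omega
        exact three h8 (by omega) hf hK' hn
    have := alternatingGroup_le_of_isPreprimitive_of_isThreeCycle_mem (prim_of_pstab hf ha hb h3 hK' hn) c2 c1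
    refine eq_top_iff.2 fun g _ => ?_
    obtain ⟨k, hk, e⟩ := this g.2
    exact (Subtype.ext e : k = g) ▸ hk
  obtain rfl : a = 2 := by omega
  obtain rfl : b = 2 := by omega
  have C : Nat.card Ω = 4 := by rw [Nat.card_eq_fintype_card, card_fib hf]
  obtain ⟨w, w1, w2⟩ := exists_mate hf ha z
  have U : ∀ p, p = x ∨ p = y ∨ p = z ∨ p = w := fun p => by
    by_contra! c
    have := Finset.card_le_univ ({p, x, y, z, w} : Finset Ω)
    repeat rw [Finset.card_insert_of_notMem (by simp only [Finset.mem_insert, Finset.mem_singleton]; grind)] at this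
    rw [← Nat.card_eq_fintype_card, C] at this
    simp at this
  have V : alternatingGroup.kleinFour Ω ≤ (pstab f).subgroupOf _ := fun k hk => by
    have := (alternatingGroup.kleinFour_isKleinFour C).exponent_two
    have e : ∀ p, k.1 (k.1 p) = p := fun p => by
      have := Monoid.pow_exponent_eq_one (⟨k, hk⟩ : alternatingGroup.kleinFour Ω)
      rw [‹Monoid.exponent _ = 2›, sq] at this
      exact congrArg (·.1.1 p) this
    have e' : (∀ p, k.1 p = p) ∨ ∀ p, k.1 p ≠ p := by
      rw [← SetLike.mem_coe, alternatingGroup.coe_kleinFour_of_card_eq_four C] at hk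
      rcases hk with rfl | h
      · simp
      · have s := sum_cycleType k.1
        rw [h] at s
        have := Finset.eq_univ_of_card k.1.support (by rw [← s, ← Nat.card_eq_fintype_card, C]; rfl)
        exact Or.inr fun p => mem_support.1 (this ▸ Finset.mem_univ p)
    refine mem_pstab_of (g := k.1) fun p q h => ?_
    have := U p; have := U q; have := U (k.1 p); have := U (k.1 q); have := e p; have := e q
    have := k.1.injective
    rcases e' with e' | e'
    · rw [e', e', h]
    · have := e' p; have := e' q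
      grind
  have h4 := card_dvd_of_le (V.trans hK.le)
  have h5 := card_le_of_le V
  have h6 := K.card_subgroup_dvd_card
  have h7 : Nat.card ((pstab f).subgroupOf (alternatingGroup Ω)) < Nat.card K :=
    Set.Finite.card_lt_card (Set.toFinite _) hK
  rw [alternatingGroup.kleinFour_card_of_card_eq_four C] at h4 h5
  refine eq_top_of_card_eq _ ?_
  rw [alternatingGroup.card_of_card_eq_four C] at *
  have := Nat.le_of_dvd (by norm_num) h6
  interval_cases Nat.card K <;> omega


end Cfsg.Agent.S5909
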