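import Cfsg.Statements.S5910
import Mathlib

set_option autoImplicit false
open Cfsg

namespace Cfsg.Agent.S5910

open scoped Pointwise
abbrev AA := ZMod 2 × ZMod 2
abbrev VV := AA × ZMod 2

def KK : Subgroup (Equiv.Perm VV) where
  carrier := {g | ∀ x y z, g (x+y+z) = g x + g y + g z}
  mul_mem' := by
    intro a b ha hb x y z
    simp only [Equiv.Perm.mul_apply]
    rw [hb x y z, ha]
  one_mem' := by intro x y z; rfl
  inv_mem' := by
    intro g hg x y z
    apply g.injective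
    rw [hg]; simp

lemma d1 : ∀ a b c d : AA, a ≠ b → a ≠ c → a ≠ d → b ≠ c → b ≠ d → c ≠ d → a + b + c = d := by decide +kernel

lemma inj_aff (σ : AA → AA) (hσ : Function.Injective σ) (x y z : AA) : σ (x+y+z) = σ x + σ y + σ z := by
  have h2 : ∀ u v : AA, u + u + v = v ∧ u + v + u = v ∧ v + u + u = v := by decide +kernel
  by_cases hxy : x = y
  · subst hxy; rw [(h2 x z).1, (h2 (σ x) (σ z)).1]
  by_cases hxz : x = z
  · subst hxz; rw [(h2 x y).2.1, (h2 (σ x) (σ y)).2.1]
  by_cases hyz : y = z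
  · subst hyz; rw [(h2 y x).2.2, (h2 (σ y) (σ x)).2.2]
  have h3 : ∀ x y z : AA, x ≠ y → x ≠ z → y ≠ z → x ≠ x + y + z ∧ y ≠ x + y + z ∧ z ≠ x + y + z := by decide +kernel
  obtain ⟨a, b, c⟩ := h3 x y z hxy hxz hyz
  exact (d1 _ _ _ _ (hσ.ne hxy) (hσ.ne hxz) (hσ.ne a) (hσ.ne hyz) (hσ.ne b) (hσ.ne c)).symm

lemma c_aff : ∀ c : AA → ZMod 2, (∏ i, (if c i = 0 then (1 : ℤˣ) else -1)) = 1 → ∀ x y z, c (x+y+z) = c x + c y + c z := by decide +kernel

lemma key (g : Equiv.Perm VV) (h : ∀ x y : VV, x.1 = y.1 ↔ (g x).1 = (g y).1) (hs : Equiv.Perm.sign g = 1) : g ∈ KK := by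
  let σ' : AA → AA := fun i => (g (i, 0)).1
  have hσ : Function.Injective σ' := fun i j hij => (h (i,0) (j,0)).2 hij
  let σ : Equiv.Perm AA := Equiv.ofBijective σ' (Finite.injective_iff_bijective.1 hσ)
  let c : AA → ZMod 2 := fun i => (g (i, 0)).2
  have hg : ∀ i a, g (i, a) = (σ' i, a + c i) := by
    intro i a
    have h1 : (g (i, a)).1 = σ' i := (h (i,a) (i,0)).1 rfl
    have hz : ∀ a : ZMod 2, a = 0 ∨ a = 1 := by decide
    rcases hz a with rfl | rfl
    · ext <;> simp [σ', c]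
    · have hne : g (i, 1) ≠ g (i, 0) := fun e => by
        have := g.injective e
        simp at this
      have h2 : (g (i,1)).2 ≠ c i := fun e => hne (Prod.ext h1 e)
      have h3 : ∀ u v : ZMod 2, u ≠ v → u = 1 + v := by decide
      exact Prod.ext h1 (h3 _ _ h2)
  have hdec : g = (Equiv.prodCongrLeft (fun _ : ZMod 2 => σ)) * (Equiv.prodCongrRight (fun i => Equiv.addRight (c i))) := by
    apply Equiv.ext
    rintro ⟨i, a⟩
    rw [hg]
    rfl
  have hs2 : (∏ i, (if c i = 0 then (1 : ℤˣ) else -1)) = 1 := by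
    rw [hdec, map_mul, Equiv.Perm.sign_prodCongrLeft, Equiv.Perm.sign_prodCongrRight] at hs
    have h4 : ∀ a : ZMod 2, Equiv.Perm.sign (Equiv.addRight a) = if a = 0 then 1 else -1 := by decide +kernel
    simp only [h4] at hs
    rw [Finset.prod_const, Finset.card_univ, ZMod.card, Int.units_sq, one_mul] at hs
    exact hs
  rintro ⟨x1, x2⟩ ⟨y1, y2⟩ ⟨z1, z2⟩
  have e0 : ((x1, x2) + (y1, y2) + (z1, z2) : VV) = (x1 + y1 + z1, x2 + y2 + z2) := rfl
  rw [e0, hg, hg, hg, hg, inj_aff σ' hσ, c_aff c hs2]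
  refine Prod.ext rfl ?_
  show _ = x2 + c x1 + (y2 + c y1) + (z2 + c z1)
  ring

def sw : Equiv.Perm VV where
  toFun := fun x => ((x.2, x.1.2), x.1.1)
  invFun := fun x => ((x.2, x.1.2), x.1.1)
  left_inv := fun _ => rfl
  right_inv := fun _ => rfl

lemma sw_sign : Equiv.Perm.sign sw = 1 := by
  have : sw = Equiv.swap ((1,0),0) ((0,0),1) * Equiv.swap ((1,1),0) ((0,1),1) := by
    apply Equiv.ext; decide +kernel
  rw [this, map_mul, Equiv.Perm.sign_swap (by decide), Equiv.Perm.sign_swap (by decide)]; simp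

def tc : Equiv.Perm VV := Equiv.swap ((0,0),0) ((0,0),1) * Equiv.swap ((0,0),0) ((1,0),0)

lemma tc_sign : Equiv.Perm.sign tc = 1 := by
  rw [tc, map_mul, Equiv.Perm.sign_swap (by decide), Equiv.Perm.sign_swap (by decide)]; simp

lemma tc_not : tc ∉ KK := by
  intro h
  have := h ((0,0),0) ((0,1),0) ((1,1),1)
  revert this
  decide +kernel

lemma exe {Ω : Type*} [Fintype Ω] [DecidableEq Ω]
    (f : Ω → Fin 4) (hf : ∀ i : Fin 4, Nat.card {x : Ω // f x = i} = 2) :
    ∃ e : Ω ≃ VV, ∀ x y, f x = f y ↔ (e x).1 = (e y).1 := by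
  have e1 : ∀ i : Fin 4, {x : Ω // f x = i} ≃ ZMod 2 := fun i =>
    Fintype.equivOfCardEq (by rw [← Nat.card_eq_fintype_card, hf i]; simp)
  have e2 : Fin 4 ≃ AA := Fintype.equivOfCardEq (by simp [AA])
  refine ⟨(Equiv.sigmaFiberEquiv f).symm.trans ((Equiv.sigmaCongrRight e1).trans ((Equiv.sigmaEquivProd _ _).trans (Equiv.prodCongr e2 (Equiv.refl _)))), ?_⟩
  intro x y
  simp [Equiv.sigmaFiberEquiv]

/-- Let Ω be a set with 8 elements and f : Ω → Fin 4 a labelling whose four fibres all have size 2 (a partition of the 8 points into 4 pairs). Then the group of even permutations preserving this partition, (S₂ ≀ S₄) ∩ A₈, is not a maximal subgroup of the alternating group A₈ (it lies in a subgroup isomorphic to the affine group AGL₃(2)). -/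
theorem result {Ω : Type*} [Fintype Ω] [DecidableEq Ω] (h8 : Fintype.card Ω = 8)
    (f : Ω → Fin 4) (hf : ∀ i : Fin 4, Nat.card {x : Ω // f x = i} = 2) :
    ¬ IsCoatom ((Subgroup.closure {g : Equiv.Perm Ω | ∀ x y : Ω, f x = f y ↔ f (g x) = f (g y)} ⊓ alternatingGroup Ω).subgroupOf (alternatingGroup Ω)) := by
  obtain ⟨e, he⟩ := exe f hf
  intro hc
  let φ : Equiv.Perm Ω →* Equiv.Perm VV := e.permCongrHom.toMonoidHom
  have hφ : ∀ (g : Equiv.Perm Ω) x, φ g x = e (g (e.symm x)) := fun g x => rfl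
  have hsg : ∀ g : Equiv.Perm Ω, Equiv.Perm.sign (φ g) = Equiv.Perm.sign g := fun g => Equiv.Perm.sign_permCongr e g
  let P : Subgroup (Equiv.Perm Ω) :=
    { carrier := {g : Equiv.Perm Ω | ∀ x y : Ω, f x = f y ↔ f (g x) = f (g y)}
      mul_mem' := by
        intro a b ha hb x y
        exact (hb x y).trans (ha _ _)
      one_mem' := fun x y => Iff.rfl
      inv_mem' := by
        intro g hg x y
        have := hg (g⁻¹ x) (g⁻¹ y)
        simpa using this.symm }
  have hP : Subgroup.closure {g : Equiv.Perm Ω | ∀ x y : Ω, f x = f y ↔ f (g x) = f (g y)} = P :=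
    Subgroup.closure_eq P
  rw [hP] at hc
  let K : Subgroup (alternatingGroup Ω) := (KK.comap φ).subgroupOf (alternatingGroup Ω)
  have hsurj : ∀ u : Equiv.Perm VV, ∃ g, φ g = u := e.permCongrHom.surjective
  have hlt : (P ⊓ alternatingGroup Ω).subgroupOf (alternatingGroup Ω) < K := by
    refine lt_of_le_of_ne ?_ ?_
    · intro g hg
      have h1 : (g : Equiv.Perm Ω) ∈ P := (Subgroup.mem_subgroupOf.1 hg).1
      refine Subgroup.mem_subgroupOf.2 (Subgroup.mem_comap.2 (key _ ?_ ?_))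
      · intro x y
        rw [hφ, hφ, ← he, ← h1, he]; simp
      · rw [hsg]; exact Equiv.Perm.mem_alternatingGroup.1 g.2
    · intro heq
      obtain ⟨g, hg⟩ := hsurj sw
      have hA : g ∈ alternatingGroup Ω := Equiv.Perm.mem_alternatingGroup.2 (by rw [← hsg, hg, sw_sign])
      have hK : (⟨g, hA⟩ : alternatingGroup Ω) ∈ K := by
        refine Subgroup.mem_subgroupOf.2 (Subgroup.mem_comap.2 ?_)
        show φ g ∈ KK
        rw [hg]
        intro x y z; rfl
      rw [← heq] at hK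
      have h1 : g ∈ P := (Subgroup.mem_subgroupOf.1 hK).1
      have h2 := h1 (e.symm ((0,0),0)) (e.symm ((0,0),1))
      rw [he, he, ← hφ, ← hφ, hg] at h2
      simp only [Equiv.apply_symm_apply] at h2
      revert h2
      decide +kernel
  have htop := hc.2 K hlt
  obtain ⟨g, hg⟩ := hsurj tc
  have hA : g ∈ alternatingGroup Ω := Equiv.Perm.mem_alternatingGroup.2 (by rw [← hsg, hg, tc_sign])
  have hK : (⟨g, hA⟩ : alternatingGroup Ω) ∈ K := by rw [htop]; trivial
  have h3 : φ g ∈ KK := Subgroup.mem_comap.1 (Subgroup.mem_subgroupOf.1 hK)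
  rw [hg] at h3
  exact tc_not h3

end Cfsg.Agent.S5910
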