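import Cfsg.Statements.S5911
import Cfsg.Agent.H5.Sym
import Cfsg.Agent.S2119

set_option autoImplicit false
open Cfsg

namespace Cfsg.Agent.S5911

open H5 Equiv Equiv.Perm Subgroup

theorem aux {Ω : Type*} [Fintype Ω] [DecidableEq Ω] (H : Subgroup (Equiv.Perm Ω)) (hH : H.index = Fintype.card Ω)
    (x : Ω) (h : ∀ g ∈ H, g x = x) : H = MulAction.stabilizer (Equiv.Perm Ω) x := by
  have l : H ≤ MulAction.stabilizer (Equiv.Perm Ω) x := h
  have : Nonempty Ω := ⟨x⟩
  have := relIndex_mul_index l
  rw [MulAction.index_stabilizer_of_transitive, Nat.card_eq_fintype_card, hH] at this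
  exact le_antisymm l (relIndex_eq_one.1 (Nat.eq_of_mul_eq_mul_right Fintype.card_pos (by rw [this, one_mul])))

theorem small {Ω : Type*} [Fintype Ω] [DecidableEq Ω] (H : Subgroup (Equiv.Perm Ω)) (hH : H.index = Fintype.card Ω)
    {p : ℕ} (hp : p = 2 ∨ p = 3) (h : Fintype.card Ω = p + 1) : ∃ x, ∀ g ∈ H, g x = x := by
  have pp : p.Prime := by rcases hp with rfl | rfl <;> norm_num
  have : Fact p.Prime := ⟨pp⟩
  have c := H.index_mul_card
  rw [hH, Nat.card_perm, Nat.card_eq_fintype_card (α := Ω), h, Nat.factorial_succ] at c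
  have c := Nat.eq_of_mul_eq_mul_left (by omega) c
  obtain ⟨g, hg⟩ := exists_prime_orderOf_dvd_card' (G := H) p (c ▸ Nat.dvd_factorial pp.pos le_rfl)
  have N : (zpowers g).Normal := by
    have := (zpowers g).index_mul_card
    rw [Nat.card_zpowers, hg, c] at this
    rcases hp with rfl | rfl
    · exact normal_of_index_eq_one (by rw [Nat.factorial_two] at this; omega)
    · exact normal_of_index_eq_two (by simp [Nat.factorial] at this; omega)
  rw [← Subgroup.orderOf_coe] at hg
  obtain ⟨k, hk⟩ := cycleType_prime_order (σ := g.1) (hg ▸ pp)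
  have s := sum_cycleType g.1
  rw [hk, hg, Multiset.sum_replicate, smul_eq_mul] at s
  have s' := Finset.card_le_univ g.1.support
  have s2 := Finset.card_compl g.1.support
  obtain rfl : k = 0 := by rcases hp with rfl | rfl <;> omega
  obtain ⟨x, hx⟩ := Finset.card_eq_one.1 (show g.1.supportᶜ.card = 1 by omega)
  have F : ∀ y, g.1 y = y ↔ y = x := fun y => by rw [← Finset.mem_singleton (a := x), ← hx]; simp
  refine ⟨x, fun a ha => (F _).1 ?_⟩
  obtain ⟨j, hj⟩ := N.conj_mem' g (mem_zpowers g) ⟨a, ha⟩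
  have := congrArg (fun t : H => a (t.1 x)) hj
  simp only [SubgroupClass.coe_zpow, zpow_apply_eq_self_of_apply_eq_self ((F x).2 rfl)] at this
  simpa using this.symm

/-- Let Ω be a finite set whose size n is not 6. Then every subgroup of the symmetric group on Ω of index n is the stabilizer of a point. -/
theorem result {Ω : Type*} [Fintype Ω] [DecidableEq Ω] (h6 : Fintype.card Ω ≠ 6)
    (H : Subgroup (Equiv.Perm Ω)) (hH : H.index = Fintype.card Ω) :
    ∃ x : Ω, H = MulAction.stabilizer (Equiv.Perm Ω) x := by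
  have h0 : H.index ≠ 0 := Subgroup.index_ne_zero_of_finite
  suffices ∃ x, ∀ g ∈ H, g x = x by obtain ⟨x, h⟩ := this; exact ⟨x, aux H hH x h⟩
  by_cases h1 : Fintype.card Ω = 1
  · obtain ⟨x, hx⟩ := Fintype.card_eq_one_iff.1 h1
    exact ⟨x, fun g _ => hx _⟩
  by_cases h2 : Fintype.card Ω = 2
  · have c := H.index_mul_card
    rw [hH, Nat.card_perm, Nat.card_eq_fintype_card (α := Ω), h2] at c
    obtain rfl : H = ⊥ := card_eq_one.1 (by rw [Nat.factorial_two] at c; omega)
    have : Nonempty Ω := Fintype.card_pos_iff.1 (by omega)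
    exact ⟨this.some, by simp⟩
  by_cases h3 : Fintype.card Ω = 3
  · exact small H hH (Or.inl rfl) h3
  by_cases h4 : Fintype.card Ω = 4
  · exact small H hH (Or.inr rfl) h4
  have h5 : 5 ≤ Fintype.card Ω := by omega
  have : Nontrivial Ω := Fintype.one_lt_card_iff_nontrivial.1 (by omega)
  classical
  have := Fintype.ofFinite (Perm Ω ⧸ H)
  let e : (Perm Ω ⧸ H) ≃ Ω := Fintype.equivOfCardEq (by rw [← hH, index_eq_card, Nat.card_eq_fintype_card])
  let ψ : Perm Ω →* Perm Ω := e.permCongrHom.toMonoidHom.comp (MulAction.toPermHom _ (_ ⧸ H))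
  have I : Function.Injective ψ := by
    refine e.permCongrHom.injective.comp ((MonoidHom.ker_eq_bot_iff _).1 ?_)
    rw [← normalCore_eq_ker]
    refine H.normalCore.bot_or_nontrivial.resolve_right fun e => ?_
    have := index_dvd_of_le ((alternatingGroup_le_of_normal (by simpa) e).trans H.normalCore_le)
    rw [alternatingGroup.index_eq_two] at this
    have := Nat.le_of_dvd two_pos this
    omega
  let φ := MulEquiv.ofBijective ψ (Finite.injective_iff_bijective.1 I)
  have A : (alternatingGroup Ω).comap φ.toMonoidHom = alternatingGroup Ω :=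
    eq_alternatingGroup_of_index_eq_two (by rw [index_comap_of_surjective _ φ.surjective, alternatingGroup.index_eq_two])
  obtain ⟨σ, hσ⟩ := aut_alt (by omega) h6 (φ.subgroupMap _ |>.trans (MulEquiv.subgroupCongr
    (show (alternatingGroup Ω).map φ = alternatingGroup Ω from A ▸ (map_comap_eq_self_of_surjective φ.surjective _).trans A.symm)))
  replace hσ : ∀ x ∈ alternatingGroup Ω, ψ x = σ * x * σ⁻¹ := fun x hx => hσ ⟨x, hx⟩
  refine ⟨σ⁻¹ (e (1 : Perm Ω)), fun g hg => ?_⟩
  have Z : ∀ a ∈ alternatingGroup Ω, g⁻¹ * σ⁻¹ * ψ g * σ * a = a * (g⁻¹ * σ⁻¹ * ψ g * σ) := fun a ha => by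
    have := hσ _ ((inferInstance : (alternatingGroup Ω).Normal).conj_mem a ha g)
    rw [map_mul, map_mul, map_inv, hσ a ha] at this
    calc _ = g⁻¹ * σ⁻¹ * (ψ g * (σ * a * σ⁻¹) * (ψ g)⁻¹) * ψ g * σ := by group
      _ = _ := by rw [this]; group
  have Z1 : g⁻¹ * σ⁻¹ * ψ g * σ = 1 := by
    let f := Fintype.equivFin Ω
    refine f.permCongrHom.injective ((S2119.result _ (by omega) h6).1 (MulEquiv.ext fun a => Subtype.ext ?_))
    have := congrArg f.permCongrHom (Z (f.permCongrHom.symm a) (by
      simpa [mem_alternatingGroup] using mem_alternatingGroup.1 a.2))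
    simp only [map_mul f.permCongrHom _ (f.permCongrHom.symm a), map_mul f.permCongrHom (f.permCongrHom.symm a),
      MulEquiv.apply_symm_apply] at this
    rw [MulAut.conjNormal_apply, MulAut.conjNormal_apply, this, map_one]; group
  have : g = σ⁻¹ * ψ g * σ := by rw [← inv_mul_eq_one, ← Z1]; group
  rw [this]
  have : ψ g (e (1 : Perm Ω)) = e (1 : Perm Ω) := by
    simp only [ψ]
    simpa [QuotientGroup.eq] using hg
  simp [this]


end Cfsg.Agent.S5911
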