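import Cfsg.Statements.S5912
import Cfsg.Agent.H8.Cl7
-- import your own Cfsg.Agent.* helpers here

set_option autoImplicit false
set_option maxRecDepth 200000
open Cfsg

namespace Cfsg.Agent.S5912

open H8.Cl7 MulAction in
theorem six : ∃ H₁ H₂ : Subgroup S6, H₁.index = 6 ∧ H₂.index = 6 ∧
      (¬ ∃ g : S6, Subgroup.comap (MulAut.conj g).toMonoidHom H₁ = H₂) ∧
      ∀ H : Subgroup S6, H.index = 6 →
        ∃ g : S6, Subgroup.comap (MulAut.conj g).toMonoidHom H₁ = H ∨ Subgroup.comap (MulAut.conj g).toMonoidHom H₂ = H := by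
  obtain ⟨τ, h1, h2⟩ := main
  refine ⟨_, _, (h2 _).2 ⟨0, Or.inl rfl⟩, (h2 _).2 ⟨0, Or.inr rfl⟩, fun ⟨g, e⟩ => h1 _ _ (e.symm.trans (comap_conj g 0)), fun H hH => ?_⟩
  obtain ⟨a, rfl | rfl⟩ := (h2 H).1 hH
  · exact ⟨Equiv.swap 0 a, Or.inl (by rw [comap_conj]; simp)⟩
  · refine ⟨τ.symm (Equiv.swap 0 a), Or.inr ?_⟩
    rw [show stabilizer S6 a = _ from (by rw [comap_conj]; simp : _ = (stabilizer S6 (0 : Fin 6)).comap (MulAut.conj (Equiv.swap 0 a)).toMonoidHom),
      Subgroup.comap_comap, Subgroup.comap_comap]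
    congr 1; ext1 x; simp

/-- The symmetric group on a 6-element set Ω has exactly two conjugacy classes of subgroups of index 6: there are two non-conjugate subgroups of index 6 (a point stabilizer and a transitive subgroup isomorphic to S₅), and every subgroup of index 6 is conjugate to one of them. -/
theorem result {Ω : Type*} [Fintype Ω] [DecidableEq Ω] (h6 : Fintype.card Ω = 6) :
    ∃ H₁ H₂ : Subgroup (Equiv.Perm Ω), H₁.index = 6 ∧ H₂.index = 6 ∧
      (¬ ∃ g : Equiv.Perm Ω, Subgroup.map (MulAut.conj g).toMonoidHom H₁ = H₂) ∧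
      ∀ H : Subgroup (Equiv.Perm Ω), H.index = 6 →
        ∃ g : Equiv.Perm Ω, Subgroup.map (MulAut.conj g).toMonoidHom H₁ = H ∨ Subgroup.map (MulAut.conj g).toMonoidHom H₂ = H := by
  obtain ⟨A, B, a1, a2, a3, a4⟩ := six
  let e := (Fintype.equivFinOfCardEq h6).permCongrHom
  have key : ∀ (g : Equiv.Perm Ω) (A : Subgroup (Equiv.Perm (Fin 6))), (A.comap e.toMonoidHom).map (MulAut.conj g).toMonoidHom =
      (A.comap (MulAut.conj (e g⁻¹)).toMonoidHom).comap e.toMonoidHom := fun g A => by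
    ext x
    rw [Subgroup.mem_map_equiv]
    simp
  have I := Subgroup.comap_injective (f := e.toMonoidHom) e.surjective
  refine ⟨A.comap e.toMonoidHom, B.comap e.toMonoidHom, by rw [Subgroup.index_comap_of_surjective _ e.surjective, a1],
    by rw [Subgroup.index_comap_of_surjective _ e.surjective, a2], fun ⟨g, h⟩ => a3 ⟨_, I ((key g A).symm.trans h)⟩, fun H hH => ?_⟩
  obtain ⟨g, h⟩ := a4 (H.comap e.symm.toMonoidHom) (by rw [Subgroup.index_comap_of_surjective _ e.symm.surjective, hH])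
  refine ⟨(e.symm g)⁻¹, ?_⟩
  have : (H.comap e.symm.toMonoidHom).comap e.toMonoidHom = H := by ext; simp
  rw [key, key, inv_inv, e.apply_symm_apply]
  exact h.imp (fun h => by rw [h, this]) fun h => by rw [h, this]

end Cfsg.Agent.S5912
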