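import Cfsg.Statements.S5913


set_option autoImplicit false
open Cfsg

namespace Cfsg.Agent.S5913

/-- Let S be a non-abelian simple group and n a natural number. Every normal subgroup N of the direct power S^n (functions Fin n → S) is a subproduct: there is a set T of coordinates such that N consists exactly of the elements whose coordinates outside T are trivial. In particular the minimal normal subgroups of S^n are its n factors. -/
theorem result {S : Type*} [Group S] [IsSimpleGroup S] (hS : ¬ IsMulCommutative S) (n : ℕ)
    (N : Subgroup (Fin n → S)) [N.Normal] :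
    ∃ T : Finset (Fin n), ∀ x : Fin n → S, x ∈ N ↔ ∀ i, i ∉ T → x i = 1 := by
  classical
  refine ⟨Finset.univ.filter fun i => ∃ x ∈ N, x i ≠ 1, fun x => ⟨fun hx i hi => ?_, fun hx => ?_⟩⟩
  · by_contra h; exact hi (by simpa using ⟨x, hx, h⟩)
  · have key : ∀ i, (∃ x ∈ N, x i ≠ 1) → ∀ s, Pi.mulSingle i s ∈ N := by
      rintro i ⟨y, hy, hy1⟩
      have hn : (N.comap (MonoidHom.mulSingle (fun _ : Fin n => S) i)).Normal := Subgroup.Normal.comap inferInstance _
      rcases hn.eq_bot_or_eq_top with h | h
      · exfalso
        have hz : y i ∈ Subgroup.center S := by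
          rw [Subgroup.mem_center_iff]
          intro s
          have h1 : y * Pi.mulSingle i s * y⁻¹ * (Pi.mulSingle i s)⁻¹ ∈ N := by
            have := N.mul_mem hy (Subgroup.Normal.conj_mem inferInstance _ (N.inv_mem hy) (Pi.mulSingle i s))
            simpa [mul_assoc] using this
          have h2 : y i * s * (y i)⁻¹ * s⁻¹ ∈ N.comap (MonoidHom.mulSingle (fun _ : Fin n => S) i) := by
            rw [Subgroup.mem_comap]
            convert h1 using 1
            ext j
            by_cases hj : j = i
            · subst hj; simp
            · simp [hj]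
          rw [h, Subgroup.mem_bot, mul_inv_eq_one, mul_inv_eq_iff_eq_mul] at h2
          exact h2.symm
        rcases (inferInstance : (Subgroup.center S).Normal).eq_bot_or_eq_top with h3 | h3
        · exact hy1 (by simpa [h3] using hz)
        · exact hS ⟨⟨fun a b => Subgroup.mem_center_iff.1 (h3 ▸ Subgroup.mem_top b) a⟩⟩
      · intro s
        exact (h ▸ Subgroup.mem_top s : s ∈ N.comap (MonoidHom.mulSingle (fun _ : Fin n => S) i))
    rw [← Finset.noncommProd_mulSingle x]
    refine Subgroup.noncommProd_mem _ _ fun i _ => ?_
    by_cases hi : ∃ x ∈ N, x i ≠ 1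
    · exact key i hi _
    · rw [hx i (by simpa using hi)]; simp

end Cfsg.Agent.S5913
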