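import Cfsg.Statements.S5914
import Mathlib

set_option autoImplicit false
open Cfsg

namespace Cfsg.Agent.S5914

open Subgroup

/-- A non-trivial finite group G is characteristically simple (its only characteristic subgroups are 1 and G) if and only if G is isomorphic to a direct power S^n (n ≥ 1) of some simple group S (possibly cyclic of prime order). -/
theorem result {G : Type*} [Group G] [Finite G] [Nontrivial G] :
    (∀ H : Subgroup G, H.Characteristic → H = ⊥ ∨ H = ⊤) ↔
    ∃ (S : Type) (_ : Group S) (_ : IsSimpleGroup S) (n : ℕ), 1 ≤ n ∧ Nonempty (G ≃* (Fin n → S)) := by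
  classical
  constructor
  · intro h
    obtain ⟨N, ⟨N1, N2⟩, hN⟩ := (Set.toFinite {N : Subgroup G | N.Normal ∧ N ≠ ⊥}).exists_minimalFor
      (fun N : Subgroup G => Nat.card N) _ ⟨⊤, inferInstance, top_ne_bot⟩
    replace hN : ∀ K : Subgroup G, K.Normal → K ≠ ⊥ → Nat.card N ≤ Nat.card K := fun K a b => by
      by_contra c; exact c (hN ⟨a, b⟩ (not_le.1 c).le)
    obtain ⟨_, ⟨m, f, f1, rfl, f2⟩, hM⟩ := (Set.toFinite {M : Subgroup G | ∃ (m : ℕ) (f : (Fin m → N) →* G),
      Function.Injective f ∧ f.range = M ∧ M.Normal}).exists_maximal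
      ⟨_, 0, 1, Function.injective_of_subsingleton _, rfl, by rw [MonoidHom.range_one]; infer_instance⟩
    have A : ∀ φ : MulAut G, N.map φ.toMonoidHom ≤ f.range := fun φ => by
      have n : (N.map φ.toMonoidHom).Normal := N1.map _ φ.surjective
      have c : Nat.card (N.map φ.toMonoidHom) = Nat.card N := card_map_of_injective φ.injective
      by_cases d : N.map φ.toMonoidHom ⊓ f.range = ⊥; swap
      · exact inf_eq_left.1 (eq_of_le_of_card_ge inf_le_left (c ▸ hN _ inferInstance d))
      let u := φ.toMonoidHom.comp N.subtype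
      have ur : u.range = N.map φ.toMonoidHom := by rw [MonoidHom.range_comp, range_subtype]
      have C : ∀ a b, Commute (u a) (f b) := fun a b =>
        commute_of_normal_of_disjoint _ _ n f2 (disjoint_iff.2 d) _ _ (ur ▸ ⟨a, rfl⟩) ⟨b, rfl⟩
      let e : (Fin (m + 1) → N) ≃* N × (Fin m → N) := { (Fin.consEquiv fun _ => N).symm with map_mul' := fun _ _ => rfl }
      have r : ((u.noncommCoprod f C).comp e.toMonoidHom).range = N.map φ.toMonoidHom ⊔ f.range := by
        rw [MonoidHom.range_comp, MonoidHom.range_eq_top.2 e.surjective, ← MonoidHom.range_eq_map,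
          MonoidHom.noncommCoprod_range, ur]
      exact le_sup_left.trans (hM ⟨m + 1, _, ((MonoidHom.noncommCoprod_injective u f C).2
        ⟨φ.injective.comp N.subtype_injective, f1, by rw [ur, disjoint_iff, d]⟩).comp e.injective, r,
        inferInstance⟩ le_sup_right)
    have T : f.range = ⊤ := by
      have : (⨆ φ : MulAut G, N.map φ.toMonoidHom).Characteristic := by
        refine characteristic_iff_map_le.2 fun ψ => ?_
        rw [Subgroup.map_iSup]
        exact iSup_le fun φ => le_iSup_of_le (ψ * φ) (by rw [map_map]; rfl)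
      rcases h _ this with e | e
      · exact absurd (eq_bot_iff.2 (e ▸ le_iSup_of_le 1 (by simp [MulAut.one_def]))) N2
      · exact eq_top_iff.2 (e ▸ iSup_le A)
    let e := MulEquiv.ofBijective f ⟨f1, MonoidHom.range_eq_top.1 T⟩
    have m1 : 1 ≤ m := by
      by_contra c
      obtain rfl : m = 0 := by omega
      exact not_subsingleton G e.symm.subsingleton
    have : Nontrivial N := (nontrivial_iff_ne_bot N).2 N2
    have S : IsSimpleGroup N := ⟨fun K hK => or_iff_not_imp_left.2 fun c => by
      let u := e.toMonoidHom.comp (MonoidHom.mulSingle (fun _ : Fin m => N) ⟨0, m1⟩)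
      have I : Function.Injective u := e.injective.comp fun a b h => by simpa using congrFun h ⟨0, m1⟩
      have : (K.map u).Normal := by
        rw [← map_map]
        refine Normal.map ⟨?_⟩ _ e.surjective
        rintro _ ⟨k, hk, rfl⟩ g
        refine ⟨_, hK.conj_mem k hk (g ⟨0, m1⟩), funext fun i => ?_⟩
        rcases eq_or_ne i ⟨0, m1⟩ with rfl | d <;> simp [*]
      have := hN _ this (by rwa [Ne, map_eq_bot_iff_of_injective _ I])
      rw [card_map_of_injective I] at this
      exact eq_top_of_le_card _ this⟩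
    let q : Shrink.{0} N ≃* N := (equivShrink.{0} N).symm.mulEquiv
    exact ⟨Shrink.{0} N, inferInstance, q.isSimpleGroup, m, m1, ⟨e.symm.trans (MulEquiv.piCongrRight fun _ => q.symm)⟩⟩
  · rintro ⟨S, _, _, n, hn, ⟨e⟩⟩ H hH
    refine or_iff_not_imp_left.2 fun c => ?_
    have A : ∀ (φ : MulAut (Fin n → S)) x, e.symm x ∈ H → e.symm (φ x) ∈ H := fun φ x hx => by
      have := characteristic_iff_le_comap.1 hH (e.trans (φ.trans e.symm)) hx
      simpa using this
    obtain ⟨⟨h, h1⟩, h2⟩ := (ne_bot_iff_exists_ne_one).1 c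
    obtain ⟨x, rfl⟩ := e.symm.surjective h
    obtain ⟨i, hi⟩ : ∃ i, x i ≠ 1 := by
      by_contra! d; exact h2 (Subtype.ext (by simp [show x = 1 from funext d]))
    have B : ∃ j, ∃ s : S, s ≠ 1 ∧ e.symm (Pi.mulSingle j s) ∈ H := by
      by_cases d : ∀ s t : S, s * t = t * s
      · by_cases d' : ∀ j, j = i
        · exact ⟨i, x i, hi, by convert h1; ext j; simp [d' j]⟩
        push Not at d'
        obtain ⟨j, d'⟩ := d'
        let φ : MulAut (Fin n → S) :=
          { toFun := fun y => y * Pi.mulSingle j (y i), invFun := fun y => y * Pi.mulSingle j (y i)⁻¹,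
            left_inv := fun y => by simp [d'.symm, mul_assoc, ← Pi.mulSingle_mul],
            right_inv := fun y => by simp [d'.symm, mul_assoc, ← Pi.mulSingle_mul],
            map_mul' := fun y z => by
              ext k; simp only [Pi.mul_apply, Pi.mulSingle_mul, mul_assoc]
              rw [d (z k), mul_assoc, d (z k)] }
        exact ⟨j, x i, hi, by simpa [φ] using mul_mem (inv_mem h1) (A φ x h1)⟩
      have : center S = ⊥ := (IsSimpleGroup.eq_bot_or_eq_top_of_normal _ inferInstance).resolve_right fun t =>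
        d fun a b => mem_center_iff.1 (t ▸ mem_top b) a
      obtain ⟨s, hs⟩ : ∃ s, s * x i ≠ x i * s := by
        by_contra! t; exact hi (mem_bot.1 (this ▸ mem_center_iff.2 t))
      refine ⟨i, s * x i * s⁻¹ * (x i)⁻¹, fun t => hs (by rw [← mul_inv_eq_one, ← t]; group), ?_⟩
      convert mul_mem (A (MulAut.conj (Pi.mulSingle i s)) x h1) (inv_mem h1) using 1
      rw [← map_inv, ← map_mul]; congr 1; ext k
      rcases eq_or_ne k i with rfl | d <;> simp [*]
    obtain ⟨j, s, s1, s2⟩ := B
    let K := H.comap (e.symm.toMonoidHom.comp (MonoidHom.mulSingle (fun _ : Fin n => S) j))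
    have K1 : K.Normal := ⟨fun a ha g => by
      have := A (MulAut.conj (Pi.mulSingle j g)) _ ha
      simpa [K, Pi.mulSingle_mul, Pi.mulSingle_inv] using this⟩
    have K2 : K = ⊤ := (IsSimpleGroup.eq_bot_or_eq_top_of_normal _ K1).resolve_left fun t => s1 (mem_bot.1 (t ▸ s2))
    have D : ∀ k t, e.symm (Pi.mulSingle k t) ∈ H := fun k t => by
      convert A (MulEquiv.arrowCongr (Equiv.swap j k) (.refl S)) _ (K2 ▸ mem_top t : t ∈ K)
      ext l; simp [Pi.mulSingle_apply, Equiv.swap_apply_eq_iff]
    refine eq_top_iff.2 fun g _ => ?_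
    obtain ⟨y, rfl⟩ := e.symm.surjective g
    exact (pi_mem_of_mulSingle_mem (H := H.comap e.symm.toMonoidHom) y fun k => D k _ :)


end Cfsg.Agent.S5914
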