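import Cfsg.Statements.S5946
import Cfsg.Agent.H5.Sing

set_option autoImplicit false
open Cfsg

namespace Cfsg.Agent.S5946

open H5

/-- Let F ⊆ K be finite fields with [K : F] = n ≥ 2 and regard K as an n-dimensional F-vector space. The Singer group M ≤ GL_F(K) of multiplications by the non-zero elements of K is self-centralizing: every F-linear automorphism of K commuting with all of M lies in M. -/
theorem result {F K : Type*} [Field F] [Fintype F] [Field K] [Fintype K] [Algebra F K] (n : ℕ) (hn : 2 ≤ n) (hdim : Module.finrank F K = n) :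
    Subgroup.centralizer (((Units.map ((Algebra.lmul F K : K →ₐ[F] Module.End F K) : K →* Module.End F K)).range : Subgroup (Module.End F K)ˣ) : Set (Module.End F K)ˣ) = (Units.map ((Algebra.lmul F K : K →ₐ[F] Module.End F K) : K →* Module.End F K)).range := by
  ext g
  rw [Subgroup.mem_centralizer_iff]
  refine ⟨fun h => mem_sgp.2 (cent_range _ rfl fun b => ?_), ?_⟩
  · by_cases c : b = 0
    · simp [c]
    · exact (congrArg Units.val (h _ ⟨Units.mk0 b c, rfl⟩)).symm
  · rintro ⟨a, rfl⟩ _ ⟨b, rfl⟩
    rw [← map_mul, ← map_mul, mul_comm]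


end Cfsg.Agent.S5946
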