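import Cfsg.Statements.S5947
import Cfsg.Agent.H5.Sing
import Cfsg.Agent.H5.Zsig

set_option autoImplicit false
open Cfsg

namespace Cfsg.Agent.S5947

open H5 Module

/-- Let F ⊆ K be finite fields with |F| = q and [K : F] = n ≥ 2, regard K as an n-dimensional F-vector space, and let M ≤ GL_F(K) be the Singer group of multiplications by non-zero elements of K (cyclic of order q^n − 1). Assume (n, q) ≠ (6, 2), and that it is not the case that n = 2 with q a prime such that q + 1 is a power of 2. Then every abelian subgroup of GL_F(K) of order q^n − 1 is conjugate to M. -/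
theorem result {F K : Type*} [Field F] [Fintype F] [Field K] [Fintype K] [Algebra F K] (n : ℕ) (hn : 2 ≤ n) (hdim : Module.finrank F K = n)
    (hex1 : ¬ (n = 6 ∧ Fintype.card F = 2))
    (hex2 : ¬ (n = 2 ∧ (Fintype.card F).Prime ∧ ∃ a : ℕ, Fintype.card F + 1 = 2 ^ a))
    (U : Subgroup (Module.End F K)ˣ) (hU : IsMulCommutative U) (hcard : Nat.card U = Fintype.card K - 1) :
    ∃ g : (Module.End F K)ˣ, U.map (MulAut.conj g).toMonoidHom = (Units.map ((Algebra.lmul F K : K →ₐ[F] Module.End F K) : K →* Module.End F K)).range := by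
  have q1 : 1 < Fintype.card F := Fintype.one_lt_card
  have hK : Fintype.card K = Fintype.card F ^ n := by rw [Module.card_eq_pow_finrank (K := F), hdim]
  obtain ⟨r, hr, o⟩ := zsigmondy q1 hn (fun h => hex1 h.symm) (fun ⟨h, a, ha⟩ => hex2 ⟨h, by
    obtain ⟨⟨f, f0⟩, pp, hF⟩ := FiniteField.card F (ringChar F)
    generalize ringChar F = p at *
    simp only [PNat.mk_coe] at hF
    rw [hF] at ha q1 ⊢
    rcases Nat.eq_or_lt_of_le f0 with rfl | f1
    · simpa using pp
    exfalso
    obtain ⟨a, rfl⟩ : ∃ b, a = b + 2 := Nat.exists_eq_add_of_le' (by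
      by_contra! c
      interval_cases a <;> omega)
    have po : Odd p := pp.odd_of_ne_two (by
      rintro rfl
      obtain ⟨f, rfl⟩ := Nat.exists_eq_add_of_le' f0
      rw [pow_succ, pow_succ] at ha; omega)
    rcases f.even_or_odd' with ⟨k, rfl | rfl⟩
    · obtain ⟨t, ht⟩ := po.pow (n := k)
      rw [pow_mul', ht, pow_add] at ha
      have : (2 * t + 1) ^ 2 = 4 * (t * t + t) + 1 := by ring
      omega
    · obtain ⟨t, rfl⟩ := po
      have E : ∀ k, ∃ S, (2 * t + 1) ^ (2 * k + 1) + 1 = (2 * t + 2) * (2 * S + 1) := fun k => by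
        induction k with
        | zero => exact ⟨0, by simp⟩
        | succ k ih =>
          obtain ⟨S, hS⟩ := ih
          refine ⟨S + t * (2 * t + 1) ^ (2 * k + 1), ?_⟩
          calc _ = (2 * t + 1) ^ (2 * k + 1) + 1 + (2 * t + 2) * (2 * t) * (2 * t + 1) ^ (2 * k + 1) := by ring
            _ = _ := by rw [hS]; ring
      obtain ⟨S, hS⟩ := E k
      have := Nat.Coprime.eq_one_of_dvd ((Nat.coprime_two_right.2 (odd_two_mul_add_one S)).pow_right (a + 2))
        (ha ▸ hS ▸ Dvd.intro_left _ rfl)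
      rw [this] at hS
      have := Nat.pow_lt_pow_right pp.one_lt f1
      simp at this
      omega, a, ha⟩)
  have := Fact.mk hr
  have : Finite (End F K) := Finite.of_injective _ DFunLike.coe_injective
  obtain ⟨x, hx⟩ := exists_prime_orderOf_dvd_card' (G := U) r (by rw [hcard, hK]; exact (prim_of_order q1 o).1)
  have x1 : x.1.1 ^ r = 1 := by rw [← hx]; exact congrArg (fun t : U => t.1.1) (pow_orderOf_eq_one x)
  obtain ⟨i1, i2⟩ := irr_of_order hr x1 (fun c => hr.ne_one (hx ▸ orderOf_eq_one_iff.2 (Subtype.ext (Units.ext c))))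
    finrank_pos (o.trans hdim.symm)
  obtain ⟨ψ, h1, h2⟩ := exists_emb_irr (K := K) rfl i1 i2
  have e : U = sgp ψ := Subgroup.eq_of_le_of_card_ge (fun u hu => (cent_eq_sgp AlgEquiv.refl ψ rfl h1 h2).le
    (Subgroup.mem_centralizer_singleton_iff.2 (congrArg Subtype.val (hU.is_comm.comm ⟨u, hu⟩ x))))
    (by rw [card_sgp, hcard, Nat.card_eq_fintype_card])
  obtain ⟨g, hg⟩ := exists_conj_emb ψ
  refine ⟨g, Subgroup.eq_of_le_of_card_ge ?_ (by
    rw [Subgroup.card_map_of_injective (MulAut.conj g).injective, e, card_sgp, card_sgp])⟩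
  rintro _ ⟨u, hu, rfl⟩
  obtain ⟨b, hb⟩ := mem_sgp.1 (e.le hu)
  refine mem_sgp.2 ⟨b, ?_⟩
  change _ = (g * u * g⁻¹).1
  rw [Units.val_mul, Units.eq_mul_inv_iff_mul_eq, hg, hb, Units.val_mul]


end Cfsg.Agent.S5947
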